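import Cfsg.Statements.S1894
import Cfsg.Agent.Lib.Solv.Nilp

set_option autoImplicit false
open Cfsg

namespace Cfsg.Agent.S1894

/-- Let P be a finite p-group, A a normal subgroup of P and B an abelian subgroup of A that is normal in P. Then some subgroup C of A containing B is normal in P and is self-centralizing and normal in A (C ∈ SCN(A)). -/
theorem result {P : Type*} [Group P] [Finite P] {p : ℕ} [Fact p.Prime] (hP : IsPGroup p P)
    (A : Subgroup P) [A.Normal] (B : Subgroup P) [B.Normal] (hBA : B ≤ A) (hB : IsMulCommutative B) :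
    ∃ C : Subgroup P, C.Normal ∧ B ≤ C ∧ Cfsg.IsSCN A C := by
  classical
  have hnil : Group.IsNilpotent P := hP.isNilpotent
  have hBC : B ≤ Subgroup.centralizer (B : Set P) := CfsgLib.Solv.le_centralizer_of_isMulCommutative B
  obtain ⟨C, hC⟩ := (Set.toFinite {C : Subgroup P | C.Normal ∧ B ≤ C ∧ C ≤ A ∧
      C ≤ Subgroup.centralizer (C : Set P)}).exists_maximal
    ⟨B, inferInstance, le_rfl, hBA, hBC⟩
  obtain ⟨hCn, hBC', hCA, hCC⟩ := hC.prop
  refine ⟨C, hCn, hBC', hCA, ?_, ?_⟩
  · rw [Subgroup.normalizer_eq_top C]; exact le_top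
  · apply le_antisymm _ (le_inf hCA hCC)
    by_contra hne
    have hDn : (A ⊓ Subgroup.centralizer (C : Set P)).Normal := Subgroup.normal_inf_normal _ _
    have hlt : C < A ⊓ Subgroup.centralizer (C : Set P) :=
      lt_of_le_of_ne (le_inf hCA hCC) (fun h => hne (le_of_eq h.symm))
    obtain ⟨x, hxD, hxC, hc⟩ := CfsgLib.Solv.exists_central_mod C _ hlt
    have hxA : x ∈ A := hxD.1
    have hxZ : x ∈ Subgroup.centralizer (C : Set P) := hxD.2
    set M : Subgroup P := C ⊔ Subgroup.zpowers x with hM
    have hMn : M.Normal := by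
      refine ⟨fun n hn g => ?_⟩
      have hle : M ≤ M.comap (MulAut.conj g).toMonoidHom := by
        refine sup_le ?_ ?_
        · intro y hy
          exact Subgroup.mem_sup_left (hCn.conj_mem y hy g)
        · rw [Subgroup.zpowers_le]
          change g * x * g⁻¹ ∈ M
          have h1 : g * x * g⁻¹ = (x * g * x⁻¹ * g⁻¹)⁻¹ * x := by
            group
          rw [h1]
          refine M.mul_mem (Subgroup.mem_sup_left ?_) (Subgroup.mem_sup_right (Subgroup.mem_zpowers x))
          exact C.inv_mem (hc g)
      exact hle hn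
    have hMcomm : M ≤ Subgroup.centralizer (M : Set P) := by
      apply CfsgLib.Solv.sup_le_centralizer_sup hCC
      · rw [Subgroup.zpowers_le]
        rw [Subgroup.mem_centralizer_iff]
        intro y hy
        obtain ⟨k, rfl⟩ := hy
        exact (Commute.zpow_left (Commute.refl x) k).symm.eq.symm ▸ rfl
      · rw [Subgroup.le_centralizer_iff, Subgroup.zpowers_le]
        exact hxZ
    have hMA : M ≤ A := sup_le hCA ((Subgroup.zpowers_le).2 hxA)
    have hle := hC.2 ⟨hMn, le_trans hBC' le_sup_left, hMA, hMcomm⟩ le_sup_left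
    exact hxC (hle (Subgroup.mem_sup_right (Subgroup.mem_zpowers x)))

end Cfsg.Agent.S1894
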