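import Cfsg.Statements.S1898
import Cfsg.Agent.Lib.H3.Omega2

set_option autoImplicit false
open Cfsg

namespace Cfsg.Agent.S1898

/-- Let X be a finite 2-group whose derived subgroup is elementary abelian and central. Then the subgroup generated by the elements of order dividing 4 has exponent dividing 4, and every automorphism of X fixing each element of order dividing 4 has 2-power order. -/
theorem result {X : Type*} [Group X] [Finite X] (hX : IsPGroup 2 X)
    (hel : Cfsg.IsElementaryAbelian 2 (commutator X)) (hcen : commutator X ≤ Subgroup.center X) :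
    (∀ x ∈ Subgroup.closure {g : X | g ^ 4 = 1}, x ^ 4 = 1) ∧
      ∀ φ : MulAut X, (∀ g : X, g ^ 4 = 1 → φ g = g) → ∃ k : ℕ, φ ^ (2 ^ k) = 1 := by
  classical
  constructor
  · intro x hx
    induction hx using Subgroup.closure_induction with
    | mem g hg => exact hg
    | one => simp
    | mul a b _ _ ha hb =>
      set c := b⁻¹ * a⁻¹ * b * a with hc
      have hcm : c ∈ commutator X := by
        open scoped commutatorElement in
        have e : c = ⁅b⁻¹, a⁻¹⁆ := by
          rw [commutatorElement_def, hc]; group
        rw [e]
        exact Subgroup.commutator_mem_commutator (Subgroup.mem_top _) (Subgroup.mem_top _)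
      have hcz := Subgroup.mem_center_iff.1 (hcen hcm)
      have hca : Commute c a := (hcz a).symm
      have hcb : Commute c b := (hcz b).symm
      have h1 := CfsgLib.PLocal.mul_pow_of_central_comm (x := a) (y := b) (c := c) (by rw [hc]; group) hca hcb 4
      have hc2 : c ^ 2 = 1 := hel.2 c hcm
      have hchoose : Nat.choose 4 2 = 2 * 3 := by decide
      rw [hchoose, pow_mul, hc2, one_pow, mul_one, ha, hb, one_mul] at h1
      exact h1
    | inv a _ ha =>
      rw [inv_pow, ha, inv_one]
  · intro φ hφ
    obtain ⟨k, m, hm, hn⟩ : ∃ k m : ℕ, Odd m ∧ orderOf φ = 2 ^ k * m := by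
      have h0 : orderOf φ ≠ 0 := (orderOf_pos φ).ne'
      obtain ⟨k, m, hm, hn⟩ := Nat.exists_eq_two_pow_mul_odd h0
      exact ⟨k, m, hm, hn⟩
    refine ⟨k, ?_⟩
    apply CfsgLib.Omega2.aut_trivial_of_omega_two hX
    · have h1 : orderOf (φ ^ 2 ^ k) = m := by
        rw [orderOf_pow' φ (by positivity), hn, Nat.gcd_eq_right (Dvd.intro _ rfl)]
        exact Nat.mul_div_cancel_left _ (by positivity)
      rw [h1]
      exact Nat.coprime_two_right.2 hm
    · intro x hx
      have : ∀ n : ℕ, (φ ^ n) x = x := by
        intro n
        induction n with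
        | zero => simp
        | succ n ih => rw [pow_succ, MulAut.mul_apply, hφ x hx, ih]
      exact this _

end Cfsg.Agent.S1898
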