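import Cfsg.Statements.S1899

set_option autoImplicit false
open Cfsg

namespace Cfsg.Agent.S1899

/-- Let a dihedral group of order 2n, n odd and n > 1, act on a finite abelian 2-group A through automorphisms d and t with d^n = 1, t² = 1 and t d t⁻¹ = d⁻¹, and suppose that d fixes only the identity. Then A is the internal direct product of C_A(t) and its image under d. -/
theorem result {A : Type*} [CommGroup A] [Finite A] (hA : IsPGroup 2 A)
    {n : ℕ} (hn : Odd n) (hn1 : 1 < n) (d t : MulAut A) (hd : d ^ n = 1) (ht : t ^ 2 = 1) (hdt : t * d * t⁻¹ = d⁻¹)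
    (hfix : ∀ a : A, d a = a → a = 1) :
    (MulEquiv.toMonoidHom t).eqLocus (MonoidHom.id A) ⊓ ((MulEquiv.toMonoidHom t).eqLocus (MonoidHom.id A)).map d.toMonoidHom = ⊥ ∧
      (MulEquiv.toMonoidHom t).eqLocus (MonoidHom.id A) ⊔ ((MulEquiv.toMonoidHom t).eqLocus (MonoidHom.id A)).map d.toMonoidHom = ⊤ := by
  classical
  -- write `B` for the fixed points of `t`
  set B : Subgroup A := (MulEquiv.toMonoidHom t).eqLocus (MonoidHom.id A) with hB
  have hmemB : ∀ a : A, a ∈ B ↔ t a = a := fun a => Iff.rfl
  have htd : ∀ a : A, t (d a) = d⁻¹ (t a) := by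
    intro a
    have h1 : (t * d) a = (d⁻¹ * t) a := by
      have : t * d = d⁻¹ * t := by rw [← hdt]; group
      rw [this]
    exact h1
  have hfix' : ∀ a : A, (d ^ 2) a = a → a = 1 := by
    intro a ha
    obtain ⟨k, hk⟩ := hn
    have h1 : d = (d ^ 2) ^ (k + 1) := by
      rw [← pow_mul]
      have : 2 * (k + 1) = n + 1 := by omega
      rw [this, pow_succ, hd, one_mul]
    apply hfix
    have h2 : ∀ m : ℕ, ((d ^ 2) ^ m) a = a := by
      intro m
      induction m with
      | zero => simp
      | succ m ih =>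
        rw [pow_succ]
        change ((d ^ 2) ^ m) ((d ^ 2) a) = a
        rw [ha, ih]
    rw [h1]
    exact h2 _
  -- the map `δ = d / d⁻¹` is injective, hence surjective
  let δ : A →* A :=
    { toFun := fun a => d a * (d⁻¹ a)⁻¹
      map_one' := by simp
      map_mul' := by
        intro a b
        simp only [map_mul, mul_inv_rev]
        rw [mul_comm (d⁻¹ b)⁻¹]
        simp [mul_assoc, mul_left_comm, mul_comm] }
  have hδ : ∀ a, δ a = d a * (d⁻¹ a)⁻¹ := fun a => rfl
  have hδinj : Function.Injective δ := by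
    rw [injective_iff_map_eq_one]
    intro a ha
    rw [hδ, mul_inv_eq_one] at ha
    apply hfix'
    have h2 : (d ^ 2) a = d (d a) := rfl
    rw [h2, ha]
    simp
  have hδsurj : Function.Surjective δ := Finite.surjective_of_injective hδinj
  constructor
  · rw [eq_bot_iff]
    rintro x ⟨hx1, y, hy, rfl⟩
    have hx1' : t (d y) = d y := hx1
    have hy' : t y = y := hy
    rw [htd, hy'] at hx1'
    have h1 : (d ^ 2) y = y := by
      have h3 : d (d⁻¹ y) = d (d y) := by rw [hx1']
      have h4 : d (d⁻¹ y) = y := by simp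
      rw [h4] at h3
      exact h3.symm
    have hy1 := hfix' y h1
    rw [hy1]
    simp
  · rw [eq_top_iff]
    intro a _
    obtain ⟨y, hy⟩ := hδsurj (a * (t a)⁻¹)
    have hty : t y = y := by
      apply hδinj
      rw [hy, hδ]
      have h1 : d (t y) = t (d⁻¹ y) := by
        have := htd (d⁻¹ y)
        simp at this
        rw [this]
        simp
      have h2 : d⁻¹ (t y) = t (d y) := (htd y).symm
      rw [h1, h2, ← map_inv, ← map_mul]
      have h3 : (d⁻¹ y) * (d y)⁻¹ = (δ y)⁻¹ := by
        rw [hδ]; simp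
      rw [h3, hy]
      have ht2 : t (t a) = a := by
        have : (t ^ 2) a = a := by rw [ht]; rfl
        exact this
      simp [ht2]
    set x := a * (d y)⁻¹ with hx
    have hxB : x ∈ B := by
      rw [hmemB, hx, map_mul, map_inv, htd, hty]
      have h1 : a * (t a)⁻¹ = d y * (d⁻¹ y)⁻¹ := by rw [← hy, hδ]
      have h2 : t a = a * (d y)⁻¹ * d⁻¹ y := by
        have h3 : t a = a * (a * (t a)⁻¹)⁻¹ := by simp
        rw [h3, h1]
        simp [mul_assoc]
        exact mul_comm _ _
      rw [h2]
      simp
    have hfin : a = x * d y := by rw [hx]; simp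
    rw [hfin]
    refine Subgroup.mul_mem _ (Subgroup.mem_sup_left hxB) (Subgroup.mem_sup_right ?_)
    exact ⟨y, hty, rfl⟩

end Cfsg.Agent.S1899
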