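import Cfsg.Statements.S1900
import Cfsg.Agent.Lib.H3.TwoLines

set_option autoImplicit false
open Cfsg

namespace Cfsg.Agent.S1900

/-- Let S = PQ be a finite group with P a normal Sylow p-subgroup and Q elementary abelian of order q², q a prime different from p. If exactly two subgroups X₁, X₂ of order q in Q have a nontrivial centralizer in P, then P is the internal direct product of C_P(X₁) and C_P(X₂): they commute elementwise, meet trivially and generate P. -/
theorem result {S : Type*} [Group S] [Finite S] {p q : ℕ} [Fact p.Prime] [Fact q.Prime] (hpq : p ≠ q)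
    (P : Sylow p S) [(P : Subgroup S).Normal] (Q : Subgroup S) (hQ : Cfsg.IsElementaryAbelian q Q) (hQc : Nat.card Q = q ^ 2)
    (hS : (P : Subgroup S) ⊔ Q = ⊤)
    (X₁ X₂ : Subgroup S) (h₁ : X₁ ≤ Q) (h₂ : X₂ ≤ Q) (h₁₂ : X₁ ≠ X₂) (hc₁ : Nat.card X₁ = q) (hc₂ : Nat.card X₂ = q)
    (hf₁ : (P : Subgroup S) ⊓ Subgroup.centralizer (X₁ : Set S) ≠ ⊥)
    (hf₂ : (P : Subgroup S) ⊓ Subgroup.centralizer (X₂ : Set S) ≠ ⊥)
    (honly : ∀ X : Subgroup S, X ≤ Q → Nat.card X = q →
      (P : Subgroup S) ⊓ Subgroup.centralizer (X : Set S) ≠ ⊥ → X = X₁ ∨ X = X₂) :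
    ⁅(P : Subgroup S) ⊓ Subgroup.centralizer (X₁ : Set S), (P : Subgroup S) ⊓ Subgroup.centralizer (X₂ : Set S)⁆ = ⊥ ∧
      ((P : Subgroup S) ⊓ Subgroup.centralizer (X₁ : Set S)) ⊓ ((P : Subgroup S) ⊓ Subgroup.centralizer (X₂ : Set S)) = ⊥ ∧
      ((P : Subgroup S) ⊓ Subgroup.centralizer (X₁ : Set S)) ⊔ ((P : Subgroup S) ⊓ Subgroup.centralizer (X₂ : Set S)) = P := by
  classical
  have hcomm : ∀ a ∈ Q, ∀ b ∈ Q, a * b = b * a := by
    intro a ha b hb
    have := hQ.1.is_comm.comm ⟨a, ha⟩ ⟨b, hb⟩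
    exact congrArg Subtype.val this
  have hexp : ∀ a ∈ Q, a ^ q = 1 := hQ.2
  have hq := (Fact.out : q.Prime)
  have hcard : q < Nat.card Q := by
    rw [hQc]
    have := hq.two_le
    nlinarith
  -- a nontrivial element of a subgroup of order `q` generates it
  have hgen : ∀ X : Subgroup S, Nat.card X = q → ∀ x ∈ X, x ≠ 1 → X ≤ Subgroup.zpowers x := by
    intro X hX x hx hx1
    have h1 : Subgroup.zpowers x ≤ X := by
      rw [Subgroup.zpowers_le]; exact hx
    have h2 : Nat.card (Subgroup.zpowers x) ∣ Nat.card X := Subgroup.card_dvd_of_le h1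
    rw [hX] at h2
    rcases (Nat.dvd_prime hq).1 h2 with h3 | h3
    · exfalso
      rw [Nat.card_zpowers, orderOf_eq_one_iff] at h3
      exact hx1 h3
    · have h4 : Subgroup.zpowers x = X := by
        apply Subgroup.eq_of_le_of_card_ge h1
        rw [hX, h3]
      exact h4.ge
  have hfix : ∀ x ∈ Q, x ∉ X₁ → x ∉ X₂ → (P : Subgroup S) ⊓ Subgroup.centralizer ({x} : Set S) = ⊥ := by
    intro x hx hx1 hx2
    by_contra hne
    have hne1 : x ≠ 1 := by
      rintro rfl
      exact hx1 (Subgroup.one_mem _)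
    have hcen : Subgroup.centralizer ({x} : Set S) = Subgroup.centralizer ((Subgroup.zpowers x : Subgroup S) : Set S) := by
      apply le_antisymm
      · intro w hw
        rw [Subgroup.mem_centralizer_iff]
        intro y hy
        obtain ⟨k, rfl⟩ := Subgroup.mem_zpowers_iff.1 hy
        rw [Subgroup.mem_centralizer_singleton_iff] at hw
        exact ((Commute.zpow_left (show Commute x w from hw.symm) k))
      · intro w hw
        rw [Subgroup.mem_centralizer_singleton_iff]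
        exact (Subgroup.mem_centralizer_iff.1 hw x (Subgroup.mem_zpowers x)).symm
    rw [hcen] at hne
    have hzle : Subgroup.zpowers x ≤ Q := by
      rw [Subgroup.zpowers_le]; exact hx
    have hzc : Nat.card (Subgroup.zpowers x) = q := by
      rw [Nat.card_zpowers]
      exact orderOf_eq_prime (hexp x hx) hne1
    rcases honly _ hzle hzc hne with h | h
    · exact hx1 (h ▸ Subgroup.mem_zpowers x)
    · exact hx2 (h ▸ Subgroup.mem_zpowers x)
  -- nontrivial elements of the two lines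
  have hnt : ∀ X : Subgroup S, Nat.card X = q → ∃ x ∈ X, x ≠ 1 := by
    intro X hX
    by_contra hcon
    push Not at hcon
    have h5 : X = ⊥ := by
      rw [eq_bot_iff]
      intro x hx
      exact (Subgroup.mem_bot).2 (hcon x hx)
    rw [h5, Subgroup.card_bot] at hX
    exact hq.one_lt.ne hX
  obtain ⟨x₁, hx₁, hx₁1⟩ := hnt X₁ hc₁
  obtain ⟨x₂, hx₂, hx₂1⟩ := hnt X₂ hc₂
  have hle_eq : ∀ {X Y : Subgroup S}, Nat.card X = q → Nat.card Y = q → X ≤ Y → X = Y := by
    intro X Y hX hY hXY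
    apply Subgroup.eq_of_le_of_card_ge hXY
    rw [hX, hY]
  have hx3 : (x₁ * x₂) ∈ Q ∧ x₁ * x₂ ∉ X₁ ∧ x₁ * x₂ ∉ X₂ := by
    refine ⟨Q.mul_mem (h₁ hx₁) (h₂ hx₂), ?_, ?_⟩
    · intro h
      have h5 : x₂ ∈ X₁ := by
        have := X₁.mul_mem (X₁.inv_mem hx₁) h
        simpa using this
      have h6 : X₂ ≤ X₁ := (hgen X₂ hc₂ x₂ hx₂ hx₂1).trans (by
        rw [Subgroup.zpowers_le]; exact h5)
      exact h₁₂ (hle_eq hc₂ hc₁ h6).symm
    · intro h
      have h5 : x₁ ∈ X₂ := by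
        have := X₂.mul_mem h (X₂.inv_mem hx₂)
        simpa using this
      have h6 : X₁ ≤ X₂ := (hgen X₁ hc₁ x₁ hx₁ hx₁1).trans (by
        rw [Subgroup.zpowers_le]; exact h5)
      exact h₁₂ (hle_eq hc₁ hc₂ h6)
  have hx3f := hfix _ hx3.1 hx3.2.1 hx3.2.2
  have hx3s : x₁ * x₂ ∈ X₁ ⊔ X₂ := Subgroup.mul_mem _ (Subgroup.mem_sup_left hx₁) (Subgroup.mem_sup_right hx₂)
  have hcomm' := CfsgLib.TwoLines.core hpq _ S rfl (P : Subgroup S) Q X₁ X₂ inferInstance P.2 hcomm hexp hcard h₁ h₂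
    (hgen X₁ hc₁) (hgen X₂ hc₂) hfix ⟨_, hx3s, hx3f⟩
  refine ⟨hcomm', ?_, ?_⟩
  · rw [eq_bot_iff, ← hx3f]
    intro a ha
    have ha1 := Subgroup.mem_inf.1 (Subgroup.mem_inf.1 ha).1
    have ha2 := Subgroup.mem_inf.1 (Subgroup.mem_inf.1 ha).2
    refine Subgroup.mem_inf.2 ⟨ha1.1, ?_⟩
    rw [Subgroup.mem_centralizer_singleton_iff]
    have e1 : x₁ * a = a * x₁ := Subgroup.mem_centralizer_iff.1 ha1.2 x₁ hx₁
    have e2 : x₂ * a = a * x₂ := Subgroup.mem_centralizer_iff.1 ha2.2 x₂ hx₂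
    calc a * (x₁ * x₂) = (a * x₁) * x₂ := (mul_assoc _ _ _).symm
      _ = (x₁ * a) * x₂ := by rw [e1]
      _ = x₁ * (a * x₂) := mul_assoc _ _ _
      _ = x₁ * (x₂ * a) := by rw [e2]
      _ = x₁ * x₂ * a := (mul_assoc _ _ _).symm
  · apply le_antisymm (sup_le inf_le_left inf_le_left)
    have hNP : Q ≤ Subgroup.normalizer ((P : Subgroup S) : Set S) := by
      rw [Subgroup.normalizer_eq_top_iff.2 inferInstance]; exact le_top
    have hg := CfsgLib.Signal.gen_pgroup (p := q) (q := p) hpq Q (P : Subgroup S) hcomm hexp P.2 hNP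
    refine hg.trans (iSup_le ?_)
    rintro ⟨B, hBA, hBi⟩
    have hB : ∃ x ∈ B, x ≠ 1 := by
      by_contra hcon
      push Not at hcon
      have h5 : B = ⊥ := by
        rw [eq_bot_iff]
        intro x hx
        exact (Subgroup.mem_bot).2 (hcon x hx)
      rw [h5, Subgroup.relIndex_bot_left] at hBi
      exact absurd hBi (not_le.2 hcard)
    obtain ⟨x, hxB, hx1⟩ := hB
    have hxA := hBA hxB
    intro w hw
    have hw1 := (Subgroup.mem_inf.1 hw).1
    have hw2 := (Subgroup.mem_inf.1 hw).2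
    have hwx : x * w = w * x := Subgroup.mem_centralizer_iff.1 hw2 x hxB
    by_cases hx1' : x ∈ X₁
    · apply Subgroup.mem_sup_left
      refine Subgroup.mem_inf.2 ⟨hw1, ?_⟩
      rw [Subgroup.mem_centralizer_iff]
      intro y hy
      obtain ⟨k, rfl⟩ := Subgroup.mem_zpowers_iff.1 (hgen X₁ hc₁ x hx1' hx1 hy)
      exact ((Commute.zpow_left hwx k))
    by_cases hx2' : x ∈ X₂
    · apply Subgroup.mem_sup_right
      refine Subgroup.mem_inf.2 ⟨hw1, ?_⟩
      rw [Subgroup.mem_centralizer_iff]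
      intro y hy
      obtain ⟨k, rfl⟩ := Subgroup.mem_zpowers_iff.1 (hgen X₂ hc₂ x hx2' hx1 hy)
      exact ((Commute.zpow_left hwx k))
    · have h5 : w ∈ (P : Subgroup S) ⊓ Subgroup.centralizer ({x} : Set S) := by
        refine Subgroup.mem_inf.2 ⟨hw1, ?_⟩
        rw [Subgroup.mem_centralizer_singleton_iff]
        exact hwx.symm
      rw [hfix x hxA hx1' hx2'] at h5
      rw [Subgroup.mem_bot] at h5
      rw [h5]
      exact Subgroup.one_mem _

end Cfsg.Agent.S1900
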