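import Cfsg.Statements.S1905
import Cfsg.Agent.Lib.H3.StrongEmb2
import Cfsg.Agent.Lib.ZStar.Invol
-- import your own Cfsg.Agent.* helpers here

set_option autoImplicit false
open Cfsg

namespace Cfsg.Agent.S1905

open CfsgLib.SE CfsgLib.Invol in
theorem exists_inv_center {S : Type*} [Group S] [Finite S] {R : Subgroup S} (hR : IsPGroup 2 R) {t : S} (ht : t ∈ R) (hto : orderOf t = 2) :
    ∃ J ∈ R, orderOf J = 2 ∧ ∀ r ∈ R, J * r = r * J := by
  haveI : Fact (Nat.Prime 2) := ⟨Nat.prime_two⟩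
  haveI : Nontrivial R := by
    refine ⟨⟨t, ht⟩, 1, ?_⟩
    intro h
    exact ne_one_of_order_two hto (congrArg Subtype.val h)
  haveI : Nontrivial (Subgroup.center R) := hR.center_nontrivial
  have hc : IsPGroup 2 (Subgroup.center R) := hR.to_subgroup _
  obtain ⟨n, hn⟩ := IsPGroup.iff_card.mp hc
  have hn0 : n ≠ 0 := by
    rintro rfl
    have := Finite.one_lt_card (α := Subgroup.center R)
    rw [hn] at this
    simp at this
  have h2 : 2 ∣ Nat.card (Subgroup.center R) := by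
    rw [hn]; exact dvd_pow_self 2 hn0
  obtain ⟨z, hz⟩ := exists_prime_orderOf_dvd_card' 2 h2
  refine ⟨((z : R) : S), (z : R).2, ?_, ?_⟩
  · rw [Subgroup.orderOf_coe, Subgroup.orderOf_coe]; exact hz
  · intro r hr
    have := (Subgroup.mem_center_iff.mp z.2) ⟨r, hr⟩
    exact (congrArg Subtype.val this).symm

theorem conj_sylow_in {S : Type*} [Group S] [Finite S] (M : Subgroup S) (Q R : Sylow 2 S)
    (hQ : (Q : Subgroup S) ≤ M) (hR : (R : Subgroup S) ≤ M) : ∃ m ∈ M, (m : S) • Q = R := by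
  haveI : Fact (Nat.Prime 2) := ⟨Nat.prime_two⟩
  obtain ⟨m, hm⟩ := MulAction.exists_smul_eq M (Q.subtype hQ) (R.subtype hR)
  refine ⟨m, m.2, ?_⟩
  rw [Sylow.smul_subtype] at hm
  exact Sylow.subtype_injective hm

theorem exists_sylow_conj_in {S : Type*} [Group S] [Finite S] (T : Sylow 2 S) (x : S) (hx : orderOf x = 2) :
    ∃ c : S, c * x * c⁻¹ ∈ (T : Subgroup S) := by
  haveI : Fact (Nat.Prime 2) := ⟨Nat.prime_two⟩
  obtain ⟨Q, hQ⟩ : ∃ Q : Sylow 2 S, x ∈ (Q : Subgroup S) := by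
    have : IsPGroup 2 (Subgroup.zpowers x) := by
      rw [IsPGroup.iff_card, Nat.card_zpowers, hx]
      exact ⟨1, by norm_num⟩
    obtain ⟨Q, hQ⟩ := this.exists_le_sylow
    exact ⟨Q, hQ (Subgroup.mem_zpowers x)⟩
  obtain ⟨c, hc⟩ := MulAction.exists_smul_eq S Q T
  refine ⟨c, ?_⟩
  rw [← hc, Sylow.coe_subgroup_smul]
  exact Subgroup.mem_map_of_mem _ hQ

open CfsgLib.SE CfsgLib.Invol in
theorem part_one {S : Type*} [Group S] [Finite S] (M : Subgroup S) (hM : Even (Nat.card M))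
    (hC : ∀ i ∈ M, orderOf i = 2 → Subgroup.centralizer ({i} : Set S) ≤ M) :
    (∀ t ∈ M, orderOf t = 2 → ∀ R : Sylow 2 S, t ∈ (R : Subgroup S) → (R : Subgroup S) ≤ M) := by
  intro t ht hto R htR
  obtain ⟨J, hJR, hJo, hJc⟩ := exists_inv_center R.isPGroup' htR hto
  have hJM : J ∈ M := hC t ht hto (Subgroup.mem_centralizer_singleton_iff.2 (hJc t htR))
  intro r hr
  exact hC J hJM hJo (Subgroup.mem_centralizer_singleton_iff.2 (hJc r hr).symm)

open CfsgLib.SE CfsgLib.Invol in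
theorem all_conj {S : Type*} [Group S] [Finite S] (M : Subgroup S) (hM : Even (Nat.card M))
    (hC : ∀ i ∈ M, orderOf i = 2 → Subgroup.centralizer ({i} : Set S) ≤ M) (hcore : Odd (Nat.card M.normalCore))
    (x y : S) (hx : orderOf x = 2) (hy : orderOf y = 2) : IsConj x y := by
  have hP := part_one M hM hC
  by_contra hnc
  obtain ⟨t₀, ht₀, hto⟩ := exists_involution_of_not_odd (K := M) (Nat.not_odd_iff_even.2 hM)
  obtain ⟨T, hT⟩ : ∃ T : Sylow 2 S, t₀ ∈ (T : Subgroup S) := by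
    have : IsPGroup 2 (Subgroup.zpowers t₀) := by
      rw [IsPGroup.iff_card, Nat.card_zpowers, hto]
      exact ⟨1, by norm_num⟩
    obtain ⟨Q, hQ⟩ := this.exists_le_sylow
    exact ⟨Q, hQ (Subgroup.mem_zpowers t₀)⟩
  have hTM := hP t₀ ht₀ hto T hT
  obtain ⟨c, hc⟩ := exists_sylow_conj_in T x hx
  have hx₀M := hTM hc
  have hx₀ : orderOf (c * x * c⁻¹) = 2 := by rw [CfsgLib.Block.orderOf_conj']; exact hx
  have hcore' : y ∈ M.normalCore := by
    intro g
    have hy' : orderOf (g * y * g⁻¹) = 2 := by rw [CfsgLib.Block.orderOf_conj']; exact hy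
    have hev : Even (orderOf ((c * x * c⁻¹) * (g * y * g⁻¹))) := by
      rw [← Nat.not_odd_iff_even]
      intro hodd
      apply hnc
      obtain ⟨j, hj⟩ := CfsgLib.ZS.exists_midpoint (mul_self_of_order_two hx₀) (mul_self_of_order_two hy') hodd
      have h1 : IsConj (c * x * c⁻¹) (g * y * g⁻¹) := isConj_iff.2 ⟨_, hj⟩
      have h2 : IsConj x (c * x * c⁻¹) := isConj_iff.2 ⟨c, rfl⟩
      have h3 : IsConj y (g * y * g⁻¹) := isConj_iff.2 ⟨g, rfl⟩
      exact h2.trans (h1.trans h3.symm)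
    obtain ⟨hw, hwx, hwy⟩ := z_props hx₀ hy' hev
    set w := ((c * x * c⁻¹) * (g * y * g⁻¹)) ^ (orderOf ((c * x * c⁻¹) * (g * y * g⁻¹)) / 2) with hwd
    have hwM : w ∈ M := hC _ hx₀M hx₀ (Subgroup.mem_centralizer_singleton_iff.2 hwx.eq)
    exact hC w hwM hw (Subgroup.mem_centralizer_singleton_iff.2 hwy.eq.symm)
  exact not_odd_of_mem hcore' hy hcore

/-- Let M be a subgroup of even order of a finite group S such that M contains the centralizer in S of each of its involutions and the normal core of M in S has odd order. Then all involutions of S are conjugate. If moreover N_S(X) ≤ M for a Sylow 2-subgroup X of M and I is an involution in the centre of X, then all involutions of M are conjugate in M and M = M₀ C_M(I) for some subgroup M₀ of M of odd order. -/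
theorem result {S : Type*} [Group S] [Finite S] (M : Subgroup S) (hM : Even (Nat.card M))
    (hC : ∀ i ∈ M, orderOf i = 2 → Subgroup.centralizer ({i} : Set S) ≤ M) (hcore : Odd (Nat.card M.normalCore)) :
    (∀ x y : S, orderOf x = 2 → orderOf y = 2 → IsConj x y) ∧
      ∀ (X : Sylow 2 M) (I : M), I ∈ (Subgroup.center ↥(X : Subgroup ↥M)).map (X : Subgroup ↥M).subtype → orderOf I = 2 →
        Subgroup.normalizer (((X : Subgroup M).map M.subtype : Subgroup S) : Set S) ≤ M →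
        (∀ x y : M, orderOf x = 2 → orderOf y = 2 → IsConj x y) ∧
          ∃ M₀ : Subgroup M, Odd (Nat.card M₀) ∧
            ∀ m : M, ∃ a ∈ M₀, ∃ c ∈ Subgroup.centralizer ({I} : Set M), m = a * c := by
  refine ⟨fun x y hx hy => all_conj M hM hC hcore x y hx hy, ?_⟩
  intro X I hI hIo hN
  classical
  haveI : Fact (Nat.Prime 2) := ⟨Nat.prime_two⟩
  have hP := part_one M hM hC
  obtain ⟨z, hzc, hzI⟩ := Subgroup.mem_map.1 hI
  have hIX : I ∈ (X : Subgroup M) := by
    rw [← hzI]; exact z.2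
  have hIo' : orderOf (I : S) = 2 := by rw [Subgroup.orderOf_coe]; exact hIo
  set X' : Subgroup S := (X : Subgroup M).map M.subtype with hX'
  have hX'p : IsPGroup 2 X' := X.isPGroup'.map M.subtype
  obtain ⟨Q, hQ⟩ := hX'p.exists_le_sylow
  have hIQ : (I : S) ∈ (Q : Subgroup S) := hQ (Subgroup.mem_map_of_mem _ hIX)
  have hQM : (Q : Subgroup S) ≤ M := hP _ I.2 hIo' Q hIQ
  have hXQ : X' = Q := by
    have hle : (X : Subgroup M) ≤ (Q.subtype hQM : Subgroup M) := by
      intro y hy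
      rw [Sylow.coe_subtype, Subgroup.mem_subgroupOf]
      exact hQ (Subgroup.mem_map_of_mem _ hy)
    have h1 := X.is_maximal' (Q.subtype hQM).isPGroup' hle
    rw [hX', ← h1, Sylow.coe_subtype]
    exact Subgroup.map_subgroupOf_eq_of_le hQM
  rw [hXQ] at hN
  have hU : ∀ t ∈ M, orderOf t = 2 → ∀ g : S, g * t * g⁻¹ ∈ M → g ∈ M := by
    intro t ht hto g hg
    obtain ⟨R, hR⟩ : ∃ R : Sylow 2 S, t ∈ (R : Subgroup S) := by
      have : IsPGroup 2 (Subgroup.zpowers t) := by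
        rw [IsPGroup.iff_card, Nat.card_zpowers, hto]
        exact ⟨1, by norm_num⟩
      obtain ⟨Q, hQ⟩ := this.exists_le_sylow
      exact ⟨Q, hQ (Subgroup.mem_zpowers t)⟩
    have hRM := hP t ht hto R hR
    have hg' : g * t * g⁻¹ ∈ ((g • R : Sylow 2 S) : Subgroup S) := by
      rw [Sylow.coe_subgroup_smul]
      exact Subgroup.mem_map_of_mem _ hR
    have hgo : orderOf (g * t * g⁻¹) = 2 := by rw [CfsgLib.Block.orderOf_conj']; exact hto
    have hgRM := hP _ hg hgo (g • R) hg'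
    obtain ⟨m, hm, hmR⟩ := conj_sylow_in M Q R hQM hRM
    obtain ⟨m', hm', hmR'⟩ := conj_sylow_in M Q (g • R) hQM hgRM
    have h3 : (m'⁻¹ * g * m) • Q = Q := by
      rw [mul_smul, mul_smul, hmR, ← hmR', inv_smul_smul]
    rw [Sylow.smul_eq_iff_mem_normalizer] at h3
    have h4 := hN h3
    have h5 : g = m' * (m'⁻¹ * g * m) * m⁻¹ := by group
    rw [h5]
    exact M.mul_mem (M.mul_mem hm' h4) (M.inv_mem hm)
  obtain ⟨t₀, ht₀, hto⟩ := CfsgLib.SE.exists_involution_of_not_odd (K := M) (Nat.not_odd_iff_even.2 hM)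
  -- an involution outside
  obtain ⟨u, huo, huM⟩ : ∃ u : S, orderOf u = 2 ∧ u ∉ M := by
    by_contra hcon
    push_neg at hcon
    have : t₀ ∈ M.normalCore := by
      intro g
      exact hcon _ (by rw [CfsgLib.Block.orderOf_conj']; exact hto)
    exact CfsgLib.SE.not_odd_of_mem this hto hcore
  have hSE : Cfsg.IsStronglyEmbedded M := by
    refine ⟨fun h => huM (h ▸ Subgroup.mem_top u), hM, ?_⟩
    intro g hg
    by_contra hcon
    obtain ⟨t, ht, hto⟩ := CfsgLib.SE.exists_involution_of_not_odd hcon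
    obtain ⟨h1, h2⟩ := CfsgLib.SE.mem_inf_map.1 ht
    exact hg (by simpa using M.inv_mem (hU t h1 hto g⁻¹ (by simpa using h2)))
  have hodd := hSE.2.2 u huM
  refine ⟨?_, (M ⊓ M.map (MulAut.conj u).toMonoidHom).subgroupOf M, ?_, ?_⟩
  · intro x y hx hy
    obtain ⟨⟨d, hd, hdc⟩, -⟩ := CfsgLib.StrongEmb2.main_conj hSE u huo huM x y
      (by rw [Subgroup.orderOf_coe]; exact hx) x.2 (by rw [Subgroup.orderOf_coe]; exact hy) y.2
    rw [isConj_iff]
    refine ⟨⟨d, (Subgroup.mem_inf.1 hd).1⟩, Subtype.ext ?_⟩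
    exact hdc
  · have : Nat.card ((M ⊓ M.map (MulAut.conj u).toMonoidHom).subgroupOf M) = Nat.card ↥(M ⊓ M.map (MulAut.conj u).toMonoidHom) :=
      Nat.card_congr (Subgroup.subgroupOfEquivOfLe inf_le_left).toEquiv
    rw [this]
    exact hodd
  · intro m
    have hmo : orderOf ((m : S) * I * (m : S)⁻¹) = 2 := by rw [CfsgLib.Block.orderOf_conj']; exact hIo'
    have hmM : (m : S) * I * (m : S)⁻¹ ∈ M := M.mul_mem (M.mul_mem m.2 I.2) (M.inv_mem m.2)
    obtain ⟨⟨d, hd, hdc⟩, -⟩ := CfsgLib.StrongEmb2.main_conj hSE u huo huM I _ hIo' I.2 hmo hmM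
    have hdM := (Subgroup.mem_inf.1 hd).1
    refine ⟨⟨d, hdM⟩, ?_, ⟨d, hdM⟩⁻¹ * m, ?_, by group⟩
    · rw [Subgroup.mem_subgroupOf]; exact hd
    · rw [Subgroup.mem_centralizer_singleton_iff]
      apply Subtype.ext
      simp only [Subgroup.coe_mul, Subgroup.coe_inv]
      have h1 : (m : S) * I = d * I * d⁻¹ * m := by
        rw [hdc]; group
      calc d⁻¹ * (m : S) * I = d⁻¹ * ((m : S) * I) := by group
        _ = d⁻¹ * (d * I * d⁻¹ * m) := by rw [h1]
        _ = I * (d⁻¹ * m) := by group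

end Cfsg.Agent.S1905
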