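import Cfsg.Statements.S1939
import Cfsg.Agent.Lib.Lead.SylowConj
import Cfsg.Agent.Lib.H3.ConjTools

set_option autoImplicit false
open Cfsg

namespace Cfsg.Agent.S1939

/-- Let S be a Sylow p-subgroup of the finite group G and a an element of S that is the only G-conjugate of a lying in S. Then every power of a has the same property: for every n, the only G-conjugate of a^n lying in S is a^n. -/
theorem result {G : Type*} [Group G] [Finite G] {p : ℕ} [Fact p.Prime] (S : Sylow p G) (a : G)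
    (haS : a ∈ (S : Subgroup G)) (hwc : ∀ g : G, g * a * g⁻¹ ∈ (S : Subgroup G) → g * a * g⁻¹ = a) (n : ℕ) :
    ∀ g : G, g * a ^ n * g⁻¹ ∈ (S : Subgroup G) → g * a ^ n * g⁻¹ = a ^ n := by
  have hZ : ∀ x ∈ (S : Subgroup G), x * a = a * x := by
    intro x hx
    have h1 := hwc x ((S : Subgroup G).mul_mem ((S : Subgroup G).mul_mem hx haS) ((S : Subgroup G).inv_mem hx))
    rw [mul_inv_eq_iff_eq_mul] at h1
    exact h1
  intro g hb
  set b := g * a ^ n * g⁻¹ with hbdef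
  set C : Subgroup G := Subgroup.centralizer ({a ^ n} : Set G) with hC
  have hSC : (S : Subgroup G) ≤ C := by
    intro x hx
    rw [hC, Subgroup.mem_centralizer_iff]
    intro w hw
    rw [Set.mem_singleton_iff] at hw
    subst hw
    exact ((Commute.pow_left (hZ x hx).symm n)).eq
  set a2 := g⁻¹ * a * g with ha2
  have ha2C : a2 ∈ C := by
    rw [hC, Subgroup.mem_centralizer_iff]
    intro w hw
    rw [Set.mem_singleton_iff] at hw
    subst hw
    have h1 : a * b = b * a := (hZ b hb).symm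
    have h2 : a ^ n = g⁻¹ * b * g := by rw [hbdef]; group
    rw [h2, ha2]
    calc g⁻¹ * b * g * (g⁻¹ * a * g) = g⁻¹ * (b * a) * g := by group
      _ = g⁻¹ * (a * b) * g := by rw [h1]
      _ = _ := by group
  have hp : IsPGroup p (Subgroup.zpowers a2) := by
    obtain ⟨k, hk⟩ := CfsgLib.CT.pow_eq_one_of_mem_pgroup S.2 haS
    apply CfsgLib.CT.isPGroup_zpowers_of_pow (k := k)
    have h0 : a2 = g⁻¹ * a * g⁻¹⁻¹ := by rw [ha2, inv_inv]
    rw [h0, conj_pow, hk]
    simp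
  obtain ⟨c, hc, hcS⟩ := CfsgLib.Lead.exists_conj_into_sylow S C hSC (Subgroup.zpowers a2)
    (Subgroup.zpowers_le.2 ha2C) hp
  have h3 := hcS a2 (Subgroup.mem_zpowers a2)
  have h4 : (c⁻¹ * g⁻¹) * a * (c⁻¹ * g⁻¹)⁻¹ = c⁻¹ * a2 * c := by rw [ha2]; group
  have h5 := hwc (c⁻¹ * g⁻¹) (by rw [h4]; exact h3)
  -- h := c⁻¹ g⁻¹ commutes with a, hence with a ^ n
  have h6 : (c⁻¹ * g⁻¹) * a ^ n * (c⁻¹ * g⁻¹)⁻¹ = a ^ n := by
    rw [← conj_pow, h5]
  have hcC : c * a ^ n * c⁻¹ = a ^ n := by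
    have := (Subgroup.mem_centralizer_iff.1 hc) (a ^ n) rfl
    rw [← this, mul_inv_cancel_right]
  have h7 : g⁻¹ * a ^ n * g = a ^ n := by
    calc g⁻¹ * a ^ n * g = c * ((c⁻¹ * g⁻¹) * a ^ n * (c⁻¹ * g⁻¹)⁻¹) * c⁻¹ := by group
      _ = a ^ n := by rw [h6, hcC]
  rw [hbdef]
  calc g * a ^ n * g⁻¹ = g * (g⁻¹ * a ^ n * g) * g⁻¹ := by rw [h7]
    _ = a ^ n := by group

end Cfsg.Agent.S1939
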