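import Cfsg.Statements.S1940

set_option autoImplicit false
open Cfsg

namespace Cfsg.Agent.S1940

/-- Let the finite group L act by automorphisms on the finite abelian group M, and let N be an L-invariant subgroup of M such that M/N is a p-group on which L acts trivially (every l • m lies in the coset mN). If every element of M is a product of an element of N and an element fixed by a Sylow p-subgroup T of L, then every element of M is a product of an element of N and an element fixed by all of L. -/
theorem result {L : Type*} [Group L] [Finite L] {M : Type*} [CommGroup M] [Finite M] [MulDistribMulAction L M]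
    {p : ℕ} [Fact p.Prime] (N : Subgroup M) (hN : ∀ (l : L) (m : M), m ∈ N → l • m ∈ N)
    (hquot : IsPGroup p (M ⧸ N)) (htriv : ∀ (l : L) (m : M), (l • m) * m⁻¹ ∈ N) (T : Sylow p L)
    (hT : ∀ m : M, ∃ n ∈ N, ∃ c : M, (∀ t ∈ (T : Subgroup L), t • c = c) ∧ m = n * c) :
    ∀ m : M, ∃ n ∈ N, ∃ c : M, (∀ l : L, l • c = c) ∧ m = n * c := by
  classical
  intro m
  obtain ⟨n, hn, c, hc, rfl⟩ := hT m
  have : Fintype (L ⧸ (T : Subgroup L)) := Fintype.ofFinite _
  let f : L ⧸ (T : Subgroup L) → M := fun q => (Quotient.out q) • c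
  have hf : ∀ g : L, f (QuotientGroup.mk g) = g • c := by
    intro g
    obtain ⟨h, hh⟩ := QuotientGroup.mk_out_eq_mul (T : Subgroup L) g
    change (Quotient.out (QuotientGroup.mk g : L ⧸ (T : Subgroup L))) • c = g • c
    rw [hh, mul_smul, hc h h.2]
  let c' : M := ∏ q : L ⧸ (T : Subgroup L), f q
  have hfix : ∀ l : L, l • c' = c' := by
    intro l
    change l • (∏ q : L ⧸ (T : Subgroup L), f q) = ∏ q : L ⧸ (T : Subgroup L), f q
    rw [Finset.smul_prod']
    have h1 : ∀ q : L ⧸ (T : Subgroup L), l • f q = f (l • q) := by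
      intro q
      have h2 : (l • q : L ⧸ (T : Subgroup L)) = QuotientGroup.mk (l * Quotient.out q) := by
        conv_lhs => rw [← QuotientGroup.out_eq' q]
        rfl
      rw [h2, hf, mul_smul]
    simp_rw [h1]
    exact Equiv.prod_comp (MulAction.toPerm l) f
  have hk : ¬ p ∣ (T : Subgroup L).index := T.not_dvd_index
  let k := (T : Subgroup L).index
  have hπ : QuotientGroup.mk' N c' = (QuotientGroup.mk' N c) ^ k := by
    have h1 : ∀ q : L ⧸ (T : Subgroup L), QuotientGroup.mk' N (f q) = QuotientGroup.mk' N c := by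
      intro q
      have := htriv (Quotient.out q) c
      have h2 : QuotientGroup.mk' N ((Quotient.out q • c) * c⁻¹) = 1 :=
        (QuotientGroup.eq_one_iff _).2 this
      rw [map_mul, map_inv] at h2
      exact mul_inv_eq_one.1 h2
    change QuotientGroup.mk' N (∏ q : L ⧸ (T : Subgroup L), f q) = _
    rw [map_prod]
    simp_rw [h1]
    rw [Finset.prod_const, Finset.card_univ, ← Nat.card_eq_fintype_card]
    rfl
  obtain ⟨a, ha⟩ := hquot (QuotientGroup.mk' N c)
  have hcop : Nat.Coprime (p ^ (a + 1)) k := by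
    apply Nat.Coprime.pow_left
    exact (Nat.Prime.coprime_iff_not_dvd (Fact.out)).2 hk
  have hlt : 1 < p ^ (a + 1) := Nat.one_lt_pow (by omega) (Fact.out : p.Prime).one_lt
  obtain ⟨j, -, hj⟩ := Nat.exists_mul_mod_eq_one_of_coprime hcop.symm hlt
  refine ⟨n * (c * (c' ^ j)⁻¹), N.mul_mem hn ?_, c' ^ j, ?_, ?_⟩
  · apply (QuotientGroup.eq_one_iff _).1
    change QuotientGroup.mk' N (c * (c' ^ j)⁻¹) = 1
    rw [map_mul, map_inv, map_pow, hπ, ← pow_mul]
    have h3 : k * j = p ^ (a + 1) * (k * j / p ^ (a + 1)) + 1 := by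
      have := Nat.div_add_mod (k * j) (p ^ (a + 1))
      rw [hj] at this
      exact this.symm
    rw [h3, pow_add, pow_mul, pow_succ, pow_mul, ha]
    simp
  · intro l
    rw [smul_pow', hfix]
  · simp [mul_assoc]

end Cfsg.Agent.S1940
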