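import Cfsg.Statements.S1941
import Cfsg.Agent.Lib.H3.Comp4
import Cfsg.Agent.Lib.H3.CT1

set_option autoImplicit false
open Cfsg

namespace Cfsg.Agent.S1941

/-- Let G be a finite group with no nontrivial normal subgroup of order prime to p, T a Sylow p-subgroup of G and E(G) the layer of G (the subgroup generated by its components). An automorphism of G of p-power order that fixes T and E(G) elementwise is inner. -/
theorem result {G : Type*} [Group G] [Finite G] {p : ℕ} [Fact p.Prime] (hcore : Cfsg.pPrimeCore p G = ⊥)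
    (T : Sylow p G) (α : MulAut G) (hα : ∃ j : ℕ, orderOf α = p ^ j) (hfixT : ∀ x ∈ (T : Subgroup G), α x = x)
    (hfixE : ∀ x ∈ Cfsg.layer G, α x = x) : ∃ g : G, ∀ x : G, α x = g * x * g⁻¹ := by
  classical
  set Fs := Cfsg.generalizedFittingSubgroup G with hFs
  have hFsn : Fs.Normal := inferInstance
  have hOpp : IsPGroup p (Cfsg.pCore p G) := CfsgLib.PLocal.pCore_isPGroup
  haveI hOpn : (Cfsg.pCore p G).Normal := CfsgLib.Solv.pCore_normal' p
  -- the Fitting subgroup is `O_p`
  have hFit : Cfsg.fittingSubgroup G ≤ Cfsg.pCore p G := by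
    rw [CfsgLib.Solv.fitting_eq_iSup_pCore]
    refine iSup_le ?_
    rintro ⟨q, hq⟩
    by_cases hqp : q = p
    · subst hqp; exact le_rfl
    · have h1 : Cfsg.pCore q G ≤ Cfsg.pPrimeCore p G := by
        haveI : (Cfsg.pCore q G).Normal := CfsgLib.Solv.pCore_normal' q
        apply CfsgLib.Solv.le_pPrimeCore'
        haveI : Fact q.Prime := ⟨hq⟩
        obtain ⟨k, hk⟩ := IsPGroup.iff_card.1 (CfsgLib.PLocal.pCore_isPGroup (p := q) (G := G))
        rw [hk]
        exact Nat.Coprime.pow_left _ ((Nat.coprime_primes hq Fact.out).2 hqp)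
      rw [hcore] at h1
      exact h1.trans bot_le
  -- `α` fixes `F^*(G)`
  have hOT : Cfsg.pCore p G ≤ (T : Subgroup G) := CfsgLib.CT1.le_of_normal_sylow' T inferInstance hOpp
  have hfixF : ∀ x ∈ Fs, α x = x := by
    have h1 : Fs ≤ MonoidHom.eqLocus α.toMonoidHom (MonoidHom.id G) := by
      refine sup_le ?_ ?_
      · intro x hx
        exact hfixE x hx
      · intro x hx
        exact hfixT x (hOT (hFit hx))
    exact fun x hx => h1 hx
  -- the centre of `F^*(G)`
  set Z₀ := Fs ⊓ Subgroup.centralizer (Fs : Set G) with hZ₀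
  have hZ₀n : Z₀.Normal := inferInstance
  have hZ₀p : Z₀ ≤ Cfsg.pCore p G := by
    intro z hz
    obtain ⟨e, he, f, hf, hzef⟩ := CfsgLib.Comp.mem_sup_of_commute CfsgLib.Comp.layer_commute_fitting hz.1
    have he' : e ∈ Cfsg.fittingSubgroup G := by
      refine CfsgLib.Comp.mem_fitting_of_center_layer he ?_
      intro y hy
      have hyF : y ∈ Fs := (le_sup_left : Cfsg.layer G ≤ Fs) hy
      have h1 : z * y = y * z := (Subgroup.mem_centralizer_iff.1 hz.2 y hyF).symm
      have h2 : y * f = f * y := CfsgLib.Comp.layer_commute_fitting y hy f hf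
      have h3 : e = z * f⁻¹ := by rw [hzef]; group
      rw [h3]
      calc z * f⁻¹ * y = z * (f⁻¹ * y) := by group
        _ = z * (y * f⁻¹) := by
          congr 1
          rw [eq_mul_inv_iff_mul_eq, mul_assoc, h2, ← mul_assoc, inv_mul_cancel, one_mul]
        _ = (z * y) * f⁻¹ := by group
        _ = (y * z) * f⁻¹ := by rw [h1]
        _ = _ := by group
    rw [hzef]
    exact (Cfsg.pCore p G).mul_mem (hFit he') (hFit hf)
  have hZ₀pg : IsPGroup p Z₀ := hOpp.to_le hZ₀p
  have hc : ∀ g : G, α g * g⁻¹ ∈ Z₀ := by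
    intro g
    have hcen : α g * g⁻¹ ∈ Subgroup.centralizer (Fs : Set G) := by
      rw [Subgroup.mem_centralizer_iff]
      intro f hf
      have h1 : g⁻¹ * f * g ∈ Fs := by
        have := hFsn.conj_mem f hf g⁻¹
        simpa using this
      have h2 := hfixF _ h1
      rw [map_mul, map_mul, map_inv, hfixF f hf] at h2
      calc f * (α g * g⁻¹) = α g * ((α g)⁻¹ * f * α g) * g⁻¹ := by group
        _ = α g * (g⁻¹ * f * g) * g⁻¹ := by rw [h2]
        _ = _ := by group
    exact Subgroup.mem_inf.2 ⟨CfsgLib.Comp.gfit_self_centralizing hcen, hcen⟩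
  haveI hZc : IsMulCommutative Z₀ := by
    refine ⟨⟨fun a b => Subtype.ext ?_⟩⟩
    exact Subgroup.mem_centralizer_iff.1 b.2.2 a a.2.1
  letI : CommGroup Z₀ :=
    { (inferInstance : Group Z₀) with mul_comm := hZc.is_comm.comm }
  letI ft : Fintype (G ⧸ (T : Subgroup G)) := Fintype.ofFinite _
  let ρ : G →* MulAut Z₀ := MulAut.conjNormal
  have hρ : ∀ (x : G) (a : Z₀), ((ρ x a : Z₀) : G) = x * a * x⁻¹ := fun x a => MulAut.conjNormal_apply x a
  let c : G → Z₀ := fun g => ⟨α g * g⁻¹, hc g⟩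
  have hcoc : ∀ x g : G, c (x * g) = c x * ρ x (c g) := by
    intro x g
    apply Subtype.ext
    change α (x * g) * (x * g)⁻¹ = α x * x⁻¹ * ((ρ x (c g) : Z₀) : G)
    rw [hρ, map_mul]
    change α x * α g * (x * g)⁻¹ = α x * x⁻¹ * (x * (α g * g⁻¹) * x⁻¹)
    group
  have hct : ∀ g : G, ∀ t ∈ (T : Subgroup G), c (g * t) = c g := by
    intro g t ht
    apply Subtype.ext
    change α (g * t) * (g * t)⁻¹ = α g * g⁻¹
    rw [map_mul, hfixT t ht]
    group
  let z : Z₀ := ∏ q : G ⧸ (T : Subgroup G), c q.out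
  set n := (T : Subgroup G).index with hn
  have heq : ∀ x : G, z = c x ^ n * ρ x z := by
    intro x
    have h1 : z = ∏ q : G ⧸ (T : Subgroup G), c (x • q).out :=
      (Equiv.prod_comp (MulAction.toPerm x : Equiv.Perm (G ⧸ (T : Subgroup G))) (fun q => c q.out)).symm
    have h2 : ∀ q : G ⧸ (T : Subgroup G), c (x • q).out = c x * ρ x (c q.out) := by
      intro q
      rw [← hcoc]
      have h3 : ((x * q.out : G) : G ⧸ (T : Subgroup G)) = x • q := by
        conv_rhs => rw [← q.out_eq']
        rfl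
      have h4 : (x • q).out⁻¹ * (x * q.out) ∈ (T : Subgroup G) := by
        have h5 : (((x • q).out : G) : G ⧸ (T : Subgroup G)) = ((x * q.out : G) : G ⧸ (T : Subgroup G)) := by
          rw [h3]
          exact (x • q).out_eq'
        exact QuotientGroup.eq.1 h5
      rw [← hct _ _ h4]
      congr 1
      group
    have h6 : ρ x z = ∏ q : G ⧸ (T : Subgroup G), ρ x (c q.out) := map_prod (ρ x) _ _
    rw [h6]
    calc z = ∏ q : G ⧸ (T : Subgroup G), c (x • q).out := h1
      _ = ∏ q : G ⧸ (T : Subgroup G), (c x * ρ x (c q.out)) := Finset.prod_congr rfl (fun q _ => h2 q)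
      _ = c x ^ Fintype.card (G ⧸ (T : Subgroup G)) * ∏ q : G ⧸ (T : Subgroup G), ρ x (c q.out) := by
        rw [Finset.prod_mul_distrib, Finset.prod_const, Finset.card_univ]
      _ = _ := by
        rw [hn, Subgroup.index, Nat.card_eq_fintype_card]
  have hcop : (Nat.card Z₀).Coprime n := by
    obtain ⟨k, hk⟩ := IsPGroup.iff_card.1 hZ₀pg
    rw [hk]
    apply Nat.Coprime.pow_left
    exact (Nat.Prime.coprime_iff_not_dvd Fact.out).2 T.not_dvd_index
  let y : Z₀ := (powCoprime hcop).symm z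
  have hy : y ^ n = z := (powCoprime hcop).apply_symm_apply z
  refine ⟨(y : G), fun x => ?_⟩
  have h1 : (powCoprime hcop) (c x) = (powCoprime hcop) (y * (ρ x y)⁻¹) := by
    have h5 : (ρ x y) ^ n = ρ x (y ^ n) := (map_pow (ρ x) y n).symm
    rw [powCoprime_apply, powCoprime_apply, mul_pow, inv_pow, h5, hy]
    have := heq x
    rw [eq_comm, ← eq_mul_inv_iff_mul_eq] at this
    exact this
  have h2 := (powCoprime hcop).injective h1
  have h3 := congrArg Subtype.val h2
  change α x * x⁻¹ = (y : G) * ((ρ x y : Z₀) : G)⁻¹ at h3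
  rw [hρ] at h3
  rw [mul_inv_eq_iff_eq_mul] at h3
  rw [h3]
  group

end Cfsg.Agent.S1941
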