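import Cfsg.Statements.S1946
import Mathlib
import Cfsg.Agent.Lib.H3.Omega2
import Cfsg.Agent.Lib.H3.ConjTools
-- import your own Cfsg.Agent.* helpers here

set_option autoImplicit false
open Cfsg

namespace Cfsg.Agent.S1946

open Subgroup CfsgLib.Trans in
lemma key {G : Type*} [Group G] [Finite G] {p : ℕ} [Fact p.Prime] (P : Subgroup G) (hP : IsPGroup p P)
    (hfus : ∀ a ∈ P, (a ^ p = 1 ∨ (p = 2 ∧ a ^ 4 = 1)) → ∀ g : G, g * a * g⁻¹ ∈ P →
      ∃ x ∈ P, g * a * g⁻¹ = x * a * x⁻¹)
    (g : G) (hg : (orderOf g).Coprime p) : ∀ (i : ℕ) (X : Subgroup G),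
    X ≤ (Subgroup.upperCentralSeries P i).map P.subtype →
    g ∈ normalizer (X : Set G) → g ∈ centralizer (X : Set G) := by
  classical
  intro i
  induction i with
  | zero =>
    intro X hX hgX
    rw [mem_centralizer_iff]
    intro x hx
    obtain ⟨y, hy, rfl⟩ := hX hx
    have : y = 1 := by simpa [Subgroup.upperCentralSeries_zero] using hy
    simp [this]
  | succ i ih =>
    intro X hX hgX
    have hXP : X ≤ P := hX.trans (map_subtype_le _)
    have hgc : ∀ x ∈ X, g * x * g⁻¹ ∈ X := fun x hx => (mem_normalizer_iff.1 hgX x).1 hx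
    set Z : Subgroup G := (Subgroup.upperCentralSeries P i).map P.subtype with hZ
    have hZP : Z ≤ P := map_subtype_le _
    have hZconj : ∀ z ∈ Z, ∀ u ∈ P, u * z * u⁻¹ ∈ Z := by
      rintro z ⟨y, hy, rfl⟩ u hu
      refine ⟨⟨u, hu⟩ * y * ⟨u, hu⟩⁻¹, ?_, rfl⟩
      exact (inferInstance : (Subgroup.upperCentralSeries P i).Normal).conj_mem y hy _
    let small : Set G := {x | x ∈ X ∧ (x ^ p = 1 ∨ (p = 2 ∧ x ^ 4 = 1))}
    let Ω : Subgroup G := closure small
    have hΩX : Ω ≤ X := by
      rw [closure_le]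
      exact fun x hx => hx.1
    have hgΩ : ∀ y ∈ Ω, g * y * g⁻¹ ∈ Ω := by
      intro y hy
      induction hy using closure_induction with
      | mem x hx =>
        apply Subgroup.subset_closure
        refine ⟨hgc x hx.1, ?_⟩
        rcases hx.2 with h | ⟨h1, h⟩
        · left; rw [conj_pow, h]; simp
        · right; refine ⟨h1, ?_⟩; rw [conj_pow, h]; simp
      | one => simp
      | mul a b _ _ iha ihb =>
        have : g * (a * b) * g⁻¹ = (g * a * g⁻¹) * (g * b * g⁻¹) := by group
        rw [this]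
        exact mul_mem iha ihb
      | inv a _ iha =>
        have : g * a⁻¹ * g⁻¹ = (g * a * g⁻¹)⁻¹ := by group
        rw [this]
        exact inv_mem iha
    have hc : ∀ y ∈ Ω, y⁻¹ * (g * y * g⁻¹) ∈ Z := by
      intro y hy
      induction hy using closure_induction with
      | mem x hx =>
        obtain ⟨hxX, hxs⟩ := hx
        obtain ⟨s, hs, hsx⟩ := hfus x (hXP hxX) hxs g (hXP (hgc x hxX))
        rw [hsx]
        obtain ⟨y, hy, rfl⟩ := hX hxX
        have h1 := Subgroup.mem_upperCentralSeries_succ_iff.1 (inv_mem hy) (⟨s, hs⟩ : P)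
        refine ⟨_, h1, ?_⟩
        simp only [commutatorElement_def, subtype_apply, InvMemClass.coe_inv, MulMemClass.coe_mul, inv_inv]
        group
      | one => simp
      | mul a b ha hb iha ihb =>
        have h1 : (a * b)⁻¹ * (g * (a * b) * g⁻¹) =
            (b⁻¹ * (a⁻¹ * (g * a * g⁻¹)) * b⁻¹⁻¹) * (b⁻¹ * (g * b * g⁻¹)) := by group
        rw [h1]
        exact mul_mem (hZconj _ iha _ (inv_mem (hXP (hΩX hb)))) ihb
      | inv a ha iha =>
        have h1 : a⁻¹⁻¹ * (g * a⁻¹ * g⁻¹) = a * (a⁻¹ * (g * a * g⁻¹))⁻¹ * a⁻¹ := by group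
        rw [h1]
        exact hZconj _ (inv_mem iha) _ (hXP (hΩX ha))
    let Y : Subgroup G := closure {w | ∃ y ∈ Ω, w = y⁻¹ * (g * y * g⁻¹)}
    have hYZ : Y ≤ Z := by
      rw [closure_le]
      rintro _ ⟨y, hy, rfl⟩
      exact hc y hy
    have hgY : ∀ w ∈ Y, g * w * g⁻¹ ∈ Y := by
      intro w hw
      induction hw using closure_induction with
      | mem x hx =>
        obtain ⟨y, hy, rfl⟩ := hx
        apply Subgroup.subset_closure
        refine ⟨g * y * g⁻¹, hgΩ y hy, ?_⟩
        group
      | one => simp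
      | mul a b _ _ iha ihb =>
        have : g * (a * b) * g⁻¹ = (g * a * g⁻¹) * (g * b * g⁻¹) := by group
        rw [this]
        exact mul_mem iha ihb
      | inv a _ iha =>
        have : g * a⁻¹ * g⁻¹ = (g * a * g⁻¹)⁻¹ := by group
        rw [this]
        exact inv_mem iha
    have hgYn : g ∈ normalizer (Y : Set G) := CfsgLib.CT.mem_normalizer_of_conj_le hgY
    have hgYc := ih Y hYZ hgYn
    have hΩfix : ∀ y ∈ Ω, g * y * g⁻¹ = y := by
      intro y hy
      set c := y⁻¹ * (g * y * g⁻¹) with hcdef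
      have hcY : c ∈ Y := Subgroup.subset_closure ⟨y, hy, rfl⟩
      have h1 : (MulAut.conj g) y = y * c := by
        simp [hcdef]
      have h2 : (MulAut.conj g) c = c := by
        have := mem_centralizer_iff.1 hgYc c hcY
        simp only [MulAut.conj_apply]
        rw [← this]; group
      obtain ⟨k, hk⟩ := IsPGroup.iff_orderOf.1 hP ⟨c, hZP (hYZ hcY)⟩
      rw [Subgroup.orderOf_mk] at hk
      have h3 : (orderOf (MulAut.conj g)).Coprime (orderOf c) := by
        rw [hk]
        apply Nat.Coprime.pow_right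
        have hd : orderOf (MulAut.conj g) ∣ orderOf g := orderOf_map_dvd MulAut.conj g
        exact Nat.Coprime.coprime_dvd_left hd hg
      have h4 := eq_one_of_stable (MulAut.conj g) h1 h2 h3
      rw [hcdef] at h4
      have h5 : y⁻¹ * (g * y * g⁻¹) = 1 := h4
      rw [inv_mul_eq_one] at h5
      exact h5.symm
    let α : MulAut X := X.normalizerMonoidHom ⟨g, hgX⟩
    have hαx : ∀ x : X, ((α x : X) : G) = g * x * g⁻¹ := fun x => rfl
    have hα : α = 1 := by
      apply CfsgLib.Omega2.aut_trivial_omega (p := p) (hP.to_le hXP)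
      · have hd : orderOf α ∣ orderOf (⟨g, hgX⟩ : normalizer (X : Set G)) := orderOf_map_dvd _ _
        rw [Subgroup.orderOf_mk] at hd
        exact Nat.Coprime.coprime_dvd_left hd hg
      · intro x hx
        apply Subtype.ext
        rw [hαx]
        apply hΩfix
        apply Subgroup.subset_closure
        refine ⟨x.2, ?_⟩
        rcases hx with h1 | h1
        · exact Or.inl (by simpa using congrArg Subtype.val h1)
        · exact Or.inr ⟨h1.1, by simpa using congrArg Subtype.val h1.2⟩
    rw [mem_centralizer_iff]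
    intro y hy
    have h1 : ((α ⟨y, hy⟩ : X) : G) = y := by rw [hα]; rfl
    rw [hαx] at h1
    have h2 : g * y * g⁻¹ = y := h1
    rw [mul_inv_eq_iff_eq_mul] at h2
    exact h2.symm

/-- Let P be a Sylow p-subgroup of the finite group G. Then G has a normal p-complement if and only if P controls the fusion of its elements of order dividing p (dividing 4 when p = 2): whenever such an element a of P has a G-conjugate g a g⁻¹ in P, that conjugate is already x a x⁻¹ for some x in P. -/
theorem result {G : Type*} [Group G] [Finite G] {p : ℕ} [Fact p.Prime] (P : Sylow p G) :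
    Cfsg.HasNormalPComplement p G ↔
      ∀ a ∈ (P : Subgroup G), (a ^ p = 1 ∨ (p = 2 ∧ a ^ 4 = 1)) → ∀ g : G, g * a * g⁻¹ ∈ (P : Subgroup G) →
        ∃ x ∈ (P : Subgroup G), g * a * g⁻¹ = x * a * x⁻¹ := by
  classical
  constructor
  · intro h
    obtain ⟨N, hN, hc, k, hk⟩ := CfsgLib.Trans.hasNormalPComplement_iff.1 h
    intro a ha _ g hga
    have hPc : ∃ m, Nat.card (P : Subgroup G) = p ^ m := IsPGroup.iff_card.1 P.2
    obtain ⟨m, hm⟩ := hPc
    have hdisj : N ⊓ (P : Subgroup G) = ⊥ := by
      apply disjoint_iff.1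
      apply Subgroup.disjoint_of_coprime_natCard
      rw [hm]
      exact Nat.Coprime.pow_right m hc
    have hsup : N ⊔ (P : Subgroup G) = ⊤ := by
      rw [← Subgroup.index_eq_one]
      have h1 : (N ⊔ (P : Subgroup G)).index ∣ p ^ k := by
        rw [← hk]
        exact Subgroup.index_dvd_of_le le_sup_left
      have h2 : (N ⊔ (P : Subgroup G)).index ∣ (P : Subgroup G).index :=
        Subgroup.index_dvd_of_le le_sup_right
      have h3 : Nat.Coprime (p ^ k) (P : Subgroup G).index :=
        Nat.Coprime.pow_left k ((Nat.Prime.coprime_iff_not_dvd (Fact.out)).2 P.not_dvd_index)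
      exact Nat.eq_one_of_dvd_coprimes h3 h1 h2
    have hg : g ∈ ((N ⊔ (P : Subgroup G) : Subgroup G) : Set G) := by
      rw [hsup]; trivial
    rw [Subgroup.normal_mul] at hg
    obtain ⟨n, hn, s, hs, hns⟩ := hg
    have hns' : n * s = g := hns
    subst hns'
    refine ⟨s, hs, ?_⟩
    set b := s * a * s⁻¹ with hb
    have hbP : b ∈ (P : Subgroup G) := mul_mem (mul_mem hs ha) (inv_mem hs)
    have e : n * s * a * (n * s)⁻¹ = n * b * n⁻¹ := by rw [hb]; group
    have e2 : s * a * s⁻¹ = b := rfl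
    rw [e] at hga ⊢
    have h4 : n * b * n⁻¹ * b⁻¹ ∈ N ⊓ (P : Subgroup G) := by
      refine Subgroup.mem_inf.2 ⟨?_, mul_mem hga (inv_mem hbP)⟩
      have := hN.conj_mem _ (inv_mem hn) b
      have e3 : n * b * n⁻¹ * b⁻¹ = n * (b * n⁻¹ * b⁻¹) := by group
      rw [e3]
      exact mul_mem hn this
    rw [hdisj, Subgroup.mem_bot, mul_inv_eq_one] at h4
    exact h4
  · intro h
    obtain ⟨N, hN, hc⟩ := (CfsgLib.Trans.frobenius_criterion P).2 (by
      intro Q hQ g hg hcop
      haveI : Group.IsNilpotent (P : Subgroup G) := P.isPGroup'.isNilpotent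
      obtain ⟨n, hn⟩ := Group.IsNilpotent.nilpotent (G := (P : Subgroup G))
      apply key (P : Subgroup G) P.isPGroup' h g hcop n Q _ hg
      rw [hn]
      rw [← MonoidHom.range_eq_map]
      simpa using hQ)
    exact ⟨P, N, hN, hc⟩

end Cfsg.Agent.S1946
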