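import Cfsg.Statements.S1947
import Cfsg.Agent.Lib.H3.Omega2

set_option autoImplicit false
open Cfsg

namespace Cfsg.Agent.S1947

/-- Let G be a finite group and p a prime. If every element of G of order dividing p (dividing 4 when p = 2) lies in some fixed term Z_n(G) of the upper central series, then G has a normal p-complement. -/
theorem result {G : Type*} [Group G] [Finite G] {p : ℕ} [Fact p.Prime] (n : ℕ)
    (h : ∀ a : G, (a ^ p = 1 ∨ (p = 2 ∧ a ^ 4 = 1)) → a ∈ Subgroup.upperCentralSeries G n) : Cfsg.HasNormalPComplement p G := by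
  classical
  let P : Sylow p G := default
  obtain ⟨N, hN, hc⟩ := (CfsgLib.Trans.frobenius_criterion P).2 (by
    intro Q hQ g hg hcop
    let α : MulAut Q := Q.normalizerMonoidHom ⟨g, hg⟩
    have hαx : ∀ x : Q, ((α x : Q) : G) = g * x * g⁻¹ := fun x => rfl
    have hα : α = 1 := by
      apply CfsgLib.Omega2.aut_trivial_omega (p := p) (P.isPGroup'.to_le hQ)
      · have hd : orderOf α ∣ orderOf (⟨g, hg⟩ : Subgroup.normalizer (Q : Set G)) :=
          orderOf_map_dvd _ _
        rw [Subgroup.orderOf_mk] at hd
        exact Nat.Coprime.coprime_dvd_left hd hcop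
      · intro x hx
        apply Subtype.ext
        rw [hαx]
        have hxZ := h (x : G) (by
          rcases hx with h1 | h1
          · exact Or.inl (by simpa using congrArg Subtype.val h1)
          · exact Or.inr ⟨h1.1, by simpa using congrArg Subtype.val h1.2⟩)
        obtain ⟨k, hk⟩ := IsPGroup.iff_orderOf.1 (P.isPGroup'.to_le hQ) x
        refine CfsgLib.Omega2.hypercentral_fixed n _ hxZ ⟨k, ?_⟩ g hcop
        rw [← hk, ← Subgroup.orderOf_coe]
        exact pow_orderOf_eq_one _
    rw [Subgroup.mem_centralizer_iff]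
    intro y hy
    have h1 : ((α ⟨y, hy⟩ : Q) : G) = y := by rw [hα]; rfl
    rw [hαx] at h1
    have h2 : g * y * g⁻¹ = y := h1
    rw [mul_inv_eq_iff_eq_mul] at h2
    exact h2.symm)
  exact ⟨P, N, hN, hc⟩

end Cfsg.Agent.S1947
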