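import Cfsg.Statements.S1948
import Cfsg.Agent.Lib.H3.CT1

set_option autoImplicit false
open Cfsg

namespace Cfsg.Agent.S1948

/-- Let S be a Sylow p-subgroup of the finite group G. Then G = N_G(S)·O_{p'}(G) if and only if G is p-constrained and N_G(S) controls fusion in S, in the sense that whenever a subgroup Q of S has a conjugate g Q g⁻¹ inside S, the element g is a product n c with n normalizing S and c centralizing Q. -/
theorem result {G : Type*} [Group G] [Finite G] {p : ℕ} [Fact p.Prime] (S : Sylow p G) :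
    Subgroup.normalizer ((S : Subgroup G) : Set G) ⊔ Cfsg.pPrimeCore p G = ⊤ ↔
      (Cfsg.IsPConstrained p G ∧
        ∀ Q : Subgroup G, Q ≤ (S : Subgroup G) → ∀ g : G, Q.map (MulAut.conj g).toMonoidHom ≤ (S : Subgroup G) →
          ∃ n ∈ Subgroup.normalizer ((S : Subgroup G) : Set G), ∃ c ∈ Subgroup.centralizer (Q : Set G), g = n * c) := by
  classical
  set O := Cfsg.pPrimeCore p G with hO
  have hOn : O.Normal := CfsgLib.Solv.pPrimeCore_normal' p
  have hOc : (Nat.card O).Coprime p := CfsgLib.Solv.pPrimeCore_coprime p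
  set π := QuotientGroup.mk' O with hπ
  have hπs : Function.Surjective π := QuotientGroup.mk'_surjective O
  have hcore : Cfsg.pPrimeCore p (G ⧸ O) = ⊥ := CfsgLib.PLocal.pPrimeCore_quotient
  set R := Cfsg.pCore p (G ⧸ O) with hR
  have hRn : R.Normal := CfsgLib.Solv.pCore_normal' p
  constructor
  · intro h
    have hmul : ∀ g : G, ∃ n ∈ Subgroup.normalizer ((S : Subgroup G) : Set G), ∃ o ∈ O, g = n * o := by
      intro g
      have hg : g ∈ Subgroup.normalizer ((S : Subgroup G) : Set G) ⊔ O := by rw [h]; trivial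
      obtain ⟨n, hn, o, ho, rfl⟩ := Subgroup.mem_sup_of_normal_right.1 hg
      exact ⟨n, hn, o, ho, rfl⟩
    refine ⟨?_, ?_⟩
    · -- constraint
      let T : Sylow p (G ⧸ O) := S.mapSurjective hπs
      have hTc : (T : Subgroup (G ⧸ O)) = (S : Subgroup G).map π := Sylow.coe_mapSurjective hπs S
      have hTn : (T : Subgroup (G ⧸ O)).Normal := by
        rw [hTc]
        refine ⟨?_⟩
        rintro _ ⟨s, hs, rfl⟩ y
        obtain ⟨g, rfl⟩ := hπs y
        obtain ⟨n, hn, o, ho, rfl⟩ := hmul g
        refine ⟨n * s * n⁻¹, ?_, ?_⟩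
        · exact (Subgroup.mem_normalizer_iff.1 hn s).1 hs
        · have : π o = 1 := (QuotientGroup.eq_one_iff o).2 ho
          simp [map_mul, this]
      have hTC := CfsgLib.CT1.cent_normal_sylow_le T hTn hcore
      have hTR : (T : Subgroup (G ⧸ O)) ≤ R := by
        have := hTn
        exact CfsgLib.Solv.le_pCore' _ T.isPGroup'
      intro P x hx
      have himg : ((P : Subgroup _).map (Cfsg.pPrimePCore p G).subtype).map π = R :=
        CfsgLib.Comp.sylow_image_eq rfl P
      change π x ∈ R
      apply hTR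
      apply hTC
      rw [Subgroup.mem_centralizer_iff]
      intro t ht
      have ht' : t ∈ R := hTR ht
      rw [← himg] at ht'
      obtain ⟨a, ha, rfl⟩ := ht'
      have := Subgroup.mem_centralizer_iff.1 hx a ha
      rw [← map_mul, ← map_mul, this]
    · intro Q hQ g hg
      obtain ⟨n, hn, o, ho, rfl⟩ := hmul g
      refine ⟨n, hn, o, ?_, rfl⟩
      rw [Subgroup.mem_centralizer_iff]
      intro x hx
      have hxS : x ∈ (S : Subgroup G) := hQ hx
      have h1 : (n * o) * x * (n * o)⁻¹ ∈ (S : Subgroup G) := hg ⟨x, hx, rfl⟩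
      have h2 : o * x * o⁻¹ ∈ (S : Subgroup G) := by
        have h3 := (Subgroup.mem_normalizer_iff.1 hn (o * x * o⁻¹)).2
        apply h3
        convert h1 using 1
        group
      have hcomm : o * x * o⁻¹ * x⁻¹ ∈ (S : Subgroup G) ⊓ O := by
        refine Subgroup.mem_inf.2 ⟨(S : Subgroup G).mul_mem h2 ((S : Subgroup G).inv_mem hxS), ?_⟩
        have h3 : o * x * o⁻¹ * x⁻¹ = o * (x * o⁻¹ * x⁻¹) := by group
        rw [h3]
        exact O.mul_mem ho (hOn.conj_mem _ (O.inv_mem ho) x)
      have hbot : (S : Subgroup G) ⊓ O = ⊥ := by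
        rw [inf_comm]
        exact CfsgLib.Comp.inf_bot_of_coprime hOc S.isPGroup'
      rw [hbot] at hcomm
      have h4 : o * x * o⁻¹ * x⁻¹ = 1 := (Subgroup.mem_bot).1 hcomm
      have h5 : o * x * o⁻¹ = x := by
        rw [mul_inv_eq_one] at h4
        exact h4
      rw [mul_inv_eq_iff_eq_mul] at h5
      exact h5.symm
  · rintro ⟨hC, hF⟩
    set U := Cfsg.pPrimePCore p G with hU
    have hUn : U.Normal := Subgroup.Normal.comap hRn π
    obtain ⟨P, hP⟩ := CfsgLib.PLocal.exists_sylow_inf_normal S hUn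
    set T := (P : Subgroup U).map U.subtype with hT
    have hTS : T ≤ (S : Subgroup G) := by rw [hP]; exact inf_le_left
    have hfr := Sylow.normalizer_sup_eq_top (N := U) P
    have himg : T.map π = R := CfsgLib.Comp.sylow_image_eq rfl P
    have hUdec : ∀ u ∈ U, u ∈ Subgroup.normalizer ((S : Subgroup G) : Set G) ⊔ O := by
      intro u hu
      have h1 : π u ∈ R := hu
      rw [← himg] at h1
      obtain ⟨t, ht, htu⟩ := h1
      have h2 : t⁻¹ * u ∈ O := by
        have : π (t⁻¹ * u) = 1 := by
          rw [map_mul, map_inv, inv_mul_eq_one]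
          exact htu
        exact (QuotientGroup.eq_one_iff _).1 this
      have : u = t * (t⁻¹ * u) := by group
      rw [this]
      refine Subgroup.mul_mem _ (Subgroup.mem_sup_left ?_) (Subgroup.mem_sup_right h2)
      exact Subgroup.le_normalizer (hTS ht)
    rw [eq_top_iff]
    intro g _
    have hg : g ∈ (Subgroup.normalizer (T : Set G) ⊔ U : Subgroup G) := by
      have : (Subgroup.normalizer (T : Set G) ⊔ U : Subgroup G) = ⊤ := hfr
      rw [this]; trivial
    obtain ⟨n, hn, u, hu, rfl⟩ := Subgroup.mem_sup_of_normal_right.1 hg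
    refine Subgroup.mul_mem _ ?_ (hUdec u hu)
    have hconj : T.map (MulAut.conj n).toMonoidHom ≤ (S : Subgroup G) := by
      rintro _ ⟨t, ht, rfl⟩
      exact hTS ((Subgroup.mem_normalizer_iff.1 hn t).1 ht)
    obtain ⟨n₁, hn₁, c, hc, rfl⟩ := hF T hTS n hconj
    refine Subgroup.mul_mem _ (Subgroup.mem_sup_left hn₁) ?_
    exact hUdec c (hC P hc)

end Cfsg.Agent.S1948
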