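import Cfsg.Statements.S1954
import Cfsg.Agent.Lib.H3.AlpGold
import Cfsg.Agent.Lib.PLocal.CoreLift
import Cfsg.Agent.Lib.Trans.Crit
-- import your own Cfsg.Agent.* helpers here

set_option autoImplicit false
open Cfsg

namespace Cfsg.Agent.S1954

open Subgroup CfsgLib.ConjFam CfsgLib.AlpGold CfsgLib.Solv
open scoped commutatorElement

section
variable {G : Type*} [Group G] [Finite G] {p : ℕ} [hp : Fact p.Prime]

theorem rel_pow (M E : Subgroup G) (hEM : E ≤ M) (hn : M ≤ normalizer (E : Set G))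
    (h : ∀ t ∈ M, (orderOf t).Coprime p → t ∈ E) : ∃ k, E.relIndex M = p ^ k := by
  haveI : (E.subgroupOf M).Normal := by
    refine ⟨fun n hn' g => ?_⟩
    rw [Subgroup.mem_subgroupOf] at hn' ⊢
    exact ((Subgroup.mem_normalizer_iff.1 (hn g.2)) n).1 hn'
  have hP : IsPGroup p (M ⧸ E.subgroupOf M) := by
    intro y
    obtain ⟨g, rfl⟩ := QuotientGroup.mk_surjective y
    obtain ⟨a, n, hn', hg⟩ := Nat.exists_eq_pow_mul_and_not_dvd (n := orderOf (g : G)) (orderOf_pos _).ne' p hp.out.ne_one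
    refine ⟨a, ?_⟩
    rw [← QuotientGroup.mk_pow, QuotientGroup.eq_one_iff, Subgroup.mem_subgroupOf]
    refine h _ (by simpa using (g ^ p ^ a).2) ?_
    have h1 : orderOf ((g ^ p ^ a : M) : G) ∣ n := by
      apply orderOf_dvd_of_pow_eq_one
      have : (((g ^ p ^ a : M) : G)) ^ n = (g : G) ^ (p ^ a * n) := by
        simp [pow_mul]
      rw [this, ← hg, pow_orderOf_eq_one]
    exact Nat.Coprime.coprime_dvd_left h1 ((Nat.Prime.coprime_iff_not_dvd hp.out).2 hn').symm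
  obtain ⟨k, hk⟩ := IsPGroup.iff_card.1 hP
  exact ⟨k, hk⟩

theorem step_series (S : Sylow p G) (A : Subgroup G) (hAS : A ≤ (S : Subgroup G))
    (Sr : ℕ → Subgroup G) (h0 : Sr 0 = A) (hs : ∀ i, Sr (i + 1) = ⁅Sr i, A⁆)
    (hsc : ∀ i, ∀ a ∈ Sr i, ∀ x : G, x * a * x⁻¹ ∈ (S : Subgroup G) → x * a * x⁻¹ ∈ Sr i)
    (k : ℕ) (hk : Sr k = ⊥)
    (U : Subgroup G) (hU : U ≤ (S : Subgroup G))
    (hR : IsSylowIn p ((S : Subgroup G) ⊓ normalizer (U : Set G)) (normalizer (U : Set G)))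
    (ih : ∀ D : Subgroup G, D ≤ (S : Subgroup G) → U < D → ∀ g : G, rc g (D : Set G) ⊆ (S : Subgroup G) →
        CCh {T : Subgroup G | T ≤ (S : Subgroup G) ∧ A ≤ T} (D : Set G) g)
    (m : G) (hm : m ∈ normalizer (U : Set G)) :
    CCh {T : Subgroup G | T ≤ (S : Subgroup G) ∧ A ≤ T} (U : Set G) m := by
  have hSp : IsPGroup p (S : Subgroup G) := S.isPGroup'
  have hsc0 : ∀ a ∈ A, ∀ x : G, x * a * x⁻¹ ∈ (S : Subgroup G) → x * a * x⁻¹ ∈ A := by
    intro a ha x hx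
    have := hsc 0 a (by rw [h0]; exact ha) x hx
    rwa [h0] at this
  have hAnorm : (S : Subgroup G) ≤ normalizer (A : Set G) := by
    intro s hs
    refine CfsgLib.PLocal.mem_normalizer_of_conj_le fun a ha => ?_
    exact hsc0 a ha s ((S : Subgroup G).mul_mem ((S : Subgroup G).mul_mem hs (hAS ha)) ((S : Subgroup G).inv_mem hs))
  by_cases hAU : A ≤ U
  · exact CCh.of_ch (Ch.step ⟨hU, hAU⟩ hm subset_rfl)
  set N : Subgroup G := normalizer (U : Set G) with hN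
  have hUN : U ≤ N := le_normalizer
  -- an element of `A` normalizing `U` outside `U`
  obtain ⟨a, haA, haN, haU⟩ : ∃ a ∈ A, a ∈ N ∧ a ∉ U := by
    have hY : U ⊔ A ≤ (S : Subgroup G) := sup_le hU hAS
    have hlt : U < U ⊔ A := by
      refine lt_of_le_of_ne le_sup_left fun h => hAU ?_
      rw [h]; exact le_sup_right
    have h1 := lt_inf_normalizer_of_pgroup (hSp.to_le hY) hlt
    obtain ⟨y, ⟨hyY, hyN⟩, hyU⟩ := SetLike.exists_of_lt h1
    have hcoe := Subgroup.coe_mul_of_left_le_normalizer_right U A (hU.trans hAnorm)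
    have hy2 : y ∈ ((U ⊔ A : Subgroup G) : Set G) := hyY
    rw [hcoe] at hy2
    obtain ⟨u, hu, a, ha, rfl⟩ := Set.mem_mul.1 hy2
    refine ⟨a, ha, ?_, ?_⟩
    · have := N.mul_mem (N.inv_mem (hUN hu)) hyN
      simpa using this
    · intro h
      exact hyU (U.mul_mem hu h)
  -- the normal closure
  set W : Subgroup G := closure {w | ∃ x ∈ N, ∃ b ∈ A ⊓ N, w = x * b * x⁻¹} with hW
  have hWN : W ≤ N := by
    rw [hW, Subgroup.closure_le]
    rintro _ ⟨x, hx, b, hb, rfl⟩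
    exact N.mul_mem (N.mul_mem hx hb.2) (N.inv_mem hx)
  have hWconj : ∀ x ∈ N, ∀ w ∈ W, x * w * x⁻¹ ∈ W := by
    intro x hx w hw
    induction hw using Subgroup.closure_induction with
    | mem w hw =>
      obtain ⟨x', hx', b, hb, rfl⟩ := hw
      refine Subgroup.subset_closure ⟨x * x', N.mul_mem hx hx', b, hb, ?_⟩
      group
    | one => simp
    | mul w₁ w₂ _ _ h1 h2 =>
      have := W.mul_mem h1 h2
      have e : x * (w₁ * w₂) * x⁻¹ = x * w₁ * x⁻¹ * (x * w₂ * x⁻¹) := by group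
      rw [e]; exact this
    | inv w _ h1 =>
      have := W.inv_mem h1
      have e : x * w⁻¹ * x⁻¹ = (x * w * x⁻¹)⁻¹ := by group
      rw [e]; exact this
  have haW : a ∈ W := Subgroup.subset_closure ⟨1, N.one_mem, a, ⟨haA, haN⟩, by simp⟩
  set M : Subgroup G := U ⊔ W with hM
  have hMN : M ≤ N := sup_le hUN hWN
  have hNM : N ≤ normalizer (M : Set G) := by
    intro x hx
    refine CfsgLib.PLocal.mem_normalizer_of_conj_le fun y hy => ?_
    have hle : M ≤ M.comap (MulAut.conj x).toMonoidHom := by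
      refine sup_le ?_ ?_
      · intro y hy
        exact (le_sup_left : U ≤ M) (((Subgroup.mem_normalizer_iff.1 hx) y).1 hy)
      · intro y hy
        exact (le_sup_right : W ≤ M) (hWconj x hx y hy)
    exact hle hy
  have hR₀ : IsSylowIn p (((S : Subgroup G) ⊓ N) ⊓ M) M := isSylowIn_inf_normal hR hMN hNM
  set R₀ : Subgroup G := ((S : Subgroup G) ⊓ N) ⊓ M with hR₀def
  have hR₀S : R₀ ≤ (S : Subgroup G) := inf_le_left.trans inf_le_left
  have hUR₀ : U < R₀ := by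
    refine lt_of_le_of_ne (le_inf (le_inf hU hUN) le_sup_left) fun h => haU ?_
    rw [h]
    exact ⟨⟨hAS haA, haN⟩, (le_sup_right : W ≤ M) haW⟩
  obtain ⟨u, huM, hv⟩ := frattini hR₀ (hNM hm)
  have Cv : CCh {T : Subgroup G | T ≤ (S : Subgroup G) ∧ A ≤ T} (U : Set G) (u⁻¹ * m) := by
    refine (ih R₀ hR₀S hUR₀ _ ?_).mono hUR₀.le
    rw [rc_of_mem_normalizer hv]
    exact hR₀S
  -- chain property
  have hBconj : ∀ i, ∀ x ∈ N, ∀ z ∈ U ⊓ Sr i, x * z * x⁻¹ ∈ U ⊓ Sr i := by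
    intro i x hx z hz
    have h1 : x * z * x⁻¹ ∈ U := ((Subgroup.mem_normalizer_iff.1 hx) z).1 hz.1
    exact ⟨h1, hsc i z hz.2 x (hU h1)⟩
  have key : ∀ E F : Subgroup G, (∀ x ∈ N, ∀ f ∈ F, x * f * x⁻¹ ∈ F) → (∀ x ∈ N, ∀ z ∈ E, x * z * x⁻¹ ∈ E) →
      (∀ b ∈ A ⊓ N, ∀ z ∈ E, z⁻¹ * (b * z * b⁻¹) ∈ F) → ∀ w ∈ W, ∀ z ∈ E, z⁻¹ * (w * z * w⁻¹) ∈ F := by
    intro E F hF hE hb w hw
    induction hw using Subgroup.closure_induction with
    | mem w hw =>
      obtain ⟨x, hx, b, hb', rfl⟩ := hw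
      intro z hz
      have hz' : x⁻¹ * z * x⁻¹⁻¹ ∈ E := hE x⁻¹ (N.inv_mem hx) z hz
      have h1 := hF x hx _ (hb b hb' _ hz')
      have e : z⁻¹ * (x * b * x⁻¹ * z * (x * b * x⁻¹)⁻¹) =
          x * ((x⁻¹ * z * x⁻¹⁻¹)⁻¹ * (b * (x⁻¹ * z * x⁻¹⁻¹) * b⁻¹)) * x⁻¹ := by group
      rw [e]; exact h1
    | one => intro z _; simp
    | mul w₁ w₂ hw₁ hw₂ h1 h2 =>
      intro z hz
      have h3 := hF w₁ (hWN hw₁) _ (h2 z hz)
      have e : z⁻¹ * (w₁ * w₂ * z * (w₁ * w₂)⁻¹) =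
          (z⁻¹ * (w₁ * z * w₁⁻¹)) * (w₁ * (z⁻¹ * (w₂ * z * w₂⁻¹)) * w₁⁻¹) := by group
      rw [e]
      exact F.mul_mem (h1 z hz) h3
    | inv w hw h1 =>
      intro z hz
      have h3 := hF w⁻¹ (N.inv_mem (hWN hw)) _ (F.inv_mem (h1 z hz))
      have e : z⁻¹ * (w⁻¹ * z * w⁻¹⁻¹) = w⁻¹ * (z⁻¹ * (w * z * w⁻¹))⁻¹ * w⁻¹⁻¹ := by group
      rw [e]
      exact h3
  have hUconj : ∀ x ∈ N, ∀ z ∈ U, x * z * x⁻¹ ∈ U := fun x hx z hz =>
    ((Subgroup.mem_normalizer_iff.1 hx) z).1 hz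
  have hchain0 : ∀ w ∈ W, ∀ y ∈ U, y⁻¹ * (w * y * w⁻¹) ∈ U ⊓ Sr 0 := by
    apply key U (U ⊓ Sr 0) (hBconj 0) hUconj
    intro b hb z hz
    refine ⟨U.mul_mem (U.inv_mem hz) (hUconj b hb.2 z hz), ?_⟩
    rw [h0]
    have h1 : z⁻¹ * b * z⁻¹⁻¹ ∈ A := ((Subgroup.mem_normalizer_iff.1 (hAnorm (hU (U.inv_mem hz)))) b).1 hb.1
    have e : z⁻¹ * (b * z * b⁻¹) = z⁻¹ * b * z⁻¹⁻¹ * b⁻¹ := by group
    rw [e]
    exact A.mul_mem h1 (A.inv_mem hb.1)
  have hchain1 : ∀ i, ∀ w ∈ W, ∀ z ∈ U ⊓ Sr i, z⁻¹ * (w * z * w⁻¹) ∈ U ⊓ Sr (i + 1) := by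
    intro i
    apply key (U ⊓ Sr i) (U ⊓ Sr (i + 1)) (hBconj (i + 1)) (hBconj i)
    intro b hb z hz
    refine ⟨U.mul_mem (U.inv_mem hz.1) (hUconj b hb.2 z hz.1), ?_⟩
    rw [hs]
    have h1 := Subgroup.commutator_mem_commutator ((Sr i).inv_mem hz.2) hb.1
    rw [commutatorElement_def] at h1
    have e : z⁻¹ * (b * z * b⁻¹) = z⁻¹ * b * z⁻¹⁻¹ * b⁻¹ := by group
    rw [e]
    exact h1
  -- elements of order prime to `p` in `M`
  have hUNW : U ≤ normalizer (W : Set G) := by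
    intro y hy
    exact CfsgLib.PLocal.mem_normalizer_of_conj_le fun w hw => hWconj y (hUN hy) w hw
  have hpW : ∀ t ∈ M, (orderOf t).Coprime p → t ∈ W := by
    intro t ht hcop
    have hcoe := Subgroup.coe_mul_of_left_le_normalizer_right U W hUNW
    have ht2 : t ∈ ((U ⊔ W : Subgroup G) : Set G) := ht
    rw [hcoe] at ht2
    obtain ⟨y, hy, w, hw, rfl⟩ := Set.mem_mul.1 ht2
    have hpow : ∀ n : ℕ, ∃ w' ∈ W, (y * w) ^ n = y ^ n * w' := by
      intro n
      induction n with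
      | zero => exact ⟨1, W.one_mem, by simp⟩
      | succ n ih2 =>
        obtain ⟨w', hw', e⟩ := ih2
        have h1 : y⁻¹ * w' * y⁻¹⁻¹ ∈ W := hWconj y⁻¹ (N.inv_mem (hUN hy)) w' hw'
        rw [inv_inv] at h1
        refine ⟨(y⁻¹ * w' * y) * w, W.mul_mem h1 hw, ?_⟩
        rw [pow_succ, e, pow_succ]
        group
    obtain ⟨j, hj⟩ := (hSp.to_le hU) ⟨y, hy⟩
    have hyj : y ^ p ^ j = 1 := by
      have := congrArg Subtype.val hj
      simpa using this
    obtain ⟨w', hw', e⟩ := hpow (p ^ j)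
    rw [hyj, one_mul] at e
    obtain ⟨k, hk⟩ := exists_pow_eq_self_of_coprime (Nat.Coprime.pow_left j hcop.symm)
    rw [← hk, e]
    exact W.pow_mem hw' k
  have hstab : ∀ t : G, (orderOf t).Coprime p → ∀ z c : G, t * z * t⁻¹ = z * c → t * c * t⁻¹ = c →
      c ∈ (S : Subgroup G) → c = 1 := by
    intro t hcop z c h1 h2 hc
    obtain ⟨j, hj⟩ := IsPGroup.iff_orderOf.1 hSp ⟨c, hc⟩
    rw [Subgroup.orderOf_mk] at hj
    refine CfsgLib.Trans.eq_one_of_stable (g := z) (MulAut.conj t) (by simpa using h1) (by simpa using h2) ?_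
    rw [hj]
    apply Nat.Coprime.pow_right
    have hd : orderOf (MulAut.conj t) ∣ orderOf t := orderOf_map_dvd MulAut.conj t
    exact Nat.Coprime.coprime_dvd_left hd hcop
  have hpE : ∀ t ∈ M, (orderOf t).Coprime p → t ∈ M ⊓ centralizer (U : Set G) := by
    intro t ht hcop
    refine ⟨ht, ?_⟩
    have htW := hpW t ht hcop
    have hfix : ∀ d i, i + d = k → ∀ z ∈ U ⊓ Sr i, t * z * t⁻¹ = z := by
      intro d
      induction d with
      | zero =>
        intro i hi z hz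
        have hik : i = k := by omega
        rw [hik, hk] at hz
        have : z = 1 := by simpa using hz.2
        rw [this]; simp
      | succ d ih2 =>
        intro i hi z hz
        have h1 := hchain1 i t htW z hz
        have h2 := ih2 (i + 1) (by omega) _ h1
        have h3 := hstab t hcop z _ (by group) h2 (hU h1.1)
        rw [inv_mul_eq_one] at h3
        exact h3.symm
    change t ∈ centralizer (U : Set G)
    rw [Subgroup.mem_centralizer_iff]
    intro y hy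
    have h1 := hchain0 t htW y hy
    have h2 := hfix k 0 (by omega) _ h1
    have h3 := hstab t hcop y _ (by group) h2 (hU h1.1)
    rw [inv_mul_eq_one] at h3
    have : y * t = t * y := by
      calc y * t = (t * y * t⁻¹) * t := by rw [← h3]
        _ = t * y := by group
    exact this
  have hENM : M ≤ normalizer ((M ⊓ centralizer (U : Set G) : Subgroup G) : Set G) := by
    intro x hx
    refine CfsgLib.PLocal.mem_normalizer_of_conj_le fun c hc => ?_
    refine ⟨M.mul_mem (M.mul_mem hx hc.1) (M.inv_mem hx), ?_⟩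
    have h1 := (norm_le_norm_cent U) (hMN hx)
    exact ((Subgroup.mem_normalizer_iff.1 h1) c).1 hc.2
  obtain ⟨k', hk'⟩ := rel_pow M (M ⊓ centralizer (U : Set G)) inf_le_left hENM hpE
  have hMle := le_sup_of_relIndex_pow hk' hR₀
  have hcoe := Subgroup.coe_mul_of_right_le_normalizer_left (M ⊓ centralizer (U : Set G)) R₀
    ((inf_le_right : R₀ ≤ M).trans hENM)
  have hu2 : u ∈ (((M ⊓ centralizer (U : Set G)) ⊔ R₀ : Subgroup G) : Set G) := hMle huM
  rw [hcoe] at hu2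
  obtain ⟨c, hc, r, hr, rfl⟩ := Set.mem_mul.1 hu2
  have Cu : CCh {T : Subgroup G | T ≤ (S : Subgroup G) ∧ A ≤ T} (U : Set G) (c * r) :=
    CCh.prefix hc.2 (CCh.of_ch (Ch.step (T := (S : Subgroup G)) ⟨le_rfl, hAS⟩ (le_normalizer (hR₀S hr)) hU))
  have hm2 : m = (c * r) * ((c * r)⁻¹ * m) := by group
  rw [hm2]
  refine Cu.trans ?_
  rw [rc_of_mem_normalizer (hMN huM)]
  exact Cv

/-- Control of strong fusion in `N` by the normalizer of `R`. -/
def Good (N D R : Subgroup G) : Prop :=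
  ∀ A : Subgroup G, A ≤ D → ∀ n ∈ N, A.map (MulAut.conj n).toMonoidHom ≤ D →
    ∃ h ∈ N ⊓ normalizer (R : Set G), ∃ c ∈ N ⊓ centralizer (A : Set G), n = h * c

omit [Finite G] in
lemma good_bot (N D : Subgroup G) : Good N D (⊥ : Subgroup G) := by
  intro A _ n hn _
  refine ⟨n, Subgroup.mem_inf.2 ⟨hn, ?_⟩, 1, Subgroup.one_mem _, by simp⟩
  rw [Subgroup.mem_normalizer_iff]
  intro h
  simp only [Subgroup.mem_bot]
  constructor
  · rintro rfl; simp
  · intro h1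
    have : n * h = 1 * n := by
      calc n * h = n * h * n⁻¹ * n := by group
        _ = 1 * n := by rw [h1]
    simpa using this

lemma good_sup {N D R₁ R₂ : Subgroup G} (hR₁ : R₁ ≤ D) (h₁ : Good N D R₁) (h₂ : Good N D R₂) :
    Good N D (R₁ ⊔ R₂) := by
  intro A hA n hn hAn
  obtain ⟨h1, hh1, c1, hc1, e1⟩ := h₁ A hA n hn hAn
  have hle : (A ⊔ R₁).map (MulAut.conj h1).toMonoidHom ≤ D := by
    rw [Subgroup.map_sup]
    refine sup_le ?_ ?_
    · rintro _ ⟨a, ha, rfl⟩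
      have hca : c1 * a = a * c1 := (Subgroup.mem_centralizer_iff.1 hc1.2 a ha).symm
      apply hAn
      refine ⟨a, ha, ?_⟩
      simp only [MulEquiv.coe_toMonoidHom, MulAut.conj_apply]
      rw [e1]
      calc h1 * c1 * a * (h1 * c1)⁻¹ = h1 * (c1 * a) * c1⁻¹ * h1⁻¹ := by group
        _ = h1 * (a * c1) * c1⁻¹ * h1⁻¹ := by rw [hca]
        _ = _ := by group
    · rintro _ ⟨a, ha, rfl⟩
      exact hR₁ ((Subgroup.mem_normalizer_iff.1 hh1.2 a).1 ha)
  obtain ⟨h2, hh2, c2, hc2, e2⟩ := h₂ (A ⊔ R₁) (sup_le hA hR₁) h1 hh1.1 hle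
  have hc2A : c2 ∈ centralizer (A : Set G) :=
    Subgroup.centralizer_le (SetLike.coe_subset_coe.2 (le_sup_left : A ≤ A ⊔ R₁)) hc2.2
  have hc2R : c2 ∈ normalizer (R₁ : Set G) := by
    have hc3 : c2 ∈ centralizer (R₁ : Set G) :=
      Subgroup.centralizer_le (SetLike.coe_subset_coe.2 (le_sup_right : R₁ ≤ A ⊔ R₁)) hc2.2
    exact Subgroup.centralizer_le_normalizer _ hc3
  have hh21 : h2 ∈ normalizer (R₁ : Set G) := by
    have : h2 = h1 * c2⁻¹ := by rw [e2]; group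
    rw [this]
    exact Subgroup.mul_mem _ hh1.2 (Subgroup.inv_mem _ hc2R)
  refine ⟨h2, ⟨hh2.1, ?_⟩, c2 * c1, ⟨Subgroup.mul_mem _ hc2.1 hc1.1, Subgroup.mul_mem _ hc2A hc1.2⟩, ?_⟩
  · refine CfsgLib.PLocal.mem_normalizer_of_conj_le fun y hy => ?_
    have hle2 : R₁ ⊔ R₂ ≤ (R₁ ⊔ R₂).comap (MulAut.conj h2).toMonoidHom := by
      refine sup_le ?_ ?_
      · intro y hy
        exact (le_sup_left : R₁ ≤ R₁ ⊔ R₂) ((Subgroup.mem_normalizer_iff.1 hh21 y).1 hy)
      · intro y hy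
        exact (le_sup_right : R₂ ≤ R₁ ⊔ R₂) ((Subgroup.mem_normalizer_iff.1 hh2.2 y).1 hy)
    exact hle2 hy
  · rw [e1, e2]; group

lemma good_conj {N D V : Subgroup G} [hN : N.Normal] (h : Good N D V) {x : G}
    (hx : x ∈ normalizer (D : Set G)) : Good N D (V.map (MulAut.conj x).toMonoidHom) := by
  intro A hA n hn hAn
  have hxi : x⁻¹ ∈ normalizer (D : Set G) := Subgroup.inv_mem _ hx
  have hD : ∀ d ∈ D, x⁻¹ * d * x⁻¹⁻¹ ∈ D := fun d hd => (Subgroup.mem_normalizer_iff.1 hxi d).1 hd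
  have hn' : x⁻¹ * n * x⁻¹⁻¹ ∈ N := hN.conj_mem n hn x⁻¹
  have hA' : A.map (MulAut.conj x⁻¹).toMonoidHom ≤ D := by
    rintro _ ⟨a, ha, rfl⟩
    exact hD a (hA ha)
  have hAn' : (A.map (MulAut.conj x⁻¹).toMonoidHom).map (MulAut.conj (x⁻¹ * n * x⁻¹⁻¹)).toMonoidHom ≤ D := by
    rintro _ ⟨_, ⟨a, ha, rfl⟩, rfl⟩
    have h1 : n * a * n⁻¹ ∈ D := hAn ⟨a, ha, rfl⟩
    have h2 := hD _ h1
    simp only [MulEquiv.coe_toMonoidHom, MulAut.conj_apply]
    have e : x⁻¹ * n * x⁻¹⁻¹ * (x⁻¹ * a * x⁻¹⁻¹) * (x⁻¹ * n * x⁻¹⁻¹)⁻¹ = x⁻¹ * (n * a * n⁻¹) * x⁻¹⁻¹ := by group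
    rw [e]
    exact h2
  obtain ⟨h', hh', c', hc', e⟩ := h _ hA' _ hn' hAn'
  refine ⟨x * h' * x⁻¹, Subgroup.mem_inf.2 ⟨hN.conj_mem _ hh'.1 x, ?_⟩, x * c' * x⁻¹, Subgroup.mem_inf.2 ⟨hN.conj_mem _ hc'.1 x, ?_⟩, ?_⟩
  · refine CfsgLib.PLocal.mem_normalizer_of_conj_le ?_
    rintro _ ⟨v, hv, rfl⟩
    refine ⟨h' * v * h'⁻¹, (Subgroup.mem_normalizer_iff.1 hh'.2 v).1 hv, ?_⟩
    simp only [MulEquiv.coe_toMonoidHom, MulAut.conj_apply]
    group
  · rw [Subgroup.mem_centralizer_iff]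
    intro a ha
    have h1 := Subgroup.mem_centralizer_iff.1 hc'.2 (x⁻¹ * a * x⁻¹⁻¹) ⟨a, ha, rfl⟩
    calc a * (x * c' * x⁻¹) = x * ((x⁻¹ * a * x⁻¹⁻¹) * c') * x⁻¹ := by group
      _ = x * (c' * (x⁻¹ * a * x⁻¹⁻¹)) * x⁻¹ := by rw [h1]
      _ = _ := by group
  · have e2 : n = x * (x⁻¹ * n * x⁻¹⁻¹) * x⁻¹ := by group
    rw [e2, e]
    group

/-- The descending series of `W`. -/
def Sr (W : Subgroup G) : ℕ → Subgroup G
  | 0 => W
  | i + 1 => ⁅Sr W i, W⁆

omit [Finite G] in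
lemma Sr_le (W : Subgroup G) : ∀ i, Sr W i ≤ W := by
  intro i
  induction i with
  | zero => exact le_rfl
  | succ i ih =>
    change ⁅Sr W i, W⁆ ≤ W
    rw [Subgroup.commutator_le]
    intro r hr w hw
    rw [commutatorElement_def]
    exact W.mul_mem (W.mul_mem (W.mul_mem (ih hr) hw) (W.inv_mem (ih hr))) (W.inv_mem hw)

omit [Finite G] in
lemma Sr_conj {W : Subgroup G} {x : G} (hx : ∀ w ∈ W, x * w * x⁻¹ ∈ W) :
    ∀ i, ∀ a ∈ Sr W i, x * a * x⁻¹ ∈ Sr W i := by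
  intro i
  induction i with
  | zero => exact hx
  | succ i ih =>
    intro a ha
    have hle : ⁅Sr W i, W⁆ ≤ (⁅Sr W i, W⁆ : Subgroup G).comap (MulAut.conj x).toMonoidHom := by
      rw [Subgroup.commutator_le]
      intro r hr w hw
      change x * ⁅r, w⁆ * x⁻¹ ∈ ⁅Sr W i, W⁆
      have := Subgroup.commutator_mem_commutator (ih r hr) (hx w hw)
      have e : x * ⁅r, w⁆ * x⁻¹ = ⁅x * r * x⁻¹, x * w * x⁻¹⁆ := by
        simp only [commutatorElement_def]; group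
      rw [e]
      exact this
    exact hle ha

lemma Sr_bot {W : Subgroup G} (hW : IsPGroup p W) : ∃ k, Sr W k = ⊥ := by
  haveI : Group.IsNilpotent W := hW.isNilpotent
  obtain ⟨k, hk⟩ := Subgroup.nilpotent_iff_lowerCentralSeries.1 (inferInstance : Group.IsNilpotent W)
  have hle : ∀ i, Sr W i ≤ ((⊤ : Subgroup W).lowerCentralSeries i).map W.subtype := by
    intro i
    induction i with
    | zero =>
      intro y hy
      exact ⟨⟨y, hy⟩, by simp [Subgroup.lowerCentralSeries_zero], rfl⟩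
    | succ i ih =>
      change ⁅Sr W i, W⁆ ≤ _
      rw [Subgroup.commutator_le]
      intro r hr w hw
      obtain ⟨r', hr', rfl⟩ := ih hr
      refine ⟨⁅r', ⟨w, hw⟩⁆, ?_, rfl⟩
      exact Subgroup.commutator_mem_commutator hr' (mem_top _)
  refine ⟨k, ?_⟩
  have := hle k
  rw [hk] at this
  simpa using this

end

/-- Let N be a normal subgroup of the finite group G, P a Sylow p-subgroup of G, and V a subgroup of P ∩ N normal in P ∩ N such that N_N(V) controls strong fusion in P ∩ N with respect to N (whenever a subgroup A of P ∩ N has n A n⁻¹ ≤ P ∩ N for some n in N, then n = h c with h in N_N(V) and c in C_N(A)). Let W be the subgroup generated by the conjugates of V under N_G(P ∩ N). Then N_G(W) controls strong fusion in P with respect to G. -/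
theorem result {G : Type*} [Group G] [Finite G] {p : ℕ} [Fact p.Prime] (N : Subgroup G) [N.Normal] (P : Sylow p G) (V : Subgroup G)
    (hV : V ≤ (P : Subgroup G) ⊓ N) (hVn : ∀ x ∈ (P : Subgroup G) ⊓ N, V.map (MulAut.conj x).toMonoidHom = V)
    (hctrl : ∀ A : Subgroup G, A ≤ (P : Subgroup G) ⊓ N → ∀ n ∈ N, A.map (MulAut.conj n).toMonoidHom ≤ (P : Subgroup G) ⊓ N →
      ∃ h ∈ N ⊓ Subgroup.normalizer (V : Set G), ∃ c ∈ N ⊓ Subgroup.centralizer (A : Set G), n = h * c)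
    (W : Subgroup G) (hW : W = Subgroup.closure (⋃ x ∈ Subgroup.normalizer (((P : Subgroup G) ⊓ N : Subgroup G) : Set G),
      ((V.map (MulAut.conj x).toMonoidHom : Subgroup G) : Set G))) :
    ∀ A : Subgroup G, A ≤ (P : Subgroup G) → ∀ g : G, A.map (MulAut.conj g).toMonoidHom ≤ (P : Subgroup G) →
        ∃ h ∈ Subgroup.normalizer (W : Set G), ∃ c ∈ Subgroup.centralizer (A : Set G), g = h * c := by
  classical
  intro A hAP g hg
  set D : Subgroup G := (P : Subgroup G) ⊓ N with hD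
  have hVD : V ≤ D := hV
  have hgood0 : Good N D V := fun A hA n hn hAn => hctrl A hA n hn hAn
  have hconjD : ∀ x ∈ normalizer (D : Set G), ∀ d ∈ D, x * d * x⁻¹ ∈ D :=
    fun x hx d hd => (Subgroup.mem_normalizer_iff.1 hx d).1 hd
  haveI : Fintype G := Fintype.ofFinite G
  -- `W` as a finite supremum
  let s : Finset G := Finset.univ.filter (· ∈ normalizer (D : Set G))
  let f : G → Subgroup G := fun x => V.map (MulAut.conj x).toMonoidHom
  have hWs : W = s.sup f := by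
    rw [hW]
    apply le_antisymm
    · rw [Subgroup.closure_le]
      intro y hy
      simp only [Set.mem_iUnion] at hy
      obtain ⟨x, hx, hy⟩ := hy
      exact (Finset.le_sup (f := f) (by simpa [s] using hx)) hy
    · apply Finset.sup_le
      intro x hx
      intro y hy
      apply Subgroup.subset_closure
      simp only [Set.mem_iUnion]
      exact ⟨x, by simpa [s] using hx, hy⟩
  have hWgood : W ≤ D ∧ Good N D W := by
    rw [hWs]
    refine Finset.sup_induction (p := fun R => R ≤ D ∧ Good N D R) ⟨bot_le, good_bot N D⟩ ?_ ?_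
    · intro R₁ h₁ R₂ h₂
      exact ⟨sup_le h₁.1 h₂.1, good_sup h₁.1 h₁.2 h₂.2⟩
    · intro x hx
      have hx' : x ∈ normalizer (D : Set G) := by simpa [s] using hx
      refine ⟨?_, good_conj hgood0 hx'⟩
      rintro _ ⟨v, hv, rfl⟩
      exact hconjD x hx' v (hVD hv)
  obtain ⟨hWD, hWG⟩ := hWgood
  have hWconj : ∀ x ∈ normalizer (D : Set G), ∀ w ∈ W, x * w * x⁻¹ ∈ W := by
    intro x hx w hw
    rw [hW] at hw ⊢
    induction hw using Subgroup.closure_induction with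
    | mem y hy =>
      apply Subgroup.subset_closure
      simp only [Set.mem_iUnion] at hy ⊢
      obtain ⟨x', hx', v, hv, rfl⟩ := hy
      refine ⟨x * x', Subgroup.mul_mem _ hx hx', v, hv, ?_⟩
      simp only [MulEquiv.coe_toMonoidHom, MulAut.conj_apply]
      group
    | one => simp
    | mul a b _ _ h1 h2 =>
      have e : x * (a * b) * x⁻¹ = x * a * x⁻¹ * (x * b * x⁻¹) := by group
      rw [e]; exact Subgroup.mul_mem _ h1 h2
    | inv a _ h1 =>
      have e : x * a⁻¹ * x⁻¹ = (x * a * x⁻¹)⁻¹ := by group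
      rw [e]; exact Subgroup.inv_mem _ h1
  have hWP : W ≤ (P : Subgroup G) := hWD.trans inf_le_left
  have hDsyl : IsSylowIn p D N := by
    have h1 : IsSylowIn p (P : Subgroup G) ⊤ :=
      ⟨le_top, P.isPGroup', by rw [Subgroup.relIndex_top_right]; exact P.not_dvd_index⟩
    refine isSylowIn_inf_normal h1 le_top ?_
    rw [Subgroup.normalizer_eq_top N]
  -- strong closure of the series
  have hsc : ∀ i, ∀ a ∈ Sr W i, ∀ x : G, x * a * x⁻¹ ∈ (P : Subgroup G) → x * a * x⁻¹ ∈ Sr W i := by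
    intro i a ha x hx
    have hxN : x ∈ normalizer (N : Set G) := by
      rw [Subgroup.normalizer_eq_top N]; trivial
    obtain ⟨u, hu, hv⟩ := frattini hDsyl hxN
    set v := u⁻¹ * x with hvdef
    have ha' : v * a * v⁻¹ ∈ Sr W i := Sr_conj (hWconj v hv) i a ha
    have ha'D : v * a * v⁻¹ ∈ D := hWD (Sr_le W i ha')
    have e1 : x * a * x⁻¹ = u * (v * a * v⁻¹) * u⁻¹ := by rw [hvdef]; group
    have hle : (zpowers (v * a * v⁻¹)).map (MulAut.conj u).toMonoidHom ≤ D := by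
      rw [MonoidHom.map_zpowers, Subgroup.zpowers_le]
      change u * (v * a * v⁻¹) * u⁻¹ ∈ D
      have hN' : u * (v * a * v⁻¹) * u⁻¹ ∈ N :=
        (inferInstance : N.Normal).conj_mem _ (inf_le_right (a := (P : Subgroup G)) ha'D) u
      rw [← e1] at hN' ⊢
      exact Subgroup.mem_inf.2 ⟨hx, hN'⟩
    obtain ⟨h, hh, c, hc, e2⟩ := hWG _ ((Subgroup.zpowers_le).2 ha'D) u hu hle
    have hca : c * (v * a * v⁻¹) = (v * a * v⁻¹) * c :=
      (Subgroup.mem_centralizer_iff.1 hc.2 _ (Subgroup.mem_zpowers _)).symm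
    have e3 : x * a * x⁻¹ = h * (v * a * v⁻¹) * h⁻¹ := by
      rw [e1, e2]
      calc h * c * (v * a * v⁻¹) * (h * c)⁻¹ = h * (c * (v * a * v⁻¹)) * c⁻¹ * h⁻¹ := by group
        _ = h * ((v * a * v⁻¹) * c) * c⁻¹ * h⁻¹ := by rw [hca]
        _ = _ := by group
    rw [e3]
    exact Sr_conj (fun w hw => (Subgroup.mem_normalizer_iff.1 hh.2 w).1 hw) i _ ha'
  obtain ⟨k, hk⟩ := Sr_bot (p := p) (W := W) (P.isPGroup'.to_le hWP)
  have hNN : ∀ T : Subgroup G, T ∈ {T : Subgroup G | T ≤ (P : Subgroup G) ∧ W ≤ T} →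
      normalizer (T : Set G) ≤ normalizer (W : Set G) := by
    intro T hT x hx
    refine CfsgLib.PLocal.mem_normalizer_of_conj_le fun a ha => ?_
    have h1 : x * a * x⁻¹ ∈ T := ((Subgroup.mem_normalizer_iff.1 hx) a).1 (hT.2 ha)
    exact hsc 0 a ha x (hT.1 h1)
  have hch : ∀ (Y : Set G) (h : G), Ch {T : Subgroup G | T ≤ (P : Subgroup G) ∧ W ≤ T} Y h →
      h ∈ normalizer (W : Set G) := by
    intro Y h hh
    induction hh with
    | nil Y => exact Subgroup.one_mem _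
    | cons hT hx hA _ ih => exact Subgroup.mul_mem _ (hNN _ hT hx) ih
  have hg' : rc g⁻¹ (A : Set G) ⊆ (P : Subgroup G) := by
    rw [CfsgLib.ConjFam.rc_coe, inv_inv]
    exact hg
  obtain ⟨c, h, hc, hh, he⟩ := cchain P (fun U hUS hR ih m hm =>
    step_series P W hWP (Sr W) rfl (fun _ => rfl) hsc k hk U hUS hR ih m hm) A hAP g⁻¹ hg'
  refine ⟨h⁻¹, Subgroup.inv_mem _ (hch _ _ hh), c⁻¹, Subgroup.inv_mem _ hc, ?_⟩
  have : g⁻¹⁻¹ = (c * h)⁻¹ := by rw [he]
  rw [inv_inv] at this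
  rw [this]; group

end Cfsg.Agent.S1954
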