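import Cfsg.Statements.S1956
import Cfsg.Agent.Lib.Trans.Basic

set_option autoImplicit false
open Cfsg

namespace Cfsg.Agent.S1956

/-- Let P be a Sylow p-subgroup of the finite group G such that every element of P of order dividing p (dividing 4 when p = 2) is central in P. Then the fusion of these elements is controlled by N_G(P): if such an element a of P has g a g⁻¹ in P, then g = n c with n normalizing P and c commuting with a. -/
theorem result {G : Type*} [Group G] [Finite G] {p : ℕ} [Fact p.Prime] (P : Sylow p G)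
    (hcen : ∀ a ∈ (P : Subgroup G), (a ^ p = 1 ∨ (p = 2 ∧ a ^ 4 = 1)) → ∀ y ∈ (P : Subgroup G), a * y = y * a) :
    ∀ a ∈ (P : Subgroup G), (a ^ p = 1 ∨ (p = 2 ∧ a ^ 4 = 1)) → ∀ g : G, g * a * g⁻¹ ∈ (P : Subgroup G) →
      ∃ n ∈ Subgroup.normalizer ((P : Subgroup G) : Set G), ∃ c : G, c * a = a * c ∧ g = n * c := by
  intro a ha hao g hg
  set C : Subgroup G := Subgroup.centralizer ({a} : Set G) with hC
  have hconjo : (g * a * g⁻¹) ^ p = 1 ∨ (p = 2 ∧ (g * a * g⁻¹) ^ 4 = 1) := by
    rcases hao with h | ⟨h1, h2⟩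
    · left
      rw [conj_pow, h]
      simp
    · right
      refine ⟨h1, ?_⟩
      rw [conj_pow, h2]
      simp
  have hPC : (P : Subgroup G) ≤ C := by
    intro x hx
    rw [hC, Subgroup.mem_centralizer_iff]
    intro w hw
    rw [Set.mem_singleton_iff] at hw
    subst hw
    exact hcen w ha hao x hx
  set P' : Sylow p G := g⁻¹ • P with hP'
  have hmem : ∀ x, x ∈ (P' : Subgroup G) ↔ g * x * g⁻¹ ∈ (P : Subgroup G) := by
    intro x
    have h1 := CfsgLib.Trans.mem_sylow_smul g⁻¹ P x
    rw [inv_inv] at h1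
    exact h1
  have hP'C : (P' : Subgroup G) ≤ C := by
    intro x hx
    rw [hC, Subgroup.mem_centralizer_iff]
    intro w hw
    rw [Set.mem_singleton_iff] at hw
    subst hw
    have h1 := (hmem x).1 hx
    have h2 := hcen _ hg hconjo _ h1
    have h3 : g * (w * x) * g⁻¹ = g * (x * w) * g⁻¹ := by
      calc g * (w * x) * g⁻¹ = (g * w * g⁻¹) * (g * x * g⁻¹) := by group
        _ = (g * x * g⁻¹) * (g * w * g⁻¹) := h2
        _ = _ := by group
    simpa using h3
  obtain ⟨c, hc, hcS⟩ := CfsgLib.Lead.exists_conj_into_sylow P' C hP'C (P : Subgroup G) hPC P.2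
  refine ⟨g * c⁻¹, ?_, c, ?_, by group⟩
  · apply CfsgLib.CT.mem_normalizer_of_conj_le
    intro b hb
    have h1 := (hmem _).1 (hcS b hb)
    have h2 : g * c⁻¹ * b * (g * c⁻¹)⁻¹ = g * (c⁻¹ * b * c) * g⁻¹ := by group
    rw [h2]
    exact h1
  · have := (Subgroup.mem_centralizer_iff.1 hc) a rfl
    exact this.symm

end Cfsg.Agent.S1956
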