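import Cfsg.Statements.S1970
import Cfsg.Agent.Lib.OOL.TC.TC5

set_option autoImplicit false
universe u
open Cfsg

namespace Cfsg.Agent.S1970

/-- Let p be a prime, G a finite group and W an isomorphism-invariant p-group functor (W assigns to every group Q a subgroup W(Q), nontrivial whenever Q is a nontrivial finite p-group, and every isomorphism from a finite p-group Q onto a group R carries W(Q) onto W(R)). Suppose that for every section G* = K/R of G with C_{G*}(O_p(G*)) ≤ O_p(G*) and every Sylow p-subgroup S* of G*, one has O_p(G*) ∩ (G*)' = O_p(G*) ∩ (N_{G*}(W(S*)))'. Then W controls transfer in every section G* of G: S* ∩ (G*)' = S* ∩ (N_{G*}(W(S*)))' for a Sylow p-subgroup S* of G*. -/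
theorem result {G : Type u} [Group G] [Finite G] {p : ℕ} [Fact p.Prime] (W : ∀ (Q : Type u) [Group Q], Subgroup Q) (hW : Cfsg.IsCharPFunctor.{u} p W) (hloc : ∀ (K R : Subgroup G) [hR : (R.subgroupOf K).Normal], Subgroup.centralizer ((Cfsg.pCore p (↥K ⧸ R.subgroupOf K) : Subgroup (↥K ⧸ R.subgroupOf K)) : Set (↥K ⧸ R.subgroupOf K)) ≤ Cfsg.pCore p (↥K ⧸ R.subgroupOf K) → ∀ T : Sylow p (↥K ⧸ R.subgroupOf K), Cfsg.pCore p (↥K ⧸ R.subgroupOf K) ⊓ commutator (↥K ⧸ R.subgroupOf K) = Cfsg.pCore p (↥K ⧸ R.subgroupOf K) ⊓ ⁅Subgroup.normalizer ((Cfsg.inducedFunctor (G := (↥K ⧸ R.subgroupOf K)) W ((T : Subgroup (↥K ⧸ R.subgroupOf K))) : Subgroup (↥K ⧸ R.subgroupOf K)) : Set (↥K ⧸ R.subgroupOf K)), Subgroup.normalizer ((Cfsg.inducedFunctor (G := (↥K ⧸ R.subgroupOf K)) W ((T : Subgroup (↥K ⧸ R.subgroupOf K))) : Subgroup (↥K ⧸ R.subgroupOf K)) : Set (↥K ⧸ R.subgroupOf K))⁆) : ∀ (K R : Subgroup G) [hR : (R.subgroupOf K).Normal], Cfsg.ControlsTransferIn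 p (Cfsg.inducedFunctor (G := (↥K ⧸ R.subgroupOf K)) W) ⊤ := by
  have hF := CfsgLib.TCt.oFam_sec hW
  let Q : ∀ (Y : Type u) [Group Y], Prop := fun Y _ =>
    Subgroup.centralizer (Cfsg.pCore p Y : Set Y) ≤ Cfsg.pCore p Y → ∀ T : Sylow p Y,
      Cfsg.pCore p Y ⊓ commutator Y ≤ CfsgLib.TCt.Lc (CfsgLib.TCt.oFam W) (T : Subgroup Y)
  have hX : CfsgLib.TCt.SecAll Q G := by
    intro Y _ _ hs hc T x hx
    obtain ⟨K, L, hL, ⟨e⟩⟩ := CfsgLib.OOL.SecX.top hs
    haveI := hL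
    obtain ⟨hx1, hx2⟩ := Subgroup.mem_inf.mp hx
    let T₁ : Sylow p (K ⧸ L.subgroupOf K) := T.mapSurjective (f := e.symm.toMonoidHom) e.symm.surjective
    have hT₁ : (T₁ : Subgroup (K ⧸ L.subgroupOf K)).map e.toMonoidHom = (T : Subgroup Y) := by
      ext y
      constructor
      · rintro ⟨_, ⟨z, hz, rfl⟩, rfl⟩
        have : e.toMonoidHom (e.symm.toMonoidHom z) = z := by simp
        rw [this]
        exact hz
      · intro hy
        exact ⟨e.symm y, ⟨y, hy, rfl⟩, by simp⟩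
    have hcore := CfsgLib.PLocal.pCore_map_equiv (p := p) e
    have hRnn : (Cfsg.pCore p (K ⧸ L.subgroupOf K)).Normal := CfsgLib.PLocal.pCore_normal'
    have hx3 : e.symm x ∈ Cfsg.pCore p (K ⧸ L.subgroupOf K) := by
      rw [← hcore] at hx1
      obtain ⟨z, hz, rfl⟩ := hx1
      simpa using hz
    have hx4 : e.symm x ∈ commutator (K ⧸ L.subgroupOf K) := by
      have h1 : (commutator Y).map e.symm.toMonoidHom ≤ commutator (K ⧸ L.subgroupOf K) := by
        rw [_root_.commutator_def, Subgroup.map_commutator, _root_.commutator_def]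
        exact Subgroup.commutator_mono le_top le_top
      exact h1 ⟨x, hx2, rfl⟩
    have h2 := hloc K L (CfsgLib.FCtl.constrained_of_equiv e hc) T₁
    have h3 : e.symm x ∈ Cfsg.pCore p (K ⧸ L.subgroupOf K) ⊓ commutator (K ⧸ L.subgroupOf K) := Subgroup.mem_inf.mpr ⟨hx3, hx4⟩
    rw [h2] at h3
    have h4 : e.symm x ∈ CfsgLib.TCt.Lc (CfsgLib.TCt.oFam W) (T₁ : Subgroup (K ⧸ L.subgroupOf K)) := by
      apply CfsgLib.TCt.le_Lc _ ()
      exact Subgroup.mem_inf.mpr ⟨(CfsgLib.PLocal.pCore_isPGroup).le_sylow_of_normal T₁ (Subgroup.mem_inf.mp h3).1, (Subgroup.mem_inf.mp h3).2⟩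
    have h5 := CfsgLib.TCt.Lc_map_le hF e.toMonoidHom e.injective (T₁ : Subgroup (K ⧸ L.subgroupOf K)) T₁.isPGroup' ⟨_, h4, rfl⟩
    rw [hT₁] at h5
    simpa using h5
  have hmain := CfsgLib.TCt.tc_main hF (CfsgLib.TCt.SecAll Q) (CfsgLib.TCt.secAll_sub Q) (CfsgLib.TCt.secAll_quo Q) (by
    intro Γ _ _ hX hC hM hQ
    by_cases hR : Cfsg.pCore p Γ = ⊥
    · intro P x hx
      have h1 : x ∈ Subgroup.centralizer (Cfsg.pCore p Γ : Set Γ) := by
        rw [Subgroup.mem_centralizer_iff]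
        intro h hh
        have h3 : h = 1 := by
          rw [hR] at hh
          exact Subgroup.mem_bot.mp hh
        simp [h3]
      have h2 := hC h1
      rw [hR] at h2
      rw [Subgroup.mem_bot.mp h2]
      exact one_mem _
    · haveI hRnn : (Cfsg.pCore p Γ).Normal := CfsgLib.PLocal.pCore_normal'
      intro P x hx
      obtain ⟨l, hl, r, hr, rfl⟩ := CfsgLib.TCt.tc_step_a hF (Cfsg.pCore p Γ) rfl (hQ _ hR) hM P hx
      exact mul_mem hl (hX Γ CfsgLib.OOL.secX_self hC P hr))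
  intro K R hR
  apply CfsgLib.TCt.ctl_of_tcg
  apply hmain
  intro Y _ _ hs
  exact hX Y (CfsgLib.OOL.SecX.trans hs (CfsgLib.OOL.SecX.of_section K R hR ⟨MulEquiv.refl _⟩))

end Cfsg.Agent.S1970
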