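import Cfsg.Statements.S1972
import Cfsg.Agent.Lib.OOL.TC.TC5

set_option autoImplicit false
universe u
open Cfsg

namespace Cfsg.Agent.S1972

/-- Let p be a prime, G a finite group and W an isomorphism-invariant p-group functor (W assigns to every group Q a subgroup W(Q), nontrivial whenever Q is a nontrivial finite p-group, and every isomorphism from a finite p-group Q onto a group R carries W(Q) onto W(R)). Suppose that whenever G* = K/R is a section of G with C_{G*}(O_p(G*)) ≤ O_p(G*) and S* is a Sylow p-subgroup of G* with W(S*) not normal in G*, there is an element g of S* outside O_p(G*) such that [X, g, …, g] ≤ Y with p − 1 entries g, for every chief factor X/Y of G* with X ≤ O_p(G*). Then W controls transfer in every section of G. -/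
theorem result {G : Type u} [Group G] [Finite G] {p : ℕ} [Fact p.Prime] (W : ∀ (Q : Type u) [Group Q], Subgroup Q) (hW : Cfsg.IsCharPFunctor.{u} p W) (hloc : ∀ (K R : Subgroup G) [hR : (R.subgroupOf K).Normal], Subgroup.centralizer ((Cfsg.pCore p (↥K ⧸ R.subgroupOf K) : Subgroup (↥K ⧸ R.subgroupOf K)) : Set (↥K ⧸ R.subgroupOf K)) ≤ Cfsg.pCore p (↥K ⧸ R.subgroupOf K) → ∀ T : Sylow p (↥K ⧸ R.subgroupOf K), ¬ (Cfsg.inducedFunctor (G := (↥K ⧸ R.subgroupOf K)) W ((T : Subgroup (↥K ⧸ R.subgroupOf K)))).Normal → ∃ g : (↥K ⧸ R.subgroupOf K), g ∈ (T : Subgroup (↥K ⧸ R.subgroupOf K)) ∧ g ∉ Cfsg.pCore p (↥K ⧸ R.subgroupOf K) ∧ ∀ U V : Subgroup (↥K ⧸ R.subgroupOf K), Cfsg.IsChiefFactor U V → U ≤ Cfsg.pCore p (↥K ⧸ R.subgroupOf K) → Cfsg.iterCommutator U (Subgroup.zpowers g) (p - 1) ≤ V) : ∀ (K R : Subgroup G) [hR : (R.subgroupOf K).Normal], Cfsg.ControlsTransferIn p (Cfsg.inducedFunctor (G := (↥K ⧸ R.subgroupOf K)) W) ⊤ := by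
  have hF := CfsgLib.TCt.oFam_sec hW
  let Q : ∀ (Y : Type u) [Group Y], Prop := fun Y _ =>
    Subgroup.centralizer (Cfsg.pCore p Y : Set Y) ≤ Cfsg.pCore p Y → ∀ T : Sylow p Y,
      ¬ (Cfsg.inducedFunctor (G := Y) W (T : Subgroup Y)).Normal → ∃ g : Y, g ∈ (T : Subgroup Y) ∧ g ∉ Cfsg.pCore p Y ∧
        ∀ U V : Subgroup Y, Cfsg.IsChiefFactor U V → U ≤ Cfsg.pCore p Y → Cfsg.iterCommutator U (Subgroup.zpowers g) (p - 1) ≤ V
  have hX : CfsgLib.TCt.SecAll Q G := by
    intro Y _ _ hs hc T hT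
    obtain ⟨K, L, hL, ⟨e⟩⟩ := CfsgLib.OOL.SecX.top hs
    haveI := hL
    let T₁ : Sylow p (K ⧸ L.subgroupOf K) := T.mapSurjective (f := e.symm.toMonoidHom) e.symm.surjective
    have hT₁ : (T₁ : Subgroup (K ⧸ L.subgroupOf K)).map e.toMonoidHom = (T : Subgroup Y) := by
      ext y
      constructor
      · rintro ⟨_, ⟨z, hz, rfl⟩, rfl⟩
        have : e.toMonoidHom (e.symm.toMonoidHom z) = z := by simp
        rw [this]
        exact hz
      · intro hy
        exact ⟨e.symm y, ⟨y, hy, rfl⟩, by simp⟩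
    have h2 := (CfsgLib.FCtl.SecFun.ofChar hW).nat _ _ e.toMonoidHom e.injective (T₁ : Subgroup (K ⧸ L.subgroupOf K)) T₁.isPGroup'
    rw [hT₁] at h2
    have hcore := CfsgLib.PLocal.pCore_map_equiv (p := p) e
    have hcore2 := CfsgLib.PLocal.pCore_map_equiv (p := p) e.symm
    have hT₂ : ¬ (Cfsg.inducedFunctor (G := (↥K ⧸ L.subgroupOf K)) W ((T₁ : Subgroup (↥K ⧸ L.subgroupOf K)))).Normal := by
      intro h3
      apply hT
      rw [h2]
      exact h3.map _ e.surjective
    obtain ⟨g, hg, hgc, hall⟩ := hloc K L (CfsgLib.FCtl.constrained_of_equiv e hc) T₁ hT₂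
    refine ⟨e g, ?_, ?_, ?_⟩
    · rw [← hT₁]
      exact ⟨g, hg, rfl⟩
    · rw [← hcore]
      rintro ⟨y, hy, hy2⟩
      have : y = g := e.injective hy2
      rw [this] at hy
      exact hgc hy
    · intro U V hUV hUc
      have h3 := hall _ _ (CfsgLib.SCl.chief_map_equiv e.symm hUV) (by
        rw [← hcore2]
        exact Subgroup.map_mono hUc)
      have h4 := CfsgLib.SCl.iter_map e.toMonoidHom (U.map e.symm.toMonoidHom) (Subgroup.zpowers g) (p - 1)
      rw [MonoidHom.map_zpowers] at h4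
      have h5 : ∀ X : Subgroup Y, (X.map e.symm.toMonoidHom).map e.toMonoidHom = X := by
        intro X
        ext y
        constructor
        · rintro ⟨_, ⟨z, hz, rfl⟩, rfl⟩
          have : e.toMonoidHom (e.symm.toMonoidHom z) = z := by simp
          rw [this]
          exact hz
        · intro hy
          exact ⟨e.symm y, ⟨y, hy, rfl⟩, by simp⟩
      rw [h5] at h4
      have h6 : e g = e.toMonoidHom g := rfl
      rw [h6, ← h4, ← h5 V]
      exact Subgroup.map_mono h3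
  have hmain := CfsgLib.TCt.tc_main hF (CfsgLib.TCt.SecAll Q) (CfsgLib.TCt.secAll_sub Q) (CfsgLib.TCt.secAll_quo Q) (by
    intro Γ _ _ hX hC hM hQ
    by_contra hG
    let S : Sylow p Γ := default
    obtain ⟨g, hg, hgR, hall⟩ := hX Γ CfsgLib.OOL.secX_self hC S (CfsgLib.TCt.functor_not_normal hF hG S ())
    obtain ⟨-, -, -, -, h5⟩ := CfsgLib.TCt.min_structure hF hM hQ hG S _ rfl
    obtain ⟨U, V, hUV, hU, hne⟩ := h5 g hg hgR
    exact hne (hall U V hUV hU))
  intro K R hR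
  apply CfsgLib.TCt.ctl_of_tcg
  apply hmain
  intro Y _ _ hs
  exact hX Y (CfsgLib.OOL.SecX.trans hs (CfsgLib.OOL.SecX.of_section K R hR ⟨MulEquiv.refl _⟩))

end Cfsg.Agent.S1972
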