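import Cfsg.Statements.S1983
import Cfsg.Agent.Lib.OOL.KI.KI10

set_option autoImplicit false
universe u
open Cfsg

namespace Cfsg.Agent.S1983

/-- Let p be a prime, G a finite group with Sylow p-subgroup S and T = O_p(G). Suppose that the lower or the upper K-infinity subgroup of S is not normal in G. Then there is an element g of S outside T such that [X, g, g, g, g] ≤ Y for every chief factor X/Y of G with X ≤ T, and [Z(T), g, g] = 1; and if moreover C_G(T) ≤ T then some quotient group of G is not p-stable (in the normalizer form: some quadratically acting element of a normalizer fails to map into O_p of the automizer). -/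
theorem result {G : Type u} [Group G] [Finite G] {p : ℕ} [Fact p.Prime] (S : Sylow p G) (hK : ¬ (Cfsg.inducedFunctor Cfsg.kInfLower (S : Subgroup G)).Normal ∨ ¬ (Cfsg.inducedFunctor Cfsg.kInfUpper (S : Subgroup G)).Normal) : ∃ g : G, g ∈ (S : Subgroup G) ∧ g ∉ (Cfsg.pCore p G) ∧ (∀ U V : Subgroup G, Cfsg.IsChiefFactor U V → U ≤ (Cfsg.pCore p G) → Cfsg.iterCommutator U (Subgroup.zpowers g) 4 ≤ V) ∧ ⁅⁅((Cfsg.pCore p G) ⊓ Subgroup.centralizer (((Cfsg.pCore p G) : Subgroup G) : Set G)), (Subgroup.zpowers g)⁆, (Subgroup.zpowers g)⁆ = ⊥ ∧ (Subgroup.centralizer (((Cfsg.pCore p G) : Subgroup G) : Set G) ≤ (Cfsg.pCore p G) → ∃ (N : Subgroup G) (_ : N.Normal), ¬ Cfsg.IsNormalizerPStable p (G ⧸ N)) := by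
  haveI hTn : (Cfsg.pCore p G).Normal := CfsgLib.PLocal.pCore_normal'
  have hTp : IsPGroup p (Cfsg.pCore p G) := CfsgLib.PLocal.pCore_isPGroup
  obtain ⟨A, hAn, hAT, hA2, hTA, hTC⟩ := CfsgLib.KI.exists_critical_core (Cfsg.pCore p G) hTp
  haveI := hAn
  have hZ : (Cfsg.pCore p G) ⊓ Subgroup.centralizer (((Cfsg.pCore p G) : Subgroup G) : Set G) ≤
      A ⊓ Subgroup.centralizer (A : Set G) := by
    intro t ht
    obtain ⟨h1, h2⟩ := Subgroup.mem_inf.mp ht
    have h3 : t ∈ Subgroup.centralizer (A : Set G) := Subgroup.centralizer_le (by exact_mod_cast hAT) h2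
    exact Subgroup.mem_inf.mpr ⟨hTC (Subgroup.mem_inf.mpr ⟨h1, h3⟩), h3⟩
  have hcommon : ∀ g : G, Cfsg.iterCommutator A (Subgroup.zpowers g) 3 ≤ A ⊓ Subgroup.centralizer (A : Set G) →
      ⁅⁅A ⊓ Subgroup.centralizer (A : Set G), Subgroup.zpowers g⁆, Subgroup.zpowers g⁆ = ⊥ →
      (∀ U V : Subgroup G, Cfsg.IsChiefFactor U V → U ≤ (Cfsg.pCore p G) → Cfsg.iterCommutator U (Subgroup.zpowers g) 4 ≤ V) ∧
      ⁅⁅((Cfsg.pCore p G) ⊓ Subgroup.centralizer (((Cfsg.pCore p G) : Subgroup G) : Set G)), Subgroup.zpowers g⁆, Subgroup.zpowers g⁆ = ⊥ := by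
    intro g h3 h2
    refine ⟨CfsgLib.KI.ki_quartic _ A _ hTp hAT hTA hTC h3 h2, ?_⟩
    rw [eq_bot_iff, ← h2]
    exact Subgroup.commutator_mono (Subgroup.commutator_mono hZ le_rfl) le_rfl
  by_cases hC : Subgroup.centralizer (((Cfsg.pCore p G) : Subgroup G) : Set G) ≤ (Cfsg.pCore p G)
  · obtain ⟨g, hg, hgT, h3, h2, U, V, hUV, hUA, h4, h5⟩ := CfsgLib.KI.ki_chief S A hAT hA2 hTA hTC hC hK
    obtain ⟨h6, h7⟩ := hcommon g h3 h2
    haveI hVn : V.Normal := hUV.2.2.1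
    refine ⟨g, hg, hgT, h6, h7, fun _ => ⟨V, hVn, fun hst => h5 ?_⟩⟩
    exact CfsgLib.KI.stable_chief_comm hUV (hTp.to_le (hUA.trans hAT)) hst h4
  · obtain ⟨g, hg, hgT, h3, h2⟩ := CfsgLib.KI.ki_cubic S A hAT hA2 hTA hK
    obtain ⟨h6, h7⟩ := hcommon g h3 h2
    exact ⟨g, hg, hgT, h6, h7, fun h => absurd h hC⟩

end Cfsg.Agent.S1983
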