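import Cfsg.Statements.S1985
import Cfsg.Agent.Lib.OOL.KI.KI7

set_option autoImplicit false
universe u
open Cfsg

namespace Cfsg.Agent.S1985

/-- Let p be an odd prime and G a finite group. Then the lower K-infinity subgroup controls weak closure of elements in G: the lower K-infinity subgroup of every p-subgroup P of G contains Z(P), and for some (equivalently, every) Sylow p-subgroup S of G, with K the lower K-infinity subgroup of S, every element of S commuting with all of N_G(K) is weakly closed in S with respect to G (every G-conjugate of it lying in S equals it). -/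
theorem result {G : Type u} [Group G] [Finite G] {p : ℕ} [Fact p.Prime] (hp : p ≠ 2) : Cfsg.ControlsWeakClosureOfElementsIn p (Cfsg.inducedFunctor (G := G) Cfsg.kInfLower) ⊤ := by
  refine ⟨fun P _ => CfsgLib.KI.center_le_induced_lower P, ?_⟩
  obtain ⟨T, hT⟩ := CfsgLib.CT1.exists_sylowIn (p := p) (⊤ : Subgroup G)
  refine ⟨T, hT.1, hT.2.1, hT.2.2, ?_⟩
  intro x hx h hh hy
  obtain ⟨h1, h2⟩ := Subgroup.mem_inf.mp hx
  exact CfsgLib.KI.wc_core (CfsgLib.KI.induced_isConj CfsgLib.KI.kInfLower_char) (fun P _ => CfsgLib.KI.center_le_induced_lower P)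
    (CfsgLib.KI.locEngel_of_ki hp CfsgLib.KI.kInfLower_char fun _ _ _ _ h => Or.inl h) hT h1
    (fun n hn => Subgroup.mem_centralizer_iff.mp h2 n hn) h hh hy

end Cfsg.Agent.S1985
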