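import Cfsg.Statements.S1990
import Cfsg.Agent.Lib.OOL.SC.NPF2

set_option autoImplicit false
universe u
open Cfsg

namespace Cfsg.Agent.S1990

/-- Let p be an odd prime, G a finite group with Sylow p-subgroup S, and W an isomorphism-invariant p-group functor (W assigns to every group Q a subgroup W(Q), nontrivial whenever Q is a nontrivial finite p-group, and every isomorphism from a finite p-group Q onto a group R carries W(Q) onto W(R)). Suppose N_G(W(S)) has a normal p-complement, and W(T) controls strong fusion in every section G* = K/R of G all of whose sections are p-stable in the normalizer form, for every Sylow p-subgroup T of G*. Then G has a normal p-complement. -/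
theorem result {G : Type u} [Group G] [Finite G] {p : ℕ} [Fact p.Prime] (hp : p ≠ 2) (W : ∀ (Q : Type u) [Group Q], Subgroup Q) (hW : Cfsg.IsCharPFunctor.{u} p W) (S : Sylow p G) (hN : Cfsg.HasNormalPComplement p ↥(Subgroup.normalizer ((Cfsg.inducedFunctor (G := G) W (S : Subgroup G) : Subgroup G) : Set G))) (hctl : ∀ (K R : Subgroup G) [hR : (R.subgroupOf K).Normal], (∀ (K' R' : Subgroup (↥K ⧸ R.subgroupOf K)) [hR' : (R'.subgroupOf K').Normal], Cfsg.IsNormalizerPStable p (↥K' ⧸ R'.subgroupOf K')) → ∀ T : Sylow p (↥K ⧸ R.subgroupOf K), Cfsg.ControlsStrongFusion p (Cfsg.inducedFunctor (G := (↥K ⧸ R.subgroupOf K)) W (T : Subgroup (↥K ⧸ R.subgroupOf K)))) : Cfsg.HasNormalPComplement p G := by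
  have hF := CfsgLib.FCtl.SecFun.ofChar hW
  refine CfsgLib.SCl.np_of_fus hF hp ?_ S hN
  intro Y _ _ hs hstb T
  obtain ⟨K, L, hL, ⟨e⟩⟩ := CfsgLib.OOL.SecX.top hs
  haveI := hL
  let T₁ : Sylow p (K ⧸ L.subgroupOf K) := T.mapSurjective (f := e.symm.toMonoidHom) e.symm.surjective
  have hT₁ : (T : Subgroup Y) = (T₁ : Subgroup (K ⧸ L.subgroupOf K)).map e.toMonoidHom := by
    ext y
    constructor
    · intro hy
      exact ⟨e.symm y, ⟨y, hy, rfl⟩, by simp⟩
    · rintro ⟨_, ⟨z, hz, rfl⟩, rfl⟩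
      have : e.toMonoidHom (e.symm.toMonoidHom z) = z := by simp
      rw [this]
      exact hz
  have hst : ∀ (K' R' : Subgroup (K ⧸ L.subgroupOf K)) [hR' : (R'.subgroupOf K').Normal], Cfsg.IsNormalizerPStable p (K' ⧸ R'.subgroupOf K') := by
    intro K' R' hR'
    apply hstb
    exact CfsgLib.OOL.SecX.trans (CfsgLib.OOL.SecX.of_section K' R' hR' ⟨MulEquiv.refl _⟩)
      (CfsgLib.OOL.SecX.of_mulEquiv e.symm CfsgLib.OOL.secX_self)
  have h1 := CfsgLib.SCl.csf_map_equiv e (hctl K L hst T₁)
  have h2 := hF.nat _ _ e.toMonoidHom e.injective (T₁ : Subgroup (K ⧸ L.subgroupOf K)) T₁.isPGroup'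
  rw [← hT₁] at h2
  show Cfsg.ControlsStrongFusion p (Cfsg.inducedFunctor (G := Y) W (T : Subgroup Y))
  rw [h2]
  exact h1

end Cfsg.Agent.S1990
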