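import Cfsg.Statements.S1989
import Cfsg.Agent.Lib.OOL.KI.KI11

set_option autoImplicit false
universe u
open Cfsg

namespace Cfsg.Agent.S1989

/-- Let p be an odd prime and G a finite group. Then Qd(p) (the natural semidirect product of an elementary abelian group of order p² by SL₂(p)) is not involved in G if and only if, in every section K/R of G and for every Sylow p-subgroup T of K/R, the lower K-infinity subgroup of T controls strong fusion in K/R. -/
theorem result {G : Type u} [Group G] [Finite G] {p : ℕ} [Fact p.Prime] (hp : p ≠ 2) : ¬ Cfsg.Involves ↥(Cfsg.qd p) G ↔ ∀ (K R : Subgroup G) [hR : (R.subgroupOf K).Normal], ∀ T : Sylow p (↥K ⧸ R.subgroupOf K), Cfsg.ControlsStrongFusion p (Cfsg.inducedFunctor (G := (↥K ⧸ R.subgroupOf K)) Cfsg.kInfLower (T : Subgroup (↥K ⧸ R.subgroupOf K))) := by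
  constructor
  · intro hninv K R hR T
    apply CfsgLib.KI.ctl_lower
    intro K' R' hR'
    apply CfsgLib.OOL.normalizerPStable_of_qdfree hp
    intro hs
    apply hninv
    have h1 := CfsgLib.OOL.SecX.trans hs (CfsgLib.OOL.SecX.trans (CfsgLib.OOL.SecX.of_section K' R' hR' ⟨MulEquiv.refl _⟩)
      (CfsgLib.OOL.SecX.of_section K R hR ⟨MulEquiv.refl _⟩))
    obtain ⟨K₂, L, hL, he⟩ := CfsgLib.OOL.SecX.top h1
    exact ⟨K₂, L, hL, he⟩
  · rintro h ⟨K, R, hR, ⟨e⟩⟩
    have T : Sylow p (K ⧸ R.subgroupOf K) := default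
    exact CfsgLib.KI.qd_no_control_lower e T (h K R T)

end Cfsg.Agent.S1989
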