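import Cfsg.Statements.S1998
import Cfsg.Agent.Lib.OOL.TC.TC5

set_option autoImplicit false
universe u
open Cfsg

namespace Cfsg.Agent.S1998

/-- Let p be a prime, G a finite group with Sylow p-subgroup S, and 𝓦 a nonempty set of isomorphism-invariant p-group functors (W assigns to every group Q a subgroup W(Q), nontrivial whenever Q is a nontrivial finite p-group, and every isomorphism from a finite p-group Q onto a group R carries W(Q) onto W(R)). Suppose the induced conjugacy functors control transfer in every section of G other than G itself, but not in G. Let T be the subgroup generated by the S ∩ (N_G(W(S)))', W ∈ 𝓦, and M = N_G(T ∩ O_p(G)). Then: C_G(O_p(G)) ≤ O_p(G); M is a proper subgroup of G containing every proper subgroup of G that contains S (the unique maximal subgroup over S); [O_p(G), M] ≤ O_p(G) ∩ M' ≤ O_p(G) ∩ T; and every element u of S outside O_p(G)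 satisfies [X, u, …, u] ≰ Y with p − 1 entries u, for some chief factor X/Y of G with X ≤ O_p(G). -/
theorem result {G : Type u} [Group G] [Finite G] {p : ℕ} [Fact p.Prime] (S : Sylow p G) (𝓦 : Set (∀ (Q : Type u) [Group Q], Subgroup Q)) (h𝓦 : ∀ W ∈ 𝓦, Cfsg.IsCharPFunctor.{u} p W) (hne : 𝓦.Nonempty) (hsec : ∀ (K R : Subgroup G) [hR : (R.subgroupOf K).Normal], (K = ⊤ → R ≠ ⊥) → Cfsg.FamilyControlsTransferIn p ((fun W => Cfsg.inducedFunctor (G := (↥K ⧸ R.subgroupOf K)) W) '' 𝓦) ⊤) (hG : ¬ Cfsg.FamilyControlsTransferIn p ((fun W => Cfsg.inducedFunctor (G := G) W) '' 𝓦) ⊤) (T M : Subgroup G) (hT : T = (⨆ W ∈ 𝓦, (S : Subgroup G) ⊓ ⁅Subgroup.normalizer ((Cfsg.inducedFunctor (G := G) W (S : Subgroup G) : Subgroup G) : Set G), Subgroup.normalizer ((Cfsg.inducedFunctor (G := G) W (S : Subgroup G) : Subgroup G) : Set G)⁆)) (hM : M = Subgroup.normalizer ((T ⊓ Cfsg.pCore p G : Subgroup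 G) : Set G)) : Subgroup.centralizer ((Cfsg.pCore p G : Subgroup G) : Set G) ≤ Cfsg.pCore p G ∧ (M ≠ ⊤ ∧ ∀ H : Subgroup G, (S : Subgroup G) ≤ H → H ≠ ⊤ → H ≤ M) ∧ (⁅Cfsg.pCore p G, M⁆ ≤ Cfsg.pCore p G ⊓ ⁅M, M⁆ ∧ Cfsg.pCore p G ⊓ ⁅M, M⁆ ≤ Cfsg.pCore p G ⊓ T) ∧ ∀ u : G, u ∈ (S : Subgroup G) → u ∉ Cfsg.pCore p G → ∃ U V : Subgroup G, Cfsg.IsChiefFactor U V ∧ U ≤ Cfsg.pCore p G ∧ ¬ Cfsg.iterCommutator U (Subgroup.zpowers u) (p - 1) ≤ V := by
  have hF := CfsgLib.TCt.wFam_sec (p := p) h𝓦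
  haveI hne' : Nonempty 𝓦 := hne.to_subtype
  have hMs : ∀ M : Subgroup G, M ≠ ⊤ → CfsgLib.TCt.TCg (CfsgLib.TCt.wFam 𝓦) p M := by
    intro M hMt
    exact CfsgLib.TCt.tcg_of_equiv hF (CfsgLib.TCt.eqvSub M)
      ((CfsgLib.TCt.tcg_iff h𝓦).mp (hsec M ⊥ (fun h => absurd h hMt)))
  have hQs : ∀ (N : Subgroup G) [N.Normal], N ≠ ⊥ → CfsgLib.TCt.TCg (CfsgLib.TCt.wFam 𝓦) p (G ⧸ N) := by
    intro N _ hNb
    exact CfsgLib.TCt.tcg_of_equiv hF (CfsgLib.TCt.eqvQuo N)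
      ((CfsgLib.TCt.tcg_iff h𝓦).mp (hsec ⊤ N (fun _ => hNb)))
  have hGn : ¬ CfsgLib.TCt.TCg (CfsgLib.TCt.wFam 𝓦) p G := fun h => hG ((CfsgLib.TCt.tcg_iff h𝓦).mpr h)
  obtain ⟨-, hC, -⟩ := CfsgLib.TCt.constrained_of_min hF hMs hQs hGn
  have hTL : T = CfsgLib.TCt.Lc (CfsgLib.TCt.wFam 𝓦) (S : Subgroup G) := by
    rw [hT, CfsgLib.TCt.Lc, iSup_subtype]
    rfl
  rw [hTL] at hM
  obtain ⟨h1, h2, h3, h4, h5⟩ := CfsgLib.TCt.min_structure hF hMs hQs hGn S M hM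
  rw [← hTL] at h4
  exact ⟨hC, ⟨h1, h2⟩, ⟨h3, h4⟩, h5⟩

end Cfsg.Agent.S1998
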