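import Cfsg.Statements.S2006
import Cfsg.Agent.Lib.OOL.SC.Eng2

set_option autoImplicit false
universe u
open Cfsg

namespace Cfsg.Agent.S2006

/-- Let p be a prime, G a finite group with Sylow p-subgroup S, and W an isomorphism-invariant p-group functor (W assigns to every group Q a subgroup W(Q), nontrivial whenever Q is a nontrivial finite p-group, and every isomorphism from a finite p-group Q onto a group R carries W(Q) onto W(R)). Suppose N_G(W(S)) has a normal p-complement, and that whenever G* = K/R is a section of G with C_{G*}(O_p(G*)) ≤ O_p(G*) and S* is a Sylow p-subgroup of G* with W(S*) not normal in G*, there are an element g of S* outside O_p(G*) and a chief factor X/Y of G* with X ≤ O_p(G*) such that [X, g, …, g] ≤ Y with p − 1 entries g but [X, g] ≰ Y. Then G has a normal p-complement. -/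
theorem result {G : Type u} [Group G] [Finite G] {p : ℕ} [Fact p.Prime] (W : ∀ (Q : Type u) [Group Q], Subgroup Q) (hW : Cfsg.IsCharPFunctor.{u} p W) (S : Sylow p G) (hN : Cfsg.HasNormalPComplement p ↥(Subgroup.normalizer ((Cfsg.inducedFunctor (G := G) W (S : Subgroup G) : Subgroup G) : Set G))) (hloc : ∀ (K R : Subgroup G) [hR : (R.subgroupOf K).Normal], Subgroup.centralizer ((Cfsg.pCore p (↥K ⧸ R.subgroupOf K) : Subgroup (↥K ⧸ R.subgroupOf K)) : Set (↥K ⧸ R.subgroupOf K)) ≤ Cfsg.pCore p (↥K ⧸ R.subgroupOf K) → ∀ T : Sylow p (↥K ⧸ R.subgroupOf K), ¬ (Cfsg.inducedFunctor (G := (↥K ⧸ R.subgroupOf K)) W ((T : Subgroup (↥K ⧸ R.subgroupOf K)))).Normal → ∃ g : (↥K ⧸ R.subgroupOf K), g ∈ (T : Subgroup (↥K ⧸ R.subgroupOf K)) ∧ g ∉ Cfsg.pCore p (↥K ⧸ R.subgroupOf K) ∧ ∃ U V : Subgroup (↥K ⧸ R.subgroupOf K), Cfsg.IsChiefFactor U V ∧ U ≤ Cfsg.pCore p (↥K ⧸ R.subgroupOf K) ∧ Cfsg.iterCommutator U (Subgroup.zpowers g) (p - 1) ≤ V ∧ ¬ ⁅U, Subgroup.zpowers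 g⁆ ≤ V) : Cfsg.HasNormalPComplement p G := by
  have hF := CfsgLib.FCtl.SecFun.ofChar hW
  refine CfsgLib.SCl.np_of_eng hF ?_ S hN
  intro Y _ _ hs hc T hT
  obtain ⟨K, L, hL, ⟨e⟩⟩ := CfsgLib.OOL.SecX.top hs
  haveI := hL
  let T₁ : Sylow p (K ⧸ L.subgroupOf K) := T.mapSurjective (f := e.symm.toMonoidHom) e.symm.surjective
  have hT₁ : (T : Subgroup Y) = (T₁ : Subgroup (K ⧸ L.subgroupOf K)).map e.toMonoidHom := by
    ext y
    constructor
    · intro hy
      exact ⟨e.symm y, ⟨y, hy, rfl⟩, by simp⟩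
    · rintro ⟨_, ⟨z, hz, rfl⟩, rfl⟩
      have : e.toMonoidHom (e.symm.toMonoidHom z) = z := by simp
      rw [this]
      exact hz
  have h2 := hF.nat _ _ e.toMonoidHom e.injective (T₁ : Subgroup (K ⧸ L.subgroupOf K)) T₁.isPGroup'
  rw [← hT₁] at h2
  have hcore := CfsgLib.PLocal.pCore_map_equiv (p := p) e
  have hT₂ : ¬ (Cfsg.inducedFunctor (G := (↥K ⧸ L.subgroupOf K)) W ((T₁ : Subgroup (↥K ⧸ L.subgroupOf K)))).Normal := by
    intro h3
    apply hT
    show (Cfsg.inducedFunctor (G := Y) W (T : Subgroup Y)).Normal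
    rw [h2]
    exact h3.map _ e.surjective
  obtain ⟨g, hg, hgc, U, V, hUV, hUc, hit, hne⟩ := hloc K L (CfsgLib.FCtl.constrained_of_equiv e hc) T₁ hT₂
  refine ⟨e g, ?_, ?_, U.map e.toMonoidHom, V.map e.toMonoidHom, CfsgLib.SCl.chief_map_equiv e hUV, ?_, ?_, ?_⟩
  · rw [hT₁]
    exact ⟨g, hg, rfl⟩
  · rw [← hcore]
    rintro ⟨y, hy, hy2⟩
    have : y = g := e.injective hy2
    rw [this] at hy
    exact hgc hy
  · rw [← hcore]
    exact Subgroup.map_mono hUc
  · have h3 := CfsgLib.SCl.iter_map e.toMonoidHom U (Subgroup.zpowers g) (p - 1)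
    rw [MonoidHom.map_zpowers] at h3
    have h4 : (e g) = e.toMonoidHom g := rfl
    rw [h4, ← h3]
    exact Subgroup.map_mono hit
  · intro h3
    apply hne
    have h4 : (e g) = e.toMonoidHom g := rfl
    rw [h4, ← MonoidHom.map_zpowers, ← Subgroup.map_commutator] at h3
    rwa [Subgroup.map_le_map_iff_of_injective e.injective] at h3

end Cfsg.Agent.S2006
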