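import Cfsg.Statements.S2178
import Cfsg.Agent.Lib.Chev.RootCent

set_option autoImplicit false
open Cfsg

namespace Cfsg.Agent.S2178

/-- Centralizers of the long and the short root involutions in the Chevalley group G of type F₄ over a finite field F of characteristic two (this problem's root numbering for type F₄, from the Chevalley data module: fundamental roots p₁, p₂ short, p₃, p₄ long, with indices 33, 27, 25, 24, their negatives 14, 20, 22, 23; highest root 47, highest short root 44; U the subgroup generated by the positive root subgroups). For an element t of G with matrix x_47(1): the centralizer of t in G is the subgroup generated by U and the root subgroups X_{−p₁}, X_{−p₂}, X_{−p₃} (the unipotent radical of the maximal parabolic subgroup whose Levi factor has fundamental roots p₁, p₂, p₃, together with that Levi factor's root subgroups; the Levi factor is of type C₃). For an element u of G with matrix x_44(1): the centralizer of u in G is generated by U and X_{−p₂}, X_{−p₃}, X_{−p₄} (the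 same construction for the Levi factor with fundamental roots p₂, p₃, p₄, of type B₃). -/
theorem result {F : Type*} [Field F] [Fintype F] [CharP F 2] (t u : GL Cfsg.Lie.chevF4.Idx F) (ht : (t : Matrix Cfsg.Lie.chevF4.Idx Cfsg.Lie.chevF4.Idx F) = Cfsg.Lie.chevF4.x F 47 1) (hu : (u : Matrix Cfsg.Lie.chevF4.Idx Cfsg.Lie.chevF4.Idx F) = Cfsg.Lie.chevF4.x F 44 1) :
    Cfsg.Lie.chevF4.group F ⊓ Subgroup.centralizer {t} = Cfsg.Lie.chevF4.posUnipotent F ⊔ Cfsg.Lie.chevF4.rootSubgroup F 14 ⊔ Cfsg.Lie.chevF4.rootSubgroup F 20 ⊔ Cfsg.Lie.chevF4.rootSubgroup F 22 ∧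
    Cfsg.Lie.chevF4.group F ⊓ Subgroup.centralizer {u} = Cfsg.Lie.chevF4.posUnipotent F ⊔ Cfsg.Lie.chevF4.rootSubgroup F 20 ⊔ Cfsg.Lie.chevF4.rootSubgroup F 22 ⊔ Cfsg.Lie.chevF4.rootSubgroup F 23 := by
  open CfsgLib.Chev in
  have key : ∀ (r a b c : ℕ),
      ∀ (i0 : ℕ), rootCentChk Cfsg.Lie.chevF4 TF4.cert r i0 [a, b, c] = true → ∀ (t : GL Cfsg.Lie.chevF4.Idx F), (t : Matrix Cfsg.Lie.chevF4.Idx Cfsg.Lie.chevF4.Idx F) = Cfsg.Lie.chevF4.x F r 1 →
      Cfsg.Lie.chevF4.group F ⊓ Subgroup.centralizer {t} = Cfsg.Lie.chevF4.posUnipotent F ⊔ Cfsg.Lie.chevF4.rootSubgroup F a ⊔ Cfsg.Lie.chevF4.rootSubgroup F b ⊔ Cfsg.Lie.chevF4.rootSubgroup F c := by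
    intro r a b c i0 hchk t ht
    have hG := TF4.good
    rw [(hG.eq_xG_iff t r 1).1 ht, TF4.extra.root_centralizer_two hG TF4.braid hchk]
    have e : ∀ s : ℕ, Subgroup.closure {g : GL Cfsg.Lie.chevF4.Idx F | ∃ c : F, g = hG.xG s c} = Cfsg.Lie.chevF4.rootSubgroup F s := by
      intro s
      apply le_antisymm
      · apply (Subgroup.closure_le _).2
        rintro _ ⟨c, rfl⟩
        exact hG.mem_rootSubgroup s c
      · intro g hg
        obtain ⟨c, rfl⟩ := (hG.rootSubgroup_eq s g).1 hg
        exact Subgroup.subset_closure ⟨c, rfl⟩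
    rw [← e a, ← e b, ← e c, sup_assoc, sup_assoc, ← Subgroup.closure_union, ← Subgroup.closure_union]
    congr 2
    ext g
    simp only [List.mem_cons, List.not_mem_nil, or_false, Set.mem_setOf_eq, Set.mem_union, exists_eq_or_imp, exists_eq_left]
  exact ⟨key 47 14 20 22 3 (by decide +kernel) t ht, key 44 20 22 23 0 (by decide +kernel) u hu⟩

end Cfsg.Agent.S2178
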