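import Cfsg.Statements.S2214
import Cfsg.Agent.Lib.Chev.CentK

set_option autoImplicit false
open Cfsg

namespace Cfsg.Agent.S2214

/-- Let k be an algebraically closed field of prime characteristic p, G the adjoint Chevalley group of type G₂, B₂, D₄, F₄, E₆, E₇ or E₈ over k (the matrix group generated by the root elements x_s(t), t ∈ k, acting on the Lie algebra), q = p^a with a ≥ 1, and K a subgroup of G containing every root element x_s(t) with t^q = t and consisting of matrices all of whose entries c satisfy c^q = c. Then the centralizer of K in G is trivial, and the normalizer of K in G is exactly the set of elements of G all of whose entries c satisfy c^q = c. -/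
theorem result {k : Type*} [Field k] [IsAlgClosed k] (p : ℕ) [Fact p.Prime] [CharP k p] (D : Cfsg.Lie.ChevalleyDatum) (hD : D ∈ [Cfsg.Lie.chevG2, Cfsg.Lie.chevB2, Cfsg.Lie.chevD4, Cfsg.Lie.chevF4, Cfsg.Lie.chevE6, Cfsg.Lie.chevE7, Cfsg.Lie.chevE8]) (a : ℕ) (ha : 1 ≤ a) (K : Subgroup (GL D.Idx k)) (hKG : K ≤ D.group k)
    (hLK : Subgroup.closure {g : GL D.Idx k | ∃ (s : ℕ) (t : k), t ^ (p ^ a) = t ∧ (g : Matrix D.Idx D.Idx k) = D.x k s t} ≤ K)
    (hKfix : ∀ g ∈ K, ∀ i j : D.Idx, ((g : Matrix D.Idx D.Idx k) i j) ^ (p ^ a) = (g : Matrix D.Idx D.Idx k) i j) :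
    D.group k ⊓ Subgroup.centralizer (K : Set (GL D.Idx k)) = ⊥ ∧
    ∀ g : GL D.Idx k, g ∈ D.group k → (g ∈ Subgroup.normalizer (K : Set (GL D.Idx k)) ↔ ∀ i j : D.Idx, ((g : Matrix D.Idx D.Idx k) i j) ^ (p ^ a) = (g : Matrix D.Idx D.Idx k) i j) := by
  open CfsgLib.Chev in
  classical
  obtain ⟨C, hG, hE, hB, hL, _⟩ := cert3_of_mem hD
  haveI : PerfectRing k p := PerfectRing.ofSurjective k p (fun x => by
    obtain ⟨y, hy⟩ := IsAlgClosed.exists_pow_nat_eq x (Fact.out : p.Prime).pos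
    exact ⟨y, by rw [frobenius_def, hy]⟩)
  let σ : k ≃+* k := iterateFrobeniusEquiv k p a
  have hσ : ∀ c, σ c = c ^ (p ^ a) := fun c => iterateFrobenius_def p a c
  let K₀ : Subfield k := (σ : k →+* k).eqLocusField (RingHom.id k)
  let ι : K₀ →+* k := K₀.subtype
  have hσι : ∀ t, σ (ι t) = ι t := fun t => t.2
  have hι : ∀ t, σ t = t → t ∈ Set.range ι := fun t ht => ⟨⟨t, ht⟩, rfl⟩
  -- the subgroup over the fixed field lies in `K`
  have hroot : ∀ (r : ℕ) (t : k), σ t = t → hG.xG r t ∈ K := by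
    intro r t ht
    apply hLK
    apply Subgroup.subset_closure
    exact ⟨r, t, by rw [← hσ]; exact ht, hG.xG_val _ _⟩
  have hS : (D.group K₀).map (glHom ι D) ≤ K := by
    rw [Subgroup.map_le_iff_le_comap]
    apply hG.group_le
    intro r hr t
    show glHom ι D (hG.xG r t) ∈ K
    rw [hG.glHom_x]
    exact hroot r _ (hσι t)
  -- the fixed points
  have hfixiff : ∀ g : GL D.Idx k, glMap D σ g = g ↔ ∀ i j : D.Idx, ((g : Matrix D.Idx D.Idx k) i j) ^ (p ^ a) = (g : Matrix D.Idx D.Idx k) i j := by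
    intro g
    constructor
    · intro h i j
      have e := congrArg (fun m : GL D.Idx k => (m : Matrix D.Idx D.Idx k) i j) h
      rw [← hσ]
      exact e
    · intro h
      apply Units.ext
      ext i j
      show σ _ = _
      rw [hσ]
      exact h i j
  have hKf : ∀ x ∈ K, glMap D σ x = x := fun x hx => (hfixiff x).2 (hKfix x hx)
  -- the centralizer
  have hcent : D.group k ⊓ Subgroup.centralizer (K : Set (GL D.Idx k)) = ⊥ := by
    rw [eq_bot_iff]
    intro g hgm
    obtain ⟨hg, hc⟩ := Subgroup.mem_inf.1 hgm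
    rw [Subgroup.mem_bot]
    apply hE.eq_one_of_commute hG hB hL hg
    intro r _
    refine ⟨1, one_ne_zero, ?_⟩
    exact (Subgroup.mem_centralizer_iff.1 hc _ (hroot r 1 (map_one σ))).symm
  refine ⟨hcent, fun g hg => ?_⟩
  have haux : ∀ g ∈ D.group k, glMap D σ g = g → ∀ x ∈ K, g * x * g⁻¹ ∈ K := by
    intro g hg hgf x hx
    have h1 := hE.fix_comm ι hG hB σ hσι hι (Subgroup.inv_mem _ hg) (hKG hx) (by rw [map_inv, hgf]) (hKf x hx)
    have h2 := hS h1
    have e : g * x⁻¹ * g⁻¹ = (g⁻¹⁻¹ * x⁻¹ * g⁻¹ * x) * x⁻¹ := by group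
    have h3 : g * x⁻¹ * g⁻¹ ∈ K := by
      rw [e]
      exact Subgroup.mul_mem _ h2 (Subgroup.inv_mem _ hx)
    have h4 := Subgroup.inv_mem _ h3
    have e2 : (g * x⁻¹ * g⁻¹)⁻¹ = g * x * g⁻¹ := by group
    rwa [e2] at h4
  constructor
  · intro hN
    rw [← hfixiff]
    have hmem : g⁻¹ * glMap D σ g ∈ D.group k ⊓ Subgroup.centralizer (K : Set (GL D.Idx k)) := by
      refine Subgroup.mem_inf.2 ⟨Subgroup.mul_mem _ (Subgroup.inv_mem _ hg) ?_, ?_⟩
      · rw [← hG.glMap_group σ]
        exact ⟨g, hg, rfl⟩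
      · rw [Subgroup.mem_centralizer_iff]
        intro x hx
        have h1 := (Subgroup.mem_normalizer_iff.1 hN x).1 hx
        have h2 := hKf _ h1
        simp only [map_mul, map_inv, hKf x hx] at h2
        have e : x * (g⁻¹ * glMap D σ g) * (glMap D σ g)⁻¹ = g⁻¹ * glMap D σ g * x * (glMap D σ g)⁻¹ := by
          have : g⁻¹ * glMap D σ g * x * (glMap D σ g)⁻¹ = g⁻¹ * (glMap D σ g * x * (glMap D σ g)⁻¹) := by group
          rw [this, h2]
          group
        exact mul_right_cancel e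
    rw [hcent, Subgroup.mem_bot] at hmem
    exact (inv_mul_eq_one.1 hmem).symm
  · intro hfix
    rw [← hfixiff] at hfix
    rw [Subgroup.mem_normalizer_iff]
    intro x
    constructor
    · exact haux g hg hfix x
    · intro hx
      have := haux g⁻¹ (Subgroup.inv_mem _ hg) (by rw [map_inv, hfix]) _ hx
      have e : g⁻¹ * (g * x * g⁻¹) * g⁻¹⁻¹ = x := by group
      rwa [e] at this

end Cfsg.Agent.S2214
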