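import Cfsg.Statements.S2268

set_option autoImplicit false
open Cfsg

namespace Cfsg.Agent.S2268

/-- Let G be a finite group with an abelian Sylow p-subgroup P and let Q ≤ P. Then N_G(Q) = (N_G(Q) ∩ N_G(P))·C_G(Q), so that N_G(Q)/C_G(Q) is a homomorphic image of the subgroup (N_G(Q) ∩ N_G(P))/C_G(P) of N_G(P)/C_G(P); in particular the order of N_G(Q)/C_G(Q) divides the order of N_G(P)/C_G(P). -/
theorem result {G : Type*} [Group G] [Finite G] {p : ℕ} [Fact p.Prime]
    (P : Sylow p G) (hP : IsMulCommutative (P : Subgroup G)) (Q : Subgroup G) (hQ : Q ≤ (P : Subgroup G)) :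
    Subgroup.normalizer (Q : Set G) =
      (Subgroup.normalizer (Q : Set G) ⊓ Subgroup.normalizer ((P : Subgroup G) : Set G)) ⊔ Subgroup.centralizer (Q : Set G) ∧
    ((Subgroup.centralizer (Q : Set G)).subgroupOf (Subgroup.normalizer (Q : Set G))).index ∣ ((Subgroup.centralizer ((P : Subgroup G) : Set G)).subgroupOf (Subgroup.normalizer ((P : Subgroup G) : Set G))).index := by
  classical
  set A := Subgroup.normalizer (Q : Set G) with hA
  set B := Subgroup.normalizer ((P : Subgroup G) : Set G) with hB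
  set C := Subgroup.centralizer (Q : Set G) with hC
  set D := Subgroup.centralizer ((P : Subgroup G) : Set G) with hD
  have hCA : C ≤ A := Subgroup.centralizer_le_normalizer _
  have hDB : D ≤ B := Subgroup.centralizer_le_normalizer _
  have hDC : D ≤ C := Subgroup.centralizer_le hQ
  have hPcomm : ∀ a b : G, a ∈ (P : Subgroup G) → b ∈ (P : Subgroup G) → a * b = b * a := by
    intro a b ha hb
    have := (hP.is_comm).comm ⟨a, ha⟩ ⟨b, hb⟩
    exact congrArg Subtype.val this
  have hPC : (P : Subgroup G) ≤ C := by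
    intro a ha
    rw [hC, Subgroup.mem_centralizer_iff]
    intro b hb
    exact hPcomm b a (hQ hb) ha
  -- Frattini-type factorisation
  have hfac : ∀ g ∈ A, ∃ c ∈ C, c * g ∈ B := by
    intro g hg
    have hgPC : ((g • P : Sylow p G) : Subgroup G) ≤ C := by
      intro x hx
      rw [Sylow.coe_subgroup_smul, Subgroup.mem_pointwise_smul_iff_inv_smul_mem] at hx
      have hx' : g⁻¹ * x * g ∈ (P : Subgroup G) := by
        simpa [MulAut.smul_def, MulAut.conj_apply] using hx
      have hxC := hPC hx'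
      rw [hC, Subgroup.mem_centralizer_iff] at hxC ⊢
      intro q hq
      have hgq : g⁻¹ * q * g ∈ Q := by
        have hg' : g⁻¹ ∈ A := A.inv_mem hg
        have := (Subgroup.mem_set_normalizer_iff.1 hg' q).1 hq
        simpa using this
      have h1 := hxC _ hgq
      calc q * x = g * ((g⁻¹ * q * g) * (g⁻¹ * x * g)) * g⁻¹ := by group
        _ = g * ((g⁻¹ * x * g) * (g⁻¹ * q * g)) * g⁻¹ := by rw [h1]
        _ = x * q := by group
    obtain ⟨c, hc⟩ := MulAction.exists_smul_eq C (Sylow.subtype (g • P) hgPC) (Sylow.subtype P hPC)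
    refine ⟨c.1, c.2, ?_⟩
    rw [Sylow.smul_subtype] at hc
    have h2 := Sylow.subtype_injective hc
    rw [Subgroup.smul_def, smul_smul] at h2
    rw [hB]
    exact Sylow.smul_eq_iff_mem_normalizer.1 h2
  have hle : A ≤ (A ⊓ B) ⊔ C := by
    intro g hg
    obtain ⟨c, hc, hcg⟩ := hfac g hg
    have : g = c⁻¹ * (c * g) := by group
    rw [this]
    refine Subgroup.mul_mem _ (Subgroup.mem_sup_right (C.inv_mem hc)) (Subgroup.mem_sup_left ⟨?_, hcg⟩)
    exact A.mul_mem (hCA hc) hg
  have heq : A = (A ⊓ B) ⊔ C := le_antisymm hle (sup_le inf_le_left hCA)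
  refine ⟨heq, ?_⟩
  -- indices
  have hCAn : (C.subgroupOf A).Normal := by
    rw [hC, hA, ← Subgroup.normalizerMonoidHom_ker]
    infer_instance
  have hsup : (A ⊓ B).subgroupOf A ⊔ C.subgroupOf A = ⊤ := by
    rw [eq_top_iff]
    rintro ⟨g, hg⟩ -
    obtain ⟨c, hc, hcg⟩ := hfac g hg
    have hcA := hCA hc
    have h1 : (⟨g, hg⟩ : A) = (⟨c⁻¹, A.inv_mem hcA⟩ : A) * ⟨c * g, A.mul_mem hcA hg⟩ := by
      apply Subtype.ext; simp
    rw [h1]
    refine Subgroup.mul_mem _ (Subgroup.mem_sup_right ?_) (Subgroup.mem_sup_left ?_)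
    · rw [Subgroup.mem_subgroupOf]; exact C.inv_mem hc
    · rw [Subgroup.mem_subgroupOf]; exact ⟨A.mul_mem hcA hg, hcg⟩
  have h1 : (C.subgroupOf A).index = C.relIndex (A ⊓ B) := by
    calc (C.subgroupOf A).index = (C.subgroupOf A).relIndex ⊤ := (Subgroup.relIndex_top_right _).symm
      _ = (C.subgroupOf A).relIndex ((A ⊓ B).subgroupOf A ⊔ C.subgroupOf A) := by rw [hsup]
      _ = (C.subgroupOf A).relIndex ((A ⊓ B).subgroupOf A) := Subgroup.relIndex_sup_right _ _
      _ = C.relIndex (A ⊓ B) := Subgroup.relIndex_subgroupOf inf_le_left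
  have hDAB : D ≤ A ⊓ B := le_inf (hDC.trans hCA) hDB
  have h2 : D.relIndex (A ⊓ B) ∣ D.relIndex B :=
    ⟨(A ⊓ B).relIndex B, (Subgroup.relIndex_mul_relIndex D (A ⊓ B) B hDAB inf_le_right).symm⟩
  have h3 : C.relIndex (A ⊓ B) ∣ D.relIndex (A ⊓ B) := Subgroup.relIndex_dvd_of_le_left _ hDC
  rw [h1]
  exact h3.trans h2

end Cfsg.Agent.S2268
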