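import Cfsg.Statements.S2270

set_option autoImplicit false
open Cfsg

namespace Cfsg.Agent.S2270

/-- Let n ≥ 3, p an odd prime, and P an abelian Sylow p-subgroup of the symmetric group S_n (with p dividing n!, so that P ≠ 1). Then N(P)/C(P) has even order. -/
theorem result (n : ℕ) (hn : 3 ≤ n) {p : ℕ} [Fact p.Prime] (hp : p ≠ 2) (hpn : p ≤ n)
    (P : Sylow p (Equiv.Perm (Fin n))) (hP : IsMulCommutative (P : Subgroup (Equiv.Perm (Fin n)))) :
    2 ∣ ((Subgroup.centralizer ((P : Subgroup (Equiv.Perm (Fin n))) : Set (Equiv.Perm (Fin n)))).subgroupOf (Subgroup.normalizer ((P : Subgroup (Equiv.Perm (Fin n))) : Set (Equiv.Perm (Fin n))))).index := by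
  classical
  have hpp : p.Prime := Fact.out
  have hcard : p ∣ Nat.card (P : Subgroup (Equiv.Perm (Fin n))) := by
    apply Sylow.dvd_card_of_dvd_card P
    rw [Nat.card_eq_fintype_card, Fintype.card_perm, Fintype.card_fin]
    exact (Nat.Prime.dvd_factorial hpp).2 hpn
  obtain ⟨x', hx'⟩ := exists_prime_orderOf_dvd_card' p hcard
  set x : Equiv.Perm (Fin n) := x'.1 with hxdef
  have hxP : x ∈ (P : Subgroup (Equiv.Perm (Fin n))) := x'.2
  have hxo : orderOf x = p := by
    rw [hxdef, Subgroup.orderOf_coe]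
    exact hx'
  have hxinv : x⁻¹ ≠ x := by
    intro h
    have h2 : x ^ 2 = 1 := by
      rw [pow_two]
      nth_rewrite 1 [← h]
      simp
    have h3 := orderOf_dvd_of_pow_eq_one h2
    rw [hxo] at h3
    exact hp ((Nat.prime_dvd_prime_iff_eq hpp Nat.prime_two).1 h3)
  -- conjugate to inverse
  have hconj : IsConj x x⁻¹ := by
    rw [Equiv.Perm.isConj_iff_cycleType_eq, Equiv.Perm.cycleType_inv]
  obtain ⟨g, hg⟩ := isConj_iff.1 hconj
  have hPcomm : ∀ a b : Equiv.Perm (Fin n), a ∈ (P : Subgroup (Equiv.Perm (Fin n))) → b ∈ (P : Subgroup (Equiv.Perm (Fin n))) → a * b = b * a := by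
    intro a b ha hb
    have := (hP.is_comm).comm ⟨a, ha⟩ ⟨b, hb⟩
    exact congrArg Subtype.val this
  set C := Subgroup.centralizer ({x⁻¹} : Set (Equiv.Perm (Fin n))) with hC
  have hPC : (P : Subgroup (Equiv.Perm (Fin n))) ≤ C := by
    intro a ha
    rw [hC, Subgroup.mem_centralizer_singleton_iff]
    exact hPcomm a x⁻¹ ha (Subgroup.inv_mem (P : Subgroup (Equiv.Perm (Fin n))) hxP)
  have hgPC : ((g • P : Sylow p (Equiv.Perm (Fin n))) : Subgroup (Equiv.Perm (Fin n))) ≤ C := by
    intro a ha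
    rw [Sylow.coe_subgroup_smul, Subgroup.mem_pointwise_smul_iff_inv_smul_mem] at ha
    have ha' : g⁻¹ * a * g ∈ (P : Subgroup (Equiv.Perm (Fin n))) := by
      simpa [MulAut.smul_def, MulAut.conj_apply] using ha
    rw [hC, Subgroup.mem_centralizer_singleton_iff]
    have h1 := hPcomm _ x ha' hxP
    calc a * x⁻¹ = a * (g * x * g⁻¹) := by rw [hg]
      _ = g * ((g⁻¹ * a * g) * x) * g⁻¹ := by group
      _ = g * (x * (g⁻¹ * a * g)) * g⁻¹ := by rw [h1]
      _ = (g * x * g⁻¹) * a := by group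
      _ = x⁻¹ * a := by rw [hg]
  obtain ⟨c, hc⟩ := MulAction.exists_smul_eq C (Sylow.subtype (g • P) hgPC) (Sylow.subtype P hPC)
  rw [Sylow.smul_subtype] at hc
  have h2 := Sylow.subtype_injective hc
  rw [Subgroup.smul_def, smul_smul] at h2
  have hhN : c.1 * g ∈ Subgroup.normalizer ((P : Subgroup (Equiv.Perm (Fin n))) : Set (Equiv.Perm (Fin n))) :=
    Sylow.smul_eq_iff_mem_normalizer.1 h2
  set h := c.1 * g with hh
  have hconjh : h * x * h⁻¹ = x⁻¹ := by
    have hcc : c.1 * x⁻¹ = x⁻¹ * c.1 := by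
      exact Subgroup.mem_centralizer_singleton_iff.1 c.2
    calc h * x * h⁻¹ = c.1 * (g * x * g⁻¹) * c.1⁻¹ := by rw [hh]; group
      _ = c.1 * x⁻¹ * c.1⁻¹ := by rw [hg]
      _ = x⁻¹ := by rw [hcc]; group
  -- parity argument
  by_contra hodd
  set N := Subgroup.normalizer ((P : Subgroup (Equiv.Perm (Fin n))) : Set (Equiv.Perm (Fin n))) with hN
  set D := Subgroup.centralizer ((P : Subgroup (Equiv.Perm (Fin n))) : Set (Equiv.Perm (Fin n))) with hD
  have hDN : (D.subgroupOf N).Normal := by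
    rw [hD, hN]
    infer_instance
  set m := (D.subgroupOf N).index with hm
  have hmem : (⟨h, hhN⟩ : N) ^ m ∈ D.subgroupOf N := Subgroup.pow_index_mem _ _
  rw [Subgroup.mem_subgroupOf] at hmem
  have hmem' : h ^ m ∈ D := by
    simpa using hmem
  have hcomm : h ^ m * x = x * h ^ m := by
    rw [hD, Subgroup.mem_centralizer_iff] at hmem'
    exact (hmem' x hxP).symm
  -- `h^k x h^-k = x^((-1)^k)`
  have hpow : ∀ k : ℕ, h ^ k * x * (h ^ k)⁻¹ = if Even k then x else x⁻¹ := by
    intro k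
    induction k with
    | zero => simp
    | succ k ih =>
      have h3 : h ^ (k + 1) * x * (h ^ (k + 1))⁻¹ = h * (h ^ k * x * (h ^ k)⁻¹) * h⁻¹ := by
        rw [pow_succ']
        group
      rw [h3, ih]
      by_cases hk : Even k
      · have hk' : ¬ Even (k + 1) := by
          rw [Nat.even_add_one]; simpa using hk
        simp [hk, hk', hconjh]
      · have hk' : Even (k + 1) := by
          rw [Nat.even_add_one]; exact hk
        simp only [hk, hk', if_true, if_false]
        have : h * x⁻¹ * h⁻¹ = (h * x * h⁻¹)⁻¹ := by group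
        rw [this, hconjh, inv_inv]
  have hmodd : ¬ Even m := by
    intro he
    exact hodd he.two_dvd
  have h5 := hpow m
  rw [if_neg hmodd, hcomm] at h5
  apply hxinv
  rw [← h5]
  group

end Cfsg.Agent.S2270
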