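import Cfsg.Statements.S2337
import Cfsg.Agent.Lib.Sz.Degree

set_option autoImplicit false
open Cfsg

namespace Cfsg.Agent.S2337

/-- For the Suzuki group Sz(q), q = 2^(2m+1) with m ≥ 1 (realised inside Sp₄ over the field with q elements), every irreducible complex representation of degree at least 2 has degree at least 2^m·(q − 1). -/
theorem result {F : Type*} [Field F] [Fintype F] (m : ℕ) (hm : 1 ≤ m) (hF : Fintype.card F = 2 ^ (2 * m + 1)) :
    (∀ (k : ℕ) (ρ : Representation ℂ (Cfsg.Lie.Sz F (2 ^ (m + 1))) (Fin k → ℂ)), ρ.IsIrreducible → 2 ≤ k → 2 ^ m * (2 ^ (2 * m + 1) - 1) ≤ k) := by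
  intro k ρ hρ hk
  classical
  haveI := CfsgLib.Sz.simple hF hm
  let e := CfsgLib.Sz.lieEquiv hF hm
  let ρ' : Representation ℂ (Sz F m) (Fin k → ℂ) := ρ.comp e.toMonoidHom
  have hker : ∀ g, ρ' g = 1 → g = 1 := by
    intro g hg
    rcases IsSimpleGroup.eq_bot_or_eq_top_of_normal (MonoidHom.ker ρ') (MonoidHom.normal_ker ρ') with h | h
    · have : g ∈ MonoidHom.ker ρ' := hg
      rw [h] at this
      exact this
    · exfalso
      have hall : ∀ g, ρ g = 1 := by
        intro g
        have : e.symm g ∈ MonoidHom.ker ρ' := by rw [h]; trivial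
        have h2 : ρ' (e.symm g) = 1 := this
        simpa [ρ'] using h2
      let e₀ : Fin k → ℂ := Pi.single ⟨0, by omega⟩ 1
      let e₁ : Fin k → ℂ := Pi.single ⟨1, by omega⟩ 1
      let A : Subrepresentation ρ := ⟨Submodule.span ℂ {e₀}, by
        intro g v hv
        rw [hall g]
        exact hv⟩
      have he₀ : e₀ ∈ A.toSubmodule := Submodule.mem_span_singleton_self _
      rcases hρ.eq_bot_or_eq_top A with h | h
      · have : e₀ ∈ (⊥ : Subrepresentation ρ).toSubmodule := by rw [← h]; exact he₀
        have h0 : e₀ = 0 := (Submodule.mem_bot ℂ).1 this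
        have := congrFun h0 ⟨0, by omega⟩
        simp [e₀] at this
      · have : e₁ ∈ A.toSubmodule := by rw [h]; trivial
        obtain ⟨c, hc⟩ := Submodule.mem_span_singleton.1 this
        have h1 := congrFun hc ⟨1, by omega⟩
        simp [e₀, e₁] at h1
  have := CfsgLib.Sz.degree_bound hF hm ρ' hker
  simpa using this

end Cfsg.Agent.S2337
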