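import Cfsg.Statements.S2459
import Cfsg.Agent.Lib.H9.Sour32

set_option autoImplicit false
open Cfsg

namespace Cfsg.Agent.S2459

/-- A form of Thompson's conjecture for PSL(3,q), q > 2 (covering the non-identity elements), with a semisimple class: for F a finite field of characteristic p with more than 2 elements there is an element x of PSL(3,F) of order prime to p such that every non-identity element of PSL(3,F) is a product of two conjugates of x. -/
theorem result {F : Type*} [Field F] [Fintype F] (p : ℕ) [Fact p.Prime] [CharP F p] (h3 : 3 ≤ Fintype.card F) :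
    ∃ x : Matrix.ProjectiveSpecialLinearGroup (Fin 3) F, ¬ p ∣ orderOf x ∧ ∀ g : Matrix.ProjectiveSpecialLinearGroup (Fin 3) F, g ≠ 1 → ∃ u v : Matrix.ProjectiveSpecialLinearGroup (Fin 3) F, g = (u * x * u⁻¹) * (v * x * v⁻¹) := by
  classical
  have hpc : p ∣ Fintype.card F := by
    rw [← CharP.cast_eq_zero_iff F p]
    exact Nat.cast_card_eq_zero F
  by_cases hc : Fintype.card F = 3
  · -- three elements
    have hp3 : p = 3 := by
      rw [hc] at hpc
      exact ((Nat.prime_dvd_prime_iff_eq (Fact.out : p.Prime) Nat.prime_three).mp hpc)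
    subst hp3
    let e : ZMod 3 →+* F := ZMod.castHom (dvd_refl 3) F
    have hbij : Function.Bijective e := by
      apply Function.Injective.bijective_of_nat_card_le e.injective
      rw [Nat.card_eq_fintype_card, hc, Nat.card_zmod]
    have hdetx := CfsgLib.H9.Sour3Tab.xT_toM_det
    have hdet : (e.mapMatrix CfsgLib.H9.Sour3Tab.xT.toM).det = 1 := by
      have := RingHom.map_det e CfsgLib.H9.Sour3Tab.xT.toM
      rw [← this, hdetx, map_one]
    let x : Matrix.SpecialLinearGroup (Fin 3) F := ⟨e.mapMatrix CfsgLib.H9.Sour3Tab.xT.toM, hdet⟩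
    refine ⟨QuotientGroup.mk x, ?_, ?_⟩
    · have hx4 : x ^ 4 = 1 := by
        apply Subtype.ext
        have h4 := CfsgLib.H9.Sour3Tab.xT_toM_pow
        change (e.mapMatrix CfsgLib.H9.Sour3Tab.xT.toM) ^ 4 = 1
        rw [← map_pow, h4, map_one]
      have hx : (QuotientGroup.mk x : Matrix.ProjectiveSpecialLinearGroup (Fin 3) F) ^ 4 = 1 := by
        rw [← QuotientGroup.mk_pow, hx4]
        rfl
      intro h
      have h2 := orderOf_dvd_of_pow_eq_one hx
      have h3' := h.trans h2
      omega
    · intro g hg
      apply CfsgLib.H9.Sour32.psl_of_sl x _ g hg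
      intro A hA
      have hAi : (A : Matrix (Fin 3) (Fin 3) F) * (A : Matrix (Fin 3) (Fin 3) F).adjugate = 1 := by
        rw [Matrix.mul_adjugate, A.2, one_smul]
      obtain ⟨M, N, M', N', h1, h2, h3, h4, h5⟩ :=
        CfsgLib.H9.Sour32.main_three e hbij _ _ hAi A.2 hA
      exact CfsgLib.H9.Sour3.to_sl x A M N M' N' h1 h2 h3 h4 h5
  · -- at least four elements
    have h4 : 4 ≤ Fintype.card F := by omega
    obtain ⟨t, ht⟩ : ∃ t : F, t ∉ ({0, 1, -1} : Finset F) := by
      by_contra hcon
      push Not at hcon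
      have h1 : (Finset.univ : Finset F) ⊆ {0, 1, -1} := fun t _ => hcon t
      have h2 := Finset.card_le_card h1
      rw [Finset.card_univ] at h2
      have h3' : ({0, 1, -1} : Finset F).card ≤ 3 := Finset.card_le_three
      omega
    simp only [Finset.mem_insert, Finset.mem_singleton, not_or] at ht
    obtain ⟨ht0, ht1, htm⟩ := ht
    have ht2 : t ^ 2 ≠ 1 := by
      intro h
      have h' : (t - 1) * (t + 1) = 0 := by linear_combination h
      rcases mul_eq_zero.mp h' with h' | h'
      · exact ht1 (sub_eq_zero.mp h')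
      · exact htm (eq_neg_of_add_eq_zero_left h')
    let x : Matrix.SpecialLinearGroup (Fin 3) F := ⟨CfsgLib.H9.Sour3.dM t, CfsgLib.H9.Sour3.dM_det t ht0⟩
    refine ⟨QuotientGroup.mk x, ?_, ?_⟩
    · have hxq : x ^ (Fintype.card F - 1) = 1 := by
        apply Subtype.ext
        have hd : CfsgLib.H9.Sour3.dM t = Matrix.diagonal ![1, t, t⁻¹] := by
          ext i j
          fin_cases i <;> fin_cases j <;> simp [CfsgLib.H9.Sour3.dM]
        change (CfsgLib.H9.Sour3.dM t) ^ (Fintype.card F - 1) = 1
        rw [hd, Matrix.diagonal_pow, ← Matrix.diagonal_one]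
        congr 1
        have h1 : t ^ (Fintype.card F - 1) = 1 := FiniteField.pow_card_sub_one_eq_one t ht0
        ext i
        fin_cases i
        · simp
        · simpa using h1
        · simp [h1]
      have hx : (QuotientGroup.mk x : Matrix.ProjectiveSpecialLinearGroup (Fin 3) F) ^
          (Fintype.card F - 1) = 1 := by
        rw [← QuotientGroup.mk_pow, hxq]
        rfl
      intro h
      have h2 := h.trans (orderOf_dvd_of_pow_eq_one hx)
      have hp1 : p ∣ 1 := by
        have := (Nat.dvd_sub hpc h2)
        have e : Fintype.card F - (Fintype.card F - 1) = 1 := by omega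
        rwa [e] at this
      exact (Fact.out : p.Prime).one_lt.ne' (Nat.dvd_one.mp hp1)
    · intro g hg
      apply CfsgLib.H9.Sour32.psl_of_sl x _ g hg
      intro A hA
      have hAi : (A : Matrix (Fin 3) (Fin 3) F) * (A : Matrix (Fin 3) (Fin 3) F).adjugate = 1 := by
        rw [Matrix.mul_adjugate, A.2, one_smul]
      obtain ⟨M, N, M', N', h1, h2, h3, h4, h5⟩ :=
        CfsgLib.H9.Sour3.main_mat _ _ hAi A.2 hA t ht0 ht1 ht2
      exact CfsgLib.H9.Sour3.to_sl x A M N M' N' h1 h2 h3 h4 h5

end Cfsg.Agent.S2459
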