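import Cfsg.Statements.S2476
import Cfsg.Agent.Lib.H9.LSpec2

set_option autoImplicit false
open Cfsg

namespace Cfsg.Agent.S2476

/-- The set of element orders of PSL(3,q): let F be a finite field of characteristic p with q elements and d = gcd(3, q − 1). The orders of elements of PSL(3,F) are exactly the divisors of (q² + q + 1)/d, of (q² − 1)/d, of q − 1, of p(q − 1)/d, and, when p = 2, of 4. -/
theorem result {F : Type*} [Field F] [Fintype F] (p : ℕ) [Fact p.Prime] [CharP F p] :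
    Set.range (orderOf : Matrix.ProjectiveSpecialLinearGroup (Fin 3) F → ℕ) =
      {m : ℕ | m ∣ (Fintype.card F ^ 2 + Fintype.card F + 1) / Nat.gcd 3 (Fintype.card F - 1) ∨
        m ∣ (Fintype.card F ^ 2 - 1) / Nat.gcd 3 (Fintype.card F - 1) ∨ m ∣ Fintype.card F - 1 ∨
        m ∣ p * (Fintype.card F - 1) / Nat.gcd 3 (Fintype.card F - 1) ∨ (p = 2 ∧ m ∣ 4)} := by
  classical
  set q := Fintype.card F with hqdef
  have hF : Fintype.card F = q := rfl
  have hq2 : 2 ≤ q := Fintype.one_lt_card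
  have hpp : p.Prime := Fact.out
  obtain ⟨n, -, hn⟩ := FiniteField.card F p
  have hqj : q = p ^ (n : ℕ) := hn
  obtain ⟨e, f, k, hde, hf, h3, hff⟩ := CfsgLib.H9.LSpec.numsL q hq2
  have hd0 : 0 < Nat.gcd 3 (q - 1) := Nat.gcd_pos_of_pos_left _ (by norm_num)
  have hddvd : Nat.gcd 3 (q - 1) ∣ 3 := Nat.gcd_dvd_left _ _
  have hk : 3 * e = k * (q - 1) := by
    calc 3 * e = (Nat.gcd 3 (q - 1) * k) * e := by rw [← h3]
      _ = k * (Nat.gcd 3 (q - 1) * e) := by ring
      _ = k * (q - 1) := by rw [← hde]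
  have hq21 : q ^ 2 - 1 = (q + 1) * (q - 1) := by
    obtain ⟨r, hr⟩ : ∃ r, q = r + 1 := ⟨q - 1, by omega⟩
    rw [hr]
    simp only [Nat.add_sub_cancel]
    have : (r + 1) ^ 2 = (r + 1 + 1) * r + 1 := by ring
    omega
  have hX2 : p * (q - 1) / Nat.gcd 3 (q - 1) = p * e := by
    rw [Nat.mul_div_assoc _ (Nat.gcd_dvd_right 3 (q - 1))]
    congr 1
    exact Nat.div_eq_of_eq_mul_right hd0 hde
  have hX3 : (q ^ 2 - 1) / Nat.gcd 3 (q - 1) = (q + 1) * e := by
    apply Nat.div_eq_of_eq_mul_right hd0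
    rw [hq21]
    calc (q + 1) * (q - 1) = (q + 1) * (Nat.gcd 3 (q - 1) * e) := by rw [← hde]
      _ = _ := by ring
  have hX4 : (q ^ 2 + q + 1) / Nat.gcd 3 (q - 1) = f := Nat.div_eq_of_eq_mul_right hd0 hf
  rw [hX2, hX3, hX4]
  have he0 : 0 < e := by
    rcases Nat.eq_zero_or_pos e with h | h
    · rw [h, mul_zero] at hde; omega
    · exact h
  have hf0 : 0 < f := by
    rcases Nat.eq_zero_or_pos f with h | h
    · rw [h, mul_zero] at hf; omega
    · exact h
  have hq1 : 0 < q - 1 := by omega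
  have hpq : p ∣ q := by
    rw [hqj]
    exact dvd_pow_self _ n.ne_zero
  have hcop : Nat.Coprime p e := by
    rw [Nat.Prime.coprime_iff_not_dvd hpp]
    intro hpe
    have h1 : p ∣ q - 1 := by
      rw [hde]; exact hpe.trans (Nat.dvd_mul_left _ _)
    have h2 : p ∣ 1 := by
      have e1 : q = (q - 1) + 1 := by omega
      rw [e1] at hpq
      exact (Nat.dvd_add_right h1).1 hpq
    exact hpp.one_lt.ne' (Nat.dvd_one.1 h2)
  have hdiv : ∀ {G : Type _} [Group G] {X s : ℕ}, (∃ g : G, orderOf g = X) → 0 < X → s ∣ X →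
      ∃ h : G, orderOf h = s := by
    rintro G _ X s ⟨g, rfl⟩ h0 hs
    refine ⟨g ^ (orderOf g / s), ?_⟩
    have hne : orderOf g / s ≠ 0 := by
      have := Nat.div_pos (Nat.le_of_dvd h0 hs) (Nat.pos_of_dvd_of_pos hs h0)
      omega
    rw [orderOf_pow_of_dvd hne (Nat.div_dvd_of_dvd hs), Nat.div_div_self hs h0.ne']
  ext s
  constructor
  · rintro ⟨g, rfl⟩
    obtain ⟨g₀, rfl⟩ := QuotientGroup.mk_surjective g
    obtain ⟨m, hm, c, hc⟩ := CfsgLib.H9.LSpec.exists_scalar_pow (p := p) hF n hqj hq2 hk hde hddvd hf g₀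
    have h1 : (QuotientGroup.mk g₀ : Matrix.ProjectiveSpecialLinearGroup (Fin 3) F) ^ m = 1 := by
      rw [← QuotientGroup.mk_pow, QuotientGroup.eq_one_iff]
      have hpow : ((g₀ ^ m : Matrix.SpecialLinearGroup (Fin 3) F) : Matrix (Fin 3) (Fin 3) F) = (g₀ : Matrix (Fin 3) (Fin 3) F) ^ m := by
        simp
      rw [Matrix.SpecialLinearGroup.mem_center_iff]
      refine ⟨c, ?_, ?_⟩
      · have : ((g₀ : Matrix (Fin 3) (Fin 3) F) ^ m).det = 1 := by rw [Matrix.det_pow, g₀.2, one_pow]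
        rw [hc, Matrix.det_smul, Matrix.det_one, mul_one, Fintype.card_fin] at this
        simpa using this
      · rw [hpow, hc]
        ext i j
        simp [Matrix.scalar_apply, Matrix.diagonal, Matrix.one_apply]
    have h2 := orderOf_dvd_of_pow_eq_one h1
    rcases hm with rfl | rfl | rfl | rfl | ⟨hp2, rfl⟩
    · exact Or.inr (Or.inr (Or.inl h2))
    · exact Or.inr (Or.inr (Or.inr (Or.inl h2)))
    · exact Or.inr (Or.inl h2)
    · exact Or.inl h2
    · exact Or.inr (Or.inr (Or.inr (Or.inr ⟨hp2, h2⟩)))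
  · rintro (h | h | h | h | ⟨hp2, h⟩)
    · exact hdiv (CfsgLib.H9.LSpec.exists_order_f p hF hq2 hde h3 hf hff) hf0 h
    · exact hdiv (CfsgLib.H9.LSpec.exists_order_q1e p hF hq2 hde h3) (Nat.mul_pos (by omega) he0) h
    · exact hdiv (CfsgLib.H9.LSpec.exists_order_q1 hF) hq1 h
    · exact hdiv (CfsgLib.H9.LSpec.exists_order_pe (p := p) hF hq2 hde hk hcop) (Nat.mul_pos hpp.pos he0) h
    · exact hdiv (CfsgLib.H9.LSpec.exists_order_four (p := p) hp2) (by norm_num) h

end Cfsg.Agent.S2476
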