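import Cfsg.Statements.S2495
import Cfsg.Agent.Lib.H9.PSLSinger

set_option autoImplicit false
open Cfsg

namespace Cfsg.Agent.S2495

/-- Let q be an odd prime power, n ≥ 4 even, and L = PSL(n,q). Then L has an element of order q^(n/2) + 1 if and only if the 2-part of n exceeds the 2-part of q − 1. -/
theorem result {F : Type*} [Field F] [Fintype F] {q : ℕ} (hF : Fintype.card F = q) (hodd : Odd q)
    {n : ℕ} (hn : 4 ≤ n) (heven : Even n) :
    (∃ g : Matrix.ProjectiveSpecialLinearGroup (Fin n) F, orderOf g = q ^ (n / 2) + 1) ↔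
      padicValNat 2 (q - 1) < padicValNat 2 n := by
  subst hF
  obtain ⟨p, hp⟩ := CharP.exists F
  haveI : Fact p.Prime := ⟨CharP.char_is_prime F p⟩
  obtain ⟨m, rfl⟩ := heven
  have e : m + m = 2 * m := by ring
  have e2 : (m + m) / 2 = m := by omega
  rw [e2]
  rw [show padicValNat 2 (m + m) = padicValNat 2 (2 * m) by rw [e]]
  generalize hk : m + m = k at *
  subst e
  exact CfsgLib.H9.PSLSinger.main_2495 p (by omega) hodd

end Cfsg.Agent.S2495
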