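import Cfsg.Statements.S2504
import Cfsg.Agent.Lib.H9.MaxAbelianAlt

set_option autoImplicit false
open Cfsg

namespace Cfsg.Agent.S2504

/-- The largest order of an abelian subgroup of the alternating group of degree n is 3^k when n = 3k, 4·3^(k−1) when n = 3k + 1, and 16·3^(k−2) when n = 3k + 2, for every k ≥ 2 (so for all degrees n ≥ 6). -/
theorem result (k : ℕ) (hk : 2 ≤ k) :
    IsGreatest {c : ℕ | ∃ A : Subgroup (alternatingGroup (Fin (3 * k))), IsMulCommutative A ∧ Nat.card A = c} (3 ^ k) ∧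
    IsGreatest {c : ℕ | ∃ A : Subgroup (alternatingGroup (Fin (3 * k + 1))), IsMulCommutative A ∧ Nat.card A = c}
      (4 * 3 ^ (k - 1)) ∧
    IsGreatest {c : ℕ | ∃ A : Subgroup (alternatingGroup (Fin (3 * k + 2))), IsMulCommutative A ∧ Nat.card A = c}
      (16 * 3 ^ (k - 2)) := by
  open CfsgLib.H9.MaxAbelian in
  refine ⟨⟨?_, ?_⟩, ⟨?_, ?_⟩, ⟨?_, ?_⟩⟩
  · obtain ⟨A, hA, hc⟩ := exists_model k 0 (3 * k) (by ring)
    exact ⟨A, hA, by simpa using hc⟩
  · rintro c ⟨A, hA, rfl⟩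
    have := card_le_f_alt A hA
    simpa [f_3k] using this
  · obtain ⟨j, rfl⟩ : ∃ j, k = j + 1 := ⟨k - 1, by omega⟩
    obtain ⟨A, hA, hc⟩ := exists_model j 1 (3 * (j + 1) + 1) (by ring)
    refine ⟨A, hA, ?_⟩
    rw [hc]
    simp [mul_comm]
  · rintro c ⟨A, hA, rfl⟩
    have := card_le_f_alt A hA
    rwa [f_3k1 k (by omega)] at this
  · obtain ⟨j, rfl⟩ : ∃ j, k = j + 2 := ⟨k - 2, by omega⟩
    obtain ⟨A, hA, hc⟩ := exists_model j 2 (3 * (j + 2) + 2) (by ring)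
    refine ⟨A, hA, ?_⟩
    rw [hc]
    simp only [Nat.add_sub_cancel]
    ring
  · rintro c ⟨A, hA, rfl⟩
    exact card_le_alt' A hA k hk rfl

end Cfsg.Agent.S2504
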