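import Cfsg.Statements.S2505
import Cfsg.Agent.Lib.H9.MaxAbelian

set_option autoImplicit false
open Cfsg

namespace Cfsg.Agent.S2505

/-- The largest order of an abelian subgroup of the symmetric group of degree n is 3^k when n = 3k, 4·3^(k−1) when n = 3k + 1, and 2·3^k when n = 3k + 2, for every k ≥ 1. -/
theorem result (k : ℕ) (hk : 1 ≤ k) :
    IsGreatest {c : ℕ | ∃ A : Subgroup (Equiv.Perm (Fin (3 * k))), IsMulCommutative A ∧ Nat.card A = c} (3 ^ k) ∧
    IsGreatest {c : ℕ | ∃ A : Subgroup (Equiv.Perm (Fin (3 * k + 1))), IsMulCommutative A ∧ Nat.card A = c}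
      (4 * 3 ^ (k - 1)) ∧
    IsGreatest {c : ℕ | ∃ A : Subgroup (Equiv.Perm (Fin (3 * k + 2))), IsMulCommutative A ∧ Nat.card A = c}
      (2 * 3 ^ k) := by
  open CfsgLib.H9.MaxAbelian in
  refine ⟨⟨?_, ?_⟩, ⟨?_, ?_⟩, ⟨?_, ?_⟩⟩
  · obtain ⟨A, hA, hc⟩ := exists_regular (ι := Fin k) (fun _ => 3) (fun _ => by norm_num) (3 * k)
      (by simp [mul_comm])
    exact ⟨A, hA, by simpa using hc⟩
  · rintro c ⟨A, hA, rfl⟩
    have := card_le_f A hA
    simpa [f_3k] using this
  · obtain ⟨j, rfl⟩ : ∃ j, k = j + 1 := ⟨k - 1, by omega⟩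
    obtain ⟨A, hA, hc⟩ := exists_regular (ι := Option (Fin j))
      (fun o => o.elim 4 (fun _ => 3)) (fun o => by cases o <;> simp)
      (3 * (j + 1) + 1) (by
        rw [Fintype.sum_option]; simp; ring)
    refine ⟨A, hA, ?_⟩
    rw [hc, Fintype.prod_option]
    simp
  · rintro c ⟨A, hA, rfl⟩
    have := card_le_f A hA
    simpa [f_3k1 k hk] using this
  · obtain ⟨A, hA, hc⟩ := exists_regular (ι := Option (Fin k))
      (fun o => o.elim 2 (fun _ => 3)) (fun o => by cases o <;> simp)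
      (3 * k + 2) (by
        rw [Fintype.sum_option]; simp; ring)
    refine ⟨A, hA, ?_⟩
    rw [hc, Fintype.prod_option]
    simp
  · rintro c ⟨A, hA, rfl⟩
    have := card_le_f A hA
    simpa [f_3k2] using this

end Cfsg.Agent.S2505
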