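import Mathlib
import Cfsg.Agent.Lib.ClassMax.SpecU5
import Cfsg.Statements.S2511
-- import your own Cfsg.Agent.* helpers here

set_option autoImplicit false
open Cfsg

namespace Cfsg.Agent.S2511

open CfsgLib.Spec3 CfsgLib.SpecU

/-- Let F be a finite field with q² elements, q = p^a, n ≥ 3 with (n, q) ≠ (3, 2), L = PSU(n, q) realised over F, and let r be a prime dividing q + 1 and not dividing n. Then for every m the direct product L × L × L × (ℤ/r)^m has the same set of element orders as L × L × L; and if n − 1 is not a power of p, then already L × L × (ℤ/r)^m has the same set of element orders as L × L. -/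
theorem result {F : Type*} [Field F] [Fintype F] (p a n q r m : ℕ) (hp : p.Prime) (ha : 1 ≤ a) (hq : q = p ^ a) (hF : Fintype.card F = q ^ 2)
    (hn : 3 ≤ n) (hn3 : ¬ (n = 3 ∧ q = 2)) (hr : r.Prime) (hrq : r ∣ q + 1) (hrn : ¬ r ∣ n) :
    Set.range (orderOf : Cfsg.PSU n F q × Cfsg.PSU n F q × Cfsg.PSU n F q × Multiplicative (Fin m → ZMod r) → ℕ) = Set.range (orderOf : Cfsg.PSU n F q × Cfsg.PSU n F q × Cfsg.PSU n F q → ℕ) ∧
    ((¬ ∃ j : ℕ, n - 1 = p ^ j) →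
      Set.range (orderOf : Cfsg.PSU n F q × Cfsg.PSU n F q × Multiplicative (Fin m → ZMod r) → ℕ) = Set.range (orderOf : Cfsg.PSU n F q × Cfsg.PSU n F q → ℕ)) := by
  classical
  have hn0 : n ≠ 0 := by omega
  haveI : NeZero n := ⟨hn0⟩
  haveI : Fact p.Prime := ⟨hp⟩
  have hn2 : 2 ≤ n := by omega
  have hq1 : 1 ≤ q := by
    rw [hq]
    exact Nat.one_le_pow _ _ hp.pos
  haveI : CharP F p := by
    obtain ⟨p', hp'⟩ := CharP.exists F
    obtain ⟨m, hm1, hm2⟩ := FiniteField.card F p'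
    rw [hF, hq] at hm2
    have h3 : p' ∣ p := by
      have h4 : p' ∣ (p ^ a) ^ 2 := by
        rw [hm2]
        exact dvd_pow_self _ (PNat.ne_zero m)
      exact hm1.dvd_of_dvd_pow (hm1.dvd_of_dvd_pow h4)
    have h4 : p' = p := (Nat.prime_dvd_prime_iff_eq hm1 hp).mp h3
    rwa [h4] at hp'
  have hrp : r ≠ p := by
    rintro rfl
    have h1 : r ∣ q := by
      rw [hq]
      exact dvd_pow_self _ (by omega)
    have h3 : r ∣ 1 := (Nat.dvd_add_right h1).mp hrq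
    exact hr.one_lt.ne' (Nat.dvd_one.mp h3)
  let L := Cfsg.PSU n F q
  let ω : ℕ → Prop := fun d => ∃ y : L, orderOf y = d
  have hdiv : ∀ a d, ω a → d ∣ a → ω d := by
    rintro a d ⟨y, rfl⟩ ⟨c, hc⟩
    have hpos : 0 < orderOf y := orderOf_pos y
    have hc0 : c ≠ 0 := by
      rintro rfl
      simp [hc] at hpos
    refine ⟨y ^ c, ?_⟩
    rw [orderOf_pow_of_dvd hc0 ⟨d, by rw [hc, mul_comm]⟩, hc]
    exact Nat.mul_div_cancel _ (Nat.pos_of_ne_zero hc0)
  have hpos : ∀ a, ω a → a ≠ 0 := by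
    rintro a ⟨y, rfl⟩
    exact (orderOf_pos y).ne'
  have hrω : ω r := exists_order_r hF hn2 r hr hrq hrn
  obtain ⟨N, hNdef⟩ : ∃ N, N = NU q n := ⟨_, rfl⟩
  have hN : ∀ d, d ∣ N → ω d := by
    intro d hd
    obtain ⟨y, hy⟩ := exists_torus hF hn2 p a hp hq
    exact hdiv _ d ⟨y, hy⟩ (hNdef ▸ hd)
  have hdich : ∀ a', ω a' → ¬ r ∣ a' → ω (a' * r) ∨ ordCompl[p] a' ∣ N := by
    rintro a' ⟨y, rfl⟩ h
    rw [hNdef]
    exact dichotomy hF hn2 p a hp hq r hr hrq hrn y h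
  have hf4 : (¬ ∃ j : ℕ, n - 1 = p ^ j) → ∀ c, ω (p ^ c) → ω (p ^ c * r) := by
    intro hj c hc
    rcases Nat.eq_zero_or_pos c with rfl | hc0
    · simpa using hrω
    · obtain ⟨b, rfl⟩ : ∃ b, c = b + 1 := ⟨c - 1, by omega⟩
      obtain ⟨y, hy⟩ := hc
      have h1 : p ^ b < n := ppow_ltU hF hn2 p hp b y hy
      have h2 : p ^ b + 1 < n := by
        have h3 : n - 1 ≠ p ^ b := fun h => hj ⟨b, h⟩
        omega
      exact exists_ppow_r hF hn2 p hp r hr hrq hrn hrp b h2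
  have hv : ∀ v : Multiplicative (Fin m → ZMod r), orderOf v = 1 ∨ orderOf v = r := by
    intro v
    have h1 : v ^ r = 1 := by
      refine Multiplicative.toAdd.injective (funext fun j => ?_)
      show r • (Multiplicative.toAdd v j) = 0
      simp
    exact (Nat.dvd_prime hr).mp (orderOf_dvd_of_pow_eq_one h1)
  constructor
  · ext d
    constructor
    · rintro ⟨⟨x₁, x₂, x₃, v⟩, rfl⟩
      rcases hv v with h1 | h1
      · refine ⟨(x₁, x₂, x₃), ?_⟩
        simp only [Prod.orderOf, h1, Nat.lcm_one_right]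
      · obtain ⟨a', b', c', ⟨y₁, h1'⟩, ⟨y₂, h2'⟩, ⟨y₃, h3'⟩, he⟩ :=
          arith_three ω p r N hp hr hdiv hpos hrω hN hdich (orderOf x₁) (orderOf x₂) (orderOf x₃)
            ⟨x₁, rfl⟩ ⟨x₂, rfl⟩ ⟨x₃, rfl⟩
        refine ⟨(y₁, y₂, y₃), eq_of_dvd_iff fun e => ?_⟩
        simp only [Prod.orderOf, h1, Nat.lcm_dvd_iff, h1', h2', h3']
        rw [he]
    · rintro ⟨⟨x₁, x₂, x₃⟩, rfl⟩
      refine ⟨(x₁, x₂, x₃, 1), ?_⟩
      simp only [Prod.orderOf, orderOf_one, Nat.lcm_one_right]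
  · intro hj
    ext d
    constructor
    · rintro ⟨⟨x₁, x₂, v⟩, rfl⟩
      rcases hv v with h1 | h1
      · refine ⟨(x₁, x₂), ?_⟩
        simp only [Prod.orderOf, h1, Nat.lcm_one_right]
      · obtain ⟨a', b', ⟨y₁, h1'⟩, ⟨y₂, h2'⟩, he⟩ :=
          arith_two ω p r N hp hr hrp hdiv hpos hN hdich (hf4 hj) (orderOf x₁) (orderOf x₂)
            ⟨x₁, rfl⟩ ⟨x₂, rfl⟩
        refine ⟨(y₁, y₂), eq_of_dvd_iff fun e => ?_⟩
        simp only [Prod.orderOf, h1, Nat.lcm_dvd_iff, h1', h2']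
        rw [he]
    · rintro ⟨⟨x₁, x₂⟩, rfl⟩
      refine ⟨(x₁, x₂, 1), ?_⟩
      simp only [Prod.orderOf, orderOf_one, Nat.lcm_one_right]

end Cfsg.Agent.S2511
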