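import Mathlib
import Cfsg.Agent.Lib.ClassMax.SpecS7
import Cfsg.Statements.S2512
-- import your own Cfsg.Agent.* helpers here

set_option autoImplicit false
open Cfsg

namespace Cfsg.Agent.S2512

open CfsgLib.Spec3 CfsgLib.SpecS

/-- Let F be a finite field of odd order q = p^a, n ≥ 2 (with q ≥ 3 automatic), and L = PSp(2n, F). Then for every m the direct product L × L × L × (ℤ/2)^m has the same set of element orders as L × L × L; and if 2n − 1 is not a power of p, then already L × L × (ℤ/2)^m has the same set of element orders as L × L. -/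
theorem result {F : Type*} [Field F] [Fintype F] (p a n m : ℕ) (hp : p.Prime) (ha : 1 ≤ a) (hF : Fintype.card F = p ^ a) (hodd : Odd (Fintype.card F))
    (hn : 2 ≤ n) :
    Set.range (orderOf : Cfsg.PSp n F × Cfsg.PSp n F × Cfsg.PSp n F × Multiplicative (Fin m → ZMod 2) → ℕ) = Set.range (orderOf : Cfsg.PSp n F × Cfsg.PSp n F × Cfsg.PSp n F → ℕ) ∧
    ((¬ ∃ j : ℕ, 2 * n - 1 = p ^ j) →
      Set.range (orderOf : Cfsg.PSp n F × Cfsg.PSp n F × Multiplicative (Fin m → ZMod 2) → ℕ) = Set.range (orderOf : Cfsg.PSp n F × Cfsg.PSp n F → ℕ)) := by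
  classical
  have hn1 : 1 ≤ n := by omega
  haveI : NeZero n := ⟨by omega⟩
  haveI : Fact p.Prime := ⟨hp⟩
  haveI : CharP F p := by
    obtain ⟨p', hp'⟩ := CharP.exists F
    obtain ⟨m, hm1, hm2⟩ := FiniteField.card F p'
    rw [hF] at hm2
    have h4 : p' ∣ p ^ a := by
      rw [hm2]
      exact dvd_pow_self _ (PNat.ne_zero m)
    have h3 : p' ∣ p := hm1.dvd_of_dvd_pow h4
    have h5 : p' = p := (Nat.prime_dvd_prime_iff_eq hm1 hp).mp h3
    rwa [h5] at hp'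
  have hp2 : p ≠ 2 := by
    rintro rfl
    rw [hF] at hodd
    have h1 : 2 ∣ 2 ^ a := dvd_pow_self _ (by omega)
    exact (Nat.not_even_iff_odd.mpr hodd) (even_iff_two_dvd.mpr h1)
  have h2F : (2 : F) ≠ 0 := by
    intro h
    have h1 : ((2 : ℕ) : F) = 0 := by exact_mod_cast h
    have h3 : p ∣ 2 := (CharP.cast_eq_zero_iff F p 2).mp h1
    exact hp2 ((Nat.prime_dvd_prime_iff_eq hp Nat.prime_two).mp h3)
  have hqodd : Odd ((Fintype.card F) ^ n) := hodd.pow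
  obtain ⟨k, hk⟩ := hqodd
  obtain ⟨Np, hNpd⟩ : ∃ Np, Np = k + 1 := ⟨_, rfl⟩
  obtain ⟨Nm, hNmd⟩ : ∃ Nm, Nm = k := ⟨_, rfl⟩
  have hNp : 2 * Np = (Fintype.card F) ^ n + 1 := by omega
  have hNm : 2 * Nm = (Fintype.card F) ^ n - 1 := by omega
  have hone : 2 ∣ Np ∨ 2 ∣ Nm := by omega
  let L := Cfsg.PSp n F
  let ω : ℕ → Prop := fun d => ∃ y : L, orderOf y = d
  have hdiv : ∀ a d, ω a → d ∣ a → ω d := by
    rintro a d ⟨y, rfl⟩ ⟨c, hc⟩
    have hpos : 0 < orderOf y := orderOf_pos y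
    have hc0 : c ≠ 0 := by
      rintro rfl
      simp [hc] at hpos
    refine ⟨y ^ c, ?_⟩
    rw [orderOf_pow_of_dvd hc0 ⟨d, by rw [hc, mul_comm]⟩, hc]
    exact Nat.mul_div_cancel _ (Nat.pos_of_ne_zero hc0)
  have hpos : ∀ a, ω a → a ≠ 0 := by
    rintro a ⟨y, rfl⟩
    exact (orderOf_pos y).ne'
  have hωp : ∀ d, d ∣ Np → ω d := by
    intro d hd
    obtain ⟨y, hy⟩ := torus_plus (K := FiniteField.Extension F p (2 * n)) hn1
      (FiniteField.finrank_extension F p (2 * n)) p a hp hF h2F Np hNp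
    exact hdiv _ d ⟨y, hy⟩ hd
  have hωm : ∀ d, d ∣ Nm → ω d := by
    intro d hd
    obtain ⟨y, hy⟩ := torus_minus (K := FiniteField.Extension F p n) hn1
      (FiniteField.finrank_extension F p n) Nm hNm
    exact hdiv _ d ⟨y, hy⟩ hd
  have hdich : ∀ a', ω a' → ¬ 2 ∣ a' → ω (a' * 2) ∨
      ((ordCompl[p] a' ∣ Np ∨ ordCompl[p] a' ∣ Nm) ∧ (p ∣ a' → ∃ j : ℕ, 2 * n - 1 = p ^ j)) := by
    rintro a' ⟨y, rfl⟩ h
    exact dichotomy hn1 p a hp hF h2F Np Nm hNp hNm y h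
  have hv : ∀ v : Multiplicative (Fin m → ZMod 2), orderOf v = 1 ∨ orderOf v = 2 := by
    intro v
    have h1 : v ^ 2 = 1 := by
      refine Multiplicative.toAdd.injective (funext fun j => ?_)
      show 2 • (Multiplicative.toAdd v j) = 0
      generalize Multiplicative.toAdd v j = t
      revert t
      decide
    exact (Nat.dvd_prime Nat.prime_two).mp (orderOf_dvd_of_pow_eq_one h1)
  constructor
  · ext d
    constructor
    · rintro ⟨⟨x₁, x₂, x₃, v⟩, rfl⟩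
      rcases hv v with h1 | h1
      · refine ⟨(x₁, x₂, x₃), ?_⟩
        simp only [Prod.orderOf, h1, Nat.lcm_one_right]
      · obtain ⟨a', b', c', ⟨y₁, h1'⟩, ⟨y₂, h2'⟩, ⟨y₃, h3'⟩, he⟩ :=
          arith_three2 ω p Np Nm (∃ j : ℕ, 2 * n - 1 = p ^ j) hp hdiv hpos hωp hωm hone hdich
            (orderOf x₁) (orderOf x₂) (orderOf x₃) ⟨x₁, rfl⟩ ⟨x₂, rfl⟩ ⟨x₃, rfl⟩
        refine ⟨(y₁, y₂, y₃), eq_of_dvd_iff fun e => ?_⟩
        simp only [Prod.orderOf, h1, Nat.lcm_dvd_iff, h1', h2', h3']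
        rw [he]
    · rintro ⟨⟨x₁, x₂, x₃⟩, rfl⟩
      refine ⟨(x₁, x₂, x₃, 1), ?_⟩
      simp only [Prod.orderOf, orderOf_one, Nat.lcm_one_right]
  · intro hj
    ext d
    constructor
    · rintro ⟨⟨x₁, x₂, v⟩, rfl⟩
      rcases hv v with h1 | h1
      · refine ⟨(x₁, x₂), ?_⟩
        simp only [Prod.orderOf, h1, Nat.lcm_one_right]
      · obtain ⟨a', b', ⟨y₁, h1'⟩, ⟨y₂, h2'⟩, he⟩ :=
          arith_two2 ω p Np Nm (∃ j : ℕ, 2 * n - 1 = p ^ j) hp hωp hωm hone hj hdich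
            (orderOf x₁) (orderOf x₂) ⟨x₁, rfl⟩ ⟨x₂, rfl⟩
        refine ⟨(y₁, y₂), eq_of_dvd_iff fun e => ?_⟩
        simp only [Prod.orderOf, h1, Nat.lcm_dvd_iff, h1', h2']
        rw [he]
    · rintro ⟨⟨x₁, x₂⟩, rfl⟩
      refine ⟨(x₁, x₂, 1), ?_⟩
      simp only [Prod.orderOf, orderOf_one, Nat.lcm_one_right]

end Cfsg.Agent.S2512
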