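import Mathlib
import Cfsg.Agent.Lib.ClassMax.Spec2
import Cfsg.Statements.S2513
-- import your own Cfsg.Agent.* helpers here

set_option autoImplicit false
open Cfsg

namespace Cfsg.Agent.S2513

/-- Let F be the field with two elements, n ≥ 2, L = PSL(n, F) and k₀ = ⌊(n + 3)/2⌋. Then for every k ≥ k₀ the direct product of k copies of L has the same set of element orders as the direct product of k₀ copies of L. -/
theorem result {F : Type*} [Field F] [Fintype F] (hF : Fintype.card F = 2) (n k : ℕ) (hn : 2 ≤ n) (hk : (n + 3) / 2 ≤ k) :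
    Set.range (orderOf : (Fin k → Matrix.ProjectiveSpecialLinearGroup (Fin n) F) → ℕ) = Set.range (orderOf : (Fin ((n + 3) / 2) → Matrix.ProjectiveSpecialLinearGroup (Fin n) F) → ℕ) := by
  haveI : Finite (Matrix.ProjectiveSpecialLinearGroup (Fin n) F) := inferInstance
  ext m
  constructor
  · rintro ⟨x, rfl⟩
    obtain ⟨y, hy⟩ := CfsgLib.Spec2.main_subset hF n k hn x
    exact ⟨y, hy⟩
  · rintro ⟨y, rfl⟩
    classical
    let z : Fin k → Matrix.ProjectiveSpecialLinearGroup (Fin n) F :=
      fun i => if h : i.1 < (n + 3) / 2 then y ⟨i.1, h⟩ else 1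
    refine ⟨z, ?_⟩
    rw [orderOf_eq_orderOf_iff]
    intro e
    constructor
    · intro h
      funext j
      have := congrFun h ⟨j.1, by omega⟩
      simpa [z, j.2] using this
    · intro h
      funext i
      by_cases hi : i.1 < (n + 3) / 2
      · have := congrFun h ⟨i.1, hi⟩
        simpa [z, hi] using this
      · simp [z, hi]

end Cfsg.Agent.S2513
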