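import Cfsg.Statements.S2516

set_option autoImplicit false
open Cfsg

namespace Cfsg.Agent.S2516

/-- Let F be a field of characteristic p > 0, V a non-zero finite-dimensional F-vector space, G a finite group and ρ a representation of G on V; form the semidirect product V ⋊ G. For g ∈ G of order k, the coset Vg contains an element of order pk if and only if the minimal polynomial of ρ(g) does not divide 1 + X + ⋯ + X^(k−1). -/
theorem result {F : Type*} [Field F] (p : ℕ) [Fact p.Prime] [CharP F p] {V : Type*} [AddCommGroup V] [Module F V] [FiniteDimensional F V] [Nontrivial V]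
    {G : Type*} [Group G] [Finite G] (ρ : Representation F G V) (g : G) :
    (∃ x : Multiplicative V ⋊[(MulAutMultiplicative V).symm.toMonoidHom.comp
        ((DistribMulAction.toAddAut ((V →ₗ[F] V)ˣ) V).comp ρ.asGroupHom)] G,
        x.right = g ∧ orderOf x = p * orderOf g) ↔
      ¬ (minpoly F (ρ g) ∣ ∑ i ∈ Finset.range (orderOf g), (Polynomial.X : Polynomial F) ^ i) := by
  classical
  set φ := (MulAutMultiplicative V).symm.toMonoidHom.comp
        ((DistribMulAction.toAddAut ((V →ₗ[F] V)ˣ) V).comp ρ.asGroupHom) with hφ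
  have hpr : p.Prime := Fact.out
  have hφapp : ∀ (h : G) (m : Multiplicative V), φ h m = Multiplicative.ofAdd (ρ h (Multiplicative.toAdd m)) := by
    intro h m
    rfl
  set k := orderOf g with hk
  have hk0 : 0 < k := orderOf_pos g
  set N : V →ₗ[F] V := ∑ i ∈ Finset.range k, (ρ g) ^ i with hN
  have hmin : (minpoly F (ρ g) ∣ ∑ i ∈ Finset.range k, (Polynomial.X : Polynomial F) ^ i) ↔ N = 0 := by
    rw [minpoly.dvd_iff]
    simp [hN]
  have hpow : ∀ (v : V) (n : ℕ), (⟨Multiplicative.ofAdd v, g⟩ : Multiplicative V ⋊[φ] G) ^ n =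
      ⟨Multiplicative.ofAdd ((∑ i ∈ Finset.range n, (ρ g) ^ i) v), g ^ n⟩ := by
    intro v n
    induction n with
    | zero =>
      simp
    | succ n ih =>
      rw [pow_succ', ih, SemidirectProduct.mul_def]
      apply SemidirectProduct.ext
      · simp only [hφapp, toAdd_ofAdd, ← ofAdd_add]
        congr 1
        rw [Finset.sum_range_succ', LinearMap.add_apply, LinearMap.sum_apply, LinearMap.sum_apply, map_sum]
        simp only [pow_zero, Module.End.one_apply, pow_succ', Module.End.mul_apply]
        rw [add_comm]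
      · simp [pow_succ']
  have hpN : ∀ w : V, (p : ℕ) • w = 0 := by
    intro w
    rw [← Nat.cast_smul_eq_nsmul F, CharP.cast_eq_zero, zero_smul]
  have hkth : ∀ v : V, (⟨Multiplicative.ofAdd v, g⟩ : Multiplicative V ⋊[φ] G) ^ k = 1 ↔ N v = 0 := by
    intro v
    rw [hpow, hk, pow_orderOf_eq_one, ← hk]
    constructor
    · intro h
      have h2 : Multiplicative.ofAdd (N v) = 1 := congrArg SemidirectProduct.left h
      exact ofAdd_eq_one.mp h2
    · intro h
      rw [h]
      rfl
  have hpk : ∀ v : V, (⟨Multiplicative.ofAdd v, g⟩ : Multiplicative V ⋊[φ] G) ^ (k * p) = 1 := by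
    intro v
    rw [pow_mul, hpow, hk, pow_orderOf_eq_one, ← hk]
    have h1 : ∀ (w : V) (n : ℕ), (⟨Multiplicative.ofAdd w, 1⟩ : Multiplicative V ⋊[φ] G) ^ n = ⟨Multiplicative.ofAdd (n • w), 1⟩ := by
      intro w n
      have h2 := hpow
      induction n with
      | zero =>
        simp
      | succ n ih =>
        rw [pow_succ', ih, SemidirectProduct.mul_def]
        apply SemidirectProduct.ext
        · simp only [hφapp, toAdd_ofAdd, ← ofAdd_add, map_one]
          congr 1
          simp [succ_nsmul']
        · simp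
    rw [h1, hpN]
    simp
  have hdvd : ∀ v : V, k ∣ orderOf (⟨Multiplicative.ofAdd v, g⟩ : Multiplicative V ⋊[φ] G) := by
    intro v
    have := orderOf_map_dvd (SemidirectProduct.rightHom (φ := φ)) (⟨Multiplicative.ofAdd v, g⟩ : Multiplicative V ⋊[φ] G)
    simpa using this
  rw [hmin]
  constructor
  · rintro ⟨x, hr, hord⟩ hN0
    have h1 := (hkth (Multiplicative.toAdd x.left)).mpr (by rw [hN0]; rfl)
    have h2 := orderOf_dvd_of_pow_eq_one h1
    have h3 : (⟨Multiplicative.ofAdd (Multiplicative.toAdd x.left), g⟩ : Multiplicative V ⋊[φ] G) = x :=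
      SemidirectProduct.ext rfl hr.symm
    rw [h3, hord] at h2
    have h4 := Nat.le_of_dvd hk0 h2
    have := hpr.two_le
    nlinarith
  · intro hN0
    obtain ⟨v, hv⟩ : ∃ v, N v ≠ 0 := by
      by_contra hh
      push Not at hh
      exact hN0 (LinearMap.ext hh)
    refine ⟨⟨Multiplicative.ofAdd v, g⟩, rfl, ?_⟩
    obtain ⟨e, he⟩ := hdvd v
    have h1 := orderOf_dvd_of_pow_eq_one (hpk v)
    rw [he] at h1 ⊢
    have h2 : e ∣ p := Nat.dvd_of_mul_dvd_mul_left hk0 h1
    rcases (Nat.dvd_prime hpr).mp h2 with h3 | h3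
    · exfalso
      apply hv
      rw [← hkth]
      have h4 : orderOf (⟨Multiplicative.ofAdd v, g⟩ : Multiplicative V ⋊[φ] G) = k := by
        rw [he, h3, mul_one]
      rw [← h4]
      exact pow_orderOf_eq_one _
    · rw [h3, mul_comm]

end Cfsg.Agent.S2516
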