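import Cfsg.Statements.S2518
import Cfsg.Agent.Lib.G23.Rep
import Cfsg.Agent.Lib.G23.PSL13

set_option autoImplicit false
open Cfsg

namespace Cfsg.Agent.S2518

/-- Let F₃ be the field with 3 elements and F₁₃ the field with 13 elements. The Chevalley group G₂(F₃) and PSL(2, F₁₃) have the same prime graph: the same prime divisors of their orders, and for distinct primes r, s an element of order rs in one iff in the other. -/
theorem result {F : Type*} [Field F] [Fintype F] (hF : Fintype.card F = 3) {E : Type*} [Field E] [Fintype E] (hE : Fintype.card E = 13) :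
    ((∀ r : ℕ, r.Prime → (r ∣ Nat.card ↥(Cfsg.Lie.chevG2.group F) ↔ r ∣ Nat.card (Matrix.ProjectiveSpecialLinearGroup (Fin 2) E))) ∧
      (∀ r s : ℕ, r.Prime → s.Prime → r ≠ s → ((∃ x : ↥(Cfsg.Lie.chevG2.group F), orderOf x = r * s) ↔ (∃ y : (Matrix.ProjectiveSpecialLinearGroup (Fin 2) E), orderOf y = r * s)))) := by
  classical
  haveI : CharP F 3 := charP_of_card_eq_prime hF
  let σ : ZMod 3 ≃+* F := ZMod.ringEquivOfPrime F Nat.prime_three hF
  have hF' : Nat.card F = 3 := by rw [Nat.card_eq_fintype_card, hF]
  let C := CfsgLib.G23.mkCtx (σ.symm : F →+* ZMod 3) hF'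
  have hcG := C.card
  have hcP := CfsgLib.G23.psl13_card hE
  refine ⟨?_, ?_⟩
  · intro r hr
    rw [hcP]
    constructor
    · intro h
      have := C.prime_cases hr h
      rcases this with rfl | rfl | rfl | rfl <;> norm_num
    · intro h
      rw [hcG]
      exact h.trans (by norm_num)
  · intro r s hr hs hne
    constructor
    · rintro ⟨x, hx⟩
      have h6 := C.spectrum hr hs hne hx
      rw [h6]
      exact CfsgLib.G23.psl13_six hE
    · rintro ⟨y, hy⟩
      have h6 : r * s = 6 := by
        have hrd : r ∣ r * s := Dvd.intro _ rfl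
        have hsd : s ∣ r * s := Dvd.intro_left _ rfl
        have h7 : Nat.Prime 7 := by norm_num
        have h13 : Nat.Prime 13 := by norm_num
        rcases CfsgLib.G23.psl13_cases hE y with h | h | h
        · have hd : r * s ∣ 6 := by
            rw [← hy]
            exact orderOf_dvd_of_pow_eq_one h
          have h6' : (6 : ℕ) = 2 * 3 := by norm_num
          have hr6 : r ∣ 2 * 3 := h6' ▸ hrd.trans hd
          have hs6 : s ∣ 2 * 3 := h6' ▸ hsd.trans hd
          rcases (Nat.Prime.dvd_mul hr).1 hr6 with h1 | h1 <;> rcases (Nat.Prime.dvd_mul hs).1 hs6 with h2 | h2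
          · rw [Nat.prime_dvd_prime_iff_eq hr Nat.prime_two] at h1
            rw [Nat.prime_dvd_prime_iff_eq hs Nat.prime_two] at h2
            exact (hne (h1.trans h2.symm)).elim
          · rw [Nat.prime_dvd_prime_iff_eq hr Nat.prime_two] at h1
            rw [Nat.prime_dvd_prime_iff_eq hs Nat.prime_three] at h2
            rw [h1, h2]
          · rw [Nat.prime_dvd_prime_iff_eq hr Nat.prime_three] at h1
            rw [Nat.prime_dvd_prime_iff_eq hs Nat.prime_two] at h2
            rw [h1, h2]
          · rw [Nat.prime_dvd_prime_iff_eq hr Nat.prime_three] at h1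
            rw [Nat.prime_dvd_prime_iff_eq hs Nat.prime_three] at h2
            exact (hne (h1.trans h2.symm)).elim
        · have hd : r * s ∣ 7 := by
            rw [← hy]
            exact orderOf_dvd_of_pow_eq_one h
          have h1 := (Nat.prime_dvd_prime_iff_eq hr h7).1 (hrd.trans hd)
          have h2 := (Nat.prime_dvd_prime_iff_eq hs h7).1 (hsd.trans hd)
          exact (hne (h1.trans h2.symm)).elim
        · have hd : r * s ∣ 13 := by
            rw [← hy]
            exact orderOf_dvd_of_pow_eq_one h
          have h1 := (Nat.prime_dvd_prime_iff_eq hr h13).1 (hrd.trans hd)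
          have h2 := (Nat.prime_dvd_prime_iff_eq hs h13).1 (hsd.trans hd)
          exact (hne (h1.trans h2.symm)).elim
      rw [h6]
      exact ⟨_, C.order_e6⟩

end Cfsg.Agent.S2518
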