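import Cfsg.Statements.S2521

set_option autoImplicit false
open Cfsg

namespace Cfsg.Agent.S2521

/-- Let B be a finite group that is the semidirect product of a nilpotent normal subgroup U by an abelian subgroup T (U ∩ T = 1, UT = B), and let t ∈ T have centralizer exactly T. Then every element of the coset tU is conjugate to t in B: for each u ∈ U there is b ∈ B with b t b⁻¹ = t u. -/
theorem result {B : Type*} [Group B] [Finite B] (U T : Subgroup B) [U.Normal] (hU : Group.IsNilpotent ↥U) (hT : IsMulCommutative ↥T)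
    (hcompl : Subgroup.IsComplement' U T) (t : B) (ht : t ∈ T) (hreg : Subgroup.centralizer ({t} : Set B) = T) (u : B) (hu : u ∈ U) :
    ∃ b : B, b * t * b⁻¹ = t * u := by
  classical
  haveI := Fintype.ofFinite B
  -- the map `U → tU`, `v ↦ v t v⁻¹` is injective, hence surjective
  let f : U → U := fun v => ⟨t⁻¹ * (v.1 * t * v.1⁻¹), by
    have h1 : t⁻¹ * v.1 * t ∈ U := by
      have := (inferInstance : U.Normal).conj_mem v.1 v.2 t⁻¹
      simpa using this
    have : t⁻¹ * (v.1 * t * v.1⁻¹) = (t⁻¹ * v.1 * t) * v.1⁻¹ := by group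
    rw [this]
    exact U.mul_mem h1 (U.inv_mem v.2)⟩
  have hinj : Function.Injective f := by
    intro v w hvw
    have h1 : t⁻¹ * (v.1 * t * v.1⁻¹) = t⁻¹ * (w.1 * t * w.1⁻¹) := congrArg Subtype.val hvw
    have h2 : v.1 * t * v.1⁻¹ = w.1 * t * w.1⁻¹ := mul_left_cancel h1
    have h3 : w.1⁻¹ * v.1 ∈ Subgroup.centralizer ({t} : Set B) := by
      rw [Subgroup.mem_centralizer_singleton_iff]
      calc w.1⁻¹ * v.1 * t = w.1⁻¹ * (v.1 * t * v.1⁻¹) * v.1 := by group
        _ = w.1⁻¹ * (w.1 * t * w.1⁻¹) * v.1 := by rw [h2]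
        _ = t * (w.1⁻¹ * v.1) := by group
    rw [hreg] at h3
    have h4 : w.1⁻¹ * v.1 ∈ U := U.mul_mem (U.inv_mem w.2) v.2
    have hdisj := hcompl.disjoint
    have h5 : w.1⁻¹ * v.1 = 1 := by
      have := Subgroup.disjoint_def.1 hdisj h4 h3
      exact this
    apply Subtype.ext
    have h6 : v.1 = w.1 := by
      have := mul_eq_one_iff_eq_inv.1 h5
      simpa using this.symm
    exact h6
  have hsurj : Function.Surjective f := Finite.surjective_of_injective hinj
  obtain ⟨v, hv⟩ := hsurj ⟨u, hu⟩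
  refine ⟨v.1, ?_⟩
  have h1 : t⁻¹ * (v.1 * t * v.1⁻¹) = u := congrArg Subtype.val hv
  rw [← h1]
  group

end Cfsg.Agent.S2521
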