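import Cfsg.Statements.S2910
import Cfsg.Agent.Lib.OOL.Basic
import Cfsg.Agent.Lib.Trans.Frob

set_option autoImplicit false
open Cfsg

namespace Cfsg.Agent.S2910

/-- Let p be an odd prime dividing the order of the finite group G and P a Sylow p-subgroup of G. If Ω₁(P) (generated by the elements of order dividing p) is contained in the centre of G, then G has a normal p-complement. In particular, if G is quasisimple then Ω₁(P) is not central in G. -/
theorem result {G : Type*} [Group G] [Finite G] {p : ℕ} [Fact p.Prime] (hp : p ≠ 2) (hdiv : p ∣ Nat.card G) (P : Sylow p G) (hZ : Cfsg.omegaOne p (P : Subgroup G) ≤ Subgroup.center G) : Cfsg.HasNormalPComplement p G ∧ ¬ Cfsg.IsQuasisimple G := by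
  have hPp : IsPGroup p (P : Subgroup G) := P.isPGroup'
  have hN : ∃ N : Subgroup G, N.Normal ∧ N.IsComplement' (P : Subgroup G) := by
    rw [CfsgLib.Trans.frobenius_criterion P]
    intro Q hQ g hg hcop
    have hA : Subgroup.zpowers g ≤ Subgroup.normalizer (Q : Set G) := (Subgroup.zpowers_le).2 hg
    have hc : (Nat.card (Subgroup.zpowers g)).Coprime p := by
      rw [Nat.card_zpowers]; exact hcop
    have := CfsgLib.OOL.centralizes_of_omega_centralizer p hp Q ⊥ (Subgroup.zpowers g) (hPp.to_le hQ) bot_le
      ⟨⟨⟨fun a b => Subtype.ext (by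
        have h1 : (a : G) = 1 := Subgroup.mem_bot.1 a.2
        have h2 : (b : G) = 1 := Subgroup.mem_bot.1 b.2
        simp [h1, h2])⟩⟩, fun a ha => by
        rw [Subgroup.mem_bot.1 ha]; simp⟩ hA hc (by
        rintro x ⟨hxQ, -⟩ hxo y -
        have hxm : x ∈ Cfsg.omegaOne p (P : Subgroup G) :=
          Subgroup.subset_closure ⟨hQ hxQ, by rw [← hxo]; exact pow_orderOf_eq_one x⟩
        have hxc := Subgroup.mem_center_iff.1 (hZ hxm)
        rw [Subgroup.mem_centralizer_iff]
        intro z hz
        rw [Set.mem_singleton_iff] at hz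
        subst hz
        exact (hxc y).symm)
    exact this (Subgroup.mem_zpowers g)
  obtain ⟨N, hNn, hNc⟩ := hN
  refine ⟨⟨P, N, hNn, hNc⟩, ?_⟩
  rintro ⟨hperf, -⟩
  haveI := hNn
  haveI := hperf
  have hidx : N.index = Nat.card P := hNc.symm.index_eq_card
  have hPQ : IsPGroup p (G ⧸ N) := by
    apply IsPGroup.of_card (n := (hPp.exists_card_eq).choose)
    rw [← Subgroup.index_eq_card, hidx]
    exact (hPp.exists_card_eq).choose_spec
  haveI : Group.IsSolvable (G ⧸ N) := by
    haveI := hPQ.isNilpotent
    infer_instance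
  have hsub : Subsingleton (G ⧸ N) := by
    by_contra hns
    rw [not_subsingleton_iff_nontrivial] at hns
    haveI := hns
    exact Group.IsPerfect.not_isSolvable (G := G ⧸ N) inferInstance
  have hi1 : N.index = 1 := by
    rw [Subgroup.index_eq_card]; exact Nat.card_eq_one_iff_unique.2 ⟨hsub, inferInstance⟩
  have hP1 : Nat.card P = 1 := by rw [← hidx]; exact hi1
  obtain ⟨T⟩ : Nonempty (Sylow p G) := inferInstance
  have hne : P.1 ≠ ⊥ := P.ne_bot_of_dvd_card hdiv
  apply hne
  exact Subgroup.eq_bot_of_card_eq _ hP1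

end Cfsg.Agent.S2910
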