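import Cfsg.Statements.S2957
-- import your own Cfsg.Agent.* helpers here

set_option autoImplicit false
open Cfsg

namespace Cfsg.Agent.S2957

open Subgroup

/-- Having the order of a Sylow subgroup. -/
def IsSyl {G : Type*} [Group G] (p : ℕ) (C : Subgroup G) : Prop := Nat.card C = p ^ (Nat.card G).factorization p

/-- Chains of Sylow subgroups through normalizers of members of `f`. -/
inductive TC {G : Type*} [Group G] (p : ℕ) (f : Subgroup G → Set (Subgroup G)) (D : Subgroup G) :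
    Subgroup G → Subgroup G → Prop
  | refl (A : Subgroup G) : TC p f D A A
  | step {A B C : Subgroup G} (h : TC p f D A B) (hC : IsSyl p C) (P F : Subgroup G) (x : G) (hP : IsSyl p P)
      (hF : F ∈ f P) (hB : B ≤ normalizer (F : Set G)) (hCN : C ≤ normalizer (F : Set G))
      (hx : x ∈ normalizer (F : Set G)) (hconj : Cfsg.subgroupConjRight x C = B) (hD : D ≤ C) : TC p f D A C

section
variable {G : Type*} [Group G] [Finite G] {p : ℕ} [hpf : Fact p.Prime]
  {f : Subgroup G → Set (Subgroup G)}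

theorem TC.trans {D A B C : Subgroup G} (h1 : TC p f D A B) (h2 : TC p f D B C) : TC p f D A C := by
  induction h2 with
  | refl => exact h1
  | step _ hC P F x hP hF hB hCN hx hconj hD ih => exact TC.step ih hC P F x hP hF hB hCN hx hconj hD

theorem isSyl_conj {C : Subgroup G} (g : G) (h : IsSyl p C) : IsSyl p (C.map (MulAut.conj g).toMonoidHom) := by
  unfold IsSyl at h ⊢
  rw [Subgroup.card_map_of_injective (MulAut.conj g).injective, h]

theorem pg_of_isSyl {C : Subgroup G} (h : IsSyl p C) : IsPGroup p C := IsPGroup.of_card h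

theorem TC.conj (hf : Cfsg.IsNormalizerFunctor p f) {D A B : Subgroup G} (h : TC p f D A B) (g : G) :
    TC p f (D.map (MulAut.conj g).toMonoidHom) (A.map (MulAut.conj g).toMonoidHom) (B.map (MulAut.conj g).toMonoidHom) := by
  induction h with
  | refl => exact TC.refl _
  | @step B C _ hC P F x hP hF hB hCN hx hconj hD ih =>
    have hFg : F.map (MulAut.conj g).toMonoidHom ∈ f (P.map (MulAut.conj g).toMonoidHom) := by
      rw [(hf P (pg_of_isSyl hP)).2 g]
      exact ⟨F, hF, rfl⟩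
    have hN : (normalizer (F : Set G)).map (MulAut.conj g).toMonoidHom ≤
        normalizer ((F.map (MulAut.conj g).toMonoidHom : Subgroup G) : Set G) := by
      rw [Subgroup.map_equiv_normalizer_eq]
    refine TC.step ih (isSyl_conj g hC) _ _ (g * x * g⁻¹) (isSyl_conj g hP) hFg
      ((Subgroup.map_mono hB).trans hN) ((Subgroup.map_mono hCN).trans hN) (hN ⟨x, hx, rfl⟩) ?_
      (Subgroup.map_mono hD)
    rw [← hconj]
    unfold Cfsg.subgroupConjRight
    rw [Subgroup.map_map, Subgroup.map_map]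
    congr 1
    ext y
    simp [MulAut.conj_apply, mul_assoc]

theorem card_le_sylow {K : Type*} [Group K] [Finite K] (U : Subgroup K) (hU : IsPGroup p U) (Q : Sylow p K) :
    Nat.card U ≤ Nat.card Q := by
  obtain ⟨Q', hQ'⟩ := hU.exists_le_sylow
  calc Nat.card U ≤ Nat.card Q' := Subgroup.card_le_of_le hQ'
    _ = Nat.card Q := by rw [Sylow.card_eq_multiplicity, Sylow.card_eq_multiplicity]

theorem syl_pow_eq (S : Sylow p G) (M : Subgroup G) (hSM : (S : Subgroup G) ≤ M) :
    p ^ (Nat.card M).factorization p = p ^ (Nat.card G).factorization p := by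
  rw [← Sylow.card_eq_multiplicity (S.subtype hSM), ← Sylow.card_eq_multiplicity S]
  rw [Sylow.coe_subtype]
  exact Nat.card_congr (Subgroup.subgroupOfEquivOfLe hSM).toEquiv

theorem isSyl_img (S : Sylow p G) {M : Subgroup G} (hSM : (S : Subgroup G) ≤ M) (c : Sylow p ↥M) :
    IsSyl p ((c : Subgroup ↥M).map M.subtype) := by
  unfold IsSyl
  rw [Subgroup.card_map_of_injective Subtype.val_injective, Sylow.card_eq_multiplicity, syl_pow_eq S M hSM]

theorem le_of_member (hf : Cfsg.IsNormalizerFunctor p f) {M : Subgroup G} (P : Sylow p ↥M) {F : Subgroup G}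
    (hF : F ∈ f ((P : Subgroup ↥M).map M.subtype)) (c : Sylow p ↥M)
    (Q : Sylow p ↥((M ⊓ normalizer (F : Set G)).subgroupOf M))
    (hQ : (Q : Subgroup ↥((M ⊓ normalizer (F : Set G)).subgroupOf M)).map (Subgroup.subtype _) = (c : Subgroup ↥M) ⊓ (M ⊓ normalizer (F : Set G)).subgroupOf M) :
    (c : Subgroup ↥M).map M.subtype ≤ normalizer (F : Set G) := by
  have hPp : IsPGroup p ((P : Subgroup ↥M).map M.subtype) := P.isPGroup'.map _
  obtain ⟨hFP, hNN⟩ := (hf _ hPp).1 F hF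
  have hPX : (P : Subgroup ↥M) ≤ (M ⊓ normalizer (F : Set G)).subgroupOf M := by
    intro y hy
    rw [mem_subgroupOf]
    exact ⟨y.2, hNN (Subgroup.le_normalizer ⟨y, hy, rfl⟩)⟩
  have hcardP : Nat.card P ≤ Nat.card Q := by
    have h1 := card_le_sylow ((P : Subgroup ↥M).subgroupOf ((M ⊓ normalizer (F : Set G)).subgroupOf M))
      (P.isPGroup'.comap_of_injective _ Subtype.val_injective) Q
    have h2 : Nat.card ((P : Subgroup ↥M).subgroupOf ((M ⊓ normalizer (F : Set G)).subgroupOf M)) = Nat.card P :=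
      Nat.card_congr (Subgroup.subgroupOfEquivOfLe hPX).toEquiv
    rwa [h2] at h1
  have hc : Nat.card ((c : Subgroup ↥M) ⊓ (M ⊓ normalizer (F : Set G)).subgroupOf M : Subgroup ↥M) = Nat.card Q := by
    rw [← hQ]
    exact Subgroup.card_map_of_injective Subtype.val_injective
  have hcP : Nat.card c = Nat.card P := by
    rw [Sylow.card_eq_multiplicity, Sylow.card_eq_multiplicity]
  have heq : (c : Subgroup ↥M) ⊓ (M ⊓ normalizer (F : Set G)).subgroupOf M = c :=
    Subgroup.eq_of_le_of_card_ge inf_le_left (by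
      rw [hc]
      have : Nat.card (c : Subgroup ↥M) = Nat.card c := rfl
      omega)
  rintro _ ⟨y, hy, rfl⟩
  have h3 : y ∈ (M ⊓ normalizer (F : Set G)).subgroupOf M := (inf_eq_left.mp heq) hy
  exact (mem_subgroupOf.mp h3).2

theorem reg_chain (hf : Cfsg.IsNormalizerFunctor p f) (S : Sylow p G) (M : Subgroup G) (hSM : (S : Subgroup G) ≤ M)
    (hr : Cfsg.IsFunctorRegular p f M) (A B : Subgroup G) (hA : IsSyl p A) (hB : IsSyl p B) (hAM : A ≤ M) (hBM : B ≤ M)
    (D : Subgroup G) (hDA : D ≤ A) (hDB : D ≤ B) (hD : D ≠ ⊥) : TC p f D A B := by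
  by_cases hAB : A = B
  · subst hAB
    exact TC.refl _
  have hcard : ∀ C : Subgroup G, IsSyl p C → C ≤ M →
      Nat.card (C.subgroupOf M) = p ^ (Nat.card M).factorization p := by
    intro C hC hCM
    rw [syl_pow_eq S M hSM, ← hC]
    exact Nat.card_congr (Subgroup.subgroupOfEquivOfLe hCM).toEquiv
  let A' : Sylow p ↥M := Sylow.ofCard (A.subgroupOf M) (hcard A hA hAM)
  let B' : Sylow p ↥M := Sylow.ofCard (B.subgroupOf M) (hcard B hB hBM)
  have hA' : (A' : Subgroup ↥M).map M.subtype = A := by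
    show (A.subgroupOf M).map M.subtype = A
    rw [Subgroup.subgroupOf_map_subtype, inf_eq_left.mpr hAM]
  have hB' : (B' : Subgroup ↥M).map M.subtype = B := by
    show (B.subgroupOf M).map M.subtype = B
    rw [Subgroup.subgroupOf_map_subtype, inf_eq_left.mpr hBM]
  have hne : A' ≠ B' := by
    intro h
    apply hAB
    rw [← hA', ← hB', h]
  have hint : (A' : Subgroup ↥M) ⊓ (B' : Subgroup ↥M) ≠ ⊥ := by
    intro h
    apply hD
    rw [eq_bot_iff]
    intro y hy
    have hyM : y ∈ M := hAM (hDA hy)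
    have h1 : (⟨y, hyM⟩ : ↥M) ∈ (A' : Subgroup ↥M) ⊓ (B' : Subgroup ↥M) :=
      ⟨mem_subgroupOf.mpr (hDA hy), mem_subgroupOf.mpr (hDB hy)⟩
    rw [h, Subgroup.mem_bot] at h1
    rw [Subgroup.mem_bot]
    exact congrArg Subtype.val h1
  obtain ⟨n, c, X, x, h0, hl, hstep⟩ := hr A' B' hne hint
  have key : ∀ k : Fin (n + 1), TC p f D A ((c k : Subgroup ↥M).map M.subtype) := by
    intro k
    induction k using Fin.induction with
    | zero =>
      rw [h0, hA']
      exact TC.refl _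
    | succ i ih =>
      obtain ⟨hm1, hm2, hxi, hcj, hDi⟩ := hstep i
      generalize X i = W at hm1 hm2 hxi hDi
      obtain ⟨⟨Y, ⟨P, F, hF, rfl⟩, rfl⟩, Q2, hQ2⟩ := hm2
      obtain ⟨_, Q1, hQ1⟩ := hm1
      have hle2 := le_of_member hf P hF (c i.succ) Q2 hQ2
      have hle1 := le_of_member hf P hF (c i.castSucc) Q1 hQ1
      refine TC.step ih (isSyl_img S hSM _) _ F (x i : G) (isSyl_img S hSM P) hF hle1 hle2
        (mem_subgroupOf.mp hxi).2 ?_ ?_
      · rw [← hcj]
        unfold Cfsg.subgroupConjRight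
        rw [Subgroup.map_map, Subgroup.map_map]
        congr 1
      · intro y hy
        have hyM : y ∈ M := hAM (hDA hy)
        have h1 : (⟨y, hyM⟩ : ↥M) ∈ (A' : Subgroup ↥M) ⊓ (B' : Subgroup ↥M) :=
          ⟨mem_subgroupOf.mpr (hDA hy), mem_subgroupOf.mpr (hDB hy)⟩
        exact ⟨_, (hDi h1).1, rfl⟩
  have h1 := key (Fin.last n)
  rw [hl, hB'] at h1
  exact h1

theorem exists_conj_eq (S : Sylow p G) (A : Subgroup G) (hA : IsSyl p A) :
    ∃ a : G, A = (S : Subgroup G).map (MulAut.conj a).toMonoidHom := by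
  obtain ⟨a, ha⟩ := MulAction.exists_smul_eq G S (Sylow.ofCard A hA)
  refine ⟨a, ?_⟩
  have h1 : ((a • S : Sylow p G) : Subgroup G) = A := by rw [ha]; rfl
  rw [← h1]
  rfl

theorem map_conj_inv_conj (X : Subgroup G) (g : G) :
    (X.map (MulAut.conj g⁻¹).toMonoidHom).map (MulAut.conj g).toMonoidHom = X := by
  rw [Subgroup.map_map]
  have : (MulAut.conj g).toMonoidHom.comp (MulAut.conj g⁻¹).toMonoidHom = MonoidHom.id G := by
    ext y
    simp [MulAut.conj_apply, mul_assoc]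
  rw [this, Subgroup.map_id]

theorem reg_conj (hf : Cfsg.IsNormalizerFunctor p f) (S : Sylow p G) (M : Subgroup G) (hSM : (S : Subgroup G) ≤ M)
    (hr : Cfsg.IsFunctorRegular p f M) (g : G) (A B : Subgroup G) (hA : IsSyl p A) (hB : IsSyl p B)
    (hAM : A ≤ M.map (MulAut.conj g).toMonoidHom) (hBM : B ≤ M.map (MulAut.conj g).toMonoidHom)
    (D : Subgroup G) (hDA : D ≤ A) (hDB : D ≤ B) (hD : D ≠ ⊥) : TC p f D A B := by
  have hle : ∀ X : Subgroup G, X ≤ M.map (MulAut.conj g).toMonoidHom → X.map (MulAut.conj g⁻¹).toMonoidHom ≤ M := by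
    rintro X hX _ ⟨y, hy, rfl⟩
    obtain ⟨m, hm, rfl⟩ := hX hy
    simpa [MulAut.conj_apply, mul_assoc] using hm
  have hD' : D.map (MulAut.conj g⁻¹).toMonoidHom ≠ ⊥ := by
    intro h
    apply hD
    rw [← map_conj_inv_conj D g, h, Subgroup.map_bot]
  have h1 := reg_chain hf S M hSM hr _ _ (isSyl_conj g⁻¹ hA) (isSyl_conj g⁻¹ hB) (hle A hAM) (hle B hBM) _
    (Subgroup.map_mono hDA) (Subgroup.map_mono hDB) hD'
  have h2 := h1.conj hf g
  rwa [map_conj_inv_conj, map_conj_inv_conj, map_conj_inv_conj] at h2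

theorem main_chain (hf : Cfsg.IsNormalizerFunctor p f) (S : Sylow p G) (G₁ G₂ : Subgroup G)
    (h₁ : (S : Subgroup G) ≤ G₁) (h₂ : (S : Subgroup G) ≤ G₂) (hprod : ∀ g : G, ∃ g₁ ∈ G₁, ∃ g₂ ∈ G₂, g = g₁ * g₂)
    (hr₁ : Cfsg.IsFunctorRegular p f G₁) (hr₂ : Cfsg.IsFunctorRegular p f G₂)
    (A B : Subgroup G) (hA : IsSyl p A) (hB : IsSyl p B) (D : Subgroup G) (hDA : D ≤ A) (hDB : D ≤ B) (hD : D ≠ ⊥) :
    TC p f D A B := by
  obtain ⟨a, rfl⟩ := exists_conj_eq S A hA
  obtain ⟨b, rfl⟩ := exists_conj_eq S B hB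
  obtain ⟨g₁, hg₁, g₂, hg₂, hab⟩ := hprod (a⁻¹ * b)
  have hb : b = a * g₁ * g₂ := by
    have : a * (a⁻¹ * b) = a * (g₁ * g₂) := by rw [hab]
    rw [mul_inv_cancel_left] at this
    rw [this, mul_assoc]
  set c := a * g₁ with hc
  have hself : ∀ (K : Subgroup G) (u : G), u ∈ K → K.map (MulAut.conj u).toMonoidHom = K := by
    intro K u hu
    apply le_antisymm
    · rintro _ ⟨y, hy, rfl⟩
      exact K.mul_mem (K.mul_mem hu hy) (K.inv_mem hu)
    · intro y hy
      exact ⟨u⁻¹ * y * u, K.mul_mem (K.mul_mem (K.inv_mem hu) hy) hu, by simp [MulAut.conj_apply, mul_assoc]⟩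
  have hmul : ∀ (K : Subgroup G) (u v : G), K.map (MulAut.conj (u * v)).toMonoidHom =
      (K.map (MulAut.conj v).toMonoidHom).map (MulAut.conj u).toMonoidHom := by
    intro K u v
    rw [Subgroup.map_map]
    congr 1
    ext y
    simp [MulAut.conj_apply, mul_assoc]
  have hM₁ : G₁.map (MulAut.conj c).toMonoidHom = G₁.map (MulAut.conj a).toMonoidHom := by
    rw [hc, hmul, hself G₁ g₁ hg₁]
  have hM₂ : G₂.map (MulAut.conj b).toMonoidHom = G₂.map (MulAut.conj c).toMonoidHom := by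
    rw [hb, hmul, hself G₂ g₂ hg₂]
  have hDR₁ : D ≤ G₁.map (MulAut.conj c).toMonoidHom := by
    rw [hM₁]
    exact hDA.trans (Subgroup.map_mono h₁)
  have hDR₂ : D ≤ G₂.map (MulAut.conj c).toMonoidHom := by
    rw [← hM₂]
    exact hDB.trans (Subgroup.map_mono h₂)
  set R : Subgroup G := G₁.map (MulAut.conj c).toMonoidHom ⊓ G₂.map (MulAut.conj c).toMonoidHom with hR
  have hDR : D ≤ R := le_inf hDR₁ hDR₂
  have hV₀ : (S : Subgroup G).map (MulAut.conj c).toMonoidHom ≤ R :=
    le_inf (Subgroup.map_mono h₁) (Subgroup.map_mono h₂)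
  have hDp : IsPGroup p D := (S.isPGroup'.map _).to_le hDA
  obtain ⟨Q, hQ⟩ := (hDp.comap_of_injective R.subtype Subtype.val_injective).exists_le_sylow
  have hVle : (Q : Subgroup ↥R).map R.subtype ≤ R := Subgroup.map_subtype_le _
  have hVS : IsSyl p ((Q : Subgroup ↥R).map R.subtype) := by
    unfold IsSyl
    rw [Subgroup.card_map_of_injective Subtype.val_injective]
    apply le_antisymm
    · have h1 := card_le_sylow ((Q : Subgroup ↥R).map R.subtype) (Q.isPGroup'.map _) S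
      rw [Subgroup.card_map_of_injective Subtype.val_injective] at h1
      exact h1.trans (Sylow.card_eq_multiplicity S).le
    · have h1 := card_le_sylow (((S : Subgroup G).map (MulAut.conj c).toMonoidHom).subgroupOf R)
        ((S.isPGroup'.map _).comap_of_injective R.subtype Subtype.val_injective) Q
      have h2 : Nat.card (((S : Subgroup G).map (MulAut.conj c).toMonoidHom).subgroupOf R) =
          p ^ (Nat.card G).factorization p := by
        have h3 := isSyl_conj (p := p) c (show IsSyl p (S : Subgroup G) from Sylow.card_eq_multiplicity S)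
        rw [← h3]
        exact Nat.card_congr (Subgroup.subgroupOfEquivOfLe hV₀).toEquiv
      rw [h2] at h1
      exact h1
  have hDV : D ≤ (Q : Subgroup ↥R).map R.subtype := by
    intro y hy
    exact ⟨⟨y, hDR hy⟩, hQ (mem_subgroupOf.mpr hy), rfl⟩
  have hS₀ : IsSyl p (S : Subgroup G) := Sylow.card_eq_multiplicity S
  refine TC.trans (B := (Q : Subgroup ↥R).map R.subtype) ?_ ?_
  · refine reg_conj hf S G₁ h₁ hr₁ a _ _ (isSyl_conj a hS₀) hVS (Subgroup.map_mono h₁) ?_ D hDA hDV hD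
    rw [← hM₁]
    exact hVle.trans inf_le_left
  · refine reg_conj hf S G₂ h₂ hr₂ b _ _ hVS (isSyl_conj b hS₀) ?_ (Subgroup.map_mono h₂) D hDV hDB hD
    rw [hM₂]
    exact hVle.trans inf_le_right

theorem syl_top_of (C : Subgroup G) (hC : IsSyl p C) :
    Nat.card (C.subgroupOf (⊤ : Subgroup G)) = p ^ (Nat.card ↥(⊤ : Subgroup G)).factorization p := by
  rw [Nat.card_congr (Subgroup.topEquiv (G := G)).toEquiv, ← hC]
  exact Nat.card_congr (Subgroup.subgroupOfEquivOfLe le_top).toEquiv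

theorem mem_members (hf : Cfsg.IsNormalizerFunctor p f) (P F : Subgroup G) (hP : IsSyl p P) (hF : F ∈ f P)
    (c : Sylow p ↥(⊤ : Subgroup G)) (hc : (c : Subgroup ↥(⊤ : Subgroup G)).map (⊤ : Subgroup G).subtype ≤ normalizer (F : Set G)) :
    ((⊤ ⊓ normalizer (F : Set G) : Subgroup G).subgroupOf (⊤ : Subgroup G)) ∈
      Cfsg.sylowMembers p ((fun X : Subgroup G => X.subgroupOf (⊤ : Subgroup G)) '' Cfsg.functorFamily p f ⊤) (c : Subgroup ↥(⊤ : Subgroup G)) := by
  have hle : (c : Subgroup ↥(⊤ : Subgroup G)) ≤ (⊤ ⊓ normalizer (F : Set G) : Subgroup G).subgroupOf (⊤ : Subgroup G) := by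
    intro y hy
    rw [mem_subgroupOf]
    exact ⟨Subgroup.mem_top _, hc ⟨y, hy, rfl⟩⟩
  refine ⟨⟨_, ⟨Sylow.ofCard (P.subgroupOf ⊤) (syl_top_of P hP), F, ?_, rfl⟩, rfl⟩, c.subtype hle, ?_⟩
  · have e : ((Sylow.ofCard (P.subgroupOf ⊤) (syl_top_of P hP) : Sylow p ↥(⊤ : Subgroup G)) : Subgroup ↥(⊤ : Subgroup G)).map (⊤ : Subgroup G).subtype = P := by
      show (P.subgroupOf ⊤).map (⊤ : Subgroup G).subtype = P
      rw [Subgroup.subgroupOf_map_subtype, inf_top_eq]
    rw [e]
    exact hF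
  · rw [Sylow.coe_subtype, Subgroup.subgroupOf_map_subtype]

theorem to_fin (hf : Cfsg.IsNormalizerFunctor p f) (S' : Sylow p ↥(⊤ : Subgroup G)) (D : Subgroup G)
    (E : Subgroup ↥(⊤ : Subgroup G)) (hED : ∀ y ∈ E, (y : G) ∈ D) {B : Subgroup G}
    (hT : TC p f D ((S' : Subgroup ↥(⊤ : Subgroup G)).map (⊤ : Subgroup G).subtype) B) :
    (∃ (n : ℕ) (c : Fin (n + 1) → Sylow p ↥(⊤ : Subgroup G)) (X : Fin n → Subgroup ↥(⊤ : Subgroup G))
      (x : Fin n → ↥(⊤ : Subgroup G)),
      c 0 = S' ∧ (c (Fin.last n) : Subgroup ↥(⊤ : Subgroup G)).map (⊤ : Subgroup G).subtype = B ∧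
      ∀ i : Fin n,
        X i ∈ Cfsg.sylowMembers p ((fun X : Subgroup G => X.subgroupOf (⊤ : Subgroup G)) '' Cfsg.functorFamily p f ⊤) (c i.castSucc : Subgroup ↥(⊤ : Subgroup G)) ∧
        X i ∈ Cfsg.sylowMembers p ((fun X : Subgroup G => X.subgroupOf (⊤ : Subgroup G)) '' Cfsg.functorFamily p f ⊤) (c i.succ : Subgroup ↥(⊤ : Subgroup G)) ∧
        x i ∈ X i ∧ Cfsg.subgroupConjRight (x i) (c i.succ : Subgroup ↥(⊤ : Subgroup G)) = (c i.castSucc : Subgroup ↥(⊤ : Subgroup G)) ∧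
        E ≤ (c i.succ : Subgroup ↥(⊤ : Subgroup G)) ⊓ X i) := by
  induction hT with
  | refl =>
    exact ⟨0, fun _ => S', Fin.elim0, Fin.elim0, rfl, rfl, fun i => Fin.elim0 i⟩
  | @step B C _ hC P F x hP hF hB hCN hx hconj hD ih =>
    obtain ⟨n, c, X, y, h0, hl, hs⟩ := ih
    let C' : Sylow p ↥(⊤ : Subgroup G) := Sylow.ofCard (C.subgroupOf ⊤) (syl_top_of C hC)
    have hC' : (C' : Subgroup ↥(⊤ : Subgroup G)).map (⊤ : Subgroup G).subtype = C := by
      show (C.subgroupOf ⊤).map (⊤ : Subgroup G).subtype = C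
      rw [Subgroup.subgroupOf_map_subtype, inf_top_eq]
    have hmemB : (c (Fin.last n) : Subgroup ↥(⊤ : Subgroup G)).map (⊤ : Subgroup G).subtype ≤ normalizer (F : Set G) := by
      rw [hl]; exact hB
    have hmemC : (C' : Subgroup ↥(⊤ : Subgroup G)).map (⊤ : Subgroup G).subtype ≤ normalizer (F : Set G) := by
      rw [hC']; exact hCN
    refine ⟨n + 1, Fin.snoc (α := fun _ => Sylow p ↥(⊤ : Subgroup G)) c C',
      Fin.snoc (α := fun _ => Subgroup ↥(⊤ : Subgroup G)) X ((⊤ ⊓ normalizer (F : Set G) : Subgroup G).subgroupOf (⊤ : Subgroup G)),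
      Fin.snoc (α := fun _ => ↥(⊤ : Subgroup G)) y ⟨x, Subgroup.mem_top x⟩, ?_, ?_, ?_⟩
    · have : (0 : Fin (n + 2)) = Fin.castSucc (0 : Fin (n + 1)) := rfl
      rw [this, Fin.snoc_castSucc]
      exact h0
    · rw [Fin.snoc_last]
      exact hC'
    · intro i
      refine Fin.lastCases ?_ (fun j => ?_) i
      · rw [Fin.succ_last, Fin.snoc_last, Fin.snoc_castSucc, Fin.snoc_last, Fin.snoc_last]
        refine ⟨mem_members hf P F hP hF _ hmemB, mem_members hf P F hP hF _ hmemC, mem_subgroupOf.mpr ⟨Subgroup.mem_top x, hx⟩, ?_, ?_⟩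
        · apply Subgroup.map_injective (Subgroup.subtype_injective (⊤ : Subgroup G))
          rw [hl, ← hconj, ← hC']
          unfold Cfsg.subgroupConjRight
          rw [Subgroup.map_map, Subgroup.map_map]
          congr 1
        · intro e he
          have hec : e ∈ (C' : Subgroup ↥(⊤ : Subgroup G)) := mem_subgroupOf.mpr (hD (hED e he))
          exact ⟨hec, mem_subgroupOf.mpr ⟨Subgroup.mem_top _, hCN (hD (hED e he))⟩⟩
      · rw [Fin.succ_castSucc]
        simp only [Fin.snoc_castSucc]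
        exact hs j

end

/-- Let p be a prime dividing the order of the finite group G, f an equivariant assignment of a set of subgroups f(P) of P to every p-subgroup P, each normalized by N_G(P), and S a Sylow p-subgroup. If G = G₁G₂ for subgroups G₁, G₂ both containing S and both regular for f (in each Gᵢ, the family of normalizers in Gᵢ of the members of f(P), P a Sylow p-subgroup of Gᵢ, controls Sylow p-intersections), then G itself is regular for f. -/
theorem result {G : Type*} [Group G] [Finite G] (p : ℕ) [Fact p.Prime] (hdiv : p ∣ Nat.card G)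
    (f : Subgroup G → Set (Subgroup G)) (hf : Cfsg.IsNormalizerFunctor p f) (S : Sylow p G)
    (G₁ G₂ : Subgroup G) (h₁ : (S : Subgroup G) ≤ G₁) (h₂ : (S : Subgroup G) ≤ G₂)
    (hprod : ∀ g : G, ∃ g₁ ∈ G₁, ∃ g₂ ∈ G₂, g = g₁ * g₂)
    (hr₁ : Cfsg.IsFunctorRegular p f G₁) (hr₂ : Cfsg.IsFunctorRegular p f G₂) :
    Cfsg.IsFunctorRegular p f ⊤ := by
  classical
  intro S' T' hne hint
  have hTop : ∀ U : Sylow p ↥(⊤ : Subgroup G), IsSyl p ((U : Subgroup ↥(⊤ : Subgroup G)).map (⊤ : Subgroup G).subtype) := by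
    intro U
    exact isSyl_img S le_top U
  set D : Subgroup G := (S' : Subgroup ↥(⊤ : Subgroup G)).map (⊤ : Subgroup G).subtype ⊓
    (T' : Subgroup ↥(⊤ : Subgroup G)).map (⊤ : Subgroup G).subtype with hD
  have hD1 : D ≠ ⊥ := by
    intro h
    apply hint
    rw [eq_bot_iff]
    intro y hy
    have h1 : (y : G) ∈ D := ⟨⟨y, hy.1, rfl⟩, ⟨y, hy.2, rfl⟩⟩
    rw [h, Subgroup.mem_bot] at h1
    rw [Subgroup.mem_bot]
    exact Subtype.ext h1
  have hT := main_chain hf S G₁ G₂ h₁ h₂ hprod hr₁ hr₂ _ _ (hTop S') (hTop T') D inf_le_left inf_le_right hD1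
  obtain ⟨n, c, X, x, h0, hl, hs⟩ := to_fin hf S' D ((S' : Subgroup ↥(⊤ : Subgroup G)) ⊓ (T' : Subgroup ↥(⊤ : Subgroup G)))
    (fun y hy => ⟨⟨y, hy.1, rfl⟩, ⟨y, hy.2, rfl⟩⟩) hT
  refine ⟨n, c, X, x, h0, ?_, hs⟩
  apply Sylow.ext
  exact Subgroup.map_injective (Subgroup.subtype_injective (⊤ : Subgroup G)) hl

end Cfsg.Agent.S2957
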