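import Cfsg.Statements.S2956
import Cfsg.Agent.S2957
import Cfsg.Agent.Lib.Local.Control
-- import your own Cfsg.Agent.* helpers here

set_option autoImplicit false
open Cfsg

namespace Cfsg.Agent.S2956

open Subgroup Cfsg

/-- Chains of Sylow subgroups through members of a family. -/
inductive TD {G : Type*} [Group G] (p : ℕ) (𝓨 : Set (Subgroup G)) (D : Subgroup G) :
    Sylow p G → Sylow p G → Prop
  | refl (A : Sylow p G) : TD p 𝓨 D A A
  | step {A B C : Sylow p G} (h : TD p 𝓨 D A B) (X : Subgroup G) (x : G)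
      (h1 : X ∈ sylowMembers p 𝓨 (B : Subgroup G)) (h2 : X ∈ sylowMembers p 𝓨 (C : Subgroup G)) (hx : x ∈ X)
      (hc : subgroupConjRight x (C : Subgroup G) = (B : Subgroup G)) (hD : D ≤ (C : Subgroup G) ⊓ X) : TD p 𝓨 D A C

/-- `A ⊓ M` is a Sylow subgroup of `M`. -/
def IsSylM {G : Type*} [Group G] (p : ℕ) (M A : Subgroup G) : Prop :=
  ∃ Q : Sylow p ↥M, (Q : Subgroup ↥M).map M.subtype = A ⊓ M

/-- The `p`-part of the order. -/
noncomputable def sz {G : Type*} [Group G] (p : ℕ) (M : Subgroup G) : ℕ := p ^ (Nat.card M).factorization p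

section
variable {G : Type*} [Group G] [Finite G] {p : ℕ} [hpf : Fact p.Prime]
  {f : Subgroup G → Set (Subgroup G)} {𝓨 : Set (Subgroup G)}

theorem TD.trans {D : Subgroup G} {A B C : Sylow p G} (h1 : TD p 𝓨 D A B) (h2 : TD p 𝓨 D B C) : TD p 𝓨 D A C := by
  induction h2 with
  | refl => exact h1
  | step _ X x h₁ h₂ hx hc hD ih => exact TD.step ih X x h₁ h₂ hx hc hD

theorem TD.mono {D D' : Subgroup G} {A B : Sylow p G} (hDD : D' ≤ D) (h : TD p 𝓨 D A B) : TD p 𝓨 D' A B := by
  induction h with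
  | refl => exact TD.refl _
  | step _ X x h₁ h₂ hx hc hD ih => exact TD.step ih X x h₁ h₂ hx hc (hDD.trans hD)

theorem to_fin {D : Subgroup G} {S T : Sylow p G} (h : TD p 𝓨 D S T) :
    ∃ (n : ℕ) (c : Fin (n + 1) → Sylow p G) (X : Fin n → Subgroup G) (x : Fin n → G),
      c 0 = S ∧ c (Fin.last n) = T ∧
      ∀ i : Fin n,
        X i ∈ sylowMembers p 𝓨 (c i.castSucc : Subgroup G) ∧ X i ∈ sylowMembers p 𝓨 (c i.succ : Subgroup G) ∧
        x i ∈ X i ∧ subgroupConjRight (x i) (c i.succ : Subgroup G) = (c i.castSucc : Subgroup G) ∧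
        D ≤ (c i.succ : Subgroup G) ⊓ X i := by
  induction h with
  | refl => exact ⟨0, fun _ => S, Fin.elim0, Fin.elim0, rfl, rfl, fun i => Fin.elim0 i⟩
  | @step B C _ W w h₁ h₂ hx hc hD ih =>
    obtain ⟨n, c, X, y, h0, hl, hs⟩ := ih
    refine ⟨n + 1, Fin.snoc (α := fun _ => Sylow p G) c C,
      Fin.snoc (α := fun _ => Subgroup G) X W,
      Fin.snoc (α := fun _ => G) y w, ?_, ?_, ?_⟩
    · have : (0 : Fin (n + 2)) = Fin.castSucc (0 : Fin (n + 1)) := rfl
      rw [this, Fin.snoc_castSucc]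
      exact h0
    · rw [Fin.snoc_last]
    · intro i
      refine Fin.lastCases ?_ (fun j => ?_) i
      · rw [Fin.succ_last, Fin.snoc_last, Fin.snoc_castSucc, Fin.snoc_last, Fin.snoc_last, hl]
        exact ⟨h₁, h₂, hx, hc, hD⟩
      · rw [Fin.succ_castSucc]
        simp only [Fin.snoc_castSucc]
        exact hs j

theorem map_smul_eq {M : Subgroup G} {Q : Sylow p ↥M} {A : Sylow p G}
    (h : (Q : Subgroup ↥M).map M.subtype = (A : Subgroup G) ⊓ M) (x : ↥M) :
    ((x • Q : Sylow p ↥M) : Subgroup ↥M).map M.subtype = (((x : G) • A : Sylow p G) : Subgroup G) ⊓ M := by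
  ext y
  constructor
  · rintro ⟨z, hz, rfl⟩
    have hz' := (CfsgLib.Trans.mem_sylow_smul _ _ _).mp hz
    have h1 : ((x⁻¹ * z * x : ↥M) : G) ∈ (A : Subgroup G) ⊓ M := by
      rw [← h]
      exact ⟨_, hz', rfl⟩
    refine ⟨(CfsgLib.Trans.mem_sylow_smul _ _ _).mpr h1.1, z.2⟩
  · rintro ⟨hy, hyM⟩
    have hy' := (CfsgLib.Trans.mem_sylow_smul _ _ _).mp hy
    have h1 : (x : G)⁻¹ * y * x ∈ (A : Subgroup G) ⊓ M :=
      ⟨hy', M.mul_mem (M.mul_mem (M.inv_mem x.2) hyM) x.2⟩
    rw [← h] at h1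
    obtain ⟨w, hw, hwe⟩ := h1
    refine ⟨⟨y, hyM⟩, (CfsgLib.Trans.mem_sylow_smul _ _ _).mpr ?_, rfl⟩
    have : x⁻¹ * ⟨y, hyM⟩ * x = w := Subtype.ext hwe.symm
    rw [this]
    exact hw

theorem isSylM_smul {M : Subgroup G} {A : Sylow p G} (h : IsSylM p M (A : Subgroup G)) {x : G} (hx : x ∈ M) :
    IsSylM p M ((x • A : Sylow p G) : Subgroup G) := by
  obtain ⟨Q, hQ⟩ := h
  exact ⟨(⟨x, hx⟩ : ↥M) • Q, map_smul_eq hQ ⟨x, hx⟩⟩

theorem card_of_isSylM {M A : Subgroup G} (h : IsSylM p M A) : Nat.card ↥(A ⊓ M) = sz p M := by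
  obtain ⟨Q, hQ⟩ := h
  rw [← hQ, Subgroup.card_map_of_injective Subtype.val_injective, Sylow.card_eq_multiplicity]
  rfl

theorem card_le_sz {M U : Subgroup G} (hU : U ≤ M) (hp : IsPGroup p U) : Nat.card U ≤ sz p M := by
  obtain ⟨Q⟩ : Nonempty (Sylow p ↥M) := inferInstance
  have h1 := Cfsg.Agent.S2957.card_le_sylow (U.subgroupOf M) (hp.comap_of_injective _ Subtype.val_injective) Q
  have h2 : Nat.card (U.subgroupOf M) = Nat.card U := Nat.card_congr (Subgroup.subgroupOfEquivOfLe hU).toEquiv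
  rw [h2] at h1
  refine h1.trans (le_of_eq ?_)
  rw [Sylow.card_eq_multiplicity]
  rfl

theorem sz_le_card (M : Subgroup G) : sz p M ≤ Nat.card G := by
  obtain ⟨Q⟩ : Nonempty (Sylow p ↥M) := inferInstance
  have h1 : Nat.card Q = sz p M := by rw [Sylow.card_eq_multiplicity]; rfl
  rw [← h1]
  calc Nat.card Q ≤ Nat.card M := Subgroup.card_le_card_group _
    _ ≤ Nat.card G := Subgroup.card_le_card_group _

theorem card_lt_of_lt {U V : Subgroup G} (h : U < V) : Nat.card U < Nat.card V := by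
  by_contra hc
  exact h.ne (Subgroup.eq_of_le_of_card_ge h.le (by omega))

theorem exists_over {M U : Subgroup G} (hU : U ≤ M) (hp : IsPGroup p U) :
    ∃ A : Sylow p G, U ≤ (A : Subgroup G) ∧ IsSylM p M (A : Subgroup G) := by
  obtain ⟨Q, hQ⟩ := (hp.comap_of_injective M.subtype Subtype.val_injective).exists_le_sylow
  have hQp : IsPGroup p ((Q : Subgroup ↥M).map M.subtype) := Q.isPGroup'.map _
  obtain ⟨A, hA⟩ := hQp.exists_le_sylow
  refine ⟨A, ?_, Q, ?_⟩
  · intro y hy
    exact hA ⟨⟨y, hU hy⟩, hQ (by exact hy), rfl⟩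
  · apply le_antisymm
    · exact le_inf hA (Subgroup.map_subtype_le _)
    · rintro y ⟨hyA, hyM⟩
      have hle : (Q : Subgroup ↥M) ≤ (A : Subgroup G).comap M.subtype := by
        intro z hz
        exact hA ⟨z, hz, rfl⟩
      have hpg : IsPGroup p ((A : Subgroup G).comap M.subtype) :=
        A.isPGroup'.comap_of_injective _ Subtype.val_injective
      have := Q.is_maximal' hpg hle
      have h3 : (⟨y, hyM⟩ : ↥M) ∈ (A : Subgroup G).comap M.subtype := hyA
      rw [this] at h3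
      exact ⟨_, h3, rfl⟩

theorem exists_max_local {L : Subgroup G} (hL : IsPLocal p L) :
    ∃ M : Subgroup G, L ≤ M ∧ IsMaximalPLocal p M := by
  have hfin : {N : Subgroup G | IsPLocal p N}.Finite := Set.toFinite _
  obtain ⟨M, hLM, hM⟩ := hfin.exists_le_maximal hL
  exact ⟨M, hLM, hM.1, fun N hN hMN => le_antisymm (hM.2 hN hMN) hMN⟩

theorem ih_card {D : Subgroup G}
    (IH : ∀ A B : Sylow p G, D ≤ (A : Subgroup G) ⊓ B → D ≠ (A : Subgroup G) ⊓ B → TD p 𝓨 D A B)
    {A B : Sylow p G} (hDA : D ≤ (A : Subgroup G)) (hDB : D ≤ (B : Subgroup G)) {W : Subgroup G}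
    (hWA : W ≤ (A : Subgroup G)) (hWB : W ≤ (B : Subgroup G)) (hlt : Nat.card D < Nat.card W) : TD p 𝓨 D A B :=
  IH A B (le_inf hDA hDB) (fun h => by
    have : Nat.card W ≤ Nat.card D := by
      rw [h]
      exact Subgroup.card_le_of_le (le_inf hWA hWB)
    omega)

/-- The family. -/
abbrev fam (p : ℕ) (f : Subgroup G → Set (Subgroup G)) : Set (Subgroup G) :=
  functorFamily p f ⊤ ∪ {M | IsMaximalPLocal p M ∧ ¬ IsFunctorRegular p f M}

theorem step_lemma (hf : IsNormalizerFunctor p f)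
    (hf1 : ∀ P : Subgroup G, IsPGroup p ↥P → P ≠ ⊥ → ∀ F ∈ f P, F ≠ ⊥)
    {D M : Subgroup G} (hlt : Nat.card D < sz p M)
    (IH : ∀ A B : Sylow p G, D ≤ (A : Subgroup G) ⊓ B → D ≠ (A : Subgroup G) ⊓ B → TD p (fam p f) D A B)
    (hsec : ∀ M', IsMaximalPLocal p M' → sz p M < sz p M' → ∀ A B : Sylow p G,
      IsSylM p M' (A : Subgroup G) → IsSylM p M' (B : Subgroup G) →
      D ≤ (A : Subgroup G) ⊓ M' → D ≤ (B : Subgroup G) ⊓ M' → TD p (fam p f) D A B)
    (P : Sylow p ↥M) (F : Subgroup G) (hF : F ∈ f ((P : Subgroup ↥M).map M.subtype))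
    (A : Sylow p G) (hA : IsSylM p M (A : Subgroup G)) (hAN : (A : Subgroup G) ⊓ M ≤ normalizer (F : Set G))
    (x : G) (hxM : x ∈ M) (hxN : x ∈ normalizer (F : Set G)) (hD1 : D ≤ (A : Subgroup G) ⊓ M)
    (hD2 : D ≤ ((x • A : Sylow p G) : Subgroup G) ⊓ M) : TD p (fam p f) D A (x • A) := by
  have hPp : IsPGroup p ((P : Subgroup ↥M).map M.subtype) := P.isPGroup'.map _
  obtain ⟨hFP, hNN⟩ := (hf _ hPp).1 F hF
  have hPc : Nat.card ((P : Subgroup ↥M).map M.subtype) = sz p M := by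
    rw [Subgroup.card_map_of_injective Subtype.val_injective, Sylow.card_eq_multiplicity]
    rfl
  have hAc := card_of_isSylM hA
  have hxAc := card_of_isSylM (isSylM_smul hA hxM)
  by_cases hfull : sz p M = p ^ (Nat.card G).factorization p
  · -- `M` contains a Sylow subgroup of `G`.
    have hAM : (A : Subgroup G) ⊓ M = A := by
      apply Subgroup.eq_of_le_of_card_ge inf_le_left
      rw [hAc, hfull, Sylow.card_eq_multiplicity]
    have hAle : (A : Subgroup G) ≤ normalizer (F : Set G) := by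
      rw [← hAM]; exact hAN
    have hxAle : ((x • A : Sylow p G) : Subgroup G) ≤ normalizer (F : Set G) := by
      intro y hy
      have h1 := (CfsgLib.Trans.mem_sylow_smul _ _ _).mp hy
      have h2 := hAle h1
      have h3 : y = x * (x⁻¹ * y * x) * x⁻¹ := by group
      rw [h3]
      exact mul_mem (mul_mem hxN h2) (inv_mem hxN)
    have hsyl : Nat.card (((P : Subgroup ↥M).map M.subtype).subgroupOf (⊤ : Subgroup G)) =
        p ^ (Nat.card ↥(⊤ : Subgroup G)).factorization p := by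
      apply Cfsg.Agent.S2957.syl_top_of
      unfold Cfsg.Agent.S2957.IsSyl
      rw [hPc, hfull]
    have hmem : ∀ C : Sylow p G, (C : Subgroup G) ≤ normalizer (F : Set G) →
        (⊤ ⊓ normalizer (F : Set G) : Subgroup G) ∈ sylowMembers p (fam p f) (C : Subgroup G) := by
      intro C hC
      refine ⟨Or.inl ⟨Sylow.ofCard _ hsyl, F, ?_, rfl⟩, C.subtype (le_inf le_top hC), ?_⟩
      · have e : ((Sylow.ofCard _ hsyl : Sylow p ↥(⊤ : Subgroup G)) : Subgroup ↥(⊤ : Subgroup G)).map (⊤ : Subgroup G).subtype =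
            (P : Subgroup ↥M).map M.subtype := by
          show (((P : Subgroup ↥M).map M.subtype).subgroupOf (⊤ : Subgroup G)).map (⊤ : Subgroup G).subtype = _
          rw [Subgroup.subgroupOf_map_subtype, inf_top_eq]
        rw [e]
        exact hF
      · rw [Sylow.coe_subtype, Subgroup.subgroupOf_map_subtype]
    refine TD.step (TD.refl A) _ x (hmem A hAle) (hmem _ hxAle) ⟨Subgroup.mem_top _, hxN⟩
      CfsgLib.Local.conjRight_eq_of_smul (le_inf (hD2.trans inf_le_left) (le_inf le_top (hD1.trans hAN)))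
  · -- `M` contains no Sylow subgroup of `G`.
    have hDpos : 0 < Nat.card D := Nat.card_pos
    have hPne : (P : Subgroup ↥M).map M.subtype ≠ ⊥ := by
      intro h
      rw [h, Subgroup.card_bot] at hPc
      omega
    have hFne := hf1 _ hPp hPne F hF
    have hLoc : IsPLocal p (normalizer (F : Set G)) := ⟨F, hPp.to_le hFP, hFne, rfl⟩
    obtain ⟨M', hLM', hM'⟩ := exists_max_local hLoc
    obtain ⟨Phat, hPhat⟩ := hPp.exists_le_sylow
    have hPlt : (P : Subgroup ↥M).map M.subtype < (Phat : Subgroup G) := by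
      refine lt_of_le_of_ne hPhat (fun h => hfull ?_)
      rw [← hPc, h, Sylow.card_eq_multiplicity]
    have hlt2 := CfsgLib.Solv.lt_inf_normalizer_of_pgroup Phat.isPGroup' hPlt
    have hs : sz p M < sz p M' := by
      rw [← hPc]
      refine lt_of_lt_of_le (card_lt_of_lt hlt2) (card_le_sz ?_ (Phat.isPGroup'.to_le inf_le_left))
      exact inf_le_right.trans (hNN.trans hLM')
    have hUM' : (A : Subgroup G) ⊓ M' ≤ M' := inf_le_right
    obtain ⟨A'', hA''1, hA''2⟩ := exists_over hUM' (A.isPGroup'.to_le inf_le_left)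
    have hxM' : x ∈ M' := hLM' hxN
    have hAM'' : (A : Subgroup G) ⊓ M ≤ (A : Subgroup G) ⊓ M' := le_inf inf_le_left (hAN.trans hLM')
    have hxAM'' : ((x • A : Sylow p G) : Subgroup G) ⊓ M' ≤ ((x • A'' : Sylow p G) : Subgroup G) := by
      rintro y ⟨hy, hyM⟩
      have h1 := (CfsgLib.Trans.mem_sylow_smul _ _ _).mp hy
      exact (CfsgLib.Trans.mem_sylow_smul _ _ _).mpr (hA''1 ⟨h1, M'.mul_mem (M'.mul_mem (M'.inv_mem hxM') hyM) hxM'⟩)
    have hDM' : D ≤ M' := hD1.trans (hAN.trans hLM')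
    have hxMM' : ((x • A : Sylow p G) : Subgroup G) ⊓ M ≤ ((x • A : Sylow p G) : Subgroup G) ⊓ M' :=
      le_inf inf_le_left (fun y hy => by
        -- `(x • A) ⊓ M ≤ M'`
        rcases hy with ⟨hy1, hy2⟩
        have h1 := (CfsgLib.Trans.mem_sylow_smul _ _ _).mp hy1
        have h2 : x⁻¹ * y * x ∈ (A : Subgroup G) ⊓ M :=
          ⟨h1, M.mul_mem (M.mul_mem (M.inv_mem hxM) hy2) hxM⟩
        have h3 : x⁻¹ * y * x ∈ M' := hLM' (hAN h2)
        have h4 : y = x * (x⁻¹ * y * x) * x⁻¹ := by group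
        rw [h4]
        exact M'.mul_mem (M'.mul_mem hxM' h3) (M'.inv_mem hxM'))
    have h1 : TD p (fam p f) D A A'' := by
      refine ih_card IH (hD1.trans inf_le_left) (hD1.trans (hAM''.trans hA''1)) (W := (A : Subgroup G) ⊓ M)
        inf_le_left (hAM''.trans hA''1) ?_
      rw [hAc]
      exact hlt
    have h2 : TD p (fam p f) D A'' (x • A'') := by
      refine hsec M' hM' hs _ _ hA''2 (isSylM_smul hA''2 hxM') (le_inf (hD1.trans (hAM''.trans hA''1)) hDM')
        (le_inf ?_ hDM')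
      exact le_trans (le_inf (hD2.trans inf_le_left) hDM') hxAM''
    have h3 : TD p (fam p f) D (x • A'') (x • A) := by
      refine ih_card IH ?_ (hD2.trans inf_le_left) (W := ((x • A : Sylow p G) : Subgroup G) ⊓ M)
        (hxMM'.trans hxAM'') inf_le_left ?_
      · exact le_trans (le_inf (hD2.trans inf_le_left) hDM') hxAM''
      · rw [hxAc]
        exact hlt
    exact h1.trans (h2.trans h3)

theorem sec (hf : IsNormalizerFunctor p f)
    (hf1 : ∀ P : Subgroup G, IsPGroup p ↥P → P ≠ ⊥ → ∀ F ∈ f P, F ≠ ⊥)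
    {D : Subgroup G} (hDne : D ≠ ⊥)
    (IH : ∀ A B : Sylow p G, D ≤ (A : Subgroup G) ⊓ B → D ≠ (A : Subgroup G) ⊓ B → TD p (fam p f) D A B) :
    ∀ (n : ℕ) (M : Subgroup G), IsMaximalPLocal p M → Nat.card G - sz p M = n → Nat.card D < sz p M →
      ∀ A B : Sylow p G, IsSylM p M (A : Subgroup G) → IsSylM p M (B : Subgroup G) →
      D ≤ (A : Subgroup G) ⊓ M → D ≤ (B : Subgroup G) ⊓ M → TD p (fam p f) D A B := by
  intro n
  induction n using Nat.strong_induction_on with
  | _ n ihn =>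
    intro M hM hn hlt A B hA hB hDA hDB
    have hsec : ∀ M', IsMaximalPLocal p M' → sz p M < sz p M' → ∀ A B : Sylow p G,
        IsSylM p M' (A : Subgroup G) → IsSylM p M' (B : Subgroup G) →
        D ≤ (A : Subgroup G) ⊓ M' → D ≤ (B : Subgroup G) ⊓ M' → TD p (fam p f) D A B := by
      intro M' hM' hss
      have h1 := sz_le_card (p := p) M'
      exact ihn (Nat.card G - sz p M') (by omega) M' hM' rfl (by omega)
    have hBc := card_of_isSylM hB
    obtain ⟨Q₁, hQ₁⟩ := hA
    obtain ⟨Q₂, hQ₂⟩ := hB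
    by_cases hQ : Q₁ = Q₂
    · subst hQ
      refine ih_card IH (hDA.trans inf_le_left) (hDB.trans inf_le_left) (W := (B : Subgroup G) ⊓ M) ?_ inf_le_left ?_
      · rw [← hQ₂, hQ₁]
        exact inf_le_left
      · rw [hBc]
        exact hlt
    have hDQ : ∀ y ∈ D, ∃ hy : y ∈ M, (⟨y, hy⟩ : ↥M) ∈ (Q₁ : Subgroup ↥M) ⊓ (Q₂ : Subgroup ↥M) := by
      intro y hy
      refine ⟨(hDA hy).2, ?_, ?_⟩
      · have := hDA hy
        rw [← hQ₁] at this
        obtain ⟨w, hw, hwe⟩ := this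
        have : w = ⟨y, (hDA hy).2⟩ := Subtype.ext hwe
        rwa [← this]
      · have := hDB hy
        rw [← hQ₂] at this
        obtain ⟨w, hw, hwe⟩ := this
        have : w = ⟨y, (hDA hy).2⟩ := Subtype.ext hwe
        rwa [← this]
    by_cases hr : IsFunctorRegular p f M
    · have hint : (Q₁ : Subgroup ↥M) ⊓ (Q₂ : Subgroup ↥M) ≠ ⊥ := by
        intro h
        apply hDne
        rw [eq_bot_iff]
        intro y hy
        obtain ⟨hyM, h1⟩ := hDQ y hy
        rw [h, Subgroup.mem_bot] at h1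
        rw [Subgroup.mem_bot]
        exact congrArg Subtype.val h1
      obtain ⟨n', c, X, x, h0, hl, hstep⟩ := hr Q₁ Q₂ hQ hint
      have hDsucc : ∀ i : Fin n', D ≤ (c i.succ : Subgroup ↥M).map M.subtype := by
        intro i y hy
        obtain ⟨hyM, h1⟩ := hDQ y hy
        exact ⟨_, ((hstep i).2.2.2.2 h1).1, rfl⟩
      have hDc : ∀ k : Fin (n' + 1), D ≤ (c k : Subgroup ↥M).map M.subtype := by
        intro k
        refine Fin.cases ?_ hDsucc k
        rw [h0, hQ₁]
        exact hDA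
      have key : ∀ k : Fin (n' + 1), ∃ Ah : Sylow p G, (c k : Subgroup ↥M).map M.subtype = (Ah : Subgroup G) ⊓ M ∧
          TD p (fam p f) D A Ah := by
        intro k
        induction k using Fin.induction with
        | zero =>
          refine ⟨A, ?_, TD.refl _⟩
          rw [h0, hQ₁]
        | succ i ih =>
          obtain ⟨Ah, hAh, hT⟩ := ih
          obtain ⟨hm1, hm2, hxi, hcj, hDi⟩ := hstep i
          generalize X i = W at hm1 hm2 hxi hDi
          obtain ⟨⟨Y, ⟨P, F, hF, rfl⟩, rfl⟩, Q2, hQ2⟩ := hm2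
          obtain ⟨_, Q1, hQ1⟩ := hm1
          have hle1 := Cfsg.Agent.S2957.le_of_member hf P hF (c i.castSucc) Q1 hQ1
          have hsm : c i.succ = x i • c i.castSucc := CfsgLib.Local.eq_smul_of_conjRight hcj
          have hmap : (c i.succ : Subgroup ↥M).map M.subtype = (((x i : G) • Ah : Sylow p G) : Subgroup G) ⊓ M := by
            rw [hsm]
            exact map_smul_eq hAh (x i)
          refine ⟨(x i : G) • Ah, hmap, hT.trans ?_⟩
          refine step_lemma hf hf1 hlt IH hsec P F hF Ah ⟨_, hAh⟩ (hAh ▸ hle1) (x i : G) (x i).2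
            (mem_subgroupOf.mp hxi).2 ?_ ?_
          · rw [← hAh]
            exact hDc _
          · rw [← hmap]
            exact hDc _
      obtain ⟨Ah, hAh, hT⟩ := key (Fin.last n')
      rw [hl, hQ₂] at hAh
      refine hT.trans (ih_card IH ?_ (hDB.trans inf_le_left) (W := (B : Subgroup G) ⊓ M) ?_ inf_le_left ?_)
      · have := hDB
        rw [hAh] at this
        exact this.trans inf_le_left
      · rw [hAh]
        exact inf_le_left
      · rw [hBc]
        exact hlt
    · obtain ⟨x, hx⟩ := MulAction.exists_smul_eq ↥M Q₁ Q₂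
      have hmap : (Q₂ : Subgroup ↥M).map M.subtype = (((x : G) • A : Sylow p G) : Subgroup G) ⊓ M := by
        rw [← hx]
        exact map_smul_eq hQ₁ x
      have hh : M ∈ fam p f := Or.inr ⟨hM, hr⟩
      have hT : TD p (fam p f) D A ((x : G) • A) :=
        TD.step (TD.refl A) M x ⟨hh, Q₁, hQ₁⟩ ⟨hh, Q₂, hmap⟩ x.2 CfsgLib.Local.conjRight_eq_of_smul (by
          rw [← hmap, hQ₂]
          exact hDB)
      refine hT.trans (ih_card IH ?_ (hDB.trans inf_le_left) (W := (B : Subgroup G) ⊓ M) ?_ inf_le_left ?_)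
      · have := hDB
        rw [← hQ₂, hmap] at this
        exact this.trans inf_le_left
      · rw [← hQ₂, hmap]
        exact inf_le_left
      · rw [hBc]
        exact hlt

theorem phi (hf : IsNormalizerFunctor p f)
    (hf1 : ∀ P : Subgroup G, IsPGroup p ↥P → P ≠ ⊥ → ∀ F ∈ f P, F ≠ ⊥) (D : Subgroup G) :
    ∀ X Y : Sylow p G, D ≤ (X : Subgroup G) ⊓ Y → D ≠ ⊥ → TD p (fam p f) D X Y := by
  refine WellFoundedGT.induction (motive := fun D : Subgroup G => ∀ X Y : Sylow p G, D ≤ (X : Subgroup G) ⊓ Y → D ≠ ⊥ → TD p (fam p f) D X Y) D ?_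
  intro D ih X Y hD hne
  have IH : ∀ A B : Sylow p G, D ≤ (A : Subgroup G) ⊓ B → D ≠ (A : Subgroup G) ⊓ B → TD p (fam p f) D A B := by
    intro A B h1 h2
    refine (ih _ (lt_of_le_of_ne h1 h2) A B le_rfl ?_).mono h1
    intro h
    exact hne (le_bot_iff.mp (h ▸ h1))
  by_cases hXY : X = Y
  · subst hXY
    exact TD.refl _
  by_cases hDe : D = (X : Subgroup G) ⊓ Y
  swap
  · exact IH X Y hD hDe
  have hDX : D < (X : Subgroup G) := by
    refine lt_of_le_of_ne (hD.trans inf_le_left) (fun h => hXY ?_)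
    have h1 : (X : Subgroup G) ≤ Y := by
      rw [← h]; exact hD.trans inf_le_right
    exact Sylow.ext (X.is_maximal' Y.isPGroup' h1).symm
  have hDY : D < (Y : Subgroup G) := by
    refine lt_of_le_of_ne (hD.trans inf_le_right) (fun h => hXY ?_)
    have h1 : (Y : Subgroup G) ≤ X := by
      rw [← h]; exact hD.trans inf_le_left
    exact Sylow.ext (Y.is_maximal' X.isPGroup' h1)
  have hDp : IsPGroup p D := X.isPGroup'.to_le hDX.le
  have hLoc : IsPLocal p (normalizer (D : Set G)) := ⟨D, hDp, hne, rfl⟩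
  obtain ⟨M, hLM, hM⟩ := exists_max_local hLoc
  have hDM : D ≤ M := (Subgroup.le_normalizer).trans hLM
  have hX1 := CfsgLib.Solv.lt_inf_normalizer_of_pgroup X.isPGroup' hDX
  have hY1 := CfsgLib.Solv.lt_inf_normalizer_of_pgroup Y.isPGroup' hDY
  have hX2 : Nat.card D < Nat.card ↥((X : Subgroup G) ⊓ M) :=
    lt_of_lt_of_le (card_lt_of_lt hX1) (Subgroup.card_le_of_le (inf_le_inf_left _ hLM))
  have hY2 : Nat.card D < Nat.card ↥((Y : Subgroup G) ⊓ M) :=
    lt_of_lt_of_le (card_lt_of_lt hY1) (Subgroup.card_le_of_le (inf_le_inf_left _ hLM))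
  have hs : Nat.card D < sz p M :=
    lt_of_lt_of_le hX2 (card_le_sz inf_le_right (X.isPGroup'.to_le inf_le_left))
  obtain ⟨A, hA1, hA2⟩ := exists_over (M := M) inf_le_right (X.isPGroup'.to_le (inf_le_left : (X : Subgroup G) ⊓ M ≤ X))
  obtain ⟨B, hB1, hB2⟩ := exists_over (M := M) inf_le_right (Y.isPGroup'.to_le (inf_le_left : (Y : Subgroup G) ⊓ M ≤ Y))
  have hDA : D ≤ (A : Subgroup G) := (le_inf hDX.le hDM).trans hA1
  have hDB : D ≤ (B : Subgroup G) := (le_inf hDY.le hDM).trans hB1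
  have h1 : TD p (fam p f) D X A := ih_card IH hDX.le hDA inf_le_left hA1 hX2
  have h2 : TD p (fam p f) D B Y := ih_card IH hDB hDY.le hB1 inf_le_left hY2
  have h3 : TD p (fam p f) D A B :=
    sec hf hf1 hne IH _ M hM rfl hs A B hA2 hB2 (le_inf hDA hDM) (le_inf hDB hDM)
  exact h1.trans (h3.trans h2)

end

/-- Let p be a prime dividing the order of the finite group G, and f an assignment to every p-subgroup P of a set f(P) of subgroups of P, each normalized by N_G(P), compatible with conjugation, such that for P ≠ 1 the members of f(P) are nontrivial. Let 𝓕 be the family of the normalizers N_G(F) of the members F of f(S) over the Sylow p-subgroups S of G, and 𝓕' the family of the maximal p-local subgroups M of G that are singular for f (the corresponding family of normalizers inside M does not control Sylow p-intersections in M). Then 𝓕 ∪ 𝓕' controls Sylow p-intersections in G. -/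
theorem result {G : Type*} [Group G] [Finite G] (p : ℕ) [Fact p.Prime] (hdiv : p ∣ Nat.card G)
    (f : Subgroup G → Set (Subgroup G)) (hf : Cfsg.IsNormalizerFunctor p f)
    (hf1 : ∀ P : Subgroup G, IsPGroup p ↥P → P ≠ ⊥ → ∀ F ∈ f P, F ≠ ⊥)
    (𝓕 𝓕' : Set (Subgroup G)) (h𝓕 : 𝓕 = Cfsg.functorFamily p f ⊤)
    (h𝓕' : 𝓕' = {M | Cfsg.IsMaximalPLocal p M ∧ ¬ Cfsg.IsFunctorRegular p f M}) :
    Cfsg.ControlsSylowIntersections p (𝓕 ∪ 𝓕') := by
  classical
  subst h𝓕 h𝓕'
  intro S T hne hint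
  exact to_fin (phi hf hf1 _ S T le_rfl hint)

end Cfsg.Agent.S2956
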