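import Cfsg.Statements.S3075
import Cfsg.Agent.Lib.H3.SplitSL

set_option autoImplicit false
open Cfsg

namespace Cfsg.Agent.S3075

/-- Let p be an odd prime and N a finite group with a normal elementary abelian subgroup A of order p² that is its own centralizer in N, such that N/A is isomorphic to SL₂(p) (over any field F with p elements). Then N splits over A: some subgroup U of N satisfies A ∩ U = 1 and AU = N. -/
theorem result {N : Type*} [Group N] [Finite N] {p : ℕ} [Fact p.Prime] (hp : p ≠ 2)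
    (A : Subgroup N) [A.Normal] (hAcomm : IsMulCommutative A) (hAcard : Nat.card A = p ^ 2) (hAexp : Monoid.exponent ↥A = p)
    (hAself : Subgroup.centralizer (A : Set N) = A)
    {F : Type*} [Field F] [Fintype F] (hF : Fintype.card F = p) (e : N ⧸ A ≃* Matrix.SpecialLinearGroup (Fin 2) F) :
    ∃ U : Subgroup N, A ⊓ U = ⊥ ∧ A ⊔ U = ⊤ := by
  classical
  have hpp : p.Prime := Fact.out
  have hAc : ∀ a ∈ A, ∀ b ∈ A, a * b = b * a := by
    intro a ha b hb
    have := hAcomm.is_comm.comm ⟨a, ha⟩ ⟨b, hb⟩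
    exact congrArg Subtype.val this
  have hexp : ∀ a ∈ A, a ^ p = 1 := by
    intro a ha
    have := Monoid.pow_exponent_eq_one (⟨a, ha⟩ : ↥A)
    rw [hAexp] at this
    exact congrArg Subtype.val this
  have hself : ∀ g : N, (∀ a ∈ A, g * a = a * g) → g ∈ A := by
    intro g hg
    rw [← SetLike.mem_coe, ← hAself, SetLike.mem_coe, Subgroup.mem_centralizer_iff]
    intro a ha
    exact (hg a ha).symm
  have h2ne : (-1 : F) ≠ 1 := by
    intro h
    have h2 : (2 : F) = 0 := by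
      have : (1 : F) + 1 = 0 := by nth_rewrite 1 [← h]; simp
      rw [← this]; norm_num
    have hord : addOrderOf (1 : F) = 2 := by
      apply addOrderOf_eq_prime
      · simpa using h2
      · exact one_ne_zero
    have hd : addOrderOf (1 : F) ∣ Nat.card F := addOrderOf_dvd_natCard 1
    rw [hord, Nat.card_eq_fintype_card, hF] at hd
    exact hp ((Nat.prime_dvd_prime_iff_eq Nat.prime_two hpp).1 hd).symm
  let m : Matrix.SpecialLinearGroup (Fin 2) F := ⟨-1, by simp [Matrix.det_fin_two]⟩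
  have hm1 : m ≠ 1 := by
    intro h
    have := congrArg (fun g : Matrix.SpecialLinearGroup (Fin 2) F => (g : Matrix (Fin 2) (Fin 2) F) 0 0) h
    simp [m] at this
    exact h2ne this
  have hm2 : m ^ 2 = 1 := by
    rw [sq]
    apply Subtype.ext
    show (-1 : Matrix (Fin 2) (Fin 2) F) * (-1) = 1
    simp
  have hmc : ∀ g, g * m = m * g := by
    intro g
    apply Subtype.ext
    show (g : Matrix (Fin 2) (Fin 2) F) * (-1) = (-1) * (g : Matrix (Fin 2) (Fin 2) F)
    simp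
  obtain ⟨q, hq⟩ := e.surjective m
  obtain ⟨w, rfl⟩ := QuotientGroup.mk_surjective q
  have hemk : ∀ y : N, y ∈ A ↔ e (y : N ⧸ A) = 1 := by
    intro y
    rw [← QuotientGroup.eq_one_iff, map_eq_one_iff e e.injective]
  have hwA : w ∉ A := by
    rw [hemk, hq]; exact hm1
  have hw2 : w ^ 2 ∈ A := by
    rw [hemk, QuotientGroup.mk_pow, map_pow, hq, hm2]
  have hwc : ∀ g, g * w * g⁻¹ * w⁻¹ ∈ A := by
    intro g
    rw [hemk]
    show e ((g : N ⧸ A) * (w : N ⧸ A) * (g : N ⧸ A)⁻¹ * (w : N ⧸ A)⁻¹) = 1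
    rw [map_mul, map_mul, map_mul, map_inv, map_inv, hq, hmc]
    group
  have hnab : ¬ ∀ g h : N, g * h * g⁻¹ * h⁻¹ ∈ A := by
    intro hall
    let x : Matrix.SpecialLinearGroup (Fin 2) F := ⟨!![1, 1; 0, 1], by simp [Matrix.det_fin_two]⟩
    let y : Matrix.SpecialLinearGroup (Fin 2) F := ⟨!![1, 0; 1, 1], by simp [Matrix.det_fin_two]⟩
    obtain ⟨q₁, hq₁⟩ := e.surjective x
    obtain ⟨g₁, rfl⟩ := QuotientGroup.mk_surjective q₁
    obtain ⟨q₂, hq₂⟩ := e.surjective y
    obtain ⟨g₂, rfl⟩ := QuotientGroup.mk_surjective q₂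
    have h1 := (hemk _).1 (hall g₁ g₂)
    have h2 : e ((g₁ : N ⧸ A) * (g₂ : N ⧸ A) * (g₁ : N ⧸ A)⁻¹ * (g₂ : N ⧸ A)⁻¹) = 1 := h1
    rw [map_mul, map_mul, map_mul, map_inv, map_inv, hq₁, hq₂, mul_inv_eq_one, mul_inv_eq_iff_eq_mul] at h2
    have h3 : (!![1, 1; 0, 1] * !![1, 0; 1, 1] : Matrix (Fin 2) (Fin 2) F) 0 0 = (!![1, 0; 1, 1] * !![1, 1; 0, 1] : Matrix (Fin 2) (Fin 2) F) 0 0 :=
      congrArg (fun g : Matrix.SpecialLinearGroup (Fin 2) F => (g : Matrix (Fin 2) (Fin 2) F) 0 0) h2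
    simp [Matrix.mul_apply, Fin.sum_univ_two] at h3
  exact CfsgLib.SplitSL.split_of_central hp A hAc hAcard hexp hself hnab w hwA hw2 hwc

end Cfsg.Agent.S3075
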