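import Cfsg.Statements.S3155
import Mathlib

set_option autoImplicit false
open Cfsg

namespace Cfsg.Agent.S3155

/-- Let B be the direct product of three cyclic groups of order 4. Then the automorphism of B inverting every element is not the square of any automorphism of B. -/
theorem result {B : Type*} [CommGroup B] [Finite B] (hB : Nonempty (B ≃* Multiplicative (ZMod 4 × ZMod 4 × ZMod 4)))
    (τ : B ≃* B) : τ.trans τ ≠ MulEquiv.inv B := by
  classical
  haveI : Fact (1 < 4) := ⟨by norm_num⟩
  obtain ⟨e⟩ := hB
  intro h
  -- transport to additive
  let V := ZMod 4 × ZMod 4 × ZMod 4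
  let f : V →+ V :=
    { toFun := fun v => Multiplicative.toAdd (e (τ (e.symm (Multiplicative.ofAdd v))))
      map_zero' := by
        have : (e (τ (e.symm 1))) = 1 := by simp
        exact this
      map_add' := by
        intro x y
        show Multiplicative.toAdd (e (τ (e.symm (Multiplicative.ofAdd x * Multiplicative.ofAdd y)))) = _
        simp [map_mul] }
  have hf : ∀ v, f (f v) = -v := by
    intro v
    have h1 : τ (τ (e.symm (Multiplicative.ofAdd v))) = (e.symm (Multiplicative.ofAdd v))⁻¹ := by
      have := congrArg (fun φ : B ≃* B => φ (e.symm (Multiplicative.ofAdd v))) h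
      simpa using this
    show Multiplicative.toAdd (e (τ (e.symm (Multiplicative.ofAdd (Multiplicative.toAdd (e (τ (e.symm (Multiplicative.ofAdd v))))))))) = -v
    simp only [ofAdd_toAdd, MulEquiv.symm_apply_apply]
    rw [h1]
    simp
  let L : V →ₗ[ZMod 4] V := f.toZModLinearMap 4
  have hL : L ∘ₗ L = (-1 : ZMod 4) • LinearMap.id := by
    ext v
    all_goals
      simp only [LinearMap.comp_apply, LinearMap.smul_apply, LinearMap.id_apply]
      show _ = _
      first
        | (simp [L, hf])
  have hdet : LinearMap.det L * LinearMap.det L = -1 := by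
    rw [← LinearMap.det_comp, hL, LinearMap.det_smul]
    have : Module.finrank (ZMod 4) V = 3 := by
      show Module.finrank (ZMod 4) (ZMod 4 × ZMod 4 × ZMod 4) = 3
      rw [Module.finrank_prod, Module.finrank_prod]
      simp
    rw [this]
    simp only [LinearMap.det_id, mul_one]
    decide
  have : ∀ x : ZMod 4, x * x ≠ -1 := by decide
  exact this _ hdet

end Cfsg.Agent.S3155
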