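import Cfsg.Statements.S3180
import Mathlib

set_option autoImplicit false
open Cfsg
open scoped Pointwise

namespace Cfsg.Agent.S3180

theorem result {J : Type*} [Group J] [Finite J]
    {p : ℕ} [Fact p.Prime] (P : Sylow p J) (P₁ : Subgroup J) (hW : Cfsg.IsWeaklyClosed P₁ (P : Subgroup J))
    {Ω : Type*} [MulAction J Ω] (x y : Ω) (hx : ∀ g ∈ P₁, g • x = x) (hy : ∀ g ∈ P₁, g • y = y)
    (hc : ∃ g : J, g • x = y) :
    ∃ g ∈ Subgroup.normalizer (P₁ : Set J), g • x = y := by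
  classical
  obtain ⟨g, hg⟩ := hc
  let St := MulAction.stabilizer J y
  have hP₁p : IsPGroup p P₁ := P.isPGroup'.to_le hW.1
  have hP₁le : P₁ ≤ St := fun a ha => hy a ha
  set Q : Subgroup J := P₁.map (MulAut.conj g).toMonoidHom with hQ
  have hQle : Q ≤ St := by
    rintro _ ⟨a, ha, rfl⟩
    show _ • y = y
    simp only [MulAut.conj_apply, MulEquiv.coe_toMonoidHom]
    rw [← hg]
    simp only [mul_smul, inv_smul_smul, hx a ha]
  have hQp : IsPGroup p Q := hP₁p.map _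
  have hP₁p' : IsPGroup p (P₁.subgroupOf St) := hP₁p.comap_subtype
  have hQp' : IsPGroup p (Q.subgroupOf St) := hQp.comap_subtype
  obtain ⟨S₁, hS₁⟩ := hP₁p'.exists_le_sylow
  obtain ⟨S₂, hS₂⟩ := hQp'.exists_le_sylow
  obtain ⟨c, hc⟩ : ∃ c : St, c • S₂ = S₁ := MulAction.exists_smul_eq St S₂ S₁
  have hS₁J : IsPGroup p ((S₁ : Subgroup St).map St.subtype) := S₁.isPGroup'.map _
  obtain ⟨T, hT⟩ := hS₁J.exists_le_sylow
  obtain ⟨d, hd⟩ : ∃ d : J, d • T = P := MulAction.exists_smul_eq J T P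
  -- elements of T conjugate into P
  have hTP : ∀ t ∈ (T : Subgroup J), d * t * d⁻¹ ∈ (P : Subgroup J) := by
    intro t ht
    rw [← hd, Sylow.coe_subgroup_smul]
    exact Subgroup.smul_mem_pointwise_smul t (MulAut.conj d) (T : Subgroup J) ht
  -- P₁ ≤ T
  have hP₁T : P₁ ≤ (T : Subgroup J) := by
    intro a ha
    apply hT
    exact ⟨⟨a, hP₁le ha⟩, hS₁ (by simpa [Subgroup.mem_subgroupOf] using ha), rfl⟩
  -- c Q c⁻¹ ≤ T
  have hcQ : ∀ a ∈ Q, (c : J) * a * (c : J)⁻¹ ∈ (T : Subgroup J) := by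
    intro a ha
    apply hT
    have ha' : (⟨a, hQle ha⟩ : St) ∈ (S₂ : Subgroup St) := hS₂ (by simpa [Subgroup.mem_subgroupOf] using ha)
    have : (c * ⟨a, hQle ha⟩ * c⁻¹ : St) ∈ (S₁ : Subgroup St) := by
      rw [← hc, Sylow.coe_subgroup_smul]
      exact Subgroup.smul_mem_pointwise_smul _ (MulAut.conj c) (S₂ : Subgroup St) ha'
    exact ⟨_, this, by simp⟩
  have h1 : P₁.map (MulAut.conj d).toMonoidHom = P₁ := by
    apply hW.2
    rintro _ ⟨a, ha, rfl⟩
    exact hTP a (hP₁T ha)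
  have h2 : P₁.map (MulAut.conj (d * (c : J) * g)).toMonoidHom = P₁ := by
    apply hW.2
    rintro _ ⟨a, ha, rfl⟩
    have h3 := hTP _ (hcQ (g * a * g⁻¹) ⟨a, ha, by simp⟩)
    simpa [mul_assoc] using h3
  have h4 : P₁.map (MulAut.conj ((c : J) * g)).toMonoidHom = P₁ := by
    have h5 : (P₁.map (MulAut.conj ((c : J) * g)).toMonoidHom).map (MulAut.conj d).toMonoidHom = P₁.map (MulAut.conj d).toMonoidHom := by
      rw [h1, ← h2, Subgroup.map_map]
      congr 1
      ext z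
      simp [mul_assoc]
    exact Subgroup.map_injective (MulAut.conj d).injective h5
  refine ⟨(c : J) * g, ?_, ?_⟩
  · rw [Subgroup.mem_normalizer_iff_map_conj_eq]
    exact h4
  · rw [mul_smul, hg]
    exact c.2

end Cfsg.Agent.S3180
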