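import Cfsg.Statements.S3183
import Cfsg.Agent.Lib.Lead.SylowConj
import Mathlib

set_option autoImplicit false
open Cfsg
open scoped Pointwise

namespace Cfsg.Agent.S3183

variable {G : Type*} [Group G] [Finite G]

private lemma mem_map_center {U : Subgroup G} {x : G} (h : x ∈ (Subgroup.center ↥U).map U.subtype) :
    x ∈ U ∧ U ≤ Subgroup.centralizer ({x} : Set G) := by
  obtain ⟨z, hz, rfl⟩ := h
  refine ⟨z.2, ?_⟩
  intro u hu
  rw [Subgroup.mem_centralizer_singleton_iff]
  have := (Subgroup.mem_center_iff.mp hz) ⟨u, hu⟩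
  exact congrArg Subtype.val this

private lemma mem_map_center' {U : Subgroup G} {x : G} (hx : x ∈ U) (h : U ≤ Subgroup.centralizer ({x} : Set G)) :
    x ∈ (Subgroup.center ↥U).map U.subtype := by
  refine ⟨⟨x, hx⟩, Subgroup.mem_center_iff.mpr ?_, rfl⟩
  intro u
  have := Subgroup.mem_centralizer_singleton_iff.mp (h u.2)
  exact Subtype.ext this

private lemma key
    (hCI : ∀ S T : Sylow 2 G, S ≠ T → ∃ U : Sylow 2 G,
      (S : Subgroup G) ⊓ (T : Subgroup G) ≤ (Subgroup.center ↥(U : Subgroup G)).map (U : Subgroup G).subtype)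
    (S U : Sylow 2 G) (x : G) (hxS : x ∈ (S : Subgroup G))
    (hU : (U : Subgroup G) ≤ Subgroup.centralizer ({x} : Set G)) :
    (S : Subgroup G) ≤ Subgroup.centralizer ({x} : Set G) := by
  classical
  by_contra hnot
  set L := Subgroup.centralizer ({x} : Set G) with hL
  set A : Subgroup G := (S : Subgroup G) ⊓ L with hA
  have hxL : x ∈ L := by
    rw [hL, Subgroup.mem_centralizer_singleton_iff]
  have hxA : x ∈ A := ⟨hxS, hxL⟩
  have hSnil : Group.IsNilpotent ↥(S : Subgroup G) := S.isPGroup'.isNilpotent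
  have hlt : A.subgroupOf (S : Subgroup G) < ⊤ := by
    refine lt_top_iff_ne_top.mpr ?_
    intro htop
    apply hnot
    intro s hs
    have : (⟨s, hs⟩ : ↥(S : Subgroup G)) ∈ A.subgroupOf (S : Subgroup G) := by rw [htop]; trivial
    exact (Subgroup.mem_subgroupOf.mp this).2
  have hgrow := Group.normalizerCondition_of_isNilpotent (G := ↥(S : Subgroup G)) _ hlt
  obtain ⟨y', hy'N, hy'A⟩ := SetLike.exists_of_lt hgrow
  set y : G := (y' : G) with hy
  have hyS : y ∈ (S : Subgroup G) := y'.2
  have hyNA : y ∈ Subgroup.normalizer (A : Set G) := by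
    rw [Subgroup.mem_normalizer_iff]
    intro a
    rw [Subgroup.mem_normalizer_iff] at hy'N
    constructor
    · intro ha
      have h1 := (hy'N ⟨a, ha.1⟩).mp (Subgroup.mem_subgroupOf.mpr ha)
      exact Subgroup.mem_subgroupOf.mp h1
    · intro ha
      have haS : a ∈ (S : Subgroup G) := by
        have h2 : y * a * y⁻¹ ∈ (S : Subgroup G) := ha.1
        have h3 : a = y⁻¹ * (y * a * y⁻¹) * y := by group
        rw [h3]
        exact Subgroup.mul_mem _ (Subgroup.mul_mem _ (Subgroup.inv_mem _ hyS) h2) hyS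
      have h1 := (hy'N ⟨a, haS⟩).mpr (Subgroup.mem_subgroupOf.mpr ha)
      exact Subgroup.mem_subgroupOf.mp h1
  -- A lies in a Sylow subgroup Q inside C(x)
  have hAp : IsPGroup 2 A := S.isPGroup'.to_le inf_le_left
  obtain ⟨c, hcL, hc⟩ := CfsgLib.Lead.exists_conj_into_sylow U L hU A inf_le_right hAp
  set Q : Sylow 2 G := c • U with hQ
  have hAQ : A ≤ (Q : Subgroup G) := by
    intro a ha
    rw [hQ, Sylow.coe_subgroup_smul, Subgroup.mem_pointwise_smul_iff_inv_smul_mem]
    simpa [mul_assoc] using hc a ha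
  have hQL : (Q : Subgroup G) ≤ L := by
    intro q hq
    rw [hQ, Sylow.coe_subgroup_smul, Subgroup.mem_pointwise_smul_iff_inv_smul_mem] at hq
    have h1 : c⁻¹ * q * c ∈ L := hU (by simpa [mul_assoc] using hq)
    have h2 : q = c * (c⁻¹ * q * c) * c⁻¹ := by group
    rw [h2]
    exact L.mul_mem (L.mul_mem hcL h1) (L.inv_mem hcL)
  have hSQ : S ≠ Q := by
    intro h
    apply hnot
    rw [h]
    exact hQL
  obtain ⟨W, hW⟩ := hCI S Q hSQ
  have hAW : (W : Subgroup G) ≤ Subgroup.centralizer (A : Set G) := by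
    intro w hw
    rw [Subgroup.mem_centralizer_iff]
    intro a ha
    have h1 := (mem_map_center (hW ⟨ha.1, hAQ ha⟩)).2 hw
    have := Subgroup.mem_centralizer_singleton_iff.mp h1
    exact this.symm
  have hWN : (W : Subgroup G) ≤ Subgroup.normalizer (A : Set G) :=
    hAW.trans (Subgroup.centralizer_le_normalizer _)
  have hBp : IsPGroup 2 ((S : Subgroup G) ⊓ Subgroup.normalizer (A : Set G) : Subgroup G) :=
    S.isPGroup'.to_le inf_le_left
  obtain ⟨d, hdN, hd⟩ := CfsgLib.Lead.exists_conj_into_sylow W (Subgroup.normalizer (A : Set G)) hWN _ inf_le_right hBp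
  have h1 : d⁻¹ * y * d ∈ (W : Subgroup G) := hd y ⟨hyS, hyNA⟩
  have h2 : d⁻¹ * x * d ∈ A := by
    have hdinv : d⁻¹ ∈ Subgroup.normalizer (A : Set G) := Subgroup.inv_mem _ hdN
    rw [Subgroup.mem_normalizer_iff] at hdinv
    have := (hdinv x).mp hxA
    simpa using this
  have h3 := Subgroup.mem_centralizer_iff.mp (hAW h1) _ h2
  have hcomm : y * x = x * y := by
    have h4 : d⁻¹ * (x * y) * d = d⁻¹ * (y * x) * d := by
      calc d⁻¹ * (x * y) * d = (d⁻¹ * x * d) * (d⁻¹ * y * d) := by group
        _ = (d⁻¹ * y * d) * (d⁻¹ * x * d) := h3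
        _ = d⁻¹ * (y * x) * d := by group
    have h5 : x * y = y * x := by
      have := mul_right_cancel h4
      exact mul_left_cancel this
    exact h5.symm
  apply hy'A
  exact Subgroup.mem_subgroupOf.mpr ⟨hyS, Subgroup.mem_centralizer_singleton_iff.mpr hcomm⟩

/-- Let G be a finite group in which the intersection of any two distinct Sylow 2-subgroups is contained in the centre of some Sylow 2-subgroup, and let S be a Sylow 2-subgroup. Then for every x in S the centralizer of x in S is a Sylow 2-subgroup of the centralizer of x in G (no 2-subgroup centralizing x is larger), and for every other Sylow 2-subgroup T the intersection S ∩ T lies in both the centre of S and the centre of T. -/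
theorem result {G : Type*} [Group G] [Finite G]
    (hCI : ∀ S T : Sylow 2 G, S ≠ T → ∃ U : Sylow 2 G,
      (S : Subgroup G) ⊓ (T : Subgroup G) ≤ (Subgroup.center ↥(U : Subgroup G)).map (U : Subgroup G).subtype)
    (S : Sylow 2 G) :
    (∀ x ∈ (S : Subgroup G), ∀ P : Subgroup G, IsPGroup 2 ↥P → P ≤ Subgroup.centralizer ({x} : Set G) →
        Nat.card ↥P ≤ Nat.card ↥((S : Subgroup G) ⊓ Subgroup.centralizer ({x} : Set G))) ∧
    (∀ T : Sylow 2 G, T ≠ S →
        (S : Subgroup G) ⊓ (T : Subgroup G) ≤
          (Subgroup.center ↥(S : Subgroup G)).map (S : Subgroup G).subtype ⊓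
            (Subgroup.center ↥(T : Subgroup G)).map (T : Subgroup G).subtype) := by
  classical
  constructor
  · intro x hxS P hP hPL
    set L := Subgroup.centralizer ({x} : Set G) with hL
    have hxL : x ∈ L := by
      rw [hL, Subgroup.mem_centralizer_singleton_iff]
    by_cases hSL : (S : Subgroup G) ≤ L
    · have h1 : (S : Subgroup G) ⊓ L = S := inf_eq_left.mpr hSL
      rw [h1]
      obtain ⟨R, hR⟩ := hP.exists_le_sylow
      calc Nat.card P ≤ Nat.card R := Subgroup.card_le_of_le hR
        _ = Nat.card S := Nat.card_congr (Sylow.equiv R S).toEquiv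
    · -- all Sylow subgroups containing x equal S
      have huniq : ∀ R : Sylow 2 G, x ∈ (R : Subgroup G) → R = S := by
        intro R hxR
        by_contra hne
        obtain ⟨U, hU⟩ := hCI R S hne
        have h2 := (mem_map_center (hU ⟨hxR, hxS⟩)).2
        exact hSL (key hCI S U x hxS h2)
      set A : Subgroup G := (S : Subgroup G) ⊓ L with hA
      have hAp : IsPGroup 2 A := S.isPGroup'.to_le inf_le_left
      obtain ⟨Qh, hQh⟩ := (hAp.comap_subtype (K := L)).exists_le_sylow
      obtain ⟨Ph, hPh⟩ := (hP.comap_subtype (K := L)).exists_le_sylow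
      have hcard1 : Nat.card P ≤ Nat.card Ph := by
        have h1 : Nat.card (P.subgroupOf L) = Nat.card P :=
          Nat.card_congr (Subgroup.subgroupOfEquivOfLe hPL).toEquiv
        rw [← h1]
        exact Subgroup.card_le_of_le hPh
      have hcard2 : Nat.card Ph = Nat.card Qh := Nat.card_congr (Sylow.equiv Ph Qh).toEquiv
      set Q : Subgroup G := (Qh : Subgroup L).map L.subtype with hQ
      have hQcard : Nat.card Q = Nat.card Qh := Subgroup.card_map_of_injective L.subtype_injective
      have hQp : IsPGroup 2 Q := Qh.isPGroup'.map _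
      obtain ⟨R, hR⟩ := hQp.exists_le_sylow
      have hAQ : A ≤ Q := by
        intro a ha
        have : (⟨a, ha.2⟩ : L) ∈ (Qh : Subgroup L) := hQh (Subgroup.mem_subgroupOf.mpr ha)
        exact ⟨_, this, rfl⟩
      have hxA : x ∈ A := ⟨hxS, hxL⟩
      have hRS : R = S := huniq R (hR (hAQ hxA))
      have hQA : Q ≤ A := by
        rintro _ ⟨q, hq, rfl⟩
        refine ⟨?_, q.2⟩
        rw [← hRS]
        exact hR ⟨q, hq, rfl⟩
      calc Nat.card P ≤ Nat.card Ph := hcard1
        _ = Nat.card Qh := hcard2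
        _ = Nat.card Q := hQcard.symm
        _ ≤ Nat.card A := Subgroup.card_le_of_le hQA
  · intro T hTS x hx
    obtain ⟨U, hU⟩ := hCI T S hTS
    have h2 := (mem_map_center (hU ⟨hx.2, hx.1⟩)).2
    exact ⟨mem_map_center' hx.1 (key hCI S U x hx.1 h2), mem_map_center' hx.2 (key hCI T U x hx.2 h2)⟩

end Cfsg.Agent.S3183
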