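import Cfsg.Statements.S3184
import Cfsg.Agent.Lib.ZStar.CI
-- import your own Cfsg.Agent.* helpers here

set_option autoImplicit false
open Cfsg

namespace Cfsg.Agent.S3184

/-- Let G be a finite group in which the intersection of any two distinct Sylow 2-subgroups is contained in the centre of some Sylow 2-subgroup, and let S be a Sylow 2-subgroup. If C is a nontrivial cyclic characteristic subgroup of S, then the involution of C is central modulo the largest normal subgroup of odd order of G: each of its conjugates has the same image in G/O(G). -/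
theorem result {G : Type*} [Group G] [Finite G]
    (hCI : ∀ S T : Sylow 2 G, S ≠ T → ∃ U : Sylow 2 G,
      (S : Subgroup G) ⊓ (T : Subgroup G) ≤ (Subgroup.center ↥(U : Subgroup G)).map (U : Subgroup G).subtype)
    (S : Sylow 2 G) (C : Subgroup ↥(S : Subgroup G)) (hC : C ≠ ⊥) (hCc : IsCyclic ↥C) (hCh : C.Characteristic)
    (c : ↥(S : Subgroup G)) (hc : c ∈ C) (hc2 : orderOf c = 2) :
    ∀ g : G, (QuotientGroup.mk (s := Cfsg.oddCore G) (g * (c : G) * g⁻¹)) =
      QuotientGroup.mk (s := Cfsg.oddCore G) (c : G) := by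
  intro g
  haveI hN : (Cfsg.oddCore G).Normal := CfsgLib.PLocal.pPrimeCore_normal'
  have hfix := CfsgLib.ZS.char_cyclic_fix (S : Subgroup G) C hCc hCh c hc hc2
  have hcG : orderOf (c : G) = 2 := by
    rw [Subgroup.orderOf_coe]
    exact hc2
  have hiso : Cfsg.IsIsolated (c : G) :=
    CfsgLib.ZS.isolated_of_sylow_form (P := S) hcG (CfsgLib.ZS.ci_isolated hCI S c.2 hfix)
  have h1 := CfsgLib.ZS.zstar hcG hiso g
  apply QuotientGroup.eq.2
  have h2 : (g * (c : G) * g⁻¹)⁻¹ * (c : G) = (g * (c : G) * g⁻¹)⁻¹ * ((g * (c : G) * g⁻¹ * (c : G)⁻¹)⁻¹) * ((g * (c : G) * g⁻¹)⁻¹)⁻¹ := by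
    group
  rw [h2]
  exact hN.conj_mem _ ((Cfsg.oddCore G).inv_mem h1) _

end Cfsg.Agent.S3184
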