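import Cfsg.Statements.S3190
import Mathlib

set_option autoImplicit false

namespace Cfsg.Agent.S3190

/-- Let p be an odd prime and, inside a finite group, let P be a p-subgroup normalized by a Klein four-group T. Let R be a subgroup of P, normal in P and normalized by T, such that P is the product of R with the centralizer of T in P. If T centralizes the centre of P, then T centralizes the centre of R. -/
theorem result {X : Type*} [Group X] [Finite X]
    {p : ℕ} (hp : p.Prime) (hodd : Odd p) (P T R : Subgroup X) (hP : IsPGroup p ↥P) (hT : IsKleinFour ↥T)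
    (hTP : T ≤ Subgroup.normalizer (P : Set X)) (hRP : R ≤ P) (hRn : (R.subgroupOf P).Normal)
    (hTR : T ≤ Subgroup.normalizer (R : Set X)) (hfac : R ⊔ (P ⊓ Subgroup.centralizer (T : Set X)) = P)
    (hZ : T ≤ Subgroup.centralizer (((Subgroup.center ↥P).map P.subtype : Subgroup X) : Set X)) :
    T ≤ Subgroup.centralizer (((Subgroup.center ↥R).map R.subtype : Subgroup X) : Set X) := by
  classical
  haveI : Fact p.Prime := ⟨hp⟩
  -- Z(R) as elements commuting with R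
  have hZR : ∀ a : X, a ∈ (Subgroup.center ↥R).map R.subtype ↔ a ∈ R ∧ ∀ r ∈ R, r * a = a * r := by
    intro a
    constructor
    · rintro ⟨⟨b, hb⟩, hb', rfl⟩
      refine ⟨hb, fun r hr => ?_⟩
      have := Subgroup.mem_center_iff.1 hb' ⟨r, hr⟩
      exact congrArg Subtype.val this
    · rintro ⟨ha, hc⟩
      refine ⟨⟨a, ha⟩, ?_, rfl⟩
      rw [SetLike.mem_coe, Subgroup.mem_center_iff]
      rintro ⟨r, hr⟩
      exact Subtype.ext (hc r hr)
  have hZP : ∀ a : X, a ∈ P → (∀ r ∈ P, r * a = a * r) → a ∈ (Subgroup.center ↥P).map P.subtype := by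
    intro a ha hc
    refine ⟨⟨a, ha⟩, ?_, rfl⟩
    rw [SetLike.mem_coe, Subgroup.mem_center_iff]
    rintro ⟨r, hr⟩
    exact Subtype.ext (hc r hr)
  -- the elements of T normalize R, P and centre
  intro t ht
  rw [Subgroup.mem_centralizer_iff]
  intro a0 ha0
  by_contra hne
  -- Conjugates by elements of P normalize R
  have hPnormR : ∀ x ∈ P, ∀ r ∈ R, x * r * x⁻¹ ∈ R := by
    intro x hx r hr
    have h1 := hRn.conj_mem ⟨r, hRP hr⟩ (by simpa [Subgroup.mem_subgroupOf] using hr) ⟨x, hx⟩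
    simpa [Subgroup.mem_subgroupOf] using h1
  have htR : ∀ r ∈ R, t * r * t⁻¹ ∈ R := by
    intro r hr
    exact (Subgroup.mem_normalizer_iff.1 (hTR ht) r).1 hr
  have htP : ∀ r ∈ P, t * r * t⁻¹ ∈ P := by
    intro r hr
    exact (Subgroup.mem_normalizer_iff.1 (hTP ht) r).1 hr
  -- t^2 = 1
  have ht2 : t * t = 1 := by
    have h := hT.exponent_two
    have h2 : ((⟨t, ht⟩ : T)) ^ 2 = 1 := by
      rw [← h]; exact Monoid.pow_exponent_eq_one _
    have := congrArg Subtype.val h2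
    simpa [pow_two] using this
  have htinv : t⁻¹ = t := by
    rw [inv_eq_iff_mul_eq_one]; exact ht2
  -- the subgroup B
  let B : Subgroup X :=
    { carrier := {a | (a ∈ R ∧ ∀ r ∈ R, r * a = a * r) ∧ t * a * t⁻¹ = a⁻¹}
      mul_mem' := by
        rintro a b ⟨⟨ha, hca⟩, hta⟩ ⟨⟨hb, hcb⟩, htb⟩
        refine ⟨⟨R.mul_mem ha hb, fun r hr => ?_⟩, ?_⟩
        · rw [← mul_assoc, hca r hr, mul_assoc, hcb r hr, mul_assoc]
        · have e : t * (a * b) * t⁻¹ = (t * a * t⁻¹) * (t * b * t⁻¹) := by group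
          rw [e, hta, htb, mul_inv_rev]
          have hcm : a⁻¹ * b⁻¹ = b⁻¹ * a⁻¹ := by
            have := hca b hb
            have h2 : (a * b)⁻¹ = (b * a)⁻¹ := by rw [this]
            simpa using h2.symm
          exact hcm
      one_mem' := by
        refine ⟨⟨R.one_mem, fun r _ => by simp⟩, by simp⟩
      inv_mem' := by
        rintro a ⟨⟨ha, hca⟩, hta⟩
        refine ⟨⟨R.inv_mem ha, fun r hr => ?_⟩, ?_⟩
        · have := hca r hr
          have h2 : a⁻¹ * (r * a) * a⁻¹ = a⁻¹ * (a * r) * a⁻¹ := by rw [this]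
          simp only [inv_mul_cancel_left] at h2
          rw [← h2]; group
        · have e : t * a⁻¹ * t⁻¹ = (t * a * t⁻¹)⁻¹ := by group
          rw [e, hta] }
  have hBmem : ∀ a, a ∈ B ↔ (a ∈ R ∧ ∀ r ∈ R, r * a = a * r) ∧ t * a * t⁻¹ = a⁻¹ := fun a => Iff.rfl
  -- B is nontrivial
  have ha0' := (hZR a0).1 ha0
  let b0 : X := a0⁻¹ * (t * a0 * t⁻¹)
  have hta0 : t * a0 * t⁻¹ ∈ R := htR _ ha0'.1
  have hcta0 : ∀ r ∈ R, r * (t * a0 * t⁻¹) = (t * a0 * t⁻¹) * r := by
    intro r hr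
    have h1 := ha0'.2 (t⁻¹ * r * t) (by
      have := htR r hr
      rw [htinv]
      rw [htinv] at this
      simpa using this)
    have e1 : r * (t * a0 * t⁻¹) = t * ((t⁻¹ * r * t) * a0) * t⁻¹ := by group
    have e2 : (t * a0 * t⁻¹) * r = t * (a0 * (t⁻¹ * r * t)) * t⁻¹ := by group
    rw [e1, e2, h1]
  have hb0 : b0 ∈ B := by
    refine ⟨⟨R.mul_mem (R.inv_mem ha0'.1) hta0, fun r hr => ?_⟩, ?_⟩
    · have h1 := ha0'.2 r hr
      have h2 := hcta0 r hr
      have hinv : r * a0⁻¹ = a0⁻¹ * r := by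
        have h2' : a0⁻¹ * (r * a0) * a0⁻¹ = a0⁻¹ * (a0 * r) * a0⁻¹ := by rw [h1]
        simp only [inv_mul_cancel_left] at h2'
        rw [← h2']; group
      show r * (a0⁻¹ * (t * a0 * t⁻¹)) = (a0⁻¹ * (t * a0 * t⁻¹)) * r
      rw [← mul_assoc, hinv, mul_assoc, h2]
      simp only [mul_assoc]
    · show t * (a0⁻¹ * (t * a0 * t⁻¹)) * t⁻¹ = (a0⁻¹ * (t * a0 * t⁻¹))⁻¹
      have e : t * (a0⁻¹ * (t * a0 * t⁻¹)) * t⁻¹ = (t * a0⁻¹ * t⁻¹) * ((t * t) * a0 * (t * t)⁻¹) := by group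
      rw [e, ht2]
      simp only [one_mul, inv_one, mul_one, mul_inv_rev, inv_inv]
      have hcm : a0⁻¹ * (t * a0 * t⁻¹) = (t * a0 * t⁻¹) * a0⁻¹ := by
        have h1 := ha0'.2 _ hta0
        have h2' : a0⁻¹ * ((t * a0 * t⁻¹) * a0) * a0⁻¹ = a0⁻¹ * (a0 * (t * a0 * t⁻¹)) * a0⁻¹ := by rw [h1]
        simp only [inv_mul_cancel_left] at h2'
        rw [← h2']; group
      have e3 : (t * a0⁻¹ * t⁻¹) = (t * a0 * t⁻¹)⁻¹ := by group
      rw [e3]
      have := congrArg (fun x => x⁻¹) hcm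
      simpa using this.symm
  have hb01 : b0 ≠ 1 := by
    intro h
    apply hne
    have : a0 = t * a0 * t⁻¹ := by
      have h1 : a0⁻¹ * (t * a0 * t⁻¹) = 1 := h
      exact (inv_mul_eq_one.1 h1)
    have e : t * a0 = a0 * t := by
      nth_rw 2 [this]
      group
    exact e.symm
  -- every element of P is r * c
  have hdecomp : ∀ x ∈ P, ∃ r ∈ R, ∃ c ∈ P ⊓ Subgroup.centralizer (T : Set X), x = r * c := by
    intro x hx
    rw [← hfac, Subgroup.sup_eq_closure] at hx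
    -- closure induction
    have : ∀ x ∈ Subgroup.closure ((R : Set X) ∪ ((P ⊓ Subgroup.centralizer (T : Set X) : Subgroup X) : Set X)), ∃ r ∈ R, ∃ c ∈ P ⊓ Subgroup.centralizer (T : Set X), x = r * c := by
      intro x hx
      induction hx using Subgroup.closure_induction with
      | mem y hy =>
        rcases hy with hy | hy
        · exact ⟨y, hy, 1, Subgroup.one_mem _, by simp⟩
        · exact ⟨1, R.one_mem, y, hy, by simp⟩
      | one => exact ⟨1, R.one_mem, 1, Subgroup.one_mem _, by simp⟩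
      | mul a b _ _ ha hb =>
        obtain ⟨r1, hr1, c1, hc1, rfl⟩ := ha
        obtain ⟨r2, hr2, c2, hc2, rfl⟩ := hb
        refine ⟨r1 * (c1 * r2 * c1⁻¹), R.mul_mem hr1 (hPnormR c1 hc1.1 r2 hr2), c1 * c2, Subgroup.mul_mem _ hc1 hc2, by group⟩
      | inv a _ ha =>
        obtain ⟨r1, hr1, c1, hc1, rfl⟩ := ha
        refine ⟨c1⁻¹ * r1⁻¹ * c1, ?_, c1⁻¹, Subgroup.inv_mem _ hc1, by group⟩
        have := hPnormR c1⁻¹ (P.inv_mem hc1.1) r1⁻¹ (R.inv_mem hr1)
        simpa using this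
    exact this x hx
  -- B normalized by P
  have hBnorm : ∀ x ∈ P, ∀ a ∈ B, x * a * x⁻¹ ∈ B := by
    intro x hx a ha
    obtain ⟨r, hr, c, hc, rfl⟩ := hdecomp x hx
    obtain ⟨⟨haR, hca⟩, hta⟩ := ha
    have hcP := hc.1
    have hct : c * t = t * c := by
      have := Subgroup.mem_centralizer_iff.1 hc.2 t ht
      exact this.symm
    -- c a c⁻¹ in Z(R)
    have h1 : c * a * c⁻¹ ∈ R := hPnormR c hcP a haR
    have h2 : ∀ s ∈ R, s * (c * a * c⁻¹) = (c * a * c⁻¹) * s := by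
      intro s hs
      have hs' : c⁻¹ * s * c ∈ R := by
        have := hPnormR c⁻¹ (P.inv_mem hcP) s hs
        simpa using this
      have h3 := hca _ hs'
      have e1 : s * (c * a * c⁻¹) = c * ((c⁻¹ * s * c) * a) * c⁻¹ := by group
      have e2 : (c * a * c⁻¹) * s = c * (a * (c⁻¹ * s * c)) * c⁻¹ := by group
      rw [e1, e2, h3]
    have h3 : (r * c) * a * (r * c)⁻¹ = c * a * c⁻¹ := by
      have e : (r * c) * a * (r * c)⁻¹ = r * (c * a * c⁻¹) * r⁻¹ := by group
      rw [e, h2 r hr]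
      group
    rw [h3]
    refine ⟨⟨h1, h2⟩, ?_⟩
    have e : t * (c * a * c⁻¹) * t⁻¹ = c * (t * a * t⁻¹) * c⁻¹ := by
      have hct' : t * c = c * t := hct.symm
      have hct2 : c⁻¹ * t⁻¹ = t⁻¹ * c⁻¹ := by
        rw [← mul_inv_rev, ← mul_inv_rev, hct]
      calc t * (c * a * c⁻¹) * t⁻¹ = (t * c) * a * (c⁻¹ * t⁻¹) := by group
        _ = (c * t) * a * (t⁻¹ * c⁻¹) := by rw [hct', hct2]
        _ = c * (t * a * t⁻¹) * c⁻¹ := by group
    rw [e, hta]
    group
  -- normal subgroup of p-group meets centre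
  -- P acts on B by conjugation
  have hBP : B ≤ P := fun a ha => hRP ha.1.1
  let act : MulAction P B :=
    { smul := fun x a => ⟨x.1 * a.1 * x.1⁻¹, hBnorm x.1 x.2 a.1 a.2⟩
      one_smul := fun a => Subtype.ext (by show (1 : X) * a.1 * (1 : X)⁻¹ = a.1; simp)
      mul_smul := fun x y a => Subtype.ext (by
        show (x.1 * y.1) * a.1 * (x.1 * y.1)⁻¹ = x.1 * (y.1 * a.1 * y.1⁻¹) * x.1⁻¹
        group) }
  have hfixed := hP.exists_fixed_point_of_prime_dvd_card_of_fixed_point (α := B) (a := (1 : B))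
  have hBp : IsPGroup p B := by
    intro a
    obtain ⟨k, hk⟩ := hP ⟨a.1, hBP a.2⟩
    refine ⟨k, Subtype.ext ?_⟩
    have := congrArg Subtype.val hk
    simpa using this
  have hBnt : Nontrivial B := ⟨⟨⟨b0, hb0⟩, 1, fun h => hb01 (congrArg Subtype.val h)⟩⟩
  have hdvd : p ∣ Nat.card B := by
    rcases hBp.card_eq_or_dvd with h | h
    · rw [Nat.card_eq_one_iff_unique] at h
      exact absurd hBnt (not_nontrivial_iff_subsingleton.2 h.1)
    · exact h
  obtain ⟨z, hz1, hz2⟩ := hfixed hdvd (by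
    intro x
    apply Subtype.ext
    show x.1 * (1 : X) * x.1⁻¹ = 1
    simp)
  -- z ∈ Z(P)
  have hzP : (z : X) ∈ (Subgroup.center ↥P).map P.subtype := by
    apply hZP _ (hBP z.2)
    intro r hr
    have h1 : (⟨r, hr⟩ : P) • z = z := hz1 ⟨r, hr⟩
    have h2 : r * z.1 * r⁻¹ = z.1 := congrArg Subtype.val h1
    have := congrArg (fun w => w * r) h2
    simpa using this
  have htz : t * z.1 * t⁻¹ = z.1 := by
    have h1 := Subgroup.mem_centralizer_iff.1 (hZ ht) z.1 hzP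
    rw [← h1]; group
  have htz2 : t * z.1 * t⁻¹ = z.1⁻¹ := z.2.2
  have hz3 : z.1 * z.1 = 1 := by
    have : z.1 = z.1⁻¹ := htz.symm.trans htz2
    nth_rw 1 [this]
    simp
  -- z has odd order
  have hzne : z.1 ≠ 1 := fun h => hz2 (Subtype.ext h.symm)
  obtain ⟨k, hk⟩ := hBp z
  have h5 : (z.1) ^ (p ^ k) = 1 := by
    have := congrArg Subtype.val hk
    simpa using this
  have h6 : orderOf z.1 ∣ 2 := orderOf_dvd_of_pow_eq_one (by rw [pow_two]; exact hz3)
  have h7 : orderOf z.1 ∣ p ^ k := orderOf_dvd_of_pow_eq_one h5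
  have hcop : Nat.Coprime 2 (p ^ k) := Nat.Coprime.pow_right k (Nat.coprime_two_left.2 hodd)
  have h8 : orderOf z.1 = 1 := Nat.Coprime.eq_one_of_dvd (Nat.Coprime.coprime_dvd_left h6 hcop) h7
  exact hzne (orderOf_eq_one_iff.1 h8)

end Cfsg.Agent.S3190
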