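import Cfsg.Statements.S3195
import Cfsg.Agent.Lib.H3.KleinO2

set_option autoImplicit false
open Cfsg

namespace Cfsg.Agent.S3195

/-- Let A be a Klein four-subgroup of a finite group G. If every G-conjugate of every involution of A commutes with some involution of A (its centralizer meets A nontrivially), then A meets the largest normal 2-subgroup O₂(G) nontrivially. -/
theorem result {G : Type*} [Group G] [Finite G]
    (A : Subgroup G) (hA : IsKleinFour ↥A)
    (h : ∀ a ∈ A, a ≠ 1 → ∀ g : G, A ⊓ Subgroup.centralizer ({g * a * g⁻¹} : Set G) ≠ ⊥) :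
    A ⊓ Cfsg.pCore 2 G ≠ ⊥ := by
  exact CfsgLib.KleinO2.main A hA h

end Cfsg.Agent.S3195
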