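import Cfsg.Statements.S3208
import Mathlib

set_option autoImplicit false
open Cfsg

namespace Cfsg.Agent.S3208

private lemma card_mul_relIndex' {G : Type*} [Group G] {A B : Subgroup G} (h : A ≤ B) :
    Nat.card A * A.relIndex B = Nat.card B := by
  have := Subgroup.relIndex_mul_relIndex ⊥ A B bot_le h
  simpa [Subgroup.relIndex_bot_left] using this

/-- Let j be an involution of a finite group G, H a subgroup of G, and T a Sylow 2-subgroup of H ∩ C_G(j) containing j such that ⟨j⟩ is a characteristic subgroup of T. Then T is a Sylow 2-subgroup of H. -/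
theorem result {G : Type*} [Group G] [Finite G]
    (j : G) (hj : orderOf j = 2) (H T : Subgroup G) (hT : T ≤ H ⊓ Subgroup.centralizer ({j} : Set G)) (h2 : IsPGroup 2 ↥T)
    (hSyl : ¬ 2 ∣ T.relIndex (H ⊓ Subgroup.centralizer ({j} : Set G))) (hjT : j ∈ T)
    (hchar : ((Subgroup.zpowers j).subgroupOf T).Characteristic) :
    ¬ 2 ∣ T.relIndex H := by
  classical
  haveI : Fact (Nat.Prime 2) := ⟨Nat.prime_two⟩
  intro hdvd
  have hTH : T ≤ H := fun x hx => (hT hx).1
  obtain ⟨n, hn⟩ := IsPGroup.iff_card.mp h2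
  have hH : 2 ^ (n + 1) ∣ Nat.card H := by
    rw [← card_mul_relIndex' hTH, hn, pow_succ]
    exact Nat.mul_dvd_mul_left _ hdvd
  have hT'card : Nat.card (T.subgroupOf H) = 2 ^ n := by
    rw [← hn]
    exact Nat.card_congr (Subgroup.subgroupOfEquivOfLe hTH).toEquiv
  obtain ⟨K', hK'card, hle⟩ := Sylow.exists_subgroup_card_pow_succ hH hT'card
  let K : Subgroup G := K'.map H.subtype
  have hKcard : Nat.card K = 2 ^ (n + 1) := by
    rw [← hK'card]
    exact Subgroup.card_map_of_injective H.subtype_injective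
  have hTK : T ≤ K := by
    intro x hx
    exact ⟨⟨x, hTH hx⟩, hle (by simpa [Subgroup.mem_subgroupOf] using hx), rfl⟩
  have hKH : K ≤ H := by
    rintro _ ⟨x, _, rfl⟩
    exact x.2
  have hrel : T.relIndex K = 2 := by
    have h3 := card_mul_relIndex' hTK
    rw [hn, hKcard, pow_succ] at h3
    exact Nat.eq_of_mul_eq_mul_left (by positivity) h3
  have hnormal : (T.subgroupOf K).Normal := Subgroup.normal_of_index_eq_two hrel
  have hKN : K ≤ Subgroup.normalizer (T : Set G) := Subgroup.le_normalizer_of_normal_subgroupOf hTK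
  have hKC : K ≤ Subgroup.centralizer ({j} : Set G) := by
    intro x hx
    rw [Subgroup.mem_centralizer_singleton_iff]
    let φ : MulAut T := T.normalizerMonoidHom ⟨x, hKN hx⟩
    have h4 : φ ⟨j, hjT⟩ ∈ (Subgroup.zpowers j).subgroupOf T := by
      have hfix := hchar.fixed φ.symm
      have h41 : φ ⟨j, hjT⟩ ∈ ((Subgroup.zpowers j).subgroupOf T).comap φ.symm.toMonoidHom := by
        show φ.symm (φ ⟨j, hjT⟩) ∈ (Subgroup.zpowers j).subgroupOf T
        simp [Subgroup.mem_subgroupOf]
      rwa [hfix] at h41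
    have h5 : x * j * x⁻¹ ∈ Subgroup.zpowers j := h4
    obtain ⟨k, hk⟩ := h5
    have h6 : j ^ (k % 2) = x * j * x⁻¹ := by
      rw [← hk]
      have := zpow_mod_orderOf j k
      rwa [hj] at this
    have hj1 : j ≠ 1 := by
      intro h
      rw [h, orderOf_one] at hj
      omega
    have h7 : k % 2 = 0 ∨ k % 2 = 1 := by omega
    have hj' : x * j * x⁻¹ = j := by
      rcases h7 with h7 | h7
      · rw [h7, zpow_zero] at h6
        exfalso
        apply hj1
        have : x * j * x⁻¹ = 1 := h6.symm
        have h8 : x * j = x := by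
          calc x * j = x * j * x⁻¹ * x := by group
            _ = x := by rw [this, one_mul]
        exact mul_left_cancel (a := x) (by rw [h8, mul_one])
      · rw [h7, zpow_one] at h6
        exact h6.symm
    calc x * j = x * j * x⁻¹ * x := by group
      _ = j * x := by rw [hj']
  have hKL : K ≤ H ⊓ Subgroup.centralizer ({j} : Set G) := le_inf hKH hKC
  have h9 := Subgroup.card_dvd_of_le hKL
  rw [hKcard, ← card_mul_relIndex' hT, hn, pow_succ] at h9
  exact hSyl (Nat.dvd_of_mul_dvd_mul_left (by positivity) h9)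

end Cfsg.Agent.S3208
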