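import Cfsg.Statements.S3224
import Cfsg.Agent.Lib.H3.Taussky2

set_option autoImplicit false
open Cfsg

namespace Cfsg.Agent.S3224

/-- A finite 2-group containing an involution whose centralizer has order 4 is dihedral, quasi-dihedral (semidihedral), or of order 4. -/
theorem result {S : Type*} [Group S] [Finite S] (hS : IsPGroup 2 S)
    (x : S) (hx : orderOf x = 2) (hC : Nat.card ↥(Subgroup.centralizer ({x} : Set S)) = 4) :
    (∃ n : ℕ, Nonempty (S ≃* DihedralGroup n)) ∨ Cfsg.IsQuasiDihedral S ∨ Nat.card S = 4 := by
  exact CfsgLib.Taussky.involution_cent_four hS x hx hC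

end Cfsg.Agent.S3224
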