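import Cfsg.Statements.S3276
import Cfsg.Agent.Lib.Lead.TwoInvol
import Mathlib

set_option autoImplicit false
open Cfsg

namespace Cfsg.Agent.S3276

/-- Let x and y be commuting, non-conjugate involutions of a finite group G, and suppose that for every involution u commuting with x, each conjugate of y that commutes with u also commutes with y. Then the normal closure of y is a proper, normal, elementary abelian 2-subgroup of G; and if y is the only involution of that normal closure commuting with x, it has order at most 4. -/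
theorem result {G : Type*} [Group G] [Finite G] (x y : G) (hx : orderOf x = 2) (hy : orderOf y = 2)
    (hxy : Commute x y) (hnc : ¬ IsConj x y)
    (hstar : ∀ u : G, orderOf u = 2 → Commute u x → ∀ g : G, Commute (g * y * g⁻¹) u → Commute (g * y * g⁻¹) y) :
    Subgroup.normalClosure ({y} : Set G) ≠ ⊤ ∧ Cfsg.IsElementaryAbelian 2 (Subgroup.normalClosure ({y} : Set G)) ∧
      ((∀ u ∈ Subgroup.normalClosure ({y} : Set G), orderOf u = 2 → Commute u x → u = y) →
        Nat.card ↥(Subgroup.normalClosure ({y} : Set G)) ≤ 4) := by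
  classical
  have hxx : x * x = 1 := by
    have := pow_orderOf_eq_one x
    rwa [hx, pow_two] at this
  have hyy : y * y = 1 := by
    have := pow_orderOf_eq_one y
    rwa [hy, pow_two] at this
  -- every conjugate of y commutes with y
  have hcomm : ∀ g : G, Commute (g * y * g⁻¹) y := by
    intro g
    have hord : orderOf (g * y * g⁻¹) = 2 := by
      have : g * y * g⁻¹ = (MulAut.conj g) y := rfl
      rw [this, MulEquiv.orderOf_eq, hy]
    rcases CfsgLib.Lead.isConj_or_exists_commuting_involution x (g * y * g⁻¹) hx hord with h | ⟨w, hw, hwx, hwz⟩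
    · exfalso
      apply hnc
      refine h.trans ?_
      rw [isConj_iff]
      exact ⟨g⁻¹, by group⟩
    · exact hstar w hw hwx g hwz.symm
  -- conjugates commute pairwise
  have hcomm2 : ∀ g h : G, Commute (g * y * g⁻¹) (h * y * h⁻¹) := by
    intro g h
    have h1 := hcomm (h⁻¹ * g)
    show (g * y * g⁻¹) * (h * y * h⁻¹) = (h * y * h⁻¹) * (g * y * g⁻¹)
    have h2 : (h⁻¹ * g * y * (h⁻¹ * g)⁻¹) * y = y * (h⁻¹ * g * y * (h⁻¹ * g)⁻¹) := h1
    have h3 := congrArg (fun z => h * z * h⁻¹) h2
    calc (g * y * g⁻¹) * (h * y * h⁻¹) = h * ((h⁻¹ * g * y * (h⁻¹ * g)⁻¹) * y) * h⁻¹ := by group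
      _ = h * (y * (h⁻¹ * g * y * (h⁻¹ * g)⁻¹)) * h⁻¹ := h3
      _ = (h * y * h⁻¹) * (g * y * g⁻¹) := by group
  set N := Subgroup.normalClosure ({y} : Set G) with hN
  have hNcl : N = Subgroup.closure (Group.conjugatesOfSet {y}) := rfl
  have hconjs : ∀ z ∈ Group.conjugatesOfSet ({y} : Set G), ∃ g, z = g * y * g⁻¹ := by
    intro z hz
    rw [Group.mem_conjugatesOfSet_iff] at hz
    obtain ⟨a, ha, hz⟩ := hz
    rw [Set.mem_singleton_iff] at ha
    subst ha
    obtain ⟨c, hc⟩ := isConj_iff.mp hz
    exact ⟨c, hc.symm⟩
  have hyN : y ∈ N := Subgroup.subset_normalClosure (by simp)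
  -- N is commutative
  have hNcomm : ∀ a ∈ N, ∀ b ∈ N, Commute a b := by
    have hstep : ∀ a ∈ N, ∀ g : G, Commute a (g * y * g⁻¹) := by
      intro a ha g
      rw [hNcl] at ha
      induction ha using Subgroup.closure_induction with
      | mem z hz =>
        obtain ⟨h, rfl⟩ := hconjs z hz
        exact hcomm2 h g
      | one => exact Commute.one_left _
      | mul p q _ _ hp hq => exact hp.mul_left hq
      | inv p _ hp => exact hp.inv_left
    intro a ha b hb
    rw [hNcl] at hb
    induction hb using Subgroup.closure_induction with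
    | mem z hz =>
      obtain ⟨h, rfl⟩ := hconjs z hz
      exact hstep a ha h
    | one => exact Commute.one_right _
    | mul p q _ _ hp hq => exact hp.mul_right hq
    | inv p _ hp => exact hp.inv_right
  -- N has exponent 2
  have hNexp : ∀ a ∈ N, a ^ 2 = 1 := by
    intro a ha
    have ha' := ha
    rw [hNcl] at ha'
    induction ha' using Subgroup.closure_induction with
    | mem z hz =>
      obtain ⟨h, rfl⟩ := hconjs z hz
      rw [conj_pow, pow_two, hyy]; simp
    | one => simp
    | mul p q hp' hq' hp hq =>
      have h1 : p ∈ N := hNcl ▸ hp'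
      have h2 : q ∈ N := hNcl ▸ hq'
      rw [(hNcomm p h1 q h2).mul_pow, hp h1, hq h2, one_mul]
    | inv p hp' hp =>
      have h1 : p ∈ N := hNcl ▸ hp'
      rw [inv_pow, hp h1, inv_one]
  have hxne1 : x ≠ 1 := by
    rintro rfl
    rw [orderOf_one] at hx
    omega
  have hyne1 : y ≠ 1 := by
    rintro rfl
    rw [orderOf_one] at hy
    omega
  refine ⟨?_, ⟨⟨⟨fun a b => Subtype.ext (hNcomm a.1 a.2 b.1 b.2)⟩⟩, hNexp⟩, ?_⟩
  · -- N ≠ ⊤
    intro htop
    have hcentral : ∀ g : G, g * y * g⁻¹ = y := by
      intro g
      have h1 : g ∈ N := by rw [htop]; trivial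
      have h2 := hNcomm g h1 y hyN
      rw [h2.eq, mul_inv_cancel_right]
    -- N = {1, y}; x ∈ N gives x = y
    have hmem : ∀ a ∈ N, a = 1 ∨ a = y := by
      intro a ha
      rw [hNcl] at ha
      induction ha using Subgroup.closure_induction with
      | mem z hz =>
        obtain ⟨h, rfl⟩ := hconjs z hz
        exact Or.inr (hcentral h)
      | one => exact Or.inl rfl
      | mul p q _ _ hp hq =>
        rcases hp with rfl | rfl <;> rcases hq with rfl | rfl <;> simp [hyy]
      | inv p _ hp =>
        rcases hp with rfl | rfl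
        · simp
        · right
          rw [inv_eq_iff_mul_eq_one]
          exact hyy
    have hxN : x ∈ N := by rw [htop]; trivial
    rcases hmem x hxN with h | h
    · exact hxne1 h
    · exact hnc (h ▸ IsConj.refl _)
  · intro huniq
    -- C_N(x) = {1, y}
    have hNn : N.Normal := Subgroup.normalClosure_normal
    have hxcomm : ∀ n ∈ N, x * n * x⁻¹ ∈ N := fun n hn => hNn.conj_mem n hn x
    let f : N →* N :=
      { toFun := fun n => ⟨(n : G) * (x * n * x⁻¹), N.mul_mem n.2 (hxcomm n n.2)⟩
        map_one' := by
          ext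
          simp
        map_mul' := by
          intro a b
          ext
          have h1 := hNcomm _ (hxcomm a a.2) _ b.2
          simp only [Subgroup.coe_mul]
          calc (a : G) * b * (x * (a * b) * x⁻¹) = a * b * ((x * a * x⁻¹) * (x * b * x⁻¹)) := by group
            _ = a * (b * (x * a * x⁻¹)) * (x * b * x⁻¹) := by group
            _ = a * ((x * a * x⁻¹) * b) * (x * b * x⁻¹) := by rw [h1.eq]
            _ = _ := by group }
    -- every element of N commuting with x is 1 or y
    have hC : ∀ a ∈ N, Commute a x → a = 1 ∨ a = y := by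
      intro a ha hax
      by_cases h1 : a = 1
      · exact Or.inl h1
      · right
        apply huniq a ha _ hax
        apply orderOf_eq_prime (hNexp a ha) h1
    have hfker : ∀ n : N, f n = 1 → (n : G) = 1 ∨ (n : G) = y := by
      intro n hn
      apply hC n n.2
      have h1 : (n : G) * (x * n * x⁻¹) = 1 := congrArg Subtype.val hn
      have h2 : (x * n * x⁻¹) = (n : G) := by
        have h3 := eq_inv_of_mul_eq_one_right h1
        rw [h3]
        rw [inv_eq_iff_mul_eq_one, ← pow_two]
        exact hNexp n n.2
      show (n : G) * x = x * n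
      calc (n : G) * x = (x * n * x⁻¹) * x := by rw [h2]
        _ = x * n := by group
    have hfim : ∀ n : N, (f n : G) = 1 ∨ (f n : G) = y := by
      intro n
      apply hC _ (f n).2
      have hxinv : x⁻¹ = x := by rw [inv_eq_iff_mul_eq_one]; exact hxx
      have hcc := hNcomm n n.2 _ (hxcomm n n.2)
      show ((n : G) * (x * n * x⁻¹)) * x = x * ((n : G) * (x * n * x⁻¹))
      rw [hxinv] at hcc ⊢
      have h5 : (n : G) * (x * n * x) = (x * n * x) * n := hcc
      calc (n : G) * (x * n * x) * x = (x * n * x) * n * x := by rw [h5]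
        _ = x * ((n : G) * (x * n * x)) := by simp only [mul_assoc]
    have hcard2 : ∀ K : Subgroup N, (∀ k ∈ K, (k : G) = 1 ∨ (k : G) = y) → Nat.card K ≤ 2 := by
      intro K hK
      have hsub : (K : Set N) ⊆ {1, ⟨y, hyN⟩} := by
        intro k hk
        rcases hK k hk with h | h
        · left
          exact Subtype.ext h
        · right
          exact Subtype.ext h
      calc Nat.card K = (K : Set N).ncard := Nat.card_coe_set_eq _
        _ ≤ ({1, ⟨y, hyN⟩} : Set N).ncard := Set.ncard_le_ncard hsub (Set.toFinite _)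
        _ ≤ 2 := by
          have h := Set.ncard_insert_le (1 : N) ({⟨y, hyN⟩} : Set N)
          rw [Set.ncard_singleton] at h
          exact h
    have h1 := hcard2 f.ker (fun k hk => hfker k hk)
    have h2 := hcard2 f.range (by
      rintro _ ⟨n, rfl⟩
      exact hfim n)
    have h3 : Nat.card N = Nat.card f.ker * Nat.card f.range := by
      rw [← Subgroup.index_ker]
      exact (Subgroup.card_mul_index f.ker).symm
    rw [h3]
    nlinarith

end Cfsg.Agent.S3276
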