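import Cfsg.Statements.S3309
import Cfsg.Agent.Lib.ZStar.ThompsonCentral
-- import your own Cfsg.Agent.* helpers here

set_option autoImplicit false
open Cfsg

namespace Cfsg.Agent.S3309

theorem z0a : ((Multiplicative.ofAdd 1, 1) : Multiplicative (ZMod 2) × DihedralGroup 4) * (Multiplicative.ofAdd 1, 1) = 1 := by decide
theorem z0b : ∀ k : Multiplicative (ZMod 2) × DihedralGroup 4, k * (Multiplicative.ofAdd 1, 1) = (Multiplicative.ofAdd 1, 1) * k := by decide
theorem z0c : ((Multiplicative.ofAdd 1, 1) : Multiplicative (ZMod 2) × DihedralGroup 4).1 ≠ 1 := by decide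
theorem z0d : ∀ d : DihedralGroup 4, d ≠ 1 → (∀ k : DihedralGroup 4, k * d = d * k) → d = DihedralGroup.r 2 := by decide
theorem z0e : ((DihedralGroup.r 1 : DihedralGroup 4) * DihedralGroup.r 1) = DihedralGroup.r 2 := by decide

/-- A finite group whose Sylow 2-subgroups are isomorphic to the direct product of a group of order 2 and the dihedral group of order 8 is not a non-abelian simple group. -/
theorem result {G : Type*} [Group G] [Finite G] (S : Sylow 2 G) (hS : Nonempty (↥(S : Subgroup G) ≃* Multiplicative (ZMod 2) × DihedralGroup 4))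
    [IsSimpleGroup G] (hG : ¬ IsMulCommutative G) : False := by
  obtain ⟨e⟩ := hS
  haveI : Fact (Nat.Prime 2) := ⟨Nat.prime_two⟩
  let ϕ : (S : Subgroup G) →* Multiplicative (ZMod 2) := (MonoidHom.fst _ _).comp e.toMonoidHom
  let z0 : Multiplicative (ZMod 2) × DihedralGroup 4 := (Multiplicative.ofAdd 1, 1)
  have hz0 : z0 * z0 = 1 := z0a
  have hz0c : ∀ k : Multiplicative (ZMod 2) × DihedralGroup 4, k * z0 = z0 * k := z0b
  have hz01 : z0.1 ≠ 1 := z0c
  set u : G := ((e.symm z0 : (S : Subgroup G)) : G) with hu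
  have huP : u ∈ (S : Subgroup G) := (e.symm z0).2
  have hue : e ⟨u, huP⟩ = z0 := by
    have : (⟨u, huP⟩ : (S : Subgroup G)) = e.symm z0 := rfl
    rw [this]; simp
  have huu : u * u = 1 := by
    have : (⟨u, huP⟩ : (S : Subgroup G)) * ⟨u, huP⟩ = 1 := by
      apply e.injective
      rw [map_mul, hue, hz0, map_one]
    exact congrArg Subtype.val this
  have hu1 : u ≠ 1 := by
    intro h
    have : (⟨u, huP⟩ : (S : Subgroup G)) = 1 := Subtype.ext h
    rw [this, map_one] at hue
    exact hz01 (by rw [← hue]; rfl)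
  have huZ : ∀ p ∈ (S : Subgroup G), p * u = u * p := by
    intro p hp
    have : (⟨p, hp⟩ : (S : Subgroup G)) * ⟨u, huP⟩ = ⟨u, huP⟩ * ⟨p, hp⟩ := by
      apply e.injective
      rw [map_mul, map_mul, hue]
      exact hz0c _
    exact congrArg Subtype.val this
  have hϕ : ϕ ⟨u, huP⟩ ≠ 1 := by
    show (e ⟨u, huP⟩).1 ≠ 1
    rw [hue]; exact hz01
  have hodd : Odd (S : Subgroup G).index := by
    rw [← Nat.not_even_iff_odd, even_iff_two_dvd]
    exact S.not_dvd_index
  rcases CfsgLib.ZS.thompson_central (S : Subgroup G) S.isPGroup' hodd ϕ u huu huP huZ hϕ with ⟨M, hMn, hMi, huM⟩ | ⟨n, hn, hy, hyϕ⟩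
  · rcases hMn.eq_bot_or_eq_top with rfl | rfl
    · rw [Subgroup.index_bot] at hMi
      haveI : IsCyclic G := isCyclic_of_prime_card (p := 2) hMi
      exact hG ⟨⟨fun a b => IsCyclic.commGroup.mul_comm a b⟩⟩
    · exact huM (Subgroup.mem_top u)
  · have hnS : ∀ p ∈ (S : Subgroup G), n * p * n⁻¹ ∈ (S : Subgroup G) := fun p hp =>
      (Subgroup.mem_normalizer_iff.1 hn p).1 hp
    have hn'S : ∀ p ∈ (S : Subgroup G), n⁻¹ * p * n ∈ (S : Subgroup G) := fun p hp => by
      have := (Subgroup.mem_normalizer_iff.1 (Subgroup.inv_mem _ hn) p).1 hp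
      simpa using this
    set y : G := n⁻¹ * u * n with hyd
    have hyz : ∀ p ∈ (S : Subgroup G), p * y = y * p := by
      intro p hp
      have h1 := huZ _ (hnS p hp)
      have h2 : n * p * n⁻¹ * u = n * (p * y) * n⁻¹ := by rw [hyd]; group
      have h3 : u * (n * p * n⁻¹) = n * (y * p) * n⁻¹ := by rw [hyd]; group
      rw [h2, h3] at h1
      have := mul_left_cancel (mul_right_cancel h1)
      exact this
    have hy1 : y ≠ 1 := by
      intro h
      apply hu1
      have : u = n * y * n⁻¹ := by rw [hyd]; group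
      rw [this, h]; group
    set ey := e ⟨y, hy⟩ with hey
    have hey1 : ey.1 = 1 := hyϕ
    have heyc : ∀ k, k * ey = ey * k := by
      intro k
      have h1 := e.surjective k
      obtain ⟨p, rfl⟩ := h1
      rw [hey, ← map_mul, ← map_mul]
      congr 1
      exact Subtype.ext (hyz p p.2)
    have hey2 : ey.2 ≠ 1 := by
      intro h
      apply hy1
      have h2 : ey = 1 := Prod.ext hey1 h
      have h3 : (⟨y, hy⟩ : (S : Subgroup G)) = 1 := by
        apply e.injective
        rw [map_one]; exact h2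
      exact congrArg Subtype.val h3
    have hey3 : ey.2 = DihedralGroup.r 2 := by
      have h1 := z0d
      apply h1 _ hey2
      intro k
      have := heyc (1, k)
      exact congrArg Prod.snd this
    let w0 : Multiplicative (ZMod 2) × DihedralGroup 4 := (1, DihedralGroup.r 1)
    have hw0 : w0 * w0 = ey := by
      apply Prod.ext
      · rw [hey1]; simp [w0]
      · rw [hey3]; exact z0e
    set w : (S : Subgroup G) := e.symm w0 with hw
    have hww : w * w = ⟨y, hy⟩ := by
      apply e.injective
      rw [map_mul, hw, MulEquiv.apply_symm_apply, hw0]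
    let v : (S : Subgroup G) := ⟨n * w * n⁻¹, hnS w w.2⟩
    have hvv : v * v = ⟨u, huP⟩ := by
      apply Subtype.ext
      have h1 : (w : G) * w = y := congrArg Subtype.val hww
      show n * w * n⁻¹ * (n * w * n⁻¹) = u
      calc n * w * n⁻¹ * (n * w * n⁻¹) = n * ((w : G) * w) * n⁻¹ := by group
        _ = n * y * n⁻¹ := by rw [h1]
        _ = u := by rw [hyd]; group
    have h2 := congrArg (fun x => (e x).1) hvv
    simp only [map_mul, Prod.fst_mul] at h2
    rw [hue, CfsgLib.ZS.z2_sq] at h2
    exact hz01 h2.symm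

end Cfsg.Agent.S3309
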