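import Cfsg.Statements.S3349
import Mathlib

set_option autoImplicit false

namespace Cfsg.Agent.S3349

/-- Let Q be a finite extraspecial p-group and α an automorphism of Q fixing every element of some maximal abelian subgroup of Q. Then the order of α is a power of p. -/
theorem result {Q : Type*} [Group Q] [Finite Q]
    (p : ℕ) [Fact p.Prime] (hQ : Cfsg.IsExtraspecial p Q) (α : MulAut Q)
    (A : Subgroup Q) (hA : IsMulCommutative A) (hmax : ∀ B : Subgroup Q, A ≤ B → IsMulCommutative B → B = A)
    (hfix : ∀ a ∈ A, α a = a) :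
    ∃ k : ℕ, orderOf α = p ^ k := by
  classical
  obtain ⟨⟨hp, -, hcomm⟩, -⟩ := hQ
  have hAc : ∀ a ∈ A, ∀ b ∈ A, a * b = b * a := by
    intro a ha b hb
    have := hA.is_comm.comm ⟨a, ha⟩ ⟨b, hb⟩
    exact congrArg Subtype.val this
  -- C_Q(A) = A
  have hcent : ∀ x : Q, (∀ a ∈ A, x * a = a * x) → x ∈ A := by
    intro x hx
    let B : Subgroup Q := A ⊔ Subgroup.zpowers x
    have hB : IsMulCommutative B := by
      have hAle : A ≤ Subgroup.centralizer (Subgroup.zpowers x : Set Q) := by
        intro a ha
        rw [Subgroup.mem_centralizer_iff]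
        rintro _ ⟨n, rfl⟩
        have : Commute x a := hx a ha
        exact (this.zpow_left n)
      have hc : ∀ u ∈ B, ∀ v ∈ B, u * v = v * u := by
        intro u hu v hv
        let C := Subgroup.centralizer ((A : Set Q) ∪ (Subgroup.zpowers x : Set Q))
        have hgen : ∀ w ∈ (A : Set Q) ∪ (Subgroup.zpowers x : Set Q), ∀ y ∈ (A : Set Q) ∪ (Subgroup.zpowers x : Set Q), w * y = y * w := by
          rintro w (hw | ⟨n, rfl⟩) y (hy | ⟨m, rfl⟩)
          · exact hAc w hw y hy
          · exact (Subgroup.mem_centralizer_iff.1 (hAle hw) _ ⟨m, rfl⟩).symm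
          · exact (Subgroup.mem_centralizer_iff.1 (hAle hy) _ ⟨n, rfl⟩)
          · exact (Commute.refl x).zpow_zpow n m
        have hB' : B = Subgroup.closure ((A : Set Q) ∪ (Subgroup.zpowers x : Set Q)) := Subgroup.sup_eq_closure _ _
        rw [hB'] at hu hv
        have hvC : v ∈ Subgroup.centralizer (Subgroup.closure ((A : Set Q) ∪ (Subgroup.zpowers x : Set Q)) : Set Q) := by
          rw [Subgroup.centralizer_closure]
          rw [Subgroup.mem_centralizer_iff]
          intro w hw
          induction hv using Subgroup.closure_induction with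
          | mem y hy => exact (hgen w hw y hy)
          | one => simp
          | mul a b _ _ ha hb => rw [← mul_assoc, ha, mul_assoc, hb, mul_assoc]
          | inv a _ ha =>
            have := congrArg (fun z => a⁻¹ * z * a⁻¹) ha
            simpa [mul_assoc] using this.symm
        exact (Subgroup.mem_centralizer_iff.1 hvC u hu)
      exact ⟨⟨fun u v => Subtype.ext (hc u.1 u.2 v.1 v.2)⟩⟩
    have hBA := hmax B le_sup_left hB
    have : x ∈ B := (le_sup_right : Subgroup.zpowers x ≤ B) (Subgroup.mem_zpowers x)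
    rwa [hBA] at this
  -- centre in A
  have hcenter : Subgroup.center Q ≤ A := by
    intro z hz
    apply hcent
    intro a _
    exact (Subgroup.mem_center_iff.1 hz a).symm
  -- commutators in A
  have hcommA : ∀ x y : Q, x * y * x⁻¹ * y⁻¹ ∈ A := by
    intro x y
    apply hcenter
    rw [← hcomm]
    exact Subgroup.commutator_mem_commutator (Subgroup.mem_top x) (Subgroup.mem_top y)
  -- conjugates of elements of A lie in A
  have hconjA : ∀ x a : Q, a ∈ A → x * a * x⁻¹ ∈ A := by
    intro x a ha
    have h := A.mul_mem (hcommA x a) ha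
    have e : x * a * x⁻¹ * a⁻¹ * a = x * a * x⁻¹ := by group
    rwa [e] at h
  -- d x = x⁻¹ α x ∈ A
  have hd : ∀ x : Q, x⁻¹ * α x ∈ A := by
    intro x
    apply hcent
    intro a ha
    have h1 := hfix _ (hconjA x a ha)
    rw [map_mul, map_mul, map_inv, hfix a ha] at h1
    -- α x a (α x)⁻¹ = x a x⁻¹
    have h2 : x⁻¹ * α x * a = a * (x⁻¹ * α x) := by
      have := congrArg (fun z => x⁻¹ * z * α x) h1
      simpa [mul_assoc] using this
    exact h2
  -- α^k x = x * (d x)^k
  have hpow : ∀ (k : ℕ) (x : Q), (α ^ k) x = x * (x⁻¹ * α x) ^ k := by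
    intro k x
    induction k with
    | zero => simp
    | succ k ih =>
      rw [pow_succ', MulAut.mul_apply, ih, map_mul, map_pow, hfix _ (hd x), pow_succ']
      simp [mul_assoc]
  -- take exponent
  obtain ⟨n, hn⟩ := IsPGroup.iff_card.1 hp
  have hone : α ^ (p ^ n) = 1 := by
    ext x
    rw [hpow, MulAut.one_apply]
    have : (x⁻¹ * α x) ^ (p ^ n) = 1 := by
      rw [← hn]; exact pow_card_eq_one'
    rw [this, mul_one]
  have hdvd : orderOf α ∣ p ^ n := orderOf_dvd_of_pow_eq_one hone
  obtain ⟨k, -, hk⟩ := (Nat.dvd_prime_pow (Fact.out : p.Prime)).1 hdvd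
  exact ⟨k, hk⟩

end Cfsg.Agent.S3349
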