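import Cfsg.Statements.S3389
import Mathlib

set_option autoImplicit false

namespace Cfsg.Agent.S3389

open MulAction

/-- A group acting freely on a finite type: its order divides the size of the type. -/
private theorem card_dvd_of_free {Z X : Type*} [Group Z] [Finite Z] [MulAction Z X] [Finite X]
    (hfree : ∀ (z : Z) (x : X), z • x = x → z = 1) : Nat.card Z ∣ Nat.card X := by
  classical
  haveI := Fintype.ofFinite X
  haveI : Fintype (orbitRel.Quotient Z X) := Fintype.ofFinite _
  have e := MulAction.selfEquivSigmaOrbits Z X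
  rw [Nat.card_congr e, Nat.card_sigma]
  refine Finset.dvd_sum (fun ω _ => ?_)
  have hcard : Nat.card (orbit Z (Quotient.out ω)) = Nat.card Z := by
    rw [Nat.card_congr (MulAction.orbitEquivQuotientStabilizer Z (Quotient.out ω))]
    have : stabilizer Z (Quotient.out ω) = ⊥ := by
      rw [eq_bot_iff]; intro z hz
      exact Subgroup.mem_bot.2 (hfree z _ hz)
    rw [this]
    exact Nat.card_congr (QuotientGroup.quotientBot.toEquiv)
  rw [hcard]

/-- Let G be a finite group acting faithfully and transitively on a finite set Ω with fixity k ≥ 1: every non-identity element fixes at most k points and some non-identity element fixes exactly k points. Then |Z(G)| divides k; if k = 2 then |G| is even; and for every prime p > k dividing |G| and every point α, either p does not divide |G_α| or G_α contains a Sylow p-subgroup of G. -/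
theorem result {G : Type*} [Group G] [Finite G] {Ω : Type*} [Fintype Ω] [MulAction G Ω] [FaithfulSMul G Ω]
    (htr : MulAction.IsPretransitive G Ω) (k : ℕ) (hk : 1 ≤ k)
    (hfix : ∀ g : G, g ≠ 1 → Nat.card (MulAction.fixedBy Ω g) ≤ k) (hex : ∃ g : G, g ≠ 1 ∧ Nat.card (MulAction.fixedBy Ω g) = k) :
    Nat.card (Subgroup.center G) ∣ k ∧ (k = 2 → 2 ∣ Nat.card G) ∧
      ∀ (p : ℕ), p.Prime → k < p → p ∣ Nat.card G → ∀ α : Ω,
        ¬ p ∣ Nat.card (MulAction.stabilizer G α) ∨ ¬ p ∣ (MulAction.stabilizer G α).index := by
  classical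
  haveI := Fintype.ofFinite G
  obtain ⟨g₀, hg₀, hg₀k⟩ := hex
  have hfaith : ∀ g : G, (∀ ω : Ω, g • ω = ω) → g = 1 := by
    intro g hg
    apply FaithfulSMul.eq_of_smul_eq_smul (α := Ω)
    intro a; simpa using hg a
  refine ⟨?_, ?_, ?_⟩
  · -- |Z(G)| divides k
    let Z := Subgroup.center G
    letI : MulAction Z (fixedBy Ω g₀) :=
      { smul := fun z x => ⟨(z : G) • x.1, by
          have hx : g₀ • x.1 = x.1 := x.2
          show g₀ • ((z : G) • x.1) = (z : G) • x.1
          rw [← mul_smul, (Subgroup.mem_center_iff.1 z.2 g₀), mul_smul, hx]⟩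
        one_smul := fun x => Subtype.ext (by show ((1 : G)) • x.1 = x.1; simp)
        mul_smul := fun a b x => Subtype.ext (by show ((a * b : Z) : G) • x.1 = (a : G) • (b : G) • x.1; simp [mul_smul]) }
    have hfree : ∀ (z : Z) (x : fixedBy Ω g₀), z • x = x → z = 1 := by
      intro z x hzx
      have h1 : (z : G) • x.1 = x.1 := congrArg Subtype.val hzx
      apply Subtype.ext
      show (z : G) = 1
      apply hfaith
      intro ω
      obtain ⟨g, rfl⟩ := htr.exists_smul_eq x.1 ω
      rw [← mul_smul, (Subgroup.mem_center_iff.1 z.2 g).symm, mul_smul, h1]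
    have := card_dvd_of_free hfree
    rwa [hg₀k] at this
  · -- k = 2 forces even order
    rintro rfl
    by_contra hodd
    -- no element swaps two points
    have hnoswap : ∀ (g : G) (a b : Ω), a ≠ b → g • a = b → g • b = a → False := by
      intro g a b hab h1 h2
      have hgg : g ^ 2 ∈ stabilizer G a := by
        show g ^ 2 • a = a
        rw [pow_two, mul_smul, h1, h2]
      -- odd order: g is a power of g^2
      have hodd' : ¬ 2 ∣ orderOf g := fun hd => hodd (hd.trans (orderOf_dvd_natCard g))
      obtain ⟨m, hm⟩ : ∃ m, orderOf g = 2 * m + 1 := by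
        have := Nat.odd_iff.2 (Nat.mod_two_ne_zero.1 (fun h => hodd' (Nat.dvd_of_mod_eq_zero h)))
        exact this
      have hmem : g ∈ Subgroup.zpowers (g ^ 2) := by
        refine ⟨((m + 1 : ℕ) : ℤ), ?_⟩
        show (g ^ 2) ^ (((m + 1 : ℕ) : ℤ)) = g
        rw [zpow_natCast, ← pow_mul]
        have e : 2 * (m + 1) = orderOf g + 1 := by omega
        rw [e, pow_succ, pow_orderOf_eq_one, one_mul]
      have : g ∈ stabilizer G a := (Subgroup.zpowers_le.2 hgg) hmem
      apply hab
      have h5 : g • a = a := this
      rw [← h1, h5]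
    obtain ⟨a, b, hab⟩ : ∃ a b : Ω, a ≠ b ∧ g₀ • a = a ∧ g₀ • b = b := by
      have hc : Nat.card (fixedBy Ω g₀) = 2 := hg₀k
      have h1 : 1 < Nat.card (fixedBy Ω g₀) := by omega
      haveI : Finite (fixedBy Ω g₀) := inferInstance
      rw [Finite.one_lt_card_iff_nontrivial] at h1
      obtain ⟨x, y, hxy⟩ := h1
      exact ⟨x.1, y.1, fun h => hxy (Subtype.ext h), x.2, y.2⟩
    obtain ⟨hab, ha, hb⟩ := hab
    -- Set of pairs in the orbit of (a,b)
    let O : Set (Ω × Ω) := orbit G (a, b)
    let D : Subgroup G := stabilizer G (a, b)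
    have hO : Nat.card O * Nat.card D = Nat.card G := by
      have h1 : Nat.card O = D.index :=
        Nat.card_congr (MulAction.orbitEquivQuotientStabilizer G (a, b))
      rw [h1]
      exact Subgroup.index_mul_card D
    have hDne : 2 ≤ Nat.card D := by
      have h1 : 1 < Nat.card D := by
        rw [Finite.one_lt_card_iff_nontrivial]
        refine ⟨⟨⟨g₀, ?_⟩, 1, ?_⟩⟩
        · show g₀ • (a, b) = (a, b)
          simp [ha, hb]
        · intro h; exact hg₀ (congrArg Subtype.val h)
      omega
    -- T = {(g, q) : g ≠ 1, q ∈ O, g fixes q}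
    let T : Type _ := {t : G × O // t.1 ≠ 1 ∧ t.1 • (t.2 : Ω × Ω) = (t.2 : Ω × Ω)}
    -- count one way
    have hT1 : Nat.card T = Nat.card O * (Nat.card D - 1) := by
      have hfib : ∀ q : O, Nat.card {t : T // t.1.2 = q} = Nat.card D - 1 := by
        rintro ⟨q, hq⟩
        obtain ⟨h, rfl⟩ := hq
        have hq2 : Nat.card {g : stabilizer G (h • (a, b)) // g ≠ 1} = Nat.card D - 1 := by
          have e : Nat.card (stabilizer G (h • (a, b))) = Nat.card D := by
            rw [MulAction.stabilizer_smul_eq_stabilizer_map_conj]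
            exact Subgroup.card_map_of_injective (MulEquiv.injective _)
          have : Nat.card {g : stabilizer G (h • (a, b)) // g ≠ 1} = Nat.card (stabilizer G (h • (a, b))) - 1 := by
            rw [Nat.card_eq_fintype_card, Fintype.card_subtype_compl]
            simp [Nat.card_eq_fintype_card]
          rw [this, e]
        rw [← hq2]
        refine Nat.card_congr ⟨fun t => ⟨⟨t.1.1.1, ?_⟩, ?_⟩, fun g => ⟨⟨(g.1.1, ⟨h • (a, b), mem_orbit _ _⟩), ?_, ?_⟩, rfl⟩, ?_, ?_⟩
        · have h1 := t.1.2.2
          rw [t.2] at h1
          exact h1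
        · intro h1
          apply t.1.2.1
          exact congrArg Subtype.val h1
        · intro h1
          apply g.2
          exact Subtype.ext h1
        · exact g.1.2
        · rintro ⟨⟨⟨g, q⟩, h1, h2⟩, h3⟩
          apply Subtype.ext
          apply Subtype.ext
          apply Prod.ext
          · rfl
          · exact h3.symm
        · intro g
          rfl
      let f : T → O := fun t => t.1.2
      have e : T ≃ Σ q : O, {t : T // f t = q} := (Equiv.sigmaFiberEquiv f).symm
      rw [Nat.card_congr e, Nat.card_sigma]
      simp only [f, hfib]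
      simp [Nat.card_eq_fintype_card]
    -- every g ≠ 1 has at most one fixed pair in O, and then exactly 2 fixed points
    have hT2 : 2 * Nat.card T ≤ Nat.card G - Nat.card Ω := by
      -- map T → G injective
      have hinj : Function.Injective (fun t : T => t.1.1) := by
        rintro ⟨⟨g, ⟨⟨c, d⟩, hq⟩⟩, h1, h2⟩ ⟨⟨g', ⟨⟨c', d'⟩, hq'⟩⟩, h1', h2'⟩ heq
        simp only at heq
        subst heq
        -- points c,d,c',d' all fixed by g
        have hc1 : g • c = c := (Prod.ext_iff.1 h2).1
        have hd1 : g • d = d := (Prod.ext_iff.1 h2).2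
        have hc2 : g • c' = c' := (Prod.ext_iff.1 h2').1
        have hd2 : g • d' = d' := (Prod.ext_iff.1 h2').2
        obtain ⟨u, hu⟩ := hq
        obtain ⟨v, hv⟩ := hq'
        have hcd : c ≠ d := by
          have e1 : u • a = c := (Prod.ext_iff.1 hu).1
          have e2 : u • b = d := (Prod.ext_iff.1 hu).2
          intro h; apply hab
          apply (MulAction.injective u)
          show u • a = u • b
          rw [e1, e2, h]
        have hcd' : c' ≠ d' := by
          have e1 : v • a = c' := (Prod.ext_iff.1 hv).1
          have e2 : v • b = d' := (Prod.ext_iff.1 hv).2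
          intro h; apply hab
          apply (MulAction.injective v)
          show v • a = v • b
          rw [e1, e2, h]
        have hle : Nat.card (fixedBy Ω g) ≤ 2 := hfix g h1
        -- c' and d' ∈ {c,d}
        have hmem : ∀ x : Ω, g • x = x → x = c ∨ x = d := by
          intro x hx
          by_contra hcon
          push Not at hcon
          have : Nat.card (fixedBy Ω g) ≥ 3 := by
            have hsub : ({c, d, x} : Finset Ω) ⊆ Finset.univ.filter (fun y : Ω => g • y = y) := by
              intro y hy
              simp only [Finset.mem_insert, Finset.mem_singleton] at hy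
              simp only [Finset.mem_filter, Finset.mem_univ, true_and]
              rcases hy with rfl | rfl | rfl
              · exact hc1
              · exact hd1
              · exact hx
            have hcard3 : ({c, d, x} : Finset Ω).card = 3 := by
              rw [Finset.card_eq_three]
              exact ⟨c, d, x, hcd, fun h => hcon.1 h.symm, fun h => hcon.2 h.symm, rfl⟩
            have := Finset.card_le_card hsub
            rw [hcard3] at this
            have e : Nat.card (fixedBy Ω g) = (Finset.univ.filter (fun y : Ω => g • y = y)).card := by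
              rw [Nat.card_eq_fintype_card, Fintype.card_subtype]
              rfl
            omega
          omega
        have hswap : ¬ (c' = d ∧ d' = c) := by
          rintro ⟨hs1, hs2⟩
          -- u⁻¹ v swaps: (u⁻¹ v) a = u⁻¹ c' = u⁻¹ d = b, (u⁻¹ v) b = u⁻¹ d' = u⁻¹ c = a
          have e1 : u • a = c := (Prod.ext_iff.1 hu).1
          have e2 : u • b = d := (Prod.ext_iff.1 hu).2
          have e3 : v • a = c' := (Prod.ext_iff.1 hv).1
          have e4 : v • b = d' := (Prod.ext_iff.1 hv).2
          refine hnoswap (u⁻¹ * v) a b hab ?_ ?_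
          · rw [mul_smul, e3, hs1, ← e2, inv_smul_smul]
          · rw [mul_smul, e4, hs2, ← e1, inv_smul_smul]
        have heq : c' = c ∧ d' = d := by
          rcases hmem c' hc2 with h3 | h3 <;> rcases hmem d' hd2 with h4 | h4
          · exact absurd (h3.trans h4.symm) hcd'
          · exact ⟨h3, h4⟩
          · exact absurd ⟨h3, h4⟩ hswap
          · exact absurd (h3.trans h4.symm) hcd'
        obtain ⟨rfl, rfl⟩ := heq
        rfl
      -- Burnside
      have hB : ∑ g : G, Nat.card (fixedBy Ω g) = Nat.card G := by
        have := MulAction.sum_card_fixedBy_eq_card_orbits_mul_card_group G Ω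
        simp only [Nat.card_eq_fintype_card]
        rw [this]
        have h1 : Fintype.card (orbitRel.Quotient G Ω) = 1 := by
          haveI := (MulAction.pretransitive_iff_subsingleton_quotient G Ω).1 htr
          have h2 : Nat.card (orbitRel.Quotient G Ω) = 1 :=
            Nat.card_eq_one_iff_unique.2 ⟨inferInstance, ⟨Quotient.mk'' a⟩⟩
          rwa [Nat.card_eq_fintype_card] at h2
        rw [h1, one_mul]
      have hfix1 : Nat.card (fixedBy Ω (1 : G)) = Nat.card Ω := by
        refine Nat.card_congr ⟨fun x => x.1, fun x => ⟨x, by simp⟩, fun x => rfl, fun x => rfl⟩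
      -- image of T in G\{1}, each with ≥ 2 fixed points
      let S : Finset G := Finset.univ.filter (fun g => ∃ t : T, t.1.1 = g)
      have hScard : S.card = Nat.card T := by
        have : Nat.card T = Nat.card S := by
          refine Nat.card_congr (Equiv.ofBijective (fun t : T => ⟨t.1.1, by simp [S]⟩) ⟨?_, ?_⟩)
          · intro x y hxy
            exact hinj (congrArg Subtype.val hxy)
          · rintro ⟨g, hg⟩
            simp only [S, Finset.mem_filter, Finset.mem_univ, true_and] at hg
            obtain ⟨t, rfl⟩ := hg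
            exact ⟨t, rfl⟩
        rw [this]
        simp
      have hS1 : ∀ g ∈ S, g ≠ 1 ∧ 2 ≤ Nat.card (fixedBy Ω g) := by
        intro g hg
        simp only [S, Finset.mem_filter, Finset.mem_univ, true_and] at hg
        obtain ⟨⟨⟨g, ⟨⟨c, d⟩, hq⟩⟩, h1, h2⟩, rfl⟩ := hg
        refine ⟨h1, ?_⟩
        have hc1 : g • c = c := (Prod.ext_iff.1 h2).1
        have hd1 : g • d = d := (Prod.ext_iff.1 h2).2
        obtain ⟨u, hu⟩ := hq
        have hcd : c ≠ d := by
          have e1 : u • a = c := (Prod.ext_iff.1 hu).1
          have e2 : u • b = d := (Prod.ext_iff.1 hu).2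
          intro h; apply hab
          apply (MulAction.injective u)
          show u • a = u • b
          rw [e1, e2, h]
        have h1lt : 1 < Nat.card (fixedBy Ω g) := by
          rw [Finite.one_lt_card_iff_nontrivial]
          exact ⟨⟨⟨c, hc1⟩, ⟨d, hd1⟩, fun h => hcd (congrArg Subtype.val h)⟩⟩
        show 2 ≤ Nat.card (fixedBy Ω g)
        omega
      have hsum : 2 * S.card + Nat.card Ω ≤ Nat.card G := by
        rw [← hB, ← hfix1]
        have h1 : (1 : G) ∉ S := fun h => (hS1 1 h).1 rfl
        have : ∑ g ∈ insert (1 : G) S, Nat.card (fixedBy Ω g) ≤ ∑ g : G, Nat.card (fixedBy Ω g) :=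
          Finset.sum_le_sum_of_subset (Finset.subset_univ _)
        rw [Finset.sum_insert h1] at this
        have h2 : 2 * S.card ≤ ∑ g ∈ S, Nat.card (fixedBy Ω g) := by
          rw [mul_comm, Finset.card_eq_sum_ones, Finset.sum_mul]
          refine Finset.sum_le_sum (fun g hg => ?_)
          simpa using (hS1 g hg).2
        omega
      rw [← hScard]
      omega
    -- combine
    have hΩ : 1 ≤ Nat.card Ω := by
      haveI : Nonempty Ω := ⟨a⟩
      exact Nat.card_pos
    have hOpos : 1 ≤ Nat.card O := by
      haveI : Nonempty O := ⟨⟨(a, b), mem_orbit_self _⟩⟩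
      exact Nat.card_pos
    have hGpos : 0 < Nat.card G := Nat.card_pos
    rw [hT1] at hT2
    have h5 : Nat.card G ≤ 2 * (Nat.card O * (Nat.card D - 1)) := by
      rw [← hO]
      have : Nat.card D ≤ 2 * (Nat.card D - 1) := by omega
      calc Nat.card O * Nat.card D ≤ Nat.card O * (2 * (Nat.card D - 1)) := Nat.mul_le_mul_left _ this
        _ = 2 * (Nat.card O * (Nat.card D - 1)) := by ring
    omega
  · intro p hp hkp _ α
    by_contra hcon
    push Not at hcon
    obtain ⟨h1, h2⟩ := hcon
    haveI : Fact p.Prime := ⟨hp⟩
    obtain ⟨x, hx⟩ := exists_prime_orderOf_dvd_card' (G := stabilizer G α) p h1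
    -- card Ω = index
    have hΩ : Nat.card Ω = (stabilizer G α).index := by
      have := MulAction.index_stabilizer_of_transitive G α
      exact this.symm
    have hgp : IsPGroup p (Subgroup.zpowers (x : G)) := by
      apply IsPGroup.of_card (n := 1)
      rw [Nat.card_zpowers, pow_one, Subgroup.orderOf_coe]
      exact hx
    have hmod := IsPGroup.card_modEq_card_fixedPoints hgp (α := Ω)
    have hdvd : p ∣ Nat.card (fixedPoints (Subgroup.zpowers (x : G)) Ω) := by
      have h3 : p ∣ Nat.card Ω := by rw [hΩ]; exact h2
      exact (Nat.ModEq.dvd_iff hmod (dvd_refl p)).1 h3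
    have hfp : Nat.card (fixedPoints (Subgroup.zpowers (x : G)) Ω) = Nat.card (fixedBy Ω (x : G)) := by
      refine Nat.card_congr ⟨fun y => ⟨y.1, y.2 ⟨x, Subgroup.mem_zpowers _⟩⟩, fun y => ⟨y.1, ?_⟩, fun y => rfl, fun y => rfl⟩
      rintro ⟨g, hg⟩
      obtain ⟨n, rfl⟩ := hg
      have hy : (x : G) • y.1 = y.1 := y.2
      have hmem : (x : G) ^ n ∈ stabilizer G y.1 := Subgroup.zpow_mem _ hy n
      exact hmem
    rw [hfp] at hdvd
    have hx1 : (x : G) ≠ 1 := by
      intro h
      have : orderOf (x : G) = p := by rw [Subgroup.orderOf_coe]; exact hx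
      rw [h, orderOf_one] at this
      exact hp.one_lt.ne this
    have hle := hfix _ hx1
    have hpos : 0 < Nat.card (fixedBy Ω (x : G)) := by
      haveI : Nonempty (fixedBy Ω (x : G)) := ⟨⟨α, x.2⟩⟩
      exact Nat.card_pos
    have := Nat.le_of_dvd hpos hdvd
    omega

end Cfsg.Agent.S3389
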