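import Cfsg.Statements.S3495
import Mathlib

set_option autoImplicit false
open Cfsg

namespace Cfsg.Agent.S3495

open MulAction

variable {G : Type*} [Group G] {Ω : Type*} [MulAction G Ω]

private theorem reg_eq (N : Subgroup G) (hNreg : ∀ ω : Ω, MulAction.stabilizer N ω = ⊥) (α : Ω)
    {a b : G} (ha : a ∈ N) (hb : b ∈ N) (h : a • α = b • α) : a = b := by
  have h1 : (⟨b, hb⟩ : N)⁻¹ * ⟨a, ha⟩ ∈ MulAction.stabilizer N α := by
    rw [MulAction.mem_stabilizer_iff, mul_smul, inv_smul_eq_iff]
    exact h
  rw [hNreg α, Subgroup.mem_bot, inv_mul_eq_one] at h1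
  exact (congrArg Subtype.val h1).symm

/-- A subgroup of `N` normalized by a point stabilizer is trivial or `N`. -/
private theorem key (hprim : MulAction.IsPreprimitive G Ω) (N : Subgroup G) (hNc : IsMulCommutative N)
    (hNtr : MulAction.IsPretransitive N Ω) (hNreg : ∀ ω : Ω, MulAction.stabilizer N ω = ⊥) (α : Ω)
    (K : Subgroup G) (hKN : K ≤ N)
    (hK : ∀ g ∈ MulAction.stabilizer G α, ∀ k ∈ K, g * k * g⁻¹ ∈ K) : K = ⊥ ∨ K = N := by
  have hKn : K.Normal := by
    constructor
    intro k hk g
    obtain ⟨n, hn⟩ := hNtr.exists_smul_eq α (g • α)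
    have hh : (n : G)⁻¹ * g ∈ MulAction.stabilizer G α := by
      rw [MulAction.mem_stabilizer_iff, mul_smul, inv_smul_eq_iff]
      exact hn.symm
    have h1 := hK _ hh k hk
    have e : g * k * g⁻¹ = (n : G) * (((n : G)⁻¹ * g) * k * ((n : G)⁻¹ * g)⁻¹) * (n : G)⁻¹ := by group
    have h2 : (n : G) * (((n : G)⁻¹ * g) * k * ((n : G)⁻¹ * g)⁻¹) * (n : G)⁻¹ = ((n : G)⁻¹ * g) * k * ((n : G)⁻¹ * g)⁻¹ := by
      have h3 := mul_comm' n (⟨_, hKN h1⟩ : N)
      have h4 : (n : G) * (((n : G)⁻¹ * g) * k * ((n : G)⁻¹ * g)⁻¹) = (((n : G)⁻¹ * g) * k * ((n : G)⁻¹ * g)⁻¹) * n :=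
        congrArg Subtype.val h3
      rw [h4]; group
    rw [e, h2]
    exact h1
  have hb : IsBlock G (orbit K α) := IsBlock.orbit_of_normal α
  rcases hprim.isTrivialBlock_of_isBlock hb with h | h
  · left
    rw [eq_bot_iff]
    intro k hk
    have h1 : k • α = α := h (mem_orbit α (⟨k, hk⟩ : K)) (mem_orbit_self α)
    have := reg_eq N hNreg α (hKN hk) N.one_mem (by rw [h1, one_smul])
    exact Subgroup.mem_bot.2 this
  · right
    apply le_antisymm hKN
    intro n hn
    have h1 : n • α ∈ orbit K α := by rw [h]; trivial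
    obtain ⟨k, hk⟩ := h1
    have hk' : (k : G) • α = n • α := hk
    have := reg_eq N hNreg α (hKN k.2) hn hk'
    rw [← this]
    exact k.2

/-- Let a finite group G act faithfully and primitively on a finite set Ω with non-trivial point stabilizers, each acting primitively on every one of its orbits (an extremely primitive group), and suppose G has an elementary abelian normal p-subgroup N acting regularly on Ω (affine type). Then every non-trivial subgroup M of a point stabilizer G_α that is normal in G_α has the same orbits on Ω as G_α, and normalizes no subgroup of N other than 1 and N. -/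
theorem result {G : Type*} [Group G] [Finite G] {Ω : Type*} [Fintype Ω] [MulAction G Ω] [FaithfulSMul G Ω] (hprim : MulAction.IsPreprimitive G Ω) (hH : ∀ α : Ω, MulAction.stabilizer G α ≠ ⊥) (hep : ∀ (α : Ω) (ω : Ω), MulAction.IsPreprimitive (MulAction.stabilizer G α) (MulAction.orbit (MulAction.stabilizer G α) ω))
    (N : Subgroup G) [N.Normal] (hNc : IsMulCommutative N) (p : ℕ) (hp : p.Prime) (hNp : ∀ n ∈ N, n ^ p = 1)
    (hNtr : MulAction.IsPretransitive N Ω) (hNreg : ∀ ω : Ω, MulAction.stabilizer N ω = ⊥) (α : Ω) (M : Subgroup G) (hM : M ≠ ⊥) (hMle : M ≤ MulAction.stabilizer G α)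
    (hMn : MulAction.stabilizer G α ≤ Subgroup.normalizer (M : Set G)) :
    (∀ ω : Ω, MulAction.orbit M ω = MulAction.orbit (MulAction.stabilizer G α) ω) ∧
    (∀ L : Subgroup G, L ≤ N → M ≤ Subgroup.normalizer (L : Set G) → L = ⊥ ∨ L = N) := by
  classical
  have hMnorm : ∀ g ∈ MulAction.stabilizer G α, ∀ m ∈ M, g * m * g⁻¹ ∈ M := by
    intro g hg m hm
    exact (Subgroup.mem_normalizer_iff.1 (hMn hg) m).1 hm
  have hNnorm : ∀ (g n : G), n ∈ N → g * n * g⁻¹ ∈ N := fun g n hn => ‹N.Normal›.conj_mem n hn g
  have hsm : ∀ (m n : G), m ∈ MulAction.stabilizer G α → (m * n * m⁻¹) • α = m • (n • α) := by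
    intro m n hm
    have h1 : m⁻¹ • α = α := by
      rw [inv_smul_eq_iff]
      exact ((MulAction.mem_stabilizer_iff).1 hm).symm
    rw [mul_smul, h1, mul_smul]
  have part1 : ∀ ω : Ω, MulAction.orbit M ω = MulAction.orbit (MulAction.stabilizer G α) ω := by
    intro ω
    apply Set.Subset.antisymm
    · rintro _ ⟨m, rfl⟩
      exact ⟨⟨m, hMle m.2⟩, rfl⟩
    · have hep' := hep α ω
      haveI hM' : (M.subgroupOf (MulAction.stabilizer G α)).Normal :=
        (Subgroup.normal_subgroupOf_iff_le_normalizer hMle).2 hMn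
      let a : MulAction.orbit (MulAction.stabilizer G α) ω := ⟨ω, MulAction.mem_orbit_self ω⟩
      have hb : IsBlock (MulAction.stabilizer G α) (orbit (M.subgroupOf (MulAction.stabilizer G α)) a) :=
        IsBlock.orbit_of_normal a
      rcases hep'.isTrivialBlock_of_isBlock hb with h | h
      · -- M fixes ω
        have hfix : ∀ m ∈ M, m • ω = ω := by
          intro m hm
          have hm' : (⟨m, hMle hm⟩ : MulAction.stabilizer G α) ∈ M.subgroupOf (MulAction.stabilizer G α) :=
            Subgroup.mem_subgroupOf.2 hm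
          have h1 : (⟨m, hMle hm⟩ : MulAction.stabilizer G α) • a ∈
              orbit (M.subgroupOf (MulAction.stabilizer G α)) a := ⟨⟨_, hm'⟩, rfl⟩
          have h2 := h h1 (mem_orbit_self a)
          exact congrArg Subtype.val h2
        by_cases hωα : ω = α
        · subst hωα
          rintro _ ⟨g, rfl⟩
          have : (g : G) • ω = ω := (MulAction.mem_stabilizer_iff).1 g.2
          show (g : G) • ω ∈ _
          rw [this]
          exact mem_orbit_self ω
        · exfalso
          obtain ⟨n, hn⟩ := hNtr.exists_smul_eq α ω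
          have hn' : (n : G) • α = ω := hn
          obtain ⟨C, hCdef⟩ : ∃ C : Subgroup G, C = N ⊓ Subgroup.centralizer (M : Set G) := ⟨_, rfl⟩
          have hCmem : ∀ c, c ∈ C ↔ c ∈ N ∧ ∀ m ∈ M, m * c = c * m := by
            intro c
            rw [hCdef, Subgroup.mem_inf, Subgroup.mem_centralizer_iff]
            rfl
          have hCN : C ≤ N := fun c hc => ((hCmem c).1 hc).1
          have hCnorm : ∀ g ∈ MulAction.stabilizer G α, ∀ c ∈ C, g * c * g⁻¹ ∈ C := by
            intro g hg c hc
            obtain ⟨h1, h2⟩ := (hCmem c).1 hc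
            refine (hCmem _).2 ⟨hNnorm g c h1, ?_⟩
            intro m hm
            have h3 := h2 _ (hMnorm g⁻¹ (inv_mem hg) m hm)
            simp only [inv_inv] at h3
            calc m * (g * c * g⁻¹) = g * ((g⁻¹ * m * g) * c) * g⁻¹ := by group
              _ = g * (c * (g⁻¹ * m * g)) * g⁻¹ := by rw [h3]
              _ = g * c * g⁻¹ * m := by group
          have hnC : (n : G) ∈ C := by
            refine (hCmem _).2 ⟨n.2, ?_⟩
            intro m hm
            have h1 : (m * n * m⁻¹) • α = (n : G) • α := by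
              rw [hsm m n (hMle hm), hn', hfix m hm]
            have h2 := reg_eq N hNreg α (hNnorm m n n.2) n.2 h1
            rw [mul_inv_eq_iff_eq_mul] at h2
            exact h2
          have hn1 : (n : G) ≠ 1 := by
            intro h1
            rw [h1, one_smul] at hn'
            exact hωα hn'.symm
          rcases key hprim N hNc hNtr hNreg α C hCN hCnorm with h0 | h0
          · rw [h0, Subgroup.mem_bot] at hnC
            exact hn1 hnC
          · apply hM
            rw [eq_bot_iff]
            intro m hm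
            rw [Subgroup.mem_bot]
            apply FaithfulSMul.eq_of_smul_eq_smul (α := Ω)
            intro y
            obtain ⟨n', hn''⟩ := hNtr.exists_smul_eq α y
            have hn3 : (n' : G) • α = y := hn''
            have h1 : (n' : G) ∈ C := by rw [h0]; exact n'.2
            have h2 := ((hCmem _).1 h1).2 m hm
            rw [one_smul, ← hn3, ← mul_smul, h2, mul_smul]
            have : m • α = α := (MulAction.mem_stabilizer_iff).1 (hMle hm)
            rw [this]
      · -- M is transitive on the orbit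
        rintro x hx
        have h1 : (⟨x, hx⟩ : MulAction.orbit (MulAction.stabilizer G α) ω) ∈
            orbit (M.subgroupOf (MulAction.stabilizer G α)) a := by
          rw [h]; trivial
        obtain ⟨m, hm⟩ := h1
        have h2 : ((m : MulAction.stabilizer G α) : G) • ω = x := congrArg Subtype.val hm
        exact ⟨⟨_, Subgroup.mem_subgroupOf.1 m.2⟩, h2⟩
  refine ⟨part1, ?_⟩
  intro L hLN hLM
  apply key hprim N hNc hNtr hNreg α L hLN
  intro g hg l hl
  have h1 : g • (l • α) ∈ MulAction.orbit (MulAction.stabilizer G α) (l • α) := ⟨⟨g, hg⟩, rfl⟩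
  rw [← part1] at h1
  obtain ⟨m, hm⟩ := h1
  have hm' : (m : G) • (l • α) = g • (l • α) := hm
  have h2 : ((m : G) * l * (m : G)⁻¹) • α = (g * l * g⁻¹) • α := by
    rw [hsm _ _ (hMle m.2), hsm _ _ hg, hm']
  have h3 := reg_eq N hNreg α (hNnorm _ l (hLN hl)) (hNnorm g l (hLN hl)) h2
  rw [← h3]
  exact (Subgroup.mem_normalizer_iff.1 (hLM m.2) l).1 hl

end Cfsg.Agent.S3495
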