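import Cfsg.Statements.S3498
import Cfsg.Agent.Lib.Lead.SylowConj
import Cfsg.Agent.Lib.PLocal.CardSup
import Mathlib

set_option autoImplicit false

namespace Cfsg.Agent.S3498

/-- A maximal subgroup of a finite almost simple group does not have prime order. Here G is almost simple in the sense that it has a non-abelian simple normal subgroup T with trivial centralizer. -/
theorem result {G : Type*} [Group G] [Finite G] (T : Subgroup G) [T.Normal] (hT : IsSimpleGroup T) (hTc : ¬ IsMulCommutative T)
    (hC : Subgroup.centralizer (T : Set G) = ⊥) (H : Subgroup G) (hmax : IsCoatom H) : ¬ (Nat.card H).Prime := by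
  classical
  intro hprime
  set p := Nat.card H with hp
  haveI : Fact p.Prime := ⟨hprime⟩
  -- every nontrivial normal subgroup contains T
  have hdich : ∀ X : Subgroup G, X.Normal → X ≠ ⊥ → T ≤ X := by
    intro X hX hX1
    have hinf : (X.subgroupOf T).Normal := Subgroup.Normal.subgroupOf hX T
    rcases hT.eq_bot_or_eq_top_of_normal _ hinf with h | h
    · -- T ⊓ X = ⊥ so X centralizes T
      exfalso
      apply hX1
      rw [eq_bot_iff, ← hC]
      intro x hx
      rw [Subgroup.mem_centralizer_iff]
      intro t ht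
      have hc : t * x * t⁻¹ * x⁻¹ ∈ T ⊓ X := by
        constructor
        · have h1 : x * t⁻¹ * x⁻¹ ∈ T := (inferInstance : T.Normal).conj_mem _ (T.inv_mem ht) x
          have e : t * x * t⁻¹ * x⁻¹ = t * (x * t⁻¹ * x⁻¹) := by group
          rw [e]
          exact T.mul_mem ht h1
        · have h1 : t * x * t⁻¹ ∈ X := hX.conj_mem _ hx t
          exact X.mul_mem h1 (X.inv_mem hx)
      have hbot : T ⊓ X = ⊥ := by
        rw [eq_bot_iff]
        rintro y ⟨hyT, hyX⟩
        have : (⟨y, hyT⟩ : T) ∈ X.subgroupOf T := by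
          rwa [Subgroup.mem_subgroupOf]
        rw [h] at this
        have := Subgroup.mem_bot.1 this
        exact Subgroup.mem_bot.2 (congrArg Subtype.val this)
      rw [hbot] at hc
      have h2 := Subgroup.mem_bot.1 hc
      have h3 : t * x * t⁻¹ = x := by
        have := congrArg (fun z => z * x) h2
        simpa using this
      have := congrArg (fun z => z * t) h3
      simpa using this
    · intro t ht
      have : (⟨t, ht⟩ : T) ∈ X.subgroupOf T := by rw [h]; trivial
      rwa [Subgroup.mem_subgroupOf] at this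
  have hHbot : H ≠ ⊥ := by
    intro h
    rw [h] at hp
    simp only [Subgroup.card_bot] at hp
    rw [hp] at hprime
    exact Nat.not_prime_one hprime
  have hHtop : H ≠ ⊤ := hmax.1
  -- T not of small type
  have hTnab : ∀ Y : Subgroup G, T ≤ Y → Nat.card Y = p → False := by
    intro Y hY hcY
    apply hTc
    have hdvd : Nat.card T ∣ p := by
      rw [← hcY]; exact Subgroup.card_dvd_of_le hY
    rcases (Nat.dvd_prime hprime).1 hdvd with h | h
    · have : Subsingleton T := (Nat.card_eq_one_iff_unique.1 h).1
      exact ⟨⟨fun a b => Subsingleton.elim _ _⟩⟩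
    · haveI : Fact (Nat.card T).Prime := ⟨h ▸ hprime⟩
      haveI : IsCyclic T := isCyclic_of_prime_card rfl
      exact ⟨⟨fun a b => mul_comm' a b⟩⟩
  -- H is not normal, so self-normalizing
  have hnn : ¬ H.Normal := fun hN => hTnab H (hdich H hN hHbot) rfl
  have hself : Subgroup.normalizer (H : Set G) = H := by
    by_contra hne
    have hlt : H < Subgroup.normalizer (H : Set G) := lt_of_le_of_ne Subgroup.le_normalizer (Ne.symm hne)
    have htop := hmax.2 _ hlt
    exact hnn (Subgroup.normalizer_eq_top_iff.1 htop)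
  -- H is a Sylow subgroup
  have hnotsq : ¬ p ^ 2 ∣ Nat.card G := by
    intro hd
    have h1 : Nat.card H = p ^ 1 := by rw [pow_one]
    have h2 := Sylow.prime_dvd_card_quotient_normalizer (p := p) (n := 1) hd h1
    have h3 : Subgroup.comap (Subgroup.normalizer (H : Set G)).subtype H = ⊤ := by
      have : H.subgroupOf (Subgroup.normalizer (H : Set G)) = ⊤ := by
        rw [Subgroup.subgroupOf_eq_top, hself]
      exact this
    rw [h3] at h2
    have h4 : Nat.card (↥(Subgroup.normalizer (H : Set G)) ⧸ (⊤ : Subgroup ↥(Subgroup.normalizer (H : Set G)))) = 1 := by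
      rw [Nat.card_eq_one_iff_unique]
      exact ⟨QuotientGroup.subsingleton_quotient_top, ⟨1⟩⟩
    rw [h4] at h2
    exact hprime.one_lt.ne' (Nat.dvd_one.1 h2)
  have hfact : (Nat.card G).factorization p = 1 := by
    have hG0 : Nat.card G ≠ 0 := Nat.card_pos.ne'
    have h1 : p ∣ Nat.card G := by
      rw [hp]; exact Subgroup.card_subgroup_dvd_card H
    have h2 : 1 ≤ (Nat.card G).factorization p := by
      have := (hprime.pow_dvd_iff_le_factorization hG0 (k := 1)).1 (by simpa using h1)
      exact this
    have h3 : ¬ 2 ≤ (Nat.card G).factorization p := by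
      intro h
      exact hnotsq ((hprime.pow_dvd_iff_le_factorization hG0).2 h)
    omega
  let P : Sylow p G := Sylow.ofCard H (by rw [hfact, pow_one])
  have hPH : (P : Subgroup G) = H := rfl
  have hHcomm : ∀ a ∈ H, ∀ b ∈ H, a * b = b * a := by
    intro a ha b hb
    haveI : Fact (Nat.card H).Prime := ⟨hprime⟩
    haveI : IsCyclic H := isCyclic_of_prime_card rfl
    have := mul_comm' (⟨a, ha⟩ : H) ⟨b, hb⟩
    exact congrArg Subtype.val this
  have hPnc : Subgroup.normalizer ((P : Subgroup G) : Set G) ≤ Subgroup.centralizer ((P : Subgroup G) : Set G) := by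
    rw [hPH, hself]
    intro a ha
    rw [Subgroup.mem_centralizer_iff]
    intro b hb
    exact hHcomm b hb a ha
  have hcomp := MonoidHom.ker_transferSylow_isComplement' P hPnc
  set K := (MonoidHom.transferSylow P hPnc).ker with hK
  have hKn : K.Normal := MonoidHom.normal_ker _
  have hcard : Nat.card K * p = Nat.card G := hcomp.card_mul
  have hKH : ∀ x, x ∈ K → x ∈ H → x = 1 := by
    intro x hx hxH
    have := hcomp.disjoint
    exact Subgroup.disjoint_def.1 this hx hxH
  have hKne : Nat.card K ≠ 1 := by
    intro h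
    rw [h, one_mul] at hcard
    apply hHtop
    exact Subgroup.eq_top_of_card_eq H (hp.symm.trans hcard)
  obtain ⟨q, hq, hqd⟩ := Nat.exists_prime_and_dvd hKne
  haveI : Fact q.Prime := ⟨hq⟩
  obtain ⟨Q⟩ : Nonempty (Sylow q K) := inferInstance
  have hQne : (Q : Subgroup K) ≠ ⊥ := by
    intro h
    have hc : Nat.card Q = q ^ (Nat.card K).factorization q := Sylow.card_eq_multiplicity Q
    have h1 : Nat.card (Q : Subgroup K) = 1 := by rw [h]; simp
    have h2 : 1 ≤ (Nat.card K).factorization q := by
      have := (hq.pow_dvd_iff_le_factorization (Nat.card_pos.ne') (k := 1)).1 (by simpa using hqd)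
      exact this
    have h3 : q ∣ Nat.card Q := by
      rw [hc]; exact dvd_pow_self q (by omega)
    have h4 : Nat.card Q = 1 := h1
    rw [h4] at h3
    exact hq.one_lt.ne' (Nat.dvd_one.1 h3)
  set R0 : Subgroup G := (Q : Subgroup K).map K.subtype with hR0
  have hR0ne : R0 ≠ ⊥ := by
    intro h
    apply hQne
    rw [hR0, Subgroup.map_eq_bot_iff_of_injective _ K.subtype_injective] at h
    exact h
  have hR0K : R0 ≤ K := by
    rw [hR0]; exact Subgroup.map_subtype_le _
  have hR0q : IsPGroup q R0 := by
    have : IsPGroup q (Q : Subgroup K) := Q.isPGroup'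
    exact this.map K.subtype
  have hfr := Sylow.normalizer_sup_eq_top Q
  -- p divides |N(R0)|
  set N0 : Subgroup G := Subgroup.normalizer (R0 : Set G) with hN0
  have hN0K : N0 ⊔ K = ⊤ := hfr
  have hN0le : N0 ≤ Subgroup.normalizer (K : Set G) := by
    rw [Subgroup.normalizer_eq_top_iff.2 hKn]; exact le_top
  have hprod := CfsgLib.PLocal.card_sup_mul_card_inf N0 K hN0le
  rw [hN0K, Subgroup.card_top, ← hcard] at hprod
  have hKpos : 0 < Nat.card K := Nat.card_pos
  have hpN : p ∣ Nat.card N0 := by
    have : p * Nat.card ↥(N0 ⊓ K) = Nat.card N0 := by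
      apply Nat.eq_of_mul_eq_mul_right hKpos
      calc p * Nat.card ↥(N0 ⊓ K) * Nat.card K = Nat.card K * p * Nat.card ↥(N0 ⊓ K) := by ring
        _ = Nat.card N0 * Nat.card K := hprod
    exact Dvd.intro _ this
  obtain ⟨x, hx⟩ := exists_prime_orderOf_dvd_card' (G := N0) p hpN
  have hxord : orderOf (x : G) = p := by rw [Subgroup.orderOf_coe]; exact hx
  have hzp : IsPGroup p (Subgroup.zpowers (x : G)) := by
    apply IsPGroup.of_card (n := 1)
    rw [Nat.card_zpowers, pow_one, hxord]
  obtain ⟨c, -, hc⟩ := CfsgLib.Lead.exists_conj_into_sylow P (⊤ : Subgroup G) le_top _ le_top hzp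
  have hcx : c⁻¹ * (x : G) * c ∈ H := hc _ (Subgroup.mem_zpowers _)
  -- y = c⁻¹ x c generates H
  set y : G := c⁻¹ * (x : G) * c with hy
  have hyord : orderOf y = p := by
    rw [hy]
    have : c⁻¹ * (x : G) * c = MulAut.conj c⁻¹ (x : G) := by simp [MulAut.conj_apply]
    rw [this, MulEquiv.orderOf_eq, hxord]
  have hHy : H = Subgroup.zpowers y := by
    symm
    apply Subgroup.eq_of_le_of_card_ge
    · rw [Subgroup.zpowers_le]; exact hcx
    · rw [Nat.card_zpowers, hyord]
  set R : Subgroup G := R0.map (MulAut.conj c⁻¹).toMonoidHom with hR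
  have hRne : R ≠ ⊥ := by
    intro h
    apply hR0ne
    rw [hR, Subgroup.map_eq_bot_iff_of_injective _ (MulEquiv.injective _)] at h
    exact h
  have hRK : R ≤ K := by
    rintro _ ⟨r, hr, rfl⟩
    have := hKn.conj_mem r (hR0K hr) c⁻¹
    simpa [MulAut.conj_apply] using this
  have hmemR : ∀ z, z ∈ R ↔ c * z * c⁻¹ ∈ R0 := by
    intro z
    constructor
    · rintro ⟨r, hr, rfl⟩
      simpa [MulAut.conj_apply, mul_assoc] using hr
    · intro h
      refine ⟨_, h, ?_⟩
      simp [MulAut.conj_apply, mul_assoc]
  have hyN : y ∈ Subgroup.normalizer (R : Set G) := by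
    rw [Subgroup.mem_normalizer_iff]
    intro z
    rw [hmemR, hmemR]
    have e : c * (y * z * y⁻¹) * c⁻¹ = (x : G) * (c * z * c⁻¹) * (x : G)⁻¹ := by
      rw [hy]; group
    rw [e]
    exact (Subgroup.mem_normalizer_iff.1 x.2 _)
  have hHN : H ≤ Subgroup.normalizer (R : Set G) := by
    rw [hHy, Subgroup.zpowers_le]; exact hyN
  have hRle : ¬ R ≤ H := by
    intro hle
    apply hRne
    rw [eq_bot_iff]
    intro z hz
    exact Subgroup.mem_bot.2 (hKH z (hRK hz) (hle hz))
  have hsup : H ⊔ R = ⊤ := by
    apply hmax.2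
    exact lt_of_le_of_ne le_sup_left (fun h => hRle (by rw [h]; exact le_sup_right))
  have hRnorm : R.Normal := by
    rw [← Subgroup.normalizer_eq_top_iff, eq_top_iff, ← hsup]
    exact sup_le hHN Subgroup.le_normalizer
  have hTR := hdich R hRnorm hRne
  -- R is a q-group
  have hRq : IsPGroup q R := hR0q.map _
  have hTq : IsPGroup q T := hRq.to_le hTR
  haveI : Nontrivial T := hT.toNontrivial
  have hcn := hTq.center_nontrivial
  rcases hT.eq_bot_or_eq_top_of_normal (Subgroup.center T) inferInstance with h | h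
  · rw [h] at hcn
    exact (not_nontrivial_iff_subsingleton.2 (inferInstance : Subsingleton (⊥ : Subgroup T))) hcn
  · apply hTc
    refine ⟨⟨fun a b => ?_⟩⟩
    have : a ∈ Subgroup.center T := by rw [h]; trivial
    exact (Subgroup.mem_center_iff.1 this b).symm

end Cfsg.Agent.S3498
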