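import Cfsg.Statements.S3504
import Mathlib

set_option autoImplicit false
open Cfsg

namespace Cfsg.Agent.S3504

open Equiv Equiv.Perm

private theorem exists_fpf (n r : ℕ) (hr : r.Prime) (hrn : r ∣ n) (hn : 0 < n) :
    ∃ g : Perm (Fin n), g.cycleType = Multiset.replicate (n / r) r := by
  classical
  have := (Equiv.Perm.exists_with_cycleType_iff (α := Fin n) (m := Multiset.replicate (n / r) r)).2 ?_
  · exact this
  · constructor
    · simp [Nat.div_mul_cancel hrn]
    · intro a ha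
      rw [Multiset.eq_of_mem_replicate ha]
      exact hr.two_le

private theorem fpf_of_cycleType (n r : ℕ) (hr : r.Prime) (hrn : r ∣ n) (hn : 0 < n) (g : Perm (Fin n))
    (hg : g.cycleType = Multiset.replicate (n / r) r) :
    (orderOf g).Prime ∧ orderOf g = r ∧ ∀ i : Fin n, g i ≠ i := by
  have h0 : n / r ≠ 0 := by
    have := Nat.div_pos (Nat.le_of_dvd hn hrn) hr.pos
    omega
  have hord : orderOf g = r := by
    rw [← Equiv.Perm.lcm_cycleType, hg]
    apply Nat.dvd_antisymm
    · rw [Multiset.lcm_dvd]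
      intro b hb
      rw [Multiset.eq_of_mem_replicate hb]
    · apply Multiset.dvd_lcm
      exact Multiset.mem_replicate.2 ⟨h0, rfl⟩
  refine ⟨by rwa [hord], hord, ?_⟩
  have hsupp : g.support.card = n := by
    rw [← Equiv.Perm.sum_cycleType, hg]
    simp [Nat.div_mul_cancel hrn]
  intro i hi
  have : g.support = Finset.univ := by
    apply Finset.eq_univ_of_card
    simp [hsupp]
  have h1 : i ∈ g.support := by simp [this]
  exact (Equiv.Perm.mem_support.1 h1) hi

private theorem cycleType_of_fpf (n : ℕ) (g : Perm (Fin n)) (hp : (orderOf g).Prime) (hf : ∀ i : Fin n, g i ≠ i) :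
    orderOf g ∣ n ∧ g.cycleType = Multiset.replicate (n / orderOf g) (orderOf g) := by
  obtain ⟨k, hk⟩ := Equiv.Perm.cycleType_prime_order hp
  have hsupp : g.support.card = n := by
    have : g.support = Finset.univ := by
      ext i
      simp [Equiv.Perm.mem_support, hf i]
    rw [this]; simp
  have hsum : (k + 1) * orderOf g = g.support.card := by
    rw [← Equiv.Perm.sum_cycleType, hk]; simp; ring
  have hdvd : orderOf g ∣ n := ⟨k + 1, by
    have := hsum.trans hsupp
    linarith⟩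
  refine ⟨hdvd, ?_⟩
  rw [hk]
  congr 1
  have : (k + 1) * orderOf g = n := hsum.trans hsupp
  exact (Nat.div_eq_of_eq_mul_left hp.pos this.symm).symm

/-- For n ≥ 5, the fixed-point-free permutations of prime order in the symmetric group of degree n form a single conjugacy class if and only if n is a prime power. -/
theorem result (n : ℕ) (hn : 5 ≤ n) :
    Nat.card {c : ConjClasses (Equiv.Perm (Fin n)) // ∃ g : Equiv.Perm (Fin n), ConjClasses.mk g = c ∧ (orderOf g).Prime ∧ ∀ i : Fin n, g i ≠ i} = 1 ↔ IsPrimePow n := by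
  classical
  have hn0 : 0 < n := by omega
  rw [Nat.card_eq_one_iff_unique, isPrimePow_iff_unique_prime_dvd]
  constructor
  · rintro ⟨hsub, -⟩
    have hne : n ≠ 1 := by omega
    refine ⟨n.minFac, ⟨Nat.minFac_prime hne, Nat.minFac_dvd n⟩, ?_⟩
    rintro s ⟨hs, hsn⟩
    obtain ⟨g1, hg1⟩ := exists_fpf n s hs hsn hn0
    obtain ⟨g2, hg2⟩ := exists_fpf n n.minFac (Nat.minFac_prime hne) (Nat.minFac_dvd n) hn0
    obtain ⟨p1, o1, f1⟩ := fpf_of_cycleType n s hs hsn hn0 g1 hg1
    obtain ⟨p2, o2, f2⟩ := fpf_of_cycleType n _ (Nat.minFac_prime hne) (Nat.minFac_dvd n) hn0 g2 hg2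
    have := hsub.elim ⟨ConjClasses.mk g1, g1, rfl, p1, f1⟩ ⟨ConjClasses.mk g2, g2, rfl, p2, f2⟩
    have h3 : ConjClasses.mk g1 = ConjClasses.mk g2 := congrArg Subtype.val this
    have h4 : IsConj g1 g2 := ConjClasses.mk_eq_mk_iff_isConj.1 h3
    have h5 : orderOf g1 = orderOf g2 := by
      rw [← Equiv.Perm.lcm_cycleType, ← Equiv.Perm.lcm_cycleType, Equiv.Perm.isConj_iff_cycleType_eq.1 h4]
    rw [o1, o2] at h5
    exact h5
  · rintro ⟨q, ⟨hq, hqn⟩, huniq⟩
    constructor
    · constructor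
      rintro ⟨c1, g1, rfl, p1, f1⟩ ⟨c2, g2, rfl, p2, f2⟩
      obtain ⟨d1, c1'⟩ := cycleType_of_fpf n g1 p1 f1
      obtain ⟨d2, c2'⟩ := cycleType_of_fpf n g2 p2 f2
      have e1 := huniq _ ⟨p1, d1⟩
      have e2 := huniq _ ⟨p2, d2⟩
      apply Subtype.ext
      apply ConjClasses.mk_eq_mk_iff_isConj.2
      rw [Equiv.Perm.isConj_iff_cycleType_eq, c1', c2', e1, e2]
    · obtain ⟨g, hg⟩ := exists_fpf n q hq hqn hn0
      obtain ⟨p1, _, f1⟩ := fpf_of_cycleType n q hq hqn hn0 g hg
      exact ⟨⟨ConjClasses.mk g, g, rfl, p1, f1⟩⟩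

end Cfsg.Agent.S3504
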