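import Cfsg.Statements.S3508
import Mathlib

set_option autoImplicit false
open Cfsg

namespace Cfsg.Agent.S3508

open Polynomial

private theorem unip (p : ℕ) [Fact p.Prime] {V : Type*} [AddCommGroup V] [Module (ZMod p) V]
    [Module.Finite (ZMod p) V]
    (c : V →ₗ[ZMod p] V) (r s : ℕ) (hc : c ^ (p ^ r) = 1) (hfin : Module.finrank (ZMod p) V < p ^ s) :
    c ^ (p ^ s) = 1 ∧ ∑ i ∈ Finset.range (p ^ s), c ^ i = 0 := by
  have hpoly : ∀ k : ℕ, ((X : (ZMod p)[X]) - 1) ^ (p ^ k) = X ^ (p ^ k) - 1 := by
    intro k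
    have := sub_pow_char_pow (R := (ZMod p)[X]) (p := p) (n := k) (x := X) (y := 1)
    simpa using this
  have hev : ∀ k : ℕ, (c - 1) ^ (p ^ k) = c ^ (p ^ k) - 1 := by
    intro k
    have := congrArg (Polynomial.aeval c) (hpoly k)
    simpa using this
  have hnil : IsNilpotent (c - 1) := ⟨p ^ r, by rw [hev, hc, sub_self]⟩
  have hfr : (c - 1) ^ Module.finrank (ZMod p) V = 0 := by
    have h1 := IsNilpotent.charpoly_eq_X_pow_finrank hnil
    have h2 := LinearMap.aeval_self_charpoly (c - 1)
    rw [h1] at h2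
    simpa using h2
  have hzero : ∀ k, Module.finrank (ZMod p) V ≤ k → (c - 1) ^ k = 0 := fun k hk =>
    pow_eq_zero_of_le hk hfr
  constructor
  · have := hzero (p ^ s) hfin.le
    rw [hev] at this
    exact sub_eq_zero.1 this
  · have hq : 1 ≤ p ^ s := by omega
    have hg : (∑ i ∈ Finset.range (p ^ s), (X : (ZMod p)[X]) ^ i) = (X - 1) ^ (p ^ s - 1) := by
      have hne : (X - 1 : (ZMod p)[X]) ≠ 0 := Polynomial.X_sub_C_ne_zero (1 : ZMod p)
      apply mul_right_cancel₀ hne
      rw [geom_sum_mul, ← hpoly s, ← pow_succ]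
      congr 1
      omega
    have := congrArg (Polynomial.aeval c) hg
    simp only [map_sum, map_pow, aeval_X, map_sub, map_one] at this
    rw [this]
    exact hzero _ (by omega)

private theorem unip_group_aux (p : ℕ) [Fact p.Prime] {A : Type*} [CommGroup A] [Finite A] [Module (ZMod p) (Additive A)] (m : ℕ)
    (hcard : Nat.card A = p ^ m) (φ : A →* A) (r s : ℕ)
    (hφ : ∀ x, φ^[p ^ r] x = x) (hs : m < p ^ s) :
    (∀ x, φ^[p ^ s] x = x) ∧ ∀ a, ∏ i ∈ Finset.range (p ^ s), φ^[i] a = 1 := by
  classical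
  have hp := (Fact.out : p.Prime)
  haveI : Fintype (Additive A) := Fintype.ofFinite _
  haveI : Module.Finite (ZMod p) (Additive A) := Module.Finite.of_finite
  let c : Additive A →ₗ[ZMod p] Additive A := (MonoidHom.toAdditive φ).toZModLinearMap p
  have hcc : ∀ x : A, c (Additive.ofMul x) = Additive.ofMul (φ x) := fun x => rfl
  have hcpow : ∀ (k : ℕ) (x : A), (c ^ k) (Additive.ofMul x) = Additive.ofMul (φ^[k] x) := by
    intro k
    induction k with
    | zero => intro x; simp
    | succ k ih =>
      intro x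
      rw [pow_succ', Module.End.mul_apply, ih, hcc, Function.iterate_succ_apply']
  have hcr : c ^ (p ^ r) = 1 := by
    ext v
    have := hcpow (p ^ r) v.toMul
    rw [hφ] at this
    simpa using this
  have hfr : Module.finrank (ZMod p) (Additive A) = m := by
    have h1 := Module.card_eq_pow_finrank (K := ZMod p) (V := Additive A)
    rw [ZMod.card, ← Nat.card_eq_fintype_card] at h1
    have h2 : Nat.card (Additive A) = Nat.card A := rfl
    rw [h2, hcard] at h1
    exact (Nat.pow_right_injective hp.two_le h1).symm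
  obtain ⟨h1, h2⟩ := unip p c r s hcr (by rw [hfr]; exact hs)
  constructor
  · intro x
    have := hcpow (p ^ s) x
    rw [h1] at this
    exact Additive.ofMul.injective (by simpa using this.symm)
  · intro a
    have h3 := LinearMap.congr_fun h2 (Additive.ofMul a)
    simp only [LinearMap.sum_apply, LinearMap.zero_apply, hcpow] at h3
    apply Additive.ofMul.injective
    rw [ofMul_prod, h3]
    rfl

private theorem unip_group (p : ℕ) [Fact p.Prime] {A : Type*} [CommGroup A] [Finite A] (m : ℕ)
    (hA : ∀ x : A, x ^ p = 1) (hcard : Nat.card A = p ^ m) (φ : A →* A) (r s : ℕ)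
    (hφ : ∀ x, φ^[p ^ r] x = x) (hs : m < p ^ s) :
    (∀ x, φ^[p ^ s] x = x) ∧ ∀ a, ∏ i ∈ Finset.range (p ^ s), φ^[i] a = 1 := by
  have hV : ∀ x : Additive A, p • x = 0 := fun x => by
    have := hA x.toMul
    exact Additive.toMul.injective (by simpa using this)
  letI : Module (ZMod p) (Additive A) := AddCommGroup.zmodModule hV
  exact unip_group_aux p m hcard φ r s hφ hs

/-- Let a finite group G act faithfully on a set Ω with p ^ m points (p prime) and have an elementary abelian normal p-subgroup N acting regularly on Ω (so G is a group of affine transformations of an m-dimensional space over the field with p elements). If G contains an element of order p ^ r with r ≥ 1, then p ^ (r − 1) ≤ m. In particular an element of order p ^ m forces m ≤ 2, and m ≤ 1 when p is odd. -/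
theorem result {G : Type*} [Group G] [Finite G] {Ω : Type*} [Fintype Ω] [MulAction G Ω] [FaithfulSMul G Ω] (p m : ℕ) (hp : p.Prime) (hcard : Fintype.card Ω = p ^ m)
    (N : Subgroup G) [N.Normal] (hNc : IsMulCommutative N) (hNp : ∀ n ∈ N, n ^ p = 1)
    (hNtr : MulAction.IsPretransitive N Ω) (hNreg : ∀ ω : Ω, MulAction.stabilizer N ω = ⊥)
    (g : G) (r : ℕ) (hr : 1 ≤ r) (hg : orderOf g = p ^ r) :
    p ^ (r - 1) ≤ m ∧ (r = m → m ≤ 2 ∧ (2 < p → m ≤ 1)) := by
  classical
  haveI : Fact p.Prime := ⟨hp⟩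
  have hmain : p ^ (r - 1) ≤ m := by
    by_contra hcon
    push_neg at hcon
    letI cN : CommGroup N := { (inferInstance : Group N) with mul_comm := fun a b => mul_comm' a b }
    have hcN : Nat.card N = p ^ m := by
      obtain ⟨α⟩ : Nonempty Ω := by
        rw [← Fintype.card_pos_iff, hcard]
        exact pow_pos hp.pos m
      rw [← hcard, ← Nat.card_eq_fintype_card]
      refine Nat.card_congr (Equiv.ofBijective (fun x : N => x • α) ⟨?_, ?_⟩)
      · intro x y hxy
        have h1 : y⁻¹ * x ∈ MulAction.stabilizer N α := by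
          rw [MulAction.mem_stabilizer_iff, mul_smul, inv_smul_eq_iff]
          exact hxy
        rw [hNreg α, Subgroup.mem_bot] at h1
        exact (inv_mul_eq_one.1 h1).symm
      · intro ω
        exact hNtr.exists_smul_eq α ω
    let φ : N →* N := (MulAut.conjNormal g : N ≃* N).toMonoidHom
    have hφ : ∀ x : N, ((φ x : N) : G) = g * x * g⁻¹ := fun x => by
      simp [φ]
    have hφk : ∀ (k : ℕ) (x : N), ((φ^[k] x : N) : G) = g ^ k * x * (g ^ k)⁻¹ := by
      intro k
      induction k with
      | zero => intro x; simp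
      | succ k ih =>
        intro x
        rw [Function.iterate_succ_apply', hφ, ih, pow_succ']
        group
    have hφr : ∀ x, φ^[p ^ r] x = x := by
      intro x
      apply Subtype.ext
      rw [hφk, ← hg, pow_orderOf_eq_one]
      simp
    obtain ⟨h1, h2⟩ := unip_group p (A := N) m (fun x => Subtype.ext (by simpa using hNp x x.2)) hcN φ r (r - 1) hφr hcon
    obtain ⟨α⟩ : Nonempty Ω := by
      rw [← Fintype.card_pos_iff, hcard]
      exact pow_pos hp.pos m
    obtain ⟨a, ha⟩ := hNtr.exists_smul_eq α (g • α)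
    have hstep : ∀ k : ℕ, g ^ k • α = (∏ i ∈ Finset.range k, φ^[i] a) • α := by
      intro k
      induction k with
      | zero => simp
      | succ k ih =>
        rw [Finset.prod_range_succ', pow_succ', mul_smul, ih]
        have e1 : ∏ i ∈ Finset.range k, φ^[i + 1] a = φ (∏ i ∈ Finset.range k, φ^[i] a) := by
          rw [map_prod]
          refine Finset.prod_congr rfl fun i _ => ?_
          rw [Function.iterate_succ_apply']
        rw [e1, Function.iterate_zero, id_eq, mul_smul, ha, Subgroup.smul_def, Subgroup.smul_def, hφ]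
        simp [mul_smul]
    have hqα : g ^ (p ^ (r - 1)) • α = α := by
      rw [hstep, h2]; simp
    have hqall : ∀ ω : Ω, g ^ (p ^ (r - 1)) • ω = (1 : G) • ω := by
      intro ω
      obtain ⟨n, rfl⟩ := hNtr.exists_smul_eq α ω
      rw [one_smul]
      have e2 : ((φ^[p ^ (r - 1)] n : N) : G) = g ^ (p ^ (r - 1)) * n * (g ^ (p ^ (r - 1)))⁻¹ := hφk _ n
      rw [h1] at e2
      rw [Subgroup.smul_def, ← mul_smul]
      have e3 : g ^ (p ^ (r - 1)) * (n : G) = (n : G) * g ^ (p ^ (r - 1)) := by
        exact (mul_inv_eq_iff_eq_mul.1 e2.symm)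
      rw [e3, mul_smul, hqα]
    have hone : g ^ (p ^ (r - 1)) = 1 := FaithfulSMul.eq_of_smul_eq_smul hqall
    have hdvd := orderOf_dvd_of_pow_eq_one hone
    rw [hg, Nat.pow_dvd_pow_iff_le_right hp.one_lt] at hdvd
    omega
  refine ⟨hmain, ?_⟩
  rintro rfl
  constructor
  · by_contra hcon
    push_neg at hcon
    obtain ⟨k, rfl⟩ : ∃ k, r = k + 3 := ⟨r - 3, by omega⟩
    have h1 : 2 ^ (k + 3 - 1) ≤ p ^ (k + 3 - 1) := Nat.pow_le_pow_left hp.two_le _
    have h2 : k + 1 < 2 ^ (k + 1) := Nat.lt_two_pow_self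
    have h3 : 2 ^ (k + 3 - 1) = 2 * 2 ^ (k + 1) := by
      rw [show k + 3 - 1 = (k + 1) + 1 by omega, pow_succ]; ring
    omega
  · intro h2p
    by_contra hcon
    push_neg at hcon
    obtain ⟨k, rfl⟩ : ∃ k, r = k + 2 := ⟨r - 2, by omega⟩
    have h1 : 3 ^ (k + 2 - 1) ≤ p ^ (k + 2 - 1) := Nat.pow_le_pow_left (by omega) _
    have h2 : k < 2 ^ k := Nat.lt_two_pow_self
    have h4 : 2 ^ k ≤ 3 ^ k := Nat.pow_le_pow_left (by omega) _
    have h3 : 3 ^ (k + 2 - 1) = 3 * 3 ^ k := by
      rw [show k + 2 - 1 = k + 1 by omega, pow_succ]; ring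
    omega

end Cfsg.Agent.S3508
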