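import Cfsg.Statements.S3511
import Mathlib

set_option autoImplicit false

namespace Cfsg.Agent.S3511

/-- Let a finite group G act faithfully on a set Ω. If every element of G of square-free order has a regular cycle (an orbit of the cyclic group it generates with trivial stabilizer), then every element of G has a regular cycle. -/
theorem result {G : Type*} [Group G] [Finite G] {Ω : Type*} [MulAction G Ω] [FaithfulSMul G Ω]
    (h : ∀ g : G, Squarefree (orderOf g) → ∃ ω : Ω, MulAction.stabilizer (Subgroup.zpowers g) ω = ⊥) (g : G) :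
    ∃ ω : Ω, MulAction.stabilizer (Subgroup.zpowers g) ω = ⊥ := by
  classical
  set n := orderOf g with hn
  have hn0 : 0 < n := orderOf_pos g
  set r := ∏ p ∈ n.primeFactors, p with hr
  have hrn : r ∣ n := Nat.prod_primeFactors_dvd n
  obtain ⟨c, hc⟩ := hrn
  have hr0 : 0 < r := Nat.pos_of_ne_zero (fun h => by rw [h] at hc; omega)
  have hc0 : 0 < c := Nat.pos_of_ne_zero (fun h => by rw [h] at hc; omega)
  have hord : orderOf (g ^ c) = r := by
    rw [orderOf_pow' g hc0.ne', ← hn, hc, Nat.gcd_mul_left_left, Nat.mul_div_cancel _ hc0]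
  have hsq : Squarefree r := by
    rw [hr]
    exact Finset.squarefree_prod_of_pairwise_isCoprime
      (fun a ha b hb hab => by
        have ha' := Nat.prime_of_mem_primeFactors ha
        have hb' := Nat.prime_of_mem_primeFactors hb
        exact Nat.coprime_iff_isRelPrime.1 ((Nat.coprime_primes ha' hb').2 hab))
      (fun a ha => (Nat.prime_of_mem_primeFactors ha).prime.squarefree)
  obtain ⟨ω, hω⟩ := h (g ^ c) (by rw [hord]; exact hsq)
  refine ⟨ω, ?_⟩
  rw [eq_bot_iff]
  rintro ⟨x, hx⟩ hxs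
  have hxs' : x • ω = ω := hxs
  by_contra hne
  have hx1 : x ≠ 1 := fun h => hne (by simp [h])
  set d := orderOf x with hd
  have hd1 : d ≠ 1 := fun h => hx1 (orderOf_eq_one_iff.1 h)
  obtain ⟨q, hq, e, he⟩ := Nat.exists_prime_and_dvd hd1
  have hd0 : 0 < d := orderOf_pos x
  have he0 : 0 < e := Nat.pos_of_ne_zero (fun h => by rw [h] at he; omega)
  -- y = x ^ e has order q
  set y := x ^ e with hy
  have hyord : orderOf y = q := by
    rw [hy, orderOf_pow' x he0.ne', ← hd, he, Nat.gcd_mul_left_left, Nat.mul_div_cancel _ he0]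
  have hyfix : y • ω = ω := by
    have hmem : x ^ e ∈ MulAction.stabilizer G ω := Subgroup.pow_mem _ hxs' e
    exact hmem
  -- y is a power of g
  have hxz : x ∈ Subgroup.zpowers g := hx
  obtain ⟨j, hj⟩ : ∃ j : ℕ, g ^ j = y := by
    have hyz : y ∈ Subgroup.zpowers g := Subgroup.pow_mem _ hx e
    rw [mem_powers_iff_mem_zpowers.symm] at hyz
    obtain ⟨j, hj⟩ := hyz
    exact ⟨j, hj⟩
  -- q | n
  have hqn : q ∣ n := by
    have h1 : q ∣ orderOf x := ⟨e, he⟩
    have h2 : orderOf x ∣ n := orderOf_dvd_of_mem_zpowers hx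
    exact h1.trans h2
  have hqr : q ∣ r := by
    rw [hr]
    exact Finset.dvd_prod_of_mem _ (Nat.mem_primeFactors.2 ⟨hq, hqn, hn0.ne'⟩)
  -- y ^ q = 1, so n | j q
  have h1 : n ∣ j * q := by
    rw [hn]
    apply orderOf_dvd_of_pow_eq_one
    rw [pow_mul, hj, ← hyord]
    exact pow_orderOf_eq_one y
  -- y ∈ ⟨g^c⟩
  obtain ⟨r', hr'⟩ := hqr
  have hyz : y ∈ Subgroup.zpowers (g ^ c) := by
    -- n = q * (r' * c); so r' * c | j
    have hn' : n = q * (r' * c) := by rw [hc, hr']; ring
    have h2 : r' * c ∣ j := by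
      rw [hn'] at h1
      have : q * (r' * c) ∣ q * j := by rwa [mul_comm j q] at h1
      exact Nat.dvd_of_mul_dvd_mul_left hq.pos this
    obtain ⟨t, ht⟩ := h2
    refine ⟨((r' * t : ℕ) : ℤ), ?_⟩
    show (g ^ c) ^ ((r' * t : ℕ) : ℤ) = y
    rw [zpow_natCast, ← pow_mul, ← hj, ht]
    congr 1
    ring
  -- contradiction with hω
  have hmem : (⟨y, hyz⟩ : Subgroup.zpowers (g ^ c)) ∈ MulAction.stabilizer (Subgroup.zpowers (g ^ c)) ω := hyfix
  rw [hω] at hmem
  have hy1 : y = 1 := congrArg Subtype.val (Subgroup.mem_bot.1 hmem)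
  rw [hy1, orderOf_one] at hyord
  exact hq.one_lt.ne hyord

end Cfsg.Agent.S3511
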