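import Cfsg.Statements.S3514
import Cfsg.Agent.Lib.PLocal.CardSup
import Cfsg.Agent.Lib.H9.Count
import Mathlib

set_option autoImplicit false

namespace Cfsg.Agent.S3514

section
variable {p : ℕ} [Fact p.Prime] {V : Type*} [AddCommGroup V] [Module (ZMod p) V] [Finite V]

private def stabL (v : V) : Subgroup (V ≃ₗ[ZMod p] V) :=
  { carrier := {e | e v = v}
    mul_mem' := by
      intro a b ha hb
      simp only [Set.mem_setOf_eq] at ha hb ⊢
      rw [LinearEquiv.mul_apply, hb, ha]
    one_mem' := by simp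
    inv_mem' := by
      intro a ha
      simp only [Set.mem_setOf_eq] at ha ⊢
      show a.symm v = v
      rw [LinearEquiv.symm_apply_eq]
      exact ha.symm }

private instance : Finite (V ≃ₗ[ZMod p] V) :=
  Finite.of_injective (fun e : V ≃ₗ[ZMod p] V => (e : V → V)) (fun a b h => LinearEquiv.ext (congrFun h))

/-- orbit-stabilizer for subgroups of GL(V). -/
private theorem orbit_card (K : Subgroup (V ≃ₗ[ZMod p] V)) (v : V) :
    Nat.card {u : V | ∃ k ∈ K, k v = u} * Nat.card ↥(K ⊓ stabL v) = Nat.card K := by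
  classical
  let f : K → {u : V | ∃ k ∈ K, k v = u} := fun k => ⟨k.1 v, k.1, k.2, rfl⟩
  have hf : Function.Surjective f := by
    rintro ⟨_, k, hk, rfl⟩
    exact ⟨⟨k, hk⟩, rfl⟩
  have hfib : ∀ b : {u : V | ∃ k ∈ K, k v = u}, Nat.card {k : K // f k = b} = Nat.card ↥(K ⊓ stabL v) := by
    rintro ⟨_, k, hk, rfl⟩
    refine Nat.card_congr ⟨fun x => ⟨k⁻¹ * x.1.1, K.mul_mem (K.inv_mem hk) x.1.2, ?_⟩,
      fun y => ⟨⟨k * y.1, K.mul_mem hk y.2.1⟩, ?_⟩, ?_, ?_⟩
    · have h : x.1.1 v = k v := congrArg Subtype.val x.2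
      show (k⁻¹ * x.1.1) v = v
      rw [LinearEquiv.mul_apply, h]
      show k.symm (k v) = v
      simp
    · apply Subtype.ext
      show (k * y.1) v = k v
      rw [LinearEquiv.mul_apply]
      have : y.1 v = v := y.2.2
      rw [this]
    · intro x
      apply Subtype.ext
      apply Subtype.ext
      show k * (k⁻¹ * x.1.1) = x.1.1
      group
    · intro y
      apply Subtype.ext
      show k⁻¹ * (k * y.1) = y.1
      group
  rw [CfsgLib.H9.natCard_eq_of_fibers f _ hfib]
end

/-- Let p be a prime, V a finite vector space over the field with p elements, and H a group of linear transformations of V all of whose orbits on V have size coprime to p. (i) Every normal subgroup K of H has all its orbits on V of size coprime to p. (ii) If N is a group of linear transformations of V of order coprime to p that is normalized by H, then the group generated by N and H has all its orbits on V of size coprime to p. -/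
theorem result (p : ℕ) [Fact p.Prime] {V : Type*} [AddCommGroup V] [Module (ZMod p) V] [Finite V]
    (H : Subgroup (V ≃ₗ[ZMod p] V)) (hH : ∀ v : V, ¬ p ∣ Nat.card {u : V | ∃ h ∈ H, h v = u}) :
    (∀ K : Subgroup (V ≃ₗ[ZMod p] V), K ≤ H → H ≤ Subgroup.normalizer (K : Set (V ≃ₗ[ZMod p] V)) →
        ∀ v : V, ¬ p ∣ Nat.card {u : V | ∃ k ∈ K, k v = u}) ∧
    (∀ N : Subgroup (V ≃ₗ[ZMod p] V), ¬ p ∣ Nat.card N → H ≤ Subgroup.normalizer (N : Set (V ≃ₗ[ZMod p] V)) →
        ∀ v : V, ¬ p ∣ Nat.card {u : V | ∃ x ∈ N ⊔ H, x v = u}) := by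
  have hp : p.Prime := Fact.out
  refine ⟨?_, ?_⟩
  · intro K hKH hn v hdvd
    apply hH v
    set A := H ⊓ stabL v with hA
    have hAH : A ≤ H := inf_le_left
    have hAn : A ≤ Subgroup.normalizer (K : Set (V ≃ₗ[ZMod p] V)) := hAH.trans hn
    have h1 := CfsgLib.PLocal.card_sup_mul_card_inf A K hAn
    have h2 := orbit_card K v
    have h3 := orbit_card H v
    have hKA : K ⊓ stabL v = A ⊓ K := by
      rw [hA]
      ext x
      simp only [Subgroup.mem_inf]
      constructor
      · rintro ⟨a, b⟩; exact ⟨⟨hKH a, b⟩, a⟩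
      · rintro ⟨⟨_, b⟩, c⟩; exact ⟨c, b⟩
    rw [hKA] at h2
    have hpos : 0 < Nat.card ↥(A ⊓ K) := Nat.card_pos
    have hApos : 0 < Nat.card A := Nat.card_pos
    set o := Nat.card {u : V | ∃ k ∈ K, k v = u} with ho
    set o' := Nat.card {u : V | ∃ h ∈ H, h v = u} with ho'
    -- |A ⊔ K| = o * |A|
    have h4 : Nat.card ↥(A ⊔ K) = o * Nat.card A := by
      apply Nat.eq_of_mul_eq_mul_right hpos
      rw [h1, ← h2]; ring
    -- |A ⊔ K| divides |H|
    have h5 : Nat.card ↥(A ⊔ K) ∣ Nat.card H :=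
      Subgroup.card_dvd_of_le (sup_le hAH hKH)
    obtain ⟨c, hc⟩ := h5
    have h6 : o' = o * c := by
      apply Nat.eq_of_mul_eq_mul_right hApos
      rw [h3, hc, h4]; ring
    rw [h6]
    exact Dvd.dvd.mul_right hdvd c
  · intro N hN hn v hdvd
    apply hH v
    set G := N ⊔ H with hG
    have h1 := orbit_card G v
    have h2 := orbit_card H v
    have h3 := CfsgLib.PLocal.card_sup_mul_card_inf H N hn
    have hsup : H ⊔ N = G := by rw [hG, sup_comm]
    rw [hsup] at h3
    have hle : H ⊓ stabL v ≤ G ⊓ stabL v := inf_le_inf_right _ le_sup_right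
    obtain ⟨d, hd⟩ := Subgroup.card_dvd_of_le hle
    set o := Nat.card {u : V | ∃ x ∈ G, x v = u} with ho
    set o' := Nat.card {u : V | ∃ h ∈ H, h v = u} with ho'
    have hpos : 0 < Nat.card ↥(H ⊓ stabL v) := Nat.card_pos
    have key : Nat.card N * o' = o * d * Nat.card ↥(H ⊓ N) := by
      apply Nat.eq_of_mul_eq_mul_right hpos
      calc Nat.card N * o' * Nat.card ↥(H ⊓ stabL v) = Nat.card N * (o' * Nat.card ↥(H ⊓ stabL v)) := by ring
        _ = Nat.card H * Nat.card N := by rw [h2]; ring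
        _ = Nat.card G * Nat.card ↥(H ⊓ N) := h3.symm
        _ = o * Nat.card ↥(G ⊓ stabL v) * Nat.card ↥(H ⊓ N) := by rw [h1]
        _ = o * d * Nat.card ↥(H ⊓ N) * Nat.card ↥(H ⊓ stabL v) := by rw [hd]; ring
    have hdvd' : p ∣ Nat.card N * o' := by
      rw [key]
      exact Dvd.dvd.mul_right (Dvd.dvd.mul_right hdvd d) _
    rcases hp.dvd_mul.1 hdvd' with h | h
    · exact absurd h hN
    · exact h

end Cfsg.Agent.S3514
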