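import Cfsg.Statements.S3515
import Cfsg.Agent.Lib.Lead.Affine
import Mathlib

set_option autoImplicit false

namespace Cfsg.Agent.S3515

private theorem cases4 : ∀ v : Fin 2 → ZMod 2, v = 0 ∨ v = ![1, 0] ∨ v = ![0, 1] ∨ v = ![1, 1] := by decide

private theorem two_case (σ g : Equiv.Perm (Fin 2 → ZMod 2)) (h0 : σ 0 = g 0)
    (h1 : σ ![1, 0] = g ![1, 0]) (h2 : σ ![0, 1] = g ![0, 1]) : σ = g := by
  ext1 x
  rcases cases4 x with rfl | rfl | rfl | rfl
  · exact h0
  · exact h1
  · exact h2
  · have hne0 : σ ![1, 1] ≠ g 0 := by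
      rw [← h0]; exact fun h => absurd (σ.injective h) (by decide)
    have hne1 : σ ![1, 1] ≠ g ![1, 0] := by
      rw [← h1]; exact fun h => absurd (σ.injective h) (by decide)
    have hne2 : σ ![1, 1] ≠ g ![0, 1] := by
      rw [← h2]; exact fun h => absurd (σ.injective h) (by decide)
    obtain ⟨y, hy⟩ := g.surjective (σ ![1, 1])
    rcases cases4 y with rfl | rfl | rfl | rfl
    · exact absurd hy.symm hne0
    · exact absurd hy.symm hne1
    · exact absurd hy.symm hne2
    · exact hy.symm

/-- Every primitive affine permutation group of degree p² is 3-closed. Let p be a prime and G a group of permutations of the plane V = F_p² consisting of affine maps x ↦ Ax + b, containing all translations, and acting primitively on V. Then any permutation σ of V that agrees on every triple of points with some element of G (σ preserves every G-orbit on ordered triples) already lies in G. -/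
theorem result (p : ℕ) [Fact p.Prime] (G : Subgroup (Equiv.Perm (Fin 2 → ZMod p)))
    (haff : (G : Set (Equiv.Perm (Fin 2 → ZMod p))) ⊆ {τ : Equiv.Perm (Fin 2 → ZMod p) | ∃ (A : (Fin 2 → ZMod p) ≃ₗ[ZMod p] (Fin 2 → ZMod p)) (b : Fin 2 → ZMod p), ∀ x, τ x = A x + b})
    (htrans : ∀ b : Fin 2 → ZMod p, ∃ g ∈ G, ∀ x, g x = x + b) (hprim : MulAction.IsPreprimitive G (Fin 2 → ZMod p))
    (σ : Equiv.Perm (Fin 2 → ZMod p)) (hσ : (∀ t : Fin 3 → (Fin 2 → ZMod p), ∃ g ∈ G, ∀ i, σ (t i) = g (t i))) : σ ∈ G := by
  classical
  by_cases hp : p = 2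
  · subst hp
    obtain ⟨g, hg, hgt⟩ := hσ ![0, ![1, 0], ![0, 1]]
    have : σ = g := two_case σ g (by simpa using hgt 0) (by simpa using hgt 1) (by simpa using hgt 2)
    rw [this]; exact hg
  · -- p odd: σ is affine
    let e : Fin 2 → (Fin 2 → ZMod p) := fun i => Pi.single i 1
    obtain ⟨g, hg, hgt⟩ := hσ ![0, e 0, e 1]
    have h0 : σ 0 = g 0 := by simpa using hgt 0
    have h1 : σ (e 0) = g (e 0) := by simpa using hgt 1
    have h2 : σ (e 1) = g (e 1) := by simpa using hgt 2
    suffices hσg : σ = g by rw [hσg]; exact hg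
    have hmid := CfsgLib.Lead.midpoint_of_approx (Γ := (G : Set _)) haff σ hσ
    obtain ⟨A, b, hA⟩ := CfsgLib.Lead.affine_of_midpoint hp σ hmid
    obtain ⟨B, c, hB⟩ := haff hg
    have hbc : b = c := by
      have := h0
      rw [hA, hB] at this
      simpa using this
    subst hbc
    have hAB : A = B := by
      apply LinearEquiv.toLinearMap_injective
      apply (Pi.basisFun (ZMod p) (Fin 2)).ext
      intro i
      have hi : A (e i) = B (e i) := by
        fin_cases i
        · have := h1
          rw [hA, hB] at this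
          exact add_right_cancel this
        · have := h2
          rw [hA, hB] at this
          exact add_right_cancel this
      simpa [e, Pi.basisFun_apply] using hi
    subst hAB
    ext1 x
    rw [hA, hB]

end Cfsg.Agent.S3515
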