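import Cfsg.Statements.S3516
import Cfsg.Agent.Lib.Lead.Affine
import Mathlib

set_option autoImplicit false

namespace Cfsg.Agent.S3516

/-- Let p be an odd prime, d ≥ 3, and G a group of affine permutations x ↦ Ax + b of V = F_p^d containing all translations and all maps x ↦ Ax with A of determinant 1. Then the 3-closure of G is the full affine group: a permutation σ of V agrees on every triple of points with some element of G if and only if σ is an affine map. -/
theorem result (p : ℕ) [Fact p.Prime] (hp : p ≠ 2) (d : ℕ) (hd : 3 ≤ d) (G : Subgroup (Equiv.Perm (Fin d → ZMod p)))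
    (haff : (G : Set (Equiv.Perm (Fin d → ZMod p))) ⊆ {τ : Equiv.Perm (Fin d → ZMod p) | ∃ (A : (Fin d → ZMod p) ≃ₗ[ZMod p] (Fin d → ZMod p)) (b : Fin d → ZMod p), ∀ x, τ x = A x + b})
    (htrans : ∀ b : Fin d → ZMod p, ∃ g ∈ G, ∀ x, g x = x + b)
    (hsl : ∀ A : (Fin d → ZMod p) ≃ₗ[ZMod p] (Fin d → ZMod p), LinearMap.det (A : (Fin d → ZMod p) →ₗ[ZMod p] (Fin d → ZMod p)) = 1 → ∃ g ∈ G, ∀ x, g x = A x)
    (σ : Equiv.Perm (Fin d → ZMod p)) :
    (∀ t : Fin 3 → (Fin d → ZMod p), ∃ g ∈ G, ∀ i, σ (t i) = g (t i)) ↔ σ ∈ {τ : Equiv.Perm (Fin d → ZMod p) | ∃ (A : (Fin d → ZMod p) ≃ₗ[ZMod p] (Fin d → ZMod p)) (b : Fin d → ZMod p), ∀ x, τ x = A x + b} := by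
  classical
  constructor
  · intro hσ
    exact CfsgLib.Lead.affine_of_midpoint hp σ
      (CfsgLib.Lead.midpoint_of_approx (Γ := (G : Set _)) haff σ hσ)
  · rintro ⟨A, b, hA⟩ t
    set u1 := t 1 - t 0 with hu1
    set u2 := t 2 - t 0 with hu2
    let W : Submodule (ZMod p) (Fin d → ZMod p) := Submodule.span (ZMod p) {u1, u2}
    have hW : W < ⊤ := by
      apply lt_top_iff_ne_top.2
      intro htop
      have h1 : Module.finrank (ZMod p) W ≤ 2 := by
        have := finrank_span_finset_le_card (R := ZMod p) ({u1, u2} : Finset (Fin d → ZMod p))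
        have h2 : ({u1, u2} : Finset (Fin d → ZMod p)).card ≤ 2 := Finset.card_le_two
        simp only [Finset.coe_insert, Finset.coe_singleton] at this
        exact this.trans h2
      have h3 : Module.finrank (ZMod p) W = d := by
        rw [htop, finrank_top]; exact Module.finrank_fin_fun (ZMod p)
      omega
    obtain ⟨ℓ, hℓ, hWℓ⟩ := Submodule.exists_le_ker_of_lt_top W hW
    obtain ⟨v0, hv0⟩ : ∃ v0, ℓ v0 ≠ 0 := by
      by_contra hcon
      push Not at hcon
      exact hℓ (LinearMap.ext hcon)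
    -- normalize so that ℓ v = 1
    set v := (ℓ v0)⁻¹ • v0 with hv
    have hℓv : ℓ v = 1 := by
      rw [hv, map_smul, smul_eq_mul, inv_mul_cancel₀ hv0]
    set δ := LinearMap.det (A : (Fin d → ZMod p) →ₗ[ZMod p] (Fin d → ZMod p)) with hδ
    have hδ0 : δ ≠ 0 := by
      have := LinearEquiv.isUnit_det' A
      exact this.ne_zero
    set c : ZMod p := δ⁻¹ with hc
    have hc0 : c ≠ 0 := inv_ne_zero hδ0
    set w := (c - 1) • v with hw
    have hfw : 1 + ℓ w = c := by
      rw [hw, map_smul, hℓv, smul_eq_mul, mul_one]; ring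
    have hunit : IsUnit (1 + ℓ w) := by rw [hfw]; exact hc0.isUnit
    let D : (Fin d → ZMod p) ≃ₗ[ZMod p] (Fin d → ZMod p) := LinearEquiv.dilatransvection hunit
    have hD : ∀ x, D x = x + ℓ x • w := fun x => LinearEquiv.dilatransvection.apply
    have hDdet : LinearMap.det (D : (Fin d → ZMod p) →ₗ[ZMod p] (Fin d → ZMod p)) = c := by
      have : (D : (Fin d → ZMod p) →ₗ[ZMod p] (Fin d → ZMod p)) = LinearMap.transvection ℓ w := LinearEquiv.dilatransvection.coe_toLinearMap
      rw [this, LinearMap.transvection.det, hfw]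
    let B : (Fin d → ZMod p) ≃ₗ[ZMod p] (Fin d → ZMod p) := D.trans A
    have hB : ∀ x, B x = A (D x) := fun x => rfl
    have hBdet : LinearMap.det (B : (Fin d → ZMod p) →ₗ[ZMod p] (Fin d → ZMod p)) = 1 := by
      have : (B : (Fin d → ZMod p) →ₗ[ZMod p] (Fin d → ZMod p)) = (A : (Fin d → ZMod p) →ₗ[ZMod p] (Fin d → ZMod p)) ∘ₗ (D : (Fin d → ZMod p) →ₗ[ZMod p] (Fin d → ZMod p)) := rfl
      rw [this, LinearMap.det_comp, hDdet, ← hδ, hc, mul_inv_cancel₀ hδ0]
    have hDW : ∀ x ∈ W, D x = x := by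
      intro x hx
      rw [hD]
      have : ℓ x = 0 := hWℓ hx
      rw [this, zero_smul, add_zero]
    have hu1W : u1 ∈ W := Submodule.subset_span (by simp)
    have hu2W : u2 ∈ W := Submodule.subset_span (by simp)
    obtain ⟨g1, hg1, hg1x⟩ := hsl B hBdet
    set b' := (A (t 0) + b) - B (t 0) with hb'
    obtain ⟨g2, hg2, hg2x⟩ := htrans b'
    refine ⟨g2 * g1, G.mul_mem hg2 hg1, ?_⟩
    intro i
    have hval : ∀ x, (g2 * g1) x = B x + b' := by
      intro x
      rw [Equiv.Perm.mul_apply, hg2x, hg1x]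
    rw [hval, hA]
    have e1 : t 1 = t 0 + u1 := by rw [hu1]; abel
    have e2 : t 2 = t 0 + u2 := by rw [hu2]; abel
    fin_cases i
    · show A (t 0) + b = B (t 0) + b'
      rw [hb']; abel
    · show A (t 1) + b = B (t 1) + b'
      rw [e1, map_add, map_add, hB u1, hDW u1 hu1W, hb']; abel
    · show A (t 2) + b = B (t 2) + b'
      rw [e2, map_add, map_add, hB u2, hDW u2 hu2W, hb']; abel

end Cfsg.Agent.S3516
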