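import Cfsg.Statements.S3517
import Cfsg.Agent.Lib.Lead.Affine
import Mathlib

set_option autoImplicit false

namespace Cfsg.Agent.S3517

private theorem indep_pair {W : Type*} [AddCommGroup W] [Module (ZMod 2) W] {u v : W}
    (hu : u ≠ 0) (hv : v ≠ 0) (huv : u ≠ v) : LinearIndependent (ZMod 2) ![u, v] := by
  rw [LinearIndependent.pair_iff]
  intro s t hst
  have hall : ∀ a : ZMod 2, a = 0 ∨ a = 1 := by decide
  have hs := hall s
  have ht := hall t
  have h2 : ∀ w : W, w + w = 0 := by
    intro w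
    have : ((2 : ZMod 2)) • w = 0 := by
      have h : (2 : ZMod 2) = 0 := by decide
      rw [h, zero_smul]
    rwa [two_smul] at this
  rcases hs with rfl | rfl <;> rcases ht with rfl | rfl
  · exact ⟨rfl, rfl⟩
  · simp at hst; exact absurd hst hv
  · simp at hst; exact absurd hst hu
  · exfalso
    simp only [one_smul] at hst
    apply huv
    have : u = u + (v + v) := by rw [h2, add_zero]
    rw [this, ← add_assoc, hst, zero_add]

private theorem indep_one {W : Type*} [AddCommGroup W] [Module (ZMod 2) W] {u : W}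
    (hu : u ≠ 0) : LinearIndependent (ZMod 2) ![u] := by
  rw [linearIndependent_unique_iff]
  simpa using hu

/-- For d ≥ 3, the 3-closure of the affine group AGL_d(2) acting on F_2^d is the full symmetric group: every permutation of F_2^d agrees on every ordered triple of points with some affine map (AGL_d(2) is 3-transitive). -/
theorem result (d : ℕ) (hd : 3 ≤ d) (σ : Equiv.Perm (Fin d → ZMod 2)) (t : Fin 3 → (Fin d → ZMod 2)) :
    ∃ (A : (Fin d → ZMod 2) ≃ₗ[ZMod 2] (Fin d → ZMod 2)) (b : Fin d → ZMod 2), ∀ i, σ (t i) = A (t i) + b := by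
  classical
  set u1 := t 1 - t 0 with hu1
  set u2 := t 2 - t 0 with hu2
  set v1 := σ (t 1) - σ (t 0) with hv1
  set v2 := σ (t 2) - σ (t 0) with hv2
  have h1 : u1 = 0 ↔ v1 = 0 := by
    rw [hu1, hv1, sub_eq_zero, sub_eq_zero]
    exact σ.injective.eq_iff.symm
  have h2 : u2 = 0 ↔ v2 = 0 := by
    rw [hu2, hv2, sub_eq_zero, sub_eq_zero]
    exact σ.injective.eq_iff.symm
  have h12 : u1 = u2 ↔ v1 = v2 := by
    rw [hu1, hu2, hv1, hv2, sub_left_inj, sub_left_inj]
    exact σ.injective.eq_iff.symm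
  suffices hA : ∃ A : (Fin d → ZMod 2) ≃ₗ[ZMod 2] (Fin d → ZMod 2), A u1 = v1 ∧ A u2 = v2 by
    obtain ⟨A, hA1, hA2⟩ := hA
    refine ⟨A, σ (t 0) - A (t 0), ?_⟩
    intro i
    have e0 : σ (t 0) = A (t 0) + (σ (t 0) - A (t 0)) := by abel
    fin_cases i
    · exact e0
    · show σ (t 1) = A (t 1) + (σ (t 0) - A (t 0))
      have : A (t 1) = A (t 0) + A u1 := by
        rw [← map_add, hu1]; congr 1; abel
      rw [this, hA1, hv1]; abel
    · show σ (t 2) = A (t 2) + (σ (t 0) - A (t 0))
      have : A (t 2) = A (t 0) + A u2 := by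
        rw [← map_add, hu2]; congr 1; abel
      rw [this, hA2, hv2]; abel
  by_cases hu1z : u1 = 0
  · have hv1z := h1.1 hu1z
    by_cases hu2z : u2 = 0
    · have hv2z := h2.1 hu2z
      exact ⟨LinearEquiv.refl _ _, by simp [hu1z, hv1z], by simp [hu2z, hv2z]⟩
    · have hv2z : v2 ≠ 0 := fun h => hu2z (h2.2 h)
      obtain ⟨A, hA⟩ := CfsgLib.Lead.exists_linearEquiv_of_independent (K := ZMod 2) (indep_one hu2z) (indep_one hv2z)
      exact ⟨A, by simp [hu1z, hv1z], by simpa using hA 0⟩
  · have hv1z : v1 ≠ 0 := fun h => hu1z (h1.2 h)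
    by_cases hu2z : u2 = 0
    · have hv2z := h2.1 hu2z
      obtain ⟨A, hA⟩ := CfsgLib.Lead.exists_linearEquiv_of_independent (K := ZMod 2) (indep_one hu1z) (indep_one hv1z)
      exact ⟨A, by simpa using hA 0, by simp [hu2z, hv2z]⟩
    · have hv2z : v2 ≠ 0 := fun h => hu2z (h2.2 h)
      by_cases hu : u1 = u2
      · have hv := h12.1 hu
        obtain ⟨A, hA⟩ := CfsgLib.Lead.exists_linearEquiv_of_independent (K := ZMod 2) (indep_one hu1z) (indep_one hv1z)
        exact ⟨A, by simpa using hA 0, by rw [← hu, ← hv]; simpa using hA 0⟩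
      · have hv : v1 ≠ v2 := fun h => hu (h12.2 h)
        obtain ⟨A, hA⟩ := CfsgLib.Lead.exists_linearEquiv_of_independent (K := ZMod 2)
          (indep_pair hu1z hu2z hu) (indep_pair hv1z hv2z hv)
        exact ⟨A, by simpa using hA 0, by simpa using hA 1⟩

end Cfsg.Agent.S3517
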