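import Cfsg.Statements.S3524
import Mathlib

set_option autoImplicit false
open Cfsg

namespace Cfsg.Agent.S3524

/-- A permutation group with a base is closed at one level above the base size. Let G be a group of permutations of a set Ω and suppose some k points α₁, …, α_k are fixed simultaneously only by the identity of G (a base of size k). Then G is (k+1)-closed: a permutation of Ω that agrees on every (k+1)-tuple of points with some element of G belongs to G. -/
theorem result {Ω : Type*} (G : Subgroup (Equiv.Perm Ω)) (k : ℕ) (α : Fin k → Ω)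
    (hbase : ∀ g ∈ G, (∀ i, g (α i) = α i) → g = 1) (σ : Equiv.Perm Ω)
    (hσ : ∀ t : Fin (k + 1) → Ω, ∃ g ∈ G, ∀ i, σ (t i) = g (t i)) : σ ∈ G := by
  classical
  by_cases hΩ : Nonempty Ω
  · obtain ⟨ω⟩ := hΩ
    obtain ⟨g₀, hg₀, h₀⟩ := hσ (Fin.snoc α ω)
    have h₀' : ∀ i : Fin k, σ (α i) = g₀ (α i) := by
      intro i
      have := h₀ i.castSucc
      simpa [Fin.snoc_castSucc] using this
    have : σ = g₀ := by
      ext β
      obtain ⟨g, hg, h⟩ := hσ (Fin.snoc α β)
      have h' : ∀ i : Fin k, σ (α i) = g (α i) := by
        intro i
        have := h i.castSucc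
        simpa [Fin.snoc_castSucc] using this
      have hβ : σ β = g β := by
        have := h (Fin.last k)
        simpa [Fin.snoc_last] using this
      have hmem : g₀⁻¹ * g ∈ G := G.mul_mem (G.inv_mem hg₀) hg
      have hfix : g₀⁻¹ * g = 1 := by
        apply hbase _ hmem
        intro i
        simp only [Equiv.Perm.coe_mul, Function.comp_apply]
        rw [← h' i, h₀' i]
        simp
      have : g = g₀ := by
        have := eq_of_inv_mul_eq_one hfix
        exact this.symm
      rw [hβ, this]
    rw [this]; exact hg₀
  · have : σ = 1 := by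
      ext β
      exact absurd ⟨β⟩ hΩ
    rw [this]; exact G.one_mem

end Cfsg.Agent.S3524
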