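import Cfsg.Statements.S3547
import Cfsg.Agent.Lib.Lead.Derangements
import Mathlib

set_option autoImplicit false

namespace Cfsg.Agent.S3547

open MulAction

private theorem card_fixedBy_prod {G Ω : Type*} [Group G] [MulAction G Ω] [Finite Ω] (g : G) :
    Nat.card (fixedBy (Ω × Ω) g) = Nat.card (fixedBy Ω g) * Nat.card (fixedBy Ω g) := by
  rw [← Nat.card_prod]
  refine Nat.card_congr ⟨fun p => (⟨p.1.1, ?_⟩, ⟨p.1.2, ?_⟩), fun q => ⟨(q.1.1, q.2.1), ?_⟩, ?_, ?_⟩
  · have := p.2
    simp only [mem_fixedBy, Prod.smul_def, Prod.ext_iff] at this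
    exact this.1
  · have := p.2
    simp only [mem_fixedBy, Prod.smul_def, Prod.ext_iff] at this
    exact this.2
  · have h1 := q.1.2
    have h2 := q.2.2
    simp only [mem_fixedBy] at h1 h2
    simp only [mem_fixedBy, Prod.smul_def, h1, h2]
  · intro p; rfl
  · intro q; rfl

/-- Let G act faithfully and transitively on a finite set Ω, let D be the subgroup generated by the derangements, and let r_G and r_D be the numbers of orbits of G and of D on ordered pairs of points (the permutation ranks). Then r_D − 1 = (r_G − 1)·[G : D]. -/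
theorem result {G Ω : Type*} [Group G] [Finite G] [MulAction G Ω] [FaithfulSMul G Ω] [Finite Ω]
    (htrans : MulAction.IsPretransitive G Ω) :
    Nat.card (MulAction.orbitRel.Quotient ↥(Subgroup.closure {g : G | ∀ ω : Ω, g • ω ≠ ω}) (Ω × Ω)) - 1 =
      (Nat.card (MulAction.orbitRel.Quotient G (Ω × Ω)) - 1) * (Subgroup.closure {g : G | ∀ ω : Ω, g • ω ≠ ω}).index := by
  classical
  haveI := Fintype.ofFinite G
  by_cases hne : Nonempty Ω
  · have h := CfsgLib.Lead.derange_main (G := G) (Ω := Ω) htrans
    set D : Subgroup G := Subgroup.closure {g : G | ∀ ω : Ω, g • ω ≠ ω} with hD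
    have hmain : ∀ g : G, g ∉ D → Nat.card (fixedBy Ω g) = 1 := h.2
    have hGsum : ∑ g : G, Nat.card (fixedBy (Ω × Ω) g) =
        Nat.card (orbitRel.Quotient G (Ω × Ω)) * Nat.card G := by
      have h := CfsgLib.Lead.burnside_card (G := G) (X := Ω × Ω)
      rwa [finsum_eq_sum_of_fintype] at h
    have hDsum : ∑ d : D, Nat.card (fixedBy (Ω × Ω) (d : G)) =
        Nat.card (orbitRel.Quotient D (Ω × Ω)) * Nat.card D := by
      have h := CfsgLib.Lead.sum_fixedBy_subgroup (Ω := Ω × Ω) D
      rwa [finsum_eq_sum_of_fintype] at h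
    have hsplit : ∑ g : G, Nat.card (fixedBy (Ω × Ω) g) =
        ∑ d : D, Nat.card (fixedBy (Ω × Ω) (d : G)) +
        ∑ g ∈ Finset.univ.filter (fun g : G => g ∉ D), Nat.card (fixedBy (Ω × Ω) g) := by
      rw [← Finset.sum_filter_add_sum_filter_not Finset.univ (fun g : G => g ∈ D)]
      congr 1
      refine Finset.sum_bij' (fun g hg => ⟨g, (Finset.mem_filter.1 hg).2⟩) (fun d _ => (d : G)) ?_ ?_ ?_ ?_ ?_
      · intro g hg; exact Finset.mem_univ _
      · intro d _; simp
      · intro g hg; rfl
      · intro d _; rfl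
      · intro g hg; rfl
    have hcount : (Finset.univ.filter (fun g : G => g ∉ D)).card + Nat.card D = Nat.card G := by
      have h1 := Finset.card_filter_add_card_filter_not (s := (Finset.univ : Finset G)) (fun g : G => g ∉ D)
      have h2 : (Finset.univ.filter (fun g : G => ¬ g ∉ D)).card = Nat.card D := by
        rw [Nat.card_eq_fintype_card, Fintype.card_subtype]
        simp
      rw [h2] at h1
      rw [h1, Nat.card_eq_fintype_card, Finset.card_univ]
    have hout : ∑ g ∈ Finset.univ.filter (fun g : G => g ∉ D), Nat.card (fixedBy (Ω × Ω) g) =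
        (Finset.univ.filter (fun g : G => g ∉ D)).card := by
      rw [Finset.card_eq_sum_ones]
      refine Finset.sum_congr rfl (fun g hg => ?_)
      rw [card_fixedBy_prod, hmain g (Finset.mem_filter.1 hg).2]
    rw [hGsum, hDsum, hout] at hsplit
    have hindex : Nat.card G = D.index * Nat.card D := by
      rw [mul_comm]; exact (Subgroup.card_mul_index D).symm
    have hDpos : 0 < Nat.card D := Nat.card_pos
    set r := Nat.card (orbitRel.Quotient G (Ω × Ω)) with hr
    set s := Nat.card (orbitRel.Quotient D (Ω × Ω)) with hs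
    have hr1 : 1 ≤ r := by
      haveI : Nonempty (orbitRel.Quotient G (Ω × Ω)) :=
        ⟨Quotient.mk'' (Classical.arbitrary (Ω × Ω))⟩
      exact Nat.card_pos
    have hs1 : 1 ≤ s := by
      haveI : Nonempty (orbitRel.Quotient D (Ω × Ω)) :=
        ⟨Quotient.mk'' (Classical.arbitrary (Ω × Ω))⟩
      exact Nat.card_pos
    clear_value r s
    obtain ⟨r', rfl⟩ : ∃ r', r = r' + 1 := ⟨r - 1, by omega⟩
    obtain ⟨s', rfl⟩ : ∃ s', s = s' + 1 := ⟨s - 1, by omega⟩
    simp only [Nat.add_sub_cancel]
    set c := (Finset.univ.filter (fun g : G => g ∉ D)).card with hc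
    have key : s' * Nat.card D = r' * D.index * Nat.card D := by
      have e1 : (r' + 1) * Nat.card G = r' * Nat.card G + Nat.card G := by ring
      have e2 : (s' + 1) * Nat.card D = s' * Nat.card D + Nat.card D := by ring
      rw [e1, e2] at hsplit
      have e3 : r' * D.index * Nat.card D = r' * Nat.card G := by rw [hindex]; ring
      rw [e3]
      omega
    exact Nat.eq_of_mul_eq_mul_right hDpos key
  · haveI : IsEmpty Ω := not_nonempty_iff.mp hne
    have h1 : Nat.card (MulAction.orbitRel.Quotient G (Ω × Ω)) = 0 := by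
      have : IsEmpty (MulAction.orbitRel.Quotient G (Ω × Ω)) := by
        constructor
        intro x
        exact Quotient.inductionOn x (fun p => isEmptyElim p.1)
      simp
    have h2 : Nat.card (MulAction.orbitRel.Quotient ↥(Subgroup.closure {g : G | ∀ ω : Ω, g • ω ≠ ω}) (Ω × Ω)) = 0 := by
      have : IsEmpty (MulAction.orbitRel.Quotient ↥(Subgroup.closure {g : G | ∀ ω : Ω, g • ω ≠ ω}) (Ω × Ω)) := by
        constructor
        intro x
        exact Quotient.inductionOn x (fun p => isEmptyElim p.1)
      simp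
    rw [h1, h2]
    simp

end Cfsg.Agent.S3547
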