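import Cfsg.Statements.S3573
import Mathlib

set_option autoImplicit false
open Cfsg

namespace Cfsg.Agent.S3573

open Equiv Equiv.Perm

private theorem invariant_exists (n r : ℕ) (hr : r.Prime) (σ : Perm (Fin n)) (hσ : orderOf σ = r) (k : ℕ)
    (h : k % r ≤ n % r) (hkn : k ≤ n) : ∃ s : Finset (Fin n), s.card = k ∧ s.image σ = s := by
  classical
  have hr0 := hr.pos
  have hpr : (orderOf σ).Prime := by rwa [hσ]
  obtain ⟨t, ht⟩ := Equiv.Perm.cycleType_prime_order hpr
  rw [hσ] at ht
  -- number of cycles
  have hcsupp : σ.support.card = (t + 1) * r := by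
    rw [← Equiv.Perm.sum_cycleType, ht]; simp; ring
  have hcn : (t + 1) * r ≤ n := by
    rw [← hcsupp]
    simpa using Finset.card_le_univ σ.support
  have hfac : ∀ τ ∈ σ.cycleFactorsFinset, τ.support.card = r := by
    intro τ hτ
    have : τ.support.card ∈ σ.cycleType := by
      rw [Equiv.Perm.cycleType_def]
      exact Multiset.mem_map.2 ⟨τ, hτ, rfl⟩
    rw [ht] at this
    exact Multiset.eq_of_mem_replicate this
  have hccard : σ.cycleFactorsFinset.card = t + 1 := by
    have := congrArg Multiset.card ht
    rw [Equiv.Perm.cycleType_def] at this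
    simpa using this
  -- arithmetic
  obtain ⟨a, b, ha, hb, hab⟩ : ∃ a b, a ≤ t + 1 ∧ b ≤ n - (t + 1) * r ∧ k = a * r + b := by
    by_cases hq : t + 1 ≤ k / r
    · refine ⟨t + 1, k - (t + 1) * r, le_rfl, ?_, ?_⟩
      · omega
      · have h1 : (t + 1) * r ≤ k / r * r := Nat.mul_le_mul_right _ hq
        have h2 := Nat.div_mul_le_self k r
        omega
    · refine ⟨k / r, k % r, by omega, ?_, ?_⟩
      · have h1 : t + 1 ≤ n / r := (Nat.le_div_iff_mul_le hr0).2 hcn
        have h2 : (t + 1) * r ≤ n / r * r := Nat.mul_le_mul_right _ h1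
        have h3 := Nat.div_add_mod' n r
        omega
      · exact (Nat.div_add_mod' k r).symm
  -- the invariant set
  obtain ⟨T, hT, hTa⟩ := Finset.exists_subset_card_eq (s := σ.cycleFactorsFinset) (n := a) (by omega)
  have hfixcard : (σ.supportᶜ).card = n - (t + 1) * r := by
    rw [Finset.card_compl, hcsupp]; simp
  obtain ⟨F, hF, hFb⟩ := Finset.exists_subset_card_eq (s := σ.supportᶜ) (n := b) (by omega)
  let U : Finset (Fin n) := T.biUnion (fun τ => τ.support)
  have hUcard : U.card = a * r := by
    rw [Finset.card_biUnion]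
    · rw [Finset.sum_congr rfl (fun τ hτ => hfac τ (hT hτ))]
      simp [hTa]
    · intro τ1 h1 τ2 h2 hne
      have := Equiv.Perm.cycleFactorsFinset_pairwise_disjoint σ (hT h1) (hT h2) hne
      exact Equiv.Perm.Disjoint.disjoint_support this
  have hUsupp : U ⊆ σ.support := by
    intro x hx
    obtain ⟨τ, hτ, hx'⟩ := Finset.mem_biUnion.1 hx
    exact Equiv.Perm.mem_cycleFactorsFinset_support_le (hT hτ) hx'
  have hdisj : Disjoint U F := by
    rw [Finset.disjoint_left]
    intro x hx hxF
    have h1 := hUsupp hx
    have h2 := hF hxF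
    exact (Finset.mem_compl.1 h2) h1
  refine ⟨U ∪ F, ?_, ?_⟩
  · rw [Finset.card_union_of_disjoint hdisj, hUcard, hFb, hab]
  · apply Finset.eq_of_subset_of_card_le
    · intro y hy
      obtain ⟨x, hx, rfl⟩ := Finset.mem_image.1 hy
      rcases Finset.mem_union.1 hx with hx | hx
      · obtain ⟨τ, hτ, hx'⟩ := Finset.mem_biUnion.1 hx
        apply Finset.mem_union_left
        refine Finset.mem_biUnion.2 ⟨τ, hτ, ?_⟩
        have h1 := (Equiv.Perm.mem_cycleFactorsFinset_iff.1 (hT hτ)).2 x hx'
        rw [← h1]
        exact Equiv.Perm.apply_mem_support.2 hx'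
      · have h2 := hF hx
        have h3 : σ x = x := by simpa using h2
        rw [h3]
        exact Finset.mem_union_right _ hx
    · rw [Finset.card_image_of_injective _ σ.injective]

private theorem invariant_necessary (n r : ℕ) (hr : r.Prime) (hrn : r ≤ n) (k : ℕ)
    (h : ∀ σ : Perm (Fin n), orderOf σ = r → ∃ s : Finset (Fin n), s.card = k ∧ s.image σ = s) :
    k % r ≤ n % r := by
  classical
  haveI : Fact r.Prime := ⟨hr⟩
  have hr0 := hr.pos
  have hq : n / r ≠ 0 := (Nat.div_pos hrn hr0).ne'
  obtain ⟨σ, hσ⟩ : ∃ σ : Perm (Fin n), σ.cycleType = Multiset.replicate (n / r) r := by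
    apply (Equiv.Perm.exists_with_cycleType_iff (α := Fin n) (m := Multiset.replicate (n / r) r)).2
    constructor
    · simp [Nat.div_mul_le_self]
    · intro a ha
      rw [Multiset.eq_of_mem_replicate ha]
      exact hr.two_le
  have hord : orderOf σ = r := by
    rw [← Equiv.Perm.lcm_cycleType, hσ]
    apply Nat.dvd_antisymm
    · rw [Multiset.lcm_dvd]
      intro b hb
      rw [Multiset.eq_of_mem_replicate hb]
    · apply Multiset.dvd_lcm
      exact Multiset.mem_replicate.2 ⟨hq, rfl⟩
  obtain ⟨s, hsk, hs⟩ := h σ hord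
  have hmaps : ∀ x, x ∈ s → σ x ∈ s := by
    intro x hx
    rw [← hs]
    exact Finset.mem_image_of_mem _ hx
  have hiff : ∀ x, (fun x => x ∈ s) (σ x) ↔ (fun x => x ∈ s) x := by
    intro x
    constructor
    · intro hx
      have hx' : σ x ∈ s.image σ := by rw [hs]; exact hx
      obtain ⟨y, hy, hyx⟩ := Finset.mem_image.1 hx'
      rw [← σ.injective hyx]
      exact hy
    · exact hmaps x
  let σ' : Perm {x // x ∈ s} := σ.subtypePerm hiff
  have hσ' : σ' ^ r ^ 1 = 1 := by
    rw [pow_one]
    show (σ.subtypePerm hiff) ^ r = 1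
    rw [Equiv.Perm.subtypePerm_pow]
    ext y
    have : σ ^ r = 1 := by rw [← hord]; exact pow_orderOf_eq_one σ
    simp [this]
  have h1 := Equiv.Perm.card_compl_support_modEq hσ'
  have hcard1 : Fintype.card {x // x ∈ s} = k := by simp [hsk]
  rw [hcard1] at h1
  -- the fixed points
  have hsupp : σ.support.card = n / r * r := by
    rw [← Equiv.Perm.sum_cycleType, hσ]; simp
  have hfix : (σ.supportᶜ).card = n % r := by
    rw [Finset.card_compl, hsupp]
    simp only [Fintype.card_fin]
    have := Nat.div_add_mod' n r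
    omega
  have hle : (σ'.supportᶜ).card ≤ n % r := by
    rw [← hfix]
    apply Finset.card_le_card_of_injOn (fun y : {x // x ∈ s} => (y : Fin n))
    · intro y hy
      have hy' : σ' y = y := by simpa using hy
      have : σ y.1 = y.1 := congrArg Subtype.val hy'
      simpa using this
    · intro a _ b _ hab
      exact Subtype.ext hab
  have hnr : n % r < r := Nat.mod_lt _ hr0
  have h2 : (σ'.supportᶜ).card % r = k % r := h1
  rw [Nat.mod_eq_of_lt (lt_of_le_of_lt hle hnr)] at h2
  omega

/-- Let 1 ≤ k with 2k < n and consider the symmetric group of degree n acting on the k-subsets of an n-set. Let r be a prime dividing the number C(n,k) of k-subsets. If r is odd, then every permutation of order r fixes some k-subset if and only if r ≤ k and the remainder of k modulo r is at most the remainder of n modulo r. If r = 2, then every involution fixes some k-subset if and only if k is even or n is odd. -/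
theorem result (n k : ℕ) (hk : 1 ≤ k) (hkn : 2 * k < n) (r : ℕ) (hr : r.Prime) (hrd : r ∣ Nat.choose n k) :
    (r ≠ 2 → ((∀ σ : Equiv.Perm (Fin n), orderOf σ = r → ∃ s : Finset (Fin n), s.card = k ∧ s.image σ = s) ↔
      (r ≤ k ∧ k % r ≤ n % r))) ∧
    (r = 2 → ((∀ σ : Equiv.Perm (Fin n), orderOf σ = 2 → ∃ s : Finset (Fin n), s.card = k ∧ s.image σ = s) ↔
      (Even k ∨ Odd n))) := by
  have hkle : k ≤ n := by omega
  have hrn : r ≤ n := by
    have h1 : Nat.choose n k ∣ n.factorial := ⟨k.factorial * (n - k).factorial, by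
      rw [← mul_assoc, Nat.choose_mul_factorial_mul_factorial hkle]⟩
    exact (hr.dvd_factorial).1 (hrd.trans h1)
  constructor
  · intro _
    constructor
    · intro h
      have h1 := invariant_necessary n r hr hrn k h
      refine ⟨?_, h1⟩
      by_contra hlt
      push_neg at hlt
      haveI : Fact r.Prime := ⟨hr⟩
      have h2 := Choose.choose_modEq_choose_mod_mul_choose_div_nat (n := n) (k := k) (p := r)
      rw [Nat.mod_eq_of_lt hlt, Nat.div_eq_of_lt hlt, Nat.choose_zero_right, mul_one] at h2
      rw [Nat.mod_eq_of_lt hlt] at h1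
      have h3 : r ∣ Nat.choose (n % r) k := (Nat.ModEq.dvd_iff h2 (dvd_refl r)).1 hrd
      have h4 : Nat.choose (n % r) k ∣ (n % r).factorial := ⟨k.factorial * (n % r - k).factorial, by
        rw [← mul_assoc, Nat.choose_mul_factorial_mul_factorial h1]⟩
      have h5 := (hr.dvd_factorial).1 (h3.trans h4)
      have h6 := Nat.mod_lt n hr.pos
      omega
    · rintro ⟨-, h⟩ σ hσ
      exact invariant_exists n r hr σ hσ k h hkle
  · rintro rfl
    constructor
    · intro h
      have h1 := invariant_necessary n 2 hr hrn k h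
      rcases Nat.mod_two_eq_zero_or_one k with h2 | h2
      · left
        exact Nat.even_iff.2 h2
      · right
        rw [Nat.odd_iff]
        omega
    · intro h σ hσ
      apply invariant_exists n 2 hr σ hσ k _ hkle
      rcases h with h | h
      · rw [Nat.even_iff.1 h]; omega
      · rw [Nat.odd_iff.1 h]
        have := Nat.mod_lt k (show 2 > 0 by norm_num)
        omega

end Cfsg.Agent.S3573
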