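import Cfsg.Statements.S3599
import Cfsg.Agent.Lib.H3.CritFrob

set_option autoImplicit false
open Cfsg

namespace Cfsg.Agent.S3599

/-- A finite group is critical with respect to a set Ω of natural numbers when its set of element orders is Ω while no proper section H/N (H a subgroup, N normal in H, (H, N) ≠ (whole group, 1)) has Ω as its set of element orders. Let s ≥ 1 and let p(j,0), p(j,1) (j < s) be 2s pairwise distinct primes, and let Ω be the set of all products c(0)·…·c(s−1) with each c(j) ∈ {1, p(j,0), p(j,1)}. Then there are 2^s pairwise non-isomorphic finite groups critical with respect to Ω. -/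
theorem result (s : ℕ) (hs : 1 ≤ s) (p : Fin s → Fin 2 → ℕ)
    (hp : ∀ j i, (p j i).Prime) (hinj : ∀ j i j' i', p j i = p j' i' → j = j' ∧ i = i') :
    ∃ (G : Fin (2 ^ s) → Type) (_ : ∀ a, Group (G a)) (_ : ∀ a, Fintype (G a)),
      (∀ a b, a ≠ b → ¬ Nonempty (G a ≃* G b)) ∧
      ∀ a, Set.range (orderOf : (G a) → ℕ) = {m : ℕ | ∃ c : Fin s → ℕ, (∀ j, c j = 1 ∨ c j = p j 0 ∨ c j = p j 1) ∧ m = ∏ j, c j} ∧
      ∀ (H : Subgroup (G a)) (N : Subgroup ↥H) [N.Normal], (H ≠ ⊤ ∨ N ≠ ⊥) → Set.range (orderOf : (↥H ⧸ N) → ℕ) ≠ {m : ℕ | ∃ c : Fin s → ℕ, (∀ j, c j = 1 ∨ c j = p j 0 ∨ c j = p j 1) ∧ m = ∏ j, c j} := by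
  classical
  let oth : Fin 2 → Fin 2 := fun i => i + 1
  have hoth : ∀ i, oth (oth i) = i := by decide
  have hothne : ∀ i, oth i ≠ i := by decide
  have hne : ∀ j i, p j i ≠ p j (oth i) := fun j i h => hothne i ((hinj _ _ _ _ h).2).symm
  have hex : ∀ j i, ∃ (F : Type) (_ : Group F) (_ : Fintype F),
      CfsgLib.CritFrob.Crit (p j i) (p j (oth i)) F := by
    intro j i
    haveI := Fact.mk (hp j i)
    haveI := Fact.mk (hp j (oth i))
    exact CfsgLib.CritFrob.exists_crit (hne j i)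
  choose Fam instG instF hCrit using hex
  letI : ∀ j i, Group (Fam j i) := instG
  haveI : ∀ j i, Finite (Fam j i) := fun j i => @Finite.of_fintype _ (instF j i)
  let bit : Fin (2 ^ s) → Fin s → Fin 2 := fun a => finFunctionFinEquiv.symm a
  have hbit : ∀ a b, (∀ j, bit a j = bit b j) → a = b := by
    intro a b h
    exact finFunctionFinEquiv.symm.injective (funext h)
  have hdist : ∀ (a : Fin (2 ^ s)) (j k : Fin s), j ≠ k →
      p j (bit a j) ≠ p k (bit a k) ∧ p j (bit a j) ≠ p k (oth (bit a k)) ∧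
      p j (oth (bit a j)) ≠ p k (bit a k) ∧ p j (oth (bit a j)) ≠ p k (oth (bit a k)) := by
    intro a j k hjk
    refine ⟨fun h => hjk (hinj _ _ _ _ h).1, fun h => hjk (hinj _ _ _ _ h).1,
      fun h => hjk (hinj _ _ _ _ h).1, fun h => hjk (hinj _ _ _ _ h).1⟩
  have hset : ∀ (b : Fin 2) (j : Fin s) (x : ℕ),
      (x = 1 ∨ x = p j b ∨ x = p j (oth b)) ↔ (x = 1 ∨ x = p j 0 ∨ x = p j 1) := by
    intro b j x
    have h0 : oth 0 = 1 := rfl
    have h1 : oth 1 = 0 := rfl
    fin_cases b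
    · show (x = 1 ∨ x = p j 0 ∨ x = p j (oth 0)) ↔ _
      rw [h0]
    · show (x = 1 ∨ x = p j 1 ∨ x = p j (oth 1)) ↔ _
      rw [h1]
      tauto
  have hOm : ∀ a, CfsgLib.CritFrob.OmegaF (fun j => p j (bit a j)) (fun j => p j (oth (bit a j))) =
      {m : ℕ | ∃ c : Fin s → ℕ, (∀ j, c j = 1 ∨ c j = p j 0 ∨ c j = p j 1) ∧ m = ∏ j, c j} := by
    intro a
    ext m
    constructor
    · rintro ⟨c, h1, h2⟩
      exact ⟨c, fun j => (hset (bit a j) j (c j)).1 (h1 j), h2⟩
    · rintro ⟨c, h1, h2⟩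
      exact ⟨c, fun j => (hset (bit a j) j (c j)).2 (h1 j), h2⟩
  refine ⟨fun a => ∀ j, Fam j (bit a j), fun a => inferInstance, fun a => Fintype.ofFinite _, ?_, ?_⟩
  · -- non-isomorphism
    intro a b hab
    rintro ⟨e⟩
    obtain ⟨j, hj⟩ : ∃ j, bit a j ≠ bit b j := by
      by_contra hall
      push Not at hall
      exact hab (hbit a b hall)
    have hb : bit b j = oth (bit a j) := by
      have : ∀ x y : Fin 2, x ≠ y → y = oth x := by decide
      exact this _ _ hj
    obtain ⟨u, v, hu, hv, huv⟩ := CfsgLib.CritFrob.noncomm_p (fun j => Fam j (bit b j))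
      (fun j => p j (bit b j)) (fun j => p j (oth (bit b j))) (fun j => hCrit j (bit b j)) j
    have hb2 : p j (oth (bit b j)) = p j (bit a j) := by rw [hb, hoth]
    rw [hb2] at hu hv
    have h1 := CfsgLib.CritFrob.comm_r (fun j => Fam j (bit a j))
      (fun j => p j (bit a j)) (fun j => p j (oth (bit a j)))
      (fun j => hp _ _) (fun j => hp _ _) (hdist a) (fun j => hCrit j (bit a j)) j
      (e.symm u) (e.symm v) (by rw [MulEquiv.orderOf_eq, hu]) (by rw [MulEquiv.orderOf_eq, hv])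
    apply huv
    have h2 := congrArg e h1
    simpa using h2
  · intro a
    have hrange := CfsgLib.CritFrob.range_pi (fun j => Fam j (bit a j))
      (fun j => p j (bit a j)) (fun j => p j (oth (bit a j)))
      (fun j => hp _ _) (fun j => hp _ _) (fun j => hne _ _) (hdist a) (fun j => hCrit j (bit a j))
    refine ⟨by rw [← hOm a]; exact hrange, ?_⟩
    intro H N hN hHN hh
    rw [← hOm a] at hh
    obtain ⟨h1, h2⟩ := CfsgLib.CritFrob.critical (fun j => Fam j (bit a j))
      (fun j => p j (bit a j)) (fun j => p j (oth (bit a j)))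
      (fun j => hp _ _) (fun j => hp _ _) (fun j => hne _ _) (hdist a) (fun j => hCrit j (bit a j)) H N hh
    rcases hHN with h | h
    · exact h h1
    · exact h h2

end Cfsg.Agent.S3599
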