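import Cfsg.Statements.S3622
import Mathlib

set_option autoImplicit false
open Cfsg

namespace Cfsg.Agent.S3622

theorem result {Ω : Type*} [Finite Ω] (G : Subgroup (Equiv.Perm Ω)) (m : ℕ) (hm : 2 ≤ m) (α : Ω)
    (hclosed : ∀ σ : Equiv.Perm Ω,
      (∀ t : Fin (m - 1) → Ω, ∃ g ∈ MulAction.stabilizer ↥G α, ∀ i, (g : Equiv.Perm Ω) (t i) = σ (t i)) →
      σ ∈ G ∧ σ α = α) :
    ∀ σ : Equiv.Perm Ω, (∀ t : Fin m → Ω, ∃ g ∈ G, ∀ i, g (t i) = σ (t i)) → σ ∈ G := by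
  classical
  intro σ hσ
  obtain ⟨m', rfl⟩ : ∃ m', m = m' + 1 := ⟨m - 1, by omega⟩
  -- pick g₀ ∈ G with g₀ α = σ α
  obtain ⟨g₀, hg₀, h₀⟩ := hσ (fun _ => α)
  have h₀' : g₀ α = σ α := h₀ 0
  -- τ = g₀⁻¹ σ fixes α and is (m-1)-approximated by the stabilizer
  set τ : Equiv.Perm Ω := g₀⁻¹ * σ with hτ
  have key : τ ∈ G ∧ τ α = α := by
    apply hclosed
    intro t
    obtain ⟨g, hg, h⟩ := hσ (Fin.cons α t)
    have h0 : g α = σ α := by simpa using h 0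
    have hs : ∀ i : Fin m', g (t i) = σ (t i) := by
      intro i
      have := h i.succ
      simpa using this
    refine ⟨⟨g₀⁻¹ * g, G.mul_mem (G.inv_mem hg₀) hg⟩, ?_, ?_⟩
    · rw [MulAction.mem_stabilizer_iff]
      show (g₀⁻¹ * g) α = α
      simp only [Equiv.Perm.coe_mul, Function.comp_apply]
      rw [h0, ← h₀']
      simp
    · intro i
      simp only [hτ, Equiv.Perm.coe_mul, Function.comp_apply, hs i]
  have : σ = g₀ * τ := by simp [hτ]
  rw [this]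
  exact G.mul_mem hg₀ key.1

end Cfsg.Agent.S3622
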