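import Cfsg.Statements.S3683
import Mathlib

set_option autoImplicit false
open Cfsg

namespace Cfsg.Agent.S3683

/-- Let a finite group G act faithfully and primitively on a set Ω, and suppose the stabilizer of a point a fixes a second point b ≠ a (a suborbit of length 1 other than {a}). Then the stabilizer of a is trivial and G is cyclic of prime order. -/
theorem result {G Ω : Type*} [Group G] [Finite G] [MulAction G Ω] [FaithfulSMul G Ω] [Finite Ω]
    (hprim : MulAction.IsPreprimitive G Ω) (a b : Ω) (hab : a ≠ b) (hfix : ∀ g : G, g • a = a → g • b = b) :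
    MulAction.stabilizer G a = ⊥ ∧ IsCyclic G ∧ (Nat.card G).Prime := by
  classical
  have : Nontrivial Ω := ⟨⟨a, b, hab⟩⟩
  have hmax : IsCoatom (MulAction.stabilizer G a) :=
    MulAction.IsPreprimitive.isCoatom_stabilizer_of_isPreprimitive G a
  have hmaxb : IsCoatom (MulAction.stabilizer G b) :=
    MulAction.IsPreprimitive.isCoatom_stabilizer_of_isPreprimitive G b
  set H := MulAction.stabilizer G a with hH
  have hle : H ≤ MulAction.stabilizer G b := fun g hg => hfix g hg
  have heq : H = MulAction.stabilizer G b := by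
    by_contra hne
    exact hmaxb.1 (hmax.2 _ (lt_of_le_of_ne hle hne))
  obtain ⟨g, hg⟩ := MulAction.exists_smul_eq G a b
  have hgH : g ∉ H := by
    intro h
    have : g • a = a := h
    exact hab (this.symm.trans hg)
  -- g normalizes H
  have hgN : g ∈ Subgroup.normalizer (H : Set G) := by
    rw [Subgroup.mem_normalizer_iff_map_conj_eq]
    have h1 := MulAction.stabilizer_smul_eq_stabilizer_map_conj g a
    rw [hg, ← heq] at h1
    exact h1.symm
  have hNtop : Subgroup.normalizer (H : Set G) = ⊤ := by
    apply hmax.2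
    refine lt_of_le_of_ne Subgroup.le_normalizer ?_
    intro h
    rw [← h] at hgN
    exact hgH hgN
  have hnormal : H.Normal := Subgroup.normalizer_eq_top_iff.mp hNtop
  have hbot : H = ⊥ := by
    rw [eq_bot_iff]
    intro h hh
    rw [Subgroup.mem_bot]
    apply FaithfulSMul.eq_of_smul_eq_smul (α := Ω)
    intro x
    obtain ⟨k, rfl⟩ := MulAction.exists_smul_eq G a x
    have h2 : k⁻¹ * h * k ∈ H := by
      have := hnormal.conj_mem h hh k⁻¹
      simpa using this
    have h3 : (k⁻¹ * h * k) • a = a := h2
    have h4 : h • k • a = k • a := by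
      have := congrArg (fun y => k • y) h3
      simpa [mul_smul] using this
    simpa using h4
  have hcoatom : IsCoatom (⊥ : Subgroup G) := hbot ▸ hmax
  have hnt : Nontrivial G := by
    by_contra hn
    rw [not_nontrivial_iff_subsingleton] at hn
    exact hcoatom.1 (Subsingleton.elim _ _)
  obtain ⟨x, hx⟩ := exists_ne (1 : G)
  have hzp : Subgroup.zpowers x = ⊤ := by
    apply hcoatom.2
    exact bot_lt_iff_ne_bot.mpr (Subgroup.zpowers_ne_bot.mpr hx)
  have hcyc : IsCyclic G := ⟨⟨x, (Subgroup.eq_top_iff' _).1 hzp⟩⟩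
  refine ⟨hbot, hcyc, ?_⟩
  have hsimple : IsSimpleGroup G := by
    refine ⟨fun N _ => ?_⟩
    by_cases hN : N = ⊥
    · exact Or.inl hN
    · exact Or.inr (hcoatom.2 N (bot_lt_iff_ne_bot.mpr hN))
  exact (Group.is_simple_iff_prime_card).mp hsimple

end Cfsg.Agent.S3683
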