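import Cfsg.Statements.S3684
import Cfsg.Agent.Lib.Lead.Dihedral
import Mathlib

set_option autoImplicit false
open Cfsg

namespace Cfsg.Agent.S3684

/-- A normal subgroup inside a point stabilizer of a transitive faithful action is trivial. -/
private lemma eq_bot_of_normal_le_stabilizer {G Ω : Type*} [Group G] [MulAction G Ω] [FaithfulSMul G Ω]
    [MulAction.IsPretransitive G Ω] (a : Ω) (N : Subgroup G) (hN : N.Normal)
    (hle : N ≤ MulAction.stabilizer G a) : N = ⊥ := by
  rw [eq_bot_iff]
  intro h hh
  rw [Subgroup.mem_bot]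
  apply FaithfulSMul.eq_of_smul_eq_smul (α := Ω)
  intro x
  obtain ⟨k, rfl⟩ := MulAction.exists_smul_eq G a x
  have h2 : k⁻¹ * h * k ∈ MulAction.stabilizer G a := by
    apply hle
    have := hN.conj_mem h hh k⁻¹
    simpa using this
  have h3 : (k⁻¹ * h * k) • a = a := h2
  have h4 : h • k • a = k • a := by
    have := congrArg (fun y => k • y) h3
    simpa [mul_smul] using this
  simpa using h4

private lemma exists_of_card_two {G : Type*} [Group G] (H : Subgroup G) (h : Nat.card H = 2) :
    ∃ t ∈ H, t ≠ 1 ∧ t * t = 1 ∧ ∀ x ∈ H, x = 1 ∨ x = t := by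
  obtain ⟨y, hy, huniq⟩ := (Nat.card_eq_two_iff' (1 : H)).mp h
  have hfin : Finite H := Nat.finite_of_card_ne_zero (by omega)
  refine ⟨y, y.2, ?_, ?_, ?_⟩
  · intro h1
    exact hy (Subtype.ext h1)
  · have h2 : y ^ Nat.card H = 1 := pow_card_eq_one'
    rw [h, pow_two] at h2
    exact congrArg Subtype.val h2
  · intro x hx
    by_cases hx1 : x = 1
    · exact Or.inl hx1
    · right
      have := huniq ⟨x, hx⟩ (fun h' => hx1 (congrArg Subtype.val h'))
      exact congrArg Subtype.val this

private lemma mem_normalizer_zpowers {G : Type*} [Group G] (g ρ : G) (hg : g * g = 1) (h : g * ρ * g = ρ⁻¹) :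
    g ∈ Subgroup.normalizer (Subgroup.zpowers ρ : Set G) := by
  rw [Subgroup.mem_normalizer_iff_map_conj_eq, MonoidHom.map_zpowers]
  have h1 : g⁻¹ = g := by rw [inv_eq_iff_mul_eq_one]; exact hg
  have : (MulAut.conj g).toMonoidHom ρ = ρ⁻¹ := by
    show g * ρ * g⁻¹ = ρ⁻¹
    rw [h1, h]
  rw [show ((MulAut.conj g : G ≃* G) : G →* G) ρ = ρ⁻¹ from this, Subgroup.zpowers_inv]

/-- Let a finite group G act faithfully and primitively on a set Ω, and suppose the stabilizer of a point a has an orbit of length 2. Then the stabilizer of a has order 2 and G is isomorphic to the dihedral group of order 2p for some prime p. -/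
theorem result {G Ω : Type*} [Group G] [Finite G] [MulAction G Ω] [FaithfulSMul G Ω] [Finite Ω]
    (hprim : MulAction.IsPreprimitive G Ω) (a b : Ω) (h2 : Nat.card (MulAction.orbit (MulAction.stabilizer G a) b) = 2) :
    Nat.card (MulAction.stabilizer G a) = 2 ∧ ∃ p : ℕ, p.Prime ∧ Nonempty (G ≃* DihedralGroup p) := by
  classical
  set H := MulAction.stabilizer G a with hH
  have hab : a ≠ b := by
    rintro rfl
    have : MulAction.orbit H a = {a} := by
      ext x
      constructor
      · rintro ⟨g, rfl⟩
        exact g.2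
      · rintro rfl
        exact MulAction.mem_orbit_self _
    rw [this] at h2
    simp at h2
  have : Nontrivial Ω := ⟨⟨a, b, hab⟩⟩
  have hmaxa : IsCoatom H :=
    MulAction.IsPreprimitive.isCoatom_stabilizer_of_isPreprimitive G a
  have hmaxb : IsCoatom (MulAction.stabilizer G b) :=
    MulAction.IsPreprimitive.isCoatom_stabilizer_of_isPreprimitive G b
  set B := MulAction.stabilizer G b with hB
  -- K₀ := stabilizer of b in H, index 2
  let K₀ : Subgroup H := MulAction.stabilizer H b
  have hK₀ : K₀.index = 2 := by
    rw [MulAction.index_stabilizer, ← Nat.card_coe_set_eq]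
    exact h2
  let K : Subgroup G := K₀.map H.subtype
  have hKcard : Nat.card H = 2 * Nat.card K := by
    have h1 : Nat.card K = Nat.card K₀ := Subgroup.card_map_of_injective H.subtype_injective
    rw [h1, ← hK₀, mul_comm]
    exact (Subgroup.card_mul_index K₀).symm
  have hKH : K ≤ H := by
    rintro _ ⟨x, _, rfl⟩
    exact x.2
  have hKB : K ≤ B := by
    rintro _ ⟨x, hx, rfl⟩
    exact hx
  -- cards of H and B agree
  obtain ⟨g, hg⟩ := MulAction.exists_smul_eq G a b
  have hBH : Nat.card B = Nat.card H := by
    have h1 := MulAction.stabilizer_smul_eq_stabilizer_map_conj g a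
    rw [hg] at h1
    rw [hB, h1]
    exact Subgroup.card_map_of_injective (MulAut.conj g).injective
  have hKHn : (K.subgroupOf H).Normal := by
    have : K.subgroupOf H = K₀ := by
      ext x
      simp only [K, Subgroup.mem_subgroupOf]
      constructor
      · rintro ⟨y, hy, hxy⟩
        have : y = x := Subtype.ext hxy
        rwa [← this]
      · intro hx
        exact ⟨x, hx, rfl⟩
    rw [this]
    exact Subgroup.normal_of_index_eq_two hK₀
  have hKBn : (K.subgroupOf B).Normal := by
    apply Subgroup.normal_of_index_eq_two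
    have h1 : Nat.card (K.subgroupOf B) = Nat.card K :=
      Nat.card_congr (Subgroup.subgroupOfEquivOfLe hKB).toEquiv
    have h3 := Subgroup.card_mul_index (K.subgroupOf B)
    rw [h1, hBH, hKcard] at h3
    have hKpos : 0 < Nat.card K := Nat.card_pos
    nlinarith
  have hHB : H ≠ B := by
    intro hEq
    have : MulAction.orbit H b = {b} := by
      ext x
      constructor
      · rintro ⟨y, rfl⟩
        have : (y : G) ∈ B := hEq ▸ y.2
        exact this
      · rintro rfl
        exact MulAction.mem_orbit_self _
    rw [this] at h2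
    simp at h2
  have hsup : H ⊔ B = ⊤ := by
    apply hmaxa.2
    refine lt_of_le_of_ne le_sup_left ?_
    intro h
    have hle : B ≤ H := by
      rw [h]; exact le_sup_right
    exact hHB (by
      by_contra hne
      exact hmaxa.1 (hmaxb.2 H (lt_of_le_of_ne hle (fun h => hne h.symm))))
  -- K is normal in G, hence trivial
  have hKnorm : K.Normal := by
    rw [← Subgroup.normalizer_eq_top_iff, eq_top_iff, ← hsup, sup_le_iff]
    exact ⟨Subgroup.le_normalizer_of_normal_subgroupOf hKH, Subgroup.le_normalizer_of_normal_subgroupOf hKB⟩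
  have hKbot : K = ⊥ := eq_bot_of_normal_le_stabilizer a K hKnorm hKH
  have hKone : Nat.card K = 1 := by
    rw [hKbot]; exact Subgroup.card_bot
  have hH2 : Nat.card H = 2 := by rw [hKcard, hKone]
  have hB2 : Nat.card B = 2 := by rw [hBH, hH2]
  refine ⟨hH2, ?_⟩
  -- the involutions
  obtain ⟨t, htH, ht1, htt, htall⟩ := exists_of_card_two H hH2
  obtain ⟨s, hsB, hs1, hss, hsall⟩ := exists_of_card_two B hB2
  have htinv : t⁻¹ = t := by rw [inv_eq_iff_mul_eq_one]; exact htt
  have hsinv : s⁻¹ = s := by rw [inv_eq_iff_mul_eq_one]; exact hss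
  have hst : s ≠ t := by
    intro hEq
    apply hHB
    have hle : H ≤ B := by
      intro x hx
      rcases htall x hx with h | h
      · rw [h]; exact B.one_mem
      · rw [h, ← hEq]; exact hsB
    by_contra hne
    exact hmaxb.1 (hmaxa.2 B (lt_of_le_of_ne hle hne))
  set ρ := s * t with hρ
  have hsρ : s * ρ * s = ρ⁻¹ := by
    rw [hρ, mul_inv_rev, htinv, hsinv, ← mul_assoc, hss, one_mul]
  have htρ : t * ρ * t = ρ⁻¹ := by
    rw [hρ, mul_inv_rev, htinv, hsinv, mul_assoc, mul_assoc, htt, mul_one]
  have hgen : Subgroup.closure {s, ρ} = ⊤ := by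
    rw [eq_top_iff, ← hsup, sup_le_iff]
    constructor
    · intro x hx
      rcases htall x hx with h | h
      · rw [h]; exact Subgroup.one_mem _
      · rw [h]
        have h1 : t = s * ρ := by rw [hρ, ← mul_assoc, hss, one_mul]
        rw [h1]
        exact Subgroup.mul_mem _ (Subgroup.subset_closure (by simp)) (Subgroup.subset_closure (by simp))
    · intro x hx
      rcases hsall x hx with h | h
      · rw [h]; exact Subgroup.one_mem _
      · rw [h]; exact Subgroup.subset_closure (by simp)
  have hnot : s ∉ Subgroup.zpowers ρ := by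
    intro hmem
    -- then s commutes with ρ, hence with t
    have hc : Commute s ρ := by
      obtain ⟨k, hk⟩ := hmem
      rw [← hk]
      exact (Commute.refl ρ).zpow_left k
    have hcst : s * t = t * s := by
      have h1 : s * ρ = ρ * s := hc
      rw [hρ] at h1
      have h2 : s * (s * t) = t := by rw [← mul_assoc, hss, one_mul]
      rw [h2] at h1
      have h3 := congrArg (fun x => x * s) h1
      simp only [mul_assoc, hss, mul_one] at h3
      exact h3.symm
    have hHn : H.Normal := by
      rw [← Subgroup.normalizer_eq_top_iff, eq_top_iff, ← hsup, sup_le_iff]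
      refine ⟨Subgroup.le_normalizer, ?_⟩
      intro x hx
      rcases hsall x hx with h | h
      · rw [h]; exact Subgroup.one_mem _
      · rw [h, Subgroup.mem_normalizer_iff]
        intro y
        constructor
        · intro hy
          rcases htall y hy with h' | h'
          · rw [h']; simp
          · rw [h', hsinv, hcst, mul_assoc, hss, mul_one]; exact htH
        · intro hy
          rw [hsinv] at hy
          have hy' : y = s * (s * y * s) * s := by
            simp only [mul_assoc, hss, mul_one]
            rw [← mul_assoc, hss, one_mul]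
          rcases htall _ hy with h' | h'
          · rw [hy', h']; simp [hss]
          · rw [hy', h', hcst, mul_assoc, hss, mul_one]; exact htH
    have := eq_bot_of_normal_le_stabilizer a H hHn le_rfl
    apply ht1
    rw [this] at htH
    exact Subgroup.mem_bot.mp htH
  obtain ⟨e⟩ := CfsgLib.Lead.nonempty_mulEquiv_dihedral_of_generators s ρ (orderOf ρ) rfl hss hsρ hnot hgen
  set n := orderOf ρ with hn
  have hcardG : Nat.card G = 2 * n := by
    rw [← Nat.card_congr e.toEquiv, DihedralGroup.nat_card]
  have hnpos : 0 < n := orderOf_pos ρ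
  have hn1 : n ≠ 1 := by
    intro h
    have : ρ = 1 := orderOf_eq_one_iff.mp h
    have h1 : s = t⁻¹ := eq_inv_of_mul_eq_one_left this
    rw [htinv] at h1
    exact hst h1
  have hprime : n.Prime := by
    set d := n.minFac with hd
    have hdp : d.Prime := Nat.minFac_prime hn1
    have hdn : d ∣ n := Nat.minFac_dvd n
    by_contra hnp
    have hdlt : d < n := by
      refine lt_of_le_of_ne (Nat.le_of_dvd hnpos hdn) ?_
      intro h
      exact hnp (h ▸ hdp)
    set ρ' := ρ ^ d with hρ'
    have hρ'1 : ρ' ≠ 1 := pow_ne_one_of_lt_orderOf hdp.ne_zero hdlt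
    have hconj' : ∀ g : G, g * g = 1 → g * ρ * g = ρ⁻¹ → g * ρ' * g = ρ'⁻¹ := by
      intro g hg hgρ
      have hginv : g⁻¹ = g := by rw [inv_eq_iff_mul_eq_one]; exact hg
      have h1 : (g * ρ * g⁻¹) ^ d = g * ρ ^ d * g⁻¹ := conj_pow
      rw [hginv, hgρ, inv_pow] at h1
      exact h1.symm
    let N : Subgroup G := Subgroup.zpowers ρ'
    have hNnorm : N.Normal := by
      rw [← Subgroup.normalizer_eq_top_iff, eq_top_iff, ← hsup, sup_le_iff]
      constructor
      · intro x hx
        rcases htall x hx with h | h
        · rw [h]; exact Subgroup.one_mem _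
        · rw [h]; exact mem_normalizer_zpowers t ρ' htt (hconj' t htt htρ)
      · intro x hx
        rcases hsall x hx with h | h
        · rw [h]; exact Subgroup.one_mem _
        · rw [h]; exact mem_normalizer_zpowers s ρ' hss (hconj' s hss hsρ)
    have hNH : ¬ N ≤ H := by
      intro hle
      have := eq_bot_of_normal_le_stabilizer a N hNnorm hle
      exact hρ'1 (Subgroup.zpowers_eq_bot.mp this)
    have hsupN : H ⊔ N = ⊤ := by
      apply hmaxa.2
      exact lt_of_le_of_ne le_sup_left (fun h => hNH (by rw [h]; exact le_sup_right))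
    have hle : Nat.card G ≤ Nat.card H * Nat.card N := by
      rw [← Nat.card_prod]
      refine Nat.card_le_card_of_surjective (fun x : H × N => (x.1 : G) * x.2) ?_
      intro g
      have hg : g ∈ ((H ⊔ N : Subgroup G) : Set G) := by rw [hsupN]; trivial
      rw [Subgroup.mul_normal] at hg
      obtain ⟨h, hh, k, hk, rfl⟩ := Set.mem_mul.mp hg
      exact ⟨(⟨h, hh⟩, ⟨k, hk⟩), rfl⟩
    have hcardN : Nat.card N = n / d := by
      rw [Nat.card_zpowers, hρ', orderOf_pow_of_dvd hdp.ne_zero hdn]
    rw [hcardG, hH2, hcardN] at hle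
    have h4 : n / d < n := Nat.div_lt_self hnpos hdp.one_lt
    omega
  exact ⟨n, hprime, ⟨e.symm⟩⟩

end Cfsg.Agent.S3684
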