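import Cfsg.Statements.S3696
import Mathlib

set_option autoImplicit false
open Cfsg

namespace Cfsg.Agent.S3696

private theorem amgm (x y a b : ℕ) (ha : 1 ≤ a) (hb : 1 ≤ b) :
    x ^ a * y ^ b * (a + b) ^ (a + b) ≤ (x + y) ^ (a + b) * (a ^ a * b ^ b) := by
  have hK : (0 : ℝ) < ((a : ℝ) + b) := by positivity
  have ha' : (0 : ℝ) < a := by positivity
  have hb' : (0 : ℝ) < b := by positivity
  have h := Real.geom_mean_le_arith_mean2_weighted (w₁ := (a : ℝ) / (a + b)) (w₂ := (b : ℝ) / (a + b))
    (p₁ := (x : ℝ) / a) (p₂ := (y : ℝ) / b) (by positivity) (by positivity) (by positivity) (by positivity)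
    (by field_simp)
  have h2 : (a : ℝ) / (a + b) * ((x : ℝ) / a) + (b : ℝ) / (a + b) * ((y : ℝ) / b) = ((x : ℝ) + y) / (a + b) := by
    field_simp
  rw [h2] at h
  have h3 := pow_le_pow_left₀ (by positivity) h (a + b)
  rw [mul_pow] at h3
  have e1 : (((x : ℝ) / a) ^ ((a : ℝ) / (a + b))) ^ (a + b) = ((x : ℝ) / a) ^ a := by
    rw [← Real.rpow_natCast, ← Real.rpow_mul (by positivity), ← Real.rpow_natCast]
    congr 1
    push_cast
    field_simp
  have e2 : (((y : ℝ) / b) ^ ((b : ℝ) / (a + b))) ^ (a + b) = ((y : ℝ) / b) ^ b := by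
    rw [← Real.rpow_natCast, ← Real.rpow_mul (by positivity), ← Real.rpow_natCast]
    congr 1
    push_cast
    field_simp
  rw [e1, e2, div_pow, div_pow, div_pow] at h3
  have h4 : ((x : ℝ) ^ a * y ^ b) * ((a + b : ℕ) : ℝ) ^ (a + b) ≤ ((x : ℝ) + y) ^ (a + b) * ((a : ℝ) ^ a * b ^ b) := by
    push_cast
    have hpa : (0 : ℝ) < (a : ℝ) ^ a := by positivity
    have hpb : (0 : ℝ) < (b : ℝ) ^ b := by positivity
    have hpK : (0 : ℝ) < ((a : ℝ) + b) ^ (a + b) := by positivity
    rw [div_mul_div_comm, div_le_div_iff₀ (by positivity) hpK] at h3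
    exact h3
  exact_mod_cast h4

private theorem num0 (m s : ℕ) (hs : 1 ≤ s) (hm : 2 ^ s ≤ m) : m * s ^ s ≤ m ^ s := by
  obtain ⟨t, rfl⟩ : ∃ t, s = t + 1 := ⟨s - 1, by omega⟩
  have h1 : t + 1 ≤ 2 ^ t := Nat.lt_two_pow_self
  have h2 : (t + 1) ^ (t + 1) ≤ (2 ^ t) ^ (t + 1) := Nat.pow_le_pow_left h1 _
  have h3 : (2 ^ t) ^ (t + 1) = (2 ^ (t + 1)) ^ t := by
    rw [← pow_mul, ← pow_mul, mul_comm]
  have h4 : (2 ^ (t + 1)) ^ t ≤ m ^ t := Nat.pow_le_pow_left hm _
  calc m * (t + 1) ^ (t + 1) ≤ m * m ^ t := Nat.mul_le_mul_left _ (by omega)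
    _ = m ^ (t + 1) := by ring

private theorem num (m N b s t : ℕ) (hs : 1 ≤ s) (hm : 2 ^ s ≤ m) (hb : b * t ^ t ≤ N ^ t) :
    m * b * (s + t) ^ (s + t) ≤ (N + m) ^ (s + t) := by
  rcases Nat.eq_zero_or_pos t with rfl | ht
  · simp only [pow_zero, mul_one] at hb
    simp only [add_zero]
    have h1 := num0 m s hs hm
    have h2 : m ^ s ≤ (N + m) ^ s := Nat.pow_le_pow_left (by omega) _
    calc m * b * s ^ s ≤ m * 1 * s ^ s := by
          apply Nat.mul_le_mul_right
          exact Nat.mul_le_mul_left _ hb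
      _ = m * s ^ s := by ring
      _ ≤ _ := h1.trans h2
  · have h1 := num0 m s hs hm
    have h2 := amgm m N s t hs ht
    have hpos : 0 < s ^ s * t ^ t := by positivity
    apply Nat.le_of_mul_le_mul_right _ hpos
    calc m * b * (s + t) ^ (s + t) * (s ^ s * t ^ t)
        = (m * s ^ s) * (b * t ^ t) * (s + t) ^ (s + t) := by ring
      _ ≤ m ^ s * N ^ t * (s + t) ^ (s + t) := by
          apply Nat.mul_le_mul_right
          exact Nat.mul_le_mul h1 hb
      _ ≤ (m + N) ^ (s + t) * (s ^ s * t ^ t) := h2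
      _ = _ := by rw [add_comm m N]

universe u v

private theorem main (p : ℕ) [hpf : Fact p.Prime] : ∀ (n : ℕ) (Ω : Type u) [Fintype Ω] (A : Type v) [CommGroup A] [Finite A]
    [MulAction A Ω] [FaithfulSMul A Ω], Fintype.card Ω = n → IsPGroup p A → ∀ k : ℕ,
    Nat.card {x : A // x ^ p = 1} = p ^ k → Nat.card A * k ^ k ≤ n ^ k := by
  intro n
  induction n using Nat.strong_induction_on with
  | _ n ih =>
  intro Ω _ A _ _ _ _ hcard hA k hk
  classical
  have hp := hpf.out
  rcases Nat.eq_zero_or_pos k with rfl | hkpos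
  · -- the trivial case
    simp only [pow_zero, mul_one] at hk ⊢
    have h1 : Nat.card A = 1 := by
      by_contra hne
      haveI : Nontrivial A := by
        rw [← Finite.one_lt_card_iff_nontrivial]
        have := Nat.card_pos (α := A)
        omega
      obtain ⟨j, hj, hcardA⟩ := hA.nontrivial_iff_card.1 inferInstance
      have hdvd : p ∣ Nat.card A := by rw [hcardA]; exact dvd_pow_self p hj.ne'
      obtain ⟨y, hy⟩ := exists_prime_orderOf_dvd_card' (G := A) p hdvd
      have hy1 : y ^ p = 1 := by rw [← hy]; exact pow_orderOf_eq_one y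
      have hyne : y ≠ 1 := by
        intro h
        rw [h, orderOf_one] at hy
        exact hp.one_lt.ne hy
      obtain ⟨huniq, -⟩ := Nat.card_eq_one_iff_unique.1 hk
      have := huniq.elim (⟨y, hy1⟩ : {x : A // x ^ p = 1}) ⟨1, one_pow p⟩
      exact hyne (congrArg Subtype.val this)
    rw [h1]
  · -- a nontrivial element of order p
    have hk1 : 1 < Nat.card {x : A // x ^ p = 1} := by
      rw [hk]
      exact Nat.one_lt_pow hkpos.ne' hp.one_lt
    haveI := Finite.one_lt_card_iff_nontrivial.1 hk1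
    obtain ⟨⟨x, hx⟩, hxne⟩ := exists_ne (⟨1, one_pow p⟩ : {x : A // x ^ p = 1})
    have hx1 : x ≠ 1 := fun h => hxne (Subtype.ext h)
    obtain ⟨ω, hω⟩ : ∃ ω : Ω, x • ω ≠ ω := by
      by_contra hcon
      push_neg at hcon
      apply hx1
      apply FaithfulSMul.eq_of_smul_eq_smul (α := Ω)
      intro a
      rw [one_smul]
      exact hcon a
    -- the point stabilizer, and the complement of the orbit
    obtain ⟨B, hBdef⟩ : ∃ B : Subgroup A, B = MulAction.stabilizer A ω := ⟨_, rfl⟩
    have hBmem : ∀ b : A, b ∈ B ↔ b • ω = ω := fun b => by rw [hBdef, MulAction.mem_stabilizer_iff]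
    have hxB : x ∉ B := fun h => hω ((hBmem x).1 h)
    let S' : SubMulAction A Ω :=
      { carrier := (MulAction.orbit A ω)ᶜ
        smul_mem' := by
          intro c y hy hmem
          apply hy
          obtain ⟨g, hg⟩ := hmem
          refine ⟨c⁻¹ * g, ?_⟩
          have hg' : g • ω = c • y := hg
          show (c⁻¹ * g) • ω = y
          rw [mul_smul, hg', inv_smul_smul] }
    have hS'mem : ∀ y : Ω, y ∈ S' ↔ y ∉ MulAction.orbit A ω := fun y => Iff.rfl
    -- cardinalities
    obtain ⟨m, hm⟩ : ∃ m, m = (MulAction.orbit A ω).ncard := ⟨_, rfl⟩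
    have hmpos : 0 < m := by
      rw [hm, Set.ncard_pos]
      exact ⟨ω, MulAction.mem_orbit_self ω⟩
    have hS'card : Fintype.card S' + m = n := by
      have h1 := Set.ncard_add_ncard_compl (MulAction.orbit A ω)
      rw [← hcard, ← Nat.card_eq_fintype_card (α := Ω), ← h1, ← hm, add_comm]
      congr 1
      rw [← Nat.card_eq_fintype_card]
      exact (Nat.card_coe_set_eq _)
    have hBidx : B.index = m := by
      rw [hBdef, MulAction.index_stabilizer, hm]
    have hAcard : B.index * Nat.card B = Nat.card A := Subgroup.index_mul_card B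
    -- B acts faithfully on the complement
    haveI hfaith : FaithfulSMul B S' := by
      constructor
      intro b1 b2 hb
      apply Subtype.ext
      apply FaithfulSMul.eq_of_smul_eq_smul (α := Ω)
      intro y
      by_cases hy : y ∈ MulAction.orbit A ω
      · obtain ⟨g, rfl⟩ := hy
        have h1 : (b1 : A) • ω = ω := (hBmem _).1 b1.2
        have h2 : (b2 : A) • ω = ω := (hBmem _).1 b2.2
        show (b1 : A) • (g • ω) = (b2 : A) • (g • ω)
        rw [smul_comm, h1, smul_comm, h2]
      · have := hb ⟨y, hy⟩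
        exact congrArg Subtype.val this
    -- the rank of B
    have hBp : IsPGroup p B := hA.to_subgroup B
    obtain ⟨k', hk'⟩ : ∃ k', Nat.card {y : B // y ^ p = 1} = p ^ k' := by
      have h1 : IsPGroup p (powMonoidHom p : B →* B).ker := by
        intro y
        refine ⟨1, ?_⟩
        apply Subtype.ext
        rw [pow_one]
        exact y.2
      obtain ⟨j, hj⟩ := IsPGroup.iff_card.1 h1
      exact ⟨j, hj⟩
    have hIH := ih (Fintype.card S') (by omega) S' B rfl hBp k' hk'
    -- comparing ranks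
    obtain ⟨Om, hOm⟩ : ∃ Om : Subgroup A, Om = (powMonoidHom p : A →* A).ker := ⟨_, rfl⟩
    have hOmmem : ∀ y : A, y ∈ Om ↔ y ^ p = 1 := fun y => by rw [hOm]; exact MonoidHom.mem_ker
    have hOmcard : Nat.card Om = p ^ k := by
      rw [← hk]
      exact Nat.card_congr (Equiv.subtypeEquivRight hOmmem)
    have hDcard : Nat.card (B ⊓ Om : Subgroup A) = p ^ k' := by
      rw [← hk']
      apply Nat.card_congr
      refine
        { toFun := fun y => ⟨⟨y.1, y.2.1⟩, Subtype.ext ((hOmmem _).1 y.2.2)⟩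
          invFun := fun y => ⟨y.1.1, y.1.2, (hOmmem _).2 (congrArg Subtype.val y.2)⟩
          left_inv := fun y => rfl
          right_inv := fun y => rfl }
    have hDle : (B ⊓ Om : Subgroup A) ≤ Om := inf_le_right
    have hDne : (B ⊓ Om : Subgroup A) ≠ Om := by
      intro h
      have : x ∈ (B ⊓ Om : Subgroup A) := by rw [h]; exact (hOmmem x).2 hx
      exact hxB this.1
    have hlt : p ^ k' < p ^ k := by
      rw [← hOmcard, ← hDcard]
      by_contra hcon
      push_neg at hcon
      exact hDne (Subgroup.eq_of_le_of_card_ge hDle hcon)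
    have hk'k : k' < k := (Nat.pow_lt_pow_iff_right hp.one_lt).1 hlt
    obtain ⟨s, hs⟩ : ∃ s, k = s + k' := ⟨k - k', by omega⟩
    have hs1 : 1 ≤ s := by omega
    -- the relative index
    have hrel : B.relIndex Om = p ^ s := by
      have h1 := Subgroup.card_mul_index ((B ⊓ Om).subgroupOf Om)
      have h2 : Nat.card ((B ⊓ Om).subgroupOf Om) = Nat.card (B ⊓ Om : Subgroup A) :=
        Nat.card_congr (Subgroup.subgroupOfEquivOfLe hDle).toEquiv
      rw [h2, hDcard, hOmcard, hs, pow_add, mul_comm (p ^ s)] at h1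
      have h3 : ((B ⊓ Om).subgroupOf Om).index = p ^ s :=
        Nat.eq_of_mul_eq_mul_left (by have := hp.pos; positivity) h1
      rw [← Subgroup.inf_relIndex_right]
      exact h3
    have hdvd : p ^ s ∣ m := by
      rw [← hrel, ← hBidx]
      exact Subgroup.relIndex_dvd_index_of_normal B Om
    have hm2 : 2 ^ s ≤ m :=
      (Nat.pow_le_pow_left hp.two_le s).trans (Nat.le_of_dvd hmpos hdvd)
    have hfin := num m (Fintype.card S') (Nat.card B) s k' hs1 hm2 hIH
    rw [hBidx] at hAcard
    rw [← hAcard, hs, ← hS'card]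
    exact hfin

/-- Let p be a prime, Ω a finite set with n ≥ p elements, and A an abelian p-subgroup of the symmetric group on Ω whose elements of order dividing p number p^k (so k is the rank of A). Then |A| · k^k ≤ n^k, that is, |A| ≤ (n/k)^k. -/
theorem result {Ω : Type*} [Fintype Ω] [DecidableEq Ω]
    (p : ℕ) (hp : p.Prime) (hn : p ≤ Fintype.card Ω) (A : Subgroup (Equiv.Perm Ω)) (hA : IsPGroup p A) (hab : IsMulCommutative A)
    (k : ℕ) (hk : Nat.card {x : A // x ^ p = 1} = p ^ k) :
    Nat.card A * k ^ k ≤ Fintype.card Ω ^ k := by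
  haveI : Fact p.Prime := ⟨hp⟩
  letI cA : CommGroup A := { (inferInstance : Group A) with mul_comm := fun a b => mul_comm' a b }
  exact main p (Fintype.card Ω) Ω A rfl hA k hk

end Cfsg.Agent.S3696
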