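import Cfsg.Statements.S3736
import Cfsg.Agent.Lib.FGS.Basic
import Cfsg.Agent.Lib.Trans.Crit
import Cfsg.Agent.Lib.H3.Comp2
import Cfsg.Agent.Lib.Solv.CoprimeSylow

set_option autoImplicit false
open Cfsg
open scoped commutatorElement

namespace Cfsg.Agent.S3736

theorem h8_core {Q : Type*} [Group Q] [Finite Q] [Nontrivial Q] {p : ℕ} [Fact p.Prime] (hG : IsPGroup p Q)
    (A' : Subgroup (MulAut Q)) (hA : Nat.Coprime (Nat.card A') p)
    (hGA : Subgroup.closure {x : Q | ∃ g : Q, ∃ a ∈ A', x = g⁻¹ * a g} = ⊤)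
    (hmin' : ∀ U : Subgroup Q, U.Characteristic → U ≠ ⊤ → ∀ α ∈ A', ∀ u ∈ U, α u = u) :
    ((IsMulCommutative Q ∧ ∀ x : Q, x ^ p = 1) ∨ Cfsg.IsSpecial p Q) ∧ (p ≠ 2 → ∀ x : Q, x ^ p = 1) := by
  classical
  have hpp : p.Prime := Fact.out
  have hΦtop : frattini Q ≠ ⊤ := by
    intro h
    have h1 : (⊥ : Subgroup Q) = ⊤ := frattini_nongenerating (by rw [h, sup_top_eq])
    exact bot_ne_top h1
  have hΦ := hmin' (frattini Q) inferInstance hΦtop
  have hord : ∀ α ∈ A', (orderOf α).Coprime p := by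
    intro α hα
    exact Nat.Coprime.coprime_dvd_left (Subgroup.orderOf_dvd_natCard A' hα) hA
  have hpow := (CfsgLib.Solv.pgroup_commutator_pow_le_frattini hG).2
  have claimB : (∀ x y : Q, (x * y) ^ p = x ^ p * y ^ p) → ∀ x : Q, x ^ p = 1 := by
    intro hom
    by_contra hne
    push Not at hne
    obtain ⟨x0, hx0⟩ := hne
    let π : Q →* Q := MonoidHom.mk' (fun x => x ^ p) hom
    have hπ : ∀ x, π x = x ^ p := fun _ => rfl
    have hEtop : π.ker ≠ ⊤ := by
      intro h
      have : x0 ∈ π.ker := by rw [h]; trivial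
      exact hx0 (by simpa [MonoidHom.mem_ker, hπ] using this)
    have hEchar : π.ker.Characteristic := by
      rw [Subgroup.characteristic_iff_comap_le]
      intro ϕ x hx
      have h1 : (ϕ.toMonoidHom x) ^ p = 1 := hx
      have h2 : ϕ (x ^ p) = 1 := by rw [map_pow]; exact h1
      have h3 : x ^ p = 1 := ϕ.injective (h2.trans (map_one ϕ).symm)
      exact h3
    have hfix := hmin' π.ker hEchar hEtop
    have hall : ∀ α ∈ A', ∀ x : Q, x⁻¹ * α x = 1 := by
      intro α hα x
      have hw : (x⁻¹ * α x) ^ p = 1 := by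
        rw [hom, inv_pow, ← map_pow, hΦ α hα _ (hpow x)]
        group
      have hwE : x⁻¹ * α x ∈ π.ker := hw
      have hαw := hfix α hα _ hwE
      have hcop : (orderOf α).Coprime (orderOf (x⁻¹ * α x)) := by
        have h1 : orderOf (x⁻¹ * α x) ∣ p := orderOf_dvd_of_pow_eq_one hw
        exact Nat.Coprime.coprime_dvd_right h1 (hord α hα)
      exact CfsgLib.Trans.eq_one_of_stable α (g := x) (by group) hαw hcop
    have h1 : Subgroup.closure {x : Q | ∃ g : Q, ∃ a ∈ A', x = g⁻¹ * a g} ≤ ⊥ := by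
      rw [Subgroup.closure_le]
      rintro _ ⟨g, a, ha, rfl⟩
      rw [hall a ha g]
      exact Subgroup.one_mem _
    rw [hGA] at h1
    exact top_ne_bot (le_bot_iff.1 h1)
  by_cases hab : ∀ x y : Q, x * y = y * x
  · have h1 := claimB (fun x y => (show Commute x y from hab x y).mul_pow p)
    exact ⟨Or.inl ⟨⟨⟨hab⟩⟩, h1⟩, fun _ => h1⟩
  · have hS := (CfsgLib.Trans.special_of_trivial_char hG A' hA hGA (fun H hH hHc a ha h hh => by
      refine hmin' H hH ?_ a ha h hh
      rintro rfl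
      apply hab
      intro x y
      have := hHc.is_comm.comm (⟨x, trivial⟩ : (⊤ : Subgroup Q)) ⟨y, trivial⟩
      exact congrArg Subtype.val this)).1
    refine ⟨Or.inr hS, fun hodd => claimB ?_⟩
    intro x y
    have hc := CfsgLib.Trans.special_comm_central hS x y
    rw [CfsgLib.Trans.mul_pow_central hc]
    have hchoose : p ∣ p.choose 2 :=
      hpp.dvd_choose_self (k := 2) (by norm_num) (lt_of_le_of_ne hpp.two_le (Ne.symm hodd))
    obtain ⟨m, hm⟩ := hchoose
    rw [hm, pow_mul, CfsgLib.Trans.special_central_pow hS hc, one_pow, mul_one]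


/-- The Hall–Higman reduction for a minimal non-trivial action. Let B, A and P be subgroups of a finite group with P a p-group, B normalizing P, and A a normal subgroup of B of order prime to p. Suppose A does not centralize P but centralizes every proper B-invariant subgroup of P. Then [P, A] = P; P is elementary abelian or special; B acts irreducibly on P/Φ(P), that is, the only B-invariant subgroups of P containing Φ(P) are Φ(P) and P; and if p is odd then every element of P has order dividing p. -/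
theorem result {X : Type*} [Group X] [Finite X] {p : ℕ} [Fact p.Prime] (B A P : Subgroup X) (hP : IsPGroup p P) (hBP : B ≤ Subgroup.normalizer (P : Set X)) (hAB : A ≤ B) (hAn : B ≤ Subgroup.normalizer (A : Set X)) (hAp : (Nat.card A).Coprime p) (hnt : ⁅P, A⁆ ≠ ⊥) (hmin : ∀ U : Subgroup X, U < P → B ≤ Subgroup.normalizer (U : Set X) → ⁅U, A⁆ = ⊥) : ⁅P, A⁆ = P ∧ (Cfsg.IsElementaryAbelian p P ∨ Cfsg.IsSpecial p ↥P) ∧ (∀ U : Subgroup X, (frattini ↥P).map P.subtype ≤ U → U ≤ P → B ≤ Subgroup.normalizer (U : Set X) → U = (frattini ↥P).map P.subtype ∨ U = P) ∧ (p ≠ 2 → ∀ x ∈ P, x ^ p = 1) := by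
  classical
  have hpp : p.Prime := Fact.out
  have hAP : A ≤ Subgroup.normalizer (P : Set X) := hAB.trans hBP
  haveI : Group.IsNilpotent P := hP.isNilpotent
  have hcop : (Nat.card A).Coprime (Nat.card P) := by
    obtain ⟨k, hk⟩ := (IsPGroup.iff_card).1 hP
    rw [hk]
    exact Nat.Coprime.pow_right k hAp
  have hR1 : ⁅P, A⁆ ≤ P := CfsgLib.Solv.commutator_le_of_normalizes hAP
  -- `B` normalizes `⁅P, A⁆`
  have hRB : B ≤ Subgroup.normalizer ((⁅P, A⁆ : Subgroup X) : Set X) := by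
    intro b hb
    rw [Subgroup.mem_normalizer_iff]
    have hb1 : ∀ c ∈ B, ∀ x ∈ (⁅P, A⁆ : Subgroup X), c * x * c⁻¹ ∈ (⁅P, A⁆ : Subgroup X) := by
      intro c hc x hx
      have h1 : (⁅P, A⁆ : Subgroup X).map (MulAut.conj c).toMonoidHom ≤ ⁅P, A⁆ := by
        rw [Subgroup.map_commutator]
        apply Subgroup.commutator_mono
        · rintro _ ⟨y, hy, rfl⟩
          exact (Subgroup.mem_normalizer_iff.1 (hBP hc) y).1 hy
        · rintro _ ⟨y, hy, rfl⟩
          exact (Subgroup.mem_normalizer_iff.1 (hAn hc) y).1 hy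
      exact h1 ⟨x, hx, rfl⟩
    intro x
    constructor
    · exact hb1 b hb x
    · intro hx
      have := hb1 b⁻¹ (B.inv_mem hb) _ hx
      simpa [mul_assoc] using this
  have hR : ⁅P, A⁆ = P := by
    by_contra hne
    have hlt : ⁅P, A⁆ < P := lt_of_le_of_ne hR1 hne
    have h1 := hmin _ hlt hRB
    have h2 := CfsgLib.Solv.coprime_commutator_commutator A P hAP hcop (Or.inr inferInstance)
    rw [h1] at h2
    exact hnt h2.symm
  have hPne : P ≠ ⊥ := by
    rw [← hR]; exact hnt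
  haveI hnontriv : Nontrivial P := (Subgroup.nontrivial_iff_ne_bot P).2 hPne
  let φ : B →* MulAut P := P.normalizerMonoidHom.comp (Subgroup.inclusion hBP)
  have hφ : ∀ (b : B) (x : P), ((φ b x : P) : X) = (b : X) * x * (b : X)⁻¹ := fun _ _ => rfl
  let ψ : A →* MulAut P := φ.comp (Subgroup.inclusion hAB)
  have hψ : ∀ (a : A) (x : P), ((ψ a x : P) : X) = (a : X) * x * (a : X)⁻¹ := fun _ _ => rfl
  have hA' : Nat.Coprime (Nat.card ψ.range) p := by
    have h1 : Nat.card ψ.range ∣ Nat.card A := by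
      rw [← Subgroup.index_ker]
      exact Subgroup.index_dvd_card _
    exact Nat.Coprime.coprime_dvd_left h1 hAp
  have hGA : Subgroup.closure {x : P | ∃ g : P, ∃ a ∈ ψ.range, x = g⁻¹ * a g} = ⊤ := by
    rw [eq_top_iff]
    rintro ⟨x, hx⟩ -
    have h1 : ⁅P, A⁆ ≤ (Subgroup.closure {x : P | ∃ g : P, ∃ a ∈ ψ.range, x = g⁻¹ * a g}).map P.subtype := by
      rw [Subgroup.commutator_le]
      intro g hg a ha
      refine ⟨⟨⁅g, a⁆, hR1 (Subgroup.commutator_mem_commutator hg ha)⟩, Subgroup.subset_closure ⟨⟨g⁻¹, P.inv_mem hg⟩, ψ ⟨a, ha⟩, ⟨_, rfl⟩, ?_⟩, rfl⟩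
      apply Subtype.ext
      show ⁅g, a⁆ = (g⁻¹)⁻¹ * (a * g⁻¹ * a⁻¹)
      rw [commutatorElement_def]
      group
    rw [hR] at h1
    obtain ⟨y, hy, hyx⟩ := h1 hx
    have : y = ⟨x, hx⟩ := Subtype.ext hyx
    rwa [← this]
  have hmin' : ∀ U : Subgroup P, U.Characteristic → U ≠ ⊤ → ∀ α ∈ ψ.range, ∀ u ∈ U, α u = u := by
    rintro U hU hUt _ ⟨a, rfl⟩ u hu
    have hlt : U.map P.subtype < P := by
      refine lt_of_le_of_ne (Subgroup.map_subtype_le _) ?_
      intro h
      apply hUt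
      rw [eq_top_iff]
      rintro ⟨x, hx⟩ -
      rw [← h] at hx
      obtain ⟨y, hy, hyx⟩ := hx
      have : y = ⟨x, by rw [← h]; exact ⟨y, hy, hyx⟩⟩ := Subtype.ext hyx
      rw [this] at hy
      exact hy
    have h1 := hmin _ hlt (hBP.trans (CfsgLib.Comp.char_map_le_normalizer U))
    have h2 : ⁅(u : X), (a : X)⁆ ∈ (⁅U.map P.subtype, A⁆ : Subgroup X) :=
      Subgroup.commutator_mem_commutator ⟨u, hu, rfl⟩ a.2
    rw [h1, Subgroup.mem_bot, commutatorElement_eq_one_iff_mul_comm] at h2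
    apply Subtype.ext
    rw [hψ, ← h2]
    group
  obtain ⟨hcore, hcore2⟩ := h8_core hP ψ.range hA' hGA hmin'
  refine ⟨hR, ?_, ?_, ?_⟩
  · rcases hcore with ⟨h1, h2⟩ | h1
    · left
      exact ⟨h1, fun a ha => by
        have := h2 ⟨a, ha⟩
        exact congrArg Subtype.val this⟩
    · exact Or.inr h1
  · intro U hΦU hUP hUB
    by_cases hUe : U = P
    · exact Or.inr hUe
    left
    have hlt : U < P := lt_of_le_of_ne hUP hUe
    have hU := hmin U hlt hUB
    apply le_antisymm _ hΦU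
    intro x hx
    have hxP := hUP hx
    have hcomm : commutator P ≤ frattini P := (CfsgLib.Solv.pgroup_commutator_pow_le_frattini hP).1
    have h1 := CfsgLib.Trans.mem_of_fixed_mod hP ψ.range hA' hGA (frattini P) hcomm (x := ⟨x, hxP⟩) (by
      rintro _ ⟨a, rfl⟩
      have h2 : ⁅x, (a : X)⁆ ∈ (⁅U, A⁆ : Subgroup X) := Subgroup.commutator_mem_commutator hx a.2
      rw [hU, Subgroup.mem_bot, commutatorElement_eq_one_iff_mul_comm] at h2
      have h3 : ψ a ⟨x, hxP⟩ = ⟨x, hxP⟩ := by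
        apply Subtype.ext
        rw [hψ, ← h2]
        group
      rw [h3, inv_mul_cancel]
      exact Subgroup.one_mem _)
    exact ⟨_, h1, rfl⟩
  · intro hodd x hx
    have := hcore2 hodd ⟨x, hx⟩
    exact congrArg Subtype.val this

end Cfsg.Agent.S3736
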