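import Cfsg.Statements.S3803
import Cfsg.Agent.Lib.H3.Omega2
import Cfsg.Agent.Lib.Solv.Act
import Cfsg.Agent.Lib.Solv.PGroup
import Cfsg.Agent.Lib.H3.ConjTools

set_option autoImplicit false
open Cfsg

namespace Cfsg.Agent.S3803

/-- Let P be a 2-subgroup and A a subgroup of odd order of a finite group, with A normalizing P. Let D ≤ P with 1 < |D| < |P|. If every subgroup of P of order |D|, and also every subgroup of P of order 4 in case |D| = 2, is normalized by A, then A centralizes P. -/
theorem result {X : Type*} [Group X] [Finite X] (P A D : Subgroup X) (hP : IsPGroup 2 P) (hA : Odd (Nat.card A))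
    (hAP : A ≤ Subgroup.normalizer (P : Set X)) (hDP : D ≤ P) (hD1 : 1 < Nat.card D) (hD2 : Nat.card D < Nat.card P)
    (hinv : ∀ E : Subgroup X, E ≤ P → (Nat.card E = Nat.card D ∨ (Nat.card D = 2 ∧ Nat.card E = 4)) → A ≤ Subgroup.normalizer (E : Set X)) :
    A ≤ Subgroup.centralizer (P : Set X) := by
  classical
  haveI : Fact (2 : ℕ).Prime := ⟨Nat.prime_two⟩
  open CfsgLib.CT in
  -- cyclic 2-groups have 2-group automorphism groups
  have hcyc : ∀ L : Subgroup X, IsCyclic L → IsPGroup 2 L → ∀ a ∈ A, a ∈ Subgroup.normalizer (L : Set X) →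
      ∀ x ∈ L, a * x * a⁻¹ = x := by
    intro L hLc hLp a ha haL x hx
    obtain ⟨k, hk⟩ := IsPGroup.iff_card.1 hLp
    let α : MulAut L := Subgroup.normalizerMonoidHom L ⟨a, haL⟩
    have h1 : orderOf α ∣ Nat.card (MulAut L) := orderOf_dvd_natCard α
    rw [IsCyclic.card_mulAut, hk] at h1
    have h2 : orderOf α ∣ orderOf a := by
      have h3 := orderOf_map_dvd (Subgroup.normalizerMonoidHom L) (⟨a, haL⟩ : Subgroup.normalizer (L : Set X))
      rwa [Subgroup.orderOf_mk] at h3
    have h3 : Odd (orderOf a) := by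
      have h4 : orderOf a ∣ Nat.card A := by
        rw [← Subgroup.orderOf_mk a ha]; exact orderOf_dvd_natCard _
      exact Odd.of_dvd_nat hA h4
    have h5 : Odd (orderOf α) := Odd.of_dvd_nat h3 h2
    have h6 : orderOf α = 1 := by
      rcases Nat.eq_zero_or_pos k with rfl | hk0
      · simpa using h1
      · rw [Nat.totient_prime_pow Nat.prime_two hk0] at h1
        simp only [Nat.add_one_sub_one, one_mul, mul_one] at h1
        obtain ⟨j, -, hj⟩ := (Nat.dvd_prime_pow Nat.prime_two).1 h1
        rw [hj] at h5 ⊢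
        rcases Nat.eq_zero_or_pos j with rfl | hj0
        · simp
        · exfalso
          exact (Nat.not_even_iff_odd.2 h5) ((Nat.even_pow' hj0.ne').2 even_two)
    rw [orderOf_eq_one_iff] at h6
    have h7 : α ⟨x, hx⟩ = ⟨x, hx⟩ := by rw [h6]; rfl
    exact congrArg Subtype.val h7
  obtain ⟨m, hm⟩ := IsPGroup.iff_card.1 hP
  obtain ⟨s, hs⟩ := IsPGroup.iff_card.1 (hP.to_le hDP)
  have hsm : s < m := by
    rw [hs, hm] at hD2
    exact (Nat.pow_lt_pow_iff_right (by norm_num)).1 hD2
  have hs1 : 1 ≤ s := by
    rw [hs] at hD1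
    by_contra h
    have : s = 0 := by omega
    rw [this] at hD1
    simp at hD1
  -- extension inside a subgroup
  have hext : ∀ (Q L : Subgroup X) (j k : ℕ), L ≤ Q → Nat.card L = 2 ^ j → j ≤ k → 2 ^ k ∣ Nat.card Q →
      ∃ Y, L ≤ Y ∧ Y ≤ Q ∧ Nat.card Y = 2 ^ k := by
    intro Q L j k hLQ hL hjk hkQ
    obtain ⟨Y, hY, hLY⟩ := Sylow.exists_subgroup_card_pow_prime_le 2 (G := Q) (n := j) (m := k) hkQ (L.subgroupOf Q)
      (by rw [Nat.card_congr (Subgroup.subgroupOfEquivOfLe hLQ).toEquiv, hL]) hjk
    refine ⟨Y.map Q.subtype, ?_, Subgroup.map_subtype_le _, ?_⟩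
    · rw [← Subgroup.map_subgroupOf_eq_of_le hLQ]
      exact Subgroup.map_mono hLY
    · rw [Subgroup.card_map_of_injective Q.subtype_injective, hY]
  have hcent : ∀ x ∈ P, x ^ 4 = 1 → ∀ a ∈ A, a * x * a⁻¹ = x := by
    intro x hx h4 a ha
    have hLP : Subgroup.zpowers x ≤ P := by rwa [Subgroup.zpowers_le]
    have hLp : IsPGroup 2 (Subgroup.zpowers x) := hP.to_le hLP
    obtain ⟨j, hj⟩ := IsPGroup.iff_card.1 hLp
    have hj2 : j ≤ 2 := by
      have h1 : orderOf x ∣ 2 ^ 2 := orderOf_dvd_of_pow_eq_one (by simpa using h4)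
      rw [Nat.card_zpowers] at hj
      rw [hj] at h1
      exact (Nat.pow_dvd_pow_iff_le_right (by norm_num)).1 h1
    by_cases hs' : s = 1
    · subst hs'
      have hD : Nat.card D = 2 := by simpa using hs
      have hnorm : a ∈ Subgroup.normalizer ((Subgroup.zpowers x : Subgroup X) : Set X) := by
        interval_cases j
        · have : Subgroup.zpowers x = ⊥ := Subgroup.eq_bot_of_card_eq _ (by simpa using hj)
          rw [this, Subgroup.normalizer_eq_top_iff.2 inferInstance]
          trivial
        · exact hinv _ hLP (Or.inl (by rw [hj, hD]; norm_num)) ha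
        · exact hinv _ hLP (Or.inr ⟨hD, by rw [hj]; norm_num⟩) ha
      exact hcyc _ (Subgroup.isCyclic_zpowers x) hLp a ha hnorm x (Subgroup.mem_zpowers x)
    · have hs2 : 2 ≤ s := by omega
      obtain ⟨Y, hLY, hYP, hY⟩ := hext P _ j s hLP hj (by omega) (by rw [hm]; exact pow_dvd_pow 2 hsm.le)
      obtain ⟨E, hYE, hEP, hE⟩ := hext P Y s (s + 1) hYP hY (by omega) (by rw [hm]; exact pow_dvd_pow 2 hsm)
      have hxY : x ∈ Y := hLY (Subgroup.mem_zpowers x)
      have hinvE : ∀ Z : Subgroup X, Z ≤ P → Nat.card Z = 2 ^ s → A ≤ Subgroup.normalizer (Z : Set X) := by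
        intro Z hZ hcZ
        exact hinv Z hZ (Or.inl (by rw [hcZ, hs]))
      by_cases hEc : IsCyclic E
      · have hYc : IsCyclic Y := isCyclic_of_injective (Subgroup.inclusion hYE) (Subgroup.inclusion_injective hYE)
        exact hcyc Y hYc (hP.to_le hYP) a ha (hinvE Y hYP hY ha) x hxY
      · -- `E` is invariant
        obtain ⟨z, hzE, hzY⟩ : ∃ z ∈ E, z ∉ Y := by
          by_contra hcon
          push Not at hcon
          have h1 := Subgroup.card_le_of_le (show E ≤ Y from hcon)
          rw [hE, hY, pow_succ] at h1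
          have : 0 < 2 ^ s := by positivity
          omega
        have hzle : Subgroup.zpowers z ≤ E := by rwa [Subgroup.zpowers_le]
        obtain ⟨i, hi⟩ := IsPGroup.iff_card.1 (hP.to_le (hzle.trans hEP))
        have hi' : i ≤ s := by
          by_contra hlt
          have h1 : i ≤ s + 1 := by
            have h2 := Subgroup.card_dvd_of_le hzle
            rw [hi, hE] at h2
            exact (Nat.pow_dvd_pow_iff_le_right (by norm_num)).1 h2
          have h3 : i = s + 1 := by omega
          have h4 : Subgroup.zpowers z = E := by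
            apply Subgroup.eq_of_le_of_card_ge hzle
            rw [hi, hE, h3]
          apply hEc
          rw [← h4]
          exact Subgroup.isCyclic_zpowers z
        obtain ⟨Y', hzY', hY'E, hY'⟩ := hext E _ i s hzle hi hi' (by rw [hE]; exact pow_dvd_pow 2 (by omega))
        have hsup : Y ⊔ Y' = E := by
          apply Subgroup.eq_of_le_of_card_ge (sup_le hYE hY'E)
          obtain ⟨t, ht⟩ := IsPGroup.iff_card.1 (hP.to_le ((sup_le hYE hY'E).trans hEP))
          have h1 : Y ≤ Y ⊔ Y' := le_sup_left
          have h2 := Subgroup.card_dvd_of_le h1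
          rw [ht, hY] at h2
          have h3 : s ≤ t := (Nat.pow_dvd_pow_iff_le_right (by norm_num)).1 h2
          have h4 : t ≠ s := by
            intro hts
            have h5 : Y = Y ⊔ Y' := by
              apply Subgroup.eq_of_le_of_card_ge h1
              rw [ht, hY, hts]
            apply hzY
            rw [h5]
            exact Subgroup.mem_sup_right (hzY' (Subgroup.mem_zpowers z))
          rw [ht, hE]
          exact Nat.pow_le_pow_right (by norm_num) (by omega)
        have hEA : A ≤ Subgroup.normalizer (E : Set X) := by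
          intro b hb
          rw [← map_conj_eq_iff, ← hsup, Subgroup.map_sup, map_conj_eq_iff.2 (hinvE Y hYP hY hb),
            map_conj_eq_iff.2 (hinvE Y' (hY'E.trans hEP) hY' hb)]
        have hEp : IsPGroup 2 E := hP.to_le hEP
        have hcop : (Nat.card A).Coprime (Nat.card (frattini E)) := by
          obtain ⟨t, ht⟩ := IsPGroup.iff_card.1 (hEp.to_subgroup (frattini E))
          rw [ht]
          exact Nat.Coprime.pow_right _ (Nat.coprime_two_right.2 hA)
        have htriv : ∀ b ∈ A, ∀ k ∈ E, b * k * b⁻¹ * k⁻¹ ∈ (frattini E).map E.subtype := by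
          intro b hb k hk
          have hbk : b * k * b⁻¹ ∈ E := conj_mem_of_mem_normalizer (hEA hb) hk
          refine ⟨⟨b * k * b⁻¹, hbk⟩ * ⟨k, hk⟩⁻¹, ?_, rfl⟩
          change _ ∈ frattini E
          rw [CfsgLib.Solv.mem_frattini_iff]
          intro M hM
          obtain ⟨hMn, hMi⟩ := CfsgLib.Solv.coatom_of_pgroup hEp hM
          have hMc : Nat.card (M.map E.subtype) = 2 ^ s := by
            rw [Subgroup.card_map_of_injective E.subtype_injective]
            have h1 := Subgroup.card_mul_index M
            rw [hMi, hE, pow_succ] at h1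
            omega
          have hnb := hinvE _ ((Subgroup.map_subtype_le M).trans hEP) hMc hb
          have h2 : (⟨b * k * b⁻¹, hbk⟩ : E) ∈ M ↔ (⟨k, hk⟩ : E) ∈ M := by
            have h3 := (Subgroup.mem_normalizer_iff.1 hnb k)
            constructor
            · intro h
              have h4 : b * k * b⁻¹ ∈ M.map E.subtype := ⟨_, h, rfl⟩
              obtain ⟨w, hw, hw'⟩ := h3.2 h4
              have : w = ⟨k, hk⟩ := Subtype.ext hw'
              rwa [← this]
            · intro h
              have h4 : k ∈ M.map E.subtype := ⟨_, h, rfl⟩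
              obtain ⟨w, hw, hw'⟩ := h3.1 h4
              have : w = ⟨b * k * b⁻¹, hbk⟩ := Subtype.ext hw'
              rwa [← this]
          rw [Subgroup.mul_mem_iff_of_index_two hMi, Subgroup.inv_mem_iff]
          exact h2
        have hc := CfsgLib.Solv.frattini_coprime_trivial A E hEA hcop htriv
        have h5 := (Subgroup.mem_centralizer_iff.1 (hc ha)) x (hYE hxY)
        rw [← h5]
        group
  -- conclusion
  intro a ha
  rw [Subgroup.mem_centralizer_iff]
  intro x hx
  let α : MulAut P := Subgroup.normalizerMonoidHom P ⟨a, hAP ha⟩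
  have h1 : α = 1 := by
    apply CfsgLib.Omega2.aut_trivial_of_omega_two hP
    · rw [Nat.coprime_two_right]
      have h2 : orderOf α ∣ orderOf a := by
        have h3 := orderOf_map_dvd (Subgroup.normalizerMonoidHom P) (⟨a, hAP ha⟩ : Subgroup.normalizer (P : Set X))
        rwa [Subgroup.orderOf_mk] at h3
      have h4 : orderOf a ∣ Nat.card A := by
        rw [← Subgroup.orderOf_mk a ha]; exact orderOf_dvd_natCard _
      exact Odd.of_dvd_nat hA (h2.trans h4)
    · intro y hy
      apply Subtype.ext
      exact hcent y y.2 (by exact_mod_cast congrArg Subtype.val hy) a ha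
  have h2 : α ⟨x, hx⟩ = ⟨x, hx⟩ := by rw [h1]; rfl
  have h3 : a * x * a⁻¹ = x := congrArg Subtype.val h2
  exact (mul_inv_eq_iff_eq_mul.1 h3).symm

end Cfsg.Agent.S3803
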