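import Cfsg.Statements.S3815
import Cfsg.Agent.Lib.FGS.Basic

set_option autoImplicit false
open Cfsg

namespace Cfsg.Agent.S3815

/-- Let G be a finite group, p a prime and d ∈ G an element of order prime to p. If dg has order prime to p for every element g ∈ G of order prime to p, then d ∈ O_{p'}(G). -/
theorem result {G : Type*} [Group G] [Finite G] {p : ℕ} [Fact p.Prime]
    (d : G) (hd : (orderOf d).Coprime p)
    (h : ∀ g : G, (orderOf g).Coprime p → (orderOf (d * g)).Coprime p) :
    d ∈ Cfsg.pPrimeCore p G := by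
  classical
  -- the set D of such elements is a normal subgroup of p'-elements
  let S : Submonoid G :=
    { carrier := {d | (orderOf d).Coprime p ∧ ∀ g : G, (orderOf g).Coprime p → (orderOf (d * g)).Coprime p}
      one_mem' := by
        refine ⟨by simp, fun g hg => by simpa using hg⟩
      mul_mem' := by
        rintro a b ⟨ha, ha'⟩ ⟨hb, hb'⟩
        refine ⟨ha' b hb, fun g hg => ?_⟩
        rw [mul_assoc]
        exact ha' _ (hb' g hg) }
  let D : Subgroup G := CfsgLib.FGS.subgroupOfSubmonoid S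
  have hmem : ∀ x, x ∈ D ↔ (orderOf x).Coprime p ∧ ∀ g : G, (orderOf g).Coprime p → (orderOf (x * g)).Coprime p :=
    fun x => Iff.rfl
  have hDn : D.Normal := by
    constructor
    intro x hx c
    rw [hmem] at hx ⊢
    obtain ⟨hx1, hx2⟩ := hx
    have hconj : ∀ y c : G, orderOf (c * y * c⁻¹) = orderOf y := CfsgLib.FGS.orderOf_conj_eq
    refine ⟨by rw [hconj]; exact hx1, fun g hg => ?_⟩
    have h1 : c * x * c⁻¹ * g = c * (x * (c⁻¹ * g * c)) * c⁻¹ := by group
    rw [h1, hconj]
    apply hx2
    have h2 : c⁻¹ * g * c = c⁻¹ * g * (c⁻¹)⁻¹ := by simp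
    rw [h2, hconj]
    exact hg
  have hcard : (Nat.card D).Coprime p :=
    CfsgLib.FGS.card_coprime_of_orders D (fun x hx => ((hmem x).1 hx).1)
  have hle : D ≤ Cfsg.pPrimeCore p G := CfsgLib.FGS.le_pPrimeCore D hcard
  exact hle ((hmem d).2 ⟨hd, h⟩)

end Cfsg.Agent.S3815
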