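import Cfsg.Statements.S3820
import Cfsg.Agent.Lib.FGS.Elem

set_option autoImplicit false
open Cfsg

namespace Cfsg.Agent.S3820

/-- Call a subgroup H of G pronormal if H and gHg⁻¹ are conjugate inside ⟨H, gHg⁻¹⟩ for every g ∈ G. Let S ≤ H ≤ G be subgroups of a finite group with S pronormal in G (for instance S a Sylow subgroup). Then H is pronormal in G if and only if H and gHg⁻¹ are conjugate inside ⟨H, gHg⁻¹⟩ for every g ∈ N_G(S). In particular H is pronormal whenever N_G(S) ≤ H. -/
theorem result {G : Type*} [Group G] [Finite G] (S H : Subgroup G) (hSH : S ≤ H)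
    (hS : Cfsg.IsPronormal S) :
    Cfsg.IsPronormal H ↔
      ∀ g ∈ Subgroup.normalizer (S : Set G), ∃ w ∈ H ⊔ H.map (MulAut.conj g).toMonoidHom,
        H.map (MulAut.conj g).toMonoidHom = H.map (MulAut.conj w).toMonoidHom := by
  classical
  constructor
  · intro hH g _
    exact hH g
  · intro h g
    obtain ⟨w, hw, hSw⟩ := hS g
    set g' := w⁻¹ * g with hg'
    have hgw : g = w * g' := by rw [hg']; group
    have hSH' : S.map (MulAut.conj g).toMonoidHom ≤ H.map (MulAut.conj g).toMonoidHom := Subgroup.map_mono hSH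
    have hwJ : w ∈ H ⊔ H.map (MulAut.conj g).toMonoidHom :=
      (sup_le_sup hSH hSH') hw
    have hg'N : g' ∈ Subgroup.normalizer (S : Set G) := by
      apply CfsgLib.FGS.mem_normalizer_of_map_conj_eq
      rw [hg', CfsgLib.FGS.map_conj_mul, hSw, CfsgLib.FGS.map_conj_inv_map_conj]
    obtain ⟨v, hv, hHv⟩ := h g' hg'N
    refine ⟨w * v, ?_, ?_⟩
    · apply Subgroup.mul_mem _ hwJ
      have hle : H ⊔ H.map (MulAut.conj g').toMonoidHom ≤ H ⊔ H.map (MulAut.conj g).toMonoidHom := by
        apply sup_le le_sup_left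
        rintro _ ⟨x, hx, rfl⟩
        have h1 : (MulAut.conj g).toMonoidHom x ∈ H ⊔ H.map (MulAut.conj g).toMonoidHom :=
          Subgroup.mem_sup_right ⟨x, hx, rfl⟩
        have h2 : (MulAut.conj g').toMonoidHom x = w⁻¹ * (MulAut.conj g).toMonoidHom x * w := by
          simp [hg', mul_assoc]
        rw [h2]
        exact Subgroup.mul_mem _ (Subgroup.mul_mem _ (Subgroup.inv_mem _ hwJ) h1) hwJ
      exact hle hv
    · rw [hgw, CfsgLib.FGS.map_conj_mul, hHv, ← CfsgLib.FGS.map_conj_mul]

end Cfsg.Agent.S3820
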