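import Cfsg.Statements.S3821
import Cfsg.Agent.Lib.FGS.Elem

set_option autoImplicit false
open Cfsg

namespace Cfsg.Agent.S3821

/-- Let A be a normal subgroup of the finite group G and H a subgroup of A. Then H is pronormal in G (H and gHg⁻¹ conjugate inside ⟨H, gHg⁻¹⟩ for every g ∈ G) if and only if H is pronormal in A and G = A · N_G(H). -/
theorem result {G : Type*} [Group G] [Finite G] (A H : Subgroup G) [A.Normal] (hHA : H ≤ A) :
    Cfsg.IsPronormal H ↔ (Cfsg.IsPronormal (H.subgroupOf A) ∧ A ⊔ Subgroup.normalizer (H : Set G) = ⊤) := by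
  classical
  rename_i hAn
  set H₀ := H.subgroupOf A with hH₀
  have hmem : ∀ (a y : A), y ∈ H₀.map (MulAut.conj a).toMonoidHom ↔
      (y : G) ∈ H.map (MulAut.conj (a : G)).toMonoidHom := by
    intro a y
    rw [CfsgLib.FGS.mem_map_conj_iff, CfsgLib.FGS.mem_map_conj_iff, hH₀, Subgroup.mem_subgroupOf]
    simp
  have hmem0 : ∀ y : A, y ∈ H₀ ↔ (y : G) ∈ H := fun y => Subgroup.mem_subgroupOf
  have hsupmap : ∀ a : A, (H₀ ⊔ H₀.map (MulAut.conj a).toMonoidHom).map A.subtype =
      H ⊔ H.map (MulAut.conj (a : G)).toMonoidHom := by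
    intro a
    apply le_antisymm
    · rw [Subgroup.map_sup]
      apply sup_le_sup
      · rintro _ ⟨y, hy, rfl⟩
        exact (hmem0 y).mp hy
      · rintro _ ⟨y, hy, rfl⟩
        exact (hmem a y).mp hy
    · apply sup_le
      · intro y hy
        exact ⟨⟨y, hHA hy⟩, Subgroup.mem_sup_left ((hmem0 _).mpr hy), rfl⟩
      · intro y hy
        have hyA : y ∈ A := by
          obtain ⟨z, hz, rfl⟩ := hy
          exact Subgroup.mul_mem _ (Subgroup.mul_mem _ a.2 (hHA hz)) (A.inv_mem a.2)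
        exact ⟨⟨y, hyA⟩, Subgroup.mem_sup_right ((hmem a _).mpr hy), rfl⟩
  have hconjA : ∀ g : G, H ⊔ H.map (MulAut.conj g).toMonoidHom ≤ A := by
    intro g
    apply sup_le hHA
    rintro _ ⟨z, hz, rfl⟩
    exact hAn.conj_mem z (hHA hz) g
  constructor
  · intro hP
    refine ⟨?_, ?_⟩
    · intro a
      obtain ⟨w, hw, hHw⟩ := hP (a : G)
      have hwA := hconjA _ hw
      refine ⟨⟨w, hwA⟩, ?_, ?_⟩
      · rw [← hsupmap a] at hw
        obtain ⟨x, hx, hxw⟩ := hw
        have : x = ⟨w, hwA⟩ := Subtype.ext hxw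
        rwa [← this]
      · ext y
        rw [hmem, hmem, hHw]
    · rw [eq_top_iff]
      intro g _
      obtain ⟨w, hw, hHw⟩ := hP g
      have hwA := hconjA _ hw
      have h1 : w⁻¹ * g ∈ Subgroup.normalizer (H : Set G) := by
        apply CfsgLib.FGS.mem_normalizer_of_map_conj_eq
        rw [CfsgLib.FGS.map_conj_mul, hHw, CfsgLib.FGS.map_conj_inv_map_conj]
      have h2 : g = w * (w⁻¹ * g) := by group
      rw [h2]
      exact Subgroup.mul_mem _ (Subgroup.mem_sup_left hwA) (Subgroup.mem_sup_right h1)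
  · rintro ⟨hP₀, hsup⟩ g
    have hg : g ∈ A ⊔ Subgroup.normalizer (H : Set G) := by rw [hsup]; exact Subgroup.mem_top g
    obtain ⟨a, ha, n, hn, rfl⟩ := Subgroup.mem_sup_of_normal_left.mp hg
    have hHg : H.map (MulAut.conj (a * n)).toMonoidHom = H.map (MulAut.conj a).toMonoidHom := by
      rw [CfsgLib.FGS.map_conj_mul, CfsgLib.FGS.map_conj_eq_of_mem_normalizer hn]
    obtain ⟨x, hx, hHx⟩ := hP₀ ⟨a, ha⟩
    refine ⟨(x : G), ?_, ?_⟩
    · rw [hHg]
      rw [← hsupmap ⟨a, ha⟩]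
      exact ⟨x, hx, rfl⟩
    · rw [hHg]
      ext y
      by_cases hy : y ∈ A
      · have h3 := hmem ⟨a, ha⟩ ⟨y, hy⟩
        have h4 := hmem x ⟨y, hy⟩
        rw [hHx] at h3
        exact h3.symm.trans h4
      · constructor
        · rintro ⟨z, hz, rfl⟩
          exact absurd (hAn.conj_mem z (hHA hz) a) hy
        · rintro ⟨z, hz, rfl⟩
          exact absurd (hAn.conj_mem z (hHA hz) x) hy

end Cfsg.Agent.S3821
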