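import Cfsg.Statements.S3825
import Cfsg.Agent.Lib.FGS.Basic

set_option autoImplicit false
open Cfsg

namespace Cfsg.Agent.S3825

theorem key {H : Type*} [Group H] [Finite H] (U : Subgroup H) (w : H) (hw : orderOf w = 2)
    (hwU : w ∈ Subgroup.normalizer (U : Set H)) (y : H) (hy : y ≠ 1) (hyU : y ∈ U)
    (hfix : ∀ u ∈ U, w * u * w⁻¹ = u ↔ (u = 1 ∨ u = y))
    (V : Subgroup H) (hVU : V ≤ U) (hVn : (V.subgroupOf U).Normal) (hVw : ∀ v ∈ V, w * v * w⁻¹ ∈ V)
    (hVe : Cfsg.IsElementaryAbelian 2 V) (hVc : ¬ IsCyclic ↥V) (hyV : y ∈ V) :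
    Nat.card ↥V = 4 ∧ ∃ v' ∈ V, v' * (w * v' * w⁻¹) = y := by
  classical
  have hww : w * w = 1 := by
    have := pow_orderOf_eq_one w
    rw [hw, sq] at this
    exact this
  have hwi : w⁻¹ = w := inv_eq_of_mul_eq_one_left hww
  have hcomm : ∀ a ∈ V, ∀ b ∈ V, a * b = b * a := by
    intro a ha b hb
    have := hVe.1.is_comm.comm ⟨a, ha⟩ ⟨b, hb⟩
    exact congrArg Subtype.val this
  have hsq : ∀ a ∈ V, a * a = 1 := by
    intro a ha
    rw [← sq]
    exact hVe.2 a ha
  -- the map phi
  let φ : ↥V →* ↥V :=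
    { toFun := fun v => ⟨v.1 * (w * v.1 * w⁻¹), V.mul_mem v.2 (hVw _ v.2)⟩
      map_one' := by ext; simp
      map_mul' := by
        intro a b
        ext
        simp only [Subgroup.coe_mul]
        have h1 : w * (a.1 * b.1) * w⁻¹ = (w * a.1 * w⁻¹) * (w * b.1 * w⁻¹) := by group
        rw [h1]
        have h2 := hcomm _ b.2 _ (hVw _ a.2)
        calc a.1 * b.1 * (w * a.1 * w⁻¹ * (w * b.1 * w⁻¹))
            = a.1 * (b.1 * (w * a.1 * w⁻¹)) * (w * b.1 * w⁻¹) := by group
          _ = a.1 * ((w * a.1 * w⁻¹) * b.1) * (w * b.1 * w⁻¹) := by rw [h2]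
          _ = _ := by group }
  have hφ : ∀ v : ↥V, (φ v).1 = v.1 * (w * v.1 * w⁻¹) := fun v => rfl
  have hker : ∀ v : ↥V, φ v = 1 → v.1 = 1 ∨ v.1 = y := by
    intro v hv
    rw [← hfix v.1 (hVU v.2)]
    have h1 : v.1 * (w * v.1 * w⁻¹) = 1 := by
      have := congrArg Subtype.val hv
      simpa [hφ] using this
    have h2 : v.1 * v.1 = 1 := hsq _ v.2
    exact (mul_left_cancel (h1.trans h2.symm))
  have himg : ∀ v : ↥V, (φ v).1 = 1 ∨ (φ v).1 = y := by
    intro v
    rw [← hfix _ (hVU (φ v).2), hφ]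
    have := hcomm _ v.2 _ (hVw _ v.2)
    calc w * (v.1 * (w * v.1 * w⁻¹)) * w⁻¹ = (w * v.1 * w⁻¹) * (w * w * v.1 * (w⁻¹ * w⁻¹)) := by group
      _ = (w * v.1 * w⁻¹) * v.1 := by
        rw [hww, hwi, hww]; simp
      _ = _ := this.symm
  have hV1 : Nat.card φ.ker ≤ 2 := by
    have : Nat.card φ.ker ≤ Nat.card ({1, ⟨y, hyV⟩} : Finset ↥V) := by
      apply Nat.card_le_card_of_injective
        (fun x : φ.ker => (⟨x.1, by
          have := hker x.1 x.2
          simp only [Finset.mem_insert, Finset.mem_singleton]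
          rcases this with h | h
          · left; ext; simpa using h
          · right; ext; simpa using h⟩ : ({1, ⟨y, hyV⟩} : Finset ↥V)))
      intro a b hab
      have := congrArg Subtype.val hab
      exact Subtype.ext this
    refine this.trans ?_
    rw [Nat.card_eq_fintype_card, Fintype.card_coe]
    exact Finset.card_le_two
  have hV2 : Nat.card φ.range ≤ 2 := by
    have : Nat.card φ.range ≤ Nat.card ({1, ⟨y, hyV⟩} : Finset ↥V) := by
      apply Nat.card_le_card_of_injective
        (fun x : φ.range => (⟨x.1, by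
          obtain ⟨v, hv⟩ := x.2
          have := himg v
          rw [hv] at this
          simp only [Finset.mem_insert, Finset.mem_singleton]
          rcases this with h | h
          · left; ext; simpa using h
          · right; ext; simpa using h⟩ : ({1, ⟨y, hyV⟩} : Finset ↥V)))
      intro a b hab
      have := congrArg Subtype.val hab
      exact Subtype.ext this
    refine this.trans ?_
    rw [Nat.card_eq_fintype_card, Fintype.card_coe]
    exact Finset.card_le_two
  have hcard : Nat.card φ.ker * Nat.card φ.range = Nat.card ↥V := by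
    have := Subgroup.card_mul_index φ.ker
    rw [Subgroup.index_ker] at this
    exact this
  have hVle : Nat.card ↥V ≤ 4 := by
    rw [← hcard]
    exact Nat.mul_le_mul hV1 hV2 |>.trans (by norm_num)
  have hVcard : Nat.card ↥V = 4 := by
    by_contra hne
    have hlt : Nat.card ↥V < 4 := lt_of_le_of_ne hVle hne
    have hpos : 0 < Nat.card ↥V := Nat.card_pos
    have hcyc : IsCyclic ↥V := by
      have h123 : Nat.card ↥V = 1 ∨ Nat.card ↥V = 2 ∨ Nat.card ↥V = 3 := by omega
      rcases h123 with h | h | h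
      · have := (Nat.card_eq_one_iff_unique.mp h).1
        exact inferInstance
      · haveI : Fact (Nat.card ↥V).Prime := ⟨by rw [h]; exact Nat.prime_two⟩
        exact isCyclic_of_prime_card rfl
      · haveI : Fact (Nat.card ↥V).Prime := ⟨by rw [h]; exact Nat.prime_three⟩
        exact isCyclic_of_prime_card rfl
    exact hVc hcyc
  refine ⟨hVcard, ?_⟩
  -- range has size 2, contains y
  have hrange : 2 ≤ Nat.card φ.range := by
    have : Nat.card φ.range * 2 ≥ 4 := by
      rw [← hVcard, ← hcard, mul_comm]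
      exact Nat.mul_le_mul_right _ hV1
    omega
  have : ∃ z : φ.range, z ≠ 1 := by
    haveI : Nontrivial φ.range := Finite.one_lt_card_iff_nontrivial.mp (by omega)
    exact exists_ne 1
  obtain ⟨⟨z, hz⟩, hz1⟩ := this
  obtain ⟨v, rfl⟩ := hz
  refine ⟨v.1, v.2, ?_⟩
  have h := himg v
  rcases h with h | h
  · exfalso
    apply hz1
    apply Subtype.ext
    exact Subtype.ext h
  · exact h


/-- Let U be a subgroup of a finite group H and w an involution of H normalizing U and commuting with exactly two elements of U, the identity and y. If V is a non-cyclic elementary abelian 2-subgroup of U containing y which is normal in U and invariant under w, then V is a Sylow 2-subgroup of U, V has order 4, and U/V is abelian. -/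
theorem result {H : Type*} [Group H] [Finite H] (U : Subgroup H) (w : H) (hw : orderOf w = 2)
    (hwU : w ∈ Subgroup.normalizer (U : Set H)) (y : H) (hy : y ≠ 1) (hyU : y ∈ U)
    (hfix : ∀ u ∈ U, w * u * w⁻¹ = u ↔ (u = 1 ∨ u = y))
    (V : Subgroup H) (hVU : V ≤ U) (hVn : (V.subgroupOf U).Normal) (hVw : ∀ v ∈ V, w * v * w⁻¹ ∈ V)
    (hVe : Cfsg.IsElementaryAbelian 2 V) (hVc : ¬ IsCyclic ↥V) (hyV : y ∈ V) :
    ¬ 2 ∣ V.relIndex U ∧ Nat.card ↥V = 4 ∧ ⁅U, U⁆ ≤ V := by
  classical
  have hww : w * w = 1 := by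
    have := pow_orderOf_eq_one w
    rw [hw, sq] at this
    exact this
  have hwi : w⁻¹ = w := inv_eq_of_mul_eq_one_left hww
  obtain ⟨hVcard, v', hv'V, hv'⟩ := key U w hw hwU y hy hyU hfix V hVU hVn hVw hVe hVc hyV
  have hcomm : ∀ a ∈ V, ∀ b ∈ V, a * b = b * a := by
    intro a ha b hb
    have := hVe.1.is_comm.comm ⟨a, ha⟩ ⟨b, hb⟩
    exact congrArg Subtype.val this
  have hsq : ∀ a ∈ V, a * a = 1 := by
    intro a ha
    rw [← sq]
    exact hVe.2 a ha
  have hwU' : ∀ u ∈ U, w * u * w⁻¹ ∈ U := by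
    intro u hu
    exact (Subgroup.mem_normalizer_iff.mp hwU u).mp hu
  let σ : ↥U →* ↥U :=
    { toFun := fun u => ⟨w * u.1 * w⁻¹, hwU' _ u.2⟩
      map_one' := by ext; simp
      map_mul' := by intro a b; ext; simp only [Subgroup.coe_mul]; group }
  have hσ : ∀ u : ↥U, (σ u).1 = w * u.1 * w⁻¹ := fun u => rfl
  let K : Subgroup ↥U := V.subgroupOf U
  haveI : K.Normal := hVn
  have hK : ∀ u : ↥U, u ∈ K ↔ u.1 ∈ V := fun u => Subgroup.mem_subgroupOf
  let τ : ↥U ⧸ K →* ↥U ⧸ K := QuotientGroup.map K K σ (by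
    intro u hu
    rw [Subgroup.mem_comap, hK, hσ]
    exact hVw _ ((hK u).mp hu))
  have hτ : ∀ u : ↥U, τ (u : ↥U ⧸ K) = ((σ u : ↥U) : ↥U ⧸ K) := fun u => rfl
  have hinv : Function.Involutive τ := by
    intro x
    induction x using QuotientGroup.induction_on with
    | H u =>
      rw [hτ, hτ]
      congr 1
      ext
      rw [hσ, hσ]
      calc w * (w * u.1 * w⁻¹) * w⁻¹ = (w * w) * u.1 * (w⁻¹ * w⁻¹) := by group
        _ = u.1 := by rw [hww, hwi, hww]; simp
  have hfpf : MonoidHom.FixedPointFree τ := by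
    intro x hx
    induction x using QuotientGroup.induction_on with
    | H s =>
      rw [hτ] at hx
      rw [QuotientGroup.eq_one_iff, hK]
      have h1 : s⁻¹ * σ s ∈ K := by
        have := QuotientGroup.eq.mp hx.symm
        exact this
      rw [hK] at h1
      simp only [Subgroup.coe_mul, Subgroup.coe_inv, hσ] at h1
      set v := s.1⁻¹ * (w * s.1 * w⁻¹) with hv
      have hs : w * s.1 * w⁻¹ = s.1 * v := by rw [hv]; group
      have hvw : v * (w * v * w⁻¹) = 1 := by
        have h2 : w * (s.1 * v) * w⁻¹ = s.1 := by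
          rw [← hs]
          calc w * (w * s.1 * w⁻¹) * w⁻¹ = (w * w) * s.1 * (w⁻¹ * w⁻¹) := by group
            _ = s.1 := by rw [hww, hwi, hww]; simp
        have h3 : w * (s.1 * v) * w⁻¹ = (w * s.1 * w⁻¹) * (w * v * w⁻¹) := by group
        rw [h3, hs] at h2
        have h4 : s.1 * (v * (w * v * w⁻¹)) = s.1 := by rw [← mul_assoc]; exact h2
        exact mul_left_cancel (h4.trans (mul_one _).symm)
      have hvfix : w * v * w⁻¹ = v := by
        have h2 := hsq v h1
        exact mul_left_cancel (hvw.trans h2.symm)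
      have hvU : v ∈ U := hVU h1
      rcases (hfix v hvU).mp hvfix with h0 | h0
      · have : w * s.1 * w⁻¹ = s.1 := by rw [hs, h0, mul_one]
        rcases (hfix s.1 s.2).mp this with h | h
        · rw [h]; exact V.one_mem
        · rw [h]; exact hyV
      · -- v = y
        have hc : w * (s.1 * v') * w⁻¹ = s.1 * v' := by
          have h5 : w * (s.1 * v') * w⁻¹ = (w * s.1 * w⁻¹) * (w * v' * w⁻¹) := by group
          rw [h5, hs, h0, ← hv']
          have h6 := hsq _ (hVw _ hv'V)
          calc s.1 * (v' * (w * v' * w⁻¹)) * (w * v' * w⁻¹)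
              = s.1 * v' * ((w * v' * w⁻¹) * (w * v' * w⁻¹)) := by group
            _ = s.1 * v' := by rw [h6, mul_one]
        have hmem : s.1 * v' ∈ V := by
          rcases (hfix _ (U.mul_mem s.2 (hVU hv'V))).mp hc with h | h
          · rw [h]; exact V.one_mem
          · rw [h]; exact hyV
        have := V.mul_mem hmem (V.inv_mem hv'V)
        simpa using this
  refine ⟨?_, hVcard, ?_⟩
  · have hodd := hfpf.odd_card_of_involutive hinv
    have : V.relIndex U = Nat.card (↥U ⧸ K) := rfl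
    rw [this]
    exact hodd.not_two_dvd_nat
  · rw [Subgroup.commutator_le]
    intro a ha b hb
    have hc := hfpf.commute_all_of_involutive hinv ((⟨a, ha⟩ : ↥U) : ↥U ⧸ K) ((⟨b, hb⟩ : ↥U) : ↥U ⧸ K)
    have h1 : (((⟨a, ha⟩ : ↥U) * (⟨b, hb⟩ : ↥U) * (⟨a, ha⟩ : ↥U)⁻¹ * (⟨b, hb⟩ : ↥U)⁻¹ : ↥U) : ↥U ⧸ K) = 1 := by
      simp only [QuotientGroup.mk_mul, QuotientGroup.mk_inv]
      have : ((⟨a, ha⟩ : ↥U) : ↥U ⧸ K) * ((⟨b, hb⟩ : ↥U) : ↥U ⧸ K) = ((⟨b, hb⟩ : ↥U) : ↥U ⧸ K) * ((⟨a, ha⟩ : ↥U) : ↥U ⧸ K) := hc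
      rw [this]
      group
    rw [QuotientGroup.eq_one_iff, hK] at h1
    rw [commutatorElement_def]
    exact h1

end Cfsg.Agent.S3825
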