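import Cfsg.Statements.S3838
import Cfsg.Agent.Lib.FGS.Basic
import Cfsg.Agent.Lib.OOL.Tate
import Cfsg.Agent.Lib.OOL.Rank2G
import Cfsg.Agent.Lib.Trans.Basic

set_option autoImplicit false
open Cfsg
open scoped commutatorElement
open scoped Pointwise

namespace Cfsg.Agent.S3838

theorem h8_char_compl {L : Type*} [Group L] [Finite L] {p : ℕ} [hpf : Fact p.Prime] (K : Subgroup L) [K.Normal] (hc : (Nat.card K).Coprime p)
    {k : ℕ} (hk : K.index = p ^ k) (x : L) : x ∈ K ↔ (orderOf x).Coprime p := by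
  constructor
  · intro hx
    exact Nat.Coprime.coprime_dvd_left (Subgroup.orderOf_dvd_natCard K hx) hc
  · intro hx
    rw [← QuotientGroup.eq_one_iff]
    have h1 : ((x : L) : L ⧸ K) ^ (p ^ k) = 1 := by
      rw [← hk]
      exact pow_card_eq_one'
    have h2 : orderOf ((x : L) : L ⧸ K) ∣ p ^ k := orderOf_dvd_of_pow_eq_one h1
    have h3 : orderOf ((x : L) : L ⧸ K) ∣ orderOf x := by
      apply orderOf_dvd_of_pow_eq_one
      rw [← QuotientGroup.mk_pow, pow_orderOf_eq_one]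
      rfl
    have h4 : Nat.Coprime (orderOf x) (p ^ k) := Nat.Coprime.pow_right k hx
    have h5 := Nat.Coprime.eq_one_of_dvd (Nat.Coprime.coprime_dvd_left h3 h4) h2
    exact orderOf_eq_one_iff.1 h5

theorem h8_tate_quot {X : Type*} [Group X] [Finite X] {p : ℕ} [hpf : Fact p.Prime] (T : Sylow p X) (Q₀ : Subgroup X) [hQ0 : Q₀.Normal]
    (hQT : Q₀ ≤ (T : Subgroup X)) (hΦ : Q₀ ≤ (frattini T).map (T : Subgroup X).subtype)
    (hN : ∀ g ∈ Subgroup.normalizer ((T : Subgroup X) : Set X), ∀ t ∈ (T : Subgroup X), g * t * g⁻¹ * t⁻¹ ∈ Q₀) :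
    HasNormalPComplement p X := by
  classical
  have hpp : p.Prime := hpf.out
  have hsurj : Function.Surjective (QuotientGroup.mk' Q₀) := QuotientGroup.mk'_surjective Q₀
  obtain ⟨Tb, hTb⟩ : ∃ Tb : Sylow p (X ⧸ Q₀), (Tb : Subgroup (X ⧸ Q₀)) = (T : Subgroup X).map (QuotientGroup.mk' Q₀) :=
    ⟨T.mapSurjective hsurj, rfl⟩
  have hmemT : ∀ g : X, (g : X ⧸ Q₀) ∈ (Tb : Subgroup (X ⧸ Q₀)) ↔ g ∈ (T : Subgroup X) := by
    intro g
    rw [hTb]
    constructor
    · rintro ⟨t, ht, he⟩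
      have h1 : t⁻¹ * g ∈ Q₀ := by
        apply QuotientGroup.eq.1
        exact he
      have h2 := (T : Subgroup X).mul_mem ht (hQT h1)
      simpa using h2
    · intro hg
      exact ⟨g, hg, rfl⟩
  have h1 : Subgroup.normalizer ((Tb : Subgroup (X ⧸ Q₀)) : Set (X ⧸ Q₀)) ≤ Subgroup.centralizer ((Tb : Subgroup (X ⧸ Q₀)) : Set (X ⧸ Q₀)) := by
    intro xb hxb
    obtain ⟨g, rfl⟩ := QuotientGroup.mk_surjective xb
    have hgN : g ∈ Subgroup.normalizer ((T : Subgroup X) : Set X) := by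
      rw [Subgroup.mem_normalizer_iff]
      intro h
      have := (Subgroup.mem_normalizer_iff.1 hxb) (h : X ⧸ Q₀)
      rw [hmemT h] at this
      rw [this]
      rw [← QuotientGroup.mk_inv, ← QuotientGroup.mk_mul, ← QuotientGroup.mk_mul]
      exact hmemT _
    rw [Subgroup.mem_centralizer_iff]
    intro s hs
    rw [SetLike.mem_coe, hTb] at hs
    obtain ⟨t, ht, rfl⟩ := hs
    have h2 := hN g hgN t ht
    have h3 : ((g * t * g⁻¹ * t⁻¹ : X) : X ⧸ Q₀) = 1 := (QuotientGroup.eq_one_iff _).2 h2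
    show (t : X ⧸ Q₀) * (g : X ⧸ Q₀) = (g : X ⧸ Q₀) * (t : X ⧸ Q₀)
    simp only [QuotientGroup.mk_mul, QuotientGroup.mk_inv] at h3
    calc (t : X ⧸ Q₀) * (g : X ⧸ Q₀) = ((g : X ⧸ Q₀) * t * (g : X ⧸ Q₀)⁻¹ * (t : X ⧸ Q₀)⁻¹)⁻¹ * ((g : X ⧸ Q₀) * t) := by group
      _ = _ := by rw [h3]; group
  obtain ⟨Lb, hLbn, hLbc, k, hk⟩ := CfsgLib.Trans.hasNormalPComplement_iff.1 (CfsgLib.Trans.hasNormalPComplement_of_le_centralizer Tb h1)
  haveI := hLbn
  obtain ⟨L, hL⟩ : ∃ L, L = Lb.comap (QuotientGroup.mk' Q₀) := ⟨_, rfl⟩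
  haveI hLn : L.Normal := by rw [hL]; exact hLbn.comap _
  have hLindex : L.index = p ^ k := by
    rw [hL, Subgroup.index_comap_of_surjective Lb hsurj, hk]
  have hLT : L ⊓ (T : Subgroup X) ≤ Q₀ := by
    rintro x ⟨hx1, hx2⟩
    rw [hL] at hx1
    have hx1' : (x : X ⧸ Q₀) ∈ Lb := hx1
    have hx2' : (x : X ⧸ Q₀) ∈ (Tb : Subgroup (X ⧸ Q₀)) := (hmemT x).2 hx2
    rw [← QuotientGroup.eq_one_iff]
    have h2 : (orderOf (x : X ⧸ Q₀)).Coprime p := Nat.Coprime.coprime_dvd_left (Subgroup.orderOf_dvd_natCard Lb hx1') hLbc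
    obtain ⟨m, hm⟩ := (IsPGroup.iff_orderOf.1 Tb.2) ⟨_, hx2'⟩
    rw [Subgroup.orderOf_mk] at hm
    rw [hm] at h2
    have h3 : m = 0 := by
      by_contra h0
      have := (Nat.Prime.coprime_iff_not_dvd hpp).1 h2.symm
      exact this (dvd_pow_self p h0)
    rw [h3, pow_zero] at hm
    exact orderOf_eq_one_iff.1 hm
  have hTate := CfsgLib.OOL.tate_normal T L (hLT.trans hΦ)
  obtain ⟨M, hMn, hMc, k', hk'⟩ := CfsgLib.Trans.hasNormalPComplement_iff.1 hTate
  haveI := hMn
  have hchar := h8_char_compl M hMc hk'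
  refine CfsgLib.Trans.hasNormalPComplement_iff.2 ⟨M.map L.subtype, ?_, ?_, k' + k, ?_⟩
  · refine ⟨fun n hn g => ?_⟩
    obtain ⟨y, hy, rfl⟩ := hn
    refine ⟨⟨g * (y : X) * g⁻¹, hLn.conj_mem _ y.2 g⟩, ?_, rfl⟩
    rw [SetLike.mem_coe, hchar] at hy ⊢
    rw [Subgroup.orderOf_mk]
    have h2 : orderOf (g * (y : X) * g⁻¹) = orderOf (y : X) := (MulAut.conj g).orderOf_eq (y : X)
    rw [h2, Subgroup.orderOf_coe]
    exact hy
  · rw [Subgroup.card_map_of_injective L.subtype_injective]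
    exact hMc
  · rw [Subgroup.index_map_subtype, hk', hLindex, pow_add]

/-- Let G be a finite group with Sylow p-subgroup P such that N_G(P) has a normal p-complement. Then N_G(Q) has a normal p-complement for every subgroup Q with [P, P] ≤ Q ≤ Φ(P). -/
theorem result {G : Type*} [Group G] [Finite G] {p : ℕ} [Fact p.Prime] (P : Sylow p G) (hN : Cfsg.HasNormalPComplement p ↥(Subgroup.normalizer ((P : Subgroup G) : Set G))) (Q : Subgroup G) (h1 : (commutator ↥(P : Subgroup G)).map (P : Subgroup G).subtype ≤ Q) (h2 : Q ≤ (frattini ↥(P : Subgroup G)).map (P : Subgroup G).subtype) : Cfsg.HasNormalPComplement p ↥(Subgroup.normalizer (Q : Set G)) := by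
  classical
  have hpp : p.Prime := Fact.out
  have hQP : Q ≤ (P : Subgroup G) := by
    refine h2.trans ?_
    rintro x ⟨y, -, rfl⟩
    exact y.2
  have hcomm : ∀ t ∈ (P : Subgroup G), ∀ h ∈ (P : Subgroup G), t * h * t⁻¹ * h⁻¹ ∈ Q := by
    intro t ht h hh
    apply h1
    refine ⟨⁅(⟨t, ht⟩ : (P : Subgroup G)), (⟨h, hh⟩ : (P : Subgroup G))⁆, ?_, rfl⟩
    exact Subgroup.commutator_mem_commutator (Subgroup.mem_top _) (Subgroup.mem_top _)
  have hPN : (P : Subgroup G) ≤ Subgroup.normalizer (Q : Set G) := by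
    intro t ht
    rw [Subgroup.mem_normalizer_iff]
    intro h
    constructor
    · intro hh
      have h3 := Q.mul_mem (hcomm t ht h (hQP hh)) hh
      simpa using h3
    · intro hh
      have h3 : t * h * t⁻¹ ∈ (P : Subgroup G) := hQP hh
      have h4 : h ∈ (P : Subgroup G) := by
        have := (P : Subgroup G).mul_mem ((P : Subgroup G).mul_mem ((P : Subgroup G).inv_mem ht) h3) ht
        simpa [mul_assoc] using this
      have h5 := hcomm t ht h h4
      have h6 := Q.mul_mem (Q.inv_mem h5) hh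
      have e : (t * h * t⁻¹ * h⁻¹)⁻¹ * (t * h * t⁻¹) = h := by group
      rwa [e] at h6
  obtain ⟨N, hN'⟩ : ∃ N, N = Subgroup.normalizer (Q : Set G) := ⟨_, rfl⟩
  subst hN'
  obtain ⟨T, hT⟩ : ∃ T : Sylow p ↥(Subgroup.normalizer (Q : Set G)), (T : Subgroup ↥(Subgroup.normalizer (Q : Set G))) = (P : Subgroup G).subgroupOf (Subgroup.normalizer (Q : Set G)) :=
    ⟨P.subtype hPN, P.coe_subtype hPN⟩
  haveI hQ0 : (Q.subgroupOf (Subgroup.normalizer (Q : Set G))).Normal := Subgroup.normal_in_normalizer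
  apply h8_tate_quot T (Q.subgroupOf (Subgroup.normalizer (Q : Set G)))
  · rw [hT]
    intro x hx
    exact hQP hx
  · obtain ⟨φ, hφ⟩ : ∃ φ : ↥(P : Subgroup G) →* ↥(T : Subgroup ↥(Subgroup.normalizer (Q : Set G))),
        ∀ y, ((φ y : ↥(Subgroup.normalizer (Q : Set G))) : G) = y := by
      refine ⟨MonoidHom.mk' (fun y => ⟨⟨y, hPN y.2⟩, by rw [hT]; exact y.2⟩) (fun a b => rfl), fun y => rfl⟩
    have hφs : Function.Surjective φ := by
      rintro ⟨⟨w, hw⟩, hz⟩
      have hz' : w ∈ (P : Subgroup G) := by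
        rw [hT] at hz
        exact hz
      refine ⟨⟨w, hz'⟩, ?_⟩
      apply Subtype.ext
      apply Subtype.ext
      exact hφ _
    intro x hx
    obtain ⟨y, hy, hyx⟩ := h2 hx
    refine ⟨φ y, frattini_le_comap_frattini_of_surjective hφs hy, ?_⟩
    apply Subtype.ext
    exact (hφ y).trans hyx
  · rintro ⟨g, hg⟩ hgT t ht
    have ht' : (t : G) ∈ (P : Subgroup G) := by
      rw [hT] at ht
      exact ht
    have hgN : g ∈ Subgroup.normalizer ((P : Subgroup G) : Set G) := by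
      rw [Subgroup.mem_normalizer_iff]
      intro h
      constructor
      · intro hh
        have h3 : (⟨h, hPN hh⟩ : ↥(Subgroup.normalizer (Q : Set G))) ∈ (T : Subgroup ↥(Subgroup.normalizer (Q : Set G))) := by
          rw [hT]; exact hh
        have h4 := (Subgroup.mem_normalizer_iff.1 hgT _).1 h3
        rw [hT] at h4
        exact h4
      · intro hh
        have h3 : (⟨g * h * g⁻¹, hPN hh⟩ : ↥(Subgroup.normalizer (Q : Set G))) ∈ (T : Subgroup ↥(Subgroup.normalizer (Q : Set G))) := by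
          rw [hT]; exact hh
        have hh2 : h ∈ Subgroup.normalizer (Q : Set G) := by
          have := (Subgroup.normalizer (Q : Set G)).mul_mem ((Subgroup.normalizer (Q : Set G)).mul_mem ((Subgroup.normalizer (Q : Set G)).inv_mem hg) (hPN hh)) hg
          simpa [mul_assoc] using this
        have h4 := (Subgroup.mem_normalizer_iff.1 hgT ⟨h, hh2⟩).2 h3
        rw [hT] at h4
        exact h4
    -- the complement in `N(P)`
    obtain ⟨P₁, C, hCn, hCc⟩ := hN
    haveI := hCn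
    have hPn : ((P : Subgroup G).subgroupOf (Subgroup.normalizer ((P : Subgroup G) : Set G))).Normal := Subgroup.normal_in_normalizer
    obtain ⟨P', hP'⟩ : ∃ P' : Sylow p ↥(Subgroup.normalizer ((P : Subgroup G) : Set G)),
        (P' : Subgroup ↥(Subgroup.normalizer ((P : Subgroup G) : Set G))) = (P : Subgroup G).subgroupOf (Subgroup.normalizer ((P : Subgroup G) : Set G)) :=
      ⟨P.subtype Subgroup.le_normalizer, P.coe_subtype Subgroup.le_normalizer⟩
    have hP'n : (P' : Subgroup ↥(Subgroup.normalizer ((P : Subgroup G) : Set G))).Normal := by rw [hP']; exact hPn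
    haveI := Sylow.unique_of_normal P' hP'n
    have hP₁ : P₁ = P' := Subsingleton.elim _ _
    subst hP₁
    -- `C` centralises `P`
    have hcc : ∀ c ∈ C, ∀ u ∈ (P₁ : Subgroup ↥(Subgroup.normalizer ((P : Subgroup G) : Set G))), c * u = u * c := by
      intro c hc u hu
      have h3 : c * u * c⁻¹ * u⁻¹ ∈ C ⊓ (P₁ : Subgroup ↥(Subgroup.normalizer ((P : Subgroup G) : Set G))) := by
        constructor
        · have := hCn.conj_mem _ (C.inv_mem hc) u
          have h4 := C.mul_mem hc this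
          have e : c * (u * c⁻¹ * u⁻¹) = c * u * c⁻¹ * u⁻¹ := by group
          rwa [e] at h4
        · have := hP'n.conj_mem _ hu c
          have h4 := (P₁ : Subgroup ↥(Subgroup.normalizer ((P : Subgroup G) : Set G))).mul_mem this ((P₁ : Subgroup ↥(Subgroup.normalizer ((P : Subgroup G) : Set G))).inv_mem hu)
          exact h4
      rw [hCc.disjoint.eq_bot, Subgroup.mem_bot] at h3
      have h5 : c * u * c⁻¹ = u := by
        rw [mul_inv_eq_one] at h3
        exact h3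
      rw [mul_inv_eq_iff_eq_mul] at h5
      exact h5
    obtain ⟨⟨⟨c, hc⟩, ⟨u, hu⟩⟩, hcu⟩ := hCc.2 (⟨g, hgN⟩ : ↥(Subgroup.normalizer ((P : Subgroup G) : Set G)))
    have hcu' : (c : G) * (u : G) = g := congrArg Subtype.val hcu
    have hu0 : (u : G) ∈ (P : Subgroup G) := by
      rw [hP'] at hu
      exact hu
    show g * (t : G) * g⁻¹ * (t : G)⁻¹ ∈ Q
    have hw : (u : G) * t * (u : G)⁻¹ ∈ (P : Subgroup G) :=
      (P : Subgroup G).mul_mem ((P : Subgroup G).mul_mem hu0 ht') ((P : Subgroup G).inv_mem hu0)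
    have hcw : (c : G) * ((u : G) * t * (u : G)⁻¹) = ((u : G) * t * (u : G)⁻¹) * (c : G) := by
      have hmem : (⟨(u : G) * t * (u : G)⁻¹, Subgroup.le_normalizer hw⟩ : ↥(Subgroup.normalizer ((P : Subgroup G) : Set G))) ∈ (P₁ : Subgroup ↥(Subgroup.normalizer ((P : Subgroup G) : Set G))) := by
        rw [hP']
        exact hw
      exact congrArg Subtype.val (hcc c hc _ hmem)
    have e : g * (t : G) * g⁻¹ * (t : G)⁻¹ = (u : G) * t * (u : G)⁻¹ * (t : G)⁻¹ := by
      rw [← hcu']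
      calc (c : G) * u * t * ((c : G) * u)⁻¹ * (t : G)⁻¹ = ((c : G) * ((u : G) * t * (u : G)⁻¹)) * (c : G)⁻¹ * (t : G)⁻¹ := by group
        _ = _ := by rw [hcw]; group
    rw [e]
    exact hcomm _ hu0 _ ht'

end Cfsg.Agent.S3838
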