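import Cfsg.Statements.S3858
import Cfsg.Agent.Lib.FGS.Syl

set_option autoImplicit false
open Cfsg

namespace Cfsg.Agent.S3858

/-- Let G be a finite group with a normal non-abelian simple subgroup T whose centralizer is trivial (G almost simple with socle T), r a prime and R a Sylow r-subgroup of G meeting T nontrivially. Then R lies in exactly one maximal subgroup of G if and only if G has exactly one conjugacy class of maximal subgroups whose index is prime to r. -/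
theorem result {G : Type*} [Group G] [Finite G] (T : Subgroup G) [T.Normal] (hT : IsSimpleGroup T) (hna : ¬ IsMulCommutative T)
    (hC : Subgroup.centralizer (T : Set G) = ⊥) {r : ℕ} [Fact r.Prime] (R : Sylow r G) (hR0 : (R : Subgroup G) ⊓ T ≠ ⊥) :
    (∃! M : Subgroup G, IsCoatom M ∧ (R : Subgroup G) ≤ M) ↔
      ((∃ M : Subgroup G, IsCoatom M ∧ ¬ r ∣ M.index) ∧
        ∀ M₁ M₂ : Subgroup G, IsCoatom M₁ → ¬ r ∣ M₁.index → IsCoatom M₂ → ¬ r ∣ M₂.index → ∃ g : G, M₂ = M₁.map (MulAut.conj g).toMonoidHom) := by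
  classical
  constructor
  · rintro ⟨M, ⟨hM, hRM⟩, huniq⟩
    refine ⟨⟨M, hM, fun h => R.not_dvd_index (h.trans (Subgroup.index_dvd_of_le hRM))⟩, ?_⟩
    have key : ∀ M₁ : Subgroup G, IsCoatom M₁ → ¬ r ∣ M₁.index →
        ∃ g : G, M₁.map (MulAut.conj g).toMonoidHom = M := by
      intro M₁ h1 h2
      obtain ⟨g, hg⟩ := CfsgLib.FGS.exists_conj_sylow_le M₁ h2 R
      refine ⟨g⁻¹, huniq _ ⟨CfsgLib.FGS.isCoatom_map_conj h1 _, ?_⟩⟩
      intro x hx
      rw [CfsgLib.FGS.mem_map_conj_iff]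
      have := hg x hx
      simpa using this
    intro M₁ M₂ h1 h1' h2 h2'
    obtain ⟨g₁, hg₁⟩ := key M₁ h1 h1'
    obtain ⟨g₂, hg₂⟩ := key M₂ h2 h2'
    refine ⟨g₂⁻¹ * g₁, ?_⟩
    rw [CfsgLib.FGS.map_conj_mul, hg₁, ← hg₂, CfsgLib.FGS.map_conj_inv_map_conj]
  · rintro ⟨-, hconj⟩
    have hN := CfsgLib.FGS.normalizer_inf_ne_top (T := T) hT hna R hR0
    have hRN := CfsgLib.FGS.sylow_le_normalizer_inf (T := T) R
    obtain ⟨M, hM, hNM⟩ := (eq_top_or_exists_le_coatom _).resolve_left hN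
    have hRM : (R : Subgroup G) ≤ M := hRN.trans hNM
    have hndvd : ∀ M' : Subgroup G, (R : Subgroup G) ≤ M' → ¬ r ∣ M'.index :=
      fun M' h h' => R.not_dvd_index (h'.trans (Subgroup.index_dvd_of_le h))
    refine ⟨M, ⟨hM, hRM⟩, ?_⟩
    rintro M' ⟨hM', hRM'⟩
    obtain ⟨g, hg⟩ := hconj M M' hM (hndvd M hRM) hM' (hndvd M' hRM')
    -- `g⁻¹ R g ≤ M`
    have h1 : ∀ x ∈ (R : Subgroup G), g⁻¹ * x * g ∈ M := by
      intro x hx
      have h2 : x ∈ M.map (MulAut.conj g).toMonoidHom := hg ▸ hRM' hx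
      exact CfsgLib.FGS.mem_map_conj_iff.mp h2
    let B : Subgroup G := (R : Subgroup G).map (MulAut.conj g⁻¹).toMonoidHom
    have hBp : IsPGroup r B := R.isPGroup'.map _
    have hBM : B ≤ M := by
      rintro _ ⟨x, hx, rfl⟩
      have := h1 x hx
      simpa using this
    obtain ⟨c, hc, hcb⟩ := CfsgLib.Lead.exists_conj_into_sylow R M hRM B hBM hBp
    have hu : c⁻¹ * g⁻¹ ∈ Subgroup.normalizer ((R : Subgroup G) : Set G) := by
      apply CfsgLib.FGS.mem_normalizer_of_conj_sylow_le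
      intro x hx
      have h2 := hcb (g⁻¹ * x * g) ⟨x, hx, by simp⟩
      have h3 : c⁻¹ * g⁻¹ * x * (c⁻¹ * g⁻¹)⁻¹ = c⁻¹ * (g⁻¹ * x * g) * c := by group
      rwa [h3]
    have huM : c⁻¹ * g⁻¹ ∈ M := hNM (CfsgLib.FGS.le_normalizer_inf R hu)
    have hgM : g ∈ M := by
      have h2 : g = (c⁻¹ * g⁻¹)⁻¹ * c⁻¹ := by group
      rw [h2]
      exact M.mul_mem (M.inv_mem huM) (M.inv_mem hc)
    rw [hg]
    exact CfsgLib.FGS.map_conj_eq_of_mem_normalizer (Subgroup.le_normalizer hgM)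

end Cfsg.Agent.S3858
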