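import Cfsg.Statements.S3859
import Cfsg.Agent.Lib.FGS.Syl

set_option autoImplicit false
open Cfsg

namespace Cfsg.Agent.S3859

/-- Let G be a finite group with a normal non-abelian simple subgroup T whose centralizer is trivial (G almost simple with socle T), r a prime and R a Sylow r-subgroup of G meeting T nontrivially. If R lies in exactly one maximal subgroup of G, then G/T is an r-group. -/
theorem result {G : Type*} [Group G] [Finite G] (T : Subgroup G) [T.Normal] (hT : IsSimpleGroup T) (hna : ¬ IsMulCommutative T)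
    (hC : Subgroup.centralizer (T : Set G) = ⊥) {r : ℕ} [Fact r.Prime] (R : Sylow r G) (hR0 : (R : Subgroup G) ⊓ T ≠ ⊥)
    (huniq : ∃! M : Subgroup G, IsCoatom M ∧ (R : Subgroup G) ≤ M) : IsPGroup r (G ⧸ T) := by
  classical
  obtain ⟨M, ⟨hM, hRM⟩, huniq⟩ := huniq
  have hN := CfsgLib.FGS.normalizer_inf_ne_top (T := T) hT hna R hR0
  have hRN := CfsgLib.FGS.sylow_le_normalizer_inf (T := T) R
  obtain ⟨M', hM', hNM'⟩ := (eq_top_or_exists_le_coatom _).resolve_left hN
  have hM'eq : M' = M := huniq M' ⟨hM', hRN.trans hNM'⟩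
  subst hM'eq
  have hTM : ¬ T ≤ M' := by
    intro hTM
    apply hM'.1
    rw [eq_top_iff, ← CfsgLib.FGS.normalizer_inf_sup_eq_top (T := T) R]
    exact sup_le hNM' hTM
  have hsup : (R : Subgroup G) ⊔ T = ⊤ := by
    by_contra hne
    obtain ⟨M₂, hM₂, hle⟩ := (eq_top_or_exists_le_coatom _).resolve_left hne
    have h1 : M₂ = M' := huniq M₂ ⟨hM₂, le_sup_left.trans hle⟩
    subst h1
    exact hTM (le_sup_right.trans hle)
  refine R.isPGroup'.of_surjective ((QuotientGroup.mk' T).comp (R : Subgroup G).subtype) ?_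
  intro q
  obtain ⟨g, rfl⟩ := QuotientGroup.mk_surjective q
  have hg : g ∈ (R : Subgroup G) ⊔ T := by rw [hsup]; exact Subgroup.mem_top g
  obtain ⟨r, hr, t, ht, rfl⟩ := Subgroup.mem_sup_of_normal_right.mp hg
  refine ⟨⟨r, hr⟩, ?_⟩
  simp only [MonoidHom.comp_apply, QuotientGroup.mk'_apply, Subgroup.subtype_apply]
  rw [QuotientGroup.eq]
  simpa using ht

end Cfsg.Agent.S3859
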