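import Cfsg.Statements.S3861
import Cfsg.Agent.Lib.FGS.RealOdd

set_option autoImplicit false
open Cfsg

namespace Cfsg.Agent.S3861

/-- A finite group G has no non-identity element of odd order that is conjugate to its inverse if and only if the Sylow 2-subgroups of G are normal. -/
theorem result {G : Type*} [Group G] [Finite G] (P : Sylow 2 G) : (∀ x : G, x ≠ 1 → Odd (orderOf x) → ¬ IsConj x x⁻¹) ↔ (P : Subgroup G).Normal := by
  classical
  haveI : Fact (Nat.Prime 2) := ⟨Nat.prime_two⟩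
  constructor
  · intro h
    exact CfsgLib.FGS.sylow_two_normal_of_no_real _ G rfl h P
  · intro hn x hx1 hxo hxr
    obtain ⟨c, hc⟩ := isConj_iff.1 hxr
    -- 2-part of `c`
    obtain ⟨a, m, hm, hcm⟩ : ∃ a m : ℕ, ¬ 2 ∣ m ∧ orderOf c = 2 ^ a * m := by
      obtain ⟨a, m, hm, h⟩ := Nat.exists_eq_pow_mul_and_not_dvd (orderOf_pos c).ne' 2 (by norm_num)
      exact ⟨a, m, hm, h⟩
    have hmodd : Odd m := by
      rwa [← Nat.not_even_iff_odd, even_iff_two_dvd]
    -- `d = c ^ m` is a 2-element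
    have hd : (c ^ m) ^ 2 ^ a = 1 := by
      rw [← pow_mul, mul_comm, ← hcm, pow_orderOf_eq_one]
    have hdP : c ^ m ∈ (P : Subgroup G) := by
      have hQ : IsPGroup 2 (Subgroup.zpowers (c ^ m)) := by
        have h1 : orderOf (c ^ m) ∣ 2 ^ a := orderOf_dvd_of_pow_eq_one hd
        obtain ⟨j, _, hj⟩ := (Nat.dvd_prime_pow Nat.prime_two).1 h1
        exact IsPGroup.of_card (n := j) (by rw [Nat.card_zpowers, hj])
      exact CfsgLib.FGS.le_of_normal_sylow P hn hQ (Subgroup.mem_zpowers _)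
    have hc2 : c * c * x * (c * c)⁻¹ = x := by
      calc c * c * x * (c * c)⁻¹ = c * (c * x * c⁻¹) * c⁻¹ := by group
        _ = c * x⁻¹ * c⁻¹ := by rw [hc]
        _ = (c * x * c⁻¹)⁻¹ := by group
        _ = x := by rw [hc, inv_inv]
    have hpow : ∀ k : ℕ, c ^ (2 * k + 1) * x * (c ^ (2 * k + 1))⁻¹ = x⁻¹ := by
      intro k
      induction k with
      | zero => simpa using hc
      | succ k ih =>
        have e : c ^ (2 * (k + 1) + 1) = c ^ (2 * k + 1) * (c * c) := by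
          rw [show 2 * (k + 1) + 1 = (2 * k + 1) + 2 by ring, pow_add, pow_two]
        rw [e]
        calc c ^ (2 * k + 1) * (c * c) * x * (c ^ (2 * k + 1) * (c * c))⁻¹
            = c ^ (2 * k + 1) * (c * c * x * (c * c)⁻¹) * (c ^ (2 * k + 1))⁻¹ := by group
          _ = _ := by rw [hc2, ih]
    obtain ⟨k, rfl⟩ := hmodd
    have hd2 := hpow k
    -- `x⁻¹ x⁻¹ ∈ P`
    have h1 : x⁻¹ * x⁻¹ ∈ (P : Subgroup G) := by
      have h2 := hn.conj_mem _ hdP x⁻¹
      have h3 := (P : Subgroup G).mul_mem h2 ((P : Subgroup G).inv_mem hdP)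
      have e : x⁻¹ * c ^ (2 * k + 1) * x⁻¹⁻¹ * (c ^ (2 * k + 1))⁻¹ = x⁻¹ * (c ^ (2 * k + 1) * x * (c ^ (2 * k + 1))⁻¹) := by group
      rw [e, hd2] at h3
      exact h3
    obtain ⟨b, hb⟩ := (IsPGroup.iff_card).1 P.isPGroup'
    have h4 : orderOf (x⁻¹ * x⁻¹) ∣ 2 ^ b := by
      have := Subgroup.orderOf_dvd_natCard (P : Subgroup G) h1
      rwa [hb] at this
    have h5 : orderOf (x⁻¹ * x⁻¹) ∣ orderOf x := by
      apply orderOf_dvd_of_pow_eq_one
      have e : (x⁻¹ * x⁻¹) = (x⁻¹) ^ 2 := by rw [pow_two]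
      rw [e, ← pow_mul, mul_comm, pow_mul, inv_pow, pow_orderOf_eq_one]
      simp
    have h6 : (orderOf x).Coprime (2 ^ b) := Nat.Coprime.pow_right b (Nat.coprime_two_right.2 hxo)
    have h7 : orderOf (x⁻¹ * x⁻¹) = 1 := Nat.dvd_one.1 (by
      have := Nat.dvd_gcd h5 h4
      rwa [h6] at this)
    have h8 : x⁻¹ * x⁻¹ = 1 := orderOf_eq_one_iff.1 h7
    have h9 : x ^ 2 = 1 := by
      have : (x * x)⁻¹ = 1 := by rw [mul_inv_rev]; exact h8
      rw [pow_two]
      exact inv_eq_one.1 this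
    have h10 : orderOf x ∣ 2 := orderOf_dvd_of_pow_eq_one h9
    have h11 : orderOf x = 1 := by
      have h12 : (orderOf x).Coprime 2 := Nat.coprime_two_right.2 hxo
      exact Nat.dvd_one.1 (by
        have := Nat.dvd_gcd (dvd_refl (orderOf x)) h10
        rwa [h12] at this)
    exact hx1 (orderOf_eq_one_iff.1 h11)

end Cfsg.Agent.S3861
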