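import Cfsg.Statements.S3862
import Cfsg.Agent.Lib.FGS.RealSpecial
import Cfsg.Agent.S3736
import Cfsg.Agent.Lib.Trans.Frob

set_option autoImplicit false
open Cfsg
open scoped commutatorElement

namespace Cfsg.Agent.S3862

/-- If every 2-element of the finite group G that is conjugate to its inverse lies in the centre of G, then G has a normal 2-complement. -/
theorem result {G : Type*} [Group G] [Finite G] (h : ∀ x : G, (∃ j : ℕ, orderOf x = 2 ^ j) → IsConj x x⁻¹ → x ∈ Subgroup.center G) : Cfsg.HasNormalPComplement 2 G := by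
  classical
  haveI : Fact (Nat.Prime 2) := ⟨Nat.prime_two⟩
  obtain ⟨P⟩ := (inferInstance : Nonempty (Sylow 2 G))
  obtain ⟨N, hN, hNP⟩ := (CfsgLib.Trans.frobenius_criterion P).2 (by
    intro Q hQ g hg hcop
    by_contra hgC
    -- a minimal invariant subgroup not centralized
    have hAc : ⁅Q, Subgroup.zpowers g⁆ ≠ ⊥ := by
      intro h
      apply hgC
      rw [Subgroup.mem_centralizer_iff]
      intro x hx
      have h1 : ⁅x, g⁆ ∈ (⁅Q, Subgroup.zpowers g⁆ : Subgroup G) :=
        Subgroup.commutator_mem_commutator hx (Subgroup.mem_zpowers g)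
      rw [h, Subgroup.mem_bot, commutatorElement_eq_one_iff_mul_comm] at h1
      exact h1
    have hfin : ({U : Subgroup G | U ≤ Q ∧ Subgroup.zpowers g ≤ Subgroup.normalizer (U : Set G) ∧ ⁅U, Subgroup.zpowers g⁆ ≠ ⊥}).Finite :=
      Set.toFinite _
    obtain ⟨R, hRmin⟩ := hfin.exists_minimal ⟨Q, le_rfl, (Subgroup.zpowers_le).2 hg, hAc⟩
    obtain ⟨hRQ, hRn, hRc⟩ := hRmin.1
    have hRp : IsPGroup 2 R := (P.isPGroup'.to_le hQ).to_le hRQ
    have hAp : (Nat.card (Subgroup.zpowers g)).Coprime 2 := by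
      rw [Nat.card_zpowers]; exact hcop
    obtain ⟨hRA, hcase, -, -⟩ := Cfsg.Agent.S3736.result (p := 2) (Subgroup.zpowers g) (Subgroup.zpowers g) R hRp hRn le_rfl
      (Subgroup.le_normalizer) hAp hRc (by
        intro U hU hUn
        by_contra hne
        exact absurd (hRmin.2 (show U ∈ {U : Subgroup G | U ≤ Q ∧ Subgroup.zpowers g ≤ Subgroup.normalizer (U : Set G) ∧ ⁅U, Subgroup.zpowers g⁆ ≠ ⊥} from ⟨hU.le.trans hRQ, hUn, hne⟩) hU.le) (not_le_of_gt hU))
    have hord : ∀ x ∈ R, ∃ j : ℕ, orderOf x = 2 ^ j := by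
      intro x hx
      obtain ⟨k, hk⟩ := IsPGroup.iff_orderOf.1 hRp ⟨x, hx⟩
      exact ⟨k, by rw [← hk, Subgroup.orderOf_mk]⟩
    -- all of `R` is central
    have hRcentral : ∀ x ∈ R, x ∈ Subgroup.center G := by
      intro x hx
      apply h x (hord x hx)
      rcases hcase with ⟨-, h2⟩ | hS
      · have h3 := h2 x hx
        have h4 : x⁻¹ = x := by
          rw [inv_eq_iff_mul_eq_one, ← pow_two]; exact h3
        rw [h4]
      · have hgR : g ∈ Subgroup.normalizer (R : Set G) := hRn (Subgroup.mem_zpowers g)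
        have hfixc : ∀ z ∈ Subgroup.center R, R.normalizerMonoidHom ⟨g, hgR⟩ z = z := by
          intro z hz
          have hz2 : z ^ 2 = 1 := CfsgLib.Trans.special_central_pow hS hz
          have h4 : (z : G)⁻¹ = z := by
            rw [inv_eq_iff_mul_eq_one, ← pow_two]
            have := congrArg Subtype.val hz2
            simpa using this
          have h5 := h z (hord z z.2) (by rw [h4])
          apply Subtype.ext
          show g * (z : G) * g⁻¹ = z
          rw [Subgroup.mem_center_iff.1 h5 g]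
          group
        have ham : (R.normalizerMonoidHom ⟨g, hgR⟩) ^ (orderOf g) = 1 := by
          rw [← map_pow]
          have : (⟨g, hgR⟩ : Subgroup.normalizer (R : Set G)) ^ orderOf g = 1 := by
            apply Subtype.ext
            simp [pow_orderOf_eq_one]
          rw [this, map_one]
        have hGA : Subgroup.closure {y : R | ∃ t : R, ∃ b ∈ Subgroup.zpowers (R.normalizerMonoidHom ⟨g, hgR⟩), y = t⁻¹ * b t} = ⊤ := by
          rw [eq_top_iff]
          rintro ⟨y, hy⟩ -
          have h1 : ⁅R, Subgroup.zpowers g⁆ ≤ (Subgroup.closure {y : R | ∃ t : R, ∃ b ∈ Subgroup.zpowers (R.normalizerMonoidHom ⟨g, hgR⟩), y = t⁻¹ * b t}).map R.subtype := by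
            rw [Subgroup.commutator_le]
            rintro t ht _ ⟨k, rfl⟩
            have hmem : ⁅t, g ^ k⁆ ∈ R := by
              have h2 : ⁅t, g ^ k⁆ ∈ (⁅R, Subgroup.zpowers g⁆ : Subgroup G) :=
                Subgroup.commutator_mem_commutator ht (Subgroup.zpow_mem _ (Subgroup.mem_zpowers g) k)
              rw [hRA] at h2
              exact h2
            refine ⟨⟨⁅t, g ^ k⁆, hmem⟩, Subgroup.subset_closure ⟨⟨t⁻¹, R.inv_mem ht⟩, (R.normalizerMonoidHom ⟨g, hgR⟩) ^ k, ⟨k, rfl⟩, ?_⟩, rfl⟩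
            apply Subtype.ext
            have e : (((R.normalizerMonoidHom ⟨g, hgR⟩) ^ k) ⟨t⁻¹, R.inv_mem ht⟩ : R) = R.normalizerMonoidHom ((⟨g, hgR⟩ : Subgroup.normalizer (R : Set G)) ^ k) ⟨t⁻¹, R.inv_mem ht⟩ := by
              rw [map_zpow]
            show ⁅t, g ^ k⁆ = ((⟨t⁻¹, R.inv_mem ht⟩ : R) : G)⁻¹ * (((R.normalizerMonoidHom ⟨g, hgR⟩) ^ k) ⟨t⁻¹, R.inv_mem ht⟩ : R)
            rw [e, commutatorElement_def]
            have e2 : ((R.normalizerMonoidHom ((⟨g, hgR⟩ : Subgroup.normalizer (R : Set G)) ^ k) ⟨t⁻¹, R.inv_mem ht⟩ : R) : G) = g ^ k * t⁻¹ * (g ^ k)⁻¹ := by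
              rfl
            rw [e2]
            group
          rw [hRA] at h1
          obtain ⟨y', hy', hyy⟩ := h1 hy
          have : y' = ⟨y, hy⟩ := Subtype.ext hyy
          rwa [← this]
        obtain ⟨c, hc⟩ := CfsgLib.FGS.special_two_real hS _ (orderOf g) (Nat.coprime_two_right.1 hcop) ham hfixc hGA ⟨x, hx⟩
        have h5 : (c : G) * x * (c : G)⁻¹ = x⁻¹ := congrArg Subtype.val hc
        exact isConj_iff.2 ⟨c, h5⟩
    apply hRc
    rw [eq_bot_iff, Subgroup.commutator_le]
    intro x hx y _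
    have := Subgroup.mem_center_iff.1 (hRcentral x hx) y
    rw [Subgroup.mem_bot, commutatorElement_eq_one_iff_mul_comm]
    exact this.symm)
  exact ⟨P, N, hN, hNP⟩

end Cfsg.Agent.S3862
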