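import Cfsg.Statements.S3866
import Cfsg.Agent.Lib.FGS.Basic

set_option autoImplicit false
open Cfsg

namespace Cfsg.Agent.S3866

/-- Let A be a commutative normal subgroup of the finite group G with G generated by A and an element x. Then a ↦ x a x⁻¹ a⁻¹ is a surjective homomorphism from A onto the commutator subgroup of G whose kernel is the centralizer of x in A; in particular the commutator subgroup has order equal to the index in A of that centralizer. -/
theorem result {G : Type*} [Group G] [Finite G] (A : Subgroup G) [A.Normal] (hA : IsMulCommutative A) (x : G) (hgen : A ⊔ Subgroup.zpowers x = ⊤) : (∀ a ∈ A, x * a * x⁻¹ * a⁻¹ ∈ commutator G) ∧ (∀ c ∈ commutator G, ∃ a ∈ A, x * a * x⁻¹ * a⁻¹ = c) ∧ (∀ a ∈ A, ∀ b ∈ A, x * (a * b) * x⁻¹ * (a * b)⁻¹ = (x * a * x⁻¹ * a⁻¹) * (x * b * x⁻¹ * b⁻¹)) ∧ Nat.card (commutator G) * Nat.card ↥(A ⊓ Subgroup.centralizer ({x} : Set G)) = Nat.card A := by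
  classical
  haveI hAn : A.Normal := inferInstance
  have hcomm : ∀ a ∈ A, ∀ b ∈ A, a * b = b * a := fun a ha b hb =>
    congrArg Subtype.val (hA.is_comm.comm ⟨a, ha⟩ ⟨b, hb⟩)
  -- every element is `a x^k`
  have hdec : ∀ g : G, ∃ (a : G) (k : ℤ), a ∈ A ∧ g = a * x ^ k := by
    intro g
    have hg : g ∈ A ⊔ Subgroup.zpowers x := by rw [hgen]; exact Subgroup.mem_top g
    obtain ⟨a, ha, z, hz, rfl⟩ := Subgroup.mem_sup_of_normal_left.mp hg
    obtain ⟨k, rfl⟩ := Subgroup.mem_zpowers_iff.mp hz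
    exact ⟨a, k, ha, rfl⟩
  have hmulf : ∀ a ∈ A, ∀ b ∈ A, x * (a * b) * x⁻¹ * (a * b)⁻¹ =
      (x * a * x⁻¹ * a⁻¹) * (x * b * x⁻¹ * b⁻¹) := by
    intro a ha b hb
    have h1 := hcomm _ (hAn.conj_mem _ hb x) _ (A.inv_mem ha)
    have h2 := hcomm _ (A.inv_mem ha) _ (A.inv_mem hb)
    calc x * (a * b) * x⁻¹ * (a * b)⁻¹
        = (x * a * x⁻¹) * (x * b * x⁻¹) * (b⁻¹ * a⁻¹) := by group
      _ = (x * a * x⁻¹) * (x * b * x⁻¹) * (a⁻¹ * b⁻¹) := by rw [h2]
      _ = (x * a * x⁻¹) * ((x * b * x⁻¹) * a⁻¹) * b⁻¹ := by group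
      _ = (x * a * x⁻¹) * (a⁻¹ * (x * b * x⁻¹)) * b⁻¹ := by rw [h1]
      _ = _ := by group
  -- the map
  let f : A →* A :=
    { toFun := fun a => ⟨x * a * x⁻¹ * (a : G)⁻¹, A.mul_mem (hAn.conj_mem _ a.2 x) (A.inv_mem a.2)⟩
      map_one' := by
        apply Subtype.ext
        simp
      map_mul' := by
        intro a b
        apply Subtype.ext
        exact hmulf a a.2 b b.2 }
  have hrange_comm : ∀ a ∈ A, x * a * x⁻¹ * a⁻¹ ∈ commutator G := by
    intro a _
    rw [commutator_def]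
    exact Subgroup.commutator_mem_commutator (Subgroup.mem_top x) (Subgroup.mem_top a)
  let R : Subgroup G := f.range.map A.subtype
  have hRmem : ∀ g, g ∈ R ↔ ∃ a ∈ A, x * a * x⁻¹ * a⁻¹ = g := by
    intro g
    constructor
    · rintro ⟨_, ⟨a, rfl⟩, rfl⟩
      exact ⟨a, a.2, rfl⟩
    · rintro ⟨a, ha, rfl⟩
      exact ⟨f ⟨a, ha⟩, ⟨_, rfl⟩, rfl⟩
  have hconjA : ∀ b ∈ A, ∀ r ∈ R, b * r * b⁻¹ = r := by
    intro b hb r hr
    obtain ⟨a, ha, rfl⟩ := (hRmem r).mp hr
    have hm : x * a * x⁻¹ * a⁻¹ ∈ A := A.mul_mem (hAn.conj_mem _ ha x) (A.inv_mem ha)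
    rw [hcomm b hb _ hm]
    group
  have hconjx : ∀ r ∈ R, x * r * x⁻¹ ∈ R := by
    intro r hr
    obtain ⟨a, ha, rfl⟩ := (hRmem r).mp hr
    refine (hRmem _).mpr ⟨x * a * x⁻¹, hAn.conj_mem _ ha x, by group⟩
  have hconjxinv : ∀ r ∈ R, x⁻¹ * r * x ∈ R := by
    intro r hr
    obtain ⟨a, ha, rfl⟩ := (hRmem r).mp hr
    refine (hRmem _).mpr ⟨x⁻¹ * a * x, by simpa using hAn.conj_mem _ ha x⁻¹, by group⟩
  have hconjz : ∀ k : ℤ, ∀ r ∈ R, x ^ k * r * (x ^ k)⁻¹ ∈ R := by
    intro k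
    induction k using Int.induction_on with
    | zero => intro r hr; simpa using hr
    | succ n ih =>
      intro r hr
      have h1 := hconjx _ (ih r hr)
      have h2 : x ^ ((n : ℤ) + 1) = x * x ^ (n : ℤ) := by rw [add_comm, zpow_add, zpow_one]
      rw [h2]
      convert h1 using 1
      group
    | pred n ih =>
      intro r hr
      have h1 := hconjxinv _ (ih r hr)
      have h2 : x ^ (-(n : ℤ) - 1) = x⁻¹ * x ^ (-(n : ℤ)) := by
        rw [sub_eq_neg_add, zpow_add, zpow_neg_one]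
      rw [h2]
      convert h1 using 1
      group
  have hRn : R.Normal := by
    constructor
    intro r hr g
    obtain ⟨a, k, ha, rfl⟩ := hdec g
    have h1 : a * x ^ k * r * (a * x ^ k)⁻¹ = a * (x ^ k * r * (x ^ k)⁻¹) * a⁻¹ := by group
    rw [h1, hconjA a ha _ (hconjz k r hr)]
    exact hconjz k r hr
  have hcommR : commutator G ≤ R := by
    rw [commutator_def, Subgroup.commutator_le]
    intro g _ h _
    let π := QuotientGroup.mk' R
    have hc1 : ∀ a ∈ A, ∀ b ∈ A, Commute (π a) (π b) := fun a ha b hb => by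
      change π a * π b = π b * π a
      rw [← map_mul, ← map_mul, hcomm a ha b hb]
    have hc2 : ∀ a ∈ A, Commute (π x) (π a) := fun a ha => by
      change π x * π a = π a * π x
      have h1 : π (x * a * x⁻¹ * a⁻¹) = 1 :=
        (QuotientGroup.eq_one_iff _).mpr ((hRmem _).mpr ⟨a, ha, rfl⟩)
      rw [map_mul, map_mul, map_mul, map_inv, map_inv] at h1
      have h2 : π x * π a * (π x)⁻¹ * (π a)⁻¹ * (π a * π x) = π x * π a := by group
      rw [h1, one_mul] at h2
      exact h2.symm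
    obtain ⟨a, k, ha, rfl⟩ := hdec g
    obtain ⟨b, l, hb, rfl⟩ := hdec h
    have hcg : Commute (π (a * x ^ k)) (π (b * x ^ l)) := by
      rw [map_mul, map_mul, map_zpow, map_zpow]
      refine Commute.mul_left (Commute.mul_right (hc1 a ha b hb) ?_) (Commute.mul_right ?_ ?_)
      · exact ((hc2 a ha).zpow_left l).symm
      · exact (hc2 b hb).zpow_left k
      · exact (Commute.refl (π x)).zpow_zpow k l
    have : π ((a * x ^ k) * (b * x ^ l) * (a * x ^ k)⁻¹ * (b * x ^ l)⁻¹) = 1 := by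
      rw [map_mul, map_mul, map_mul, map_inv, map_inv, hcg.eq]
      group
    exact (QuotientGroup.eq_one_iff _).mp this
  refine ⟨hrange_comm, fun c hc => (hRmem c).mp (hcommR hc), hmulf, ?_⟩
  have hRc : R = commutator G := le_antisymm (by
    intro r hr
    obtain ⟨a, ha, rfl⟩ := (hRmem r).mp hr
    exact hrange_comm a ha) hcommR
  have h1 : Nat.card (commutator G) = Nat.card f.range := by
    rw [← hRc]
    exact (Nat.card_congr (f.range.equivMapOfInjective A.subtype A.subtype_injective).toEquiv).symm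
  have h2 : Nat.card ↥(A ⊓ Subgroup.centralizer ({x} : Set G)) = Nat.card f.ker := by
    refine Nat.card_congr ⟨fun a => ⟨⟨a.1, a.2.1⟩, ?_⟩, fun a => ⟨a.1.1, a.1.2, ?_⟩, fun _ => rfl, fun _ => rfl⟩
    · have h3 : (a.1 : G) * x = x * a.1 := Subgroup.mem_centralizer_singleton_iff.mp a.2.2 
      rw [MonoidHom.mem_ker]
      apply Subtype.ext
      change x * (a.1 : G) * x⁻¹ * (a.1 : G)⁻¹ = 1
      rw [← h3]
      group
    · have h3 : ((f a.1 : A) : G) = 1 := congrArg Subtype.val (MonoidHom.mem_ker.mp a.2)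
      have h4 : x * (a.1 : G) * x⁻¹ * (a.1 : G)⁻¹ = 1 := h3
      refine Subgroup.mem_centralizer_singleton_iff.mpr ?_
      have h5 : x * (a.1 : G) * x⁻¹ * (a.1 : G)⁻¹ * (a.1 * x) = x * a.1 := by group
      rw [h4, one_mul] at h5
      exact h5
  rw [h1, h2, mul_comm, ← Subgroup.index_ker f, Subgroup.card_mul_index]

end Cfsg.Agent.S3866
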