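import Cfsg.Statements.S3867
import Cfsg.Agent.Lib.FGS.SylQuot

set_option autoImplicit false
open Cfsg

namespace Cfsg.Agent.S3867

/-- Let M and N be nontrivial normal subgroups of the finite group G with M ⊓ N trivial, and let p be a prime. Writing n(X) for the number of Sylow p-subgroups of a group X, one has n(G) · n(G/MN) = n(G/M) · n(G/N). -/
theorem result {G : Type*} [Group G] [Finite G] (p : ℕ) [Fact p.Prime] (M N : Subgroup G) [M.Normal] [N.Normal] (hM : M ≠ ⊥) (hN : N ≠ ⊥) (hMN : M ⊓ N = ⊥) : Nat.card (Sylow p G) * Nat.card (Sylow p (G ⧸ (M ⊔ N))) = Nat.card (Sylow p (G ⧸ M)) * Nat.card (Sylow p (G ⧸ N)) := by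
  classical
  obtain ⟨P⟩ : Nonempty (Sylow p G) := inferInstance
  have hPcard := Sylow.card_eq_index_normalizer P
  rw [CfsgLib.FGS.card_sylow_quotient_eq (M ⊔ N) P, CfsgLib.FGS.card_sylow_quotient_eq M P,
    CfsgLib.FGS.card_sylow_quotient_eq N P]
  set K := Subgroup.normalizer ((P : Subgroup G) : Set G) with hK
  have hPcard' : Nat.card (Sylow p G) = K.index := hPcard
  rw [hPcard']
  set T := K ⊔ N with hT
  have hB : K ⊔ (M ⊔ N) = T ⊔ M := by
    rw [hT, sup_assoc, sup_comm M N]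
  have hkey : T ⊓ M ≤ K := by
    rintro m ⟨hmT, hmM⟩
    obtain ⟨k, hk, n, hn, rfl⟩ := Subgroup.mem_sup_of_normal_right.mp hmT
    apply CfsgLib.FGS.mem_normalizer_of_conj_le
    intro x hx
    apply CfsgLib.FGS.mem_of_mem_sup_inf_sup M N hMN P
    constructor
    · -- in `P M`
      have h1 : k * n * x * (k * n)⁻¹ = x * (x⁻¹ * (k * n) * x * (k * n)⁻¹) := by group
      rw [h1]
      refine Subgroup.mul_mem _ ((le_sup_left : (P : Subgroup G) ≤ _) hx)
        ((le_sup_right : M ≤ _) ?_)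
      refine M.mul_mem ?_ (M.inv_mem hmM)
      have := ‹M.Normal›.conj_mem _ hmM x⁻¹
      simpa using this
    · have h1 : k * n * x * (k * n)⁻¹ = (k * x * k⁻¹) * (k * x⁻¹ * n * x * n⁻¹ * k⁻¹) := by group
      rw [h1]
      refine Subgroup.mul_mem _ ((le_sup_left : (P : Subgroup G) ≤ _)
        ((Subgroup.mem_normalizer_iff.mp hk x).mp hx)) ((le_sup_right : N ≤ _) ?_)
      have h2 : k * x⁻¹ * n * x * n⁻¹ * k⁻¹ = k * ((x⁻¹ * n * x) * n⁻¹) * k⁻¹ := by group
      rw [h2]
      apply ‹N.Normal›.conj_mem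
      refine N.mul_mem ?_ (N.inv_mem hn)
      have := ‹N.Normal›.conj_mem _ hn x⁻¹
      simpa using this
  have hinf : T ⊓ M = K ⊓ M :=
    le_antisymm (le_inf hkey inf_le_right) (inf_le_inf_right M le_sup_left)
  have h1 := CfsgLib.FGS.relIndex_sup_mul_card_inf K M
  have h2 := CfsgLib.FGS.relIndex_sup_mul_card_inf T M
  rw [hinf] at h2
  have h3 : K.relIndex (K ⊔ M) = T.relIndex (T ⊔ M) :=
    Nat.eq_of_mul_eq_mul_right Nat.card_pos (h1.trans h2.symm)
  have h4 : K.relIndex (K ⊔ M) * (K ⊔ M).index = K.index :=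
    Subgroup.relIndex_mul_index le_sup_left
  have h5 : T.relIndex (T ⊔ M) * (T ⊔ M).index = T.index :=
    Subgroup.relIndex_mul_index le_sup_left
  rw [hB, ← h4, ← h5, h3]
  ring

end Cfsg.Agent.S3867
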