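import Cfsg.Statements.S3878
import Cfsg.Agent.Lib.FGS.Hall2
import Cfsg.Agent.Lib.FGS.Syl

set_option autoImplicit false
open Cfsg
open scoped commutatorElement
open scoped Pointwise

namespace Cfsg.Agent.S3878

/-- Conjugating a `q`-subgroup into a subgroup of index prime to `q`. -/
theorem h8_conj_into {W : Type*} [Group W] [Finite W] {q : ℕ} [hq : Fact q.Prime] (H Y : Subgroup W) (hH : ¬ q ∣ H.index) (hY : IsPGroup q Y) :
    ∃ g : W, ∀ x ∈ Y, g * x * g⁻¹ ∈ H := by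
  obtain ⟨P, hP⟩ := hY.exists_le_sylow
  obtain ⟨g, hg⟩ := CfsgLib.FGS.exists_conj_sylow_le H hH P
  exact ⟨g, fun x hx => hg x (hP hx)⟩

/-- The main construction. -/
theorem h8_no_hall (π : Set ℕ) {p q r : ℕ} (hp : p.Prime) (hq : q.Prime) (hr : r.Prime) (hpq : p ≠ q)
    (hpπ : p ∈ π) (hqπ : q ∈ π) (hrπ : r ∉ π) :
    ∃ n : ℕ, ¬ Cfsg.IsEPiGroup π (Equiv.Perm (Fin n)) := by
  classical
  haveI : Fact p.Prime := ⟨hp⟩
  haveI : Fact q.Prime := ⟨hq⟩
  obtain ⟨e, he⟩ : ∃ e, e = r + 3 := ⟨_, rfl⟩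
  have hqe : e < q ^ e := Nat.lt_pow_self hq.one_lt
  obtain ⟨a, ha⟩ : ∃ a, a = q ^ e + 1 := ⟨_, rfl⟩
  have hpa : a < p ^ a := Nat.lt_pow_self hp.one_lt
  refine ⟨p ^ a, ?_⟩
  rintro ⟨H, hH1, hH2⟩
  have hcard : Fintype.card (Fin (p ^ a)) = p ^ a := Fintype.card_fin _
  have hpi := hH2 p hp hpπ
  have hqi := hH2 q hq hqπ
  -- cycles
  have hcyc : ∀ (α : Type) [Fintype α] [DecidableEq α] (k : ℕ), 2 ≤ k → k ≤ Fintype.card α → ∃ g : Equiv.Perm α, g.IsCycle ∧ g.support.card = k := by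
    intro α _ _ k hk hk2
    obtain ⟨g, hg⟩ := (Equiv.Perm.exists_with_cycleType_iff (α := α) (m := {k})).2 ⟨by simpa using hk2, by simpa using hk⟩
    refine ⟨g, ?_, ?_⟩
    · rw [← Equiv.Perm.card_cycleType_eq_one, hg]
      rfl
    · rw [← Equiv.Perm.sum_cycleType, hg]
      simp
  have hcycP : ∀ (α : Type) [Fintype α] [DecidableEq α] {ℓ k : ℕ} [Fact ℓ.Prime] (g : Equiv.Perm α), g.IsCycle → g.support.card = ℓ ^ k → IsPGroup ℓ (Subgroup.zpowers g) := by
    intro α _ _ ℓ k _ g hg hs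
    apply IsPGroup.of_card (n := k)
    rw [Nat.card_zpowers, ← hs, hg.orderOf]
  -- transitivity
  have h2pa : 2 ≤ p ^ a := by
    have h1 : 1 ≤ q ^ e := by omega
    omega
  obtain ⟨g₀, hg₀c, hg₀s⟩ := hcyc (Fin (p ^ a)) (p ^ a) h2pa (by rw [hcard])
  obtain ⟨g, hg⟩ := h8_conj_into (q := p) H (Subgroup.zpowers g₀) hpi (hcycP _ g₀ hg₀c hg₀s)
  have hg₁ : g * g₀ * g⁻¹ ∈ H := hg _ (Subgroup.mem_zpowers _)
  have hg₁c : (g * g₀ * g⁻¹).IsCycle := hg₀c.conj
  have hg₁s : (g * g₀ * g⁻¹).support = Finset.univ := by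
    have h1 : (g * g₀ * g⁻¹).support.card = p ^ a := by
      rw [Equiv.Perm.support_conj, Finset.card_map, hg₀s]
    apply Finset.eq_univ_of_card
    rw [h1, hcard]
  haveI htr : MulAction.IsPretransitive H (Fin (p ^ a)) := by
    refine ⟨fun x y => ?_⟩
    have hx : (g * g₀ * g⁻¹) x ≠ x := Equiv.Perm.mem_support.1 (by rw [hg₁s]; exact Finset.mem_univ _)
    have hy : (g * g₀ * g⁻¹) y ≠ y := Equiv.Perm.mem_support.1 (by rw [hg₁s]; exact Finset.mem_univ _)
    obtain ⟨i, hi⟩ := hg₁c.exists_zpow_eq hx hy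
    exact ⟨(⟨g * g₀ * g⁻¹, hg₁⟩ : H) ^ i, hi⟩
  -- the two cycles
  obtain ⟨X, -, hXc⟩ := Finset.exists_subset_card_eq (s := (Finset.univ : Finset (Fin (p ^ a)))) (n := q ^ e) (by
    rw [Finset.card_univ, hcard]; omega)
  let β : Type := {x : Fin (p ^ a) // x ∈ X}
  have hβ : Fintype.card β = q ^ e := by
    rw [Fintype.card_coe, hXc]
  have h2e : 2 ≤ q ^ e := by omega
  obtain ⟨z₀, hz₀c, hz₀s⟩ := hcyc β (q ^ e) h2e hβ.ge
  have hq_le : q ≤ q ^ e := by
    calc q = q ^ 1 := (pow_one q).symm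
      _ ≤ q ^ e := Nat.pow_le_pow_right hq.pos (by omega)
  obtain ⟨c₀, hc₀c, hc₀s⟩ := hcyc β q hq.two_le (by rw [hβ]; exact hq_le)
  obtain Y₁ : Sylow q (Equiv.Perm β) := default
  have hconj : ∀ w : Equiv.Perm β, ∀ {k : ℕ}, w.IsCycle → w.support.card = q ^ k → ∃ w' ∈ (Y₁ : Subgroup (Equiv.Perm β)), w'.IsCycle ∧ w'.support.card = q ^ k := by
    intro w k hwc hws
    obtain ⟨u, hu⟩ := h8_conj_into (q := q) (Y₁ : Subgroup (Equiv.Perm β)) (Subgroup.zpowers w) Y₁.not_dvd_index (hcycP _ w hwc hws)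
    refine ⟨u * w * u⁻¹, hu _ (Subgroup.mem_zpowers _), hwc.conj, ?_⟩
    rw [Equiv.Perm.support_conj, Finset.card_map, hws]
  obtain ⟨z₁, hz₁Y, hz₁c, hz₁s⟩ := hconj z₀ hz₀c hz₀s
  obtain ⟨c₁, hc₁Y, hc₁c, hc₁s⟩ := hconj c₀ (k := 1) hc₀c (by rw [pow_one]; exact hc₀s)
  rw [pow_one] at hc₁s
  -- into the big group
  have hsubs : ∀ w : Equiv.Perm β, (Equiv.Perm.ofSubtype w).support ⊆ X := by
    intro w x hx
    by_contra hxX
    exact (Equiv.Perm.mem_support.1 hx) (Equiv.Perm.ofSubtype_apply_of_not_mem w hxX)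
  have hofc : ∀ w : Equiv.Perm β, w.IsCycle → (Equiv.Perm.ofSubtype w).IsCycle ∧ (Equiv.Perm.ofSubtype w).support.card = w.support.card := by
    intro w hw
    have h1 : (Equiv.Perm.ofSubtype w).cycleType = {w.support.card} := by
      rw [Equiv.Perm.cycleType_ofSubtype, hw.cycleType]
    constructor
    · rw [← Equiv.Perm.card_cycleType_eq_one, h1]
      rfl
    · rw [← Equiv.Perm.sum_cycleType, h1]
      simp
  obtain ⟨hzo, hzo2⟩ := hofc z₁ hz₁c
  obtain ⟨hco, hco2⟩ := hofc c₁ hc₁c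
  have hzX : (Equiv.Perm.ofSubtype z₁).support = X := by
    apply Finset.eq_of_subset_of_card_le (hsubs z₁)
    rw [hzo2, hz₁s, hXc]
  have hY₂ : IsPGroup q ((Y₁ : Subgroup (Equiv.Perm β)).map Equiv.Perm.ofSubtype) := Y₁.2.map _
  obtain ⟨g', hg'⟩ := h8_conj_into (q := q) H _ hqi hY₂
  have hzH := hg' _ (Subgroup.mem_map_of_mem _ hz₁Y)
  have hcH := hg' _ (Subgroup.mem_map_of_mem _ hc₁Y)
  have hfinal := CfsgLib.FGS.HallE.dvd_card_of_block_reduction H htr hp hq hr hpq (a := a) (e := e)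
    (by rw [Nat.card_eq_fintype_card, hcard]) hzH hcH hzo.conj hco.conj
    (by rw [Equiv.Perm.support_conj, Finset.card_map, hzo2, hz₁s])
    (by rw [Equiv.Perm.support_conj, Finset.card_map, hco2, hc₁s])
    (by
      rw [Equiv.Perm.support_conj, Equiv.Perm.support_conj, hzX]
      exact Finset.map_subset_map.2 (hsubs c₁))
    (by
      have h1 : q ^ 2 ≤ q ^ e := Nat.pow_le_pow_right hq.pos (by omega)
      have h2 : 2 * q ≤ q ^ 2 := by
        rw [pow_two]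
        exact Nat.mul_le_mul_right _ hq.two_le
      omega)
    (by omega)
    (by have := hr.two_le; omega)
  exact hrπ (hH1 r hr hfinal)

theorem h8_E_of_cond (π : Set ℕ) (h : (∀ p q : ℕ, p.Prime → q.Prime → p ∈ π → q ∈ π → p = q) ∨ ∀ p : ℕ, p.Prime → p ∈ π)
    (G : Type) [Group G] [Finite G] : Cfsg.IsEPiGroup π G := by
  rcases h with h | h
  · by_cases hex : ∃ p : ℕ, p.Prime ∧ p ∈ π
    · obtain ⟨p, hp, hpπ⟩ := hex
      haveI : Fact p.Prime := ⟨hp⟩
      obtain P : Sylow p G := default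
      refine ⟨P, ?_, ?_⟩
      · intro r hr hrd
        obtain ⟨k, hk⟩ := IsPGroup.iff_card.1 P.2
        rw [hk] at hrd
        have := (Nat.prime_dvd_prime_iff_eq hr hp).1 (hr.dvd_of_dvd_pow hrd)
        rw [this]
        exact hpπ
      · intro r hr hrπ
        rw [h r p hr hp hrπ hpπ]
        exact P.not_dvd_index
    · push Not at hex
      refine ⟨⊥, ?_, ?_⟩
      · intro r hr hrd
        rw [Subgroup.card_bot] at hrd
        exact absurd (Nat.dvd_one.1 hrd) hr.one_lt.ne'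
      · intro r hr hrπ
        exact absurd hrπ (hex r hr)
  · refine ⟨⊤, fun r hr _ => h r hr, ?_⟩
    intro r hr _
    rw [Subgroup.index_top]
    exact hr.one_lt.ne' ∘ Nat.dvd_one.1

theorem h8_D_of_cond (π : Set ℕ) (h : (∀ p q : ℕ, p.Prime → q.Prime → p ∈ π → q ∈ π → p = q) ∨ ∀ p : ℕ, p.Prime → p ∈ π)
    (G : Type) [Group G] [Finite G] : Cfsg.IsDPiGroup π G := by
  intro H K hH hK
  rcases h with h | h
  · by_cases hex : ∃ p : ℕ, p.Prime ∧ p ∈ π
    · obtain ⟨p, hp, hpπ⟩ := hex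
      haveI : Fact p.Prime := ⟨hp⟩
      have key : ∀ M : Subgroup G, Maximal (Cfsg.IsPiSubgroup π) M → ∃ S : Sylow p G, (S : Subgroup G) = M := by
        intro M hM
        have hMp : IsPGroup p M := IsPGroup.iff_card.2 ⟨_, Nat.eq_prime_pow_of_unique_prime_dvd Nat.card_pos.ne'
          (fun {d} hd hdm => h d p hd hp (hM.1 d hd hdm) hpπ)⟩
        obtain ⟨S, hS⟩ := hMp.exists_le_sylow
        have hSπ : Cfsg.IsPiSubgroup π (S : Subgroup G) := by
          intro r hr hrd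
          obtain ⟨k, hk⟩ := IsPGroup.iff_card.1 S.2
          rw [hk] at hrd
          have := (Nat.prime_dvd_prime_iff_eq hr hp).1 (hr.dvd_of_dvd_pow hrd)
          rw [this]
          exact hpπ
        exact ⟨S, le_antisymm (hM.2 hSπ hS) hS⟩
      obtain ⟨S, rfl⟩ := key H hH
      obtain ⟨S', rfl⟩ := key K hK
      obtain ⟨g, hg⟩ := MulAction.exists_smul_eq G S S'
      refine ⟨g, ?_⟩
      rw [← hg]
      rfl
    · push Not at hex
      have key : ∀ M : Subgroup G, Cfsg.IsPiSubgroup π M → M = ⊥ := by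
        intro M hM
        rw [← Subgroup.card_eq_one]
        by_contra h1
        obtain ⟨r, hr, hrd⟩ := Nat.exists_prime_and_dvd h1
        exact hex r hr (hM r hr hrd)
      refine ⟨1, ?_⟩
      rw [key H hH.1, key K hK.1]
      simp
  · have key : ∀ M : Subgroup G, Maximal (Cfsg.IsPiSubgroup π) M → M = ⊤ := by
      intro M hM
      apply top_le_iff.1
      exact hM.2 (fun r hr _ => h r hr) le_top
    refine ⟨1, ?_⟩
    rw [key H hH, key K hK]
    simp

theorem h8_E_of_D (π : Set ℕ) (G : Type) [Group G] [Finite G] (hD : Cfsg.IsDPiGroup π G) : Cfsg.IsEPiGroup π G := by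
  classical
  obtain ⟨M, -, hM⟩ := Finite.exists_le_maximal (α := Subgroup G) (p := Cfsg.IsPiSubgroup π) (a := ⊥) (by
    intro r hr hrd
    rw [Subgroup.card_bot] at hrd
    exact absurd (Nat.dvd_one.1 hrd) hr.one_lt.ne')
  refine ⟨M, hM.1, ?_⟩
  intro p hp hpπ
  haveI : Fact p.Prime := ⟨hp⟩
  obtain P : Sylow p G := default
  have hPπ : Cfsg.IsPiSubgroup π (P : Subgroup G) := by
    intro r hr hrd
    obtain ⟨k, hk⟩ := IsPGroup.iff_card.1 P.2
    rw [hk] at hrd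
    have := (Nat.prime_dvd_prime_iff_eq hr hp).1 (hr.dvd_of_dvd_pow hrd)
    rw [this]
    exact hpπ
  obtain ⟨M', hPM', hM'⟩ := Finite.exists_le_maximal (α := Subgroup G) (p := Cfsg.IsPiSubgroup π) hPπ
  obtain ⟨g, hg⟩ := hD M M' hM hM'
  have h1 : M'.index ∣ (P : Subgroup G).index := Subgroup.index_dvd_of_le hPM'
  have h2 : M'.index = M.index := by
    rw [hg]
    exact Subgroup.index_map_of_bijective (MulAut.conj g).bijective M
  rw [← h2]
  exact fun h3 => P.not_dvd_index (h3.trans h1)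

/-- For a set of primes π the following are equivalent: every finite group has a Hall π-subgroup; in every finite group the maximal π-subgroups are pairwise conjugate; π contains at most one prime or contains every prime. -/
theorem result (π : Set ℕ) :
    ((∀ (G : Type) [Group G] [Finite G], Cfsg.IsEPiGroup π G) ↔
      ((∀ p q : ℕ, p.Prime → q.Prime → p ∈ π → q ∈ π → p = q) ∨ ∀ p : ℕ, p.Prime → p ∈ π)) ∧
    ((∀ (G : Type) [Group G] [Finite G], Cfsg.IsDPiGroup π G) ↔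
      ((∀ p q : ℕ, p.Prime → q.Prime → p ∈ π → q ∈ π → p = q) ∨ ∀ p : ℕ, p.Prime → p ∈ π)) := by
  have hcond : (∀ (G : Type) [Group G] [Finite G], Cfsg.IsEPiGroup π G) → ((∀ p q : ℕ, p.Prime → q.Prime → p ∈ π → q ∈ π → p = q) ∨ ∀ p : ℕ, p.Prime → p ∈ π) := by
    intro hE
    by_contra hcon
    push Not at hcon
    obtain ⟨⟨p, q, hp, hq, hpπ, hqπ, hpq⟩, r, hr, hrπ⟩ := hcon
    obtain ⟨n, hn⟩ := h8_no_hall π hp hq hr hpq hpπ hqπ hrπ
    exact hn (hE _)
  constructor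
  · exact ⟨hcond, fun h G _ _ => h8_E_of_cond π h G⟩
  · refine ⟨fun hD => hcond (fun G _ _ => h8_E_of_D π G (hD G)), fun h G _ _ => h8_D_of_cond π h G⟩

end Cfsg.Agent.S3878
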