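import Cfsg.Statements.S3879
import Cfsg.Agent.Lib.FGS.Meta3

set_option autoImplicit false
open Cfsg
open scoped commutatorElement
open scoped Pointwise

namespace Cfsg.Agent.S3879

/-- Let p be an odd prime and G a finite metacyclic p-group (G has a cyclic normal subgroup with cyclic quotient). Then the index of the center of G is the square of the order of the derived subgroup: |G : Z(G)| = |G'|². -/
theorem result {G : Type*} [Group G] [Finite G] {p : ℕ} [Fact p.Prime] (hp : p ≠ 2) (hG : IsPGroup p G) (hmc : Cfsg.IsMetacyclic G) : (Subgroup.center G).index = Nat.card ↥(commutator G) ^ 2 := by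
  obtain ⟨n, t, c, r, a, b, h⟩ := CfsgLib.FGS.Meta.exists_MC hp hG hmc
  have hpp := h.hp
  have hcn := h.c_le_n
  have hct := h.c_le_t
  rw [h.card_commutator]
  have h1 := Subgroup.card_mul_index (Subgroup.center G)
  rw [h.card_center, h.hcard] at h1
  have e : p ^ (n + t) = p ^ (n + t - 2 * c) * (p ^ c) ^ 2 := by
    rw [← pow_mul, ← pow_add]
    congr 1
    omega
  rw [e] at h1
  exact Nat.eq_of_mul_eq_mul_left (pow_pos hpp.pos _) h1

end Cfsg.Agent.S3879
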