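import Cfsg.Statements.S3881
import Cfsg.Agent.Lib.FGS.Meta3

set_option autoImplicit false
open Cfsg
open scoped commutatorElement
open scoped Pointwise

namespace Cfsg.Agent.S3881

/-- Let p be an odd prime and G a finite metacyclic p-group (G has a cyclic normal subgroup with cyclic quotient). Suppose G is non-abelian with |G'| = p^n. Then for 1 ≤ i ≤ n the number of elements of G whose conjugacy class has exactly p^i elements is |Z(G)| · (p^(2i) − p^(2i−2)). -/
theorem result {G : Type*} [Group G] [Finite G] {p : ℕ} [Fact p.Prime] (hp : p ≠ 2) (hG : IsPGroup p G) (hmc : Cfsg.IsMetacyclic G) (n : ℕ) (hn : n ≠ 0) (hGn : Nat.card ↥(commutator G) = p ^ n) (i : ℕ) (hi : 1 ≤ i) (hin : i ≤ n) :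
    Nat.card {g : G // (Subgroup.centralizer ({g} : Set G)).index = p ^ i} =
      Nat.card ↥(Subgroup.center G) * (p ^ (2 * i) - p ^ (2 * i - 2)) := by
  classical
  obtain ⟨n', t, c, r, a, b, h⟩ := CfsgLib.FGS.Meta.exists_MC hp hG hmc
  have hpp := h.hp
  have hcc : c = n := by
    have h1 := h.card_commutator
    rw [hGn] at h1
    exact (Nat.pow_right_injective hpp.two_le h1).symm
  subst hcc
  have hcn := h.c_le_n
  have hct := h.c_le_t
  -- the two subgroups
  have h1 : c - i + 1 ≤ c := by omega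
  have hAB : CfsgLib.FGS.Meta.Ge a b p (c - i + 1) ≤ CfsgLib.FGS.Meta.Ge a b p (c - i) := h.Ge_succ_le _
  have hset : {g : G | (Subgroup.centralizer ({g} : Set G)).index = p ^ i} =
      ((CfsgLib.FGS.Meta.Ge a b p (c - i) : Subgroup G) : Set G) \ ((CfsgLib.FGS.Meta.Ge a b p (c - i + 1) : Subgroup G) : Set G) := by
    ext g
    simp only [Set.mem_setOf_eq, Set.mem_diff, SetLike.mem_coe]
    rw [h.mem_Ge_iff_index (by omega) g, h.mem_Ge_iff_index h1 g]
    have e1 : c - (c - i) = i := by omega
    have e2 : c - (c - i + 1) = i - 1 := by omega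
    rw [e1, e2]
    obtain ⟨m, hm⟩ : ∃ m, (Subgroup.centralizer ({g} : Set G)).index = p ^ m := by
      have h2 := Subgroup.index_dvd_card (Subgroup.centralizer ({g} : Set G))
      rw [h.hcard] at h2
      obtain ⟨m, -, hm⟩ := (Nat.dvd_prime_pow hpp).1 h2
      exact ⟨m, hm⟩
    rw [hm]
    rw [Nat.pow_le_pow_iff_right hpp.one_lt, Nat.pow_le_pow_iff_right hpp.one_lt]
    constructor
    · intro h3
      have := Nat.pow_right_injective hpp.two_le h3
      omega
    · rintro ⟨h3, h4⟩
      have : m = i := by omega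
      rw [this]
  have hcard : Nat.card {g : G // (Subgroup.centralizer ({g} : Set G)).index = p ^ i} =
      Nat.card (CfsgLib.FGS.Meta.Ge a b p (c - i)) - Nat.card (CfsgLib.FGS.Meta.Ge a b p (c - i + 1)) := by
    have h2 : Nat.card {g : G // (Subgroup.centralizer ({g} : Set G)).index = p ^ i} =
        Set.ncard {g : G | (Subgroup.centralizer ({g} : Set G)).index = p ^ i} := by
      rw [← Nat.card_coe_set_eq]; rfl
    rw [h2, hset, Set.ncard_diff (fun x hx => hAB hx) (Set.toFinite _)]
    rw [← Nat.card_coe_set_eq, ← Nat.card_coe_set_eq]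
    rfl
  rw [hcard, h.card_Ge (by omega), h.card_Ge h1, h.card_center]
  have e1 : n' + t - 2 * (c - i) = (n' + t - 2 * c) + 2 * i := by omega
  have e2 : n' + t - 2 * (c - i + 1) = (n' + t - 2 * c) + (2 * i - 2) := by omega
  rw [e1, e2, pow_add, pow_add, Nat.mul_sub]

end Cfsg.Agent.S3881
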