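import Cfsg.Statements.S3883
import Cfsg.Agent.Lib.FGS.Meta4

set_option autoImplicit false
open Cfsg
open scoped commutatorElement
open scoped Pointwise

namespace Cfsg.Agent.S3883

/-- Let p be an odd prime and G a finite metacyclic p-group (G has a cyclic normal subgroup with cyclic quotient). Suppose G is non-abelian. Then an element g of G lies outside the Frattini subgroup if and only if its centralizer C_G(g) is abelian. -/
theorem result {G : Type*} [Group G] [Finite G] {p : ℕ} [Fact p.Prime] (hp : p ≠ 2) (hG : IsPGroup p G) (hmc : Cfsg.IsMetacyclic G) (hna : ¬ IsMulCommutative G) (g : G) :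
    g ∉ frattini G ↔ IsMulCommutative ↥(Subgroup.centralizer ({g} : Set G)) := by
  obtain ⟨n, t, c, r, a, b, h⟩ := CfsgLib.FGS.Meta.exists_MC hp hG hmc
  have hc := h.one_le_c hna
  rw [h.frattini_eq hc hG]
  constructor
  · intro hg
    refine ⟨⟨fun x y => ?_⟩⟩
    apply Subtype.ext
    have hx := Subgroup.mem_centralizer_singleton_iff.1 x.2
    have hy := Subgroup.mem_centralizer_singleton_iff.1 y.2
    exact h.cent_comm hc hg hx hy
  · intro hcm hg
    obtain ⟨x, y, hx, hy, hne⟩ := h.cent_noncomm hc hg
    have hx' : x ∈ Subgroup.centralizer ({g} : Set G) := Subgroup.mem_centralizer_singleton_iff.2 hx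
    have hy' : y ∈ Subgroup.centralizer ({g} : Set G) := Subgroup.mem_centralizer_singleton_iff.2 hy
    exact hne (congrArg Subtype.val (mul_comm' (⟨x, hx'⟩ : Subgroup.centralizer ({g} : Set G)) ⟨y, hy'⟩))

end Cfsg.Agent.S3883
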