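import Cfsg.Statements.S3884
import Cfsg.Agent.Lib.FGS.Meta4

set_option autoImplicit false
open Cfsg
open scoped commutatorElement
open scoped Pointwise

namespace Cfsg.Agent.S3884

theorem h8_caseA {G : Type*} [Group G] [Finite G] {p n t c r : ℕ} {a b : G} (h : CfsgLib.FGS.Meta.MC G p n t c r a b) {w : ℕ}
    (hw : b ^ (p ^ t) = a ^ w) (hd : p ^ t ∣ w) :
    ∃ A B : Subgroup G, IsCyclic ↥A ∧ IsCyclic ↥B ∧ A ⊓ B = ⊥ ∧ Nat.card ↥A * Nat.card ↥B = Nat.card G := by
  have hpp := h.hp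
  obtain ⟨w1, rfl⟩ := hd
  set k := (p ^ n - 1) * w1 with hk
  have hpos : 0 < p ^ n := pow_pos hpp.pos n
  have hk1 : p ^ n ∣ k + w1 := by
    refine ⟨w1, ?_⟩
    rw [hk]
    have e4 : p ^ n = (p ^ n - 1) + 1 := by omega
    nth_rw 2 [e4]
    ring
  set y := a ^ k * b ^ 1 with hy
  have hy0 : y ^ (p ^ t) = 1 := by
    rw [hy, h.pow_hom h.c_le_t, one_mul, hw, ← pow_add]
    apply (h.a_pow_eq_one_iff _).2
    have e : k * p ^ t + p ^ t * w1 = p ^ t * (k + w1) := by ring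
    rw [e]
    exact Dvd.dvd.mul_left hk1 _
  have hyb : ∀ m : ℕ, y ^ m ∈ Subgroup.zpowers a → y ^ m = 1 := by
    intro m hm
    rw [hy, h.pow_nf, one_mul] at hm
    have h2 : b ^ m ∈ Subgroup.zpowers a := by
      have h3 := Subgroup.mul_mem _ (Subgroup.inv_mem _ (Subgroup.pow_mem _ (Subgroup.mem_zpowers a) (k * CfsgLib.FGS.Meta.phi (r ^ 1) m))) hm
      simpa using h3
    obtain ⟨m', rfl⟩ := (h.hbt m).1 h2
    rw [pow_mul, hy0, one_pow]
  have hyo : orderOf y = p ^ t := by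
    apply Nat.dvd_antisymm
    · exact orderOf_dvd_of_pow_eq_one hy0
    · have key : ∀ m : ℕ, y ^ m = 1 → p ^ t ∣ m := by
        intro m hm
        have h3 : y ^ m ∈ Subgroup.zpowers a := by rw [hm]; exact Subgroup.one_mem _
        rw [hy, h.pow_nf, one_mul] at h3
        have h4 := Subgroup.mul_mem _ (Subgroup.inv_mem _ (Subgroup.pow_mem _ (Subgroup.mem_zpowers a) (k * CfsgLib.FGS.Meta.phi (r ^ 1) m))) h3
        have h5 : b ^ m ∈ Subgroup.zpowers a := by simpa using h4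
        exact (h.hbt _).1 h5
      exact key _ (pow_orderOf_eq_one y)
  refine ⟨Subgroup.zpowers a, Subgroup.zpowers y, inferInstance, inferInstance, ?_, ?_⟩
  · rw [eq_bot_iff]
    rintro x ⟨h1, h2⟩
    obtain ⟨m, rfl⟩ := (mem_powers_iff_mem_zpowers).2 h2
    rw [Subgroup.mem_bot]
    exact hyb m h1
  · rw [Nat.card_zpowers, Nat.card_zpowers, h.ha, hyo, h.hcard, pow_add]

theorem h8_caseB {G : Type*} [Group G] [Finite G] {p n t c r : ℕ} {a b : G} (h : CfsgLib.FGS.Meta.MC G p n t c r a b) {w x w0 : ℕ}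
    (hw : b ^ (p ^ t) = a ^ w) (hwe : w = p ^ x * w0) (hw0 : ¬ p ∣ w0) (hxt : x < t) (hxn : x < n) :
    ∃ A B : Subgroup G, IsCyclic ↥A ∧ IsCyclic ↥B ∧ A ⊓ B = ⊥ ∧ Nat.card ↥A * Nat.card ↥B = Nat.card G := by
  have hpp := h.hp
  subst hwe
  -- `c ≤ x`
  have hcx : c ≤ x := by
    have h1 : a ^ (p ^ x * w0) * b = b * a ^ (p ^ x * w0) := by
      rw [← hw, ← pow_succ, ← pow_succ']
    have h2 := (h.comm_b _).1 h1
    by_contra hlt
    have hlt' : x + 1 ≤ c := by omega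
    have h3 : p ^ (x + 1) ∣ p ^ x * w0 := (pow_dvd_pow p hlt').trans h2
    rw [pow_succ] at h3
    exact hw0 (Nat.dvd_of_mul_dvd_mul_left (pow_pos hpp.pos _) h3)
  have hco : Nat.Coprime w0 (p ^ (n - x)) := Nat.Coprime.pow_right _ ((Nat.Prime.coprime_iff_not_dvd hpp).2 hw0).symm
  obtain ⟨l', hl'⟩ := CfsgLib.FGS.Meta.exists_solve (pow_pos hpp.pos (n - x)) hco 1
  set l := p ^ (t - x) * l' with hl
  set y := a ^ 1 * b ^ l with hy
  have hy0 : y ^ (p ^ x) = 1 := by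
    rw [hy, h.pow_hom hcx]
    have e1 : l * p ^ x = p ^ t * l' := by
      rw [hl, mul_right_comm, ← pow_add]
      congr 2
      omega
    rw [e1, pow_mul b, hw, ← pow_mul, ← pow_add]
    apply (h.a_pow_eq_one_iff _).2
    have e2 : 1 * p ^ x + p ^ x * w0 * l' = p ^ x * (l' * w0 + 1) := by ring
    have e3 : p ^ n = p ^ x * p ^ (n - x) := by
      rw [← pow_add]; congr 1; omega
    rw [e2, e3]
    exact Nat.mul_dvd_mul_left _ hl'
  -- powers of `a` in `⟨b⟩`
  have hab : ∀ v : ℕ, a ^ v ∈ Subgroup.zpowers b → p ^ x ∣ v := by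
    intro v hv
    obtain ⟨z, hz⟩ := (mem_powers_iff_mem_zpowers).2 hv
    have hz' : b ^ z = a ^ v := hz
    have h1 : p ^ t ∣ z := (h.hbt z).1 (by rw [hz']; exact Subgroup.pow_mem _ (Subgroup.mem_zpowers a) v)
    obtain ⟨z', rfl⟩ := h1
    rw [pow_mul, hw, ← pow_mul, h.pow_eq_iff_mod] at hz'
    have hd : p ^ x ∣ p ^ n := pow_dvd_pow p hxn.le
    apply (hz'.dvd_iff hd).1
    exact ⟨w0 * z', by ring⟩
  have hR : 1 ≤ r ^ l := h.one_le_pow l
  have hR1 : p ∣ r ^ l - 1 := h.hr1.trans (CfsgLib.FGS.Meta.sub_one_dvd_pow r l h.hr.le)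
  have hyb : ∀ m : ℕ, y ^ m ∈ Subgroup.zpowers b → p ^ x ∣ m := by
    intro m hm
    rw [hy, h.pow_nf, one_mul] at hm
    have h2 : a ^ CfsgLib.FGS.Meta.phi (r ^ l) m ∈ Subgroup.zpowers b := by
      have h3 := Subgroup.mul_mem _ hm (Subgroup.inv_mem _ (Subgroup.pow_mem _ (Subgroup.mem_zpowers b) (l * m)))
      simpa using h3
    exact (CfsgLib.FGS.Meta.phi_dvd_iff hpp h.hodd hR hR1 x m).1 (hab _ h2)
  have hyo : orderOf y = p ^ x := by
    apply Nat.dvd_antisymm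
    · exact orderOf_dvd_of_pow_eq_one hy0
    · apply hyb
      rw [pow_orderOf_eq_one]
      exact Subgroup.one_mem _
  -- order of `b`
  have hbo : orderOf b = p ^ (t + (n - x)) := by
    apply Nat.dvd_antisymm
    · apply orderOf_dvd_of_pow_eq_one
      rw [pow_add, pow_mul, hw, ← pow_mul]
      apply (h.a_pow_eq_one_iff _).2
      have e3 : p ^ n = p ^ x * p ^ (n - x) := by
        rw [← pow_add]; congr 1; omega
      rw [e3]
      exact ⟨w0, by ring⟩
    · have h1 : b ^ orderOf b = 1 := pow_orderOf_eq_one b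
      have h2 : p ^ t ∣ orderOf b := (h.hbt _).1 (by rw [h1]; exact Subgroup.one_mem _)
      obtain ⟨z, hz⟩ := h2
      rw [hz, pow_mul, hw, ← pow_mul] at h1
      have h3 := (h.a_pow_eq_one_iff _).1 h1
      have e3 : p ^ n = p ^ x * p ^ (n - x) := by
        rw [← pow_add]; congr 1; omega
      rw [e3, mul_assoc, Nat.mul_dvd_mul_iff_left (pow_pos hpp.pos _)] at h3
      have hco2 : Nat.Coprime (p ^ (n - x)) w0 := hco.symm
      have h4 := hco2.dvd_of_dvd_mul_left h3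
      rw [hz, pow_add]
      exact Nat.mul_dvd_mul_left _ h4
  refine ⟨Subgroup.zpowers b, Subgroup.zpowers y, inferInstance, inferInstance, ?_, ?_⟩
  · rw [eq_bot_iff]
    rintro z ⟨h1, h2⟩
    obtain ⟨m, rfl⟩ := (mem_powers_iff_mem_zpowers).2 h2
    rw [Subgroup.mem_bot]
    obtain ⟨m', rfl⟩ := hyb m h1
    show y ^ (p ^ x * m') = 1
    rw [pow_mul, hy0, one_pow]
  · rw [Nat.card_zpowers, Nat.card_zpowers, hbo, hyo, h.hcard, ← pow_add]
    congr 1
    omega


/-- Let p be an odd prime and G a finite metacyclic p-group (G has a cyclic normal subgroup with cyclic quotient). Then G is the product of two cyclic subgroups with trivial intersection: there are cyclic subgroups A and B with A ∩ B = 1 and |A| · |B| = |G|. -/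
theorem result {G : Type*} [Group G] [Finite G] {p : ℕ} [Fact p.Prime] (hp : p ≠ 2) (hG : IsPGroup p G) (hmc : Cfsg.IsMetacyclic G) : ∃ A B : Subgroup G, IsCyclic ↥A ∧ IsCyclic ↥B ∧ A ⊓ B = ⊥ ∧ Nat.card ↥A * Nat.card ↥B = Nat.card G := by
  obtain ⟨n, t, c, r, a, b, h⟩ := CfsgLib.FGS.Meta.exists_MC hp hG hmc
  have hpp := h.hp
  obtain ⟨w, hw⟩ := (mem_powers_iff_mem_zpowers).2 h.b_mem
  have hw' : b ^ (p ^ t) = a ^ w := hw.symm
  by_cases h1 : a ^ w = 1
  · exact h8_caseA h (w := 0) (by rw [hw', h1, pow_zero]) (dvd_zero _)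
  · have hw0 : w ≠ 0 := by
      rintro rfl
      exact h1 (pow_zero a)
    obtain ⟨x, w0, hw1, hwe⟩ := Nat.exists_eq_pow_mul_and_not_dvd hw0 p hpp.ne_one
    by_cases hxt : t ≤ x
    · exact h8_caseA h hw' (by
        rw [hwe]
        exact (pow_dvd_pow p hxt).trans (Nat.dvd_mul_right _ _))
    · have hxn : x < n := by
        by_contra hge
        apply h1
        apply (h.a_pow_eq_one_iff _).2
        rw [hwe]
        exact (pow_dvd_pow p (by omega)).trans (Nat.dvd_mul_right _ _)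
      exact h8_caseB h hw' hwe hw1 (by omega) hxn

end Cfsg.Agent.S3884
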