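import Cfsg.Statements.S3885
import Cfsg.Agent.Lib.FGS.Meta6

set_option autoImplicit false
open Cfsg
open scoped commutatorElement
open scoped Pointwise

namespace Cfsg.Agent.S3885

/-- Let p be an odd prime and G a finite metacyclic p-group (G has a cyclic normal subgroup with cyclic quotient). Then every abelian subgroup K of G containing the center of G is the center of its own centralizer: K = Z(C_G(K)). -/
theorem result {G : Type*} [Group G] [Finite G] {p : ℕ} [Fact p.Prime] (hp : p ≠ 2) (hG : IsPGroup p G) (hmc : Cfsg.IsMetacyclic G) (K : Subgroup G) (hK : IsMulCommutative ↥K) (hZ : Subgroup.center G ≤ K) :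
    K = Subgroup.centralizer (K : Set G) ⊓ Subgroup.centralizer (Subgroup.centralizer (K : Set G) : Set G) := by
  obtain ⟨n, t, c, r, a, b, h⟩ := CfsgLib.FGS.Meta.exists_MC hp hG hmc
  have hpp : p.Prime := Fact.out
  have hZ2 : Subgroup.center G ≤ Subgroup.centralizer (K : Set G) := Subgroup.center_le_centralizer _
  have h1 := h.card_mul_cent' hZ
  have h2 := h.card_mul_cent' hZ2
  have hcpos : 0 < Nat.card (Subgroup.centralizer (K : Set G)) := Nat.card_pos
  have hKc := (CfsgLib.FGS.Meta.isMC_iff K).1 hK
  have hle : K ≤ Subgroup.centralizer (Subgroup.centralizer (K : Set G) : Set G) := by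
    intro x hx
    rw [Subgroup.mem_centralizer_iff]
    intro y hy
    exact (Subgroup.mem_centralizer_iff.1 hy x hx).symm
  have hle2 : K ≤ Subgroup.centralizer (K : Set G) := by
    intro x hx
    rw [Subgroup.mem_centralizer_iff]
    intro y hy
    exact hKc y hy x hx
  have h3 : Nat.card K = Nat.card (Subgroup.centralizer (Subgroup.centralizer (K : Set G) : Set G)) := by
    have := h1.trans h2.symm
    rw [mul_comm] at this
    exact Nat.eq_of_mul_eq_mul_left hcpos this
  have h4 : K = Subgroup.centralizer (Subgroup.centralizer (K : Set G) : Set G) :=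
    Subgroup.eq_of_le_of_card_ge hle h3.ge
  apply le_antisymm (le_inf hle2 hle)
  rw [← h4]
  exact inf_le_right

end Cfsg.Agent.S3885
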