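import Cfsg.Statements.S3887
import Cfsg.Agent.Lib.FGS.Meta6

set_option autoImplicit false
open Cfsg
open scoped commutatorElement
open scoped Pointwise

namespace Cfsg.Agent.S3887

/-- Let p be an odd prime and G a finite metacyclic p-group (G has a cyclic normal subgroup with cyclic quotient). Then a subgroup R of G maximizes |R| · |C_G(R)| over all subgroups of G if and only if R contains the center of G. -/
theorem result {G : Type*} [Group G] [Finite G] {p : ℕ} [Fact p.Prime] (hp : p ≠ 2) (hG : IsPGroup p G) (hmc : Cfsg.IsMetacyclic G) (R : Subgroup G) : Cfsg.IsCentralizerLarge R ↔ Subgroup.center G ≤ R := by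
  obtain ⟨n, t, c, r, a, b, h⟩ := CfsgLib.FGS.Meta.exists_MC hp hG hmc
  have hpp : p.Prime := Fact.out
  -- the bound
  have hbound : ∀ S : Subgroup G, Nat.card S * Nat.card (Subgroup.centralizer (S : Set G)) ≤ (commutator G).index ^ 2 ∧
      (Nat.card S * Nat.card (Subgroup.centralizer (S : Set G)) = (commutator G).index ^ 2 → Subgroup.center G ≤ S) := by
    intro S
    have h1 := h.card_mul_cent' (le_sup_right : Subgroup.center G ≤ S ⊔ Subgroup.center G)
    have h2 : Subgroup.centralizer ((S ⊔ Subgroup.center G : Subgroup G) : Set G) = Subgroup.centralizer (S : Set G) := by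
      apply le_antisymm
      · exact Subgroup.centralizer_le (SetLike.coe_subset_coe.2 le_sup_left)
      · intro x hx
        rw [Subgroup.mem_centralizer_iff] at hx ⊢
        intro y hy
        have h3 : S ⊔ Subgroup.center G ≤ Subgroup.centralizer ({x} : Set G) := by
          apply sup_le
          · intro u hu
            rw [Subgroup.mem_centralizer_iff]
            intro v hv
            rw [Set.mem_singleton_iff] at hv
            rw [hv]
            exact (hx u hu).symm
          · intro u hu
            rw [Subgroup.mem_centralizer_iff]
            intro v hv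
            exact (Subgroup.mem_center_iff.1 hu v)
        exact (Subgroup.mem_centralizer_iff.1 (h3 hy) x rfl).symm
    rw [h2] at h1
    have hcpos : 0 < Nat.card (Subgroup.centralizer (S : Set G)) := Nat.card_pos
    have hle : Nat.card S ≤ Nat.card (S ⊔ Subgroup.center G : Subgroup G) :=
      Nat.card_le_card_of_injective _ (Subgroup.inclusion_injective le_sup_left)
    constructor
    · rw [← h1]
      exact Nat.mul_le_mul_right _ hle
    · intro he
      rw [← h1] at he
      have h4 := Nat.eq_of_mul_eq_mul_right hcpos he
      have h5 : S = S ⊔ Subgroup.center G := Subgroup.eq_of_le_of_card_ge le_sup_left h4.ge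
      rw [h5]
      exact le_sup_right
  have hmax : Cfsg.maxCentralizerProduct G = (commutator G).index ^ 2 := by
    unfold Cfsg.maxCentralizerProduct
    apply IsGreatest.csSup_eq
    constructor
    · exact ⟨⊤, h.card_mul_cent' le_top⟩
    · rintro k ⟨S, rfl⟩
      exact (hbound S).1
  unfold Cfsg.IsCentralizerLarge
  rw [hmax]
  exact ⟨(hbound R).2, fun hZ => h.card_mul_cent' hZ⟩

end Cfsg.Agent.S3887
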