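import Cfsg.Statements.S3899
import Cfsg.Agent.Lib.FGS.KP

set_option autoImplicit false
open Cfsg
open scoped commutatorElement
open scoped Pointwise

namespace Cfsg.Agent.S3899

open CfsgLib.FGS.KP in
private theorem big_kp {G : Type*} [Group G] [Finite G] (π : Finset ℕ) (hπ : ∀ r ∈ π, r.Prime) (p : ℕ) (hp : p ∈ π)
    (hmin : ∀ r ∈ π, p ≤ r)
    (hk : (p + 1) * part π (Nat.card G) < 2 * p * Nat.card (Kpi π G)) {r : ℕ} (hr : r ∈ π)
    [Fact r.Prime] (P : Sylow r G) :
    (r + 1) * Nat.card ↥(P : Subgroup G) < 2 * r * Nat.card (Kp r G) := by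
  have hσ : ∀ q ∈ π.erase r, q.Prime := fun q hq => hπ q (Finset.mem_of_mem_erase hq)
  have h1 := card_kpi_le_kp (G := G) π hπ hr
  have h2 := part_eq_mul_erase π hr (Nat.card G)
  have h3 := part_pos (π.erase r) hσ (Nat.card G)
  rw [Sylow.card_eq_multiplicity]
  rw [h2] at hk
  obtain ⟨E, hE⟩ : ∃ E, E = part (π.erase r) (Nat.card G) := ⟨_, rfl⟩
  obtain ⟨R, hR⟩ : ∃ R, R = r ^ (Nat.card G).factorization r := ⟨_, rfl⟩
  rw [← hE] at h1 h3 hk
  rw [← hR] at hk ⊢
  obtain ⟨a, ha⟩ : ∃ a, a = Nat.card (Kpi π G) := ⟨_, rfl⟩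
  obtain ⟨b, hb⟩ : ∃ b, b = Nat.card (Kp r G) := ⟨_, rfl⟩
  rw [← ha, ← hb] at h1
  rw [← ha] at hk
  rw [← hb]
  have h4 : (p + 1) * R < 2 * p * b := by
    have h5 : (p + 1) * (R * E) < 2 * p * (b * E) :=
      lt_of_lt_of_le hk (Nat.mul_le_mul_left _ h1)
    have h6 : (p + 1) * R * E < 2 * p * b * E := by
      calc (p + 1) * R * E = (p + 1) * (R * E) := by ring
        _ < 2 * p * (b * E) := h5
        _ = 2 * p * b * E := by ring
    exact Nat.lt_of_mul_lt_mul_right h6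
  have hpos : 0 < p := (hπ p hp).pos
  have hpr := hmin r hr
  have h7 : (r + 1) * R * p < 2 * r * b * p := by
    have h8 : (r + 1) * p ≤ (p + 1) * r := by nlinarith
    calc (r + 1) * R * p = ((r + 1) * p) * R := by ring
      _ ≤ ((p + 1) * r) * R := Nat.mul_le_mul_right _ h8
      _ = ((p + 1) * R) * r := by ring
      _ < (2 * p * b) * r := Nat.mul_lt_mul_of_pos_right h4 (Fact.out : r.Prime).pos
      _ = 2 * r * b * p := by ring
  exact Nat.lt_of_mul_lt_mul_right h7

/-- Let π be a finite non-empty set of odd primes with smallest member p and G a finite group. Write k_π(G) for the number of conjugacy classes of G consisting of π-elements (elements all of whose order's prime divisors lie in π) and |G|_π for the π-part of the order of G. If k_π(G) > (p + 1)|G|_π/(2p), then G has a normal π-complement (a normal subgroup of order prime to π whose index is a π-number) and an abelian Hall π-subgroup. -/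
theorem result {G : Type*} [Group G] [Finite G] (π : Finset ℕ) (hπ : ∀ r ∈ π, r.Prime) (h2 : 2 ∉ π) (p : ℕ) (hp : p ∈ π)
    (hmin : ∀ r ∈ π, p ≤ r) (hk : (p + 1) * π.prod (fun r => r ^ (Nat.card G).factorization r) < 2 * p * Nat.card {c : ConjClasses G // ∀ x ∈ c.carrier, ∀ r : ℕ, r.Prime → r ∣ orderOf x → r ∈ π}) :
    (∃ N : Subgroup G, N.Normal ∧ (∀ r : ℕ, r.Prime → r ∣ Nat.card ↥N → r ∉ π) ∧ ∀ r : ℕ, r.Prime → r ∣ N.index → r ∈ π) ∧ ∃ H : Subgroup G, Cfsg.IsPiHall (↑π : Set ℕ) H ∧ IsMulCommutative ↥H := by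
  classical
  have hk' : (p + 1) * CfsgLib.FGS.KP.part π (Nat.card G) < 2 * p * Nat.card (CfsgLib.FGS.KP.Kpi π G) := hk
  -- the complements
  have hex : ∀ r ∈ π, ∃ N : Subgroup G, N.Normal ∧ ¬ r ∣ Nat.card N ∧ (∃ m : ℕ, N.index = r ^ m) ∧ commutator G ≤ N := by
    intro r hr
    haveI : Fact r.Prime := ⟨hπ r hr⟩
    obtain ⟨P₀⟩ : Nonempty (Sylow r G) := inferInstance
    obtain ⟨⟨P, N, hN, hC⟩, -⟩ := CfsgLib.FGS.KP.kp_forward P₀ (big_kp π hπ p hp hmin hk' hr P₀)
    have hab := (CfsgLib.FGS.KP.kp_forward P (big_kp π hπ p hp hmin hk' hr P)).2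
    refine ⟨N, hN, ?_, ?_, ?_⟩
    · rw [← hC.index_eq_card]
      exact P.not_dvd_index
    · rw [hC.symm.index_eq_card, Sylow.card_eq_multiplicity]
      exact ⟨_, rfl⟩
    · rw [_root_.commutator_def, Subgroup.commutator_le]
      intro x _ y _
      have hsup := hC.sup_eq_top
      have hx : x ∈ N ⊔ (P : Subgroup G) := by rw [hsup]; exact Subgroup.mem_top _
      have hy : y ∈ N ⊔ (P : Subgroup G) := by rw [hsup]; exact Subgroup.mem_top _
      rw [Subgroup.mem_sup_of_normal_left] at hx hy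
      obtain ⟨n, hn, u, hu, rfl⟩ := hx
      obtain ⟨n', hn', u', hu', rfl⟩ := hy
      rw [← QuotientGroup.eq_one_iff]
      have hcomm : u * u' = u' * u := by
        have := hab.is_comm.comm ⟨u, hu⟩ ⟨u', hu'⟩
        exact congrArg Subtype.val this
      have h1 : ((n : G) : G ⧸ N) = 1 := (QuotientGroup.eq_one_iff n).2 hn
      have h2 : ((n' : G) : G ⧸ N) = 1 := (QuotientGroup.eq_one_iff n').2 hn'
      rw [commutatorElement_def]
      simp only [QuotientGroup.mk_mul, QuotientGroup.mk_inv, h1, h2, one_mul, inv_one]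
      rw [← QuotientGroup.mk_mul, hcomm, QuotientGroup.mk_mul]
      group
  choose! Nf hNf hNf1 hNf2 hNf3 using hex
  let N : Subgroup G := ⨅ r : π, Nf r
  have hmem : ∀ x, x ∈ N ↔ ∀ r ∈ π, x ∈ Nf r := by
    intro x
    simp only [N, Subgroup.mem_iInf]
    exact ⟨fun h r hr => h ⟨r, hr⟩, fun h r => h r r.2⟩
  have hNn : N.Normal := ⟨fun x hx g => (hmem _).2 fun r hr => (hNf r hr).conj_mem x ((hmem x).1 hx r hr) g⟩
  have h1 : ∀ r : ℕ, r.Prime → r ∣ Nat.card N → r ∉ π := by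
    intro r _ hdvd hr
    have hle : N ≤ Nf r := fun x hx => (hmem x).1 hx r hr
    exact hNf1 r hr (hdvd.trans (Subgroup.card_dvd_of_le hle))
  have h2 : ∀ r : ℕ, r.Prime → r ∣ N.index → r ∈ π := by
    intro q hq hdvd
    by_contra hqπ
    haveI : Fact q.Prime := ⟨hq⟩
    obtain ⟨Q⟩ : Nonempty (Sylow q G) := inferInstance
    have hle : (Q : Subgroup G) ≤ N := by
      intro x hx
      rw [hmem]
      intro r hr
      haveI := hNf r hr
      obtain ⟨m, hm⟩ := hNf2 r hr
      rw [← QuotientGroup.eq_one_iff]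
      obtain ⟨k, hk⟩ := (IsPGroup.iff_orderOf.1 Q.isPGroup') ⟨x, hx⟩
      have hxk : x ^ (q ^ k) = 1 := by
        have := congrArg Subtype.val (pow_orderOf_eq_one (⟨x, hx⟩ : ↥(Q : Subgroup G)))
        rw [hk] at this
        exact this
      have h3 : orderOf ((x : G) : G ⧸ Nf r) ∣ q ^ k := by
        apply orderOf_dvd_of_pow_eq_one
        rw [← QuotientGroup.mk_pow, hxk, QuotientGroup.mk_one]
      have h4 : orderOf ((x : G) : G ⧸ Nf r) ∣ r ^ m := by
        rw [← hm, Subgroup.index]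
        exact orderOf_dvd_natCard _
      have hne : q ≠ r := fun h => hqπ (h ▸ hr)
      have hcop : Nat.Coprime (q ^ k) (r ^ m) :=
        Nat.Coprime.pow _ _ ((Nat.coprime_primes hq (hπ r hr)).2 hne)
      exact orderOf_eq_one_iff.1 (Nat.eq_one_of_dvd_coprimes hcop h3 h4)
    exact Q.not_dvd_index (hdvd.trans (Subgroup.index_dvd_of_le hle))
  refine ⟨⟨N, hNn, h1, h2⟩, ?_⟩
  have hcop : (Nat.card N).Coprime N.index := by
    by_contra hne
    obtain ⟨q, hq, hq1, hq2⟩ := Nat.Prime.not_coprime_iff_dvd.1 hne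
    exact h1 q hq hq1 (h2 q hq hq2)
  obtain ⟨H, hH⟩ := Subgroup.exists_right_complement'_of_coprime hcop
  refine ⟨H, ⟨?_, ?_⟩, ⟨⟨?_⟩⟩⟩
  · intro q hq hdvd
    rw [← hH.symm.index_eq_card] at hdvd
    exact h2 q hq hdvd
  · intro q hq hqπ hdvd
    rw [hH.index_eq_card] at hdvd
    exact h1 q hq hdvd hqπ
  · intro a b
    have hc : ⁅(a : G), (b : G)⁆ ∈ N := by
      rw [hmem]
      intro r hr
      exact hNf3 r hr (Subgroup.commutator_mem_commutator (Subgroup.mem_top _) (Subgroup.mem_top _))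
    have hc' : ⁅(a : G), (b : G)⁆ ∈ H := by
      rw [commutatorElement_def]
      exact H.mul_mem (H.mul_mem (H.mul_mem a.2 b.2) (H.inv_mem a.2)) (H.inv_mem b.2)
    have h3 := Subgroup.disjoint_def.1 hH.disjoint hc hc'
    apply Subtype.ext
    exact commutatorElement_eq_one_iff_mul_comm.1 h3

end Cfsg.Agent.S3899
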