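import Cfsg.Statements.S3903
import Cfsg.Agent.Lib.FGS.NilMax

set_option autoImplicit false
open Cfsg
open scoped commutatorElement
open scoped Pointwise

namespace Cfsg.Agent.S3903

/-- Let N be a proper normal subgroup of the finite group G such that every element x of G outside N has prime power order and has centralizer C_G(x) a maximal subgroup of G. Then N is solvable. -/
theorem result {G : Type*} [Group G] [Finite G] (N : Subgroup G) [N.Normal] (hN : N ≠ ⊤)
    (h : ∀ x : G, x ∉ N → IsPrimePow (orderOf x) ∧ IsCoatom (Subgroup.centralizer ({x} : Set G))) : Group.IsSolvable ↥N := by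
  have hG : Group.IsSolvable G := CfsgLib.FGS.MaxCent.solvable_of_outside hN h
  exact Group.isSolvable_of_isSolvable_injective (f := N.subtype) N.subtype_injective

end Cfsg.Agent.S3903
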