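import Cfsg.Statements.S3904
import Cfsg.Agent.Lib.FGS.MaxCent
import Cfsg.Agent.Lib.FGS.Syl
import Cfsg.Agent.Lib.Solv.SZ
import Cfsg.Agent.Lib.Solv.Nilp

set_option autoImplicit false
open Cfsg
open scoped commutatorElement
open scoped Pointwise

namespace Cfsg.Agent.S3904

theorem h8_prime_index {G : Type*} [Group G] [Finite G] (M : Subgroup G) [M.Normal] (hM : IsCoatom M) :
    M.index.Prime := by
  have hne : M.index ≠ 1 := fun h => hM.1 (Subgroup.index_eq_one.1 h)
  obtain ⟨r, hr, hrd⟩ := Nat.exists_prime_and_dvd hne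
  haveI : Fact r.Prime := ⟨hr⟩
  have hcard : Nat.card (G ⧸ M) = M.index := rfl
  obtain ⟨t, ht⟩ := exists_prime_orderOf_dvd_card' r (hcard ▸ hrd)
  obtain ⟨g, rfl⟩ := QuotientGroup.mk_surjective t
  have h1 : M < (Subgroup.zpowers (g : G ⧸ M)).comap (QuotientGroup.mk' M) := by
    refine lt_of_le_of_ne (fun m hm => ?_) ?_
    · show (m : G ⧸ M) ∈ Subgroup.zpowers (g : G ⧸ M)
      rw [(QuotientGroup.eq_one_iff m).2 hm]
      exact one_mem _
    · intro h
      have hg : g ∈ (Subgroup.zpowers (g : G ⧸ M)).comap (QuotientGroup.mk' M) := Subgroup.mem_zpowers _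
      rw [← h] at hg
      rw [(QuotientGroup.eq_one_iff g).2 hg, orderOf_one] at ht
      exact hr.one_lt.ne ht
  have h2 := hM.2 _ h1
  have h3 : Subgroup.zpowers (g : G ⧸ M) = ⊤ := by
    rw [eq_top_iff]
    rintro u -
    obtain ⟨v, rfl⟩ := QuotientGroup.mk_surjective u
    have h4 : v ∈ (Subgroup.zpowers (g : G ⧸ M)).comap (QuotientGroup.mk' M) := h2 ▸ Subgroup.mem_top v
    exact h4
  have h5 : Nat.card (G ⧸ M) = r := by
    rw [← Subgroup.card_top (G := G ⧸ M), ← h3, Nat.card_zpowers, ht]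
  rw [← hcard, h5]
  exact hr

theorem h8_sup {G : Type*} [Group G] (M X : Subgroup G) (hM : IsCoatom M) (hX : ¬ X ≤ M) : M ⊔ X = ⊤ := by
  apply hM.2
  refine lt_of_le_of_ne le_sup_left ?_
  intro h
  apply hX
  rw [h]
  exact le_sup_right

theorem h8_Z2 {G : Type*} [Group G] [Finite G]
    (h : ∀ x : G, x ∉ Subgroup.center G → IsCoatom (Subgroup.centralizer ({x} : Set G)))
    (d : G) (hd : d ∉ Subgroup.center G)
    (hdc : ∀ g : G, (g : G ⧸ Subgroup.center G) * (d : G ⧸ Subgroup.center G) = (d : G ⧸ Subgroup.center G) * (g : G ⧸ Subgroup.center G)) :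
    ∀ u v : G ⧸ Subgroup.center G, u * v = v * u := by
  have hkey : ∀ x : G, x * d ≠ d * x → ∀ g : G, (g : G ⧸ Subgroup.center G) * (x : G ⧸ Subgroup.center G) = (x : G ⧸ Subgroup.center G) * (g : G ⧸ Subgroup.center G) := by
    intro x hx g
    have hxZ : x ∉ Subgroup.center G := fun hc => hx ((Subgroup.mem_center_iff.1 hc d).symm)
    let S : Subgroup G := (Subgroup.centralizer ({(x : G ⧸ Subgroup.center G)} : Set (G ⧸ Subgroup.center G))).comap (QuotientGroup.mk' (Subgroup.center G))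
    have hS1 : Subgroup.centralizer ({x} : Set G) ≤ S := by
      intro c hc
      have hc' : c * x = x * c := Subgroup.mem_centralizer_singleton_iff.1 hc
      show (c : G ⧸ Subgroup.center G) ∈ Subgroup.centralizer ({(x : G ⧸ Subgroup.center G)} : Set (G ⧸ Subgroup.center G))
      rw [Subgroup.mem_centralizer_singleton_iff, ← QuotientGroup.mk_mul, ← QuotientGroup.mk_mul, hc']
    have hS2 : d ∈ S := by
      show (d : G ⧸ Subgroup.center G) ∈ Subgroup.centralizer ({(x : G ⧸ Subgroup.center G)} : Set (G ⧸ Subgroup.center G))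
      rw [Subgroup.mem_centralizer_singleton_iff]
      exact (hdc x).symm
    have hdx : d ∉ Subgroup.centralizer ({x} : Set G) := by
      intro hm
      exact hx (Subgroup.mem_centralizer_singleton_iff.1 hm).symm
    have htop : S = ⊤ := (h x hxZ).2 S (lt_of_le_of_ne hS1 (fun he => hdx (he ▸ hS2)))
    have hg : g ∈ S := htop ▸ Subgroup.mem_top g
    exact Subgroup.mem_centralizer_singleton_iff.1 hg
  obtain ⟨w, hw⟩ : ∃ w, w * d ≠ d * w := by
    by_contra hcon
    push Not at hcon
    exact hd (Subgroup.mem_center_iff.2 (fun g => hcon g))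
  have hall : ∀ x g : G, (g : G ⧸ Subgroup.center G) * (x : G ⧸ Subgroup.center G) = (x : G ⧸ Subgroup.center G) * (g : G ⧸ Subgroup.center G) := by
    intro x g
    by_cases hx : x * d = d * x
    · have hxw : (x * w) * d ≠ d * (x * w) := by
        intro he
        apply hw
        have h3 : x * (w * d) = x * (d * w) := by
          calc x * (w * d) = x * w * d := (mul_assoc _ _ _).symm
            _ = d * (x * w) := he
            _ = d * x * w := (mul_assoc _ _ _).symm
            _ = x * d * w := by rw [hx]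
            _ = x * (d * w) := mul_assoc _ _ _
        exact mul_left_cancel h3
      have h1 := hkey (x * w) hxw g
      have h2 := hkey w hw g
      rw [QuotientGroup.mk_mul] at h1
      apply mul_right_cancel (b := (w : G ⧸ Subgroup.center G))
      calc (g : G ⧸ Subgroup.center G) * x * w = g * (x * w) := mul_assoc _ _ _
        _ = x * w * g := h1
        _ = x * (w * g) := mul_assoc _ _ _
        _ = x * (g * w) := by rw [h2]
        _ = x * g * w := (mul_assoc _ _ _).symm
    · exact hkey x hx g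
  intro u v
  obtain ⟨x, rfl⟩ := QuotientGroup.mk_surjective u
  obtain ⟨g, rfl⟩ := QuotientGroup.mk_surjective v
  exact (hall g x)

theorem h8_case1 {G : Type*} [Group G] [Finite G]
    (h : ∀ x : G, x ∉ Subgroup.center G → IsCoatom (Subgroup.centralizer ({x} : Set G)))
    (x0 : G) (hx0 : x0 ∉ Subgroup.center G)
    (hQ : ∀ u v : G ⧸ Subgroup.center G, u * v = v * u) :
    ∃ p : ℕ, p.Prime ∧ Cfsg.IsElementaryAbelian p (⊤ : Subgroup (G ⧸ Subgroup.center G)) := by
  have hcz : ∀ x g : G, g * x * g⁻¹ * x⁻¹ ∈ Subgroup.center G := by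
    intro x g
    rw [← QuotientGroup.eq_one_iff]
    simp only [QuotientGroup.mk_mul, QuotientGroup.mk_inv]
    rw [hQ (g : G ⧸ Subgroup.center G) (x : G ⧸ Subgroup.center G)]
    group
  have hprime : ∀ x : G, x ∉ Subgroup.center G → ∃ r : ℕ, r.Prime ∧ (x : G ⧸ Subgroup.center G) ^ r = 1 := by
    intro x hx
    have hM := h x hx
    haveI hMn : (Subgroup.centralizer ({x} : Set G)).Normal := ⟨fun y hy g => by
      have hy' : y * x = x * y := Subgroup.mem_centralizer_singleton_iff.1 hy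
      rw [Subgroup.mem_centralizer_singleton_iff]
      have hc := hcz x g⁻¹
      have hcent := Subgroup.mem_center_iff.1 hc
      set c := g⁻¹ * x * g⁻¹⁻¹ * x⁻¹ with hcdef
      have h1 : g⁻¹ * x * g = c * x := by
        rw [hcdef]
        group
      calc g * y * g⁻¹ * x = g * y * (g⁻¹ * x * g) * g⁻¹ := by group
        _ = g * y * (c * x) * g⁻¹ := by rw [h1]
        _ = g * (c * (y * x)) * g⁻¹ := by
            have h5 : y * c = c * y := hcent y
            have e : y * (c * x) = c * (y * x) := by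
              rw [← mul_assoc, h5, mul_assoc]
            rw [mul_assoc g y, e]
        _ = g * (c * (x * y)) * g⁻¹ := by rw [hy']
        _ = g * (c * x) * y * g⁻¹ := by group
        _ = g * (g⁻¹ * x * g) * y * g⁻¹ := by rw [h1]
        _ = x * (g * y * g⁻¹) := by group⟩
    have hr := h8_prime_index _ hM
    refine ⟨_, hr, ?_⟩
    rw [← QuotientGroup.mk_pow, QuotientGroup.eq_one_iff, Subgroup.mem_center_iff]
    intro g
    set r := (Subgroup.centralizer ({x} : Set G)).index with hrdef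
    have hc := Subgroup.mem_center_iff.1 (hcz x g)
    set c := g * x * g⁻¹ * x⁻¹ with hcdef
    have hgx : g * x * g⁻¹ = c * x := by
      rw [hcdef]
      group
    have cl1 : ∀ n : ℕ, g * x ^ n * g⁻¹ = c ^ n * x ^ n := by
      intro n
      induction n with
      | zero => simp
      | succ n ih =>
        calc g * x ^ (n + 1) * g⁻¹ = (g * x ^ n * g⁻¹) * (g * x * g⁻¹) := by
              rw [pow_succ]
              group
          _ = c ^ n * x ^ n * (c * x) := by rw [ih, hgx]
          _ = c ^ n * (x ^ n * c) * x := by group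
          _ = c ^ n * (c * x ^ n) * x := by rw [← hc (x ^ n)]
          _ = c ^ (n + 1) * x ^ (n + 1) := by
              rw [pow_succ c n, pow_succ x n]
              group
    have cl2 : ∀ n : ℕ, g ^ n * x * (g ^ n)⁻¹ = c ^ n * x := by
      intro n
      induction n with
      | zero => simp
      | succ n ih =>
        calc g ^ (n + 1) * x * (g ^ (n + 1))⁻¹ = g ^ n * (g * x * g⁻¹) * (g ^ n)⁻¹ := by
              rw [pow_succ]
              group
          _ = g ^ n * (c * x) * (g ^ n)⁻¹ := by rw [hgx]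
          _ = (g ^ n * c) * x * (g ^ n)⁻¹ := by group
          _ = (c * g ^ n) * x * (g ^ n)⁻¹ := by rw [hc (g ^ n)]
          _ = c * (g ^ n * x * (g ^ n)⁻¹) := by group
          _ = c * (c ^ n * x) := by rw [ih]
          _ = c ^ (n + 1) * x := by
              rw [pow_succ]
              group
    have hgr : g ^ r ∈ Subgroup.centralizer ({x} : Set G) := by
      have h1 : ((g : G ⧸ Subgroup.centralizer ({x} : Set G))) ^ (Nat.card (G ⧸ Subgroup.centralizer ({x} : Set G))) = 1 := pow_card_eq_one'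
      have h2 : Nat.card (G ⧸ Subgroup.centralizer ({x} : Set G)) = r := rfl
      rw [h2] at h1
      rw [← QuotientGroup.eq_one_iff, QuotientGroup.mk_pow]
      exact h1
    have hgr' : g ^ r * x = x * g ^ r := Subgroup.mem_centralizer_singleton_iff.1 hgr
    have hcr : c ^ r = 1 := by
      have h1 := cl2 r
      rw [hgr'] at h1
      have h2 : x * g ^ r * (g ^ r)⁻¹ = x := by group
      rw [h2] at h1
      have h3 : c ^ r * x = 1 * x := by
        rw [← h1, one_mul]
      exact mul_right_cancel h3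
    have h1 := cl1 r
    rw [hcr, one_mul] at h1
    calc g * x ^ r = g * x ^ r * g⁻¹ * g := by group
      _ = x ^ r * g := by rw [h1]
  obtain ⟨p, hp, hxp⟩ := hprime x0 hx0
  haveI : Fact p.Prime := ⟨hp⟩
  have hq0 : (x0 : G ⧸ Subgroup.center G) ≠ 1 := by
    intro h1
    exact hx0 ((QuotientGroup.eq_one_iff x0).1 h1)
  have hord0 : orderOf (x0 : G ⧸ Subgroup.center G) = p := orderOf_eq_prime hxp hq0
  have hpow : ∀ u : G ⧸ Subgroup.center G, u ^ p = 1 := by
    intro u
    obtain ⟨x, rfl⟩ := QuotientGroup.mk_surjective u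
    by_cases hx : x ∈ Subgroup.center G
    · rw [(QuotientGroup.eq_one_iff x).2 hx, one_pow]
    obtain ⟨r, hr, hxr⟩ := hprime x hx
    by_cases hrp : r = p
    · rw [← hrp]
      exact hxr
    exfalso
    haveI : Fact r.Prime := ⟨hr⟩
    have hq1 : (x : G ⧸ Subgroup.center G) ≠ 1 := by
      intro h1
      exact hx ((QuotientGroup.eq_one_iff x).1 h1)
    have hord1 : orderOf (x : G ⧸ Subgroup.center G) = r := orderOf_eq_prime hxr hq1
    have hcop : (orderOf (x0 : G ⧸ Subgroup.center G)).Coprime (orderOf (x : G ⧸ Subgroup.center G)) := by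
      rw [hord0, hord1]
      exact (Nat.coprime_primes hp hr).2 (Ne.symm hrp)
    have hprod := (show Commute (x0 : G ⧸ Subgroup.center G) (x : G ⧸ Subgroup.center G) from hQ _ _).orderOf_mul_eq_mul_orderOf_of_coprime hcop
    rw [hord0, hord1] at hprod
    by_cases hm : x0 * x ∈ Subgroup.center G
    · have h1 : (x0 : G ⧸ Subgroup.center G) * (x : G ⧸ Subgroup.center G) = 1 := by
        rw [← QuotientGroup.mk_mul]
        exact (QuotientGroup.eq_one_iff _).2 hm
      rw [h1, orderOf_one] at hprod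
      have := hp.two_le
      have := hr.two_le
      nlinarith
    · obtain ⟨r', hr', hxr'⟩ := hprime (x0 * x) hm
      rw [QuotientGroup.mk_mul] at hxr'
      have h2 := orderOf_dvd_of_pow_eq_one hxr'
      rw [hprod] at h2
      rcases (Nat.dvd_prime hr').1 h2 with h3 | h3
      · have := hp.two_le
        have := hr.two_le
        nlinarith
      · rw [← h3] at hr'
        exact Nat.not_prime_mul hp.ne_one hr.ne_one hr'
  exact ⟨p, hp, ⟨⟨fun a b => Subtype.ext (hQ _ _)⟩⟩, fun a _ => hpow a⟩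

theorem h8_S {G : Type*} [Group G] (Z : Subgroup G) [Z.Normal] (d : G) :
    ∃ S : Subgroup G, ∀ g : G, g ∈ S ↔ (g : G ⧸ Z) * (d : G ⧸ Z) = (d : G ⧸ Z) * (g : G ⧸ Z) :=
  ⟨(Subgroup.centralizer ({(d : G ⧸ Z)} : Set (G ⧸ Z))).comap (QuotientGroup.mk' Z),
    fun _ => Subgroup.mem_centralizer_singleton_iff⟩

theorem h8_case2 {G : Type*} [Group G] [Finite G]
    (h : ∀ x : G, x ∉ Subgroup.center G → IsCoatom (Subgroup.centralizer ({x} : Set G)))
    (hQ : ¬ ∀ u v : G ⧸ Subgroup.center G, u * v = v * u) :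
    ¬ IsMulCommutative (G ⧸ Subgroup.center G) ∧ (∀ H : Subgroup (G ⧸ Subgroup.center G), H ≠ ⊤ → IsMulCommutative ↥H) ∧
      ∃ p q a : ℕ, p.Prime ∧ q.Prime ∧ p ≠ q ∧ Nat.card (G ⧸ Subgroup.center G) = p ^ a * q ∧
        ∀ P : Subgroup (G ⧸ Subgroup.center G), Nat.card ↥P = p ^ a → P.Normal := by
  classical
  haveI hsolv : Group.IsSolvable G := CfsgLib.FGS.MaxCent.solvable_of_max_cent h
  have hL1 : ∀ d : G, d ∉ Subgroup.center G → ¬ ∀ g : G, (g : G ⧸ Subgroup.center G) * (d : G ⧸ Subgroup.center G) = (d : G ⧸ Subgroup.center G) * (g : G ⧸ Subgroup.center G) :=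
    fun d hd hdc => hQ (h8_Z2 h d hd hdc)
  haveI hntQ : Nontrivial (G ⧸ Subgroup.center G) := by
    by_contra hn
    rw [not_nontrivial_iff_subsingleton] at hn
    exact hQ (fun u v => Subsingleton.elim _ _)
  obtain ⟨N, hNn, hNb, hmin⟩ := CfsgLib.Solv.exists_minimal_normal (G ⧸ Subgroup.center G)
  haveI := hNn
  obtain ⟨hNc, p, hp, hNp⟩ := CfsgLib.Solv.minimal_normal_elementary N hNb hmin
  haveI : Fact p.Prime := ⟨hp⟩
  have hNab : ∀ u ∈ N, ∀ v ∈ N, u * v = v * u := fun u hu v hv =>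
    congrArg Subtype.val (hNc.is_comm.comm ⟨u, hu⟩ ⟨v, hv⟩)
  let A : Subgroup G := N.comap (QuotientGroup.mk' (Subgroup.center G))
  haveI hAn : A.Normal := Subgroup.Normal.comap hNn _
  have hZA : Subgroup.center G ≤ A := by
    intro z hz
    show (z : G ⧸ Subgroup.center G) ∈ N
    rw [(QuotientGroup.eq_one_iff z).2 hz]
    exact one_mem _
  have hAab : ∀ a ∈ A, ∀ b ∈ A, a * b = b * a := by
    intro a ha b hb
    by_contra hab
    have haZ : a ∉ Subgroup.center G := fun hc => hab ((Subgroup.mem_center_iff.1 hc b).symm)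
    have hnot : ¬ A ≤ Subgroup.centralizer ({a} : Set G) := by
      intro hle
      exact hab (Subgroup.mem_centralizer_singleton_iff.1 (hle hb)).symm
    have hsup := h8_sup _ A (h a haZ) hnot
    obtain ⟨S, hS⟩ := h8_S (Subgroup.center G) a
    have hle : Subgroup.centralizer ({a} : Set G) ⊔ A ≤ S := by
      refine sup_le (fun c hc => (hS c).2 ?_) (fun c hc => (hS c).2 ?_)
      · rw [← QuotientGroup.mk_mul, ← QuotientGroup.mk_mul, Subgroup.mem_centralizer_singleton_iff.1 hc]
      · exact hNab _ hc _ ha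
    rw [hsup] at hle
    exact hL1 a haZ (fun g => (hS g).1 (hle (Subgroup.mem_top g)))
  obtain ⟨⟨u0, hu0⟩, hu01⟩ := (Subgroup.ne_bot_iff_exists_ne_one).1 hNb
  obtain ⟨a0, rfl⟩ := QuotientGroup.mk_surjective u0
  have ha0A : a0 ∈ A := hu0
  have ha0Z : a0 ∉ Subgroup.center G := fun hc => hu01 (Subtype.ext ((QuotientGroup.eq_one_iff a0).2 hc))
  have hkeyA : ∀ w : G, (∃ b ∈ A, b * w ≠ w * b) → ∀ g : G, (g : G ⧸ A) * (w : G ⧸ A) = (w : G ⧸ A) * (g : G ⧸ A) := by
    intro w hw g
    obtain ⟨b, hb, hbw⟩ := hw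
    have hwZ : w ∉ Subgroup.center G := fun hc => hbw (Subgroup.mem_center_iff.1 hc b)
    have hnot : ¬ A ≤ Subgroup.centralizer ({w} : Set G) := by
      intro hle
      exact hbw (Subgroup.mem_centralizer_singleton_iff.1 (hle hb))
    have hsup := h8_sup _ A (h w hwZ) hnot
    obtain ⟨S, hS⟩ := h8_S A w
    have hle : Subgroup.centralizer ({w} : Set G) ⊔ A ≤ S := by
      refine sup_le (fun c hc => (hS c).2 ?_) (fun c hc => (hS c).2 ?_)
      · rw [← QuotientGroup.mk_mul, ← QuotientGroup.mk_mul, Subgroup.mem_centralizer_singleton_iff.1 hc]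
      · rw [(QuotientGroup.eq_one_iff c).2 hc, one_mul, mul_one]
    rw [hsup] at hle
    exact (hS g).1 (hle (Subgroup.mem_top g))
  obtain ⟨w0, hw0⟩ : ∃ w, w * a0 ≠ a0 * w := by
    by_contra hcon
    push Not at hcon
    exact ha0Z (Subgroup.mem_center_iff.2 (fun g => hcon g))
  have hcomm : ∀ x g : G, (g : G ⧸ A) * (x : G ⧸ A) = (x : G ⧸ A) * (g : G ⧸ A) := by
    intro x g
    by_cases hx : ∃ b ∈ A, b * x ≠ x * b
    · exact hkeyA x hx g
    · push Not at hx
      have hx0 := hx a0 ha0A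
      have hxw : ∃ b ∈ A, b * (x * w0) ≠ (x * w0) * b := by
        refine ⟨a0, ha0A, fun he => hw0 ?_⟩
        have h3 : x * (w0 * a0) = x * (a0 * w0) := by
          calc x * (w0 * a0) = x * w0 * a0 := (mul_assoc _ _ _).symm
            _ = a0 * (x * w0) := he.symm
            _ = a0 * x * w0 := (mul_assoc _ _ _).symm
            _ = x * a0 * w0 := by rw [hx0]
            _ = x * (a0 * w0) := mul_assoc _ _ _
        exact mul_left_cancel h3
      have h1 := hkeyA (x * w0) hxw g
      have h2 := hkeyA w0 ⟨a0, ha0A, fun he => hw0 he.symm⟩ g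
      rw [QuotientGroup.mk_mul] at h1
      apply mul_right_cancel (b := (w0 : G ⧸ A))
      calc (g : G ⧸ A) * x * w0 = g * (x * w0) := mul_assoc _ _ _
        _ = x * w0 * g := h1
        _ = x * (w0 * g) := mul_assoc _ _ _
        _ = x * (g * w0) := by rw [h2]
        _ = x * g * w0 := (mul_assoc _ _ _).symm
  have hcm : ∀ g y : G, g * y * g⁻¹ * y⁻¹ ∈ A := by
    intro g y
    rw [← QuotientGroup.eq_one_iff]
    simp only [QuotientGroup.mk_mul, QuotientGroup.mk_inv]
    rw [hcomm y g]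
    group
  have hCn : ∀ a ∈ A, (Subgroup.centralizer ({a} : Set G)).Normal := by
    intro a ha
    refine ⟨fun y hy g => ?_⟩
    have hy' : y * a = a * y := Subgroup.mem_centralizer_singleton_iff.1 hy
    rw [Subgroup.mem_centralizer_singleton_iff]
    have hc := hAab _ (hcm g y) a ha
    calc g * y * g⁻¹ * a = (g * y * g⁻¹ * y⁻¹) * (y * a) := by group
      _ = (g * y * g⁻¹ * y⁻¹) * (a * y) := by rw [hy']
      _ = ((g * y * g⁻¹ * y⁻¹) * a) * y := by group
      _ = (a * (g * y * g⁻¹ * y⁻¹)) * y := by rw [hc]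
      _ = a * (g * y * g⁻¹) := by group
  have hStepC : ∀ a ∈ A, a ∉ Subgroup.center G → ∀ c : G, c * a = a * c → ∀ b ∈ A, c * b = b * c := by
    intro a ha haZ c hc b hb
    haveI hCa := hCn a ha
    let X : Subgroup G := Subgroup.centralizer ((Subgroup.centralizer ({a} : Set G) : Subgroup G) : Set G)
    have hXmem : ∀ x : G, x ∈ X ↔ ∀ t : G, t * a = a * t → t * x = x * t := by
      intro x
      show x ∈ Subgroup.centralizer _ ↔ _
      rw [Subgroup.mem_centralizer_iff]
      constructor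
      · intro hx t ht
        exact hx t (Subgroup.mem_centralizer_singleton_iff.2 ht)
      · intro hx t ht
        exact hx t (Subgroup.mem_centralizer_singleton_iff.1 ht)
    haveI hXn : X.Normal := ⟨fun x hx g => by
      rw [hXmem] at hx ⊢
      intro t ht
      have h1 : g⁻¹ * t * g * a = a * (g⁻¹ * t * g) := by
        have h0 := hCa.conj_mem t (Subgroup.mem_centralizer_singleton_iff.2 ht) g⁻¹
        rw [Subgroup.mem_centralizer_singleton_iff, inv_inv] at h0
        exact h0
      have h2 := hx _ h1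
      calc t * (g * x * g⁻¹) = g * ((g⁻¹ * t * g) * x) * g⁻¹ := by group
        _ = g * (x * (g⁻¹ * t * g)) * g⁻¹ := by rw [h2]
        _ = g * x * g⁻¹ * t := by group⟩
    let N2 : Subgroup (G ⧸ Subgroup.center G) := (A ⊓ X).map (QuotientGroup.mk' (Subgroup.center G))
    have hN2n : N2.Normal := Subgroup.Normal.map inferInstance _ (QuotientGroup.mk'_surjective _)
    have hN2le : N2 ≤ N := by
      rintro _ ⟨w, hw, rfl⟩
      exact hw.1
    have haX : a ∈ X := (hXmem a).2 (fun t ht => ht)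
    have hN2b : N2 ≠ ⊥ := by
      intro he
      have h1 : (a : G ⧸ Subgroup.center G) ∈ N2 := ⟨a, ⟨ha, haX⟩, rfl⟩
      rw [he, Subgroup.mem_bot] at h1
      exact haZ ((QuotientGroup.eq_one_iff a).1 h1)
    have hN2eq : N2 = N := (hmin N2 hN2n hN2le).resolve_left hN2b
    have hbN : (b : G ⧸ Subgroup.center G) ∈ N2 := by
      rw [hN2eq]
      exact hb
    obtain ⟨w, hw, hwb⟩ := hbN
    have hz : w⁻¹ * b ∈ Subgroup.center G := QuotientGroup.eq.1 hwb
    have hwX := (hXmem w).1 hw.2 c hc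
    have hzc := Subgroup.mem_center_iff.1 hz c
    have hbe : b = w * (w⁻¹ * b) := by group
    calc c * b = c * (w * (w⁻¹ * b)) := by rw [← hbe]
      _ = (c * w) * (w⁻¹ * b) := (mul_assoc _ _ _).symm
      _ = w * c * (w⁻¹ * b) := by rw [hwX]
      _ = w * (c * (w⁻¹ * b)) := mul_assoc _ _ _
      _ = w * ((w⁻¹ * b) * c) := by rw [hzc]
      _ = b * c := by group
  have hCA : ∀ b ∈ A, b * w0 = w0 * b → b ∈ Subgroup.center G := by
    intro b hb hbw
    by_contra hbZ
    exact hw0 (hStepC b hb hbZ w0 hbw.symm a0 ha0A)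
  have hMc := h a0 ha0Z
  haveI hMn := hCn a0 ha0A
  have hAM : A ≤ Subgroup.centralizer ({a0} : Set G) := fun b hb =>
    Subgroup.mem_centralizer_singleton_iff.2 (hAab b hb a0 ha0A)
  have hw0M : w0 ∉ Subgroup.centralizer ({a0} : Set G) := fun hm => hw0 (Subgroup.mem_centralizer_singleton_iff.1 hm)
  have hSup : Subgroup.centralizer ({a0} : Set G) ⊔ Subgroup.zpowers w0 = ⊤ :=
    h8_sup _ _ hMc (fun hle => hw0M (hle (Subgroup.mem_zpowers w0)))
  have hw0Z : w0 ∉ Subgroup.center G := fun hc => hw0 (Subgroup.mem_center_iff.1 hc a0).symm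
  have hCyA : Subgroup.centralizer ({w0} : Set G) ⊔ A = ⊤ :=
    h8_sup _ A (h w0 hw0Z) (fun hle => hw0 (Subgroup.mem_centralizer_singleton_iff.1 (hle ha0A)).symm)
  have hdecomp : ∀ t : G, ∃ c : G, c * w0 = w0 * c ∧ ∃ b ∈ A, c * b = t := by
    intro t
    have ht : t ∈ Subgroup.centralizer ({w0} : Set G) ⊔ A := hCyA ▸ Subgroup.mem_top t
    obtain ⟨c, hc, b, hb, hcb⟩ := Subgroup.mem_sup_of_normal_right.1 ht
    exact ⟨c, Subgroup.mem_centralizer_singleton_iff.1 hc, b, hb, hcb⟩
  have hD : ∀ d : G, d * a0 = a0 * d → d * w0 = w0 * d → d ∈ Subgroup.center G := by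
    intro d hdM hdy
    by_contra hdZ
    obtain ⟨S, hS⟩ := h8_S (Subgroup.center G) d
    have hAS : A ≤ S := by
      intro b hb
      refine (hS b).2 ?_
      rw [← QuotientGroup.mk_mul, ← QuotientGroup.mk_mul, hStepC a0 ha0A ha0Z d hdM b hb]
    have hyS : w0 ∈ S := by
      refine (hS w0).2 ?_
      rw [← QuotientGroup.mk_mul, ← QuotientGroup.mk_mul, hdy]
    have hcS : ∀ c : G, c * a0 = a0 * c → c * w0 = w0 * c → c ∈ S := by
      intro c hcM hcy
      refine (hS c).2 ?_
      have h1 : c * d * c⁻¹ * d⁻¹ ∈ A := hcm c d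
      have h2 : (c * d * c⁻¹ * d⁻¹) * w0 = w0 * (c * d * c⁻¹ * d⁻¹) := by
        have hci : c⁻¹ * w0 = w0 * c⁻¹ := by
          rw [inv_mul_eq_iff_eq_mul, ← mul_assoc, hcy, mul_assoc, mul_inv_cancel, mul_one]
        have hdi : d⁻¹ * w0 = w0 * d⁻¹ := by
          rw [inv_mul_eq_iff_eq_mul, ← mul_assoc, hdy, mul_assoc, mul_inv_cancel, mul_one]
        calc (c * d * c⁻¹ * d⁻¹) * w0 = c * d * c⁻¹ * (d⁻¹ * w0) := mul_assoc _ _ _
          _ = c * d * (c⁻¹ * w0) * d⁻¹ := by rw [hdi]; group
          _ = c * (d * w0) * c⁻¹ * d⁻¹ := by rw [hci]; group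
          _ = (c * w0) * d * c⁻¹ * d⁻¹ := by rw [hdy]; group
          _ = w0 * (c * d * c⁻¹ * d⁻¹) := by rw [hcy]; group
      have h3 := hCA _ h1 h2
      have h4 : (c : G ⧸ Subgroup.center G) * d * (c : G ⧸ Subgroup.center G)⁻¹ * (d : G ⧸ Subgroup.center G)⁻¹ = 1 := by
        rw [← QuotientGroup.mk_inv, ← QuotientGroup.mk_inv, ← QuotientGroup.mk_mul, ← QuotientGroup.mk_mul, ← QuotientGroup.mk_mul]
        exact (QuotientGroup.eq_one_iff _).2 h3
      have h5 := eq_of_mul_inv_eq_one h4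
      have h6 := mul_inv_eq_iff_eq_mul.1 h5
      exact h6
    have hMS : Subgroup.centralizer ({a0} : Set G) ≤ S := by
      intro t ht
      obtain ⟨c, hc, b, hb, rfl⟩ := hdecomp t
      have hbM := hAM hb
      have hcM : c ∈ Subgroup.centralizer ({a0} : Set G) := by
        have h0 := Subgroup.mul_mem _ ht (Subgroup.inv_mem _ hbM)
        rwa [mul_inv_cancel_right] at h0
      exact S.mul_mem (hcS c (Subgroup.mem_centralizer_singleton_iff.1 hcM) hc) (hAS hb)
    have hT : S = ⊤ := by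
      rw [eq_top_iff, ← hSup]
      refine sup_le hMS ?_
      rw [Subgroup.zpowers_le]
      exact hyS
    exact hL1 d hdZ (fun g => (hS g).1 (hT ▸ Subgroup.mem_top g))
  have hMA : Subgroup.centralizer ({a0} : Set G) ≤ A := by
    intro t ht
    obtain ⟨c, hc, b, hb, rfl⟩ := hdecomp t
    have hbM := hAM hb
    have hcM : c ∈ Subgroup.centralizer ({a0} : Set G) := by
      have h0 := Subgroup.mul_mem _ ht (Subgroup.inv_mem _ hbM)
      rwa [mul_inv_cancel_right] at h0
    exact A.mul_mem (hZA (hD c (Subgroup.mem_centralizer_singleton_iff.1 hcM) hc)) hb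
  have hAeq : A = Subgroup.centralizer ({a0} : Set G) := le_antisymm hAM hMA
  have hAco : IsCoatom A := hAeq ▸ hMc
  have hq : A.index.Prime := h8_prime_index A hAco
  have hNind : N.index = A.index :=
    (Subgroup.index_comap_of_surjective N (QuotientGroup.mk'_surjective (Subgroup.center G))).symm
  have hqN : N.index.Prime := hNind ▸ hq
  have hNpg : IsPGroup p N := fun x => ⟨1, by
    apply Subtype.ext
    simpa using hNp x.1 x.2⟩
  obtain ⟨a, ha⟩ := IsPGroup.iff_card.1 hNpg
  have hcardQ : Nat.card (G ⧸ Subgroup.center G) = p ^ a * N.index := by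
    rw [← ha]
    exact (Subgroup.card_mul_index N).symm
  have hpq : p ≠ N.index := by
    intro he
    rw [← he] at hcardQ
    have hpg : IsPGroup p (G ⧸ Subgroup.center G) := IsPGroup.of_card (n := a + 1) (by rw [hcardQ, pow_succ])
    haveI : Group.IsNilpotent (G ⧸ Subgroup.center G) := hpg.isNilpotent
    have h1 := CfsgLib.Solv.normal_inf_center_ne_bot N hNb
    obtain ⟨⟨u, hu⟩, hu1⟩ := (Subgroup.ne_bot_iff_exists_ne_one).1 h1
    obtain ⟨d, rfl⟩ := QuotientGroup.mk_surjective u
    have hdZ : d ∉ Subgroup.center G := fun hc => hu1 (Subtype.ext ((QuotientGroup.eq_one_iff d).2 hc))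
    exact hL1 d hdZ (fun g => (Subgroup.mem_center_iff.1 hu.2 g))
  refine ⟨fun hc => hQ (fun u v => hc.is_comm.comm u v), ?_, p, N.index, a, hp, hqN, hpq, hcardQ, ?_⟩
  · intro H hH
    by_cases hle : H ≤ N
    · exact ⟨⟨fun x y => Subtype.ext (hNab _ (hle x.2) _ (hle y.2))⟩⟩
    have hsupH : N ⊔ H = ⊤ := by
      rw [eq_top_iff]
      rintro u -
      obtain ⟨g, rfl⟩ := QuotientGroup.mk_surjective u
      have hnot : ¬ H.comap (QuotientGroup.mk' (Subgroup.center G)) ≤ A := by
        intro hl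
        apply hle
        intro v hv
        obtain ⟨g', rfl⟩ := QuotientGroup.mk_surjective v
        exact hl hv
      have hs := h8_sup A _ hAco hnot
      have hg : g ∈ A ⊔ H.comap (QuotientGroup.mk' (Subgroup.center G)) := hs ▸ Subgroup.mem_top g
      obtain ⟨x, hx, y, hy, rfl⟩ := Subgroup.mem_sup_of_normal_left.1 hg
      rw [QuotientGroup.mk_mul]
      exact Subgroup.mul_mem_sup hx hy
    have hinfn : (H ⊓ N).Normal := by
      refine ⟨fun x hx g => ?_⟩
      have hg : g ∈ N ⊔ H := hsupH ▸ Subgroup.mem_top g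
      obtain ⟨n, hn, k, hk, rfl⟩ := Subgroup.mem_sup_of_normal_left.1 hg
      have h1 : k * x * k⁻¹ ∈ N := hNn.conj_mem x hx.2 k
      have h2 : k * x * k⁻¹ ∈ H := H.mul_mem (H.mul_mem hk hx.1) (H.inv_mem hk)
      have h3 : n * k * x * (n * k)⁻¹ = k * x * k⁻¹ := by
        have h4 := hNab n hn _ h1
        calc n * k * x * (n * k)⁻¹ = (n * (k * x * k⁻¹)) * n⁻¹ := by group
          _ = ((k * x * k⁻¹) * n) * n⁻¹ := by rw [h4]
          _ = k * x * k⁻¹ := by group
      rw [h3]
      exact ⟨h2, h1⟩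
    have hinfb : H ⊓ N = ⊥ := by
      rcases hmin _ hinfn inf_le_right with h1 | h1
      · exact h1
      · exfalso
        apply hH
        have h2 : N ≤ H := inf_eq_right.1 h1
        rw [← sup_eq_right.2 h2]
        exact hsupH
    refine ⟨⟨fun x y => Subtype.ext ?_⟩⟩
    obtain ⟨u, hu⟩ := x
    obtain ⟨v, hv⟩ := y
    show u * v = v * u
    have h1 : u * v * u⁻¹ * v⁻¹ ∈ H := H.mul_mem (H.mul_mem (H.mul_mem hu hv) (H.inv_mem hu)) (H.inv_mem hv)
    have h2 : u * v * u⁻¹ * v⁻¹ ∈ N := by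
      obtain ⟨g, rfl⟩ := QuotientGroup.mk_surjective u
      obtain ⟨g', rfl⟩ := QuotientGroup.mk_surjective v
      exact hcm g g'
    have h3 : u * v * u⁻¹ * v⁻¹ ∈ H ⊓ N := ⟨h1, h2⟩
    rw [hinfb, Subgroup.mem_bot] at h3
    have h5 := eq_of_mul_inv_eq_one h3
    exact mul_inv_eq_iff_eq_mul.1 h5
  · intro P hP
    have hPN : P ≤ N := by
      intro x hx
      have h1 : ((x : (G ⧸ Subgroup.center G) ⧸ N)) ^ N.index = 1 := by
        have h0 : ((x : (G ⧸ Subgroup.center G) ⧸ N)) ^ Nat.card ((G ⧸ Subgroup.center G) ⧸ N) = 1 := pow_card_eq_one'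
        exact h0
      have h2 : x ^ (p ^ a) = 1 := by
        have h0 : (⟨x, hx⟩ : P) ^ Nat.card P = 1 := pow_card_eq_one'
        rw [hP] at h0
        have h00 := congrArg Subtype.val h0
        simpa using h00
      have h3 : ((x : (G ⧸ Subgroup.center G) ⧸ N)) ^ (p ^ a) = 1 := by
        rw [← QuotientGroup.mk_pow, h2]
        rfl
      have hcop : N.index.Coprime (p ^ a) :=
        Nat.Coprime.pow_right a ((Nat.coprime_primes hqN hp).2 (Ne.symm hpq))
      have h4 := Nat.eq_one_of_dvd_coprimes hcop (orderOf_dvd_of_pow_eq_one h1) (orderOf_dvd_of_pow_eq_one h3)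
      rw [orderOf_eq_one_iff] at h4
      exact (QuotientGroup.eq_one_iff x).1 h4
    have hPeq : P = N := Subgroup.eq_of_le_of_card_ge hPN (by rw [hP, ha])
    rw [hPeq]
    exact hNn

/-- Let G be a non-abelian finite group in which the centralizer of every non-central element is a maximal subgroup. Then G/Z(G) is either an elementary abelian p-group for some prime p, or a minimal non-abelian group (non-abelian with all proper subgroups abelian) of order p^a · q for distinct primes p, q with a normal Sylow p-subgroup. -/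
theorem result {G : Type*} [Group G] [Finite G] (hna : ¬ IsMulCommutative G)
    (h : ∀ x : G, x ∉ Subgroup.center G → IsCoatom (Subgroup.centralizer ({x} : Set G))) :
    (∃ p : ℕ, p.Prime ∧ Cfsg.IsElementaryAbelian p (⊤ : Subgroup (G ⧸ Subgroup.center G))) ∨
    (¬ IsMulCommutative (G ⧸ Subgroup.center G) ∧ (∀ H : Subgroup (G ⧸ Subgroup.center G), H ≠ ⊤ → IsMulCommutative ↥H) ∧
      ∃ p q a : ℕ, p.Prime ∧ q.Prime ∧ p ≠ q ∧ Nat.card (G ⧸ Subgroup.center G) = p ^ a * q ∧
        ∀ P : Subgroup (G ⧸ Subgroup.center G), Nat.card ↥P = p ^ a → P.Normal) := by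
  classical
  obtain ⟨x0, hx0⟩ : ∃ x0 : G, x0 ∉ Subgroup.center G := by
    by_contra hall
    push Not at hall
    exact hna ⟨⟨fun a b => (Subgroup.mem_center_iff.1 (hall b) a)⟩⟩
  by_cases hQ : ∀ u v : G ⧸ Subgroup.center G, u * v = v * u
  · exact Or.inl (h8_case1 h x0 hx0 hQ)
  · exact Or.inr (h8_case2 h hQ)

end Cfsg.Agent.S3904
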