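import Cfsg.Statements.S3908
import Cfsg.Agent.Lib.FGS.ConjAb

set_option autoImplicit false
open Cfsg
open scoped commutatorElement
open scoped Pointwise

namespace Cfsg.Agent.S3908

/-- Let G be a finite group in which any two abelian subgroups of the same order are conjugate. Then a Sylow 2-subgroup of G is cyclic, elementary abelian or generalized quaternion, and for an odd prime p a Sylow p-subgroup of G is cyclic or has exponent dividing p. -/
theorem result {G : Type*} [Group G] [Finite G] (hB : ∀ A B : Subgroup G, IsMulCommutative ↥A → IsMulCommutative ↥B → Nat.card ↥A = Nat.card ↥B → ∃ g : G, B = A.map (MulAut.conj g).toMonoidHom) :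
    (∀ P : Sylow 2 G, IsCyclic ↥(P : Subgroup G) ∨ Cfsg.IsElementaryAbelian 2 (P : Subgroup G) ∨ ∃ k : ℕ, Nonempty (↥(P : Subgroup G) ≃* QuaternionGroup (2 ^ k))) ∧
    ∀ (p : ℕ) [Fact p.Prime], p ≠ 2 → ∀ P : Sylow p G, IsCyclic ↥(P : Subgroup G) ∨ ∀ x ∈ (P : Subgroup G), x ^ p = 1 := by
  classical
  have hconj : ∀ E C : Subgroup G, IsMulCommutative E → IsMulCommutative C → ∀ (p : ℕ), IsPGroup p E → IsPGroup p C →
      Nat.card E = Nat.card C → ∃ g : G, C = E.map (MulAut.conj g).toMonoidHom :=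
    fun E C hE hC p _ _ h => hB E C hE hC h
  refine ⟨?_, ?_⟩
  · intro P
    haveI : Fact (2 : ℕ).Prime := ⟨Nat.prime_two⟩
    by_cases hall : ∀ x ∈ (P : Subgroup G), x ^ 2 = 1
    · right; left
      refine ⟨⟨⟨fun a b => ?_⟩⟩, hall⟩
      have h1 : (a * b) ^ 2 = 1 := Subtype.ext (hall _ (a * b).2)
      have h2 : a ^ 2 = 1 := Subtype.ext (hall _ a.2)
      have h3 : b ^ 2 = 1 := Subtype.ext (hall _ b.2)
      have h4 : a⁻¹ = a := by
        rw [inv_eq_iff_mul_eq_one, ← pow_two]; exact h2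
      have h5 : b⁻¹ = b := by
        rw [inv_eq_iff_mul_eq_one, ← pow_two]; exact h3
      have h6 : (a * b)⁻¹ = a * b := by
        rw [inv_eq_iff_mul_eq_one, ← pow_two]; exact h1
      rw [mul_inv_rev, h4, h5] at h6
      exact h6.symm
    · push Not at hall
      obtain ⟨x, hxP, hx⟩ := hall
      have h := CfsgLib.FGS.ConjAb.unique_sub (P : Subgroup G) P.isPGroup' (fun E C h1 h2 h3 h4 h5 => hconj E C h1 h2 2 h3 h4 h5) x hxP hx
      rcases CfsgLib.SS.unique_prime_subgroup 2 P.isPGroup' h with h1 | ⟨-, h1⟩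
      · exact Or.inl h1
      · exact Or.inr (Or.inr h1)
  · intro p _ hp2 P
    by_cases hall : ∀ x ∈ (P : Subgroup G), x ^ p = 1
    · exact Or.inr hall
    · push Not at hall
      obtain ⟨x, hxP, hx⟩ := hall
      have h := CfsgLib.FGS.ConjAb.unique_sub (P : Subgroup G) P.isPGroup' (fun E C h1 h2 h3 h4 h5 => hconj E C h1 h2 p h3 h4 h5) x hxP hx
      rcases CfsgLib.SS.unique_prime_subgroup p P.isPGroup' h with h1 | ⟨h2, -⟩
      · exact Or.inl h1
      · exact absurd h2 hp2

end Cfsg.Agent.S3908
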