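import Cfsg.Statements.S3909
import Cfsg.Agent.Lib.FGS.Syl

set_option autoImplicit false
open Cfsg

namespace Cfsg.Agent.S3909

/-- Let G be a finite group in which any two abelian subgroups of the same order are conjugate. Let M be a normal subgroup of G. If M contains an element of the same order as a ∈ G, then a ∈ M; and if M is elementary abelian of order p^t with p prime and t ≥ 2, then M is the unique Sylow p-subgroup of G. -/
theorem result {G : Type*} [Group G] [Finite G] (hB : ∀ A B : Subgroup G, IsMulCommutative ↥A → IsMulCommutative ↥B → Nat.card ↥A = Nat.card ↥B → ∃ g : G, B = A.map (MulAut.conj g).toMonoidHom) (M : Subgroup G) [M.Normal] :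
    (∀ a : G, (∃ m ∈ M, orderOf m = orderOf a) → a ∈ M) ∧
    ∀ (p t : ℕ) [Fact p.Prime], 2 ≤ t → Nat.card ↥M = p ^ t → Cfsg.IsElementaryAbelian p M → ∀ P : Sylow p G, (P : Subgroup G) = M := by
  classical
  have h1 : ∀ a : G, (∃ m ∈ M, orderOf m = orderOf a) → a ∈ M := by
    rintro a ⟨m, hm, hma⟩
    obtain ⟨g, hg⟩ := hB (Subgroup.zpowers m) (Subgroup.zpowers a) inferInstance inferInstance
      (by rw [Nat.card_zpowers, Nat.card_zpowers, hma])
    have h2 : a ∈ (Subgroup.zpowers m).map (MulAut.conj g).toMonoidHom := hg ▸ Subgroup.mem_zpowers a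
    obtain ⟨y, hy, rfl⟩ := h2
    obtain ⟨k, rfl⟩ := Subgroup.mem_zpowers_iff.mp hy
    exact ‹M.Normal›.conj_mem _ (M.zpow_mem hm k) g
  refine ⟨h1, ?_⟩
  intro p t _ ht hcard hE P
  have hMp : IsPGroup p M := IsPGroup.of_card hcard
  have hMP : M ≤ (P : Subgroup G) := by
    obtain ⟨Y, hY⟩ := hMp.exists_le_sylow
    obtain ⟨g, rfl⟩ := MulAction.exists_smul_eq G Y P
    intro x hx
    rw [Sylow.coe_subgroup_smul, CfsgLib.FGS.mem_conj_smul_iff]
    exact hY (by simpa using ‹M.Normal›.conj_mem _ hx g⁻¹)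
  refine le_antisymm ?_ hMP
  by_contra hcon
  obtain ⟨x, hxP, hxM⟩ := SetLike.not_le_iff_exists.mp hcon
  obtain ⟨k, hk⟩ : ∃ k : ℕ, x ^ (p ^ k) ∈ M := by
    obtain ⟨k, hk⟩ := P.isPGroup' ⟨x, hxP⟩
    refine ⟨k, ?_⟩
    have : x ^ (p ^ k) = 1 := congrArg Subtype.val hk
    rw [this]
    exact M.one_mem
  set n := Nat.find (⟨k, hk⟩ : ∃ k : ℕ, x ^ (p ^ k) ∈ M) with hn
  have hn1 : x ^ (p ^ n) ∈ M := Nat.find_spec (⟨k, hk⟩ : ∃ k : ℕ, x ^ (p ^ k) ∈ M)
  have hn0 : n ≠ 0 := by
    intro h0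
    rw [h0] at hn1
    simp at hn1
    exact hxM hn1
  obtain ⟨j, hj⟩ := Nat.exists_eq_succ_of_ne_zero hn0
  set y := x ^ (p ^ j) with hy
  have hyM : y ∉ M := by
    have := Nat.find_min (⟨k, hk⟩ : ∃ k : ℕ, x ^ (p ^ k) ∈ M) (m := j) (by omega)
    exact this
  have hyp : y ^ p ∈ M := by
    rw [hj] at hn1
    rw [hy, ← pow_mul, ← pow_succ]
    exact hn1
  have hp : p ∣ Nat.card M := by
    rw [hcard]
    exact dvd_pow_self p (by omega)
  by_cases hy1 : y ^ p = 1
  · -- order p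
    have hy2 : orderOf y = p := orderOf_eq_prime hy1 (fun h => hyM (h ▸ M.one_mem))
    obtain ⟨m, hm⟩ := exists_prime_orderOf_dvd_card' p hp
    exact hyM (h1 y ⟨m, m.2, by rw [hy2, ← hm]; exact (Subgroup.orderOf_coe m)⟩)
  · -- order p²
    have hy3 : y ^ (p ^ 2) = 1 := by
      rw [pow_two, pow_mul]
      exact hE.2 _ hyp
    have hy4 : orderOf y = p ^ 2 := by
      have : orderOf y = p ^ (1 + 1) := orderOf_eq_prime_pow (by simpa using hy1) (by simpa using hy3)
      simpa using this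
    obtain ⟨B, hB2⟩ := Sylow.exists_subgroup_card_pow_prime (G := M) p (n := 2)
      (by rw [hcard]; exact pow_dvd_pow p ht)
    have hBc : IsMulCommutative (B.map M.subtype) := by
      haveI := hE.1
      refine ⟨⟨?_⟩⟩
      rintro ⟨_, b, hb, rfl⟩ ⟨_, c, hc, rfl⟩
      apply Subtype.ext
      change (b : G) * c = c * b
      exact congrArg Subtype.val (hE.1.is_comm.comm b c)
    obtain ⟨g, hg⟩ := hB (B.map M.subtype) (Subgroup.zpowers y) hBc inferInstance (by
      rw [Nat.card_zpowers, hy4, ← hB2]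
      exact Nat.card_congr (B.equivMapOfInjective M.subtype M.subtype_injective).toEquiv.symm)
    have h2 : y ∈ (B.map M.subtype).map (MulAut.conj g).toMonoidHom :=
      hg ▸ Subgroup.mem_zpowers y
    obtain ⟨_, ⟨b, _, rfl⟩, hb⟩ := h2
    apply hyM
    rw [← hb]
    exact ‹M.Normal›.conj_mem _ b.2 g

end Cfsg.Agent.S3909
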