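import Cfsg.Statements.S3910
import Cfsg.Agent.Lib.FGS.Cyc

set_option autoImplicit false
open Cfsg

namespace Cfsg.Agent.S3910

/-- A finite nilpotent group in which any two abelian subgroups of the same order are conjugate is cyclic. -/
theorem result {G : Type*} [Group G] [Finite G] (hB : ∀ A B : Subgroup G, IsMulCommutative ↥A → IsMulCommutative ↥B → Nat.card ↥A = Nat.card ↥B → ∃ g : G, B = A.map (MulAut.conj g).toMonoidHom) (hnil : Group.IsNilpotent G) : IsCyclic G := by
  classical
  -- unique subgroup of prime order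
  have huniq : ∀ p : ℕ, p.Prime → ∀ u z : G, orderOf u = p → orderOf z = p → z ∈ Subgroup.zpowers u := by
    intro p hp u z hu hz
    haveI := Fact.mk hp
    have hpG : p ∣ Nat.card G := by
      rw [← hu]; exact orderOf_dvd_natCard u
    obtain ⟨P⟩ : Nonempty (Sylow p G) := inferInstance
    haveI hPn : (P : Subgroup G).Normal := by
      have h := (Group.isNilpotent_of_finite_tfae (G := G)).out 0 3
      exact h.mp hnil p inferInstance P
    have hP1 : (P : Subgroup G) ≠ ⊥ := by
      intro h0
      have h1 := P.card_eq_multiplicity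
      rw [h0, Subgroup.card_bot] at h1
      have h2 : p ∣ p ^ (Nat.card G).factorization p := by
        apply dvd_pow_self
        exact (Nat.Prime.factorization_pos_of_dvd hp Nat.card_pos.ne' hpG).ne'
      rw [← h1] at h2
      exact hp.one_lt.ne' (Nat.dvd_one.mp h2)
    have hPZ := CfsgLib.Solv.normal_inf_center_ne_bot (P : Subgroup G) hP1
    -- an element of order p in the center
    have hPZp : IsPGroup p ((P : Subgroup G) ⊓ Subgroup.center G : Subgroup G) :=
      P.isPGroup'.to_le inf_le_left
    have hnt : Nontrivial ((P : Subgroup G) ⊓ Subgroup.center G : Subgroup G) :=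
      (Subgroup.nontrivial_iff_ne_bot _).mpr hPZ
    obtain ⟨n, hn, hcardn⟩ := hPZp.nontrivial_iff_card.mp hnt
    obtain ⟨c, hc⟩ := exists_prime_orderOf_dvd_card' (G := ((P : Subgroup G) ⊓ Subgroup.center G : Subgroup G)) p
      (by rw [hcardn]; exact dvd_pow_self p hn.ne')
    have hcZ : (c : G) ∈ Subgroup.center G := c.2.2
    have hco : orderOf (c : G) = p := by rw [Subgroup.orderOf_coe, hc]
    have hcn : (Subgroup.zpowers (c : G)).Normal := by
      constructor
      intro w hw g
      have h7 := Subgroup.mem_center_iff.mp (Subgroup.zpowers_le.mpr hcZ hw) g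
      rw [h7]
      simpa using hw
    have key : ∀ y : G, orderOf y = p → Subgroup.zpowers y = Subgroup.zpowers (c : G) := by
      intro y hy
      obtain ⟨g, hg⟩ := hB (Subgroup.zpowers (c : G)) (Subgroup.zpowers y) inferInstance inferInstance
        (by rw [Nat.card_zpowers, Nat.card_zpowers, hy, hco])
      rw [hg]
      apply CfsgLib.FGS.map_conj_eq_of_mem_normalizer
      rw [Subgroup.normalizer_eq_top]
      exact Subgroup.mem_top g
    rw [key u hu]
    have := key z hz
    rw [← this]
    exact Subgroup.mem_zpowers z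
  -- a maximal normal abelian subgroup
  obtain ⟨N, -, hN⟩ := Finite.exists_le_maximal (p := fun N : Subgroup G => N.Normal ∧ IsMulCommutative N)
      (a := ⊥) ⟨inferInstance, inferInstance⟩
  obtain ⟨⟨hNn, hNc⟩, hNmax⟩ := hN
  haveI := hNn
  haveI := hNc
  have hC : Subgroup.centralizer (N : Set G) = N :=
    CfsgLib.Solv.maximal_abelian_normal_self_centralizing N (fun M hM hMc hNM =>
      (le_antisymm (hNmax ⟨hM, hMc⟩ hNM) hNM))
  letI : CommGroup N := { (inferInstance : Group N) with mul_comm := hNc.is_comm.comm }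
  have hNcyc : IsCyclic N := by
    apply CfsgLib.FGS.isCyclic_of_unique_prime_subgroup
    intro p hp u z hu hz
    have h1 := huniq p hp (u : G) (z : G) (by rw [Subgroup.orderOf_coe, hu]) (by rw [Subgroup.orderOf_coe, hz])
    obtain ⟨k, hk⟩ := h1
    exact ⟨k, Subtype.ext hk⟩
  -- elements whose order divides |N| lie in N
  have hdvd : ∀ y : G, orderOf y ∣ Nat.card N → y ∈ N := by
    intro y hy
    obtain ⟨c₀, hc₀⟩ := IsCyclic.exists_ofOrder_eq_natCard (α := N)
    obtain ⟨t, ht⟩ := hy
    have htpos : 0 < t := by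
      rcases Nat.eq_zero_or_pos t with h0 | h0
      · rw [h0, mul_zero] at ht
        exact absurd ht Nat.card_pos.ne'
      · exact h0
    have hm : orderOf ((c₀ ^ t : N) : G) = orderOf y := by
      rw [Subgroup.orderOf_coe, orderOf_pow' c₀ htpos.ne', hc₀, ht, Nat.gcd_mul_left_left]
      exact Nat.mul_div_cancel _ htpos
    obtain ⟨g, hg⟩ := hB (Subgroup.zpowers ((c₀ ^ t : N) : G)) (Subgroup.zpowers y) inferInstance inferInstance
      (by rw [Nat.card_zpowers, Nat.card_zpowers, hm])
    have h2 : y ∈ (Subgroup.zpowers ((c₀ ^ t : N) : G)).map (MulAut.conj g).toMonoidHom :=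
      hg ▸ Subgroup.mem_zpowers y
    obtain ⟨w, hw, rfl⟩ := h2
    exact hNn.conj_mem _ (Subgroup.zpowers_le.mpr (c₀ ^ t).2 hw) g
  -- N is everything
  have hNtop : N = ⊤ := by
    by_contra hne
    haveI hQ : Nontrivial (G ⧸ N) := QuotientGroup.nontrivial_iff.mpr hne
    obtain ⟨p, hp, hpdvd⟩ := Nat.exists_prime_and_dvd (ne_of_gt Finite.one_lt_card : Nat.card (G ⧸ N) ≠ 1)
    haveI := Fact.mk hp
    obtain ⟨xbar, hxbar⟩ := exists_prime_orderOf_dvd_card' p hpdvd
    obtain ⟨x, rfl⟩ := QuotientGroup.mk_surjective xbar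
    have hxN : x ∉ N := by
      intro hx
      have h1 : ((x : G) : G ⧸ N) = 1 := (QuotientGroup.eq_one_iff x).mpr hx
      rw [h1, orderOf_one] at hxbar
      exact hp.one_lt.ne hxbar
    have hxpN : x ^ p ∈ N := by
      have h1 : ((x : G) : G ⧸ N) ^ p = 1 := by rw [← hxbar]; exact pow_orderOf_eq_one _
      rw [← QuotientGroup.mk_pow] at h1
      exact (QuotientGroup.eq_one_iff _).mp h1
    obtain ⟨y, t, hy, ht, hxyt, hcomm, ⟨b, hb⟩, htc⟩ := CfsgLib.FGS.exists_primary_decomp p hp x
    have hyN : y ∉ N := by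
      intro hyN
      apply hxN
      have htp : t ^ p ∈ N := by
        have : t ^ p = (y ^ p)⁻¹ * x ^ p := by
          rw [hxyt, (show Commute y t from hcomm).mul_pow]
          group
        rw [this]
        exact N.mul_mem (N.inv_mem (N.pow_mem hyN p)) hxpN
      have htN : t ∈ N := by
        have : t ∈ Subgroup.zpowers (t ^ p) := mem_zpowers_pow_iff.mpr htc.symm
        exact (Subgroup.zpowers_le.mpr htp) this
      rw [hxyt]
      exact N.mul_mem hyN htN
    have hypN : y ^ p ∈ N := by
      obtain ⟨k, rfl⟩ := hy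
      simp only
      rw [← zpow_natCast, ← zpow_mul, mul_comm, zpow_mul, zpow_natCast]
      exact N.zpow_mem hxpN k
    have hb0 : b ≠ 0 := by
      rintro rfl
      rw [pow_zero, orderOf_eq_one_iff] at hb
      exact hyN (hb ▸ N.one_mem)
    obtain ⟨c, rfl⟩ := Nat.exists_eq_succ_of_ne_zero hb0
    have hyp_order : orderOf (y ^ p) = p ^ c := by
      have h1 : orderOf (y ^ p) = orderOf y / Nat.gcd (orderOf y) p := orderOf_pow' y hp.ne_zero
      have h2 : Nat.gcd (orderOf y) p = p := by
        rw [hb]
        exact Nat.gcd_eq_right (dvd_pow_self p (Nat.succ_ne_zero c))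
      rw [h1, h2, hb, Nat.pow_succ, Nat.mul_div_cancel _ hp.pos]
    have hcomm_N : ∀ n ∈ N, n * y = y * n := by
      intro n hn
      obtain ⟨s', t', hs', ht', hnst, hcomm', ⟨d, hd⟩, ht'c⟩ := CfsgLib.FGS.exists_primary_decomp p hp n
      have hs'N : s' ∈ N := Subgroup.zpowers_le.mpr hn hs'
      have ht'N : t' ∈ N := Subgroup.zpowers_le.mpr hn ht'
      have hnil' := CfsgLib.FGS.commute_of_coprime_of_nilpotent _ G rfl t' y (by
        rw [hb]
        exact Nat.Coprime.pow_right _ ht'c)
      have h1 : s' * y = y * s' := by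
        -- the order of s' divides p ^ c
        have hdc : d ≤ c := by
          by_contra hdc
          apply hyN
          apply hdvd
          rw [hb]
          have h2 : orderOf s' ∣ Nat.card N := Subgroup.orderOf_dvd_natCard N hs'N
          rw [hd] at h2
          exact (pow_dvd_pow p (by omega)).trans h2
        have h2 := CfsgLib.FGS.mem_zpowers_of_orderOf_dvd_of_isCyclic (C := N) (u := ⟨s', hs'N⟩)
          (v := ⟨y ^ p, hypN⟩) (by
            rw [Subgroup.orderOf_mk, Subgroup.orderOf_mk, hd, hyp_order]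
            exact pow_dvd_pow p hdc)
        obtain ⟨k, hk⟩ := h2
        have hk' : (y ^ p) ^ k = s' := congrArg Subtype.val hk
        rw [← hk']
        exact ((Commute.refl y).pow_left p).zpow_left k
      rw [hnst]
      calc s' * t' * y = s' * (t' * y) := by group
        _ = s' * (y * t') := by rw [hnil']
        _ = (s' * y) * t' := by group
        _ = y * s' * t' := by rw [h1]
        _ = _ := by group
    apply hyN
    rw [← hC, Subgroup.mem_centralizer_iff]
    exact hcomm_N
  -- conclude
  obtain ⟨c₀, hc₀⟩ := IsCyclic.exists_ofOrder_eq_natCard (α := N)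
  have hcN : Nat.card N = Nat.card G := by
    rw [hNtop]
    exact Subgroup.card_top
  exact isCyclic_of_orderOf_eq_card (c₀ : G) (by rw [Subgroup.orderOf_coe, hc₀, hcN])

end Cfsg.Agent.S3910
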