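import Cfsg.Statements.S3917
import Cfsg.Agent.Lib.FGS.Cyc
import Cfsg.Agent.Lib.PLocal.CardSup

set_option autoImplicit false
open Cfsg

namespace Cfsg.Agent.S3917

/-- Say that a group has self-centralizing non-cyclic subgroups when every non-cyclic subgroup H satisfies C_G(H) ≤ H. A finite abelian group with self-centralizing non-cyclic subgroups is cyclic or elementary abelian of order p² for a prime p. -/
theorem result {G : Type*} [CommGroup G] [Finite G] (hX : (∀ H : Subgroup G, ¬ IsCyclic ↥H → Subgroup.centralizer (H : Set G) ≤ H)) :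
    IsCyclic G ∨ ∃ p : ℕ, p.Prime ∧ Nat.card G = p ^ 2 ∧ Monoid.exponent G = p := by
  classical
  by_contra hcon
  have hnc : ¬ IsCyclic G := fun h => hcon (Or.inl h)
  have h1 : ∃ p : ℕ, p.Prime ∧ ∃ u z : G, orderOf u = p ∧ orderOf z = p ∧ z ∉ Subgroup.zpowers u := by
    by_contra h2
    apply hnc
    apply CfsgLib.FGS.isCyclic_of_unique_prime_subgroup
    intro p hp u z hu hz
    by_contra h3
    exact h2 ⟨p, hp, u, z, hu, hz, h3⟩
  obtain ⟨p, hp, u, z, hu, hz, hzu⟩ := h1
  haveI := Fact.mk hp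
  set K := Subgroup.zpowers u ⊔ Subgroup.zpowers z with hK
  have huK : u ∈ K := Subgroup.mem_sup_left (Subgroup.mem_zpowers u)
  have hzK : z ∈ K := Subgroup.mem_sup_right (Subgroup.mem_zpowers z)
  have hKnc : ¬ IsCyclic K := by
    intro hc
    have h2 := CfsgLib.FGS.mem_zpowers_of_orderOf_dvd_of_isCyclic (C := K)
      (u := ⟨z, hzK⟩) (v := ⟨u, huK⟩) (by rw [Subgroup.orderOf_mk, Subgroup.orderOf_mk, hu, hz])
    obtain ⟨k, hk⟩ := h2
    apply hzu
    refine ⟨k, ?_⟩
    exact congrArg Subtype.val hk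
  have hKtop : K = ⊤ := by
    have h2 := hX K hKnc
    rw [eq_top_iff]
    refine le_trans ?_ h2
    intro g _
    rw [Subgroup.mem_centralizer_iff]
    intro h _
    exact mul_comm _ _
  have hdisj : Subgroup.zpowers u ⊓ Subgroup.zpowers z = ⊥ := by
    rw [eq_bot_iff]
    intro g hg
    by_contra hg1
    have hg1' : g ≠ 1 := hg1
    have hzg : Subgroup.zpowers g = Subgroup.zpowers z := by
      apply Subgroup.eq_of_le_of_card_ge (Subgroup.zpowers_le.mpr hg.2)
      rw [Nat.card_zpowers, Nat.card_zpowers, hz]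
      have hgo : orderOf g ∣ p := by
        rw [← hz, ← Nat.card_zpowers z]
        have h3 : g ∈ Subgroup.zpowers z := hg.2
        rw [← Nat.card_zpowers g]
        exact Subgroup.card_dvd_of_le (Subgroup.zpowers_le.mpr h3)
      rcases (Nat.dvd_prime hp).mp hgo with h | h
      · exact absurd (orderOf_eq_one_iff.mp h) hg1'
      · exact h.ge
    apply hzu
    have h3 : z ∈ Subgroup.zpowers g := by rw [hzg]; exact Subgroup.mem_zpowers z
    exact (Subgroup.zpowers_le.mpr hg.1) h3
  have hcard : Nat.card G = p ^ 2 := by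
    have h2 := CfsgLib.PLocal.card_sup_mul_card_inf_of_commute (Subgroup.zpowers u)
      (Subgroup.zpowers z) (fun x _ y _ => mul_comm x y)
    rw [hdisj, Subgroup.card_bot, mul_one, Nat.card_zpowers, Nat.card_zpowers, hu, hz, ← hK, hKtop,
      Subgroup.card_top] at h2
    rw [h2, pow_two]
  have hpow : ∀ g : G, g ^ p = 1 := by
    intro g
    have hle : K ≤ (powMonoidHom p : G →* G).ker := by
      refine sup_le ?_ ?_
      · rw [Subgroup.zpowers_le, MonoidHom.mem_ker, powMonoidHom_apply, ← hu]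
        exact pow_orderOf_eq_one u
      · rw [Subgroup.zpowers_le, MonoidHom.mem_ker, powMonoidHom_apply, ← hz]
        exact pow_orderOf_eq_one z
    have hg : g ∈ K := by rw [hKtop]; exact Subgroup.mem_top g
    simpa [MonoidHom.mem_ker] using hle hg
  haveI : Nontrivial G := by
    refine ⟨⟨u, 1, fun h => ?_⟩⟩
    rw [h, orderOf_one] at hu
    exact hp.one_lt.ne hu
  refine hcon (Or.inr ⟨p, hp, hcard, (Monoid.exponent_eq_prime_iff hp).mpr fun g hg => ?_⟩)
  exact orderOf_eq_prime (hpow g) hg

end Cfsg.Agent.S3917
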