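import Cfsg.Statements.S3918
import Cfsg.Agent.Lib.FGS.Pg
import Cfsg.Agent.Lib.FGS.Subnormal
import Cfsg.Agent.Lib.PLocal.RankTwo

set_option autoImplicit false
open Cfsg

namespace Cfsg.Agent.S3918

/-- Say that a group has self-centralizing non-cyclic subgroups when every non-cyclic subgroup H satisfies C_G(H) ≤ H. For an odd prime p, a finite non-abelian p-group has self-centralizing non-cyclic subgroups if and only if it has order p³. -/
theorem result {G : Type*} [Group G] [Finite G] {p : ℕ} [Fact p.Prime] (hp : p ≠ 2) (hG : IsPGroup p G) (hna : ¬ IsMulCommutative G) :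
    (∀ H : Subgroup G, ¬ IsCyclic ↥H → Subgroup.centralizer (H : Set G) ≤ H) ↔ Nat.card G = p ^ 3 := by
  classical
  have hpp : p.Prime := Fact.out
  haveI := hG.isNilpotent
  have hnc : ¬ IsCyclic G := by
    intro hc
    letI := hc.commGroup
    exact hna ⟨⟨fun a b => mul_comm a b⟩⟩
  constructor
  · intro hself
    have htop : ¬ IsCyclic (⊤ : Subgroup G) := by
      intro hc
      apply hnc
      exact isCyclic_of_surjective (Subgroup.topEquiv (G := G)) (Subgroup.topEquiv (G := G)).surjective
    obtain ⟨A, -, hAn, hAe, hAc⟩ := CfsgLib.PLocal.exists_normal_rank_two hp hG _ ⊤ rfl inferInstance htop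
    have hAnc : ¬ IsCyclic A := by
      intro hc
      obtain ⟨g, hg⟩ := IsCyclic.exists_ofOrder_eq_natCard (α := A)
      have h1 : orderOf g ∣ p := by
        apply orderOf_dvd_of_pow_eq_one
        apply Subtype.ext
        simpa using hAe.2 g.1 g.2
      rw [hg, hAc] at h1
      have := Nat.le_of_dvd hpp.pos h1
      have h2 := hpp.two_le
      nlinarith
    have hle := CfsgLib.FGS.card_le_cube_of_self_centralizing hG A hAc (hself A hAnc)
    obtain ⟨n, hn⟩ := IsPGroup.iff_card.mp hG
    rw [hn] at hle ⊢
    have hn3 : n ≤ 3 := (Nat.pow_le_pow_iff_right hpp.one_lt).mp hle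
    have hn3' : 3 ≤ n := by
      by_contra hlt
      have hnab : IsMulCommutative G := by
        have hn2 : n = 0 ∨ n = 1 ∨ n = 2 := by omega
        rcases hn2 with rfl | rfl | rfl
        · rw [pow_zero] at hn
          haveI : Subsingleton G := (Nat.card_eq_one_iff_unique.mp hn).1
          exact ⟨⟨fun a b => Subsingleton.elim _ _⟩⟩
        · rw [pow_one] at hn
          haveI := isCyclic_of_prime_card hn
          exact absurd this hnc
        · letI := IsPGroup.commGroupOfCardEqPrimeSq hn
          exact ⟨⟨fun a b => mul_comm a b⟩⟩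
      exact hna hnab
    rw [le_antisymm hn3 hn3']
  · intro hcard H hH y hy
    obtain ⟨i, hi⟩ := IsPGroup.iff_card.mp (hG.to_subgroup H)
    have hdv : p ^ i ∣ p ^ 3 := by
      rw [← hi, ← hcard]; exact Subgroup.card_subgroup_dvd_card H
    have hi3 : i ≤ 3 := (Nat.pow_dvd_pow_iff_le_right hpp.one_lt).mp hdv
    have hi' : i = 0 ∨ i = 1 ∨ i = 2 ∨ i = 3 := by omega
    rcases hi' with rfl | rfl | rfl | rfl
    · rw [pow_zero] at hi
      exfalso; apply hH
      rw [Subgroup.card_eq_one.mp hi]
      infer_instance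
    · rw [pow_one] at hi
      exact absurd (isCyclic_of_prime_card hi) hH
    · by_contra hyH
      -- `H` abelian; `⟨H, y⟩` abelian and everything
      letI hcg := IsPGroup.commGroupOfCardEqPrimeSq hi
      have hcomm : ∀ a ∈ (H : Set G) ∪ {y}, ∀ b ∈ (H : Set G) ∪ {y}, a * b = b * a := by
        have hHc : ∀ a ∈ H, ∀ b ∈ H, a * b = b * a := fun a ha b hb =>
          congrArg Subtype.val (hcg.mul_comm ⟨a, ha⟩ ⟨b, hb⟩)
        have hyc : ∀ a ∈ H, a * y = y * a := fun a ha =>
          (Subgroup.mem_centralizer_iff.mp hy a ha)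
        rintro a (ha | rfl) b (hb | rfl)
        · exact hHc a ha b hb
        · exact hyc a ha
        · exact (hyc b hb).symm
        · rfl
      set S := Subgroup.closure ((H : Set G) ∪ {y}) with hS
      have hHS : H ≤ S := le_trans (by
        rw [Subgroup.closure_eq]) (Subgroup.closure_mono (Set.subset_union_left (s := (H : Set G)) (t := {y})))
      have hyS : y ∈ S := Subgroup.subset_closure (Or.inr rfl)
      have hSlt : H < S := lt_of_le_of_ne hHS (fun h => hyH (h ▸ hyS))
      have hScard : p ^ 2 < Nat.card S := by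
        rw [← hi]
        exact CfsgLib.FGS.card_lt_of_lt hSlt
      obtain ⟨j, hj⟩ := IsPGroup.iff_card.mp (hG.to_subgroup S)
      have hdvS : p ^ j ∣ p ^ 3 := by
        rw [← hj, ← hcard]; exact Subgroup.card_subgroup_dvd_card S
      have hj3 : j ≤ 3 := (Nat.pow_dvd_pow_iff_le_right hpp.one_lt).mp hdvS
      rw [hj] at hScard
      have hj2 : 2 < j := (Nat.pow_lt_pow_iff_right hpp.one_lt).mp hScard
      have hj' : j = 3 := by omega
      have htop : S = ⊤ := by
        rw [← Subgroup.card_eq_iff_eq_top, hj, hj', hcard]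
      apply hna
      refine ⟨⟨fun a b => ?_⟩⟩
      have ha : a ∈ S := htop ▸ Subgroup.mem_top a
      have hb : b ∈ S := htop ▸ Subgroup.mem_top b
      exact congrArg Subtype.val ((Subgroup.closureCommGroupOfComm hcomm).mul_comm ⟨a, ha⟩ ⟨b, hb⟩)
    · rw [← hcard] at hi
      have : H = ⊤ := by
        rw [← Subgroup.card_eq_iff_eq_top]
        simpa using hi
      rw [this]
      exact Subgroup.mem_top y

end Cfsg.Agent.S3918
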