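import Cfsg.Statements.S3920
import Cfsg.Agent.Lib.FGS.Basic

set_option autoImplicit false
open Cfsg

namespace Cfsg.Agent.S3920

/-- The subgroup of elements with index divisible by `d`. -/
def subH (n d : ℕ) (hd : d ∣ n) : Subgroup (DihedralGroup n) where
  carrier := {g | match g with
    | DihedralGroup.r i => ZMod.castHom hd (ZMod d) i = 0
    | DihedralGroup.sr i => ZMod.castHom hd (ZMod d) i = 0}
  mul_mem' := by
    rintro (i | i) (j | j) ha hb
    all_goals
      have ha' : ZMod.castHom hd (ZMod d) i = 0 := ha
      have hb' : ZMod.castHom hd (ZMod d) j = 0 := hb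
    · show ZMod.castHom hd (ZMod d) (i + j) = 0
      rw [map_add, ha', hb', add_zero]
    · show ZMod.castHom hd (ZMod d) (j - i) = 0
      rw [map_sub, ha', hb', sub_zero]
    · show ZMod.castHom hd (ZMod d) (i + j) = 0
      rw [map_add, ha', hb', add_zero]
    · show ZMod.castHom hd (ZMod d) (j - i) = 0
      rw [map_sub, ha', hb', sub_zero]
  one_mem' := by
    show ZMod.castHom hd (ZMod d) 0 = 0
    simp
  inv_mem' := by
    rintro (i | i) ha
    · have ha' : ZMod.castHom hd (ZMod d) i = 0 := ha
      show ZMod.castHom hd (ZMod d) (-i) = 0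
      rw [map_neg, ha', neg_zero]
    · exact ha

/-- Uniqueness of the involution in `ZMod (2^k)`. -/
theorem unique_inv (k : ℕ) (u v : ZMod (2 ^ k)) (hu : u ≠ 0) (hv : v ≠ 0) (hu2 : 2 * u = 0)
    (hv2 : 2 * v = 0) : u = v := by
  haveI : NeZero (2 ^ k) := ⟨by positivity⟩
  have key : ∀ w : ZMod (2 ^ k), w ≠ 0 → 2 * w = 0 → 2 * w.val = 2 ^ k := by
    intro w hw hw2
    have h1 : ((2 * w.val : ℕ) : ZMod (2 ^ k)) = 0 := by
      push_cast
      rw [ZMod.natCast_zmod_val]
      exact hw2
    rw [ZMod.natCast_eq_zero_iff] at h1
    obtain ⟨c, hc⟩ := h1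
    have h2 : w.val < 2 ^ k := ZMod.val_lt w
    have h3 : w.val ≠ 0 := by
      intro h
      exact hw ((ZMod.val_eq_zero w).mp h)
    have h4 : 2 ^ k * c < 2 ^ k * 2 := by
      rw [← hc]
      omega
    have h5 : c < 2 := Nat.lt_of_mul_lt_mul_left h4
    have h6 : c ≠ 0 := by
      rintro rfl
      omega
    have h7 : c = 1 := by omega
    rw [hc, h7, mul_one]
  have h1 := key u hu hu2
  have h2 := key v hv hv2
  apply ZMod.val_injective
  omega

/-- A subgroup contained in a cyclic subgroup is cyclic. -/
theorem isCyclic_of_le_zpowers {G : Type*} [Group G] {H : Subgroup G} {x : G}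
    (h : H ≤ Subgroup.zpowers x) : IsCyclic H := by
  haveI : IsCyclic (H.subgroupOf (Subgroup.zpowers x)) := inferInstance
  exact isCyclic_of_injective (Subgroup.subgroupOfEquivOfLe h).symm.toMonoidHom
    (Subgroup.subgroupOfEquivOfLe h).symm.injective


/-- Say that a group has self-centralizing non-cyclic subgroups when every non-cyclic subgroup H satisfies C_G(H) ≤ H. For n ≥ 3, the dihedral group of order 2n has self-centralizing non-cyclic subgroups if and only if n is odd or a power of 2. -/
theorem result (n : ℕ) (hn : 3 ≤ n) : (∀ H : Subgroup (DihedralGroup n), ¬ IsCyclic ↥H → Subgroup.centralizer (H : Set (DihedralGroup n)) ≤ H) ↔ (Odd n ∨ ∃ k : ℕ, n = 2 ^ k) := by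
  classical
  haveI : NeZero n := ⟨by omega⟩
  constructor
  · intro h
    by_contra hcon
    rw [not_or, Nat.not_odd_iff_even] at hcon
    obtain ⟨hev, hnp⟩ := hcon
    obtain ⟨k, m, hm, hnm⟩ := Nat.exists_eq_pow_mul_and_not_dvd (show n ≠ 0 by omega) 2 (by norm_num)
    have hk0 : k ≠ 0 := by
      rintro rfl
      rw [pow_zero, one_mul] at hnm
      rw [hnm] at hev
      exact hm hev.two_dvd
    have hm1 : m ≠ 1 := by
      rintro rfl
      exact hnp ⟨k, by rw [hnm, mul_one]⟩
    have hm3 : 3 ≤ m := by
      have : m ≠ 0 := by
        rintro rfl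
        exact hm (dvd_zero 2)
      have : m ≠ 2 := by
        rintro rfl
        exact hm (dvd_refl 2)
      omega
    obtain ⟨k', rfl⟩ : ∃ k', k = k' + 1 := ⟨k - 1, by omega⟩
    have hd : 2 ^ (k' + 1) ∣ n := ⟨m, hnm⟩
    set H := subH n (2 ^ (k' + 1)) hd with hH
    have hrd : (DihedralGroup.r ((2 ^ (k' + 1) : ℕ) : ZMod n) : DihedralGroup n) ∈ H := by
      show ZMod.castHom hd (ZMod (2 ^ (k' + 1))) ((2 ^ (k' + 1) : ℕ) : ZMod n) = 0
      rw [map_natCast]
      exact ZMod.natCast_self _
    have hs0 : (DihedralGroup.sr 0 : DihedralGroup n) ∈ H := by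
      show ZMod.castHom hd (ZMod (2 ^ (k' + 1))) 0 = 0
      simp
    have hnc : ¬ IsCyclic H := by
      intro hc
      letI := IsCyclic.commGroup (α := H)
      have h1 := mul_comm (⟨_, hrd⟩ : H) ⟨_, hs0⟩
      have h2 : (DihedralGroup.r ((2 ^ (k' + 1) : ℕ) : ZMod n) : DihedralGroup n) *
          DihedralGroup.sr 0 = DihedralGroup.sr 0 * DihedralGroup.r ((2 ^ (k' + 1) : ℕ) : ZMod n) :=
        congrArg Subtype.val h1
      simp only [DihedralGroup.r_mul_sr, DihedralGroup.sr_mul_r] at h2
      have h3 := DihedralGroup.sr.inj h2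
      have h4 : ((2 * 2 ^ (k' + 1) : ℕ) : ZMod n) = 0 := by
        push_cast at h3 ⊢
        linear_combination -h3
      rw [ZMod.natCast_eq_zero_iff, hnm, mul_comm 2] at h4
      have h5 := Nat.dvd_of_mul_dvd_mul_left (by positivity) h4
      have h6 := Nat.le_of_dvd (by norm_num) h5
      omega
    set z : ZMod n := ((2 ^ k' * m : ℕ) : ZMod n) with hz
    have h2z : 2 * z = 0 := by
      have h1 : ((2 * (2 ^ k' * m) : ℕ) : ZMod n) = 0 := by
        rw [ZMod.natCast_eq_zero_iff, hnm, pow_succ]
        exact ⟨1, by ring⟩
      rw [hz]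
      push_cast at h1 ⊢
      exact h1
    have hzC : (DihedralGroup.r z : DihedralGroup n) ∈ Subgroup.centralizer (H : Set (DihedralGroup n)) := by
      rw [Subgroup.mem_centralizer_iff]
      rintro (u | u) _
      · simp only [DihedralGroup.r_mul_r, add_comm]
      · simp only [DihedralGroup.r_mul_sr, DihedralGroup.sr_mul_r]
        congr 1
        linear_combination h2z
    have hzH := h H hnc hzC
    have h1 : ZMod.castHom hd (ZMod (2 ^ (k' + 1))) z = 0 := hzH
    rw [hz, map_natCast, ZMod.natCast_eq_zero_iff, pow_succ] at h1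
    have h2 := Nat.dvd_of_mul_dvd_mul_left (pow_pos two_pos k') h1
    exact hm h2
  · intro hn' H hH
    -- data from non-cyclicity
    have hi : ∃ i : ZMod n, (DihedralGroup.sr i : DihedralGroup n) ∈ H := by
      by_contra hcon
      apply hH
      apply isCyclic_of_le_zpowers (x := (DihedralGroup.r 1 : DihedralGroup n))
      intro g hg
      rcases g with t | t
      · refine Subgroup.mem_zpowers_iff.mpr ⟨(t.val : ℤ), ?_⟩
        rw [DihedralGroup.r_one_zpow]
        simp
      · exact absurd ⟨t, hg⟩ hcon
    obtain ⟨i, hi⟩ := hi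
    have hj : ∃ j : ZMod n, j ≠ 0 ∧ (DihedralGroup.r j : DihedralGroup n) ∈ H := by
      by_contra hcon
      apply hH
      apply isCyclic_of_le_zpowers (x := (DihedralGroup.sr i : DihedralGroup n))
      intro g hg
      rcases g with t | t
      · by_cases ht : t = 0
        · subst ht
          exact Subgroup.one_mem _
        · exact absurd ⟨t, ht, hg⟩ hcon
      · have h1 : (DihedralGroup.sr i : DihedralGroup n) * DihedralGroup.sr t = DihedralGroup.r (t - i) :=
          DihedralGroup.sr_mul_sr _ _
        have h2 : (DihedralGroup.r (t - i) : DihedralGroup n) ∈ H := by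
          rw [← h1]
          exact H.mul_mem hi hg
        have h3 : t = i := by
          by_contra h4
          exact hcon ⟨t - i, sub_ne_zero.mpr h4, h2⟩
        rw [h3]
        exact Subgroup.mem_zpowers _
    obtain ⟨j, hj0, hj⟩ := hj
    intro g hg
    rw [Subgroup.mem_centralizer_iff] at hg
    rcases g with t | t
    · -- a rotation
      have h1 := hg _ hi
      simp only [DihedralGroup.r_mul_sr, DihedralGroup.sr_mul_r] at h1
      have h2 : i + t = i - t := DihedralGroup.sr.inj h1
      have h3 : 2 * t = 0 := by linear_combination h2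
      rcases hn' with ⟨m, hm⟩ | ⟨k, rfl⟩
      · have h8 : ((2 * m + 1 : ℕ) : ZMod n) = 0 := by
          rw [← hm]
          exact ZMod.natCast_self n
        push_cast at h8
        have h9 : t = 0 := by linear_combination t * h8 - (m : ZMod n) * h3
        rw [h9]
        exact Subgroup.one_mem _
      · by_cases ht : t = 0
        · rw [ht]
          exact Subgroup.one_mem _
        · have hr1 : (DihedralGroup.r j : DihedralGroup (2 ^ k)) ≠ 1 := by
            intro h
            rw [DihedralGroup.one_def] at h
            exact hj0 (DihedralGroup.r.inj h)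
          have hord : orderOf (DihedralGroup.r j : DihedralGroup (2 ^ k)) ∣ 2 ^ k := by
            apply orderOf_dvd_of_pow_eq_one
            rw [DihedralGroup.r_pow, DihedralGroup.one_def]
            congr 1
            simp
          obtain ⟨a, _, ha⟩ := (Nat.dvd_prime_pow Nat.prime_two).mp hord
          have ha0 : a ≠ 0 := by
            rintro rfl
            rw [pow_zero] at ha
            exact hr1 (orderOf_eq_one_iff.mp ha)
          obtain ⟨a', rfl⟩ : ∃ a', a = a' + 1 := ⟨a - 1, by omega⟩
          set l := 2 ^ a' with hl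
          have h4 : (DihedralGroup.r j : DihedralGroup (2 ^ k)) ^ l ≠ 1 := by
            apply pow_ne_one_of_lt_orderOf (by positivity)
            rw [ha, pow_succ]
            have : 0 < 2 ^ a' := by positivity
            omega
          have h5 : ((DihedralGroup.r j : DihedralGroup (2 ^ k)) ^ l) ^ 2 = 1 := by
            rw [← pow_mul, hl, ← pow_succ, ← ha]
            exact pow_orderOf_eq_one _
          rw [DihedralGroup.r_pow] at h4 h5
          rw [DihedralGroup.r_pow, DihedralGroup.one_def] at h5
          have h6 := DihedralGroup.r.inj h5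
          have h7 : j * (l : ZMod (2 ^ k)) ≠ 0 := by
            intro h
            apply h4
            rw [h, DihedralGroup.one_def]
          have h8 : 2 * (j * (l : ZMod (2 ^ k))) = 0 := by
            push_cast at h6
            linear_combination h6
          have h9 := unique_inv k t _ ht h7 h3 h8
          rw [h9, ← DihedralGroup.r_pow]
          exact pow_mem hj l
    · -- a reflection
      have h1 := hg _ hj
      simp only [DihedralGroup.r_mul_sr, DihedralGroup.sr_mul_r] at h1
      have h2 : t - j = t + j := DihedralGroup.sr.inj h1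
      have h3 : 2 * j = 0 := by linear_combination -h2
      have h4 := hg _ hi
      simp only [DihedralGroup.sr_mul_sr] at h4
      have h5 : t - i = i - t := DihedralGroup.r.inj h4
      have h6 : 2 * (i - t) = 0 := by linear_combination -h5
      rcases hn' with ⟨m, hm⟩ | ⟨k, rfl⟩
      · exfalso
        have h8 : ((2 * m + 1 : ℕ) : ZMod n) = 0 := by
          rw [← hm]
          exact ZMod.natCast_self n
        push_cast at h8
        apply hj0
        linear_combination j * h8 - (m : ZMod n) * h3
      · by_cases hit : i - t = 0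
        · have : t = i := by linear_combination -hit
          rw [this]
          exact hi
        · have h7 := unique_inv k _ _ hit hj0 h6 h3
          have h8 : (DihedralGroup.sr t : DihedralGroup (2 ^ k)) =
              DihedralGroup.r j * DihedralGroup.sr i := by
            rw [DihedralGroup.r_mul_sr]
            congr 1
            linear_combination -h7
          rw [h8]
          exact H.mul_mem hj hi

end Cfsg.Agent.S3920
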