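import Cfsg.Statements.S3937
import Cfsg.Agent.Lib.FGS.Zip

set_option autoImplicit false
open Cfsg
open scoped commutatorElement
open scoped Pointwise

namespace Cfsg.Agent.S3937

/-- Left-normed Engel words. -/
def h8E {G : Type*} [Group G] (g x : G) : ℕ → G
  | 0 => x
  | n + 1 => h8E g x n * g * (h8E g x n)⁻¹ * g⁻¹

theorem h8_foldl_eq {G : Type*} [Group G] (g x : G) (n : ℕ) :
    (List.replicate n g).foldl (fun a b => a * b * a⁻¹ * b⁻¹) x = h8E g x n := by
  induction n with
  | zero => rfl
  | succ n ih =>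
    rw [List.replicate_succ', List.foldl_append, ih]
    rfl

theorem h8E_conj {G : Type*} [Group G] (g x k : G) (n : ℕ) :
    h8E (k * g * k⁻¹) (k * x * k⁻¹) n = k * h8E g x n * k⁻¹ := by
  induction n with
  | zero => rfl
  | succ n ih =>
    show h8E (k * g * k⁻¹) (k * x * k⁻¹) n * (k * g * k⁻¹) * (h8E (k * g * k⁻¹) (k * x * k⁻¹) n)⁻¹ * (k * g * k⁻¹)⁻¹ =
      k * (h8E g x n * g * (h8E g x n)⁻¹ * g⁻¹) * k⁻¹
    rw [ih]
    group

theorem h8E_coe {G : Type*} [Group G] (Y : Subgroup G) (g x : Y) (n : ℕ) :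
    ((h8E (G := Y) g x n : Y) : G) = h8E (g : G) (x : G) n := by
  induction n with
  | zero => rfl
  | succ n ih =>
    have e : h8E (G := Y) g x (n + 1) = h8E (G := Y) g x n * g * (h8E (G := Y) g x n)⁻¹ * g⁻¹ := rfl
    rw [e]
    simp only [Subgroup.coe_mul, Subgroup.coe_inv, ih]
    rfl

universe u in
theorem h8_main : ∀ (c : ℕ) (G : Type u) [Group G] [Finite G], Nat.card G = c →
    ∀ g : G, (∀ x : G, ∃ n : ℕ, h8E g x n = 1) → (Subgroup.zpowers g).IsSubnormal := by
  intro c
  induction c using Nat.strong_induction_on with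
  | _ c ih =>
    intro G _ _ hc g hg
    by_contra hno
    have step1 : ∀ (Y B : Subgroup G), Y ≠ ⊤ → (∃ k : G, B = MulAut.conj k • Subgroup.zpowers g) → B ≤ Y → (B.subgroupOf Y).IsSubnormal := by
      rintro Y B hY ⟨k, rfl⟩ hBY
      have hkg : k * g * k⁻¹ ∈ Y := by
        apply hBY
        rw [CfsgLib.Solv.mem_conj_smul]
        have : k⁻¹ * (k * g * k⁻¹) * k = g := by group
        rw [this]
        exact Subgroup.mem_zpowers g
      have h1 := ih _ (hc ▸ CfsgLib.SS.card_lt_of_ne_top Y hY) Y rfl ⟨k * g * k⁻¹, hkg⟩ (by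
        intro x
        obtain ⟨n, hn⟩ := hg (k⁻¹ * x * k)
        refine ⟨n, ?_⟩
        apply Subtype.ext
        rw [h8E_coe]
        have h2 := h8E_conj g (k⁻¹ * x * k) k n
        have e : k * (k⁻¹ * (x : G) * k) * k⁻¹ = x := by group
        rw [e, hn] at h2
        simpa using h2)
      convert h1 using 1
      ext y
      rw [Subgroup.mem_subgroupOf, CfsgLib.Solv.mem_conj_smul]
      constructor
      · rintro ⟨j, hj⟩
        refine ⟨j, ?_⟩
        apply Subtype.ext
        have hj' : g ^ j = k⁻¹ * (y : G) * k := hj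
        show (((⟨k * g * k⁻¹, hkg⟩ : Y) ^ j : Y) : G) = (y : G)
        simp only [Subgroup.coe_zpow]
        rw [conj_zpow, hj']
        group
      · rintro ⟨j, hj⟩
        refine ⟨j, ?_⟩
        have h3 := congrArg Subtype.val hj
        simp only [Subgroup.coe_zpow] at h3
        show g ^ j = k⁻¹ * y * k
        rw [← h3, conj_zpow]
        group
    obtain ⟨M, hM, hAM, hgreat⟩ := CfsgLib.FGS.zipper_unique_max _ hno step1
    have hgM : g ∈ M := hAM (Subgroup.mem_zpowers g)
    have hsn : ((Subgroup.zpowers g).subgroupOf M).IsSubnormal :=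
      step1 M _ hM ⟨1, (CfsgLib.Solv.conj_one_smul _).symm⟩ hAM
    apply hM
    rw [eq_top_iff]
    intro x _
    by_contra hxM
    obtain ⟨n, hn⟩ := hg x
    -- the last term outside `M`
    have hex : ∃ m : ℕ, h8E g x m ∈ M := ⟨n, by rw [hn]; exact M.one_mem⟩
    classical
    have hm := Nat.find_spec hex
    have hm0 : Nat.find hex ≠ 0 := by
      intro h0
      rw [h0] at hm
      exact hxM hm
    obtain ⟨m, hm'⟩ := Nat.exists_eq_succ_of_ne_zero hm0
    have hy : h8E g x m ∉ M := Nat.find_min hex (by omega)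
    rw [hm'] at hm
    have hm2 : h8E g x m * g * (h8E g x m)⁻¹ * g⁻¹ ∈ M := hm
    have hm3 : h8E g x m * g * (h8E g x m)⁻¹ ∈ M := by
      have := M.mul_mem hm2 hgM
      simpa using this
    apply hy
    apply CfsgLib.FGS.zipper_mem_of_conj_le hno hM hAM hgreat hsn
    rintro _ ⟨j, rfl⟩
    simp only
    rw [← conj_zpow]
    exact M.zpow_mem hm3 j


/-- Baer's characterization of the Fitting subgroup: in a finite group G, an element g lies in the Fitting subgroup if and only if g is a left Engel element, that is, for every x there is n with [x, g, g, …, g] = 1 (n entries g, [a, b] = aba⁻¹b⁻¹). -/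
theorem result {G : Type*} [Group G] [Finite G] (g : G) :
    g ∈ Cfsg.fittingSubgroup G ↔ ∀ x : G, ∃ n : ℕ, (List.replicate n g).foldl (fun a b => a * b * a⁻¹ * b⁻¹) x = 1 := by
  classical
  constructor
  · intro hg x
    haveI hn : (Cfsg.fittingSubgroup G).Normal := CfsgLib.Solv.fittingSubgroup_normal'
    haveI hnil : Group.IsNilpotent (Cfsg.fittingSubgroup G) := CfsgLib.Solv.fitting_nilpotent
    obtain ⟨N, hN⟩ := (Subgroup.isNilpotent_iff_lowerCentralSeries _).1 hnil
    have h1 : ∀ k : ℕ, h8E g x (k + 1) ∈ (Cfsg.fittingSubgroup G).lowerCentralSeries k := by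
      intro k
      induction k with
      | zero =>
        have h2 := hn.conj_mem g hg x
        exact (Cfsg.fittingSubgroup G).mul_mem h2 ((Cfsg.fittingSubgroup G).inv_mem hg)
      | succ k ih =>
        have h3 := Subgroup.commutator_mem_commutator ih hg
        rw [commutatorElement_def] at h3
        exact h3
    have h4 := h1 N
    rw [hN, Subgroup.mem_bot] at h4
    refine ⟨N + 1, ?_⟩
    rw [h8_foldl_eq, h4]
  · intro h
    have hsn := h8_main _ G rfl g (by
      intro x
      obtain ⟨n, hn⟩ := h x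
      exact ⟨n, by rw [← h8_foldl_eq]; exact hn⟩)
    haveI : IsMulCommutative (Subgroup.zpowers g) := Subgroup.zpowers_isMulCommutative g
    have hnil : Group.IsNilpotent (Subgroup.zpowers g) := by
      letI : CommGroup (Subgroup.zpowers g) := { (inferInstance : Group (Subgroup.zpowers g)) with mul_comm := fun a b => IsMulCommutative.is_comm.comm a b }
      exact CommGroup.isNilpotent
    exact CfsgLib.SS.le_fitting_of_subnormal_nilpotent hsn hnil (Subgroup.mem_zpowers g)

end Cfsg.Agent.S3937
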