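import Cfsg.Statements.S3939
import Cfsg.Agent.Lib.FGS.Cyc
import Cfsg.Agent.Lib.FGS.Syl
import Cfsg.Agent.Lib.FGS.Basic
import Cfsg.Agent.Lib.H3.BaerSuzuki
import Cfsg.Agent.Lib.Solv.Nilp
import Cfsg.Agent.Lib.SS.Split

set_option autoImplicit false
open Cfsg
open scoped commutatorElement
open scoped Pointwise

namespace Cfsg.Agent.S3939

theorem h8_pg {G : Type*} [Group G] [Finite G] (p : ℕ) [Fact p.Prime] (u : G) (k : ℕ)
    (hu : orderOf u = p ^ k) : IsPGroup p (Subgroup.zpowers u) :=
  IsPGroup.of_card (n := k) (by rw [Nat.card_zpowers, hu])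

/-- Two `p`-elements generating a nilpotent group generate a `p`-group. -/
theorem h8_pair {G : Type*} [Group G] [Finite G] (p : ℕ) [Fact p.Prime] (u v : G)
    (hu : ∃ k : ℕ, orderOf u = p ^ k) (hv : ∃ k : ℕ, orderOf v = p ^ k)
    (hn : Group.IsNilpotent (Subgroup.closure ({u, v} : Set G))) :
    IsPGroup p (Subgroup.closure ({u, v} : Set G)) := by
  classical
  obtain ⟨P⟩ : Nonempty (Sylow p (Subgroup.closure ({u, v} : Set G))) := inferInstance
  have hPn : (P : Subgroup ↥(Subgroup.closure ({u, v} : Set G))).Normal := inferInstance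
  have key : ∀ w : (Subgroup.closure ({u, v} : Set G)), (∃ k : ℕ, orderOf (w : G) = p ^ k) → w ∈ P := by
    rintro w ⟨k, hk⟩
    have h1 : IsPGroup p (Subgroup.zpowers w) := h8_pg p w k (by rw [← Subgroup.orderOf_coe, hk])
    exact (CfsgLib.FGS.le_of_normal_sylow P hPn h1) (Subgroup.mem_zpowers w)
  have hu' : u ∈ Subgroup.closure ({u, v} : Set G) := Subgroup.subset_closure (by simp)
  have hv' : v ∈ Subgroup.closure ({u, v} : Set G) := Subgroup.subset_closure (by simp)
  have htop : (P : Subgroup ↥(Subgroup.closure ({u, v} : Set G))) = ⊤ := by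
    rw [eq_top_iff]
    rintro ⟨w, hw⟩ -
    have h2 : (Subgroup.closure ({u, v} : Set G)) ≤ (P : Subgroup ↥(Subgroup.closure ({u, v} : Set G))).map (Subgroup.subtype _) := by
      rw [Subgroup.closure_le]
      rintro a (rfl | rfl)
      · exact ⟨⟨_, hu'⟩, key ⟨_, hu'⟩ hu, rfl⟩
      · exact ⟨⟨_, hv'⟩, key ⟨_, hv'⟩ hv, rfl⟩
    obtain ⟨y, hy, hye⟩ := h2 hw
    have : y = ⟨w, hw⟩ := Subtype.ext hye
    rw [← this]
    exact hy
  intro w
  have := P.isPGroup' ⟨w, by rw [htop]; trivial⟩
  obtain ⟨k, hk⟩ := this
  exact ⟨k, congrArg Subtype.val hk⟩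

theorem h8_key {G : Type*} [Group G] [Finite G] (hz : Subgroup.center G = ⊥) (g : G)
    (hg : ∀ x : G, Group.IsNilpotent (Subgroup.closure ({x, g} : Set G))) : g = 1 := by
  classical
  by_contra hne
  have h1 : orderOf g ≠ 1 := by rwa [Ne, orderOf_eq_one_iff]
  obtain ⟨p, hp, hpd⟩ := Nat.exists_prime_and_dvd h1
  haveI := Fact.mk hp
  obtain ⟨s, t, hs, ht, hgst, -, ⟨k, hk⟩, hcop⟩ := CfsgLib.FGS.exists_primary_decomp p hp g
  have hs1 : s ≠ 1 := by
    rintro rfl
    rw [one_mul] at hgst
    rw [hgst] at hpd
    have h2 := Nat.dvd_gcd hpd (dvd_refl p)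
    rw [Nat.Coprime.gcd_eq_one hcop] at h2
    exact hp.one_lt.ne' (Nat.dvd_one.1 h2)
  have hns : ∀ x : G, Group.IsNilpotent (Subgroup.closure ({x, s} : Set G)) := by
    intro x
    have hle : Subgroup.closure ({x, s} : Set G) ≤ Subgroup.closure ({x, g} : Set G) := by
      rw [Subgroup.closure_le]
      rintro a (rfl | rfl)
      · exact Subgroup.subset_closure (by simp)
      · have : Subgroup.zpowers g ≤ Subgroup.closure ({x, g} : Set G) := by
          rw [Subgroup.zpowers_le]
          exact Subgroup.subset_closure (by simp)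
        exact this hs
    haveI := hg x
    exact Subgroup.isNilpotent_of_ker_le_center (Subgroup.inclusion hle) (by rw [(MonoidHom.ker_eq_bot_iff _).2 (Subgroup.inclusion_injective hle)]; exact bot_le)
  -- `s` commutes with all `p'`-elements
  have hcomm : ∀ y : G, Nat.Coprime (orderOf y) p → y * s = s * y := by
    intro y hy
    have hy' : y ∈ Subgroup.closure ({y, s} : Set G) := Subgroup.subset_closure (by simp)
    have hs' : s ∈ Subgroup.closure ({y, s} : Set G) := Subgroup.subset_closure (by simp)
    haveI := hns y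
    have := CfsgLib.FGS.commute_of_coprime_of_nilpotent _ (Subgroup.closure ({y, s} : Set G)) rfl
      ⟨y, hy'⟩ ⟨s, hs'⟩ (by
        rw [Subgroup.orderOf_mk, Subgroup.orderOf_mk, hk]
        exact Nat.Coprime.pow_right _ hy)
    exact congrArg Subtype.val this
  -- conjugates of `s`
  have hconj : ∀ a : G, orderOf (a * s * a⁻¹) = p ^ k := by
    intro a
    rw [← hk]
    exact CfsgLib.FGS.orderOf_conj_eq s a
  set N : Subgroup G := Subgroup.closure (Group.conjugatesOfSet ({s} : Set G)) with hN
  have hcs : ∀ u ∈ Group.conjugatesOfSet ({s} : Set G), ∃ a : G, u = a * s * a⁻¹ := by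
    intro u hu
    rw [Group.mem_conjugatesOfSet_iff] at hu
    obtain ⟨b, hb, hbu⟩ := hu
    rw [Set.mem_singleton_iff] at hb
    subst hb
    obtain ⟨c, hc⟩ := isConj_iff.1 hbu
    exact ⟨c, hc.symm⟩
  have hNn : N.Normal := Subgroup.normalClosure_normal
  have hNp : IsPGroup p N := by
    apply CfsgLib.BS.baer_suzuki_set _ G _ rfl
    · intro a u hu
      exact Group.conj_mem_conjugatesOfSet hu
    · intro u hu v hv
      obtain ⟨a, rfl⟩ := hcs u hu
      obtain ⟨b, rfl⟩ := hcs v hv
      apply h8_pair p _ _ ⟨k, hconj a⟩ ⟨k, hconj b⟩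
      have h2 := hns (a⁻¹ * (b * s * b⁻¹) * a)
      have h3 : Group.IsNilpotent ((Subgroup.closure ({a⁻¹ * (b * s * b⁻¹) * a, s} : Set G)).map (MulAut.conj a).toMonoidHom) :=
        Group.nilpotent_of_surjective (((MulAut.conj a).toMonoidHom).subgroupMap _) (((MulAut.conj a).toMonoidHom).subgroupMap_surjective _)
      rw [MonoidHom.map_closure, Set.image_pair] at h3
      have e1 : (MulAut.conj a).toMonoidHom (a⁻¹ * (b * s * b⁻¹) * a) = b * s * b⁻¹ := by
        simp [MulAut.conj_apply, mul_assoc]
      have e2 : (MulAut.conj a).toMonoidHom s = a * s * a⁻¹ := rfl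
      rw [e1, e2, Set.pair_comm] at h3
      exact h3
  have hsN : s ∈ N := Subgroup.subset_closure (Group.subset_conjugatesOfSet rfl)
  obtain ⟨P, hNP⟩ := hNp.exists_le_sylow
  haveI : Group.IsNilpotent (P : Subgroup G) := P.isPGroup'.isNilpotent
  haveI hNn' : (N.subgroupOf (P : Subgroup G)).Normal := inferInstance
  have hne2 : N.subgroupOf (P : Subgroup G) ≠ ⊥ := by
    rw [Subgroup.ne_bot_iff_exists_ne_one]
    refine ⟨⟨⟨s, hNP hsN⟩, Subgroup.mem_subgroupOf.2 hsN⟩, ?_⟩
    intro h
    apply hs1
    have := congrArg (fun w => ((w : N.subgroupOf (P : Subgroup G)) : (P : Subgroup G))) h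
    exact congrArg Subtype.val this
  have hne3 := CfsgLib.Solv.normal_inf_center_ne_bot _ hne2
  obtain ⟨⟨z, hzm⟩, hz1⟩ := (Subgroup.ne_bot_iff_exists_ne_one).1 hne3
  obtain ⟨hzN, hzc⟩ := Subgroup.mem_inf.1 hzm
  have hzNG : (z : G) ∈ N := Subgroup.mem_subgroupOf.1 hzN
  have hzne : (z : G) ≠ 1 := by
    intro h
    apply hz1
    apply Subtype.ext
    exact Subtype.ext h
  have hcom2 : ∀ w ∈ N, ∀ y : G, Nat.Coprime (orderOf y) p → y * w = w * y := by
    intro w hw y hy
    induction hw using Subgroup.closure_induction with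
    | mem w hw =>
      obtain ⟨a, rfl⟩ := hcs w hw
      have h2 := hcomm (a⁻¹ * y * a) (by
        have := CfsgLib.FGS.orderOf_conj_eq y a⁻¹
        rw [inv_inv] at this
        rw [this]
        exact hy)
      calc y * (a * s * a⁻¹) = a * ((a⁻¹ * y * a) * s) * a⁻¹ := by group
        _ = a * (s * (a⁻¹ * y * a)) * a⁻¹ := by rw [h2]
        _ = (a * s * a⁻¹) * y := by group
    | one => simp
    | mul a b _ _ ha hb => rw [← mul_assoc, ha, mul_assoc, hb, mul_assoc]
    | inv a _ ha =>
      rw [eq_inv_mul_iff_mul_eq, ← mul_assoc, ← ha, mul_assoc, mul_inv_cancel, mul_one]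
  have hKz : pResidual p G ≤ Subgroup.centralizer ({(z : G)} : Set G) := by
    rw [pResidual, Subgroup.closure_le]
    intro y hy
    show y ∈ Subgroup.centralizer ({(z : G)} : Set G)
    rw [Subgroup.mem_centralizer_singleton_iff]
    exact hcom2 _ hzNG y hy
  have hPz : (P : Subgroup G) ≤ Subgroup.centralizer ({(z : G)} : Set G) := by
    intro y hy
    rw [Subgroup.mem_centralizer_singleton_iff]
    have := (Subgroup.mem_center_iff.1 hzc) ⟨y, hy⟩
    exact congrArg Subtype.val this
  have htop : pResidual p G ⊔ (P : Subgroup G) = ⊤ := by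
    obtain ⟨a, ha⟩ := CfsgLib.SS.index_pResidual (G := G) (p := p)
    have h5 : (pResidual p G ⊔ (P : Subgroup G)).index ∣ p ^ a := ha ▸ Subgroup.index_dvd_of_le le_sup_left
    have h6 : (pResidual p G ⊔ (P : Subgroup G)).index ∣ (P : Subgroup G).index := Subgroup.index_dvd_of_le le_sup_right
    obtain ⟨i, -, hi⟩ := (Nat.dvd_prime_pow hp).1 h5
    have h7 : i = 0 := by
      by_contra h0
      apply P.not_dvd_index
      rw [hi] at h6
      exact (dvd_pow_self p h0).trans h6
    rw [h7, pow_zero] at hi
    exact Subgroup.index_eq_one.1 hi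
  apply hzne
  have hzcen : (z : G) ∈ Subgroup.center G := by
    rw [Subgroup.mem_center_iff]
    intro y
    have : y ∈ pResidual p G ⊔ (P : Subgroup G) := by rw [htop]; trivial
    have h8 := (sup_le hKz hPz) this
    exact Subgroup.mem_centralizer_singleton_iff.1 h8
  rw [hz, Subgroup.mem_bot] at hzcen
  exact hzcen

universe u in
theorem h8_main : ∀ (c : ℕ) (G : Type u) [Group G] [Finite G], Nat.card G = c →
    ∀ g : G, (∀ x : G, Group.IsNilpotent (Subgroup.closure ({x, g} : Set G))) →
      ∃ n : ℕ, g ∈ Subgroup.upperCentralSeries G n := by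
  intro c
  induction c using Nat.strong_induction_on with
  | _ c ih =>
    intro G _ _ hc g hg
    by_cases hz : Subgroup.center G = ⊥
    · refine ⟨0, ?_⟩
      rw [h8_key hz g hg]
      exact Subgroup.one_mem _
    · have hlt : Nat.card (G ⧸ Subgroup.center G) < c := by
        rw [← hc, Subgroup.card_eq_card_quotient_mul_card_subgroup (Subgroup.center G)]
        have h1 : 1 < Nat.card (Subgroup.center G) := (Subgroup.one_lt_card_iff_ne_bot _).2 hz
        have h2 : 0 < Nat.card (G ⧸ Subgroup.center G) := Nat.card_pos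
        nlinarith
      obtain ⟨n, hn⟩ := ih _ hlt (G ⧸ Subgroup.center G) rfl (QuotientGroup.mk' _ g) (by
        intro y
        obtain ⟨x, rfl⟩ := QuotientGroup.mk'_surjective _ y
        haveI := hg x
        have h3 : Group.IsNilpotent ((Subgroup.closure ({x, g} : Set G)).map (QuotientGroup.mk' (Subgroup.center G))) :=
          Group.nilpotent_of_surjective ((QuotientGroup.mk' _).subgroupMap _) ((QuotientGroup.mk' _).subgroupMap_surjective _)
        rw [MonoidHom.map_closure, Set.image_pair] at h3
        exact h3)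
      refine ⟨n + 1, ?_⟩
      rw [← Subgroup.comap_upperCentralSeries_quotient_center]
      exact hn


/-- In a finite group G the set of elements g such that the subgroup generated by g and x is nilpotent for every x ∈ G is exactly the hypercenter of G (the last term of the upper central series). -/
theorem result {G : Type*} [Group G] [Finite G] (g : G) :
    (∀ x : G, Group.IsNilpotent ↥(Subgroup.closure ({x, g} : Set G))) ↔ g ∈ ⨆ n : ℕ, Subgroup.upperCentralSeries G n := by
  classical
  constructor
  · intro h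
    obtain ⟨n, hn⟩ := h8_main _ G rfl g h
    exact Subgroup.mem_iSup_of_mem n hn
  · intro h x
    have hdir : Directed (· ≤ ·) (Subgroup.upperCentralSeries G) :=
      (Subgroup.upperCentralSeries_mono (G := G)).directed_le
    obtain ⟨n, hn⟩ := (Subgroup.mem_iSup_of_directed hdir).1 h
    set H := Subgroup.closure ({x, g} : Set G) with hH
    rw [Subgroup.nilpotent_iff_finite_ascending_central_series]
    refine ⟨n + 1, fun k => if k ≤ n then (Subgroup.upperCentralSeries G k).subgroupOf H else ⊤, ⟨?_, ?_⟩, by simp⟩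
    · simp [Subgroup.upperCentralSeries_zero]
    · intro a m ha b
      by_cases hm : m + 1 ≤ n
      · have h1 : m ≤ n := by omega
        simp only [hm, h1, if_true] at ha ⊢
        rw [Subgroup.mem_subgroupOf] at ha ⊢
        have := Subgroup.mem_upperCentralSeries_succ_iff.1 ha (b : G)
        exact this
      · by_cases h1 : m ≤ n
        · have hmn : m = n := by omega
          subst hmn
          simp only [le_refl, if_true]
          rw [Subgroup.mem_subgroupOf]
          set π := QuotientGroup.mk' (Subgroup.upperCentralSeries G m) with hπ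
          have h2 : ∀ w ∈ H, π w ∈ Subgroup.zpowers (π x) := by
            intro w hw
            induction hw using Subgroup.closure_induction with
            | mem w hw =>
              rcases hw with rfl | rfl
              · exact Subgroup.mem_zpowers _
              · have : π w = 1 := (QuotientGroup.eq_one_iff _).2 hn
                rw [this]
                exact Subgroup.one_mem _
            | one => simp
            | mul a b _ _ ha hb =>
              rw [map_mul]
              exact Subgroup.mul_mem _ ha hb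
            | inv a _ ha =>
              rw [map_inv]
              exact Subgroup.inv_mem _ ha
          obtain ⟨i, hi⟩ := h2 a a.2
          obtain ⟨j, hj⟩ := h2 b b.2
          have h3 : π ((a : G) * b * (a : G)⁻¹ * (b : G)⁻¹) = 1 := by
            simp only [map_mul, map_inv]
            simp only at hi hj
            rw [← hi, ← hj]
            rw [← zpow_neg, ← zpow_neg, ← zpow_add, ← zpow_add, ← zpow_add]
            have : i + j + -i + -j = 0 := by ring
            rw [this, zpow_zero]
          exact (QuotientGroup.eq_one_iff _).1 h3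
        · simp [h1]

end Cfsg.Agent.S3939
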