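import Cfsg.Statements.S3941
import Cfsg.Agent.Lib.FGS.Syl

set_option autoImplicit false
open Cfsg

namespace Cfsg.Agent.S3941

/-- Let n ≥ 5 and p an odd prime with p ≤ n, and suppose that every proper subgroup of the alternating group of degree n whose order is divisible by p has a normal Sylow p-subgroup. Then n = p. -/
theorem result (n p : ℕ) (hn : 5 ≤ n) [Fact p.Prime] (hp : p ≠ 2) (hpn : p ≤ n)
    (h : ∀ H : Subgroup ↥(alternatingGroup (Fin n)), H ≠ ⊤ → p ∣ Nat.card ↥H → Cfsg.IsPClosed p ↥H) : n = p := by
  have hpp : p.Prime := Fact.out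
  by_contra hne
  have hlt : p < n := lt_of_le_of_ne hpn (Ne.symm hne)
  have hfive : n = 5 ∨ 6 ≤ n := by omega
  rcases hfive with rfl | h6
  · -- `n = 5`, `p = 3`
    have hp3 : p = 3 := by
      have h4 : p ≤ 4 := by omega
      have h0 := hpp.two_le
      have h5 : p = 2 ∨ p = 3 ∨ p = 4 := by omega
      rcases h5 with h | h | h
      · exact absurd h hp
      · exact h
      · rw [h] at hpp
        exact absurd hpp (by norm_num)
    subst hp3
    let x : alternatingGroup (Fin 5) := ⟨Equiv.swap 0 1 * Equiv.swap 1 2, Equiv.Perm.mem_alternatingGroup.mpr (by decide)⟩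
    let y : alternatingGroup (Fin 5) := ⟨Equiv.swap 1 2 * Equiv.swap 2 3, Equiv.Perm.mem_alternatingGroup.mpr (by decide)⟩
    let H : Subgroup (alternatingGroup (Fin 5)) := MulAction.stabilizer (alternatingGroup (Fin 5)) (4 : Fin 5)
    have hxH : x ∈ H := by
      rw [MulAction.mem_stabilizer_iff]
      decide
    have hyH : y ∈ H := by
      rw [MulAction.mem_stabilizer_iff]
      decide
    have hHtop : H ≠ ⊤ := by
      intro h
      let z : alternatingGroup (Fin 5) := ⟨Equiv.swap 3 4 * Equiv.swap 0 1, Equiv.Perm.mem_alternatingGroup.mpr (by decide)⟩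
      have hz : z ∈ H := by rw [h]; exact Subgroup.mem_top z
      rw [MulAction.mem_stabilizer_iff] at hz
      exact absurd hz (by decide)
    have hox : orderOf x = 3 := by
      haveI : Fact (Nat.Prime 3) := ⟨hpp⟩
      apply orderOf_eq_prime
      · decide
      · decide
    have hoy : orderOf y = 3 := by
      haveI : Fact (Nat.Prime 3) := ⟨hpp⟩
      apply orderOf_eq_prime
      · decide
      · decide
    have hoxy : orderOf (x * y) = 2 := by
      haveI : Fact (Nat.Prime 2) := ⟨Nat.prime_two⟩
      apply orderOf_eq_prime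
      · decide
      · decide
    have hdvd : 3 ∣ Nat.card H := by
      rw [← hox]
      exact Subgroup.orderOf_dvd_natCard H hxH
    have hcl := h H hHtop hdvd
    let T : Sylow 3 H := default
    have hTn := hcl T
    have hmem : ∀ w : H, orderOf w = 3 → w ∈ (T : Subgroup H) := by
      intro w hw
      have hq : IsPGroup 3 (Subgroup.zpowers w) := by
        apply IsPGroup.of_card (n := 1)
        rw [Nat.card_zpowers, hw, pow_one]
      exact CfsgLib.FGS.le_of_normal_sylow T hTn hq (Subgroup.mem_zpowers w)
    have h1 := hmem ⟨x, hxH⟩ (by rwa [Subgroup.orderOf_mk])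
    have h2 := hmem ⟨y, hyH⟩ (by rwa [Subgroup.orderOf_mk])
    have h3 := (T : Subgroup H).mul_mem h1 h2
    obtain ⟨k, hk⟩ := (IsPGroup.iff_orderOf.mp T.isPGroup') ⟨_, h3⟩
    rw [Subgroup.orderOf_mk] at hk
    have h4 : orderOf (x * y) = 3 ^ k := by
      rw [← hk]
      have : ((⟨x, hxH⟩ : H) * ⟨y, hyH⟩ : H) = ⟨x * y, H.mul_mem hxH hyH⟩ := rfl
      rw [this]
      exact (Subgroup.orderOf_mk (x * y) _).symm
    rw [hoxy] at h4
    have h5 : 3 ∣ 2 := by
      have hk0 : k ≠ 0 := by
        rintro rfl
        simp at h4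
      rw [h4]
      exact dvd_pow_self 3 hk0
    omega
  · classical
    let a : Fin n := ⟨0, by omega⟩
    let s : Finset (Fin n) := Finset.univ.erase a
    have hscard : Nat.card s = n - 1 := by
      rw [Nat.card_eq_fintype_card, Fintype.card_coe, Finset.card_erase_of_mem (Finset.mem_univ a),
        Finset.card_univ, Fintype.card_fin]
    have h5s : 5 ≤ Nat.card s := by omega
    haveI hsimple := alternatingGroup.isSimpleGroup (α := s) h5s
    haveI hnt : Nontrivial s := by
      apply Finite.one_lt_card_iff_nontrivial.mp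
      omega
    let φ := alternatingGroup.ofSubtype s
    have hφ : Function.Injective φ := alternatingGroup.ofSubtype_injective
    let H := φ.range
    let e := MonoidHom.ofInjective hφ
    have hcard : 2 * Nat.card H = (n - 1).factorial := by
      rw [Nat.card_congr e.symm.toEquiv, two_mul_nat_card_alternatingGroup,
        Nat.card_eq_fintype_card (α := Equiv.Perm s), Fintype.card_perm, ← Nat.card_eq_fintype_card, hscard]
    haveI hnt2 : Nontrivial (Fin n) := by
      apply Finite.one_lt_card_iff_nontrivial.mp
      rw [Nat.card_eq_fintype_card, Fintype.card_fin]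
      omega
    have hcardn : 2 * Nat.card (alternatingGroup (Fin n)) = n.factorial := by
      rw [two_mul_nat_card_alternatingGroup,
        Nat.card_eq_fintype_card (α := Equiv.Perm (Fin n)), Fintype.card_perm, Fintype.card_fin]
    have hHtop : H ≠ ⊤ := by
      intro h
      have h1 : Nat.card H = Nat.card (alternatingGroup (Fin n)) := by rw [h, Subgroup.card_top]
      rw [h1, hcardn] at hcard
      obtain ⟨m, rfl⟩ : ∃ m, n = m + 1 := ⟨n - 1, by omega⟩
      rw [Nat.factorial_succ, Nat.add_sub_cancel] at hcard
      have := Nat.factorial_pos m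
      nlinarith
    have hdvdpr : ∀ q : ℕ, q.Prime → q ≠ 2 → q ≤ n - 1 → q ∣ Nat.card H := by
      intro q hq hq2 hqn
      have h1 : q ∣ (n - 1).factorial := (Nat.Prime.dvd_factorial hq).mpr hqn
      rw [← hcard] at h1
      exact Nat.Coprime.dvd_of_dvd_mul_left ((Nat.coprime_primes hq Nat.prime_two).mpr hq2) h1
    have hdvd := hdvdpr p hpp hp (by omega)
    have hcl := h H hHtop hdvd
    let T : Sylow p H := default
    haveI hTn := hcl T
    let U : Subgroup (alternatingGroup s) := (T : Subgroup H).comap e.toMonoidHom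
    haveI hUn : U.Normal := Subgroup.Normal.comap hTn _
    rcases hsimple.eq_bot_or_eq_top_of_normal U hUn with hU | hU
    · have hTbot : (T : Subgroup H) = ⊥ := by
        rw [eq_bot_iff]
        intro w hw
        obtain ⟨v, rfl⟩ := e.surjective w
        have hv : v ∈ U := hw
        rw [hU] at hv
        rw [Subgroup.mem_bot.mp hv]
        simp
      exact T.ne_bot_of_dvd_card hdvd hTbot
    · have hTtop : (T : Subgroup H) = ⊤ := by
        rw [eq_top_iff]
        intro w _
        obtain ⟨v, rfl⟩ := e.surjective w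
        have hv : v ∈ U := by rw [hU]; exact Subgroup.mem_top v
        exact hv
      have hk : ∃ k, Nat.card H = p ^ k := by
        obtain ⟨k, hk⟩ := IsPGroup.iff_card.mp T.isPGroup'
        rw [hTtop, Subgroup.card_top] at hk
        exact ⟨k, hk⟩
      obtain ⟨k, hk⟩ := hk
      have h3 := hdvdpr 3 Nat.prime_three (by norm_num) (by omega)
      have h5 := hdvdpr 5 Nat.prime_five (by norm_num) (by omega)
      rw [hk] at h3 h5
      have hp3 := (Nat.prime_dvd_prime_iff_eq Nat.prime_three hpp).mp (Nat.Prime.dvd_of_dvd_pow Nat.prime_three h3)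
      have hp5 := (Nat.prime_dvd_prime_iff_eq Nat.prime_five hpp).mp (Nat.Prime.dvd_of_dvd_pow Nat.prime_five h5)
      omega

end Cfsg.Agent.S3941
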