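import Cfsg.Statements.S3946
import Mathlib
import Cfsg.Agent.Lib.Hughes.Main
-- import your own Cfsg.Agent.* helpers here

set_option autoImplicit false
open Cfsg

namespace Cfsg.Agent.S3946

universe u

theorem semidirect_pow {G : Type*} [Group G] (A : Subgroup (MulAut G)) (x : G ⋊[A.subtype] A) (n : ℕ) :
    (x ^ n).right = x.right ^ n ∧
    (x ^ n).left = ((List.range n).map (fun i : ℕ => (((x.right : A) : MulAut G) ^ i) x.left)).prod := by
  induction n with
  | zero => simp
  | succ n ih =>
    obtain ⟨h1, h2⟩ := ih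
    constructor
    · rw [pow_succ, SemidirectProduct.mul_right, h1, pow_succ]
    · rw [pow_succ, SemidirectProduct.mul_left, h1, h2, List.range_succ, List.map_append, List.prod_append]
      simp

theorem kegel_aux {G : Type u} [Group G] [Finite G] (α : MulAut G) (hp : (orderOf α).Prime)
    (hsplit : ∀ x : G, (((List.range (orderOf α)).map (fun i : ℕ => (α ^ i) x)).prod = 1)) :
    Group.IsNilpotent G := by
  classical
  set p := orderOf α with hpdef
  haveI hfp : Fact p.Prime := ⟨hp⟩
  let A : Subgroup (MulAut G) := Subgroup.zpowers α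
  let aa : A := ⟨α, Subgroup.mem_zpowers α⟩
  have haa : aa ^ p = 1 := by
    apply Subtype.ext
    show α ^ p = 1
    exact pow_orderOf_eq_one α
  let Γ := G ⋊[A.subtype] A
  let ι : G →* Γ := SemidirectProduct.inl
  have hι : Function.Injective ι := SemidirectProduct.inl_injective
  have hx1 : ∀ g : G, ((⟨g, aa⟩ : Γ)) ^ p = 1 := by
    intro g
    obtain ⟨h1, h2⟩ := semidirect_pow A (⟨g, aa⟩ : Γ) p
    apply SemidirectProduct.ext
    · rw [h2]
      exact hsplit g
    · rw [h1]
      exact haa
  let H : Subgroup Γ := ι.range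
  haveI hHn : H.Normal := by
    have : H = (SemidirectProduct.rightHom : Γ →* A).ker := SemidirectProduct.range_inl_eq_ker_rightHom
    rw [this]
    exact MonoidHom.normal_ker _
  have hout : ∀ y : Γ, y ∉ H → y ^ p = 1 := by
    intro y hy
    have hr : y.right ≠ 1 := by
      intro h
      apply hy
      refine ⟨y.left, ?_⟩
      apply SemidirectProduct.ext
      · rfl
      · exact h.symm
    have hrm : ((y.right : A) : MulAut G) ∈ Submonoid.powers α :=
      mem_powers_iff_mem_zpowers.2 y.right.2
    obtain ⟨i, hi⟩ := hrm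
    have hi' : y.right = aa ^ i := by
      apply Subtype.ext
      exact hi.symm
    have hi0 : ¬ p ∣ i := by
      intro h
      obtain ⟨k, rfl⟩ := h
      apply hr
      rw [hi', pow_mul, haa, one_pow]
    let f : G → G := fun g => (((⟨g, aa⟩ : Γ)) ^ i).left
    have hright : ∀ g : G, (((⟨g, aa⟩ : Γ)) ^ i).right = aa ^ i := by
      intro g
      exact (semidirect_pow A (⟨g, aa⟩ : Γ) i).1
    obtain ⟨j, -, hj⟩ : ∃ m, m < p ∧ i * m % p = 1 :=
      Nat.exists_mul_mod_eq_one_of_coprime
        (((Nat.Prime.coprime_iff_not_dvd hp).2 hi0).symm) hp.one_lt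
    have hroot : ∀ z : Γ, z ^ p = 1 → (z ^ i) ^ j = z := by
      intro z hz
      rw [← pow_mul, pow_eq_pow_mod _ hz, hj, pow_one]
    have hinj : Function.Injective f := by
      intro g g' hgg
      have h1 : ((⟨g, aa⟩ : Γ)) ^ i = ((⟨g', aa⟩ : Γ)) ^ i := by
        apply SemidirectProduct.ext
        · exact hgg
        · rw [hright, hright]
      have h2 := hroot _ (hx1 g)
      have h3 := hroot _ (hx1 g')
      rw [h1] at h2
      have h4 : (⟨g, aa⟩ : Γ) = (⟨g', aa⟩ : Γ) := h2.symm.trans h3
      exact congrArg SemidirectProduct.left h4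
    have hsurj : Function.Surjective f := Finite.injective_iff_surjective.1 hinj
    obtain ⟨g, hg⟩ := hsurj y.left
    have hy' : y = ((⟨g, aa⟩ : Γ)) ^ i := by
      apply SemidirectProduct.ext
      · exact hg.symm
      · rw [hright, hi']
    rw [hy', ← pow_mul, mul_comm, pow_mul, hx1, one_pow]
  have hHne : H ≠ ⊤ := by
    intro h
    have h1 : (⟨1, aa⟩ : Γ) ∈ H := by rw [h]; trivial
    obtain ⟨g, hg⟩ := h1
    have h2 : aa = 1 := (congrArg SemidirectProduct.right hg).symm
    have h3 : α = 1 := congrArg Subtype.val h2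
    rw [h3, orderOf_one] at hpdef
    rw [hpdef] at hp
    exact Nat.not_prime_one hp
  by_cases hpg : IsPGroup p Γ
  · have : IsPGroup p G := IsPGroup.of_injective hpg ι hι
    exact this.isNilpotent
  haveI : Finite Γ := Finite.of_equiv (G × A) SemidirectProduct.equivProd.symm
  have hH := CfsgLib.Hughes.hughes_nil hp _ Γ rfl H hHn hHne hout hpg
  haveI := hH
  exact Group.nilpotent_of_mulEquiv (MonoidHom.ofInjective hι).symm

/-- Call an automorphism α of order n of a group G splitting when x · α(x) · α²(x) ⋯ α^(n−1)(x) = 1 for every x ∈ G. A finite group admitting a splitting automorphism of prime order is nilpotent (this contains the case of a fixed-point-free automorphism of prime order). -/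
theorem result {G : Type*} [Group G] [Finite G] (α : MulAut G) (hp : (orderOf α).Prime)
    (hsplit : ∀ x : G, (((List.range (orderOf α)).map (fun i : ℕ => (α ^ i) x)).prod = 1)) : Group.IsNilpotent G := by
  exact kegel_aux α hp hsplit

end Cfsg.Agent.S3946
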