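import Cfsg.Statements.S3949
import Cfsg.Agent.Lib.FGS.Basic

set_option autoImplicit false
open Cfsg

namespace Cfsg.Agent.S3949

/-- Let G be a finite group and α an automorphism of G of order 2 such that the elements g·α(g)⁻¹ generate G. Let j be a positive integer such that 2^j divides the order of no element inverted by α. Then the set of values of the j-th iterate of the map c ↦ c·α(c)⁻¹ is exactly the set of elements of odd order inverted by α. -/
theorem result {G : Type*} [Group G] [Finite G] (α : MulAut G) (hα : orderOf α = 2) (hG : Subgroup.closure (Set.range (fun c : G => c * (α c)⁻¹)) = ⊤)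
    (j : ℕ) (hj : ∀ g : G, α g = g⁻¹ → ¬ 2 ^ j ∣ orderOf g) :
    Set.range ((fun c : G => c * (α c)⁻¹)^[j]) = {g : G | Odd (orderOf g) ∧ α g = g⁻¹} := by
  set τ : G → G := fun c => c * (α c)⁻¹ with hτ
  have hαα : ∀ g : G, α (α g) = g := by
    intro g
    have h1 : α ^ 2 = 1 := by
      rw [← hα]
      exact pow_orderOf_eq_one α
    have h2 : (α ^ 2) g = g := by rw [h1]; rfl
    rwa [pow_two] at h2
  have hτI : ∀ c, α (τ c) = (τ c)⁻¹ := by
    intro c
    simp only [hτ, map_mul, map_inv, hαα, mul_inv_rev, inv_inv]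
  have hτsq : ∀ x, α x = x⁻¹ → τ x = x ^ 2 := by
    intro x hx
    simp only [hτ, hx, inv_inv, pow_two]
  have hpowI : ∀ (x : G) (n : ℕ), α x = x⁻¹ → α (x ^ n) = (x ^ n)⁻¹ := by
    intro x n hx
    rw [map_pow, hx, inv_pow]
  have hiter : ∀ (k : ℕ) (x : G), α x = x⁻¹ → τ^[k] x = x ^ 2 ^ k := by
    intro k
    induction k with
    | zero =>
      intro x _
      simp
    | succ k ih =>
      intro x hx
      rw [Function.iterate_succ_apply, hτsq x hx, ih _ (hpowI x 2 hx), ← pow_mul, pow_succ']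
  have hj0 : j ≠ 0 := by
    rintro rfl
    apply hj 1 (by simp)
    simp
  obtain ⟨i, rfl⟩ : ∃ i, j = i + 1 := ⟨j - 1, by omega⟩
  ext g
  simp only [Set.mem_range]
  show (∃ y, τ^[i + 1] y = g) ↔ (Odd (orderOf g) ∧ α g = g⁻¹)
  constructor
  · rintro ⟨c, rfl⟩
    rw [Function.iterate_succ_apply, hiter i _ (hτI c)]
    refine ⟨?_, hpowI _ _ (hτI c)⟩
    have h1 := hj (τ c) (hτI c)
    set u := τ c with hu
    have h2 : orderOf (u ^ 2 ^ i) = orderOf u / Nat.gcd (orderOf u) (2 ^ i) :=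
      orderOf_pow' u (by positivity)
    rw [h2]
    obtain ⟨e, m, hm, hom⟩ := Nat.exists_eq_pow_mul_and_not_dvd (orderOf_pos u).ne' 2 (by norm_num)
    have he : e ≤ i := by
      by_contra hlt
      apply h1
      rw [hom]
      exact Dvd.dvd.mul_right (pow_dvd_pow 2 (by omega)) m
    have h3 : Nat.gcd (orderOf u) (2 ^ i) = 2 ^ e := by
      rw [hom]
      have hcop : Nat.Coprime m (2 ^ i) :=
        Nat.Coprime.pow_right _ ((Nat.Prime.coprime_iff_not_dvd Nat.prime_two).mpr hm).symm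
      rw [Nat.Coprime.gcd_mul_right_cancel _ hcop, Nat.gcd_eq_left (pow_dvd_pow 2 he)]
    rw [h3, hom, Nat.mul_div_cancel_left _ (by positivity)]
    exact Nat.odd_iff.mpr (by
      have := Nat.mod_two_eq_zero_or_one m
      rcases this with h | h
      · exact absurd (Nat.dvd_of_mod_eq_zero h) hm
      · exact h)
  · rintro ⟨hodd, hinv⟩
    -- a `2^(i+1)`-th root inside `⟨g⟩`
    have hcop : Nat.Coprime (2 ^ (i + 1)) (orderOf g) :=
      Nat.Coprime.pow_left _ (Nat.coprime_two_left.mpr hodd)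
    obtain ⟨l, hl⟩ : ∃ l, 2 ^ (i + 1) * l ≡ 1 [MOD orderOf g] := by
      have h1 := (Nat.chineseRemainder hcop 0 1).2
      obtain ⟨l, hl⟩ := Nat.modEq_zero_iff_dvd.mp h1.1
      exact ⟨l, hl ▸ h1.2⟩
    refine ⟨g ^ l, ?_⟩
    rw [Function.iterate_succ_apply, hτsq _ (hpowI g l hinv), hiter i _ (hpowI _ _ (hpowI g l hinv)),
      ← pow_mul, ← pow_mul]
    have h2 : l * (2 * 2 ^ i) = 2 ^ (i + 1) * l := by
      rw [pow_succ]
      ring
    rw [h2]
    have h3 := pow_eq_pow_iff_modEq.mpr hl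
    rwa [pow_one] at h3

end Cfsg.Agent.S3949
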