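import Cfsg.Statements.S3982
import Cfsg.Agent.Lib.FGS.Mod
import Cfsg.Agent.Lib.Solv.Nilp

set_option autoImplicit false
open Cfsg
open scoped Pointwise

namespace Cfsg.Agent.S3982

/-- Let p be an odd prime and G a finite group of even order divisible by p in which the centralizer of every non-identity p-element has odd order. If some nontrivial p-subgroup of G has a normalizer of even order, then the normalizer of every Sylow p-subgroup of G has even order. -/
theorem result {G : Type*} [Group G] [Finite G] (p : ℕ) [Fact p.Prime] (hp2 : p ≠ 2) (hpG : p ∣ Nat.card G) (h2G : 2 ∣ Nat.card G) (hC : ∀ g : G, g ≠ 1 → (∃ k : ℕ, orderOf g = p ^ k) → Odd (Nat.card ↥(Subgroup.centralizer ({g} : Set G)))) (Q : Subgroup G) (hQ : IsPGroup p ↥Q) (hQ1 : Q ≠ ⊥) (hev : Even (Nat.card ↥(Subgroup.normalizer (Q : Set G)))) (P : Sylow p G) : Even (Nat.card ↥(Subgroup.normalizer ((P : Subgroup G) : Set G))) := by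
  classical
  have hp : p.Prime := Fact.out
  obtain ⟨Q₀, hQQ₀, hmax⟩ := Finite.exists_le_maximal
    (p := fun S : Subgroup G => IsPGroup p S ∧ S ≠ ⊥ ∧
      Even (Nat.card (Subgroup.normalizer (S : Set G)))) (a := Q) ⟨hQ, hQ1, hev⟩
  obtain ⟨hQ₀p, hQ₀1, hQ₀e⟩ := hmax.prop
  obtain ⟨t₀, ht₀⟩ := exists_prime_orderOf_dvd_card' (hp := Fact.mk Nat.prime_two) 2
    (even_iff_two_dvd.mp hQ₀e)
  set t : G := (t₀ : G) with htdef
  have ht : orderOf t = 2 := by
    rw [htdef, Subgroup.orderOf_coe]
    exact ht₀
  have htN : t ∈ Subgroup.normalizer (Q₀ : Set G) := t₀.2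
  have htt : t * t = 1 := by
    have := pow_orderOf_eq_one t
    rw [ht, pow_two] at this
    exact this
  have htinv : t⁻¹ = t := inv_eq_of_mul_eq_one_left htt
  have hconj : ∀ q ∈ Q₀, t * q * t⁻¹ ∈ Q₀ := fun q hq => (Subgroup.mem_normalizer_iff.mp htN q).mp hq
  let φ : Q₀ →* Q₀ :=
    { toFun := fun q => ⟨t * q * t⁻¹, hconj q q.2⟩
      map_one' := by
        apply Subtype.ext
        simp
      map_mul' := by
        intro a b
        apply Subtype.ext
        simp only [Subgroup.coe_mul]
        group }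
  have hφ : ∀ q : Q₀, ((φ q : Q₀) : G) = t * q * t⁻¹ := fun _ => rfl
  have hfpf : MonoidHom.FixedPointFree φ := by
    intro q hq
    by_contra hq1
    have hq1' : (q : G) ≠ 1 := fun h => hq1 (Subtype.ext h)
    have hord : ∃ k : ℕ, orderOf (q : G) = p ^ k := by
      obtain ⟨k, hk⟩ := hQ₀p q
      have hk' : (q : G) ^ p ^ k = 1 := by
        simpa using congrArg (fun z : Q₀ => (z : G)) hk
      obtain ⟨i, _, hi⟩ := (Nat.dvd_prime_pow hp).mp (orderOf_dvd_of_pow_eq_one hk')
      exact ⟨i, hi⟩
    have hodd := hC q hq1' hord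
    have htC : t ∈ Subgroup.centralizer ({(q : G)} : Set G) := by
      rw [Subgroup.mem_centralizer_singleton_iff]
      have h1 : t * q * t⁻¹ = q := by
        rw [← hφ, hq]
      rw [mul_inv_eq_iff_eq_mul] at h1
      exact h1
    have h2 : 2 ∣ Nat.card (Subgroup.centralizer ({(q : G)} : Set G)) := by
      have h3 := orderOf_dvd_natCard (⟨t, htC⟩ : Subgroup.centralizer ({(q : G)} : Set G))
      rw [Subgroup.orderOf_mk, ht] at h3
      exact h3
    exact (Nat.not_even_iff_odd.mpr hodd) (even_iff_two_dvd.mpr h2)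
  have hinvol : Function.Involutive φ := by
    intro q
    apply Subtype.ext
    rw [hφ, hφ, htinv]
    calc t * (t * (q : G) * t) * t = (t * t) * q * (t * t) := by group
      _ = q := by rw [htt]; group
  have hinv : ∀ q ∈ Q₀, t * q * t⁻¹ = q⁻¹ := by
    intro q hq
    have h1 := congrFun (hfpf.coe_eq_inv_of_involutive hinvol) ⟨q, hq⟩
    exact congrArg Subtype.val h1
  -- Step 3
  have hW : ∀ z ∈ Q₀, z ≠ 1 → ∀ W : Subgroup G, IsPGroup p W → Q₀ ≤ W →
      W ≤ Subgroup.centralizer ({z} : Set G) → W = Q₀ := by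
    intro z hz hz1 W hWp hQW hWC
    have htz : t * z * t⁻¹ = z⁻¹ := hinv z hz
    have htC : ∀ c ∈ Subgroup.centralizer ({z} : Set G),
        t * c * t⁻¹ ∈ Subgroup.centralizer ({z} : Set G) := by
      intro c hc
      rw [Subgroup.mem_centralizer_singleton_iff] at hc ⊢
      have h1 : c * z⁻¹ = z⁻¹ * c := (show Commute c z from hc).inv_right.eq
      have h2 : z = t * z⁻¹ * t⁻¹ := by
        rw [htinv]
        rw [htinv] at htz
        calc z = (t * t) * z * (t * t) := by rw [htt]; group
          _ = t * (t * z * t) * t := by group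
          _ = t * z⁻¹ * t := by rw [htz]
      calc t * c * t⁻¹ * z = t * c * t⁻¹ * (t * z⁻¹ * t⁻¹) := by rw [← h2]
        _ = t * (c * z⁻¹) * t⁻¹ := by group
        _ = t * (z⁻¹ * c) * t⁻¹ := by rw [h1]
        _ = (t * z⁻¹ * t⁻¹) * (t * c * t⁻¹) := by group
        _ = z * (t * c * t⁻¹) := by rw [← h2]
    set C := Subgroup.centralizer ({z} : Set G) with hCdef
    let τ : C ≃* C :=
      { toFun := fun c => ⟨t * c * t⁻¹, htC c c.2⟩
        invFun := fun c => ⟨t * c * t⁻¹, htC c c.2⟩
        left_inv := by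
          intro c
          apply Subtype.ext
          show t * (t * (c : G) * t⁻¹) * t⁻¹ = c
          rw [htinv]
          calc t * (t * (c : G) * t) * t = (t * t) * c * (t * t) := by group
            _ = c := by rw [htt]; group
        right_inv := by
          intro c
          apply Subtype.ext
          show t * (t * (c : G) * t⁻¹) * t⁻¹ = c
          rw [htinv]
          calc t * (t * (c : G) * t) * t = (t * t) * c * (t * t) := by group
            _ = c := by rw [htt]; group
        map_mul' := by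
          intro a b
          apply Subtype.ext
          simp only [Subgroup.coe_mul]
          group }
    have hWsub : IsPGroup p (W.subgroupOf C) :=
      hWp.comap_of_injective C.subtype Subtype.val_injective
    obtain ⟨S', hS'⟩ := hWsub.exists_le_sylow
    obtain ⟨c, hc⟩ := MulAction.exists_smul_eq C (τ • S') S'
    let S : Subgroup G := (S' : Subgroup C).map C.subtype
    have hSp : IsPGroup p S := S'.isPGroup'.map C.subtype
    have hWS : W ≤ S := by
      intro w hw
      have hwC := hWC hw
      exact ⟨⟨w, hwC⟩, hS' hw, rfl⟩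
    have hQS : Q₀ ≤ S := hQW.trans hWS
    set g : G := (c : G) * t with hg
    have hgN : g ∈ Subgroup.normalizer (S : Set G) := by
      apply CfsgLib.FGS.mem_normalizer_of_conj_le
      rintro _ ⟨s, hs, rfl⟩
      have h1 : τ s ∈ τ • S' := by
        show τ s ∈ τ • (S' : Subgroup C)
        exact Subgroup.smul_mem_pointwise_smul _ τ _ hs
      have h2 : MulAut.conj c • (τ s) ∈ c • (τ • S') := by
        show MulAut.conj c • (τ s) ∈ MulAut.conj c • ((τ • S' : Sylow p C) : Subgroup C)
        exact Subgroup.smul_mem_pointwise_smul _ _ _ h1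
      rw [hc] at h2
      refine ⟨_, h2, ?_⟩
      show (c : G) * (t * (s : G) * t⁻¹) * (c : G)⁻¹ = g * (s : G) * g⁻¹
      rw [hg]
      group
    have hgz : g * z * g⁻¹ = z⁻¹ := by
      have hcz : (c : G) * z⁻¹ = z⁻¹ * c := by
        have h0 := c.2
        rw [Subgroup.mem_centralizer_singleton_iff] at h0
        exact (show Commute (c : G) z from h0).inv_right.eq
      calc g * z * g⁻¹ = (c : G) * (t * z * t⁻¹) * (c : G)⁻¹ := by rw [hg]; group
        _ = (c : G) * z⁻¹ * (c : G)⁻¹ := by rw [htz]
        _ = z⁻¹ := by rw [hcz]; group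
    have hordz : ¬ (z * z = 1) := by
      intro hzz
      apply hz1
      obtain ⟨k, hk⟩ := hQ₀p ⟨z, hz⟩
      have hk' : z ^ p ^ k = 1 := by
        simpa using congrArg (fun w : Q₀ => (w : G)) hk
      have h1 : orderOf z ∣ 2 := by
        apply orderOf_dvd_of_pow_eq_one
        rw [pow_two]
        exact hzz
      have h2 : orderOf z ∣ p ^ k := orderOf_dvd_of_pow_eq_one hk'
      have h3 : Nat.Coprime 2 (p ^ k) := by
        apply Nat.Coprime.pow_right
        rw [Nat.coprime_primes Nat.prime_two hp]
        exact hp2.symm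
      have h4 := Nat.Coprime.eq_one_of_dvd (Nat.Coprime.coprime_dvd_left h1 h3) h2
      exact orderOf_eq_one_iff.mp h4
    have hgev : Even (orderOf g) := by
      by_contra hodd
      rw [Nat.not_even_iff_odd] at hodd
      obtain ⟨k, hk⟩ := hodd
      have h1 : g * g ∈ Subgroup.centralizer ({z} : Set G) := by
        rw [Subgroup.mem_centralizer_singleton_iff]
        have h2 : g * z⁻¹ * g⁻¹ = z := by
          have h3 : g * z⁻¹ * g⁻¹ = (g * z * g⁻¹)⁻¹ := by group
          rw [h3, hgz, inv_inv]
        calc g * g * z = g * (g * z * g⁻¹) * g := by group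
          _ = g * z⁻¹ * g := by rw [hgz]
          _ = (g * z⁻¹ * g⁻¹) * (g * g) := by group
          _ = z * (g * g) := by rw [h2]
      have h2 : g = (g * g) ^ (k + 1) := by
        rw [← pow_two, ← pow_mul, show 2 * (k + 1) = (2 * k + 1) + 1 by ring, pow_succ, ← hk,
          pow_orderOf_eq_one, one_mul]
      have h3 : g ∈ Subgroup.centralizer ({z} : Set G) := by
        rw [h2]
        exact pow_mem h1 _
      rw [Subgroup.mem_centralizer_singleton_iff] at h3
      apply hordz
      have h4 : z⁻¹ = z := by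
        rw [← hgz, h3]
        group
      calc z * z = z⁻¹ * z := by rw [h4]
        _ = 1 := by group
    have hSe : Even (Nat.card (Subgroup.normalizer (S : Set G))) := by
      rw [even_iff_two_dvd] at hgev ⊢
      refine hgev.trans ?_
      have h3 := orderOf_dvd_natCard (⟨g, hgN⟩ : Subgroup.normalizer (S : Set G))
      rwa [Subgroup.orderOf_mk] at h3
    have hSne : S ≠ ⊥ := by
      intro h
      apply hQ₀1
      rw [eq_bot_iff, ← h]
      exact hQS
    have hSQ := hmax.le_of_ge ⟨hSp, hSne, hSe⟩ hQS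
    exact le_antisymm (hWS.trans hSQ) hQW
  -- Step 4
  obtain ⟨P', hP'⟩ := hQ₀p.exists_le_sylow
  have hP'Q : (P' : Subgroup G) = Q₀ := by
    by_contra hne
    have hlt : Q₀ < P' := lt_of_le_of_ne hP' (Ne.symm hne)
    obtain ⟨x, hxP, hxQ, hxN⟩ := CfsgLib.FGS.exists_mem_normalizer_of_lt P'.isPGroup' hlt
    set T := (P' : Subgroup G) ⊓ Subgroup.normalizer (Q₀ : Set G) with hT
    have hTp : IsPGroup p T := P'.isPGroup'.to_le inf_le_left
    haveI : Group.IsNilpotent T := hTp.isNilpotent
    haveI hnorm : (Q₀.subgroupOf T).Normal :=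
      Subgroup.normal_subgroupOf_of_le_normalizer (inf_le_right : T ≤ _)
    have hne2 : Q₀.subgroupOf T ≠ ⊥ := by
      intro h
      apply hQ₀1
      rw [eq_bot_iff]
      intro q hq
      have hqT : q ∈ T := ⟨hP' hq, Subgroup.le_normalizer hq⟩
      have h1 : (⟨q, hqT⟩ : T) ∈ Q₀.subgroupOf T := by
        rw [Subgroup.mem_subgroupOf]
        exact hq
      rw [h, Subgroup.mem_bot] at h1
      exact congrArg Subtype.val h1
    have h1 := CfsgLib.Solv.normal_inf_center_ne_bot (Q₀.subgroupOf T) hne2
    obtain ⟨z, hz1, hz2⟩ := (Subgroup.bot_or_exists_ne_one _).resolve_left h1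
    have hzQ : (z : G) ∈ Q₀ := hz1.1
    have hz3 : (z : G) ≠ 1 := fun h => hz2 (Subtype.ext h)
    have hTC : T ≤ Subgroup.centralizer ({(z : G)} : Set G) := by
      intro u hu
      rw [Subgroup.mem_centralizer_singleton_iff]
      have h2 := Subgroup.mem_center_iff.mp hz1.2 ⟨u, hu⟩
      exact congrArg Subtype.val h2
    have hQT : Q₀ ≤ T := le_inf hP' Subgroup.le_normalizer
    have h3 := hW z hzQ hz3 T hTp hQT hTC
    apply hxQ
    rw [← h3]
    exact ⟨hxP, hxN⟩
  have hE : Even (Nat.card (Subgroup.normalizer ((P' : Subgroup G) : Set G))) := by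
    rw [hP'Q]
    exact hQ₀e
  have h1 := Sylow.card_eq_index_normalizer P
  have h2 := Sylow.card_eq_index_normalizer P'
  have h3 := Subgroup.card_mul_index (Subgroup.normalizer ((P : Subgroup G) : Set G))
  have h4 := Subgroup.card_mul_index (Subgroup.normalizer ((P' : Subgroup G) : Set G))
  have h5 : Nat.card (Subgroup.normalizer ((P : Subgroup G) : Set G)) =
      Nat.card (Subgroup.normalizer ((P' : Subgroup G) : Set G)) := by
    have hi : (Subgroup.normalizer ((P : Subgroup G) : Set G)).index ≠ 0 :=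
      Subgroup.index_ne_zero_of_finite
    apply Nat.eq_of_mul_eq_mul_right (Nat.pos_of_ne_zero hi)
    have h6 : (Subgroup.normalizer ((P : Subgroup G) : Set G)).index =
        (Subgroup.normalizer ((P' : Subgroup G) : Set G)).index := h1.symm.trans h2
    rw [h3, h6, h4]
  rw [h5]
  exact hE

end Cfsg.Agent.S3982
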