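import Cfsg.Statements.S3983
import Cfsg.Agent.Lib.FGS.Syl

set_option autoImplicit false
open scoped Pointwise
open Cfsg

namespace Cfsg.Agent.S3983

/-- Let P be a Sylow p-subgroup of the finite group G that meets each conjugate g P g⁻¹ with g outside N_G(P) trivially, and let U be a subgroup of G of order divisible by p. Then a Sylow p-subgroup Q of U has the same property inside U: Q meets each conjugate u Q u⁻¹ with u ∈ U outside N_U(Q) trivially. -/
theorem result {G : Type*} [Group G] [Finite G] (p : ℕ) [Fact p.Prime] (P : Sylow p G) (hTI : ∀ g : G, g ∉ Subgroup.normalizer ((P : Subgroup G) : Set G) → (P : Subgroup G) ⊓ (MulAut.conj g • (P : Subgroup G)) = ⊥) (U : Subgroup G) (hU : p ∣ Nat.card ↥U) (Q : Sylow p ↥U) : ∀ u : ↥U, u ∉ Subgroup.normalizer ((Q : Subgroup ↥U) : Set ↥U) → (Q : Subgroup ↥U) ⊓ (MulAut.conj u • (Q : Subgroup ↥U)) = ⊥ := by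
  classical
  have hTI' := CfsgLib.FGS.sylow_pairwise_ti P hTI
  intro u hu
  have hQ0 : IsPGroup p ((Q : Subgroup U).map U.subtype) := Q.isPGroup'.map _
  obtain ⟨R, hR⟩ := hQ0.exists_le_sylow
  have hQR : (Q : Subgroup U) = (R : Subgroup G).subgroupOf U := by
    have h1 : (Q : Subgroup U) ≤ (R : Subgroup G).subgroupOf U := by
      intro x hx
      exact Subgroup.mem_subgroupOf.mpr (hR ⟨x, hx, rfl⟩)
    have h2 : IsPGroup p ((R : Subgroup G).subgroupOf U) := R.isPGroup'.comap_subtype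
    exact (Q.3 h2 h1).symm
  rw [eq_bot_iff]
  intro x hx
  obtain ⟨hx1, hx2⟩ := Subgroup.mem_inf.mp hx
  rw [CfsgLib.FGS.mem_conj_smul_iff] at hx2
  by_contra hx0
  apply hu
  have hxR : (x : G) ∈ (R : Subgroup G) := by
    rw [hQR] at hx1
    exact Subgroup.mem_subgroupOf.mp hx1
  have hxuR : (u : G)⁻¹ * x * u ∈ (R : Subgroup G) := by
    rw [hQR] at hx2
    exact Subgroup.mem_subgroupOf.mp hx2
  have huR : (u : G) • R = R := by
    by_contra hne
    have h3 := hTI' _ _ hne
    have h4 : (x : G) ∈ (((u : G) • R : Sylow p G) : Subgroup G) ⊓ (R : Subgroup G) := by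
      refine Subgroup.mem_inf.mpr ⟨?_, hxR⟩
      rw [Sylow.coe_subgroup_smul, CfsgLib.FGS.mem_conj_smul_iff]
      exact hxuR
    rw [h3] at h4
    apply hx0
    exact Subtype.ext h4
  have huN : (u : G) ∈ Subgroup.normalizer ((R : Subgroup G) : Set G) :=
    Sylow.smul_eq_iff_mem_normalizer.mp huR
  rw [Subgroup.mem_normalizer_iff] at huN
  rw [Subgroup.mem_normalizer_iff]
  intro y
  rw [hQR, Subgroup.mem_subgroupOf, Subgroup.mem_subgroupOf]
  exact huN y

end Cfsg.Agent.S3983
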