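import Cfsg.Statements.S3984
import Cfsg.Agent.Lib.FGS.Syl

set_option autoImplicit false
open scoped Pointwise
open Cfsg

namespace Cfsg.Agent.S3984

/-- Let P be a Sylow p-subgroup of the finite group G that meets each conjugate g P g⁻¹ with g outside N_G(P) trivially, and let N be a normal subgroup of G of order prime to p. Then every Sylow p-subgroup Q of G ⧸ N meets each conjugate x Q x⁻¹ with x outside its normalizer trivially. -/
theorem result {G : Type*} [Group G] [Finite G] (p : ℕ) [Fact p.Prime] (P : Sylow p G) (hTI : ∀ g : G, g ∉ Subgroup.normalizer ((P : Subgroup G) : Set G) → (P : Subgroup G) ⊓ (MulAut.conj g • (P : Subgroup G)) = ⊥) (N : Subgroup G) [N.Normal] (hN : (Nat.card ↥N).Coprime p) (Q : Sylow p (G ⧸ N)) : ∀ x : G ⧸ N, x ∉ Subgroup.normalizer ((Q : Subgroup (G ⧸ N)) : Set (G ⧸ N)) → (Q : Subgroup (G ⧸ N)) ⊓ (MulAut.conj x • (Q : Subgroup (G ⧸ N))) = ⊥ := by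
  classical
  have hTI' := CfsgLib.FGS.sylow_pairwise_ti P hTI
  set π := QuotientGroup.mk' N with hπ
  -- a Sylow subgroup of `G` mapping onto `Q`
  obtain ⟨R, hR⟩ : ∃ R : Sylow p G, (R : Subgroup G).map π = (Q : Subgroup (G ⧸ N)) := by
    have h1 : IsPGroup p ((P : Subgroup G).map π) := P.isPGroup'.map π
    have h2 : ¬ p ∣ ((P : Subgroup G).map π).index := by
      intro h
      apply P.not_dvd_index
      exact h.trans (Subgroup.index_map_dvd _ (QuotientGroup.mk'_surjective N))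
    obtain ⟨y, hy⟩ := MulAction.exists_smul_eq (G ⧸ N) (h1.toSylow h2) Q
    obtain ⟨g, rfl⟩ := QuotientGroup.mk'_surjective N y
    refine ⟨g • P, ?_⟩
    rw [← hy]
    ext w
    rw [Sylow.coe_subgroup_smul, Sylow.coe_subgroup_smul, CfsgLib.FGS.mem_conj_smul_iff]
    simp only [IsPGroup.toSylow_coe]
    constructor
    · rintro ⟨z, hz, rfl⟩
      have hz' := CfsgLib.FGS.mem_conj_smul_iff.mp hz
      refine ⟨g⁻¹ * z * g, hz', ?_⟩
      rw [map_mul, map_mul, map_inv]
    · rintro ⟨z, hz, hzw⟩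
      refine ⟨g * z * g⁻¹, ?_, ?_⟩
      · apply CfsgLib.FGS.mem_conj_smul_iff.mpr
        have h3 : g⁻¹ * (g * z * g⁻¹) * g = z := by group
        rw [h3]
        exact hz
      · have h3 : π z = (π g)⁻¹ * w * π g := hzw
        rw [map_mul, map_mul, map_inv, h3]
        group
  intro x hx
  by_contra hne
  obtain ⟨w, hw, hw1⟩ : ∃ w ∈ (Q : Subgroup (G ⧸ N)) ⊓ (MulAut.conj x • (Q : Subgroup (G ⧸ N))), w ≠ 1 := by
    by_contra hcon
    apply hne
    rw [eq_bot_iff]
    intro w hw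
    by_contra hw1
    exact hcon ⟨w, hw, hw1⟩
  obtain ⟨hw2, hw3⟩ := Subgroup.mem_inf.mp hw
  rw [CfsgLib.FGS.mem_conj_smul_iff] at hw3
  obtain ⟨g, rfl⟩ : ∃ g, π g = x := QuotientGroup.mk'_surjective N x
  rw [← hR] at hw2 hw3
  obtain ⟨a, ha, rfl⟩ := hw2
  obtain ⟨b, hb, hbw⟩ := hw3
  set c := g * b * g⁻¹ with hc
  have hπc : π c = π a := by
    rw [hc, map_mul, map_mul, map_inv, hbw]
    group
  have hc1 : c ≠ 1 := by
    intro h0
    rw [h0, map_one] at hπc
    exact hw1 hπc.symm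
  let L : Subgroup G := (R : Subgroup G) ⊔ N
  have hcL : c ∈ L := by
    have h1 : a⁻¹ * c ∈ N := by
      rw [← QuotientGroup.eq_one_iff]
      have : ((a⁻¹ * c : G) : G ⧸ N) = π (a⁻¹ * c) := rfl
      rw [this, map_mul, map_inv, hπc]
      group
    have h2 : c = a * (a⁻¹ * c) := by group
    rw [h2]
    exact L.mul_mem (Subgroup.mem_sup_left ha) (Subgroup.mem_sup_right h1)
  have hcp : IsPGroup p (Subgroup.zpowers c) := by
    have hcgR : c ∈ ((g • R : Sylow p G) : Subgroup G) := by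
      rw [Sylow.coe_subgroup_smul, CfsgLib.FGS.mem_conj_smul_iff]
      have : g⁻¹ * c * g = b := by rw [hc]; group
      rwa [this]
    exact (g • R).isPGroup'.to_le (Subgroup.zpowers_le.mpr hcgR)
  obtain ⟨h, hh, hch⟩ := CfsgLib.Lead.exists_conj_into_sylow R L le_sup_left _
    (Subgroup.zpowers_le.mpr hcL) hcp
  have hch' := hch c (Subgroup.mem_zpowers c)
  have heq : h • R = g • R := by
    by_contra hne'
    have h3 := hTI' _ _ hne'
    have h4 : c ∈ ((h • R : Sylow p G) : Subgroup G) ⊓ ((g • R : Sylow p G) : Subgroup G) := by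
      refine Subgroup.mem_inf.mpr ⟨?_, ?_⟩
      · rw [Sylow.coe_subgroup_smul, CfsgLib.FGS.mem_conj_smul_iff]
        exact hch'
      · rw [Sylow.coe_subgroup_smul, CfsgLib.FGS.mem_conj_smul_iff]
        have : g⁻¹ * c * g = b := by rw [hc]; group
        rwa [this]
    rw [h3] at h4
    exact hc1 h4
  have hv : h⁻¹ * g ∈ Subgroup.normalizer ((R : Subgroup G) : Set G) := by
    apply Sylow.smul_eq_iff_mem_normalizer.mp
    rw [mul_smul, ← heq, inv_smul_smul]
  -- `h = u * n`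
  obtain ⟨u, hu, n, hn, rfl⟩ := Subgroup.mem_sup_of_normal_right.mp hh
  have hπg : π g = π (u * ((u * n)⁻¹ * g)) := by
    rw [map_mul, map_mul, map_inv, map_mul]
    have : π n = 1 := (QuotientGroup.eq_one_iff n).mpr hn
    rw [this]
    group
  set z := u * ((u * n)⁻¹ * g) with hz
  have hzN : z ∈ Subgroup.normalizer ((R : Subgroup G) : Set G) :=
    Subgroup.mul_mem _ (Subgroup.le_normalizer hu) hv
  apply hx
  rw [Subgroup.mem_normalizer_iff]
  intro y
  rw [← hR]
  change y ∈ _ ↔ π g * y * (π g)⁻¹ ∈ _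
  rw [hπg]
  rw [Subgroup.mem_normalizer_iff] at hzN
  constructor
  · rintro ⟨y', hy', rfl⟩
    exact ⟨z * y' * z⁻¹, (hzN y').mp hy', by simp [map_mul]⟩
  · rintro ⟨y', hy', hy2⟩
    refine ⟨z⁻¹ * y' * z, ?_, ?_⟩
    · apply (hzN _).mpr
      have : z * (z⁻¹ * y' * z) * z⁻¹ = y' := by group
      rwa [this]
    · rw [map_mul, map_mul, map_inv, hy2]
      group

end Cfsg.Agent.S3984
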