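import Cfsg.Statements.S3985
import Cfsg.Agent.Lib.FGS.Cyc

set_option autoImplicit false
open scoped Pointwise
open Cfsg

namespace Cfsg.Agent.S3985

/-- Let P be a cyclic Sylow p-subgroup of the finite group G. Then P meets each conjugate g P g⁻¹ with g outside N_G(P) trivially if and only if P is weakly self-centralizing: C_G(x) = C_G(P) for every non-identity x ∈ P. -/
theorem result {G : Type*} [Group G] [Finite G] (p : ℕ) [Fact p.Prime] (P : Sylow p G) (hcyc : IsCyclic ↥(P : Subgroup G)) : (∀ g : G, g ∉ Subgroup.normalizer ((P : Subgroup G) : Set G) → (P : Subgroup G) ⊓ (MulAut.conj g • (P : Subgroup G)) = ⊥) ↔ ∀ x : G, x ∈ (P : Subgroup G) → x ≠ 1 → Subgroup.centralizer ({x} : Set G) = Subgroup.centralizer ((P : Subgroup G) : Set G) := by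
  classical
  have hab : ∀ a ∈ (P : Subgroup G), ∀ b ∈ (P : Subgroup G), a * b = b * a := fun a ha b hb =>
    congrArg Subtype.val (hcyc.commGroup.mul_comm ⟨a, ha⟩ ⟨b, hb⟩)
  have hPC : (P : Subgroup G) ≤ Subgroup.centralizer ((P : Subgroup G) : Set G) := by
    intro a ha
    rw [Subgroup.mem_centralizer_iff]
    intro b hb
    exact hab b hb a ha
  have hSn : ∀ (A : Subgroup G) (hPA : (P : Subgroup G) ≤ A),
      ((P.subtype hPA : Sylow p A) : Subgroup A).Normal → ∀ s ∈ A, (∃ k : ℕ, s ^ (p ^ k) = 1) → s ∈ (P : Subgroup G) := by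
    intro A hPA hn s hsA hs
    obtain ⟨k, hk⟩ := hs
    have hp : IsPGroup p (Subgroup.zpowers (⟨s, hsA⟩ : A)) := by
      rw [IsPGroup.iff_card, Nat.card_zpowers]
      have h1 : orderOf (⟨s, hsA⟩ : A) ∣ p ^ k := by
        apply orderOf_dvd_of_pow_eq_one
        apply Subtype.ext
        simpa using hk
      obtain ⟨j, -, hj⟩ := (Nat.dvd_prime_pow Fact.out).mp h1
      exact ⟨j, hj⟩
    have h2 := CfsgLib.FGS.le_of_normal_sylow (P.subtype hPA) hn hp (Subgroup.mem_zpowers _)
    rw [Sylow.coe_subtype] at h2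
    exact Subgroup.mem_subgroupOf.mp h2
  constructor
  · intro hTI x hx hx1
    apply le_antisymm
    · intro g hg
      have hgx : g * x = x * g := Subgroup.mem_centralizer_singleton_iff.mp hg
      have hgN : g ∈ Subgroup.normalizer ((P : Subgroup G) : Set G) := by
        by_contra hgN
        have h1 := hTI g hgN
        have h2 : x ∈ (P : Subgroup G) ⊓ (MulAut.conj g • (P : Subgroup G)) := by
          refine Subgroup.mem_inf.mpr ⟨hx, CfsgLib.FGS.mem_conj_smul_iff.mpr ?_⟩
          have : g⁻¹ * x * g = x := by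
            calc g⁻¹ * x * g = g⁻¹ * (x * g) := by group
              _ = g⁻¹ * (g * x) := by rw [hgx]
              _ = x := by group
          rwa [this]
        rw [h1] at h2
        exact hx1 h2
      obtain ⟨s, t, hs, ht, hgst, hcomm, ⟨k, hk⟩, htc⟩ := CfsgLib.FGS.exists_primary_decomp p Fact.out g
      have hsN : s ∈ Subgroup.normalizer ((P : Subgroup G) : Set G) := (Subgroup.zpowers_le.mpr hgN) hs
      have htN : t ∈ Subgroup.normalizer ((P : Subgroup G) : Set G) := (Subgroup.zpowers_le.mpr hgN) ht
      have htx : t * x = x * t := by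
        have h1 : Subgroup.zpowers g ≤ Subgroup.centralizer ({x} : Set G) := Subgroup.zpowers_le.mpr hg
        exact Subgroup.mem_centralizer_singleton_iff.mp (h1 ht)
      have hsP : s ∈ (P : Subgroup G) := by
        refine hSn _ Subgroup.le_normalizer ?_ s hsN ⟨k, by rw [← hk]; exact pow_orderOf_eq_one s⟩
        rw [Sylow.coe_subtype]
        exact Subgroup.normal_in_normalizer
      have htP := CfsgLib.FGS.commute_of_cyclic_pgroup Fact.out (P : Subgroup G) hcyc P.isPGroup' t htN
        htc x hx hx1 htx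
      rw [Subgroup.mem_centralizer_iff]
      intro y hy
      rw [hgst]
      calc y * (s * t) = (y * s) * t := by group
        _ = s * y * t := by rw [hab y hy s hsP]
        _ = s * (y * t) := by group
        _ = s * (t * y) := by rw [htP y hy]
        _ = _ := by group
    · apply Subgroup.centralizer_le
      exact Set.singleton_subset_iff.mpr hx
  · intro H g hg
    by_contra hne
    obtain ⟨y, hy, hy1⟩ : ∃ y ∈ (P : Subgroup G) ⊓ (MulAut.conj g • (P : Subgroup G)), y ≠ 1 := by
      by_contra hcon
      apply hne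
      rw [eq_bot_iff]
      intro w hw
      by_contra hw1
      exact hcon ⟨w, hw, hw1⟩
    obtain ⟨hyP, hyg⟩ := Subgroup.mem_inf.mp hy
    have hz : g⁻¹ * y * g ∈ (P : Subgroup G) := CfsgLib.FGS.mem_conj_smul_iff.mp hyg
    have hz1 : g⁻¹ * y * g ≠ 1 := by
      intro h0
      apply hy1
      have : y = g * (g⁻¹ * y * g) * g⁻¹ := by group
      rw [this, h0]
      group
    have hCy := H y hyP hy1
    have hCz := H _ hz hz1
    have hgC : ∀ h ∈ Subgroup.centralizer ((P : Subgroup G) : Set G), g * h * g⁻¹ ∈ Subgroup.centralizer ((P : Subgroup G) : Set G) := by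
      intro h hh
      rw [← hCz] at hh
      rw [← hCy]
      have h1 : h * (g⁻¹ * y * g) = (g⁻¹ * y * g) * h := Subgroup.mem_centralizer_singleton_iff.mp hh
      refine Subgroup.mem_centralizer_singleton_iff.mpr ?_
      calc g * h * g⁻¹ * y = g * (h * (g⁻¹ * y * g)) * g⁻¹ := by group
        _ = g * ((g⁻¹ * y * g) * h) * g⁻¹ := by rw [h1]
        _ = _ := by group
    apply hg
    apply CfsgLib.FGS.mem_normalizer_of_conj_sylow_le
    intro a ha
    refine hSn _ hPC ?_ _ (hgC a (hPC ha)) ?_
    · rw [Sylow.coe_subtype]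
      constructor
      intro u hu v
      rw [Subgroup.mem_subgroupOf] at hu ⊢
      have hv := Subgroup.mem_centralizer_iff.mp v.2 (u : G) hu
      have : ((v * u * v⁻¹ : Subgroup.centralizer ((P : Subgroup G) : Set G)) : G) = u := by
        simp only [Subgroup.coe_mul, Subgroup.coe_inv]
        rw [← hv]
        group
      rw [this]
      exact hu
    · refine ⟨Nat.card G, ?_⟩
      rw [conj_pow, CfsgLib.FGS.pow_pow_card_eq_one_of_mem_sylow P ha]
      group

end Cfsg.Agent.S3985
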