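import Cfsg.Statements.S3987
import Cfsg.Agent.Lib.FGS.DirFac

set_option autoImplicit false
open Cfsg

namespace Cfsg.Agent.S3987

/-- Let p be a prime and G a finite group. Then some Sylow p-subgroup of G is a direct factor of G (normal with a normal complement) if and only if for every element x of p-power order and every element y whose order is a power of a prime other than p, the conjugacy class of x y has as many elements as the product of the sizes of the classes of x and of y. -/
theorem result {G : Type*} [Group G] [Finite G] (p : ℕ) [Fact p.Prime] : (∃ (P : Sylow p G) (K : Subgroup G), (P : Subgroup G).Normal ∧ K.Normal ∧ (P : Subgroup G) ⊓ K = ⊥ ∧ (P : Subgroup G) ⊔ K = ⊤) ↔ ∀ x y : G, (∃ a : ℕ, orderOf x = p ^ a) → (∃ q b : ℕ, q.Prime ∧ q ≠ p ∧ orderOf y = q ^ b) → (Subgroup.centralizer ({x * y} : Set G)).index = (Subgroup.centralizer ({x} : Set G)).index * (Subgroup.centralizer ({y} : Set G)).index := by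
  classical
  constructor
  · rintro ⟨P, K, hP, hK, hinf, hsup⟩ x y hx hy
    obtain ⟨hxP, hyK, hcomm⟩ := CfsgLib.FGS.commute_of_direct_factor P K hP hK hinf hsup x y hx hy
    have hPK : ∀ u ∈ (P : Subgroup G), ∀ k ∈ K, u * k = k * u := fun u hu k hk =>
      Subgroup.commute_of_normal_of_disjoint _ _ hP hK (disjoint_iff.mpr hinf) u k hu hk
    have hC : Subgroup.centralizer ({x * y} : Set G) =
        Subgroup.centralizer ({x} : Set G) ⊓ Subgroup.centralizer ({y} : Set G) := by
      ext g
      simp only [Subgroup.mem_inf, Subgroup.mem_centralizer_singleton_iff]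
      constructor
      · intro h
        have h1 : g * x * g⁻¹ ∈ (P : Subgroup G) := hP.conj_mem _ hxP g
        have h2 : g * y * g⁻¹ ∈ K := hK.conj_mem _ hyK g
        have h3 : (g * x * g⁻¹) * (g * y * g⁻¹) = x * y := by
          calc (g * x * g⁻¹) * (g * y * g⁻¹) = g * (x * y) * g⁻¹ := by group
            _ = (x * y) * g * g⁻¹ := by rw [h]
            _ = x * y := by group
        have h4 : x⁻¹ * (g * x * g⁻¹) = y * (g * y * g⁻¹)⁻¹ := by
          calc x⁻¹ * (g * x * g⁻¹) = x⁻¹ * ((g * x * g⁻¹) * (g * y * g⁻¹)) * (g * y * g⁻¹)⁻¹ := by group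
            _ = _ := by rw [h3]; group
        have h5 : x⁻¹ * (g * x * g⁻¹) ∈ (P : Subgroup G) ⊓ K :=
          ⟨P.mul_mem (P.inv_mem hxP) h1, h4 ▸ K.mul_mem hyK (K.inv_mem h2)⟩
        rw [hinf] at h5
        have h6 : x⁻¹ * (g * x * g⁻¹) = 1 := h5
        have h7 : g * x * g⁻¹ = x := by
          have := mul_eq_one_iff_eq_inv.mp h6
          simpa using (inv_eq_iff_eq_inv.mpr this).symm
        have h8 : g * y * g⁻¹ = y := by
          rw [h7] at h3
          exact mul_left_cancel h3
        constructor
        · calc g * x = (g * x * g⁻¹) * g := by group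
            _ = x * g := by rw [h7]
        · calc g * y = (g * y * g⁻¹) * g := by group
            _ = y * g := by rw [h8]
      · rintro ⟨h1, h2⟩
        rw [← mul_assoc, h1, mul_assoc, h2, mul_assoc]
    rw [hC]
    refine (CfsgLib.Solv.index_inf_coprime _ _ ?_).1
    have hKC : K ≤ Subgroup.centralizer ({x} : Set G) := fun k hk => by
      rw [Subgroup.mem_centralizer_singleton_iff]
      exact (hPK x hxP k hk).symm
    have hPC : (P : Subgroup G) ≤ Subgroup.centralizer ({y} : Set G) := fun u hu => by
      rw [Subgroup.mem_centralizer_singleton_iff]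
      exact hPK u hu y hyK
    have h1 := Subgroup.index_dvd_of_le hKC
    have h2 := Subgroup.index_dvd_of_le hPC
    have hcardPK : Nat.card (P : Subgroup G) * Nat.card K = Nat.card G := by
      have := CfsgLib.PLocal.card_sup_mul_card_inf_of_commute (P : Subgroup G) K hPK
      rw [hinf, hsup, Subgroup.card_bot, mul_one, Subgroup.card_top] at this
      exact this.symm
    have hidxK : K.index = Nat.card (P : Subgroup G) := by
      have h3 := Subgroup.card_mul_index K
      rw [← hcardPK, mul_comm] at h3
      exact Nat.eq_of_mul_eq_mul_right Nat.card_pos h3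
    have hcop : K.index.Coprime (P : Subgroup G).index := by
      rw [hidxK, P.card_eq_multiplicity]
      exact Nat.Coprime.pow_left _ ((Nat.Prime.coprime_iff_not_dvd Fact.out).mpr P.not_dvd_index)
    exact Nat.Coprime.coprime_dvd_left h1 (Nat.Coprime.coprime_dvd_right h2 hcop)
  · intro H
    apply CfsgLib.FGS.exists_direct_factor_of_commute
    intro x y hx hy
    have h := H x y hx hy
    set A := Subgroup.centralizer ({x} : Set G) with hA
    set B := Subgroup.centralizer ({y} : Set G) with hB
    set D := Subgroup.centralizer ({x * y} : Set G) with hD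
    have hABD : A ⊓ B ≤ D := by
      intro g hg
      obtain ⟨h1, h2⟩ := Subgroup.mem_inf.mp hg
      rw [hD, Subgroup.mem_centralizer_singleton_iff]
      rw [hA, Subgroup.mem_centralizer_singleton_iff] at h1
      rw [hB, Subgroup.mem_centralizer_singleton_iff] at h2
      rw [← mul_assoc, h1, mul_assoc, h2, mul_assoc]
    have h1 : (A ⊓ B).index ≤ D.index := by
      rw [h]; exact Subgroup.index_inf_le
    have hcd : Nat.card D ≤ Nat.card ↥(A ⊓ B) := by
      have h2 := Subgroup.card_mul_index D
      have h3 := Subgroup.card_mul_index (A ⊓ B)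
      have h4 : 0 < (A ⊓ B).index := Nat.pos_of_ne_zero Subgroup.index_ne_zero_of_finite
      have h5 : Nat.card D * (A ⊓ B).index ≤ Nat.card ↥(A ⊓ B) * (A ⊓ B).index := by
        rw [h3]
        calc Nat.card D * (A ⊓ B).index ≤ Nat.card D * D.index := Nat.mul_le_mul_left _ h1
          _ = Nat.card G := h2
      exact Nat.le_of_mul_le_mul_right h5 h4
    have heq : A ⊓ B = D := Subgroup.eq_of_le_of_card_ge hABD hcd
    have h2 : x * y ∈ D := by
      rw [hD, Subgroup.mem_centralizer_singleton_iff]
    rw [← heq] at h2
    have h3 := (Subgroup.mem_inf.mp h2).1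
    rw [hA, Subgroup.mem_centralizer_singleton_iff] at h3
    have h4 : x * (y * x) = x * (x * y) := by
      calc x * (y * x) = x * y * x := by group
        _ = x * (x * y) := h3
    exact (mul_left_cancel h4).symm

end Cfsg.Agent.S3987
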