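import Cfsg.Statements.S4013
import Cfsg.Agent.Lib.FGS.Elem

set_option autoImplicit false
open Cfsg

namespace Cfsg.Agent.S4013

/-- Let G be a finite p-group (p prime) and N < M normal subgroups of G such that for some g ∈ M ∖ N the conjugacy class of g is exactly M ∖ N. Then p = 2 and N has index 2 in M. -/
theorem result {G : Type*} [Group G] [Finite G] (p : ℕ) [Fact p.Prime] (hG : IsPGroup p G) (N M : Subgroup G) [N.Normal] [M.Normal] (hNM : N < M) (g : G) (hgM : g ∈ M) (hgN : g ∉ N) (hcl : {h : G | IsConj g h} = (M : Set G) \ (N : Set G)) : p = 2 ∧ N.relIndex M = 2 := by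
  classical
  have hle : N ≤ M := hNM.le
  -- sizes
  have hclass : Nat.card {h : G // IsConj g h} = Nat.card M - Nat.card N := by
    have h1 : Nat.card {h : G // IsConj g h} = Set.ncard {h : G | IsConj g h} := by
      rw [← Nat.card_coe_set_eq]; rfl
    rw [h1, hcl]
    have h2 := Set.ncard_sdiff (s := (N : Set G)) (t := (M : Set G)) hle (Set.toFinite _)
    rw [h2, ← Nat.card_coe_set_eq, ← Nat.card_coe_set_eq]
    rfl
  rw [← CfsgLib.FGS.index_centralizer_eq_card_conj] at hclass
  obtain ⟨a, ha⟩ := IsPGroup.iff_card.mp hG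
  have hf : Fact p.Prime := inferInstance
  have hdvd : (Subgroup.centralizer ({g} : Set G)).index ∣ p ^ a := ha ▸ Subgroup.index_dvd_card _
  obtain ⟨c, -, hc⟩ := (Nat.dvd_prime_pow hf.out).mp hdvd
  obtain ⟨b, -, hb⟩ := (Nat.dvd_prime_pow hf.out).mp (ha ▸ Subgroup.card_subgroup_dvd_card N)
  have hmul := CfsgLib.FGS.card_mul_relIndex_of_le hle
  have hlt : Nat.card N < Nat.card M := by
    have := Set.ncard_lt_ncard (show (N : Set G) ⊂ (M : Set G) from hNM) (Set.toFinite _)
    rwa [← Nat.card_coe_set_eq, ← Nat.card_coe_set_eq] at this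
  set r := N.relIndex M with hr
  have hNpos : 0 < Nat.card N := Nat.card_pos
  have hr1 : 1 < r := by
    by_contra hcon
    have : r ≤ 1 := by omega
    have h3 : Nat.card N * r ≤ Nat.card N * 1 := Nat.mul_le_mul_left _ this
    omega
  -- `r` is a power of `p`
  obtain ⟨d, -, hd⟩ := (Nat.dvd_prime_pow hf.out).mp
    (show r ∣ p ^ a from (Dvd.intro_left _ hmul).trans (ha ▸ Subgroup.card_subgroup_dvd_card M))
  have hdpos : 0 < d := by
    rcases d with _ | d
    · simp [hd] at hr1
    · omega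
  -- equation: `p ^ c = p ^ b * (r - 1)`
  have heq : p ^ c = p ^ b * (r - 1) := by
    rw [← hc, hclass, ← hmul, ← hb, Nat.mul_sub, mul_one]
  -- `r - 1` divides a power of `p` and is coprime to `p`
  have hr_dvd : (r - 1) ∣ p ^ c := Dvd.intro_left _ heq.symm
  obtain ⟨e, -, he⟩ := (Nat.dvd_prime_pow hf.out).mp hr_dvd
  have he0 : e = 0 := by
    by_contra hne
    have h1 : p ∣ r - 1 := he ▸ dvd_pow_self p hne
    have h2 : p ∣ r := hd ▸ dvd_pow_self p hdpos.ne'
    have h3 : p ∣ r - (r - 1) := Nat.dvd_sub h2 h1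
    have h4 : r - (r - 1) = 1 := by omega
    rw [h4] at h3
    exact hf.out.one_lt.ne' (Nat.dvd_one.mp h3)
  have hr2 : r = 2 := by
    rw [he0, pow_zero] at he
    omega
  refine ⟨?_, hr2⟩
  have h5 : p ∣ 2 := by
    rw [← hr2, hd]; exact dvd_pow_self p hdpos.ne'
  exact (Nat.prime_dvd_prime_iff_eq hf.out Nat.prime_two).mp h5

end Cfsg.Agent.S4013
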