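import Cfsg.Statements.S4014
import Cfsg.Agent.Lib.FGS.Basic
import Cfsg.Agent.Lib.Solv.PGroup

set_option autoImplicit false
open Cfsg
open scoped commutatorElement
open scoped Pointwise

namespace Cfsg.Agent.S4014

def h8_ds {G : Type*} [Group G] (H : Subgroup G) : ℕ → Subgroup G
  | 0 => H
  | (k+1) => ⁅h8_ds H k, h8_ds H k⁆

theorem h8_ds_le {G : Type*} [Group G] (H : Subgroup G) : ∀ k, h8_ds H k ≤ H
  | 0 => le_rfl
  | (k+1) => by
    have ih := h8_ds_le H k
    show ⁅h8_ds H k, h8_ds H k⁆ ≤ H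
    refine Subgroup.commutator_le.2 (fun a ha b hb => ?_)
    rw [commutatorElement_def]
    exact H.mul_mem (H.mul_mem (H.mul_mem (ih ha) (ih hb)) (H.inv_mem (ih ha))) (H.inv_mem (ih hb))

theorem h8_ds_mono {G : Type*} [Group G] {H K : Subgroup G} (h : H ≤ K) : ∀ k, h8_ds H k ≤ h8_ds K k
  | 0 => h
  | (k+1) => Subgroup.commutator_mono (h8_ds_mono h k) (h8_ds_mono h k)

theorem h8_ds_map {G G' : Type*} [Group G] [Group G'] (f : G →* G') (H : Subgroup G) :
    ∀ k, (h8_ds H k).map f = h8_ds (H.map f) k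
  | 0 => rfl
  | (k+1) => by
    show (⁅h8_ds H k, h8_ds H k⁆ : Subgroup G).map f = ⁅h8_ds (H.map f) k, h8_ds (H.map f) k⁆
    rw [Subgroup.map_commutator, h8_ds_map f H k]

theorem h8_ds_top {G : Type*} [Group G] : ∀ k, h8_ds (⊤ : Subgroup G) k = derivedSeries G k
  | 0 => rfl
  | (k+1) => by
    show ⁅h8_ds (⊤ : Subgroup G) k, h8_ds (⊤ : Subgroup G) k⁆ = derivedSeries G (k+1)
    rw [derivedSeries_succ, h8_ds_top k]

theorem h8_ds_sub {G : Type*} [Group G] (P : Subgroup G) (k : ℕ) :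
    h8_ds P k = (derivedSeries ↥P k).map P.subtype := by
  have h : (⊤ : Subgroup ↥P).map P.subtype = P := by
    ext x; simp
  rw [← h8_ds_top, h8_ds_map, h]

theorem h8_ds_succ' {G : Type*} [Group G] (H : Subgroup G) :
    ∀ k, h8_ds H (k+1) = h8_ds ⁅H, H⁆ k
  | 0 => rfl
  | (k+1) => by
    show ⁅h8_ds H (k+1), h8_ds H (k+1)⁆ = ⁅h8_ds ⁅H, H⁆ k, h8_ds ⁅H, H⁆ k⁆
    rw [h8_ds_succ' H k]

theorem h8_proper {G : Type*} [Group G] [Finite G] (p : ℕ) [Fact p.Prime] (H S : Subgroup G)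
    (hH : IsPGroup p H) (hS : S ≤ H) (hM : H ≤ S ⊔ ⁅H, H⁆) : H ≤ S := by
  have hc := (CfsgLib.Solv.pgroup_commutator_pow_le_frattini hH).1
  have h1 : S.subgroupOf H ⊔ frattini ↥H = ⊤ := by
    rw [eq_top_iff]
    rintro ⟨y, hy⟩ -
    have hy2 := hM hy
    have hmap : (S.subgroupOf H ⊔ commutator ↥H).map H.subtype = S ⊔ ⁅H, H⁆ := by
      rw [Subgroup.map_sup, Subgroup.map_subgroupOf_eq_of_le hS]
      congr 1
      rw [commutator_def, Subgroup.map_commutator]
      have h : (⊤ : Subgroup ↥H).map H.subtype = H := by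
        ext x; simp
      rw [h]
    rw [← hmap] at hy2
    obtain ⟨w, hw, hwe⟩ := hy2
    have hw2 : w = ⟨y, hy⟩ := Subtype.ext hwe
    rw [← hw2]
    exact (sup_le_sup_left hc _) hw
  have h2 := frattini_nongenerating h1
  exact Subgroup.subgroupOf_eq_top.1 h2

theorem h8_le {G : Type*} [Group G] [Finite G] (p : ℕ) [hp : Fact p.Prime] :
    ∀ (t : ℕ) (H S : Subgroup G), IsPGroup p H → S ≤ H → S.relIndex H ≤ p ^ t → h8_ds H t ≤ S := by
  intro t
  induction t with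
  | zero =>
    intro H S hH hS hi
    have h0 : S.relIndex H ≠ 0 := by
      unfold Subgroup.relIndex
      exact Subgroup.index_ne_zero_of_finite
    have h1 : S.relIndex H = 1 := by
      rw [pow_zero] at hi
      omega
    exact Subgroup.relIndex_eq_one.1 h1
  | succ t ih =>
    intro H S hH hS hi
    by_cases hSH : H ≤ S
    · exact le_trans (h8_ds_le H _) hSH
    have hcomm : ⁅H, H⁆ ≤ H := by
      refine Subgroup.commutator_le.2 (fun a ha b hb => ?_)
      rw [commutatorElement_def]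
      exact H.mul_mem (H.mul_mem (H.mul_mem ha hb) (H.inv_mem ha)) (H.inv_mem hb)
    have hMH : S ⊔ ⁅H, H⁆ ≤ H := sup_le hS hcomm
    have hMne : ¬ H ≤ S ⊔ ⁅H, H⁆ := fun h => hSH (h8_proper p H S hH hS h)
    have hSM : S ≤ S ⊔ ⁅H, H⁆ := le_sup_left
    have hmul := Subgroup.relIndex_mul_relIndex S (S ⊔ ⁅H, H⁆) H hSM hMH
    have hd : (S ⊔ ⁅H, H⁆).relIndex H ∣ Nat.card H := Subgroup.relIndex_dvd_card _ _
    obtain ⟨e, he⟩ := IsPGroup.iff_card.1 hH
    rw [he] at hd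
    obtain ⟨f, -, hf⟩ := (Nat.dvd_prime_pow hp.out).1 hd
    have hf0 : f ≠ 0 := by
      rintro rfl
      rw [pow_zero] at hf
      exact hMne (Subgroup.relIndex_eq_one.1 hf)
    have hidx : S.relIndex (S ⊔ ⁅H, H⁆) ≤ p ^ t := by
      have h1 : p ≤ (S ⊔ ⁅H, H⁆).relIndex H := by
        rw [hf]
        exact Nat.le_self_pow hf0 p
      have h2 : S.relIndex (S ⊔ ⁅H, H⁆) * p ≤ p ^ t * p := by
        calc S.relIndex (S ⊔ ⁅H, H⁆) * p ≤ S.relIndex (S ⊔ ⁅H, H⁆) * (S ⊔ ⁅H, H⁆).relIndex H :=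
              Nat.mul_le_mul_left _ h1
          _ = S.relIndex H := hmul
          _ ≤ p ^ (t+1) := hi
          _ = p ^ t * p := pow_succ p t
      exact Nat.le_of_mul_le_mul_right h2 hp.out.pos
    have h1 := ih (S ⊔ ⁅H, H⁆) S (hH.to_le hMH) hSM hidx
    refine le_trans ?_ h1
    rw [h8_ds_succ']
    exact h8_ds_mono le_sup_right t

def h8_wr {α : Type} (p : ℕ) (W : Subgroup (Equiv.Perm α)) : Subgroup (Equiv.Perm (α × ZMod p)) where
  carrier := {g | ∃ j : ZMod p, ∀ i, ∃ h ∈ W, ∀ a, g (a, i) = (h a, i + j)}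
  mul_mem' := by
    rintro g g' ⟨j, hj⟩ ⟨j', hj'⟩
    refine ⟨j' + j, fun i => ?_⟩
    obtain ⟨h', hh', e'⟩ := hj' i
    obtain ⟨h, hh, e⟩ := hj (i + j')
    refine ⟨h * h', W.mul_mem hh hh', fun a => ?_⟩
    simp [Equiv.Perm.mul_apply, e', e, add_assoc]
  one_mem' := ⟨0, fun i => ⟨1, W.one_mem, fun a => by simp⟩⟩
  inv_mem' := by
    rintro g ⟨j, hj⟩
    refine ⟨-j, fun i => ?_⟩
    obtain ⟨h, hh, e⟩ := hj (i + -j)
    refine ⟨h⁻¹, W.inv_mem hh, fun a => ?_⟩
    rw [Equiv.Perm.inv_eq_iff_eq, e]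
    simp

def h8_tau {α : Type} (p : ℕ) (h : Equiv.Perm α) : Equiv.Perm (α × ZMod p) where
  toFun x := if x.2 = 0 then (h x.1, x.2) else x
  invFun x := if x.2 = 0 then (h⁻¹ x.1, x.2) else x
  left_inv := by
    rintro ⟨a, i⟩
    by_cases hi : i = 0 <;> simp [hi]
  right_inv := by
    rintro ⟨a, i⟩
    by_cases hi : i = 0 <;> simp [hi]

def h8_sigma {α : Type} (p : ℕ) : Equiv.Perm (α × ZMod p) :=
  Equiv.prodCongr (Equiv.refl α) (Equiv.addRight (1 : ZMod p))

theorem h8_sigma_apply {α : Type} (p : ℕ) (a : α) (i : ZMod p) :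
    h8_sigma p (a, i) = (a, i + 1) := rfl

theorem h8_sigma_mem {α : Type} (p : ℕ) (W : Subgroup (Equiv.Perm α)) : h8_sigma p ∈ h8_wr p W :=
  ⟨1, fun i => ⟨1, W.one_mem, fun a => by simp [h8_sigma_apply]⟩⟩

theorem h8_tau_mem {α : Type} (p : ℕ) (W : Subgroup (Equiv.Perm α)) (h : Equiv.Perm α) (hh : h ∈ W) :
    h8_tau p h ∈ h8_wr p W := by
  refine ⟨0, fun i => ?_⟩
  by_cases hi : i = 0
  · exact ⟨h, hh, fun a => by simp [h8_tau, hi]⟩
  · exact ⟨1, W.one_mem, fun a => by simp [h8_tau, hi]⟩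

theorem h8_wr_pgroup {α : Type} [Finite α] (p : ℕ) [hp : Fact p.Prime] (W : Subgroup (Equiv.Perm α))
    (hW : IsPGroup p W) : IsPGroup p (h8_wr p W) := by
  obtain ⟨s, hs⟩ := IsPGroup.iff_card.1 hW
  show ∀ g : ↥(h8_wr p W), ∃ k : ℕ, g ^ p ^ k = 1
  rintro ⟨g, j, hj⟩
  have h1 : ∀ n : ℕ, ∀ i, ∃ h ∈ W, ∀ a, (g ^ n) (a, i) = (h a, i + n • j) := by
    intro n
    induction n with
    | zero =>
      intro i
      exact ⟨1, W.one_mem, fun a => by simp⟩
    | succ n ih =>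
      intro i
      obtain ⟨h', hh', e'⟩ := hj i
      obtain ⟨h, hh, e⟩ := ih (i + j)
      refine ⟨h * h', W.mul_mem hh hh', fun a => ?_⟩
      rw [pow_succ, Equiv.Perm.mul_apply, e', e]
      simp only [Equiv.Perm.mul_apply, succ_nsmul]
      congr 1
      abel
  have h2 : ∀ i, ∃ h ∈ W, ∀ a, (g ^ p) (a, i) = (h a, i) := by
    intro i
    obtain ⟨h, hh, e⟩ := h1 p i
    refine ⟨h, hh, fun a => ?_⟩
    rw [e]
    simp
  have h3 : ∀ m : ℕ, ∀ i, ∃ h ∈ W, ∀ a, ((g ^ p) ^ m) (a, i) = ((h ^ m) a, i) := by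
    intro i0 i
    obtain ⟨h, hh, e⟩ := h2 i
    refine ⟨h, hh, ?_⟩
    induction i0 with
    | zero => intro a; simp
    | succ m ih =>
      intro a
      rw [pow_succ, Equiv.Perm.mul_apply, e, ih, pow_succ, Equiv.Perm.mul_apply]
  have h4 : (g ^ p) ^ (p ^ s) = 1 := by
    ext ⟨a, i⟩ : 1
    obtain ⟨h, hh, e⟩ := h3 (p ^ s) i
    rw [e]
    have : h ^ (p ^ s) = 1 := by
      have h5 : (⟨h, hh⟩ : ↥W) ^ (Nat.card W) = 1 := pow_card_eq_one'
      rw [hs] at h5
      exact congrArg (fun z : ↥W => (z : Equiv.Perm α)) h5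
    rw [this]
    rfl
  refine ⟨s + 1, ?_⟩
  apply Subtype.ext
  show g ^ p ^ (s + 1) = 1
  rw [pow_succ, mul_comm, pow_mul]
  exact h4

theorem h8_lift {α : Type} (p : ℕ) [hp : Fact p.Prime] (W : Subgroup (Equiv.Perm α)) :
    ∀ k, ∀ h ∈ h8_ds W k, ∃ g ∈ h8_ds (h8_wr p W) (k+1), ∀ a, g (a, 0) = (h a, 0) := by
  haveI : NeZero p := ⟨hp.out.ne_zero⟩
  haveI : Fact (1 < p) := ⟨hp.out.one_lt⟩
  intro k
  induction k with
  | zero =>
    intro h hh
    refine ⟨⁅h8_tau p h, h8_sigma p⁆, ?_, fun a => ?_⟩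
    · exact Subgroup.commutator_mem_commutator (h8_tau_mem p W h hh) (h8_sigma_mem p W)
    · have hs : (h8_sigma p)⁻¹ (a, (0 : ZMod p)) = (a, -1) := by
        rw [Equiv.Perm.inv_eq_iff_eq, h8_sigma_apply]
        simp
      have hne : (-1 : ZMod p) ≠ 0 := neg_ne_zero.2 one_ne_zero
      have ht : (h8_tau p h)⁻¹ (a, (-1 : ZMod p)) = (a, -1) := by
        rw [Equiv.Perm.inv_eq_iff_eq]
        simp [h8_tau, hne]
      rw [commutatorElement_def]
      simp only [Equiv.Perm.mul_apply]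
      rw [hs, ht, h8_sigma_apply]
      simp [h8_tau]
  | succ k ih =>
    let T : Subgroup (Equiv.Perm α) :=
      { carrier := {h | ∃ g ∈ h8_ds (h8_wr p W) (k+2), ∀ a, g (a, 0) = (h a, 0)}
        mul_mem' := by
          rintro h1 h2 ⟨g1, hg1, e1⟩ ⟨g2, hg2, e2⟩
          refine ⟨g1 * g2, Subgroup.mul_mem _ hg1 hg2, fun a => ?_⟩
          simp [Equiv.Perm.mul_apply, e1, e2]
        one_mem' := ⟨1, Subgroup.one_mem _, fun a => by simp⟩
        inv_mem' := by
          rintro h1 ⟨g1, hg1, e1⟩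
          refine ⟨g1⁻¹, Subgroup.inv_mem _ hg1, fun a => ?_⟩
          rw [Equiv.Perm.inv_eq_iff_eq, e1]
          simp }
    have hT : ⁅h8_ds W k, h8_ds W k⁆ ≤ T := by
      refine Subgroup.commutator_le.2 (fun h1 hh1 h2 hh2 => ?_)
      obtain ⟨g1, hg1, e1⟩ := ih h1 hh1
      obtain ⟨g2, hg2, e2⟩ := ih h2 hh2
      refine ⟨⁅g1, g2⁆, Subgroup.commutator_mem_commutator hg1 hg2, fun a => ?_⟩
      have e1' : ∀ a, g1⁻¹ (a, (0 : ZMod p)) = (h1⁻¹ a, 0) := by
        intro a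
        rw [Equiv.Perm.inv_eq_iff_eq, e1]
        simp
      have e2' : ∀ a, g2⁻¹ (a, (0 : ZMod p)) = (h2⁻¹ a, 0) := by
        intro a
        rw [Equiv.Perm.inv_eq_iff_eq, e2]
        simp
      rw [commutatorElement_def, commutatorElement_def]
      simp only [Equiv.Perm.mul_apply]
      rw [e2', e1', e2, e1]
    intro h hh
    exact hT hh

theorem h8_exists (p : ℕ) [hp : Fact p.Prime] : ∀ k : ℕ, ∃ (α : Type) (_ : Finite α) (W : Subgroup (Equiv.Perm α)),
    Nat.card α = p ^ (k+1) ∧ IsPGroup p W ∧ h8_ds W k ≠ ⊥ := by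
  haveI : NeZero p := ⟨hp.out.ne_zero⟩
  haveI : Fact (1 < p) := ⟨hp.out.one_lt⟩
  intro k
  induction k with
  | zero =>
    refine ⟨Unit × ZMod p, inferInstance, h8_wr p ⊥, ?_, h8_wr_pgroup p _ (IsPGroup.of_bot), ?_⟩
    · simp [Nat.card_prod]
    · intro hb
      have h1 : h8_sigma p ∈ h8_wr p (⊥ : Subgroup (Equiv.Perm Unit)) := h8_sigma_mem p _
      have h2 : h8_wr p (⊥ : Subgroup (Equiv.Perm Unit)) = ⊥ := hb
      rw [h2, Subgroup.mem_bot] at h1
      have h3 := congrArg (fun f : Equiv.Perm (Unit × ZMod p) => f ((), 0)) h1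
      simp [h8_sigma_apply] at h3
  | succ k ih =>
    obtain ⟨α, hα, W, hc, hW, hne⟩ := ih
    refine ⟨α × ZMod p, inferInstance, h8_wr p W, ?_, h8_wr_pgroup p W hW, ?_⟩
    · rw [Nat.card_prod, hc, Nat.card_zmod]
      exact (pow_succ p (k+1)).symm
    · obtain ⟨h, hh, hh1⟩ := Subgroup.bot_or_exists_ne_one (h8_ds W k) |>.resolve_left hne
      obtain ⟨g, hg, e⟩ := h8_lift p W k h hh
      intro hb
      rw [hb, Subgroup.mem_bot] at hg
      apply hh1
      ext a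
      have := e a
      rw [hg] at this
      have h2 := congrArg Prod.fst this
      simpa using h2.symm

/-- Let p be a prime, n ≥ 1, and P a Sylow p-subgroup of the symmetric group on n letters. Then the derived length of P is exactly k = ⌊log_p n⌋ (the largest k with p^k ≤ n): the k-th derived subgroup of P is trivial and, when k ≥ 1, the (k−1)-st is not. -/
theorem result (p : ℕ) [Fact p.Prime] (n : ℕ) (hn : 1 ≤ n) (P : Sylow p (Equiv.Perm (Fin n))) : derivedSeries ↥(P : Subgroup (Equiv.Perm (Fin n))) (Nat.log p n) = ⊥ ∧ (1 ≤ Nat.log p n → derivedSeries ↥(P : Subgroup (Equiv.Perm (Fin n))) (Nat.log p n - 1) ≠ ⊥) := by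
  haveI : NeZero p := ⟨(Fact.out : p.Prime).ne_zero⟩
  have hp1 : 1 < p := (Fact.out : p.Prime).one_lt
  constructor
  · -- upper bound
    rw [eq_bot_iff]
    intro g hg
    have key : ∀ a : Fin n, g • a = a := by
      intro a
      have hS : (MulAction.stabilizer ↥(P : Subgroup (Equiv.Perm (Fin n))) a).relIndex ⊤ ≤ p ^ Nat.log p n := by
        rw [Subgroup.relIndex_top_right]
        have h1 : (MulAction.stabilizer ↥(P : Subgroup (Equiv.Perm (Fin n))) a).index ∣ Nat.card ↥(P : Subgroup (Equiv.Perm (Fin n))) :=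
          Subgroup.index_dvd_card _
        obtain ⟨e, he⟩ := IsPGroup.iff_card.1 P.isPGroup'
        rw [he] at h1
        obtain ⟨f, -, hf⟩ := (Nat.dvd_prime_pow (Fact.out : p.Prime)).1 h1
        have h2 : (MulAction.stabilizer ↥(P : Subgroup (Equiv.Perm (Fin n))) a).index ≤ n := by
          rw [MulAction.index_stabilizer]
          have := Set.ncard_le_card (MulAction.orbit ↥(P : Subgroup (Equiv.Perm (Fin n))) a)
          simpa using this
        rw [hf] at h2 ⊢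
        exact Nat.pow_le_pow_right (by omega) (Nat.le_log_of_pow_le hp1 h2)
      have hle := h8_le p (Nat.log p n) (⊤ : Subgroup ↥(P : Subgroup (Equiv.Perm (Fin n))))
        (MulAction.stabilizer ↥(P : Subgroup (Equiv.Perm (Fin n))) a)
        (P.isPGroup'.to_subgroup ⊤) le_top hS
      rw [h8_ds_top] at hle
      exact hle hg
    apply Subtype.ext
    ext a
    have := key a
    exact congrArg Fin.val this
  · intro hlog hbot
    obtain ⟨k, hk⟩ : ∃ k, Nat.log p n = k + 1 := ⟨Nat.log p n - 1, by omega⟩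
    rw [hk] at hbot
    simp only [Nat.add_sub_cancel] at hbot
    obtain ⟨α, hα, W, hc, hW, hne⟩ := h8_exists p k
    have hcard : p ^ (k+1) ≤ n := by
      rw [← hk]
      exact Nat.pow_log_le_self p (by omega)
    haveI := Fintype.ofFinite α
    have hemb : Nonempty (α ↪ Fin n) := by
      apply Function.Embedding.nonempty_of_card_le
      rw [← Nat.card_eq_fintype_card, hc, Fintype.card_fin]
      exact hcard
    obtain ⟨ι⟩ := hemb
    have hinj := Equiv.Perm.viaEmbeddingHom_injective ι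
    let f := Equiv.Perm.viaEmbeddingHom ι
    have hpW : IsPGroup p (W.map f) := hW.map f
    obtain ⟨Q, hQ⟩ := hpW.exists_le_sylow
    obtain ⟨x, hx⟩ := MulAction.exists_smul_eq (Equiv.Perm (Fin n)) Q P
    let c : Equiv.Perm (Fin n) →* Equiv.Perm (Fin n) := (MulAut.conj x).toMonoidHom
    have hle : (W.map f).map c ≤ (P : Subgroup (Equiv.Perm (Fin n))) := by
      rw [← hx, Sylow.coe_subgroup_smul]
      show (W.map f).map c ≤ (Q : Subgroup (Equiv.Perm (Fin n))).map c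
      exact Subgroup.map_mono hQ
    have h1 : h8_ds ((W.map f).map c) k ≤ h8_ds (P : Subgroup (Equiv.Perm (Fin n))) k := h8_ds_mono hle k
    rw [h8_ds_sub (P : Subgroup (Equiv.Perm (Fin n))) k, hbot, Subgroup.map_bot] at h1
    rw [← h8_ds_map, ← h8_ds_map] at h1
    apply hne
    have h2 := le_bot_iff.1 h1
    rw [Subgroup.map_eq_bot_iff_of_injective _ (MulAut.conj x).injective,
      Subgroup.map_eq_bot_iff_of_injective _ hinj] at h2
    exact h2

end Cfsg.Agent.S4014
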