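import Cfsg.Statements.S4023
import Cfsg.Agent.Lib.FGS.ConjAb2

set_option autoImplicit false
open Cfsg
open scoped commutatorElement
open scoped Pointwise

namespace Cfsg.Agent.S4023

/-- Let p be a prime and G a finite group in which any two p-subgroups of the same order are conjugate, with Sylow p-subgroup P. Then P is cyclic, or elementary abelian, or p = 2 and P is a quaternion group of order 8, or p is odd and P is non-abelian of order p³ and exponent p. -/
theorem result {G : Type*} [Group G] [Finite G]
    {p : ℕ} [Fact p.Prime] (hC : ∀ H K : Subgroup G, IsPGroup p H → IsPGroup p K → Nat.card H = Nat.card K →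
      ∃ g : G, K = H.map (MulAut.conj g).toMonoidHom) (P : Sylow p G) :
    IsCyclic P ∨ Cfsg.IsElementaryAbelian p (P : Subgroup G) ∨
      (p = 2 ∧ Nonempty ((P : Subgroup G) ≃* QuaternionGroup 2)) ∨
      (p ≠ 2 ∧ ¬ IsMulCommutative P ∧ Nat.card P = p ^ 3 ∧ Monoid.exponent P = p) := by
  classical
  have hpp : p.Prime := Fact.out
  have hsq : ∀ (a : P), (∀ x ∈ (P : Subgroup G), x ^ p = 1) → a ^ p = 1 := fun a hall => Subtype.ext (hall _ a.2)
  by_cases hall : ∀ x ∈ (P : Subgroup G), x ^ p = 1
  · by_cases hc : IsMulCommutative P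
    · exact Or.inr (Or.inl ⟨hc, hall⟩)
    · right; right; right
      have hexp : ∀ a : P, a ^ p = 1 := fun a => hsq a hall
      have hp2 : p ≠ 2 := by
        rintro rfl
        apply hc
        refine ⟨⟨fun a b => ?_⟩⟩
        have h2 := hexp a
        have h3 := hexp b
        have h1 := hexp (a * b)
        have h4 : a⁻¹ = a := by
          rw [inv_eq_iff_mul_eq_one, ← pow_two]; exact h2
        have h5 : b⁻¹ = b := by
          rw [inv_eq_iff_mul_eq_one, ← pow_two]; exact h3
        have h6 : (a * b)⁻¹ = a * b := by
          rw [inv_eq_iff_mul_eq_one, ← pow_two]; exact h1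
        rw [mul_inv_rev, h4, h5] at h6
        exact h6.symm
      refine ⟨hp2, hc, ?_, ?_⟩
      · apply CfsgLib.FGS.ConjAb.card_eq_cube P.isPGroup' hexp hc
        intro A B hAB hA
        have hinj : Function.Injective (P : Subgroup G).subtype := Subgroup.subtype_injective _
        have hA' : IsPGroup p (A.map (P : Subgroup G).subtype) := P.isPGroup'.to_le (Subgroup.map_subtype_le _)
        have hB' : IsPGroup p (B.map (P : Subgroup G).subtype) := P.isPGroup'.to_le (Subgroup.map_subtype_le _)
        obtain ⟨g, hg⟩ := hC _ _ hA' hB' (by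
          rw [Subgroup.card_map_of_injective hinj, Subgroup.card_map_of_injective hinj, hAB])
        refine ⟨⟨fun a b => ?_⟩⟩
        have hmem : ∀ w : B, ∃ u ∈ A, (w : P).1 = g * u.1 * g⁻¹ := by
          intro w
          have h1 : ((w : P) : G) ∈ B.map (P : Subgroup G).subtype := ⟨w.1, w.2, rfl⟩
          rw [hg] at h1
          obtain ⟨v, ⟨u, hu, rfl⟩, hv⟩ := h1
          exact ⟨u, hu, hv.symm⟩
        obtain ⟨u1, hu1, h1⟩ := hmem a
        obtain ⟨u2, hu2, h2⟩ := hmem b
        have h3 : u1 * u2 = u2 * u1 := congrArg Subtype.val (mul_comm' (⟨u1, hu1⟩ : A) ⟨u2, hu2⟩)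
        have h4 : u1.1 * u2.1 = u2.1 * u1.1 := congrArg Subtype.val h3
        apply Subtype.ext
        apply Subtype.ext
        show (a : P).1 * (b : P).1 = (b : P).1 * (a : P).1
        rw [h1, h2]
        calc g * u1.1 * g⁻¹ * (g * u2.1 * g⁻¹) = g * (u1.1 * u2.1) * g⁻¹ := by group
          _ = g * (u2.1 * u1.1) * g⁻¹ := by rw [h4]
          _ = _ := by group
      · haveI hnt : Nontrivial P := by
          by_contra hcon
          rw [not_nontrivial_iff_subsingleton] at hcon
          exact hc ⟨⟨fun a b => Subsingleton.elim _ _⟩⟩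
        rw [Monoid.exponent_eq_prime_iff hpp]
        intro g hg
        exact orderOf_eq_prime (hexp g) hg
  · push Not at hall
    obtain ⟨x, hxP, hx⟩ := hall
    have h := CfsgLib.FGS.ConjAb.unique_sub (P : Subgroup G) P.isPGroup'
      (fun E C _ _ h3 h4 h5 => hC E C h3 h4 h5) x hxP hx
    rcases CfsgLib.SS.unique_prime_subgroup p P.isPGroup' h with h1 | ⟨h2, k, ⟨e⟩⟩
    · exact Or.inl h1
    · subst h2
      rcases (by omega : k = 0 ∨ k = 1 ∨ 2 ≤ k) with rfl | rfl | hk
      · left
        haveI : IsCyclic (QuaternionGroup ((2 : ℕ) ^ 0)) := QuaternionGroup.quaternionGroup_one_isCyclic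
        exact isCyclic_of_surjective e.symm.toMonoidHom e.symm.surjective
      · right; right; left
        exact ⟨rfl, ⟨e⟩⟩
      · exfalso
        apply CfsgLib.FGS.ConjAb.quat_false k hk
        intro A B hAB hA
        let f : QuaternionGroup (2 ^ k) →* G := (P : Subgroup G).subtype.comp e.symm.toMonoidHom
        have hf : Function.Injective f := (Subgroup.subtype_injective _).comp e.symm.injective
        have hle : ∀ S : Subgroup (QuaternionGroup (2 ^ k)), S.map f ≤ (P : Subgroup G) := by
          rintro S _ ⟨w, _, rfl⟩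
          exact (e.symm w).2
        obtain ⟨g, hg⟩ := hC (A.map f) (B.map f) (P.isPGroup'.to_le (hle A)) (P.isPGroup'.to_le (hle B)) (by
          rw [Subgroup.card_map_of_injective hf, Subgroup.card_map_of_injective hf, hAB])
        haveI h1 : IsCyclic (A.map f) := isCyclic_of_surjective (Subgroup.equivMapOfInjective A f hf).toMonoidHom (Subgroup.equivMapOfInjective A f hf).surjective
        have h2 : IsCyclic ((A.map f).map (MulAut.conj g).toMonoidHom) :=
          isCyclic_of_surjective (Subgroup.equivMapOfInjective (A.map f) (MulAut.conj g).toMonoidHom (MulAut.conj g).injective).toMonoidHom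
            (Subgroup.equivMapOfInjective (A.map f) (MulAut.conj g).toMonoidHom (MulAut.conj g).injective).surjective
        rw [← hg] at h2
        exact isCyclic_of_surjective (Subgroup.equivMapOfInjective B f hf).symm.toMonoidHom (Subgroup.equivMapOfInjective B f hf).symm.surjective

end Cfsg.Agent.S4023
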