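import Cfsg.Statements.S4027
import Cfsg.Agent.Lib.FGS.RealOdd
import Cfsg.Agent.Lib.FGS.Syl

set_option autoImplicit false
open Cfsg

namespace Cfsg.Agent.S4027

/-- Let G be a finite group in which every element x of odd order satisfies N_G(⟨x⟩) = C_G(x). Then the Sylow 2-subgroups of G are normal. -/
theorem result {G : Type*} [Group G] [Finite G]
    (hirr : ∀ x : G, (∀ r : ℕ, r.Prime → r ∣ orderOf x → r ≠ 2) →
      Subgroup.normalizer ((Subgroup.zpowers x : Subgroup G) : Set G) ≤ Subgroup.centralizer {x}) (P : Sylow 2 G) :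
    (P : Subgroup G).Normal := by
  classical
  refine CfsgLib.FGS.sylow_two_normal_of_no_real _ G rfl ?_ P
  intro x hx1 hxo hxr
  obtain ⟨c, hc⟩ := isConj_iff.1 hxr
  have h1 := hirr x (by
    intro r hr hrd
    rintro rfl
    exact (Nat.not_even_iff_odd.2 hxo) (even_iff_two_dvd.2 hrd))
  have hcn : c ∈ Subgroup.normalizer ((Subgroup.zpowers x : Subgroup G) : Set G) := by
    apply CfsgLib.FGS.mem_normalizer_of_conj_le
    rintro _ ⟨k, rfl⟩
    simp only
    rw [← conj_zpow, hc]
    exact Subgroup.zpow_mem _ (Subgroup.inv_mem _ (Subgroup.mem_zpowers x)) k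
  have h2 := h1 hcn
  rw [Subgroup.mem_centralizer_singleton_iff] at h2
  have h3 : c * x * c⁻¹ = x := by rw [h2]; group
  rw [h3] at hc
  have h4 : x ^ 2 = 1 := by
    rw [pow_two]
    nth_rw 1 [hc]
    simp
  have h10 : orderOf x ∣ 2 := orderOf_dvd_of_pow_eq_one h4
  have h12 : (orderOf x).Coprime 2 := Nat.coprime_two_right.2 hxo
  have h11 : orderOf x = 1 := Nat.dvd_one.1 (by
    have := Nat.dvd_gcd (dvd_refl (orderOf x)) h10
    rwa [h12] at this)
  exact hx1 (orderOf_eq_one_iff.1 h11)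

end Cfsg.Agent.S4027
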