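import Cfsg.Statements.S4028
import Cfsg.Agent.Lib.FGS.Syl
import Cfsg.Agent.Lib.H9.SimpleTools

set_option autoImplicit false
open Cfsg

namespace Cfsg.Agent.S4028

theorem mem_norm_zpowers {K : Type*} [Group K] [Finite K] (a b : K)
    (h : b * a * b⁻¹ ∈ Subgroup.zpowers a) :
    b ∈ Subgroup.normalizer ((Subgroup.zpowers a : Subgroup K) : Set K) := by
  apply CfsgLib.FGS.mem_normalizer_of_conj_le
  obtain ⟨j, hj⟩ := h
  rintro _ ⟨k, rfl⟩
  refine ⟨j * k, ?_⟩
  show a ^ (j * k) = b * (a ^ k) * b⁻¹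
  rw [← conj_zpow, ← hj, ← zpow_mul]


/-- Let G be a finite group with Sylow 2-subgroup P. Then N_G(⟨x⟩) = C_G(x) holds for every 2-element x of G if and only if N_P(⟨y⟩) = C_P(y) holds for every y ∈ P (computed inside P). -/
theorem result {G : Type*} [Group G] [Finite G] (P : Sylow 2 G) :
    (∀ x : G, (∀ r : ℕ, r.Prime → r ∣ orderOf x → r = 2) →
      Subgroup.normalizer ((Subgroup.zpowers x : Subgroup G) : Set G) ≤ Subgroup.centralizer {x}) ↔
    (∀ y : ↥(P : Subgroup G), Subgroup.normalizer ((Subgroup.zpowers y : Subgroup ↥(P : Subgroup G)) : Set ↥(P : Subgroup G)) ≤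
        Subgroup.centralizer {y}) := by
  classical
  haveI hf2 : Fact (Nat.Prime 2) := ⟨Nat.prime_two⟩
  constructor
  · intro h y z hz
    rw [Subgroup.mem_centralizer_singleton_iff]
    have hy2 : ∀ r : ℕ, r.Prime → r ∣ orderOf (y : G) → r = 2 := by
      intro r hr hrd
      obtain ⟨k, hk⟩ := (IsPGroup.iff_orderOf.mp P.isPGroup') y
      rw [Subgroup.orderOf_coe, hk] at hrd
      exact (Nat.prime_dvd_prime_iff_eq hr Nat.prime_two).mp (hr.dvd_of_dvd_pow hrd)
    have hzN : (z : G) ∈ Subgroup.normalizer ((Subgroup.zpowers (y : G) : Subgroup G) : Set G) := by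
      apply mem_norm_zpowers
      have hy1 : z * y * z⁻¹ ∈ Subgroup.zpowers y :=
        (Subgroup.mem_normalizer_iff.mp hz y).mp (Subgroup.mem_zpowers y)
      obtain ⟨j, hj⟩ := hy1
      refine ⟨j, ?_⟩
      have := congrArg Subtype.val hj
      simpa using this
    have h1 := h (y : G) hy2 hzN
    rw [Subgroup.mem_centralizer_singleton_iff] at h1
    exact Subtype.ext h1
  · intro h x hx
    set Z := Subgroup.zpowers x with hZ
    set N := Subgroup.normalizer ((Z : Subgroup G) : Set G) with hN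
    have hxN : x ∈ N := by
      apply mem_norm_zpowers
      have : x * x * x⁻¹ = x := by group
      rw [this]
      exact Subgroup.mem_zpowers x
    obtain ⟨k, hk⟩ : ∃ k, orderOf x = 2 ^ k :=
      ⟨_, Nat.eq_prime_pow_of_unique_prime_dvd (orderOf_pos x).ne' (fun {d} hd hdv => hx d hd hdv)⟩
    have hCx : Subgroup.centralizer ((Z : Subgroup G) : Set G) = Subgroup.centralizer ({x} : Set G) := by
      ext y
      rw [Subgroup.mem_centralizer_singleton_iff, Subgroup.mem_centralizer_iff]
      constructor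
      · intro h1
        exact (h1 x (Subgroup.mem_zpowers x)).symm
      · rintro h1 _ ⟨m, rfl⟩
        exact ((show Commute y x from h1).zpow_right m).symm
    have hdvd := CfsgLib.H9.card_normalizer_dvd_mulAut Z
    rw [IsCyclic.card_mulAut, hCx, hZ, Nat.card_zpowers, hk, ← hZ] at hdvd
    obtain ⟨j, hj⟩ : ∃ j, Nat.totient (2 ^ k) = 2 ^ j := by
      rcases k with _ | k
      · exact ⟨0, by simp⟩
      · refine ⟨k, ?_⟩
        rw [Nat.totient_prime_pow_succ Nat.prime_two]
        simp
    rw [hj] at hdvd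
    have hcentN : Subgroup.centralizer ({x} : Set G) ≤ N := by
      intro y hy
      apply mem_norm_zpowers
      rw [Subgroup.mem_centralizer_singleton_iff] at hy
      rw [hy]
      have : x * y * y⁻¹ = x := by group
      rw [this]
      exact Subgroup.mem_zpowers x
    set C' := (Subgroup.centralizer ({x} : Set G)).subgroupOf N with hC'
    have hC'card : Nat.card C' = Nat.card (Subgroup.centralizer ({x} : Set G)) :=
      Nat.card_congr (Subgroup.subgroupOfEquivOfLe hcentN).toEquiv
    have hidx : C'.index ∣ 2 ^ j := by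
      have h1 := C'.card_mul_index
      rw [← h1, hC'card] at hdvd
      exact Nat.dvd_of_mul_dvd_mul_left Nat.card_pos hdvd
    let T : Sylow 2 N := default
    have hxT : (⟨x, hxN⟩ : N) ∈ (T : Subgroup N) := by
      have h1 : IsPGroup 2 (Subgroup.zpowers (⟨x, hxN⟩ : N)) := by
        apply IsPGroup.of_card (n := k)
        rw [Nat.card_zpowers, Subgroup.orderOf_mk, hk]
      have h2 : (T : Subgroup N) ≤ Subgroup.normalizer ((Subgroup.zpowers (⟨x, hxN⟩ : N) : Subgroup N) : Set N) := by
        intro n _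
        apply mem_norm_zpowers
        have h3 : (n : G) * x * (n : G)⁻¹ ∈ Z :=
          (Subgroup.mem_normalizer_iff.mp n.2 x).mp (Subgroup.mem_zpowers x)
        obtain ⟨m, hm⟩ := h3
        refine ⟨m, ?_⟩
        apply Subtype.ext
        simpa using hm
      exact CfsgLib.FGS.le_of_pgroup_normalized T h1 h2 (Subgroup.mem_zpowers _)
    have hT₀ : IsPGroup 2 ((T : Subgroup N).map N.subtype) := T.isPGroup'.map N.subtype
    obtain ⟨Q, hQ⟩ := hT₀.exists_le_sylow
    obtain ⟨g, hg⟩ := MulAction.exists_smul_eq G Q P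
    have hmemP : ∀ t : N, t ∈ (T : Subgroup N) → g * t * g⁻¹ ∈ (P : Subgroup G) := by
      intro t ht
      have h1 : (t : G) ∈ (Q : Subgroup G) := hQ ⟨t, ht, rfl⟩
      rw [← hg, Sylow.coe_subgroup_smul]
      rw [CfsgLib.FGS.mem_conj_smul_iff]
      have : g⁻¹ * (g * t * g⁻¹) * g = t := by group
      rwa [this]
    have hTC : (T : Subgroup N) ≤ C' := by
      intro t ht
      have hy₀ := hmemP _ hxT
      have hu := hmemP t ht
      set y' : (P : Subgroup G) := ⟨g * x * g⁻¹, hy₀⟩ with hy'
      set u' : (P : Subgroup G) := ⟨g * t * g⁻¹, hu⟩ with hu'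
      have hu'N : u' ∈ Subgroup.normalizer ((Subgroup.zpowers y' : Subgroup (P : Subgroup G)) : Set (P : Subgroup G)) := by
        apply mem_norm_zpowers
        obtain ⟨m, hm⟩ := (Subgroup.mem_normalizer_iff.mp t.2 x).mp (Subgroup.mem_zpowers x)
        refine ⟨m, ?_⟩
        apply Subtype.ext
        show (g * x * g⁻¹) ^ m = (g * t * g⁻¹) * (g * x * g⁻¹) * (g * t * g⁻¹)⁻¹
        have hm' : x ^ m = t * x * (t : G)⁻¹ := hm
        rw [conj_zpow, hm']
        group
      have h1 := h y' hu'N
      rw [Subgroup.mem_centralizer_singleton_iff] at h1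
      have h2 : (g * t * g⁻¹) * (g * x * g⁻¹) = (g * x * g⁻¹) * (g * t * g⁻¹) := congrArg Subtype.val h1
      rw [hC', Subgroup.mem_subgroupOf, Subgroup.mem_centralizer_singleton_iff]
      have h3 : g * ((t : G) * x) * g⁻¹ = g * (x * t) * g⁻¹ := by
        calc g * ((t : G) * x) * g⁻¹ = (g * t * g⁻¹) * (g * x * g⁻¹) := by group
          _ = (g * x * g⁻¹) * (g * t * g⁻¹) := h2
          _ = _ := by group
      exact mul_left_cancel (mul_right_cancel h3)
    have hodd : ¬ 2 ∣ C'.index := fun h2 => T.not_dvd_index (h2.trans (Subgroup.index_dvd_of_le hTC))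
    have hone : C'.index = 1 := by
      obtain ⟨i, hi, hie⟩ := (Nat.dvd_prime_pow Nat.prime_two).mp hidx
      rcases i with _ | i
      · simpa using hie
      · exact absurd (hie ▸ Dvd.intro_left (2 ^ i) rfl) hodd
    rw [Subgroup.index_eq_one] at hone
    intro y hy
    have h1 : (⟨y, hy⟩ : N) ∈ C' := by rw [hone]; exact Subgroup.mem_top _
    exact h1

end Cfsg.Agent.S4028
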