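import Cfsg.Statements.S4029
import Cfsg.Agent.Lib.FGS.Cover
import Cfsg.Agent.Lib.FGS.Elem
import Cfsg.Agent.Lib.Solv.PGroup

set_option autoImplicit false
open Cfsg
open scoped commutatorElement
open scoped Pointwise

namespace Cfsg.Agent.S4029

theorem h8_inv_sq {P : Type*} [Group P] [Finite P]
    (hirr : ∀ y : P, Subgroup.normalizer ((Subgroup.zpowers y : Subgroup P) : Set P) ≤ Subgroup.centralizer {y})
    (x g : P) (h : g * x * g⁻¹ = x⁻¹) : x * x = 1 ∧ g * x = x * g := by
  have hg : g ∈ Subgroup.normalizer ((Subgroup.zpowers x : Subgroup P) : Set P) := by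
    rw [Subgroup.mem_normalizer_iff]
    have hgi : g⁻¹ * x * g⁻¹⁻¹ = x⁻¹ := by
      have h1 : x = g⁻¹ * x⁻¹ * g := by
        rw [← h]; group
      have h2 : g⁻¹ * x * g = (g⁻¹ * x⁻¹ * g)⁻¹ := by
        group
      rw [inv_inv, h2, ← h1]
    have hz : ∀ (c : P), c * x * c⁻¹ = x⁻¹ → ∀ n : ℤ, c * (x ^ n) * c⁻¹ = (x⁻¹) ^ n := by
      intro c hc n
      rw [← hc]
      have := MulAut.conj c |>.toMonoidHom.map_zpow x n
      simpa [MulAut.conj_apply] using this
    intro n
    simp only [SetLike.mem_coe, Subgroup.mem_zpowers_iff]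
    constructor
    · rintro ⟨k, rfl⟩
      refine ⟨-k, ?_⟩
      rw [hz g h k]
      simp
    · rintro ⟨k, hk⟩
      refine ⟨-k, ?_⟩
      have h3 := hz g⁻¹ hgi k
      rw [hk] at h3
      have h4 : n = x ^ (-k) := by
        have h5 : g⁻¹ * (g * n * g⁻¹) * g⁻¹⁻¹ = x⁻¹ ^ k := h3
        have h6 : g⁻¹ * (g * n * g⁻¹) * g⁻¹⁻¹ = n := by group
        rw [h6] at h5
        rw [h5]; simp
      exact h4.symm
  have hc := hirr x hg
  have h1 := Subgroup.mem_centralizer_iff.1 hc x (Set.mem_singleton x)
  have h2 : g * x = x * g := h1.symm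
  refine ⟨?_, h2⟩
  have h3 : g * x * g⁻¹ = x := by rw [h2]; group
  rw [h3] at h
  nth_rewrite 1 [h]
  simp

/-- Let P be a finite 2-group in which N_P(⟨y⟩) = C_P(y) for every y ∈ P. If s is the number of conjugacy classes of involutions of P, then #(P/Φ(P)) ≤ s + 1; in particular the subgroup generated by the involutions of P has order at least #(P/Φ(P)). -/
theorem result {P : Type*} [Group P] [Finite P] (hP : IsPGroup 2 P)
    (hirr : ∀ y : P, Subgroup.normalizer ((Subgroup.zpowers y : Subgroup P) : Set P) ≤ Subgroup.centralizer {y}) :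
    Nat.card (P ⧸ frattini P) ≤ Nat.card {c : ConjClasses P // ∃ y : P, ConjClasses.mk y = c ∧ orderOf y = 2} + 1 ∧
    Nat.card (P ⧸ frattini P) ≤ Nat.card (Subgroup.closure {y : P | orderOf y = 2}) := by
  classical
  haveI : Fintype P := Fintype.ofFinite P
  haveI : Fact (Nat.Prime 2) := ⟨Nat.prime_two⟩
  -- squares lie in the Frattini subgroup
  have hsq : ∀ b : P, b * b ∈ frattini P := by
    intro b
    have := (CfsgLib.Solv.pgroup_commutator_pow_le_frattini hP).2 b
    rwa [sq] at this
  let F : Finset P := Finset.univ.filter (fun w => w ∈ frattini P)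
  let ρ : P → ℕ := fun w => (Finset.univ.filter (fun b : P => b * b = w)).card
  have hρ1 : ∑ w ∈ F, ρ w = Fintype.card P := by
    have h1 := Finset.card_eq_sum_card_fiberwise (f := fun b : P => b * b) (s := Finset.univ) (t := F)
      (fun b _ => by simp [F, hsq b])
    rw [Finset.card_univ] at h1
    exact h1.symm
  have hCS : (Fintype.card P) ^ 2 ≤ F.card * ∑ w ∈ F, ρ w ^ 2 := by
    rw [← hρ1]
    exact sq_sum_le_card_mul_sum_sq
  have hN2 : ∑ g : P, ρ (g * g) = ∑ w ∈ F, ρ w ^ 2 := by
    have h1 := Finset.sum_fiberwise_of_maps_to (s := (Finset.univ : Finset P)) (t := F) (g := fun b : P => b * b)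
      (fun b _ => by simp [F, hsq b]) (fun g => ρ (g * g))
    rw [← h1]
    refine Finset.sum_congr rfl (fun w _ => ?_)
    have h2 : ∀ g ∈ Finset.univ.filter (fun b : P => b * b = w), ρ (g * g) = ρ w := by
      intro g hg
      rw [(Finset.mem_filter.1 hg).2]
    rw [Finset.sum_congr rfl h2, Finset.sum_const, smul_eq_mul, sq]
  let I : Finset P := Finset.univ.filter (fun x : P => x * x = 1)
  let cen : P → Finset P := fun x => Finset.univ.filter (fun g : P => g * x = x * g)
  have hM2 : ∑ g : P, ρ (g * g) = ∑ x ∈ I, (cen x).card := by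
    simp only [ρ]
    rw [← Finset.card_sigma, ← Finset.card_sigma]
    refine Finset.card_nbij' (fun p => ⟨p.1⁻¹ * p.2, p.1⟩) (fun p => ⟨p.2, p.2 * p.1⟩) ?_ ?_ ?_ ?_
    · rintro ⟨g, a⟩ h
      simp only [Finset.coe_sigma, Set.mem_sigma_iff, Finset.mem_coe, Finset.mem_filter, Finset.mem_univ, true_and] at h
      have h1 : g * (g⁻¹ * a) * g⁻¹ = (g⁻¹ * a)⁻¹ := by
        rw [mul_inv_rev, inv_inv, mul_inv_cancel_left]
        have : a * a = g * g := h
        calc a * g⁻¹ = a⁻¹ * (a * a) * g⁻¹ := by group
          _ = a⁻¹ * (g * g) * g⁻¹ := by rw [this]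
          _ = _ := by group
      obtain ⟨h2, h3⟩ := h8_inv_sq hirr _ _ h1
      simp only [Finset.coe_sigma, Set.mem_sigma_iff, Finset.mem_coe, Finset.mem_filter, Finset.mem_univ, true_and, I, cen]
      exact ⟨h2, h3⟩
    · rintro ⟨x, g⟩ h
      simp only [Finset.coe_sigma, Set.mem_sigma_iff, Finset.mem_coe, Finset.mem_filter, Finset.mem_univ, true_and, I, cen] at h
      obtain ⟨h1, h2⟩ := h
      simp only [Finset.coe_sigma, Set.mem_sigma_iff, Finset.mem_coe, Finset.mem_filter, Finset.mem_univ, true_and]
      calc g * x * (g * x) = g * (x * g) * x := by group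
        _ = g * (g * x) * x := by rw [h2]
        _ = g * g * (x * x) := by group
        _ = g * g := by rw [h1, mul_one]
    · rintro ⟨g, a⟩ _
      simp
    · rintro ⟨x, g⟩ _
      simp
  -- class counting
  let C0 : Finset (ConjClasses P) := I.image ConjClasses.mk
  have hsum : ∑ x ∈ I, (cen x).card ≤ C0.card * Fintype.card P := by
    have h1 := Finset.sum_fiberwise_of_maps_to (s := I) (t := C0) (g := fun x : P => ConjClasses.mk x)
      (fun b hb => Finset.mem_image_of_mem _ hb) (fun x => (cen x).card)
    rw [← h1, ← smul_eq_mul]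
    refine Finset.sum_le_card_nsmul _ _ _ (fun c hc => ?_)
    obtain ⟨x0, hx0, rfl⟩ := Finset.mem_image.1 hc
    obtain ⟨f, hf⟩ : ∃ f, f = I.filter (fun x => ConjClasses.mk x = ConjClasses.mk x0) := ⟨_, rfl⟩
    rw [← hf]
    have hne : 0 < f.card := Finset.card_pos.2 ⟨x0, by rw [hf]; simp [hx0]⟩
    have hbound : ∀ x ∈ f, f.card * (cen x).card ≤ Fintype.card P := by
      intro x hx
      have hx' := (Finset.mem_filter.1 (hf ▸ hx)).2
      have h2 : f.card ≤ (Subgroup.centralizer ({x} : Set P)).index := by
        rw [CfsgLib.FGS.index_centralizer_eq_card_conj x, Nat.card_eq_fintype_card, Fintype.card_subtype]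
        refine Finset.card_le_card (fun y hy => ?_)
        have hy' := (Finset.mem_filter.1 (hf ▸ hy)).2
        simp only [Finset.mem_filter, Finset.mem_univ, true_and]
        have : ConjClasses.mk x = ConjClasses.mk y := by rw [hx', hy']
        exact ConjClasses.mk_eq_mk_iff_isConj.1 this
      have h3 : (cen x).card = Nat.card (Subgroup.centralizer ({x} : Set P)) := by
        rw [Nat.card_eq_fintype_card, Fintype.card_subtype]
        congr 1
        ext g
        simp only [cen, Finset.mem_filter, Finset.mem_univ, true_and]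
        rw [Subgroup.mem_centralizer_singleton_iff]
      have h4 := Subgroup.card_mul_index (Subgroup.centralizer ({x} : Set P))
      rw [← h3, Nat.card_eq_fintype_card] at h4
      calc f.card * (cen x).card ≤ (Subgroup.centralizer ({x} : Set P)).index * (cen x).card :=
            Nat.mul_le_mul_right _ h2
        _ = Fintype.card P := by rw [mul_comm, h4]
    have h5 : f.card * (∑ x ∈ f, (cen x).card) ≤ f.card * Fintype.card P := by
      rw [Finset.mul_sum]
      calc ∑ x ∈ f, f.card * (cen x).card ≤ ∑ x ∈ f, Fintype.card P := Finset.sum_le_sum hbound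
        _ = f.card * Fintype.card P := by rw [Finset.sum_const, smul_eq_mul]
    exact Nat.le_of_mul_le_mul_left h5 hne
  obtain ⟨s, hs⟩ : ∃ s, s = Nat.card {c : ConjClasses P // ∃ y : P, ConjClasses.mk y = c ∧ orderOf y = 2} := ⟨_, rfl⟩
  rw [← hs]
  have hC0 : C0.card ≤ s + 1 := by
    have h1 : C0 ⊆ insert (ConjClasses.mk (1 : P)) (Finset.univ.filter (fun c : ConjClasses P => ∃ y : P, ConjClasses.mk y = c ∧ orderOf y = 2)) := by
      intro c hc
      obtain ⟨x, hx, rfl⟩ := Finset.mem_image.1 hc
      by_cases hx1 : x = 1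
      · subst hx1; exact Finset.mem_insert_self _ _
      · refine Finset.mem_insert_of_mem (Finset.mem_filter.2 ⟨Finset.mem_univ _, x, rfl, ?_⟩)
        have hxx : x ^ 2 = 1 := by rw [sq]; exact (Finset.mem_filter.1 hx).2
        exact orderOf_eq_prime hxx hx1
    have h2 := Finset.card_le_card h1
    have h3 := Finset.card_insert_le (ConjClasses.mk (1 : P)) (Finset.univ.filter (fun c : ConjClasses P => ∃ y : P, ConjClasses.mk y = c ∧ orderOf y = 2))
    have h4 : (Finset.univ.filter (fun c : ConjClasses P => ∃ y : P, ConjClasses.mk y = c ∧ orderOf y = 2)).card = s := by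
      rw [hs, Nat.card_eq_fintype_card, Fintype.card_subtype]
    omega
  have hfirst : Nat.card (P ⧸ frattini P) ≤ s + 1 := by
    have hFc : F.card = Nat.card (frattini P) := by
      rw [Nat.card_eq_fintype_card, Fintype.card_subtype]
    have h1 := Subgroup.card_mul_index (frattini P)
    rw [Nat.card_eq_fintype_card (α := P)] at h1
    have hcp : 0 < Fintype.card P := Fintype.card_pos
    have h2 : (Fintype.card P) ^ 2 ≤ F.card * ((s + 1) * Fintype.card P) := by
      calc (Fintype.card P) ^ 2 ≤ F.card * ∑ w ∈ F, ρ w ^ 2 := hCS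
        _ = F.card * ∑ x ∈ I, (cen x).card := by rw [← hN2, hM2]
        _ ≤ F.card * ((s + 1) * Fintype.card P) := by
          apply Nat.mul_le_mul_left
          exact hsum.trans (Nat.mul_le_mul_right _ hC0)
    have h3 : Fintype.card P ≤ F.card * (s + 1) := by
      rw [sq, ← mul_assoc] at h2
      exact Nat.le_of_mul_le_mul_right h2 hcp
    rw [← hFc] at h1
    have h4 : 0 < F.card := Finset.card_pos.2 ⟨1, by simp [F, Subgroup.one_mem]⟩
    rw [← h1] at h3
    show (frattini P).index ≤ s + 1
    exact Nat.le_of_mul_le_mul_left h3 h4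
  refine ⟨hfirst, hfirst.trans ?_⟩
  -- the number of involution classes plus one is at most the size of the closure
  rw [hs]
  let f : Option {c : ConjClasses P // ∃ y : P, ConjClasses.mk y = c ∧ orderOf y = 2} → Subgroup.closure {y : P | orderOf y = 2} :=
    fun o => match o with
      | none => 1
      | some c => ⟨c.2.choose, Subgroup.subset_closure c.2.choose_spec.2⟩
  have hf : Function.Injective f := by
    have hfs : ∀ c : {c : ConjClasses P // ∃ y : P, ConjClasses.mk y = c ∧ orderOf y = 2},
        ((f (some c) : Subgroup.closure {y : P | orderOf y = 2}) : P) = c.2.choose := fun c => rfl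
    have hne : ∀ c : {c : ConjClasses P // ∃ y : P, ConjClasses.mk y = c ∧ orderOf y = 2},
        f (some c) ≠ f none := by
      intro c h
      have h1 : ((f (some c) : Subgroup.closure {y : P | orderOf y = 2}) : P) = 1 := by
        rw [h]; rfl
      rw [hfs] at h1
      have h2 := c.2.choose_spec.2
      rw [h1, orderOf_one] at h2
      omega
    intro a b hab
    rcases a with _ | a <;> rcases b with _ | b
    · rfl
    · exact absurd hab.symm (hne b)
    · exact absurd hab (hne a)
    · congr 1
      apply Subtype.ext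
      have h1 : ((f (some a) : Subgroup.closure {y : P | orderOf y = 2}) : P) = ((f (some b) : Subgroup.closure {y : P | orderOf y = 2}) : P) := by
        rw [hab]
      rw [hfs, hfs] at h1
      rw [← a.2.choose_spec.1, ← b.2.choose_spec.1, h1]
  have := Nat.card_le_card_of_injective f hf
  rw [Finite.card_option] at this
  exact this

end Cfsg.Agent.S4029
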