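import Cfsg.Statements.S4032
import Cfsg.Agent.Lib.FGS.Lift

set_option autoImplicit false
open Cfsg
open scoped Pointwise

namespace Cfsg.Agent.S4032

/-- Let π be a set of primes and G a finite group in which N_G(⟨x⟩) = C_G(x) for every π-element x. If N is a normal subgroup of G whose order is divisible by no prime of π, then G/N has the same property: N_{G/N}(⟨y⟩) = C_{G/N}(y) for every π-element y of G/N. -/
theorem result {G : Type*} [Group G] [Finite G] (π : Set ℕ)
    (hirr : ∀ x : G, (∀ r : ℕ, r.Prime → r ∣ orderOf x → r ∈ π) →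
      Subgroup.normalizer ((Subgroup.zpowers x : Subgroup G) : Set G) ≤ Subgroup.centralizer {x})
    (N : Subgroup G) [N.Normal] (hN : ∀ r : ℕ, r.Prime → r ∣ Nat.card N → r ∉ π) :
    ∀ y : G ⧸ N, (∀ r : ℕ, r.Prime → r ∣ orderOf y → r ∈ π) →
      Subgroup.normalizer ((Subgroup.zpowers y : Subgroup (G ⧸ N)) : Set (G ⧸ N)) ≤ Subgroup.centralizer {y} := by
  classical
  rename_i hNn
  intro y hy
  obtain ⟨x₀, rfl⟩ := QuotientGroup.mk_surjective y
  obtain ⟨x, hxy, hxπ⟩ := CfsgLib.FGS.exists_pi_lift π N _ hy _ x₀ rfl rfl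
  rw [← hxy]
  clear hy hxy
  have hcop : (Nat.card N).Coprime (orderOf x) := by
    apply Nat.coprime_of_dvd
    intro r hr h1 h2
    exact hN r hr h1 (hxπ r hr h2)
  set Z := Subgroup.zpowers x with hZ
  have hZc : Nat.card Z = orderOf x := Nat.card_zpowers x
  have hinf : Z ⊓ N = ⊥ := by
    rw [eq_bot_iff]
    intro w hw
    obtain ⟨h1, h2⟩ := Subgroup.mem_inf.mp hw
    have h3 : orderOf w ∣ orderOf x := orderOf_dvd_of_mem_zpowers h1
    have h4 : orderOf w ∣ Nat.card N := Subgroup.orderOf_dvd_natCard N h2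
    have h5 := Nat.dvd_gcd h4 h3
    rw [hcop] at h5
    exact Subgroup.mem_bot.mpr (orderOf_eq_one_iff.mp (Nat.dvd_one.mp h5))
  set L := N ⊔ Z with hL
  have hNL : N ≤ L := le_sup_left
  have hZL : Z ≤ L := le_sup_right
  have hLN : L ≤ Subgroup.normalizer (N : Set G) := by
    rw [Subgroup.normalizer_eq_top]
    exact le_top
  have hcardL : Nat.card L = Nat.card N * orderOf x := by
    have h1 := CfsgLib.PLocal.card_sup_mul_card_inf Z N (by
      rw [Subgroup.normalizer_eq_top]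
      exact le_top)
    rw [hinf, Subgroup.card_bot, mul_one, hZc, sup_comm, mul_comm] at h1
    exact h1
  have hrel : N.relIndex L = orderOf x := by
    have h1 := Subgroup.card_mul_index (N.subgroupOf L)
    have h2 : Nat.card (N.subgroupOf L) = Nat.card N :=
      Nat.card_congr (Subgroup.subgroupOfEquivOfLe hNL).toEquiv
    rw [h2, hcardL] at h1
    exact Nat.eq_of_mul_eq_mul_left Nat.card_pos h1
  intro g' hg'
  obtain ⟨g, rfl⟩ := QuotientGroup.mk_surjective g'
  -- `g x g⁻¹ ∈ L`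
  have hgx : g * x * g⁻¹ ∈ L := by
    have h1 : ((g * x * g⁻¹ : G) : G ⧸ N) ∈ Subgroup.zpowers ((x : G) : G ⧸ N) :=
      (Subgroup.mem_normalizer_iff.mp hg' _).mp (Subgroup.mem_zpowers _)
    obtain ⟨j, hj⟩ := h1
    have h2 : ((x ^ j : G) : G ⧸ N) = ((g * x * g⁻¹ : G) : G ⧸ N) := hj
    have h3 : (x ^ j)⁻¹ * (g * x * g⁻¹) ∈ N := QuotientGroup.eq.mp h2
    have h4 : g * x * g⁻¹ = x ^ j * ((x ^ j)⁻¹ * (g * x * g⁻¹)) := by group
    rw [h4]
    exact L.mul_mem (hZL ⟨j, rfl⟩) (hNL h3)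
  have hCc : Nat.card (Subgroup.zpowers (g * x * g⁻¹)) = N.relIndex L := by
    rw [Nat.card_zpowers, hrel]
    exact (MulAut.conj g).orderOf_eq x
  obtain ⟨n, hn, hconj⟩ := CfsgLib.Solv.sz_conj_in N L (Subgroup.zpowers (g * x * g⁻¹)) Z hNL hLN
    (by rw [hrel]; exact hcop) (Subgroup.zpowers_le.mpr hgx) hZL hCc (by rw [hZc, hrel])
    (Or.inr (Group.isSolvable_of_comm (fun a b => (IsCyclic.commGroup (α := Subgroup.zpowers (g * x * g⁻¹))).mul_comm a b)))
  have hng : n * g ∈ Subgroup.normalizer ((Z : Subgroup G) : Set G) := by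
    apply CfsgLib.FGS.mem_norm_zpowers
    have h5 : n * (g * x * g⁻¹) * n⁻¹ ∈ MulAut.conj n • Subgroup.zpowers (g * x * g⁻¹) := by
      rw [CfsgLib.FGS.mem_conj_smul_iff]
      have : n⁻¹ * (n * (g * x * g⁻¹) * n⁻¹) * n = g * x * g⁻¹ := by group
      rw [this]
      exact Subgroup.mem_zpowers _
    rw [hconj] at h5
    have h6 : n * g * x * (n * g)⁻¹ = n * (g * x * g⁻¹) * n⁻¹ := by group
    rw [h6]
    exact h5
  have h7 := hirr x hxπ hng
  rw [Subgroup.mem_centralizer_singleton_iff] at h7 ⊢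
  have h8 : ((n : G) : G ⧸ N) = 1 := (QuotientGroup.eq_one_iff n).mpr hn
  have h9 := congrArg (fun z : G => (z : G ⧸ N)) h7
  simp only [QuotientGroup.mk_mul, h8, one_mul, mul_one] at h9
  exact h9

end Cfsg.Agent.S4032
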