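import Cfsg.Statements.S4034
import Cfsg.Agent.Lib.FGS.PReg

set_option autoImplicit false
open Cfsg
open scoped commutatorElement
open scoped Pointwise

namespace Cfsg.Agent.S4034

/-- Let G be a finite group and p a prime. Every conjugacy class of p-regular elements of G (elements of order prime to p) has p-power size if and only if G has an abelian p-complement, i.e. an abelian subgroup of order prime to p and p-power index. -/
theorem result {G : Type*} [Group G] [Finite G] {p : ℕ} (hp : p.Prime) :
    (∀ x : G, (orderOf x).Coprime p → ∃ k : ℕ, (ConjClasses.mk x).carrier.ncard = p ^ k) ↔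
    (∃ H : Subgroup G, IsMulCommutative H ∧ ¬ p ∣ Nat.card H ∧ ∃ k : ℕ, H.index = p ^ k) := by
  have key : ∀ x : G, (ConjClasses.mk x).carrier.ncard = (Subgroup.centralizer ({x} : Set G)).index := by
    intro x
    rw [CfsgLib.FGS.index_centralizer_eq_card_conj x, ← Nat.card_coe_set_eq]
    apply Nat.card_congr
    refine Equiv.subtypeEquivRight (fun u => ?_)
    rw [ConjClasses.mem_carrier_iff_mk_eq, ConjClasses.mk_eq_mk_iff_isConj]
    exact isConj_comm
  constructor
  · intro h
    exact CfsgLib.FGS.PReg.R_of_Q hp (fun x hx => by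
      obtain ⟨k, hk⟩ := h x hx
      exact ⟨k, by rw [← key x, hk]⟩)
  · intro h x hx
    obtain ⟨k, hk⟩ := CfsgLib.FGS.PReg.Q_of_R hp h x hx
    exact ⟨k, by rw [key x, hk]⟩

end Cfsg.Agent.S4034
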