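import Cfsg.Statements.S4035
import Cfsg.Agent.Lib.FGS.RegClass
import Cfsg.Agent.Lib.FGS.Elem

set_option autoImplicit false
open Cfsg

namespace Cfsg.Agent.S4035

/-- Let G be a finite group and p a prime such that p divides the size of no conjugacy class of p-regular elements (elements of order prime to p). Then G is the internal direct product of a Sylow p-subgroup P and a normal subgroup H of order prime to p: P is normal, P ⊓ H = 1 and PH = G. -/
theorem result {G : Type*} [Group G] [Finite G] {p : ℕ} [Fact p.Prime]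
    (h : ∀ x : G, (orderOf x).Coprime p → ¬ p ∣ (ConjClasses.mk x).carrier.ncard) (P : Sylow p G) :
    (P : Subgroup G).Normal ∧ ∃ H : Subgroup G, H.Normal ∧ ¬ p ∣ Nat.card H ∧
      (P : Subgroup G) ⊓ H = ⊥ ∧ (P : Subgroup G) ⊔ H = ⊤ := by
  have key : ∀ x : G, (ConjClasses.mk x).carrier.ncard = (Subgroup.centralizer ({x} : Set G)).index := by
    intro x
    rw [CfsgLib.FGS.index_centralizer_eq_card_conj x, ← Nat.card_coe_set_eq]
    apply Nat.card_congr
    refine Equiv.subtypeEquivRight (fun u => ?_)
    rw [ConjClasses.mem_carrier_iff_mk_eq, ConjClasses.mk_eq_mk_iff_isConj]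
    exact isConj_comm
  obtain ⟨h1, H, h2, h3, h4, h5, -⟩ := CfsgLib.FGS.direct_of_regular (p := p)
    (fun x hx => by rw [← key x]; exact h x hx) P
  exact ⟨h1, H, h2, h3, h4, h5⟩

end Cfsg.Agent.S4035
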