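import Cfsg.Statements.S4036
import Cfsg.Agent.Lib.FGS.Pg

set_option autoImplicit false
open Cfsg

namespace Cfsg.Agent.S4036

/-- Let P be a finite abelian p-group and K a group of automorphisms of P (a subgroup of Aut P) whose order is divisible by p. If all non-identity elements of K have the same fixed-point subgroup on P, then K has no non-trivial normal subgroup of order prime to p. -/
theorem result {P : Type*} [CommGroup P] [Finite P] {p : ℕ}
    [Fact p.Prime] (hP : IsPGroup p P) (K : Subgroup (MulAut P)) (hK : p ∣ Nat.card K)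
    (hfix : ∀ x y : MulAut P, x ∈ K → y ∈ K → x ≠ 1 → y ≠ 1 → ∀ v : P, x v = v ↔ y v = v) :
    ∀ N : Subgroup ↥K, N.Normal → ¬ p ∣ Nat.card N → N = ⊥ := by
  classical
  intro N hNn hpN
  by_contra hN
  have hpp : p.Prime := Fact.out
  letI : Fintype N := Fintype.ofFinite N
  obtain ⟨n₀, hn₀⟩ : ∃ n₀ : N, n₀ ≠ 1 := by
    by_contra hcon
    apply hN
    rw [eq_bot_iff]
    intro w hw
    by_contra hw1
    exact hcon ⟨⟨w, hw⟩, fun h => hw1 (Subgroup.mem_bot.mpr (congrArg Subtype.val h))⟩
  have hn₀' : ((n₀ : K) : MulAut P) ≠ 1 := by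
    intro h
    apply hn₀
    apply Subtype.ext
    apply Subtype.ext
    exact h
  obtain ⟨x, hx⟩ := exists_prime_orderOf_dvd_card' (G := K) p hK
  have hx' : orderOf (x : MulAut P) = p := by rwa [Subgroup.orderOf_coe]
  have hx1 : (x : MulAut P) ≠ 1 := by
    intro h
    rw [h, orderOf_one] at hx'
    exact hpp.one_lt.ne hx'
  let τ : P →* P := MonoidHom.mk' (fun v => ∏ n : N, ((n : K) : MulAut P) v) (by
    intro a b
    simp only [map_mul, Finset.prod_mul_distrib])
  have hτ : ∀ v, τ v = ∏ n : N, ((n : K) : MulAut P) v := fun v => rfl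
  -- equivariance
  have hequi : ∀ k : K, ∀ v, τ ((k : MulAut P) v) = (k : MulAut P) (τ v) := by
    intro k v
    rw [hτ, hτ, map_prod]
    let σ : N → N := fun n => ⟨k⁻¹ * n * k, by
      have := hNn.conj_mem n n.2 k⁻¹
      simpa using this⟩
    have hσ : Function.Bijective σ := by
      apply Finite.injective_iff_bijective.mp
      intro a b hab
      have h1 : k⁻¹ * (a : K) * k = k⁻¹ * (b : K) * k := congrArg Subtype.val hab
      exact Subtype.ext (mul_left_cancel (mul_right_cancel h1))
    rw [← Function.Bijective.prod_comp hσ (fun n : N => (k : MulAut P) (((n : K) : MulAut P) v))]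
    apply Finset.prod_congr rfl
    intro n _
    have : ((k : K) : MulAut P) * (((σ n : N) : K) : MulAut P) = ((n : K) : MulAut P) * ((k : K) : MulAut P) := by
      have h1 : (k : K) * ((σ n : N) : K) = (n : K) * k := by
        show k * (k⁻¹ * (n : K) * k) = n * k
        group
      have h2 := congrArg (fun z : K => (z : MulAut P)) h1
      simpa using h2
    have h3 := congrArg (fun m : MulAut P => m v) this
    exact h3.symm
  -- fixed by `n₀`
  have hfixn : ∀ v, ((n₀ : K) : MulAut P) (τ v) = τ v := by
    intro v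
    rw [hτ, map_prod]
    have hb : Function.Bijective (fun n : N => n₀ * n) := (Equiv.mulLeft n₀).bijective
    rw [← Function.Bijective.prod_comp hb (fun n : N => ((n : K) : MulAut P) v)]
    apply Finset.prod_congr rfl
    intro n _
    rfl
  -- injectivity
  have hinj : Function.Injective τ := by
    rw [injective_iff_map_eq_one]
    intro w₀ hw₀
    by_contra hw₀1
    set W := τ.ker with hW
    have hWinv : ∀ w ∈ W, (x : MulAut P) w ∈ W := by
      intro w hw
      rw [hW, MonoidHom.mem_ker] at hw ⊢
      rw [hequi, hw, map_one]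
    haveI hWnt : Nontrivial W := by
      refine ⟨⟨⟨w₀, hw₀⟩, 1, fun h => hw₀1 (congrArg Subtype.val h)⟩⟩
    have hWp : IsPGroup p W := hP.to_subgroup W
    let φ : W →* W := MonoidHom.mk' (fun w => ⟨(x : MulAut P) w, hWinv w w.2⟩) (by
      intro a b
      apply Subtype.ext
      simp)
    have hφit : ∀ (i : ℕ) (w : W), ((φ^[i]) w : P) = ((x : MulAut P) ^ i) w := by
      intro i w
      induction i with
      | zero => rfl
      | succ i ih =>
        rw [Function.iterate_succ_apply', pow_succ']
        show (x : MulAut P) ((φ^[i]) w : P) = _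
        rw [ih]
        rfl
    have hφp : ∀ w : W, (φ^[p]) w = w := by
      intro w
      apply Subtype.ext
      rw [hφit, ← hx', pow_orderOf_eq_one]
      rfl
    obtain ⟨w, hw1, hwfix⟩ := CfsgLib.FGS.exists_fixed_ne_one hWp φ hφp
    have hwfix' : (x : MulAut P) (w : P) = w := congrArg Subtype.val hwfix
    have hall : ∀ n : N, ((n : K) : MulAut P) (w : P) = w := by
      intro n
      by_cases hn : n = 1
      · rw [hn]
        rfl
      · have hn' : ((n : K) : MulAut P) ≠ 1 := by
          intro h
          apply hn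
          apply Subtype.ext
          apply Subtype.ext
          exact h
        exact (hfix _ _ x.2 (n : K).2 hx1 hn' w).mp hwfix'
    have h1 : τ (w : P) = 1 := w.2
    rw [hτ, Finset.prod_congr rfl (fun n _ => hall n), Finset.prod_const, Finset.card_univ,
      ← Nat.card_eq_fintype_card] at h1
    apply hw1
    apply Subtype.ext
    obtain ⟨m, hm⟩ := (IsPGroup.iff_orderOf.mp hP) (w : P)
    have h2 := orderOf_dvd_of_pow_eq_one h1
    rw [hm] at h2
    rcases m with _ | m
    · rw [pow_zero] at hm
      exact orderOf_eq_one_iff.mp hm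
    · exact absurd (dvd_trans (Dvd.intro_left (p ^ m) (pow_succ p m).symm) h2) hpN
  have hsurj : Function.Surjective τ := Finite.surjective_of_injective hinj
  apply hx1
  ext v
  obtain ⟨v', rfl⟩ := hsurj v
  have h1 := hfixn v'
  exact (hfix _ _ (n₀ : K).2 x.2 hn₀' hx1 (τ v')).mp h1

end Cfsg.Agent.S4036
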