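import Cfsg.Statements.S4039
import Cfsg.Agent.Lib.H3.AlpGold
import Cfsg.Agent.Lib.Trans.Frob
import Cfsg.Agent.Lib.OOL.FPFThm
import Cfsg.Agent.Lib.Solv.CoprimeSylow
-- import your own Cfsg.Agent.* helpers here

set_option autoImplicit false
open Cfsg

namespace Cfsg.Agent.S4039

open Subgroup CfsgLib.ConjFam CfsgLib.AlpGold

universe u

section
variable {G : Type u} [Group G] [Finite G]

/-- Splitting a nilpotent subgroup at a prime. -/
theorem nil_split {p : ℕ} [hp : Fact p.Prime] (M : Subgroup G) (hnil : Group.IsNilpotent M) :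
    ∃ S K : Subgroup G, S ≤ M ∧ K ≤ M ∧ IsPGroup p S ∧ (Nat.card K).Coprime p ∧
      (∀ k ∈ K, ∀ s ∈ S, k * s = s * k) ∧ (∀ m ∈ M, ∃ k ∈ K, ∃ s ∈ S, m = k * s) ∧
      (∀ U : Subgroup G, U ≤ M → IsPGroup p U → U ≤ S) := by
  obtain ⟨P, N, hN, hc⟩ := CfsgLib.OOL.np_of_isNilpotent (p := p) hnil
  haveI := hN
  have hPn : (P : Subgroup M).Normal :=
    Sylow.normal_of_normalizerCondition Group.normalizerCondition_of_isNilpotent P
  haveI := hPn
  have hNP : Disjoint N (P : Subgroup M) := hc.disjoint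
  have hcomm := Subgroup.commute_of_normal_of_disjoint N (P : Subgroup M) hN hPn hNP
  refine ⟨(P : Subgroup M).map M.subtype, N.map M.subtype, Subgroup.map_subtype_le _,
    Subgroup.map_subtype_le _, P.isPGroup'.map M.subtype, ?_, ?_, ?_, ?_⟩
  · rw [Subgroup.card_map_of_injective M.subtype_injective]
    rw [← hc.index_eq_card]
    exact ((Nat.Prime.coprime_iff_not_dvd hp.out).2 P.not_dvd_index).symm
  · rintro _ ⟨k, hk, rfl⟩ _ ⟨s, hs, rfl⟩
    exact congrArg Subtype.val (hcomm k s hk hs)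
  · intro m hm
    obtain ⟨⟨k, s⟩, hks⟩ := hc.2 ⟨m, hm⟩
    refine ⟨k.1, ⟨k.1, k.2, rfl⟩, s.1, ⟨s.1, s.2, rfl⟩, ?_⟩
    have := congrArg Subtype.val hks
    simpa using this.symm
  · intro U hUM hUp
    have hU' : IsPGroup p (U.comap M.subtype) := hUp.comap_of_injective _ M.subtype_injective
    obtain ⟨Q, hQ⟩ := hU'.exists_le_sylow
    have hQP : Q = P := by
      haveI := Sylow.unique_of_normal P hPn
      exact Subsingleton.elim _ _
    intro u hu
    have hu' : (⟨u, hUM hu⟩ : M) ∈ U.comap M.subtype := hu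
    have := hQ hu'
    rw [hQP] at this
    exact ⟨_, this, rfl⟩

theorem np_step {p : ℕ} [hp : Fact p.Prime] (M : Subgroup G) (hmax : IsCoatom M)
    (hcore : ∀ N : Subgroup G, N.Normal → N ≤ M → N = ⊥)
    (h2 : ∀ a ∈ M, ∀ b ∈ M, ∀ c ∈ M, (a * b * a⁻¹ * b⁻¹) * c = c * (a * b * a⁻¹ * b⁻¹))
    (S K : Subgroup G) (hSM : S ≤ M) (hKM : K ≤ M) (hSp : IsPGroup p S) (hKc : (Nat.card K).Coprime p)
    (hcomm : ∀ k ∈ K, ∀ s ∈ S, k * s = s * k)
    (hfac : ∀ m ∈ M, ∃ k ∈ K, ∃ s ∈ S, m = k * s)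
    (hU : ∀ U : Subgroup G, U ≤ M → IsPGroup p U → U ≤ S) (hSne : S ≠ ⊥) :
    ∃ Sy : Sylow p G, (Sy : Subgroup G) = S ∧ ∃ N : Subgroup G, N.Normal ∧ N.IsComplement' (Sy : Subgroup G) := by
  have L1 : ∀ W : Subgroup G, W ≠ ⊥ → W ≤ S → S ≤ normalizer (W : Set G) → normalizer (W : Set G) = M := by
    intro W hW hWS hSN
    have hMN : M ≤ normalizer (W : Set G) := by
      intro m hm
      obtain ⟨k, hk, s, hs, rfl⟩ := hfac m hm
      refine CfsgLib.PLocal.mem_normalizer_of_conj_le fun w hw => ?_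
      have h1 : s * w * s⁻¹ ∈ W := ((Subgroup.mem_normalizer_iff.1 (hSN hs)) w).1 hw
      have h3 : k * (s * w * s⁻¹) = (s * w * s⁻¹) * k := hcomm k hk _ (hWS h1)
      have : k * s * w * (k * s)⁻¹ = s * w * s⁻¹ := by
        calc k * s * w * (k * s)⁻¹ = k * (s * w * s⁻¹) * k⁻¹ := by group
          _ = _ := by rw [h3]; group
      rw [this]; exact h1
    have hne : normalizer (W : Set G) ≠ ⊤ := by
      intro h
      have hn : W.Normal := by
        refine ⟨fun n hn g => ?_⟩
        have hg : g ∈ normalizer (W : Set G) := by rw [h]; trivial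
        exact ((Subgroup.mem_normalizer_iff.1 hg) n).1 hn
      exact hW (hcore W hn (hWS.trans hSM))
    by_contra hne2
    exact hne (hmax.2 _ (lt_of_le_of_ne hMN (Ne.symm hne2)))
  have hSnorm : normalizer (S : Set G) = M := L1 S hSne le_rfl le_normalizer
  obtain ⟨Sy, hSy⟩ := hSp.exists_le_sylow
  have hSyS : (Sy : Subgroup G) = S := by
    by_contra hne
    have hlt : S.subgroupOf (Sy : Subgroup G) < ⊤ := by
      refine lt_of_le_of_ne le_top fun h => hne ?_
      refine le_antisymm ?_ hSy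
      rw [Subgroup.subgroupOf_eq_top] at h
      exact h
    haveI : Group.IsNilpotent (Sy : Subgroup G) := Sy.isPGroup'.isNilpotent
    have h1 := Group.normalizerCondition_of_isNilpotent (G := (Sy : Subgroup G)) _ hlt
    obtain ⟨x, hx, hxn⟩ := SetLike.exists_of_lt h1
    have hxN : (x : G) ∈ normalizer (S : Set G) := by
      refine CfsgLib.PLocal.mem_normalizer_of_conj_le fun s hs => ?_
      have h3 := ((Subgroup.mem_normalizer_iff.1 hx) ⟨s, hSy hs⟩).1 (by
        rw [Subgroup.mem_subgroupOf]; exact hs)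
      rw [Subgroup.mem_subgroupOf] at h3
      simpa using h3
    rw [hSnorm] at hxN
    have hU' : (Sy : Subgroup G) ⊓ M ≤ S := hU _ inf_le_right (Sy.isPGroup'.to_le inf_le_left)
    apply hxn
    rw [Subgroup.mem_subgroupOf]
    exact hU' ⟨x.2, hxN⟩
  have L3 : ∀ D ∈ AG p (Sy : Subgroup G), normalizer (D : Set G) = M := by
    rintro D ⟨hDS, hCO, hprod, -⟩
    rw [hSyS] at hDS
    obtain ⟨-, -, -, -, h5⟩ := hprod
    have hcent : ∀ x ∈ S, x ∈ centralizer (D : Set G) → x ∈ D := by
      intro x hxS hxC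
      have hxO2 := hCO hxC
      rw [← h5] at hxO2
      have hcoe := Subgroup.coe_mul_of_left_le_normalizer_right (O1 p (normalizer (D : Set G))) D (O1_le _)
      have hx3 : x ∈ ((O1 p (normalizer (D : Set G)) ⊔ D : Subgroup G) : Set G) := hxO2
      rw [hcoe] at hx3
      obtain ⟨a, ha, d, hd, rfl⟩ := Set.mem_mul.1 hx3
      have hax : a ∈ S := by
        have := S.mul_mem hxS (S.inv_mem (hDS hd))
        simpa using this
      have ha1 : a = 1 := by
        have h6 : a ∈ O1 p (normalizer (D : Set G)) ⊓ S := ⟨ha, hax⟩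
        rw [O1_inf_bot _ hSp] at h6
        exact h6
      rw [ha1, one_mul]
      exact hd
    have hDne : D ≠ ⊥ := by
      rintro rfl
      apply hSne
      rw [eq_bot_iff]
      intro x hx
      refine hcent x hx ?_
      rw [Subgroup.mem_centralizer_iff]
      intro h hh
      have : h = 1 := hh
      rw [this]; simp
    refine L1 D hDne hDS ?_
    intro x hx
    refine CfsgLib.PLocal.mem_normalizer_of_conj_le fun d hd => ?_
    have h7 : x * d * x⁻¹ * d⁻¹ ∈ D := by
      refine hcent _ (S.mul_mem (S.mul_mem (S.mul_mem hx (hDS hd)) (S.inv_mem hx)) (S.inv_mem (hDS hd))) ?_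
      rw [Subgroup.mem_centralizer_iff]
      intro d' hd'
      exact (h2 x (hSM hx) d (hSM (hDS hd)) d' (hSM (hDS hd'))).symm
    have := D.mul_mem h7 hd
    simpa using this
  have L4 : ∀ (A : Set G) (h : G), Ch (AG p (Sy : Subgroup G)) A h → h ∈ M := by
    intro A h hh
    induction hh with
    | nil A => exact M.one_mem
    | cons hT hx hA _ ih => exact M.mul_mem (by rw [← L3 _ hT]; exact hx) ih
  refine ⟨Sy, hSyS, (CfsgLib.Trans.frobenius_criterion Sy).2 ?_⟩
  intro Q hQ g hg hcop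
  have hrc : rc g (Q : Set G) ⊆ (Sy : Subgroup G) := by
    rw [rc_of_mem_normalizer hg]
    exact hQ
  obtain ⟨c, h, hc, hh, hgeq⟩ := chain_AG Sy Q hQ g hrc
  have hhM := L4 _ _ hh
  obtain ⟨k, hk, s, hs, hks⟩ := hfac h hhM
  have hQS : Q ≤ S := hSyS ▸ hQ
  have hconj1 : ∀ q ∈ Q, g⁻¹ * q * g = h⁻¹ * q * h := by
    intro q hq
    have h1 := (Subgroup.mem_centralizer_iff.1 hc) q hq
    rw [hgeq]
    have h3 : c⁻¹ * q * c = q := by
      have : q * c = c * q := h1
      rw [mul_assoc, this]; group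
    calc (c * h)⁻¹ * q * (c * h) = h⁻¹ * (c⁻¹ * q * c) * h := by group
      _ = _ := by rw [h3]
  have hpn : ∀ n : ℕ, g ^ n ∈ normalizer (Q : Set G) := fun n => Subgroup.pow_mem _ hg n
  have hconjn : ∀ n : ℕ, ∀ q ∈ Q, (g ^ n)⁻¹ * q * g ^ n = (h ^ n)⁻¹ * q * h ^ n := by
    intro n
    induction n with
    | zero => intro q hq; simp
    | succ n ih =>
      intro q hq
      have hq' : (g ^ n)⁻¹ * q * g ^ n ∈ Q := by
        have := ((Subgroup.mem_normalizer_iff.1 (Subgroup.inv_mem _ (hpn n))) q).1 hq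
        simpa using this
      have h1 := hconj1 _ hq'
      rw [ih q hq] at h1
      rw [pow_succ, pow_succ]
      calc (g ^ n * g)⁻¹ * q * (g ^ n * g) = g⁻¹ * ((g ^ n)⁻¹ * q * g ^ n) * g := by group
        _ = g⁻¹ * ((h ^ n)⁻¹ * q * h ^ n) * g := by rw [ih q hq]
        _ = h⁻¹ * ((h ^ n)⁻¹ * q * h ^ n) * h := h1
        _ = _ := by group
  obtain ⟨j, hj⟩ := hSp ⟨s, hs⟩
  have hsj : s ^ p ^ j = 1 := by
    have := congrArg Subtype.val hj
    simpa using this
  have hkscomm : Commute k s := hcomm k hk s hs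
  have hhj : h ^ p ^ j = k ^ p ^ j := by
    rw [hks, hkscomm.mul_pow, hsj, mul_one]
  have hgc : ∀ q ∈ Q, q * g ^ p ^ j = g ^ p ^ j * q := by
    intro q hq
    have h1 := hconjn (p ^ j) q hq
    have h3 : (h ^ p ^ j)⁻¹ * q * h ^ p ^ j = q := by
      rw [hhj]
      have h4 : k ^ p ^ j * q = q * k ^ p ^ j :=
        hcomm _ (K.pow_mem hk _) q (hQS hq)
      rw [mul_assoc, ← h4]; group
    rw [h3] at h1
    have h5 : g ^ p ^ j * ((g ^ p ^ j)⁻¹ * q * g ^ p ^ j) = g ^ p ^ j * q := by rw [h1]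
    rw [← h5]; group
  have hco : (p ^ j).Coprime (orderOf g) := Nat.Coprime.pow_left j hcop.symm
  obtain ⟨m, hm⟩ := exists_pow_eq_self_of_coprime hco
  rw [Subgroup.mem_centralizer_iff]
  intro q hq
  have h6 : Commute q (g ^ p ^ j) := hgc q hq
  have h7 : Commute q ((g ^ p ^ j) ^ m) := h6.pow_right m
  rw [hm] at h7
  exact h7

theorem main_ind (n : ℕ) : ∀ (G : Type u) [Group G] [Finite G], Nat.card G = n → ∀ (M : Subgroup G),
    IsCoatom M → Group.IsNilpotent M →
    (∀ a ∈ M, ∀ b ∈ M, ∀ c ∈ M, (a * b * a⁻¹ * b⁻¹) * c = c * (a * b * a⁻¹ * b⁻¹)) → Group.IsSolvable G := by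
  induction n using Nat.strong_induction_on with
  | _ n ih =>
  intro G _ _ hG M hmax hnil h2
  have hMs : Group.IsSolvable M := inferInstance
  by_cases hex : ∃ N : Subgroup G, N.Normal ∧ N ≠ ⊥ ∧ N ≤ M
  · obtain ⟨N, hN, hNe, hNM⟩ := hex
    haveI := hN
    have hcard : Nat.card (G ⧸ N) < n := by
      rw [← hG, Subgroup.card_eq_card_quotient_mul_card_subgroup N]
      have h1 : 1 < Nat.card N := by
        rw [Finite.one_lt_card_iff_nontrivial]
        exact (Subgroup.nontrivial_iff_ne_bot N).2 hNe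
      have h2 : 0 < Nat.card (G ⧸ N) := Nat.card_pos
      nlinarith
    have hsurj : Function.Surjective (QuotientGroup.mk' N) := QuotientGroup.mk'_surjective N
    have hcomap : (M.map (QuotientGroup.mk' N)).comap (QuotientGroup.mk' N) = M := by
      rw [Subgroup.comap_map_eq, QuotientGroup.ker_mk', sup_eq_left]
      exact hNM
    have hcoat : IsCoatom (M.map (QuotientGroup.mk' N)) := by
      constructor
      · intro h
        apply hmax.1
        rw [← hcomap, h, Subgroup.comap_top]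
      · intro X hX
        have h1 : M < X.comap (QuotientGroup.mk' N) := by
          refine lt_of_le_of_ne ?_ ?_
          · rw [← hcomap]
            exact Subgroup.comap_mono hX.le
          · intro h
            apply hX.ne
            rw [h, Subgroup.map_comap_eq_self_of_surjective hsurj]
        have h3 := hmax.2 _ h1
        rw [← Subgroup.map_comap_eq_self_of_surjective hsurj X, h3, ← MonoidHom.range_eq_map]
        exact MonoidHom.range_eq_top.2 hsurj
    have hnil' : Group.IsNilpotent (M.map (QuotientGroup.mk' N)) :=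
      Group.nilpotent_of_surjective ((QuotientGroup.mk' N).subgroupMap M)
        ((QuotientGroup.mk' N).subgroupMap_surjective M)
    have h2' : ∀ a ∈ M.map (QuotientGroup.mk' N), ∀ b ∈ M.map (QuotientGroup.mk' N),
        ∀ c ∈ M.map (QuotientGroup.mk' N), (a * b * a⁻¹ * b⁻¹) * c = c * (a * b * a⁻¹ * b⁻¹) := by
      rintro _ ⟨a, ha, rfl⟩ _ ⟨b, hb, rfl⟩ _ ⟨c, hc, rfl⟩
      have := congrArg (QuotientGroup.mk' N) (h2 a ha b hb c hc)
      simpa only [map_mul, map_inv] using this
    have hsq := ih _ hcard (G ⧸ N) rfl _ hcoat hnil' h2'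
    have hNs : Group.IsSolvable N := CfsgLib.Solv.subgroup_solvable_of_le hNM hMs
    exact Group.isSolvable_of_ker_le_range N.subtype (QuotientGroup.mk' N) (by
      rw [QuotientGroup.ker_mk', Subgroup.range_subtype])
  · have hcore : ∀ N : Subgroup G, N.Normal → N ≤ M → N = ⊥ := fun N hN hNM =>
      by_contra fun h => hex ⟨N, hN, h, hNM⟩
    have hstep : ∀ p : ℕ, p.Prime → p ∣ Nat.card M →
        (∃ Sy : Sylow p G, (Sy : Subgroup G) ≤ M) ∧ Cfsg.HasNormalPComplement p G := by
      intro p hp hpd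
      haveI := Fact.mk hp
      obtain ⟨S, K, hSM, hKM, hSp, hKc, hcomm, hfac, hU⟩ := nil_split (p := p) M hnil
      have hSne : S ≠ ⊥ := by
        rintro rfl
        have hMK : M ≤ K := by
          intro m hm
          obtain ⟨k, hk, s, hs, rfl⟩ := hfac m hm
          have : s = 1 := hs
          rw [this, mul_one]
          exact hk
        have h1 : p ∣ Nat.card K := hpd.trans (Subgroup.card_dvd_of_le hMK)
        have h3 := Nat.dvd_gcd h1 (dvd_refl p)
        rw [hKc] at h3
        exact hp.one_lt.ne' (Nat.dvd_one.1 h3)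
      obtain ⟨Sy, hSy, N, hN, hc⟩ := np_step M hmax hcore h2 S K hSM hKM hSp hKc hcomm hfac hU hSne
      exact ⟨⟨Sy, by rw [hSy]; exact hSM⟩, ⟨Sy, N, hN, hc⟩⟩
    set s := (Nat.card M).primeFactors with hs
    set R : Subgroup G := ⨅ p ∈ s, Cfsg.pPrimeCore p G with hR
    have hRn : R.Normal := by
      refine ⟨fun r hr g => ?_⟩
      rw [hR, Subgroup.mem_iInf] at hr ⊢
      intro p
      have h1 := hr p
      rw [Subgroup.mem_iInf] at h1 ⊢
      intro hp
      have h3 := h1 hp
      haveI : (Cfsg.pPrimeCore p G).Normal := CfsgLib.PLocal.pPrimeCore_normal'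
      exact Subgroup.Normal.conj_mem inferInstance _ h3 g
    have hidx : M.index ≠ 1 := fun h => hmax.1 (Subgroup.index_eq_one.1 h)
    obtain ⟨q, hq, hqd⟩ := Nat.exists_prime_and_dvd hidx
    haveI := Fact.mk hq
    have hqM : ¬ q ∣ Nat.card M := by
      intro h
      obtain ⟨⟨Sy, hSy⟩, -⟩ := hstep q hq h
      exact Sy.not_dvd_index (hqd.trans (Subgroup.index_dvd_of_le hSy))
    have hqG : q ∣ Nat.card G := hqd.trans (Subgroup.index_dvd_card M)
    obtain ⟨x, hx⟩ := exists_prime_orderOf_dvd_card' q hqG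
    have hxR : x ∈ R := by
      rw [hR, Subgroup.mem_iInf]
      intro p
      rw [Subgroup.mem_iInf]
      intro hp
      have hpp : p.Prime := Nat.prime_of_mem_primeFactors hp
      have hpd : p ∣ Nat.card M := Nat.dvd_of_mem_primeFactors hp
      obtain ⟨-, h1⟩ := hstep p hpp hpd
      haveI := Fact.mk hpp
      obtain ⟨N, hN, hNc, k, hk⟩ := CfsgLib.Trans.hasNormalPComplement_iff.1 h1
      haveI := hN
      have hNle : N ≤ Cfsg.pPrimeCore p G := CfsgLib.PLocal.le_pPrimeCore_of_normal _ hN hNc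
      apply hNle
      apply CfsgLib.Trans.mem_of_coprime_index
      rw [hk, hx]
      apply Nat.Coprime.pow_right
      rw [Nat.coprime_primes hq hpp]
      rintro rfl
      exact hqM hpd
    have hcop : (Nat.card M).Coprime (Nat.card R) := by
      apply Nat.coprime_of_dvd
      intro p hp h1 h3
      have hmem : p ∈ s := Nat.mem_primeFactors.2 ⟨hp, h1, Nat.card_pos.ne'⟩
      haveI := Fact.mk hp
      have hle : R ≤ Cfsg.pPrimeCore p G := by
        intro r hr
        rw [hR, Subgroup.mem_iInf] at hr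
        have h4 := hr p
        rw [Subgroup.mem_iInf] at h4
        exact h4 hmem
      have h5 : (Nat.card (Cfsg.pPrimeCore p G)).Coprime p := CfsgLib.PLocal.pPrimeCore_coprime
      have h6 := Nat.dvd_gcd (h3.trans (Subgroup.card_dvd_of_le hle)) (dvd_refl p)
      rw [h5] at h6
      exact hp.one_lt.ne' (Nat.dvd_one.1 h6)
    haveI := hRn
    have hMR : M ≤ normalizer (R : Set G) := by
      rw [Subgroup.normalizer_eq_top R]
      exact le_top
    obtain ⟨Q, hQ, hMQ⟩ := CfsgLib.Solv.exists_invariant_sylow (p := q) M R hMR hcop (Or.inl hMs)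
    have hqR : q ∣ Nat.card R := by
      have := orderOf_dvd_natCard (⟨x, hxR⟩ : R)
      rwa [Subgroup.orderOf_mk, hx] at this
    have hQne : Q ≠ ⊥ := by
      rintro rfl
      apply hQ.2.2
      rw [Subgroup.relIndex_bot_left]
      exact hqR
    have hsup : Q ⊔ M = ⊤ := by
      refine hmax.2 _ (lt_of_le_of_ne le_sup_right ?_)
      intro h
      have hQM : Q ≤ M := by rw [h]; exact le_sup_left
      apply hQne
      have h1 : Nat.card Q ∣ Nat.card M := Subgroup.card_dvd_of_le hQM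
      have h3 : Nat.card Q ∣ Nat.card R := Subgroup.card_dvd_of_le hQ.1
      have h4 := Nat.dvd_gcd h1 h3
      rw [hcop] at h4
      exact Subgroup.eq_bot_of_card_eq _ (Nat.dvd_one.1 h4)
    have hQs : Group.IsSolvable Q := by
      haveI : Group.IsNilpotent Q := hQ.2.1.isNilpotent
      infer_instance
    have hfin := CfsgLib.Signal.solvable_sup hMQ hQs hMs
    rw [hsup] at hfin
    exact Group.isSolvable_of_surjective (f := (Subgroup.topEquiv : (⊤ : Subgroup G) ≃* G).toMonoidHom)
      (Subgroup.topEquiv : (⊤ : Subgroup G) ≃* G).surjective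
end

/-- A finite group possessing a maximal subgroup that is nilpotent of class at most 2 is solvable. -/
theorem result {G : Type*} [Group G] [Finite G]
    (M : Subgroup G) (hmax : IsCoatom M) (hnil : Group.IsNilpotent M) (hcl : Group.nilpotencyClass ↥M ≤ 2) :
    Group.IsSolvable G := by
  have h2 : ∀ a ∈ M, ∀ b ∈ M, ∀ c ∈ M, (a * b * a⁻¹ * b⁻¹) * c = c * (a * b * a⁻¹ * b⁻¹) := by
    intro a ha b hb c hc
    have h1 : Subgroup.upperCentralSeries M 2 = ⊤ := by
      rw [eq_top_iff, ← Subgroup.upperCentralSeries_nilpotencyClass]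
      exact Subgroup.upperCentralSeries_mono M hcl
    have h3 : (⟨a, ha⟩ : M) ∈ Subgroup.upperCentralSeries M 2 := by rw [h1]; trivial
    have h4 := (Subgroup.mem_upperCentralSeries_succ_iff (G := M) (n := 1) (x := ⟨a, ha⟩)).1 h3 ⟨b, hb⟩
    rw [Subgroup.upperCentralSeries_one] at h4
    have h5 := (Subgroup.mem_center_iff.1 h4) ⟨c, hc⟩
    have h6 := congrArg Subtype.val h5
    exact h6.symm
  exact main_ind _ G rfl M hmax hnil h2

end Cfsg.Agent.S4039
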