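import Cfsg.Statements.S4049
import Cfsg.Agent.Lib.FGS.RealOdd
import Cfsg.Agent.Lib.FGS.Syl

set_option autoImplicit false
open Cfsg

namespace Cfsg.Agent.S4049

/-- Let G be a finite group such that N_G(H)/C_G(H) has odd order for every nontrivial subgroup H of odd order. Then the Sylow 2-subgroups of G are normal. -/
theorem result {G : Type*} [Group G] [Finite G]
    (hhom : ∀ H : Subgroup G, H ≠ ⊥ → ¬ 2 ∣ Nat.card ↥H →
        ¬ 2 ∣ (Subgroup.centralizer (H : Set G)).relIndex (Subgroup.normalizer (H : Set G))) (P : Sylow 2 G) :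
    (P : Subgroup G).Normal := by
  classical
  refine CfsgLib.FGS.sylow_two_normal_of_no_real _ G rfl ?_ P
  intro x hx1 hxo hxr
  obtain ⟨c, hc⟩ := isConj_iff.1 hxr
  have hH0 : Subgroup.zpowers x ≠ ⊥ := by
    simpa using hx1
  have h1 := hhom (Subgroup.zpowers x) hH0 (by
    rw [Nat.card_zpowers]
    intro h
    exact (Nat.not_even_iff_odd.2 hxo) (even_iff_two_dvd.2 h))
  apply h1
  have hcn : c ∈ Subgroup.normalizer ((Subgroup.zpowers x : Subgroup G) : Set G) := by
    apply CfsgLib.FGS.mem_normalizer_of_conj_le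
    rintro _ ⟨k, rfl⟩
    simp only
    rw [← conj_zpow, hc]
    exact Subgroup.zpow_mem _ (Subgroup.inv_mem _ (Subgroup.mem_zpowers x)) k
  -- `c` is not in the centralizer
  have hxx : x⁻¹ ≠ x := by
    intro h
    have h4 : x ^ 2 = 1 := by
      rw [pow_two]
      nth_rw 1 [← h]
      simp
    have h10 : orderOf x ∣ 2 := orderOf_dvd_of_pow_eq_one h4
    have h12 : (orderOf x).Coprime 2 := Nat.coprime_two_right.2 hxo
    have h11 : orderOf x = 1 := Nat.dvd_one.1 (by
      have := Nat.dvd_gcd (dvd_refl (orderOf x)) h10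
      rwa [h12] at this)
    exact hx1 (orderOf_eq_one_iff.1 h11)
  have hcC : c ∉ Subgroup.centralizer ((Subgroup.zpowers x : Subgroup G) : Set G) := by
    intro h
    have h2 := Subgroup.mem_centralizer_iff.1 h x (Subgroup.mem_zpowers x)
    have h3 : c * x * c⁻¹ = x := by rw [← h2]; group
    rw [h3] at hc
    exact hxx hc.symm
  have hc2C : c * c ∈ Subgroup.centralizer ((Subgroup.zpowers x : Subgroup G) : Set G) := by
    have hc2 : c * c * x * (c * c)⁻¹ = x := by
      calc c * c * x * (c * c)⁻¹ = c * (c * x * c⁻¹) * c⁻¹ := by group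
        _ = c * x⁻¹ * c⁻¹ := by rw [hc]
        _ = (c * x * c⁻¹)⁻¹ := by group
        _ = x := by rw [hc, inv_inv]
    rw [Subgroup.mem_centralizer_iff]
    rintro _ ⟨k, rfl⟩
    have hcm : Commute (c * c) x := by
      have : c * c * x = x * (c * c) := by
        calc c * c * x = c * c * x * (c * c)⁻¹ * (c * c) := by group
          _ = x * (c * c) := by rw [hc2]
      exact this
    exact (hcm.zpow_right k).eq.symm
  -- an involution in the quotient of the normalizer
  have hCN : Subgroup.centralizer ((Subgroup.zpowers x : Subgroup G) : Set G) ≤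
      Subgroup.normalizer ((Subgroup.zpowers x : Subgroup G) : Set G) := Subgroup.centralizer_le_normalizer _
  haveI hnm : ((Subgroup.centralizer ((Subgroup.zpowers x : Subgroup G) : Set G)).subgroupOf
      (Subgroup.normalizer ((Subgroup.zpowers x : Subgroup G) : Set G))).Normal := by
    rw [Subgroup.normal_subgroupOf_iff hCN]
    intro h k hh hk
    rw [Subgroup.mem_centralizer_iff]
    intro y hy
    have h5 : k⁻¹ * y * k ∈ Subgroup.zpowers x := by
      have := (Subgroup.mem_normalizer_iff.1 hk (k⁻¹ * y * k)).2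
      apply this
      have e : k * (k⁻¹ * y * k) * k⁻¹ = y := by group
      rw [e]; exact hy
    have h2 := Subgroup.mem_centralizer_iff.1 hh _ h5
    calc y * (k * h * k⁻¹) = k * (k⁻¹ * y * k * h) * k⁻¹ := by group
      _ = k * (h * (k⁻¹ * y * k)) * k⁻¹ := by rw [h2]
      _ = k * h * k⁻¹ * y := by group
  let e : (Subgroup.normalizer ((Subgroup.zpowers x : Subgroup G) : Set G)) ⧸
      ((Subgroup.centralizer ((Subgroup.zpowers x : Subgroup G) : Set G)).subgroupOf
      (Subgroup.normalizer ((Subgroup.zpowers x : Subgroup G) : Set G))) := QuotientGroup.mk ⟨c, hcn⟩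
  haveI : Fact (Nat.Prime 2) := ⟨Nat.prime_two⟩
  have he2 : e ^ 2 = 1 := by
    rw [pow_two]
    have : e * e = (QuotientGroup.mk ((⟨c, hcn⟩ : Subgroup.normalizer ((Subgroup.zpowers x : Subgroup G) : Set G)) * ⟨c, hcn⟩) : (Subgroup.normalizer ((Subgroup.zpowers x : Subgroup G) : Set G)) ⧸
      ((Subgroup.centralizer ((Subgroup.zpowers x : Subgroup G) : Set G)).subgroupOf
      (Subgroup.normalizer ((Subgroup.zpowers x : Subgroup G) : Set G)))) := rfl
    rw [this, QuotientGroup.eq_one_iff]
    exact hc2C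
  have he1 : e ≠ 1 := by
    intro h
    have : (⟨c, hcn⟩ : Subgroup.normalizer ((Subgroup.zpowers x : Subgroup G) : Set G)) ∈ ((Subgroup.centralizer ((Subgroup.zpowers x : Subgroup G) : Set G)).subgroupOf
      (Subgroup.normalizer ((Subgroup.zpowers x : Subgroup G) : Set G))) := (QuotientGroup.eq_one_iff _).1 h
    exact hcC this
  have ho := orderOf_eq_prime he2 he1
  have hd := orderOf_dvd_natCard e
  rw [ho] at hd
  exact hd

end Cfsg.Agent.S4049
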