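import Cfsg.Statements.S4050
import Cfsg.Agent.Lib.FGS.PiSub
import Cfsg.Agent.Lib.FGS.Syl

set_option autoImplicit false
open Cfsg
open scoped commutatorElement
open scoped Pointwise

namespace Cfsg.Agent.S4050

universe u_main

open CfsgLib.FGS in
theorem step_chain {G : Type u_main} [Group G] [Finite G] (π : Set ℕ)
    (hhom : ∀ H : Subgroup G, H ≠ ⊥ → (∀ p : ℕ, p.Prime → p ∣ Nat.card H → p ∉ π) →
      ∀ s ∈ Subgroup.normalizer (H : Set G), IsPiElt π s → s ∈ Subgroup.centralizer (H : Set G))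
    (X Y : Subgroup G) [hXn : X.Normal]
    (hrel : (∀ q : ℕ, q.Prime → q ∣ X.relIndex Y → q ∈ π) ∨ (∀ q : ℕ, q.Prime → q ∣ X.relIndex Y → q ∉ π))
    (hX : ∃ L : Subgroup G, ∀ x ∈ X, x ∈ L ↔ IsPiElt π x) :
    ∃ L : Subgroup G, ∀ x ∈ Y, x ∈ L ↔ IsPiElt π x := by
  classical
  obtain ⟨L, hL⟩ := hX
  obtain ⟨K, hK⟩ : ∃ K : Subgroup Y, K = X.subgroupOf Y := ⟨_, rfl⟩
  haveI hKn : K.Normal := by rw [hK]; infer_instance
  have hmemK : ∀ y : Y, y ∈ K ↔ (y : G) ∈ X := by
    intro y
    rw [hK]
    rfl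
  have hYh : ∀ H : Subgroup Y, H ≠ ⊥ → (∀ p : ℕ, p.Prime → p ∣ Nat.card H → p ∉ π) →
      ∀ s ∈ Subgroup.normalizer (H : Set Y), IsPiElt π s → s ∈ Subgroup.centralizer (H : Set Y) := by
    intro H hne hpr s hs hsπ
    have hcard : Nat.card (H.map Y.subtype) = Nat.card H :=
      Nat.card_congr (H.equivMapOfInjective Y.subtype Y.subtype_injective).symm.toEquiv
    have h1 := hhom (H.map Y.subtype) (by
      intro h0
      apply hne
      rw [Subgroup.map_eq_bot_iff_of_injective _ Y.subtype_injective] at h0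
      exact h0) (by rw [hcard]; exact hpr) (s : G) (by
        apply CfsgLib.FGS.mem_normalizer_of_conj_le
        intro x hx
        obtain ⟨y, hy, rfl⟩ := Subgroup.mem_map.1 hx
        exact Subgroup.mem_map.2 ⟨s * y * s⁻¹, (Subgroup.mem_normalizer_iff.1 hs y).1 hy, rfl⟩) (by
        intro p hp hd
        rw [Subgroup.orderOf_coe] at hd
        exact hsπ p hp hd)
    rw [Subgroup.mem_centralizer_iff]
    intro h hh
    have h2 := Subgroup.mem_centralizer_iff.1 h1 (h : G) (Subgroup.mem_map_of_mem Y.subtype hh)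
    exact Subtype.ext h2
  obtain ⟨H, hH⟩ := exists_pi_sub_of_normal hYh K (by
    refine ⟨(L.subgroupOf Y).subgroupOf K, fun x => ?_⟩
    have h1 : (x : Y) ∈ K := x.2
    have h2 := (hmemK _).1 h1
    have h3 := hL _ h2
    constructor
    · intro hx p hp hd
      refine h3.1 hx p hp ?_
      rw [Subgroup.orderOf_coe, Subgroup.orderOf_coe]
      exact hd
    · intro hx
      refine h3.2 ?_
      intro p hp hd
      rw [Subgroup.orderOf_coe, Subgroup.orderOf_coe] at hd
      exact hx p hp hd) (by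
    have hcardq : Nat.card (Y ⧸ K) = X.relIndex Y := by
      rw [hK]
      rfl
    rcases hrel with h | h
    · refine ⟨⊤, fun x => ⟨fun _ p hp hd => ?_, fun _ => trivial⟩⟩
      apply h p hp
      rw [← hcardq]
      exact hd.trans (orderOf_dvd_natCard x)
    · refine ⟨⊥, fun x => ⟨fun hx p hp hd => ?_, fun hx => ?_⟩⟩
      · rw [Subgroup.mem_bot] at hx
        rw [hx, orderOf_one] at hd
        exact absurd (Nat.dvd_one.1 hd) hp.one_lt.ne'
      · rw [Subgroup.mem_bot]
        apply eq_one_of_pi_of_piPrime hx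
        intro p hp hd
        apply h p hp
        rw [← hcardq]
        exact hd.trans (orderOf_dvd_natCard x))
  refine ⟨H.map Y.subtype, fun x hx => ⟨fun h1 => ?_, fun h1 => ?_⟩⟩
  · obtain ⟨y, hy, rfl⟩ := Subgroup.mem_map.1 h1
    intro p hp hd
    rw [Subgroup.coe_subtype, Subgroup.orderOf_coe] at hd
    exact (hH y).1 hy p hp hd
  · refine Subgroup.mem_map.2 ⟨⟨x, hx⟩, (hH _).2 ?_, rfl⟩
    intro p hp hd
    rw [Subgroup.orderOf_mk] at hd
    exact h1 p hp hd


/-- Let π be a set of primes and G a finite group. The π-elements of G (elements whose order is divisible only by primes of π) form a subgroup if and only if G is π-separable (it has a chain of normal subgroups from 1 to G with each successive index divisible only by primes in π or only by primes outside π) and N_G(H)/C_G(H) is a π'-group for every nontrivial π'-subgroup H of G. -/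
theorem result {G : Type*} [Group G] [Finite G] (π : Set ℕ)
    (hπ : ∀ p ∈ π, p.Prime) :
    (∃ K : Subgroup G, ∀ x : G, x ∈ K ↔ ∀ p : ℕ, p.Prime → p ∣ orderOf x → p ∈ π) ↔
    ((∃ (n : ℕ) (H : Fin (n + 1) → Subgroup G), H 0 = ⊥ ∧ H (Fin.last n) = ⊤ ∧ Monotone H ∧ (∀ i, (H i).Normal) ∧
      ∀ i : Fin n, (∀ q : ℕ, q.Prime → q ∣ (H i.castSucc).relIndex (H i.succ) → q ∈ π) ∨
        (∀ q : ℕ, q.Prime → q ∣ (H i.castSucc).relIndex (H i.succ) → q ∉ π)) ∧
     (∀ H : Subgroup G, H ≠ ⊥ → (∀ p : ℕ, p.Prime → p ∣ Nat.card ↥H → p ∉ π) →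
        ∀ p : ℕ, p.Prime → p ∣ (Subgroup.centralizer (H : Set G)).relIndex (Subgroup.normalizer (H : Set G)) → p ∉ π)) := by
  classical
  constructor
  · rintro ⟨K, hK⟩
    have hKn : K.Normal := by
      constructor
      intro n hn g
      exact (hK _).2 (CfsgLib.FGS.isPiElt_conj g ((hK n).1 hn))
    refine ⟨⟨2, ![⊥, K, ⊤], rfl, rfl, ?_, ?_, ?_⟩, ?_⟩
    · intro i j hij
      fin_cases i <;> fin_cases j <;> simp_all
    · intro i
      fin_cases i
      · show (⊥ : Subgroup G).Normal
        infer_instance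
      · exact hKn
      · show (⊤ : Subgroup G).Normal
        infer_instance
    · intro i
      fin_cases i
      · left
        intro q hq hd
        have hd2 : q ∣ Nat.card K := by
          simpa [Subgroup.relIndex_bot_left] using hd
        haveI := Fact.mk hq
        obtain ⟨v, hv⟩ := exists_prime_orderOf_dvd_card' (G := K) q hd2
        refine (hK v).1 v.2 q hq ?_
        rw [Subgroup.orderOf_coe, hv]
      · right
        intro q hq hd hqπ
        have hd2 : q ∣ K.index := by
          simpa [Subgroup.relIndex_top_right] using hd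
        haveI := Fact.mk hq
        have hd3 : q ∣ Nat.card (G ⧸ K) := hd2
        obtain ⟨y, hy⟩ := exists_prime_orderOf_dvd_card' (G := G ⧸ K) q hd3
        obtain ⟨x₀, hx₀⟩ := QuotientGroup.mk_surjective y
        obtain ⟨x, hx, hxπ⟩ := CfsgLib.FGS.exists_pi_lift π K y (by
          intro r hr hrd
          rw [hy] at hrd
          rw [(Nat.prime_dvd_prime_iff_eq hr hq).1 hrd]
          exact hqπ) _ x₀ rfl hx₀
        have h1 : x ∈ K := (hK x).2 hxπ
        have h2 : y = 1 := by
          rw [← hx]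
          exact (QuotientGroup.eq_one_iff x).2 h1
        rw [h2, orderOf_one] at hy
        exact hq.one_lt.ne hy
    · intro H hne hpr
      apply CfsgLib.FGS.relIndex_primes_of_pi H
      intro s hs hsπ
      rw [Subgroup.mem_centralizer_iff]
      intro h hh
      have hsK : s ∈ K := (hK s).2 hsπ
      have h1 : s * h * s⁻¹ * h⁻¹ ∈ K := by
        have h2 := hKn.conj_mem s⁻¹ (K.inv_mem hsK) h
        have e : s * h * s⁻¹ * h⁻¹ = s * (h * s⁻¹ * h⁻¹) := by group
        rw [e]
        exact K.mul_mem hsK h2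
      have h2 : s * h * s⁻¹ * h⁻¹ ∈ H :=
        H.mul_mem ((Subgroup.mem_normalizer_iff.1 hs h).1 hh) (H.inv_mem hh)
      have h3 : s * h * s⁻¹ * h⁻¹ = 1 := by
        apply CfsgLib.FGS.eq_one_of_pi_of_piPrime ((hK _).1 h1)
        intro p hp hd
        exact hpr p hp (hd.trans (Subgroup.orderOf_dvd_natCard H h2))
      have h4 : s * h * s⁻¹ = h := mul_inv_eq_one.1 h3
      rw [mul_inv_eq_iff_eq_mul] at h4
      exact h4.symm
  · rintro ⟨⟨n, H, h0, hl, -, hn, hrel⟩, hhom⟩
    have hh : ∀ H : Subgroup G, H ≠ ⊥ → (∀ p : ℕ, p.Prime → p ∣ Nat.card H → p ∉ π) →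
        ∀ s ∈ Subgroup.normalizer (H : Set G), CfsgLib.FGS.IsPiElt π s → s ∈ Subgroup.centralizer (H : Set G) :=
      fun H hne hpr s hs hsπ => CfsgLib.FGS.mem_centralizer_of_pi H (hhom H hne hpr) s hs hsπ
    have hall : ∀ i : Fin (n + 1), ∃ L : Subgroup G, ∀ x ∈ H i, x ∈ L ↔ CfsgLib.FGS.IsPiElt π x := by
      intro i
      induction i using Fin.induction with
      | zero =>
        refine ⟨⊥, fun x hx => ?_⟩
        rw [h0, Subgroup.mem_bot] at hx
        rw [hx]
        constructor
        · intro _ p hp hd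
          rw [orderOf_one] at hd
          exact absurd (Nat.dvd_one.1 hd) hp.one_lt.ne'
        · intro _
          exact Subgroup.one_mem _
      | succ i ih =>
        haveI := hn i.castSucc
        exact step_chain π hh (H i.castSucc) (H i.succ) (hrel i) ih
    obtain ⟨L, hL⟩ := hall (Fin.last n)
    refine ⟨L, fun x => hL x ?_⟩
    rw [hl]
    trivial

end Cfsg.Agent.S4050
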