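import Cfsg.Statements.S4056
import Cfsg.Agent.Lib.Solv.PGroup

set_option autoImplicit false
open Cfsg

namespace Cfsg.Agent.S4056

theorem aux {P : Type*} [Group P] (x y z : P) (hz : ∀ g : P, g * z = z * g)
    (hyx : y * x = z * x * y) (hz4 : z ^ 4 = 1) (hx4 : x ^ 4 = 1) (hy4 : y ^ 4 = 1)
    (hxy4 : (x * y) ^ 4 = 1) : z ^ 2 = 1 := by
  set a := x * x with ha
  set b := y * y with hb
  have h1 : x * y * (x * y) = z * a * b := by
    calc x * y * (x * y) = x * (y * x) * y := by group
      _ = x * (z * x * y) * y := by rw [hyx]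
      _ = (x * z) * x * y * y := by group
      _ = (z * x) * x * y * y := by rw [hz]
      _ = z * a * b := by rw [ha, hb]; group
  have h2 : b * x = z ^ 2 * x * b := by
    calc b * x = y * (y * x) := by rw [hb]; group
      _ = y * (z * x * y) := by rw [hyx]
      _ = (y * z) * x * y := by group
      _ = (z * y) * x * y := by rw [hz]
      _ = z * (y * x) * y := by group
      _ = z * (z * x * y) * y := by rw [hyx]
      _ = z ^ 2 * x * b := by rw [hb]; simp only [pow_succ, pow_zero, one_mul, mul_assoc]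
  have hz2c : ∀ g : P, g * z ^ 2 = z ^ 2 * g := by
    intro g
    have h0 : Commute g z := hz g
    exact (h0.pow_right 2).eq
  have h3 : b * a = a * b := by
    calc b * a = (b * x) * x := by rw [ha]; group
      _ = (z ^ 2 * x * b) * x := by rw [h2]
      _ = z ^ 2 * x * (b * x) := by simp only [pow_succ, pow_zero, one_mul, mul_assoc]
      _ = z ^ 2 * x * (z ^ 2 * x * b) := by rw [h2]
      _ = z ^ 2 * (x * z ^ 2) * x * b := by simp only [pow_succ, pow_zero, one_mul, mul_assoc]
      _ = z ^ 2 * (z ^ 2 * x) * x * b := by rw [hz2c]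
      _ = z ^ 4 * (x * x) * b := by simp only [pow_succ, pow_zero, one_mul, mul_assoc]
      _ = a * b := by rw [hz4, one_mul]
  have h4 : a * a = 1 := by
    rw [ha]
    calc x * x * (x * x) = x ^ 4 := by simp only [pow_succ, pow_zero, one_mul, mul_assoc]
      _ = 1 := hx4
  have h5 : b * b = 1 := by
    rw [hb]
    calc y * y * (y * y) = y ^ 4 := by simp only [pow_succ, pow_zero, one_mul, mul_assoc]
      _ = 1 := hy4
  have h6 : (x * y) ^ 4 = (z * a * b) * (z * a * b) := by
    rw [← h1]
    simp only [pow_succ, pow_zero, one_mul, mul_assoc]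
  have h7 : (z * a * b) * (z * a * b) = z ^ 2 := by
    calc (z * a * b) * (z * a * b) = z * (a * b * z) * a * b := by group
      _ = z * (z * (a * b)) * a * b := by rw [hz]
      _ = z ^ 2 * a * (b * a) * b := by simp only [pow_succ, pow_zero, one_mul, mul_assoc]
      _ = z ^ 2 * a * (a * b) * b := by rw [h3]
      _ = z ^ 2 * (a * a) * (b * b) := by simp only [pow_succ, pow_zero, one_mul, mul_assoc]
      _ = z ^ 2 := by rw [h4, h5, mul_one, mul_one]
  rw [← h7, ← h6]
  exact hxy4


/-- In a finite 2-group of nilpotency class at most 2 and exponent dividing 4, the Frattini subgroup lies in the centre and is elementary abelian. -/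
theorem result {P : Type*} [Group P] [Finite P] (hP : IsPGroup 2 P)
    (hcl : Group.nilpotencyClass P ≤ 2) (hexp : Monoid.exponent P ∣ 4) :
    frattini P ≤ Subgroup.center P ∧ Cfsg.IsElementaryAbelian 2 (frattini P) := by
  classical
  haveI : Group.IsNilpotent P := hP.isNilpotent
  have hU : Subgroup.upperCentralSeries P 2 = ⊤ :=
    Subgroup.upperCentralSeries_eq_top_iff_nilpotencyClass_le.mpr hcl
  have hcen : ∀ x y : P, y * x * y⁻¹ * x⁻¹ ∈ Subgroup.center P := by
    intro x y
    have hx : y ∈ Subgroup.upperCentralSeries P 2 := by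
      rw [hU]
      trivial
    have h1 := Subgroup.mem_upperCentralSeries_succ_iff.mp hx x
    have h2 : Subgroup.upperCentralSeries P 1 = Subgroup.center P := Subgroup.upperCentralSeries_one P
    rw [h2] at h1
    exact h1
  have hpow4 : ∀ x : P, x ^ 4 = 1 := by
    intro x
    exact orderOf_dvd_iff_pow_eq_one.mp ((Monoid.order_dvd_exponent x).trans hexp)
  have hzc : ∀ x y : P, (y * x * y⁻¹ * x⁻¹) ^ 2 = 1 := by
    intro x y
    apply aux x y (y * x * y⁻¹ * x⁻¹)
    · intro g
      exact Subgroup.mem_center_iff.mp (hcen x y) g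
    · group
    · exact hpow4 _
    · exact hpow4 _
    · exact hpow4 _
    · exact hpow4 _
  have hsq : ∀ x : P, x ^ 2 ∈ Subgroup.center P := by
    intro x
    rw [Subgroup.mem_center_iff]
    intro y
    have hzcen := hcen x y
    have h1 : y * x * y⁻¹ = (y * x * y⁻¹ * x⁻¹) * x := by group
    have h2 : y * x ^ 2 * y⁻¹ = x ^ 2 := by
      rw [← conj_pow, h1]
      have hc : Commute (y * x * y⁻¹ * x⁻¹) x := (Subgroup.mem_center_iff.mp hzcen x).symm
      rw [hc.mul_pow, hzc, one_mul]
    rw [mul_inv_eq_iff_eq_mul] at h2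
    exact h2
  let N : Subgroup P :=
    { carrier := {z | z ∈ Subgroup.center P ∧ z ^ 2 = 1}
      mul_mem' := by
        rintro a b ⟨ha, ha'⟩ ⟨hb, hb'⟩
        refine ⟨mul_mem ha hb, ?_⟩
        have hc : Commute a b := (Subgroup.mem_center_iff.mp ha b).symm
        rw [hc.mul_pow, ha', hb', mul_one]
      one_mem' := ⟨one_mem _, one_pow _⟩
      inv_mem' := by
        rintro a ⟨ha, ha'⟩
        refine ⟨inv_mem ha, ?_⟩
        rw [inv_pow, ha', inv_one] }
  haveI hNn : N.Normal := by
    constructor
    rintro z ⟨hz, hz'⟩ g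
    have h1 : g * z * g⁻¹ = z := by
      rw [(Subgroup.mem_center_iff.mp hz g)]
      group
    rw [h1]
    exact ⟨hz, hz'⟩
  have hΦ : frattini P ≤ N := by
    haveI : Fact (Nat.Prime 2) := ⟨Nat.prime_two⟩
    apply CfsgLib.Solv.frattini_le_of_commutator_pow hP N
    · rw [commutator_def, Subgroup.commutator_le]
      intro a _ b _
      rw [commutatorElement_def]
      exact ⟨hcen b a, hzc b a⟩
    · intro x
      refine ⟨hsq x, ?_⟩
      rw [← pow_mul]
      exact hpow4 x
  refine ⟨fun z hz => (hΦ hz).1, ⟨⟨?_⟩⟩, fun a ha => (hΦ ha).2⟩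
  rintro ⟨a, ha⟩ ⟨b, hb⟩
  apply Subtype.ext
  exact (Subgroup.mem_center_iff.mp (hΦ hb).1 a)

end Cfsg.Agent.S4056
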