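import Cfsg.Statements.S4065
import Cfsg.Agent.Lib.FGS.Cover

set_option autoImplicit false
open Cfsg
open scoped commutatorElement
open scoped Pointwise

namespace Cfsg.Agent.S4065

theorem h8_comm_entries {F : Type*} [Field F] (a b c d e f g h e' f' g' h' : F)
    (hne : ¬ (b = 0 ∧ c = 0 ∧ a = d))
    (h1 : b * g = f * c) (h2 : a * f + b * h = e * b + f * d)
    (h3 : c * e + d * g = g * a + h * c)
    (h1' : b * g' = f' * c) (h2' : a * f' + b * h' = e' * b + f' * d)
    (h3' : c * e' + d * g' = g' * a + h' * c) :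
    f * g' = f' * g ∧ e * f' + f * h' = e' * f + f' * h ∧ g * e' + h * g' = g' * e + h' * g := by
  by_cases hb : b = 0
  · by_cases hc : c = 0
    · have had : a - d ≠ 0 := by
        intro hh
        exact hne ⟨hb, hc, sub_eq_zero.1 hh⟩
      subst hb hc
      refine ⟨?_, ?_, ?_⟩
      · apply mul_left_cancel₀ (pow_ne_zero 2 had); grind
      · apply mul_left_cancel₀ had; grind
      · apply mul_left_cancel₀ had; grind
    · subst hb
      refine ⟨?_, ?_, ?_⟩
      · apply mul_left_cancel₀ hc; grind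
      · apply mul_left_cancel₀ hc; grind
      · apply mul_left_cancel₀ hc; grind
  · refine ⟨?_, ?_, ?_⟩
    · apply mul_left_cancel₀ hb; grind
    · apply mul_left_cancel₀ hb; grind
    · apply mul_left_cancel₀ hb; grind

theorem h8_comm_matrix {F : Type*} [Field F] (X Y Z : Matrix (Fin 2) (Fin 2) F)
    (hne : ¬ (X 0 1 = 0 ∧ X 1 0 = 0 ∧ X 0 0 = X 1 1))
    (hY : X * Y = Y * X) (hZ : X * Z = Z * X) : Y * Z = Z * Y := by
  have e1 := congrFun (congrFun hY 0) 0
  have e2 := congrFun (congrFun hY 0) 1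
  have e3 := congrFun (congrFun hY 1) 0
  have e1' := congrFun (congrFun hZ 0) 0
  have e2' := congrFun (congrFun hZ 0) 1
  have e3' := congrFun (congrFun hZ 1) 0
  simp only [Matrix.mul_apply, Fin.sum_univ_two] at e1 e2 e3 e1' e2' e3'
  obtain ⟨r1, r2, r3⟩ := h8_comm_entries (X 0 0) (X 0 1) (X 1 0) (X 1 1) (Y 0 0) (Y 0 1) (Y 1 0) (Y 1 1)
    (Z 0 0) (Z 0 1) (Z 1 0) (Z 1 1) hne (by linear_combination e1) e2 e3
    (by linear_combination e1') e2' e3'
  ext i j
  fin_cases i <;> fin_cases j <;> simp only [Matrix.mul_apply, Fin.sum_univ_two] <;> simp only [Fin.zero_eta, Fin.mk_one, Fin.isValue]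
  · linear_combination r1
  · linear_combination r2
  · linear_combination r3
  · linear_combination -r1

theorem h8_ti_of_ca {G : Type*} [Group G]
    (hca : ∀ x : G, x ≠ 1 → ∀ a b : G, a * x = x * a → b * x = x * b → a * b = b * a) (x : G) :
    Cfsg.IsTISubset (Subgroup.centralizer ({x} : Set G) : Set G) := by
  intro g hg y hy hgy
  by_contra hy1
  apply hg
  have hmem : ∀ u z : G, u ∈ Subgroup.centralizer ({z} : Set G) ↔ u * z = z * u := by
    intro u z
    rw [Subgroup.mem_centralizer_iff]
    constructor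
    · intro h; exact (h z rfl).symm
    · intro h w hw
      rw [Set.mem_singleton_iff] at hw
      subst hw; exact h.symm
  have hy' : y * x = x * y := (hmem y x).1 hy
  have hgy' : (g * y * g⁻¹) * x = x * (g * y * g⁻¹) := (hmem _ x).1 hgy
  have hx1 : x ≠ 1 := by
    rintro rfl
    apply hg
    rw [Subgroup.mem_normalizer_iff]
    intro n
    have : Subgroup.centralizer ({(1 : G)} : Set G) = ⊤ := by
      ext u; simp [hmem]
    rw [this]; simp
  have hgy1 : g * y * g⁻¹ ≠ 1 := by
    intro h
    apply hy1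
    have := congrArg (fun w => g⁻¹ * w * g) h
    simpa [mul_assoc] using this
  -- centralizer of a nontrivial element of `C(x)` equals `C(x)`
  have hsame : ∀ w : G, w ≠ 1 → w * x = x * w → ∀ u : G, u * w = w * u ↔ u * x = x * u := by
    intro w hw hwx u
    constructor
    · intro h
      exact hca w hw u x h (hwx.symm)
    · intro h
      exact hca x hx1 u w h hwx
  rw [Subgroup.mem_normalizer_iff]
  intro n
  show n ∈ Subgroup.centralizer ({x} : Set G) ↔ g * n * g⁻¹ ∈ Subgroup.centralizer ({x} : Set G)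
  rw [hmem, hmem]
  rw [← hsame y hy1 hy' n, ← hsame _ hgy1 hgy' (g * n * g⁻¹)]
  constructor
  · intro h
    calc g * n * g⁻¹ * (g * y * g⁻¹) = g * (n * y) * g⁻¹ := by group
      _ = g * (y * n) * g⁻¹ := by rw [h]
      _ = _ := by group
  · intro h
    have h2 : g * (n * y) * g⁻¹ = g * (y * n) * g⁻¹ := by
      calc g * (n * y) * g⁻¹ = g * n * g⁻¹ * (g * y * g⁻¹) := by group
        _ = (g * y * g⁻¹) * (g * n * g⁻¹) := h
        _ = _ := by group
    have := congrArg (fun w => g⁻¹ * w * g) h2
    simpa [mul_assoc] using this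

/-- Let F be a finite field with 2ⁿ elements, n ≥ 2. In PSL₂(F) the centralizer of every element meets each of its conjugates by elements outside its normalizer trivially. -/
theorem result (n : ℕ) (hn : 2 ≤ n)
    (x : Matrix.ProjectiveSpecialLinearGroup (Fin 2) (GaloisField 2 n)) :
    Cfsg.IsTISubset (Subgroup.centralizer ({x} : Set (Matrix.ProjectiveSpecialLinearGroup (Fin 2) (GaloisField 2 n))) :
      Set (Matrix.ProjectiveSpecialLinearGroup (Fin 2) (GaloisField 2 n))) := by
  classical
  have hchar : ∀ r : GaloisField 2 n, r ^ 2 = 1 → r = 1 := by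
    intro r hr
    have h2 : (2 : GaloisField 2 n) = 0 := by
      have : ((2 : ℕ) : GaloisField 2 n) = 0 := CharP.cast_eq_zero _ 2
      simpa using this
    have h3 : (r - 1) ^ 2 = 0 := by
      linear_combination hr - r * h2 + h2
    have h4 := pow_eq_zero_iff (two_ne_zero) |>.1 h3
    exact sub_eq_zero.1 h4
  have hcenter : ∀ A : Matrix.SpecialLinearGroup (Fin 2) (GaloisField 2 n),
      A ∈ Subgroup.center (Matrix.SpecialLinearGroup (Fin 2) (GaloisField 2 n)) → A = 1 := by
    intro A hA
    obtain ⟨r, hr, hrA⟩ := Matrix.SpecialLinearGroup.mem_center_iff.1 hA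
    have hr1 : r = 1 := hchar r (by simpa using hr)
    subst hr1
    apply Subtype.ext
    rw [← hrA]
    simp
  apply h8_ti_of_ca
  intro x hx a b hax hbx
  obtain ⟨X, rfl⟩ := QuotientGroup.mk_surjective x
  obtain ⟨A, rfl⟩ := QuotientGroup.mk_surjective a
  obtain ⟨B, rfl⟩ := QuotientGroup.mk_surjective b
  have hlift : ∀ U V : Matrix.SpecialLinearGroup (Fin 2) (GaloisField 2 n),
      ((U : Matrix.ProjectiveSpecialLinearGroup (Fin 2) (GaloisField 2 n))) * (V : Matrix.ProjectiveSpecialLinearGroup (Fin 2) (GaloisField 2 n))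
        = (V : Matrix.ProjectiveSpecialLinearGroup (Fin 2) (GaloisField 2 n)) * (U : Matrix.ProjectiveSpecialLinearGroup (Fin 2) (GaloisField 2 n)) →
        ((U : Matrix (Fin 2) (Fin 2) (GaloisField 2 n))) * V = V * U := by
    intro U V h
    have h1 : (((U * V : Matrix.SpecialLinearGroup (Fin 2) (GaloisField 2 n)) :
        Matrix.ProjectiveSpecialLinearGroup (Fin 2) (GaloisField 2 n))) = ((V * U : Matrix.SpecialLinearGroup (Fin 2) (GaloisField 2 n)) :
        Matrix.ProjectiveSpecialLinearGroup (Fin 2) (GaloisField 2 n)) := h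
    have h2 := hcenter _ (QuotientGroup.eq.1 h1)
    have h3 : U * V = V * U := inv_mul_eq_one.1 h2
    have h4 := congrArg (fun w : Matrix.SpecialLinearGroup (Fin 2) (GaloisField 2 n) => (w : Matrix (Fin 2) (Fin 2) (GaloisField 2 n))) h3
    simpa using h4
  have hXne : X ≠ 1 := by
    rintro rfl
    exact hx rfl
  have hne : ¬ ((X : Matrix (Fin 2) (Fin 2) (GaloisField 2 n)) 0 1 = 0 ∧ (X : Matrix (Fin 2) (Fin 2) (GaloisField 2 n)) 1 0 = 0 ∧ (X : Matrix (Fin 2) (Fin 2) (GaloisField 2 n)) 0 0 = (X : Matrix (Fin 2) (Fin 2) (GaloisField 2 n)) 1 1) := by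
    rintro ⟨h1, h2, h3⟩
    apply hXne
    have hdet := X.2
    rw [Matrix.det_fin_two, h1, h2, ← h3] at hdet
    have h4 : (X : Matrix (Fin 2) (Fin 2) (GaloisField 2 n)) 0 0 = 1 := hchar _ (by
      have : (X : Matrix (Fin 2) (Fin 2) (GaloisField 2 n)) 0 0 * (X : Matrix (Fin 2) (Fin 2) (GaloisField 2 n)) 0 0 - 0 * 0 = 1 := hdet
      linear_combination this)
    apply Subtype.ext
    ext i j
    fin_cases i <;> fin_cases j
    · simpa using h4
    · simpa using h1
    · simpa using h2
    · have : (X : Matrix (Fin 2) (Fin 2) (GaloisField 2 n)) 1 1 = 1 := by rw [← h3]; exact h4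
      simpa using this
  have hY := hlift X A (hax.symm)
  have hZ := hlift X B (hbx.symm)
  have hres := h8_comm_matrix _ _ _ hne hY hZ
  have h5 : A * B = B * A := by
    apply Subtype.ext
    simpa using hres
  exact congrArg (fun w : Matrix.SpecialLinearGroup (Fin 2) (GaloisField 2 n) => (w : Matrix.ProjectiveSpecialLinearGroup (Fin 2) (GaloisField 2 n))) h5

end Cfsg.Agent.S4065
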