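import Cfsg.Statements.S4066
import Cfsg.Agent.Lib.FGS.Syl

set_option autoImplicit false
open Cfsg
open scoped Pointwise

namespace Cfsg.Agent.S4066

/-- Let G be a finite group in which the centralizer of every element meets each of its conjugates by elements outside its normalizer trivially. Then any two distinct Sylow p-subgroups of G, for any prime p, intersect trivially. -/
theorem result {G : Type*} [Group G] [Finite G] (hTI : ∀ x : G, Cfsg.IsTISubset (Subgroup.centralizer ({x} : Set G) : Set G))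
    {p : ℕ} [Fact p.Prime] (P Q : Sylow p G) (hPQ : P ≠ Q) : (P : Subgroup G) ⊓ (Q : Subgroup G) = ⊥ := by
  classical
  by_contra hne
  obtain ⟨y, hy, hy1⟩ : ∃ y ∈ (P : Subgroup G) ⊓ (Q : Subgroup G), y ≠ 1 := by
    by_contra hcon
    apply hne
    rw [eq_bot_iff]
    intro w hw
    by_contra hw1
    exact hcon ⟨w, hw, hw1⟩
  obtain ⟨hyP, hyQ⟩ := Subgroup.mem_inf.mp hy
  -- a central element of P
  haveI hPnt : Nontrivial (P : Subgroup G) := by
    refine ⟨⟨⟨y, hyP⟩, 1, fun h => hy1 (congrArg Subtype.val h)⟩⟩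
  haveI hZnt := (P.isPGroup').center_nontrivial
  obtain ⟨u', hu'⟩ := exists_ne (1 : Subgroup.center (P : Subgroup G))
  have hu'1 : (u'.1 : (P : Subgroup G)) ≠ 1 := fun h => hu' (Subtype.ext h)
  set u : G := ((u'.1 : (P : Subgroup G)) : G) with hudef
  have hu1 : u ≠ 1 := fun h => hu'1 (Subtype.ext h)
  have huP : u ∈ (P : Subgroup G) := (u'.1).2
  have hucomm : ∀ z ∈ (P : Subgroup G), z * u = u * z := by
    intro z hz
    have := (Subgroup.mem_center_iff.mp u'.2) ⟨z, hz⟩
    exact congrArg Subtype.val this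
  set E : Subgroup G := Subgroup.centralizer ({u} : Set G) with hE
  have memE : ∀ z, z ∈ E ↔ z * u = u * z := by
    intro z
    rw [hE, Subgroup.mem_centralizer_singleton_iff]
  have hPE : (P : Subgroup G) ≤ E := fun z hz => (memE z).mpr (hucomm z hz)
  obtain ⟨g, hg⟩ := MulAction.exists_smul_eq G P Q
  have hQeq : (Q : Subgroup G) = (MulAut.conj g • (P : Subgroup G)) := by
    rw [← hg, Sylow.coe_subgroup_smul]
  have hmemQ : ∀ z, z ∈ (Q : Subgroup G) ↔ g⁻¹ * z * g ∈ (P : Subgroup G) := by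
    intro z
    rw [hQeq, CfsgLib.FGS.mem_conj_smul_iff]
  -- g normalizes E
  have hgN : g ∈ Subgroup.normalizer (E : Set G) := by
    by_contra hgn
    have hx : g⁻¹ * y * g ∈ (P : Subgroup G) := (hmemQ y).mp hyQ
    have := hTI u g hgn (g⁻¹ * y * g) (hPE hx) (by
      have : g * (g⁻¹ * y * g) * g⁻¹ = y := by group
      rw [this]
      exact hPE hyP)
    apply hy1
    have h2 : y = g * (g⁻¹ * y * g) * g⁻¹ := by group
    rw [h2, this]
    group
  have hQE : (Q : Subgroup G) ≤ E := by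
    intro z hz
    have hz' := (hmemQ z).mp hz
    have h3 := hPE hz'
    have h4 : g * (g⁻¹ * z * g) * g⁻¹ = z := by group
    have h5 := (Subgroup.mem_normalizer_iff.mp hgN (g⁻¹ * z * g)).mp h3
    rwa [h4] at h5
  -- E normalizes centralizers of its elements
  have hEN : ∀ x ∈ E, ∀ g' ∈ E, g' ∈ Subgroup.normalizer ((Subgroup.centralizer ({x} : Set G) : Subgroup G) : Set G) := by
    intro x hx g' hg'
    by_contra hgn
    have hux : u ∈ Subgroup.centralizer ({x} : Set G) := by
      rw [Subgroup.mem_centralizer_singleton_iff]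
      exact ((memE x).mp hx).symm
    have h6 : g' * u * g'⁻¹ = u := by
      have := (memE g').mp hg'
      rw [this]; group
    exact hu1 (hTI x g' hgn u hux (by rw [h6]; exact hux))
  have hcommconj : ∀ x ∈ E, ∀ g' ∈ E, (g' * x * g'⁻¹) * x = x * (g' * x * g'⁻¹) := by
    intro x hx g' hg'
    have h7 : x ∈ Subgroup.centralizer ({x} : Set G) := by
      rw [Subgroup.mem_centralizer_singleton_iff]
    have h8 := (Subgroup.mem_normalizer_iff.mp (hEN x hx g' hg') x).mp h7
    have h9 : (g' * x * g'⁻¹) ∈ Subgroup.centralizer ({x} : Set G) := h8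
    rw [Subgroup.mem_centralizer_singleton_iff] at h9
    exact h9
  -- P ≤ Q
  have hPQle : (P : Subgroup G) ≤ (Q : Subgroup G) := by
    intro x₀ hx₀
    set S : Set G := {z | ∃ g' ∈ E, z = g' * x₀ * g'⁻¹} with hS
    have hcomm : ∀ a ∈ S, ∀ b ∈ S, a * b = b * a := by
      rintro a ⟨g₁, hg₁, rfl⟩ b ⟨g₂, hg₂, rfl⟩
      have h := hcommconj x₀ (hPE hx₀) (g₁⁻¹ * g₂) (E.mul_mem (E.inv_mem hg₁) hg₂)
      have h10 : (g₁ * x₀ * g₁⁻¹) * (g₂ * x₀ * g₂⁻¹)
          = g₁ * (x₀ * ((g₁⁻¹ * g₂) * x₀ * (g₁⁻¹ * g₂)⁻¹)) * g₁⁻¹ := by group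
      have h11 : (g₂ * x₀ * g₂⁻¹) * (g₁ * x₀ * g₁⁻¹)
          = g₁ * (((g₁⁻¹ * g₂) * x₀ * (g₁⁻¹ * g₂)⁻¹) * x₀) * g₁⁻¹ := by group
      rw [h10, h11, h]
    have hpow : ∀ a ∈ S, a ^ (p ^ Nat.card G) = 1 := by
      rintro a ⟨g₁, hg₁, rfl⟩
      have h12 : x₀ ^ (p ^ Nat.card G) = 1 := CfsgLib.FGS.pow_pow_card_eq_one_of_mem_sylow P hx₀
      rw [conj_pow, h12]
      group
    have hT := CfsgLib.FGS.isPGroup_closure_of_commute (p := p) hcomm _ hpow
    have hnorm : (Q : Subgroup G) ≤ Subgroup.normalizer ((Subgroup.closure S : Subgroup G) : Set G) := by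
      intro q hq
      apply CfsgLib.FGS.mem_normalizer_of_conj_le
      intro z hz
      induction hz using Subgroup.closure_induction with
      | mem a ha =>
        obtain ⟨g₁, hg₁, rfl⟩ := ha
        apply Subgroup.subset_closure
        refine ⟨q * g₁, E.mul_mem (hQE hq) hg₁, by group⟩
      | one => simp
      | mul a b _ _ iha ihb =>
        have : q * (a * b) * q⁻¹ = (q * a * q⁻¹) * (q * b * q⁻¹) := by group
        rw [this]
        exact Subgroup.mul_mem _ iha ihb
      | inv a _ iha =>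
        have : q * a⁻¹ * q⁻¹ = (q * a * q⁻¹)⁻¹ := by group
        rw [this]
        exact Subgroup.inv_mem _ iha
    have hTQ := CfsgLib.FGS.le_of_pgroup_normalized Q hT hnorm
    apply hTQ
    apply Subgroup.subset_closure
    exact ⟨1, E.one_mem, by group⟩
  apply hPQ
  apply Sylow.ext
  exact (P.3 Q.isPGroup' hPQle).symm

end Cfsg.Agent.S4066
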