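import Cfsg.Statements.S4071
import Cfsg.Agent.Lib.FGS.Syl
import Cfsg.Agent.Lib.FGS.Cover
import Cfsg.Agent.Lib.Trans.Ito
import Cfsg.Agent.Lib.Lead.Pfour
import Cfsg.Agent.Lib.Solv.Core

set_option autoImplicit false
open Cfsg
open scoped commutatorElement
open scoped Pointwise

namespace Cfsg.Agent.S4071

/-- The converse direction. -/
theorem h8_back {G : Type*} [Group G] [Finite G] (x : G) (A : Subgroup G) (p : ℕ) (hp : p.Prime)
    (hAn : A.Normal) (hAc : IsMulCommutative A) (hxo : ∃ k : ℕ, orderOf x = p ^ k)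
    (hcompl : (Subgroup.zpowers x).IsComplement' A) (hcen : x ^ p ∈ Subgroup.center G)
    (hfpf : ∀ a : G, a ∈ A → a ≠ 1 → x * a * x⁻¹ ≠ a) (H : Subgroup G) (hH : ¬ IsMulCommutative H) :
    Subgroup.normalizer (H : Set G) = H := by
  classical
  haveI := hAn
  have hAcomm : ∀ a ∈ A, ∀ b ∈ A, a * b = b * a := by
    intro a ha b hb
    have := hAc.is_comm.comm ⟨a, ha⟩ ⟨b, hb⟩
    exact congrArg Subtype.val this
  obtain ⟨k, hk⟩ := hxo
  -- decomposition
  have hdec : ∀ g : G, ∃ a ∈ A, ∃ i : ℤ, g = a * x ^ i := by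
    intro g
    have h1 : g ∈ (Subgroup.zpowers x) ⊔ A := by
      rw [hcompl.sup_eq_top]; trivial
    obtain ⟨b, hb, a, ha, hba⟩ := Subgroup.mem_sup_of_normal_right.1 h1
    obtain ⟨i, rfl⟩ := hb
    refine ⟨x ^ i * a * (x ^ i)⁻¹, hAn.conj_mem a ha _, i, ?_⟩
    rw [← hba]
    group
  have hxpc : ∀ i : ℤ, ∀ g : G, (x ^ p) ^ i * g = g * (x ^ p) ^ i := by
    intro i g
    have h1 : (x ^ p) ^ i ∈ Subgroup.center G := Subgroup.zpow_mem _ hcen i
    exact (Subgroup.mem_center_iff.1 h1 g).symm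
  -- a good element of `H`
  have hex : ∃ y ∈ H, ∃ a ∈ A, ∃ j : ℤ, y = a * x ^ j ∧ ¬ (p : ℤ) ∣ j := by
    by_contra hcon
    push Not at hcon
    apply hH
    refine ⟨⟨fun u v => ?_⟩⟩
    apply Subtype.ext
    obtain ⟨a, ha, i, hi⟩ := hdec (u : G)
    obtain ⟨b, hb, j, hj⟩ := hdec (v : G)
    obtain ⟨s, hs⟩ := hcon _ u.2 a ha i hi
    obtain ⟨t, ht⟩ := hcon _ v.2 b hb j hj
    show (u : G) * v = v * u
    rw [hi, hj, hs, ht]
    have h1 : x ^ ((p : ℤ) * s) = (x ^ p) ^ s := by rw [zpow_mul, zpow_natCast]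
    have h2 : x ^ ((p : ℤ) * t) = (x ^ p) ^ t := by rw [zpow_mul, zpow_natCast]
    rw [h1, h2]
    calc a * (x ^ p) ^ s * (b * (x ^ p) ^ t) = a * ((x ^ p) ^ s * b) * (x ^ p) ^ t := by group
      _ = a * (b * (x ^ p) ^ s) * (x ^ p) ^ t := by rw [hxpc s b]
      _ = (a * b) * ((x ^ p) ^ s * (x ^ p) ^ t) := by group
      _ = (b * a) * ((x ^ p) ^ t * (x ^ p) ^ s) := by
        rw [hAcomm a ha b hb, ← zpow_add, ← zpow_add, add_comm]
      _ = b * (a * (x ^ p) ^ t) * (x ^ p) ^ s := by group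
      _ = b * ((x ^ p) ^ t * a) * (x ^ p) ^ s := by rw [hxpc t a]
      _ = _ := by group
  obtain ⟨y, hyH, a₀, ha₀, j, hy, hj⟩ := hex
  -- `x` is a power of `x ^ j`
  obtain ⟨u, hu⟩ : ∃ u : ℤ, (x ^ j) ^ u = x := by
    have hc : IsCoprime j ((p : ℤ) ^ k) := by
      have := ((Nat.prime_iff_prime_int.1 hp).coprime_iff_not_dvd.2 hj).symm
      exact this.pow_right
    obtain ⟨u, v, huv⟩ := hc
    refine ⟨u, ?_⟩
    have h1 : x ^ (u * j + v * (p : ℤ) ^ k) = x := by rw [huv, zpow_one]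
    have h2 : x ^ ((p : ℤ) ^ k) = 1 := by
      have : ((p : ℤ) ^ k) = ((p ^ k : ℕ) : ℤ) := by push_cast; rfl
      rw [this, zpow_natCast, ← hk, pow_orderOf_eq_one]
    rw [zpow_add, mul_comm v, zpow_mul x ((p : ℤ) ^ k) v, h2, one_zpow, mul_one, mul_comm u, zpow_mul] at h1
    exact h1
  -- every element is `a y^i`
  have hdec2 : ∀ g : G, ∃ a ∈ A, ∃ i : ℤ, g = a * y ^ i := by
    intro g
    obtain ⟨a, ha, i, hi⟩ := hdec g
    have hmk : (y : G ⧸ A) = (x : G ⧸ A) ^ j := by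
      rw [hy, QuotientGroup.mk_mul, ← QuotientGroup.mk_zpow]
      have : ((a₀ : G) : G ⧸ A) = 1 := (QuotientGroup.eq_one_iff _).2 ha₀
      rw [this, one_mul]
    have hmk2 : (x : G ⧸ A) = (y : G ⧸ A) ^ u := by
      rw [hmk, ← QuotientGroup.mk_zpow, ← QuotientGroup.mk_zpow, hu]
    refine ⟨g * (y ^ (u * i))⁻¹, ?_, u * i, by group⟩
    apply (QuotientGroup.eq_one_iff _).1
    rw [QuotientGroup.mk_mul, QuotientGroup.mk_inv, QuotientGroup.mk_zpow, mul_inv_eq_one, hi, QuotientGroup.mk_mul]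
    have : ((a : G) : G ⧸ A) = 1 := (QuotientGroup.eq_one_iff _).2 ha
    rw [this, one_mul, QuotientGroup.mk_zpow, hmk2, zpow_mul]
  -- action of `y` on `A`
  have hyact : ∀ b ∈ A, y * b * y⁻¹ = x ^ j * b * (x ^ j)⁻¹ := by
    intro b hb
    rw [hy]
    have h1 : x ^ j * b * (x ^ j)⁻¹ ∈ A := hAn.conj_mem b hb _
    calc a₀ * x ^ j * b * (a₀ * x ^ j)⁻¹ = a₀ * (x ^ j * b * (x ^ j)⁻¹) * a₀⁻¹ := by group
      _ = (x ^ j * b * (x ^ j)⁻¹) * a₀ * a₀⁻¹ := by rw [hAcomm a₀ ha₀ _ h1]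
      _ = _ := by group
  have hfix : ∀ b ∈ A, y * b * y⁻¹ = b → b = 1 := by
    intro b hb h
    by_contra hb1
    apply hfpf b hb hb1
    rw [hyact b hb] at h
    have h1 : Commute (x ^ j) b := by
      have : x ^ j * b = b * x ^ j := mul_inv_eq_iff_eq_mul.1 h
      exact this
    have h2 : Commute x b := by
      rw [← hu]
      exact h1.zpow_left u
    have h3 : x * b = b * x := h2
    rw [h3]; group
  -- the main computation
  apply le_antisymm _ Subgroup.le_normalizer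
  intro g hg
  obtain ⟨a, ha, i, rfl⟩ := hdec2 g
  have hyi : y ^ i ∈ H := H.zpow_mem hyH i
  have haN : a ∈ Subgroup.normalizer (H : Set G) := by
    have h1 : a = (a * y ^ i) * (y ^ i)⁻¹ := by group
    rw [h1]
    exact Subgroup.mul_mem _ hg (Subgroup.inv_mem _ (Subgroup.le_normalizer hyi))
  suffices haH : a ∈ H from H.mul_mem haH hyi
  -- the map on `B = H ∩ A`
  have hconjB : ∀ b ∈ H ⊓ A, y * b * y⁻¹ * b⁻¹ ∈ H ⊓ A := by
    rintro b ⟨hb1, hb2⟩
    exact ⟨H.mul_mem (H.mul_mem (H.mul_mem hyH hb1) (H.inv_mem hyH)) (H.inv_mem hb1),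
      A.mul_mem (hAn.conj_mem b hb2 y) (A.inv_mem hb2)⟩
  let φ : ↥(H ⊓ A) → ↥(H ⊓ A) := fun b => ⟨y * b * y⁻¹ * (b : G)⁻¹, hconjB b b.2⟩
  have hinjA : ∀ b ∈ A, ∀ c ∈ A, y * b * y⁻¹ * b⁻¹ = y * c * y⁻¹ * c⁻¹ → b = c := by
    intro b hb c hc h
    have hyb := hAn.conj_mem b hb y
    have hyc := hAn.conj_mem c hc y
    have h1 : y * (b * c⁻¹) * y⁻¹ = b * c⁻¹ := by
      have h2 : y * (b * c⁻¹) * y⁻¹ = (y * b * y⁻¹) * (y * c * y⁻¹)⁻¹ := by group
      rw [h2]
      have h3 : y * b * y⁻¹ = (y * c * y⁻¹ * c⁻¹) * b := by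
        rw [← h]; group
      rw [h3]
      have h4 := hAcomm (y * c * y⁻¹)⁻¹ (A.inv_mem hyc) _ (A.mul_mem (A.mul_mem hyc (A.inv_mem hc)) hb)
      have h5 := hAcomm c⁻¹ (A.inv_mem hc) b hb
      calc y * c * y⁻¹ * c⁻¹ * b * (y * c * y⁻¹)⁻¹ = (y * c * y⁻¹)⁻¹ * (y * c * y⁻¹ * c⁻¹ * b) := by
            rw [h4]
        _ = c⁻¹ * b := by group
        _ = b * c⁻¹ := h5
    have h6 := hfix _ (A.mul_mem hb (A.inv_mem hc)) h1
    exact mul_inv_eq_one.1 h6
  have hφ : Function.Injective φ := by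
    intro b c h
    have h1 : y * (b : G) * y⁻¹ * (b : G)⁻¹ = y * (c : G) * y⁻¹ * (c : G)⁻¹ := congrArg Subtype.val h
    exact Subtype.ext (hinjA _ b.2.2 _ c.2.2 h1)
  have hφs := Finite.injective_iff_surjective.1 hφ
  -- the commutator of `a` and `y` lies in `B`
  have hc : y * a * y⁻¹ * a⁻¹ ∈ H ⊓ A := by
    refine ⟨?_, A.mul_mem (hAn.conj_mem a ha y) (A.inv_mem ha)⟩
    have h1 : a * y⁻¹ * a⁻¹ ∈ H := (Subgroup.mem_normalizer_iff.1 haN _).1 (H.inv_mem hyH)
    have h2 : y * (a * y⁻¹ * a⁻¹) ∈ H := H.mul_mem hyH h1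
    have h3 : y * (a * y⁻¹ * a⁻¹) = y * a * y⁻¹ * a⁻¹ := by group
    rwa [h3] at h2
  obtain ⟨b, hb⟩ := hφs ⟨_, hc⟩
  have hb' : y * (b : G) * y⁻¹ * (b : G)⁻¹ = y * a * y⁻¹ * a⁻¹ := congrArg Subtype.val hb
  have := hinjA _ b.2.2 _ ha hb'
  rw [← this]
  exact b.2.1
set_option maxHeartbeats 4000000 in
theorem h8_forw {G : Type*} [Group G] [Finite G] [Group.IsSolvable G] (hnn : ¬ Group.IsNilpotent G)
    (hall : ∀ H : Subgroup G, ¬ IsMulCommutative H → Subgroup.normalizer (H : Set G) = H) :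
    ∃ (x : G) (A : Subgroup G) (p : ℕ), p.Prime ∧ A.Normal ∧ IsMulCommutative A ∧ (∃ k : ℕ, orderOf x = p ^ k) ∧
      ¬ p ∣ Nat.card A ∧ (Subgroup.zpowers x).IsComplement' A ∧ x ^ p ∈ Subgroup.center G ∧
      ∀ a : G, a ∈ A → a ≠ 1 → x * a * x⁻¹ ≠ a := by
  classical
  haveI : Nontrivial G := by
    by_contra hnt
    rw [not_nontrivial_iff_subsingleton] at hnt
    exact hnn inferInstance
  obtain ⟨M, p, hMn, hp, hMi⟩ := CfsgLib.Trans.exists_normal_prime_index (G := G)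
  haveI := hMn
  haveI : Fact p.Prime := ⟨hp⟩
  have hMc : ∀ a ∈ M, ∀ b ∈ M, a * b = b * a := by
    by_contra hcon
    have h1 : ¬ IsMulCommutative M := by
      intro h2
      apply hcon
      intro a ha b hb
      have := h2.is_comm.comm ⟨a, ha⟩ ⟨b, hb⟩
      exact congrArg Subtype.val this
    have h2 := hall M h1
    rw [Subgroup.normalizer_eq_top_iff.2 hMn] at h2
    rw [← h2, Subgroup.index_top] at hMi
    exact hp.one_lt.ne hMi
  obtain ⟨A, hA⟩ : ∃ A : Subgroup G, A = Cfsg.pPrimeCore p G := ⟨_, rfl⟩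
  haveI hAn : A.Normal := by rw [hA]; exact CfsgLib.Solv.pPrimeCore_normal' p
  have hAcop : (Nat.card A).Coprime p := by rw [hA]; exact CfsgLib.Solv.pPrimeCore_coprime p
  have hAord : ∀ a ∈ A, (orderOf a).Coprime p := fun a ha =>
    Nat.Coprime.coprime_dvd_left (Subgroup.orderOf_dvd_natCard A ha) hAcop
  have hAM : A ≤ M := by
    intro a ha
    apply CfsgLib.Trans.mem_of_coprime_index
    rw [hMi]
    exact hAord a ha
  have hAc : ∀ a ∈ A, ∀ b ∈ A, a * b = b * a := fun a ha b hb => hMc a (hAM ha) b (hAM hb)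
  have hpA : ¬ p ∣ Nat.card A := fun h => hp.one_lt.ne' (Nat.Coprime.eq_one_of_dvd hAcop.symm h)
  have hquot : IsPGroup p (G ⧸ A) := by
    intro gb
    obtain ⟨g, rfl⟩ := QuotientGroup.mk_surjective gb
    obtain ⟨e, u, hu, heu⟩ := Nat.exists_eq_pow_mul_and_not_dvd (Nat.card_pos (α := M)).ne' p hp.ne_one
    obtain ⟨N₁, hN₁⟩ : ∃ N₁ : Subgroup G, ∀ z, z ∈ N₁ ↔ z ∈ M ∧ z ^ u = 1 :=
      ⟨{ carrier := {z | z ∈ M ∧ z ^ u = 1}
         mul_mem' := by
          rintro a b ⟨ha, ha'⟩ ⟨hb, hb'⟩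
          refine ⟨M.mul_mem ha hb, ?_⟩
          have hC : Commute a b := hMc a ha b hb
          rw [hC.mul_pow, ha', hb', one_mul]
         one_mem' := ⟨M.one_mem, one_pow _⟩
         inv_mem' := by
          rintro a ⟨ha, ha'⟩
          exact ⟨M.inv_mem ha, by rw [inv_pow, ha', inv_one]⟩ }, fun _ => Iff.rfl⟩
    haveI hN₁n : N₁.Normal := by
      constructor
      intro z hz g'
      obtain ⟨h1, h2⟩ := (hN₁ z).1 hz
      refine (hN₁ _).2 ⟨hMn.conj_mem z h1 g', ?_⟩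
      have := map_pow (MulAut.conj g').toMonoidHom z u
      have h3 : (g' * z * g'⁻¹) ^ u = g' * z ^ u * g'⁻¹ := by
        simpa [MulAut.conj_apply] using this.symm
      rw [h3, h2]; group
    have hN₁cop : (Nat.card N₁).Coprime p := by
      refine ((Nat.Prime.coprime_iff_not_dvd hp).2 (fun hd => ?_)).symm
      obtain ⟨z, hz⟩ := exists_prime_orderOf_dvd_card' p hd
      have h1 : (z : G) ^ u = 1 := ((hN₁ _).1 z.2).2
      have h2 : orderOf (z : G) = p := by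
        rw [← Subgroup.orderOf_coe] at hz
        exact hz
      exact hu (h2 ▸ orderOf_dvd_of_pow_eq_one h1)
    have hN₁A : N₁ ≤ A := by
      rw [hA]
      exact CfsgLib.Solv.le_pPrimeCore' N₁ hN₁cop
    have hgp : g ^ p ∈ M := by
      have := M.pow_index_mem g
      rwa [hMi] at this
    have hw : (g ^ p) ^ p ^ e ∈ N₁ := by
      refine (hN₁ _).2 ⟨M.pow_mem hgp _, ?_⟩
      rw [← pow_mul, ← heu]
      have h1 := pow_card_eq_one' (x := (⟨g ^ p, hgp⟩ : M))
      have h2 : (((⟨g ^ p, hgp⟩ : M) ^ Nat.card M : M) : G) = 1 := by rw [h1]; rfl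
      rw [Subgroup.coe_pow] at h2
      exact h2
    refine ⟨1 + e, ?_⟩
    rw [← QuotientGroup.mk_pow, QuotientGroup.eq_one_iff]
    have h3 : g ^ p ^ (1 + e) = (g ^ p) ^ p ^ e := by
      rw [← pow_mul, pow_add, pow_one]
    rw [h3]
    exact hN₁A hw
  obtain ⟨P⟩ : Nonempty (Sylow p G) := inferInstance
  obtain ⟨t, ht⟩ := (IsPGroup.iff_card).1 hquot
  have hAidx : A.index = p ^ t := ht
  have hPcard : Nat.card P = p ^ t := by
    have h1 := Subgroup.card_mul_index A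
    rw [hAidx] at h1
    have h2 : p ^ t ∣ Nat.card P := P.pow_dvd_card_of_pow_dvd_card (Dvd.intro_left _ h1)
    obtain ⟨s, hs⟩ := (IsPGroup.iff_card).1 P.2
    have h3 : Nat.card P ∣ Nat.card A * p ^ t := by
      rw [h1]; exact Subgroup.card_subgroup_dvd_card _
    have h4 : Nat.card P ∣ p ^ t := by
      refine Nat.Coprime.dvd_of_dvd_mul_left ?_ h3
      rw [hs]
      exact Nat.Coprime.pow_left s hAcop.symm
    exact Nat.dvd_antisymm h4 h2
  have hc : A.IsComplement' (P : Subgroup G) := by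
    apply Subgroup.isComplement'_of_coprime
    · rw [hPcard, ← hAidx]
      exact Subgroup.card_mul_index A
    · rw [hPcard]
      exact Nat.Coprime.pow_right t hAcop
  have hPM : ¬ (P : Subgroup G) ≤ M := by
    intro h
    have h1 : A ⊔ (P : Subgroup G) ≤ M := sup_le hAM h
    rw [hc.sup_eq_top, top_le_iff] at h1
    rw [h1, Subgroup.index_top] at hMi
    exact hp.one_lt.ne hMi
  obtain ⟨y, hyP, hyM⟩ := SetLike.not_le_iff_exists.1 hPM
  obtain ⟨k, hk⟩ : ∃ k, orderOf y = p ^ k := by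
    obtain ⟨k, hk⟩ := (IsPGroup.iff_orderOf).1 P.2 ⟨y, hyP⟩
    exact ⟨k, by rw [← hk, Subgroup.orderOf_mk]⟩
  have hsup : M ⊔ Subgroup.zpowers y = ⊤ := CfsgLib.Lead.sup_zpowers_eq_top p hp M hMi y hyM
  have hyzA : ∀ (i : ℤ), y ^ i ∈ A → y ^ i = 1 := by
    intro i hi
    have h1 : orderOf (y ^ i) ∣ p ^ k := by
      apply orderOf_dvd_of_pow_eq_one
      rw [← zpow_natCast, ← zpow_mul, mul_comm, zpow_mul, zpow_natCast, ← hk, pow_orderOf_eq_one, one_zpow]
    have h2 := hAord _ hi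
    exact orderOf_eq_one_iff.1 (Nat.eq_one_of_dvd_coprimes (Nat.Coprime.pow_right k h2) (dvd_refl _) h1)
  have hyC : ∃ b ∈ A, y * b * y⁻¹ ≠ b := by
    by_contra hcon
    push Not at hcon
    apply hnn
    have hcen : A ≤ Subgroup.center G := by
      intro a ha
      rw [Subgroup.mem_center_iff]
      intro g
      have hle : M ⊔ Subgroup.zpowers y ≤ Subgroup.centralizer ({a} : Set G) := by
        refine sup_le ?_ ?_
        · intro m hm
          rw [Subgroup.mem_centralizer_singleton_iff]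
          exact hMc m hm a (hAM ha)
        · rw [Subgroup.zpowers_le, Subgroup.mem_centralizer_singleton_iff]
          exact mul_inv_eq_iff_eq_mul.1 (hcon a ha)
      have h1 : g ∈ Subgroup.centralizer ({a} : Set G) := hle (by rw [hsup]; trivial)
      rw [Subgroup.mem_centralizer_singleton_iff] at h1
      exact h1
    haveI : Group.IsNilpotent (G ⧸ A) := hquot.isNilpotent
    refine isNilpotent_of_ker_le_center (QuotientGroup.mk' A) ?_
    rwa [QuotientGroup.ker_mk']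
  -- the commutator map
  have hφA : ∀ a ∈ A, y * a * y⁻¹ * a⁻¹ ∈ A := fun a ha => A.mul_mem (hAn.conj_mem a ha y) (A.inv_mem ha)
  have hfixφ : ∀ a ∈ A, y * (y * a * y⁻¹ * a⁻¹) * y⁻¹ = y * a * y⁻¹ * a⁻¹ → y * a * y⁻¹ * a⁻¹ = 1 := by
    intro a ha h
    obtain ⟨c, hc'⟩ : ∃ c, c = y * a * y⁻¹ * a⁻¹ := ⟨_, rfl⟩
    rw [← hc'] at h ⊢
    have hcA : c ∈ A := by rw [hc']; exact hφA a ha
    have hyc : y * c = c * y := mul_inv_eq_iff_eq_mul.1 h
    have hya : y * a * y⁻¹ = c * a := by rw [hc']; group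
    have hit : ∀ n : ℕ, y ^ n * a * (y ^ n)⁻¹ = c ^ n * a := by
      intro n
      induction n with
      | zero => simp
      | succ n ih =>
        have hC : Commute y (c ^ n) := (Commute.pow_right hyc n)
        calc y ^ (n + 1) * a * (y ^ (n + 1))⁻¹ = y * (y ^ n * a * (y ^ n)⁻¹) * y⁻¹ := by
              rw [pow_succ']; group
          _ = y * (c ^ n * a) * y⁻¹ := by rw [ih]
          _ = (y * c ^ n) * a * y⁻¹ := by group
          _ = c ^ n * (y * a * y⁻¹) := by rw [hC.eq]; group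
          _ = c ^ n * (c * a) := by rw [hya]
          _ = c ^ (n + 1) * a := by rw [pow_succ]; group
    have h1 := hit (orderOf y)
    rw [pow_orderOf_eq_one] at h1
    have h2 : c ^ orderOf y = 1 := by
      have h3 : a = c ^ orderOf y * a := by simpa using h1
      exact (mul_eq_right.1 h3.symm)
    have h3 : orderOf c ∣ p ^ k := by rw [← hk]; exact orderOf_dvd_of_pow_eq_one h2
    exact orderOf_eq_one_iff.1 (Nat.eq_one_of_dvd_coprimes (Nat.Coprime.pow_right k (hAord c hcA)) (dvd_refl _) h3)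
  obtain ⟨A₁, hA₁⟩ : ∃ A₁ : Subgroup G, ∀ z, z ∈ A₁ ↔ ∃ a ∈ A, z = y * a * y⁻¹ * a⁻¹ :=
    ⟨{ carrier := {z | ∃ a ∈ A, z = y * a * y⁻¹ * a⁻¹}
       mul_mem' := by
        rintro _ _ ⟨a, ha, rfl⟩ ⟨b, hb, rfl⟩
        refine ⟨a * b, A.mul_mem ha hb, ?_⟩
        have h1 := hAc _ (hAn.conj_mem b hb y) _ (A.inv_mem ha)
        have h2 := hAc _ (A.inv_mem ha) _ (A.inv_mem hb)
        calc y * a * y⁻¹ * a⁻¹ * (y * b * y⁻¹ * b⁻¹) = y * a * y⁻¹ * (a⁻¹ * (y * b * y⁻¹)) * b⁻¹ := by group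
          _ = y * a * y⁻¹ * ((y * b * y⁻¹) * a⁻¹) * b⁻¹ := by rw [h1]
          _ = y * (a * b) * y⁻¹ * (a⁻¹ * b⁻¹) := by group
          _ = y * (a * b) * y⁻¹ * (b⁻¹ * a⁻¹) := by rw [h2]
          _ = _ := by group
       one_mem' := ⟨1, A.one_mem, by simp⟩
       inv_mem' := by
        rintro _ ⟨a, ha, rfl⟩
        refine ⟨a⁻¹, A.inv_mem ha, ?_⟩
        have h1 := hAc _ (hAn.conj_mem _ (A.inv_mem ha) y) _ ha
        calc (y * a * y⁻¹ * a⁻¹)⁻¹ = a * (y * a⁻¹ * y⁻¹) := by group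
          _ = (y * a⁻¹ * y⁻¹) * a := h1.symm
          _ = _ := by group }, fun _ => Iff.rfl⟩
  have hA₁A : A₁ ≤ A := by
    intro z hz
    obtain ⟨a, ha, rfl⟩ := (hA₁ z).1 hz
    exact hφA a ha
  have hyNA₁ : y ∈ Subgroup.normalizer (A₁ : Set G) := by
    rw [Subgroup.mem_normalizer_iff]
    intro z
    constructor
    · intro hz
      obtain ⟨a, ha, rfl⟩ := (hA₁ z).1 hz
      refine (hA₁ _).2 ⟨y * a * y⁻¹, hAn.conj_mem a ha y, ?_⟩
      group
    · intro hz
      obtain ⟨a, ha, ha'⟩ := (hA₁ _).1 hz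
      refine (hA₁ _).2 ⟨y⁻¹ * a * y, ?_, ?_⟩
      · have := hAn.conj_mem a ha y⁻¹
        simpa using this
      · have h1 : z = y⁻¹ * (y * z * y⁻¹) * y := by group
        rw [h1, ha']
        group
  have hyzN : ∀ (B : Subgroup G), y ∈ Subgroup.normalizer (B : Set G) → ∀ (i : ℤ) (b : G), b ∈ B → y ^ i * b * (y ^ i)⁻¹ ∈ B :=
    fun B hB i b hb => (Subgroup.mem_normalizer_iff.1 (Subgroup.zpow_mem _ hB i) b).1 hb
  -- the semidirect products `B ⟨y⟩`
  have hsemi : ∀ B : Subgroup G, y ∈ Subgroup.normalizer (B : Set G) → ∃ H : Subgroup G, ∀ z, z ∈ H ↔ ∃ b ∈ B, ∃ i : ℤ, z = b * y ^ i := by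
    intro B hB
    exact ⟨{ carrier := {z | ∃ b ∈ B, ∃ i : ℤ, z = b * y ^ i}
             mul_mem' := by
              rintro _ _ ⟨d, hd, i, rfl⟩ ⟨d', hd', j, rfl⟩
              refine ⟨d * (y ^ i * d' * (y ^ i)⁻¹), B.mul_mem hd (hyzN B hB i d' hd'), i + j, ?_⟩
              rw [zpow_add]
              group
             one_mem' := ⟨1, B.one_mem, 0, by simp⟩
             inv_mem' := by
              rintro _ ⟨d, hd, i, rfl⟩
              refine ⟨y ^ (-i) * d⁻¹ * (y ^ (-i))⁻¹, hyzN B hB (-i) _ (B.inv_mem hd), -i, ?_⟩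
              group }, fun _ => Iff.rfl⟩
  have hnonab : ∀ H : Subgroup G, y ∈ H → A₁ ≤ H → ¬ IsMulCommutative H := by
    intro H hyH hAH hcomm
    obtain ⟨b, hb, hb2⟩ := hyC
    have hz : y * b * y⁻¹ * b⁻¹ ∈ A₁ := (hA₁ _).2 ⟨b, hb, rfl⟩
    have h1 := hcomm.is_comm.comm ⟨y, hyH⟩ ⟨_, hAH hz⟩
    have h2 : y * (y * b * y⁻¹ * b⁻¹) = (y * b * y⁻¹ * b⁻¹) * y := congrArg Subtype.val h1
    have h3 := hfixφ b hb (by rw [h2]; group)
    apply hb2
    exact mul_inv_eq_one.1 h3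
  -- no fixed points
  have hfpf : ∀ a : G, a ∈ A → a ≠ 1 → y * a * y⁻¹ ≠ a := by
    intro a ha ha1 hfix
    obtain ⟨H₁, hH₁⟩ := hsemi A₁ hyNA₁
    have hyH₁ : y ∈ H₁ := (hH₁ y).2 ⟨1, A₁.one_mem, 1, by simp⟩
    have hAH₁ : A₁ ≤ H₁ := fun z hz => (hH₁ z).2 ⟨z, hz, 0, by simp⟩
    have hN := hall H₁ (hnonab H₁ hyH₁ hAH₁)
    have hcomm : ∀ z ∈ H₁, a * z * a⁻¹ = z := by
      intro z hz
      obtain ⟨b, hb, i, rfl⟩ := (hH₁ z).1 hz
      have h1 : a * b = b * a := hAc a ha b (hA₁A hb)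
      have h2 : Commute a y := by
        have : y * a = a * y := mul_inv_eq_iff_eq_mul.1 hfix
        exact this.symm
      have h3 : Commute a (y ^ i) := h2.zpow_right i
      calc a * (b * y ^ i) * a⁻¹ = (a * b) * y ^ i * a⁻¹ := by group
        _ = b * (a * y ^ i) * a⁻¹ := by rw [h1]; group
        _ = b * (y ^ i * a) * a⁻¹ := by rw [h3.eq]
        _ = _ := by group
    have haN : a ∈ Subgroup.normalizer (H₁ : Set G) := by
      rw [Subgroup.mem_normalizer_iff]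
      intro z
      constructor
      · intro hz
        show a * z * a⁻¹ ∈ H₁
        rw [hcomm z hz]; exact hz
      · intro hz
        have hz' : a * z * a⁻¹ ∈ H₁ := hz
        have h1 := hcomm _ hz'
        have h2 : a * z * a⁻¹ = z := by
          have h3 : a * (a * z * a⁻¹) = (a * z * a⁻¹) * a := mul_inv_eq_iff_eq_mul.1 h1
          have h4 : a * z = z * a := by
            have h5 := congrArg (fun w => a⁻¹ * w * a) h3
            simpa [mul_assoc] using h5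
          rw [h4]; group
        show z ∈ H₁
        rw [← h2]; exact hz'
    rw [hN] at haN
    obtain ⟨b, hb, i, hi⟩ := (hH₁ a).1 haN
    have h1 : y ^ i ∈ A := by
      have h2 : y ^ i = b⁻¹ * a := by rw [hi]; group
      rw [h2]
      exact A.mul_mem (A.inv_mem (hA₁A hb)) ha
    rw [hyzA i h1, mul_one] at hi
    obtain ⟨c, hc', rfl⟩ := (hA₁ b).1 hb
    apply ha1
    rw [hi]
    apply hfixφ c hc'
    rw [← hi]
    exact hfix
  -- `P = ⟨y⟩`
  have hPy : (P : Subgroup G) = Subgroup.zpowers y := by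
    symm
    by_contra hne
    have hlt : Subgroup.zpowers y < (P : Subgroup G) :=
      lt_of_le_of_ne (by rw [Subgroup.zpowers_le]; exact hyP) hne
    obtain ⟨n, hnP, hny, hnN⟩ := CfsgLib.FGS.exists_mem_normalizer_of_lt P.2 hlt
    have hyNA : y ∈ Subgroup.normalizer (A : Set G) := by
      rw [Subgroup.normalizer_eq_top_iff.2 hAn]; trivial
    obtain ⟨H, hH⟩ := hsemi A hyNA
    have hyH : y ∈ H := (hH y).2 ⟨1, A.one_mem, 1, by simp⟩
    have hAH : A ≤ H := fun z hz => (hH z).2 ⟨z, hz, 0, by simp⟩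
    have hN := hall H (hnonab H hyH (hA₁A.trans hAH))
    have hstable : ∀ m : G, m ∈ Subgroup.normalizer ((Subgroup.zpowers y : Subgroup G) : Set G) → ∀ z ∈ H, m * z * m⁻¹ ∈ H := by
      intro m hm z hz
      obtain ⟨b, hb, i, rfl⟩ := (hH z).1 hz
      have h1 : m * y ^ i * m⁻¹ ∈ Subgroup.zpowers y := (Subgroup.mem_normalizer_iff.1 hm _).1 (Subgroup.zpow_mem _ (Subgroup.mem_zpowers y) i)
      obtain ⟨j, hj⟩ := h1
      replace hj : y ^ j = m * y ^ i * m⁻¹ := hj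
      have h2 : m * (b * y ^ i) * m⁻¹ = (m * b * m⁻¹) * (m * y ^ i * m⁻¹) := by group
      rw [h2]
      exact (hH _).2 ⟨_, hAn.conj_mem b hb m, j, by rw [hj]⟩
    have hnH : n ∈ H := by
      rw [← hN, Subgroup.mem_normalizer_iff]
      intro z
      constructor
      · exact hstable n hnN z
      · intro hz
        have := hstable n⁻¹ (Subgroup.inv_mem _ hnN) _ hz
        have h1 : n⁻¹ * (n * z * n⁻¹) * n⁻¹⁻¹ = z := by group
        rwa [h1] at this
    obtain ⟨a, ha, i, hi⟩ := (hH n).1 hnH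
    have h1 : a ∈ (P : Subgroup G) := by
      have h2 : a = n * (y ^ i)⁻¹ := by rw [hi]; group
      rw [h2]
      exact Subgroup.mul_mem _ hnP (Subgroup.inv_mem _ (Subgroup.zpow_mem _ hyP i))
    have h3 : a = 1 := Subgroup.disjoint_def.1 hc.disjoint ha h1
    apply hny
    rw [hi, h3, one_mul]
    exact ⟨i, rfl⟩
  refine ⟨y, A, p, hp, hAn, ⟨⟨fun a b => Subtype.ext (hAc a a.2 b b.2)⟩⟩, ⟨k, hk⟩, hpA, ?_, ?_, hfpf⟩
  · rw [← hPy]; exact hc.symm
  · have hyp : y ^ p ∈ M := by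
      have := M.pow_index_mem y
      rwa [hMi] at this
    rw [Subgroup.mem_center_iff]
    intro g
    have hle : A ⊔ (P : Subgroup G) ≤ Subgroup.centralizer ({y ^ p} : Set G) := by
      refine sup_le ?_ ?_
      · intro a ha
        rw [Subgroup.mem_centralizer_singleton_iff]
        exact hMc a (hAM ha) _ hyp
      · rw [hPy, Subgroup.zpowers_le, Subgroup.mem_centralizer_singleton_iff]
        exact (Commute.refl y).pow_right p
    have h1 : g ∈ Subgroup.centralizer ({y ^ p} : Set G) := hle (by rw [hc.sup_eq_top]; trivial)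
    rw [Subgroup.mem_centralizer_singleton_iff] at h1
    exact h1

/-- Let G be a finite solvable non-nilpotent group. Every non-abelian subgroup of G is self-normalizing if and only if G is a semidirect product ⟨x⟩ ⋉ A in which ⟨x⟩ is a p-group for some prime p, A is a normal abelian subgroup of order prime to p, x^p is central in G, and x acts fixed-point-freely on A (no non-identity element of A commutes with x). -/
theorem result {G : Type*} [Group G] [Finite G]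
    [Group.IsSolvable G] (hnn : ¬ Group.IsNilpotent G) :
    (∀ H : Subgroup G, ¬ IsMulCommutative H → Subgroup.normalizer (H : Set G) = H) ↔
    ∃ (x : G) (A : Subgroup G) (p : ℕ), p.Prime ∧ A.Normal ∧ IsMulCommutative A ∧ (∃ k : ℕ, orderOf x = p ^ k) ∧
      ¬ p ∣ Nat.card A ∧ (Subgroup.zpowers x).IsComplement' A ∧ x ^ p ∈ Subgroup.center G ∧
      ∀ a : G, a ∈ A → a ≠ 1 → x * a * x⁻¹ ≠ a := by
  constructor
  · exact h8_forw hnn
  · rintro ⟨x, A, p, hp, hAn, hAc, hxo, -, hcompl, hcen, hfpf⟩ H hH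
    exact h8_back x A p hp hAn hAc hxo hcompl hcen hfpf H hH

end Cfsg.Agent.S4071
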