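import Cfsg.Statements.S4072
import Cfsg.Agent.Lib.Trans.Frob
-- import your own Cfsg.Agent.* helpers here

set_option autoImplicit false
open Cfsg

namespace Cfsg.Agent.S4072

section aux
variable {G : Type*} [Group G] [Finite G]

/-- `w g^k` decomposition. -/
theorem mem_sup_zpowers {W : Subgroup G} {g : G} (hg : g ∈ Subgroup.normalizer (W : Set G)) {z : G}
    (hz : z ∈ W ⊔ Subgroup.zpowers g) : ∃ w ∈ W, ∃ k : ℤ, z = w * g ^ k := by
  have hgk : ∀ k : ℤ, g ^ k ∈ Subgroup.normalizer (W : Set G) := fun k => Subgroup.zpow_mem _ hg k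
  let K : Subgroup G :=
    { carrier := {y | ∃ w ∈ W, ∃ k : ℤ, y = w * g ^ k}
      one_mem' := ⟨1, W.one_mem, 0, by simp⟩
      mul_mem' := by
        rintro a b ⟨w, hw, k, rfl⟩ ⟨w', hw', l, rfl⟩
        refine ⟨w * (g ^ k * w' * (g ^ k)⁻¹), W.mul_mem hw ((Subgroup.mem_normalizer_iff.1 (hgk k) w').1 hw'), k + l, ?_⟩
        rw [zpow_add]
        group
      inv_mem' := by
        rintro a ⟨w, hw, k, rfl⟩
        refine ⟨g ^ (-k) * w⁻¹ * (g ^ (-k))⁻¹, (Subgroup.mem_normalizer_iff.1 (hgk (-k)) w⁻¹).1 (W.inv_mem hw), -k, ?_⟩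
        group }
  have hle : W ⊔ Subgroup.zpowers g ≤ K := by
    apply sup_le
    · intro w hw
      exact ⟨w, hw, 0, by simp⟩
    · rw [Subgroup.zpowers_le]
      exact ⟨1, W.one_mem, 1, by simp⟩
  exact hle hz

theorem central_case (hS : ∀ H : Subgroup G, ¬ IsMulCommutative H → Subgroup.normalizer (H : Set G) = H)
    (p : ℕ) [hp : Fact p.Prime] (z : G) (hzc : z ∈ Subgroup.center G) (hzo : orderOf z = p)
    (P : Sylow p G) (Q : Subgroup G) (hQ : Q ≤ (P : Subgroup G)) (g : G) (hg : g ∈ Subgroup.normalizer (Q : Set G))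
    (hco : Nat.Coprime (orderOf g) p) : g ∈ Subgroup.centralizer (Q : Set G) := by
  have hQp : IsPGroup p Q := P.isPGroup'.to_le hQ
  have hQelt : ∀ y ∈ Q, ∃ a : ℕ, y ^ p ^ a = 1 := by
    intro y hy
    obtain ⟨a, ha⟩ := hQp ⟨y, hy⟩
    exact ⟨a, congrArg Subtype.val ha⟩
  by_cases hQc : IsMulCommutative Q
  swap
  · -- non-abelian
    have h1 := hS Q hQc
    have hgQ : g ∈ Q := by
      have : g ∈ Subgroup.normalizer (Q : Set G) := hg
      rwa [h1] at this
    obtain ⟨a, ha⟩ := hQelt g hgQ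
    have h2 : orderOf g ∣ p ^ a := orderOf_dvd_of_pow_eq_one ha
    have h3 : orderOf g = 1 := Nat.Coprime.eq_one_of_dvd (Nat.Coprime.pow_right a hco) h2
    rw [orderOf_eq_one_iff] at h3
    rw [h3]; exact Subgroup.one_mem _
  -- abelian
  by_contra hgC
  have hcomm : ∀ a ∈ Q, ∀ b ∈ Q, a * b = b * a := by
    intro a ha b hb
    have := hQc.is_comm.comm ⟨a, ha⟩ ⟨b, hb⟩
    exact congrArg Subtype.val this
  have hgQ : ∀ q ∈ Q, g * q * g⁻¹ ∈ Q := fun q hq => (Subgroup.mem_normalizer_iff.1 hg q).1 hq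
  let W : Subgroup G :=
    { carrier := {y | ∃ q ∈ Q, y = q⁻¹ * (g * q * g⁻¹)}
      one_mem' := ⟨1, Q.one_mem, by simp⟩
      mul_mem' := by
        rintro a b ⟨q, hq, rfl⟩ ⟨r, hr, rfl⟩
        refine ⟨q * r, Q.mul_mem hq hr, ?_⟩
        have h1 := hcomm _ (hgQ q hq) _ (Q.inv_mem hr)
        have h2 : q⁻¹ * r⁻¹ = (q * r)⁻¹ := by
          rw [mul_inv_rev]; exact hcomm _ (Q.inv_mem hq) _ (Q.inv_mem hr)
        calc q⁻¹ * (g * q * g⁻¹) * (r⁻¹ * (g * r * g⁻¹)) = q⁻¹ * ((g * q * g⁻¹) * r⁻¹) * (g * r * g⁻¹) := by group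
          _ = q⁻¹ * (r⁻¹ * (g * q * g⁻¹)) * (g * r * g⁻¹) := by rw [h1]
          _ = (q⁻¹ * r⁻¹) * (g * (q * r) * g⁻¹) := by group
          _ = (q * r)⁻¹ * (g * (q * r) * g⁻¹) := by rw [h2]
      inv_mem' := by
        rintro a ⟨q, hq, rfl⟩
        refine ⟨q⁻¹, Q.inv_mem hq, ?_⟩
        have h1 := hcomm _ (hgQ q⁻¹ (Q.inv_mem hq)) _ hq
        calc (q⁻¹ * (g * q * g⁻¹))⁻¹ = (g * q⁻¹ * g⁻¹) * q := by group
          _ = q * (g * q⁻¹ * g⁻¹) := h1
          _ = (q⁻¹)⁻¹ * (g * q⁻¹ * g⁻¹) := by group }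
  have hWQ : W ≤ Q := by
    rintro y ⟨q, hq, rfl⟩
    exact Q.mul_mem (Q.inv_mem hq) (hgQ q hq)
  have hWg : ∀ y ∈ W, g * y * g⁻¹ ∈ W := by
    rintro y ⟨q, hq, rfl⟩
    refine ⟨g * q * g⁻¹, hgQ q hq, ?_⟩
    group
  have hWinf : ∀ y ∈ W, g * y = y * g → y = 1 := by
    rintro y ⟨q, hq, rfl⟩ hcy
    set y := q⁻¹ * (g * q * g⁻¹) with hy
    have hpowi : ∀ i : ℕ, g ^ i * q * (g ^ i)⁻¹ = q * y ^ i := by
      intro i
      induction i with
      | zero => simp
      | succ i ih =>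
        have hyi : g * y ^ i * g⁻¹ = y ^ i := by
          have : Commute g (y ^ i) := Commute.pow_right hcy i
          rw [this.eq]; group
        calc g ^ (i + 1) * q * (g ^ (i + 1))⁻¹ = g * (g ^ i * q * (g ^ i)⁻¹) * g⁻¹ := by
              rw [pow_succ']; group
          _ = g * (q * y ^ i) * g⁻¹ := by rw [ih]
          _ = (g * q * g⁻¹) * (g * y ^ i * g⁻¹) := by group
          _ = (g * q * g⁻¹) * y ^ i := by rw [hyi]
          _ = q * y * y ^ i := by rw [hy]; group
          _ = q * y ^ (i + 1) := by rw [pow_succ']; group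
    have h1 := hpowi (orderOf g)
    rw [pow_orderOf_eq_one] at h1
    have h2 : y ^ orderOf g = 1 := by
      have : q = q * y ^ orderOf g := by simpa using h1
      exact (mul_left_cancel (a := q) (by simpa using this.symm))
    obtain ⟨a, ha⟩ := hQelt y (hWQ ⟨q, hq, rfl⟩)
    have h3 : orderOf y ∣ orderOf g := orderOf_dvd_of_pow_eq_one h2
    have h4 : orderOf y ∣ p ^ a := orderOf_dvd_of_pow_eq_one ha
    have h5 : orderOf y = 1 := Nat.eq_one_of_dvd_coprimes (Nat.Coprime.pow_right a hco) h3 h4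
    exact orderOf_eq_one_iff.1 h5
  -- a moved element
  obtain ⟨q₀, hq₀, hq₀g⟩ : ∃ q ∈ Q, q * g ≠ g * q := by
    by_contra hcon
    push Not at hcon
    exact hgC (Subgroup.mem_centralizer_iff.2 hcon)
  set y₀ := q₀⁻¹ * (g * q₀ * g⁻¹) with hy₀
  have hy₀W : y₀ ∈ W := ⟨q₀, hq₀, rfl⟩
  have hy₀1 : y₀ ≠ 1 := by
    intro h
    apply hq₀g
    have h1 : g * q₀ * g⁻¹ = q₀ := by
      have := mul_eq_one_iff_eq_inv'.1 h
      rw [hy₀] at h
      calc g * q₀ * g⁻¹ = q₀ * y₀ := by rw [hy₀]; group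
        _ = q₀ := by rw [‹y₀ = 1›] ; simp
    calc q₀ * g = (g * q₀ * g⁻¹) * g := by rw [h1]
      _ = g * q₀ := by group
  have hy₀g : g * y₀ ≠ y₀ * g := fun h => hy₀1 (hWinf y₀ hy₀W h)
  -- `g` normalizes `W`
  have hgW : g ∈ Subgroup.normalizer (W : Set G) := by
    have hWpow : ∀ (i : ℕ) (h : G), h ∈ W → g ^ i * h * (g ^ i)⁻¹ ∈ W := by
      intro i
      induction i with
      | zero => intro h hh; simpa using hh
      | succ i ih =>
        intro h hh
        have := hWg _ (ih h hh)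
        have e : g ^ (i + 1) * h * (g ^ (i + 1))⁻¹ = g * (g ^ i * h * (g ^ i)⁻¹) * g⁻¹ := by
          rw [pow_succ']; group
        rw [e]; exact this
    rw [Subgroup.mem_normalizer_iff]
    intro h
    refine ⟨hWg h, fun hh => ?_⟩
    have h1 := hWpow (orderOf g - 1) _ hh
    have h2 : g ^ (orderOf g - 1) * (g * h * g⁻¹) * (g ^ (orderOf g - 1))⁻¹ = h := by
      have h3 : g ^ (orderOf g - 1) * g = 1 := by
        rw [← pow_succ, Nat.sub_add_cancel (orderOf_pos g), pow_orderOf_eq_one]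
      calc g ^ (orderOf g - 1) * (g * h * g⁻¹) * (g ^ (orderOf g - 1))⁻¹
          = (g ^ (orderOf g - 1) * g) * h * (g ^ (orderOf g - 1) * g)⁻¹ := by group
        _ = h := by rw [h3]; group
    rwa [h2] at h1
  set H : Subgroup G := W ⊔ Subgroup.zpowers g with hH
  have hHnc : ¬ IsMulCommutative H := by
    intro hc
    have h1 := hc.is_comm.comm (⟨g, Subgroup.mem_sup_right (Subgroup.mem_zpowers g)⟩ : H) ⟨y₀, Subgroup.mem_sup_left hy₀W⟩
    exact hy₀g (congrArg Subtype.val h1)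
  have hHn := hS H hHnc
  have hzH : z ∈ H := by
    have : z ∈ Subgroup.normalizer (H : Set G) := by
      rw [Subgroup.mem_normalizer_iff]
      intro h
      have : z * h * z⁻¹ = h := by
        rw [(Subgroup.mem_center_iff.1 hzc h).symm]; group
      rw [this]
    rwa [hHn] at this
  obtain ⟨w, hw, k, hk⟩ := mem_sup_zpowers hgW hzH
  have hgk : g ^ k = w⁻¹ * z := by rw [hk]; group
  obtain ⟨a, ha⟩ := hQelt w (hWQ hw)
  have hcz : Commute w⁻¹ z := (Subgroup.mem_center_iff.1 hzc w⁻¹)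
  have h1 : (g ^ k) ^ p ^ (a + 1) = 1 := by
    rw [hgk, hcz.mul_pow, inv_pow, pow_succ, pow_mul, ha, one_pow, inv_one, one_mul, mul_comm (p ^ a), pow_mul, ← hzo,
      pow_orderOf_eq_one, one_pow]
  have h2 : (g ^ k) ^ orderOf g = 1 := by
    rw [← zpow_natCast, ← zpow_mul, mul_comm, zpow_mul, zpow_natCast, pow_orderOf_eq_one, one_zpow]
  have h3 : orderOf (g ^ k) = 1 := Nat.eq_one_of_dvd_coprimes (Nat.Coprime.pow_right (a + 1) hco)
    (orderOf_dvd_of_pow_eq_one h2) (orderOf_dvd_of_pow_eq_one h1)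
  have h4 : g ^ k = 1 := orderOf_eq_one_iff.1 h3
  have h5 : z = w := by rw [hk, h4, mul_one]
  have h6 : z = 1 := by
    apply hWinf z (h5 ▸ hw)
    exact (Subgroup.mem_center_iff.1 hzc g)
  rw [h6, orderOf_one] at hzo
  exact hp.out.one_lt.ne hzo

theorem solvable_of_central (hS : ∀ H : Subgroup G, ¬ IsMulCommutative H → Subgroup.normalizer (H : Set G) = H)
    (hZ : Subgroup.center G ≠ ⊥) : Group.IsSolvable G := by
  haveI : Nontrivial (Subgroup.center G) := (Subgroup.nontrivial_iff_ne_bot _).2 hZ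
  have hc1 : Nat.card (Subgroup.center G) ≠ 1 := Finite.one_lt_card.ne'
  obtain ⟨p, hp, hpd⟩ := Nat.exists_prime_and_dvd hc1
  haveI : Fact p.Prime := ⟨hp⟩
  obtain ⟨z', hz'⟩ := exists_prime_orderOf_dvd_card' p hpd
  have hzo : orderOf ((z' : Subgroup.center G) : G) = p := by rw [Subgroup.orderOf_coe]; exact hz'
  let P : Sylow p G := default
  obtain ⟨N, hNn, hN⟩ := (CfsgLib.Trans.frobenius_criterion P).2 (fun Q hQ g hg hco =>
    central_case hS p z' z'.2 hzo P Q hQ g hg hco)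
  have hpG : p ∣ Nat.card G := by
    rw [← hzo]; exact orderOf_dvd_natCard _
  have hPb : (P : Subgroup G) ≠ ⊥ := P.ne_bot_of_dvd_card hpG
  have hNt : N ≠ ⊤ := by
    rintro rfl
    exact hPb (top_disjoint.1 hN.disjoint)
  have hNc : IsMulCommutative N := by
    by_contra hc
    have h1 := hS N hc
    have h2 : Subgroup.normalizer (N : Set G) = ⊤ := @Subgroup.normalizer_eq_top _ _ N hNn
    exact hNt (h1 ▸ h2)
  haveI : Group.IsSolvable N := by
    haveI := hNc
    exact Group.isSolvable_of_comm (fun a b => by exact hNc.is_comm.comm a b)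
  haveI hq : Group.IsSolvable (G ⧸ N) := by
    have hcard : Nat.card (G ⧸ N) = Nat.card (P : Subgroup G) := hN.symm.index_eq_card
    have hpg : IsPGroup p (G ⧸ N) := by
      rw [IsPGroup.iff_card]
      obtain ⟨k, hk⟩ := IsPGroup.iff_card.1 P.isPGroup'
      exact ⟨k, by rw [hcard, hk]⟩
    haveI := hpg.isNilpotent
    infer_instance
  exact Group.isSolvable_of_ker_le_range N.subtype (QuotientGroup.mk' N) (by simp)

end aux

/-- A finite group in which every non-abelian subgroup is self-normalizing is solvable or simple. -/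
theorem result {G : Type*} [Group G] [Finite G] (hS : ∀ H : Subgroup G, ¬ IsMulCommutative H → Subgroup.normalizer (H : Set G) = H) :
    Group.IsSolvable G ∨ IsSimpleGroup G := by
  by_contra hcon
  push Not at hcon
  obtain ⟨hns, hnsimple⟩ := hcon
  haveI : Nontrivial G := by
    by_contra h
    rw [not_nontrivial_iff_subsingleton] at h
    exact hns inferInstance
  have hZ : Subgroup.center G = ⊥ := by
    by_contra h
    exact hns (solvable_of_central hS h)
  have hnorm : ∀ H : Subgroup G, H.Normal → H ≠ ⊤ → IsMulCommutative H := by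
    intro H hH hne
    by_contra hc
    have h1 := hS H hc
    have h2 : Subgroup.normalizer (H : Set G) = ⊤ := @Subgroup.normalizer_eq_top _ _ H hH
    exact hne (h1 ▸ h2)
  obtain ⟨N, hNn, hNb, hNt⟩ : ∃ N : Subgroup G, N.Normal ∧ N ≠ ⊥ ∧ N ≠ ⊤ := by
    by_contra hc
    push Not at hc
    apply hnsimple
    refine ⟨fun H hH => ?_⟩
    by_cases hb : H = ⊥
    · exact Or.inl hb
    · exact Or.inr (hc H hH hb)
  -- a maximal normal subgroup above `N`
  obtain ⟨K, hNK, hK⟩ := (Set.toFinite {H : Subgroup G | H.Normal ∧ H ≠ ⊤}).exists_le_maximal (a := N) ⟨hNn, hNt⟩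
  obtain ⟨⟨hKn, hKt⟩, hKmax⟩ := hK
  haveI := hKn
  have hKb : K ≠ ⊥ := fun h => hNb (le_bot_iff.1 (h ▸ hNK))
  have hKc := hnorm K hKn hKt
  have hmaxN : ∀ M : Subgroup G, M.Normal → K ≤ M → M = K ∨ M = ⊤ := by
    intro M hM hKM
    by_cases hMt : M = ⊤
    · exact Or.inr hMt
    · left
      exact le_antisymm (hKmax ⟨hM, hMt⟩ hKM) hKM
  have hCK : Subgroup.centralizer (K : Set G) = K := by
    have hle : K ≤ Subgroup.centralizer (K : Set G) := by
      intro k hk
      rw [Subgroup.mem_centralizer_iff]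
      intro h hh
      exact congrArg Subtype.val (hKc.is_comm.comm (⟨h, hh⟩ : K) ⟨k, hk⟩)
    rcases hmaxN _ (Subgroup.normal_centralizer (H := K)) hle with h | h
    · exact h
    · exfalso
      have hKZ : K ≤ Subgroup.center G := by
        intro k hk
        rw [Subgroup.mem_center_iff]
        intro g
        have : g ∈ Subgroup.centralizer (K : Set G) := by rw [h]; exact Subgroup.mem_top g
        exact (Subgroup.mem_centralizer_iff.1 this k hk).symm
      rw [hZ] at hKZ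
      exact hKb (le_bot_iff.1 hKZ)
  -- the quotient
  let π := QuotientGroup.mk' K
  have hπ : Function.Surjective π := QuotientGroup.mk'_surjective K
  haveI hsolvK : Group.IsSolvable K := Group.isSolvable_of_comm (fun a b => hKc.is_comm.comm a b)
  have hnq : ¬ Group.IsSolvable (G ⧸ K) := by
    intro h
    exact hns (Group.isSolvable_of_ker_le_range K.subtype π (by simp [π]))
  haveI : Nontrivial (G ⧸ K) := by
    rw [QuotientGroup.nontrivial_iff]
    exact hKt
  have hc1 : Nat.card (G ⧸ K) ≠ 1 := Finite.one_lt_card.ne'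
  obtain ⟨p, hp, hpd⟩ := Nat.exists_prime_and_dvd hc1
  haveI : Fact p.Prime := ⟨hp⟩
  obtain ⟨xb, hxb⟩ := exists_prime_orderOf_dvd_card' p hpd
  set A : Subgroup (G ⧸ K) := Subgroup.zpowers xb with hA
  obtain ⟨x, hx⟩ := hπ xb
  have hxK : x ∉ K := by
    intro h
    have : xb = 1 := by
      rw [← hx]; exact (QuotientGroup.eq_one_iff x).2 h
    rw [this, orderOf_one] at hxb
    exact hp.one_lt.ne hxb
  set H : Subgroup G := A.comap π with hH
  have hHnc : ¬ IsMulCommutative H := by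
    intro hc
    apply hxK
    rw [← hCK, Subgroup.mem_centralizer_iff]
    intro k hk
    have hk' : k ∈ H := by
      show π k ∈ A
      have : π k = 1 := (QuotientGroup.eq_one_iff k).2 hk
      rw [this]; exact A.one_mem
    have hx' : x ∈ H := by
      show π x ∈ A
      rw [hx]; exact Subgroup.mem_zpowers _
    exact congrArg Subtype.val (hc.is_comm.comm (⟨k, hk'⟩ : H) ⟨x, hx'⟩)
  have hHn := hS H hHnc
  have hNA : Subgroup.normalizer (A : Set (G ⧸ K)) = A := by
    apply le_antisymm _ Subgroup.le_normalizer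
    intro yb hyb
    obtain ⟨y, rfl⟩ := hπ yb
    have h1 : y ∈ Subgroup.normalizer (H : Set G) := Subgroup.le_normalizer_comap π hyb
    rw [hHn] at h1
    exact h1
  have hAp : IsPGroup p A := by
    rw [IsPGroup.iff_card]
    exact ⟨1, by rw [hA, Nat.card_zpowers, hxb, pow_one]⟩
  obtain ⟨Pb, hAP⟩ := hAp.exists_le_sylow
  have hAeq : A = (Pb : Subgroup (G ⧸ K)) := by
    by_contra hne
    have hlt : A.subgroupOf (Pb : Subgroup (G ⧸ K)) < ⊤ := by
      refine lt_top_iff_ne_top.2 ?_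
      intro h
      apply hne
      apply le_antisymm hAP
      intro u hu
      have : (⟨u, hu⟩ : (Pb : Subgroup (G ⧸ K))) ∈ A.subgroupOf (Pb : Subgroup (G ⧸ K)) := by
        rw [h]; exact Subgroup.mem_top _
      exact this
    haveI := (Pb.isPGroup').isNilpotent
    have h2 := Group.normalizerCondition_of_isNilpotent (G := (Pb : Subgroup (G ⧸ K))) _ hlt
    obtain ⟨u, hu1, hu2⟩ := SetLike.exists_of_lt h2
    apply hu2
    have : (u : G ⧸ K) ∈ Subgroup.normalizer (A : Set (G ⧸ K)) := by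
      rw [Subgroup.mem_normalizer_iff]
      intro h
      constructor
      · intro hh
        have h3 := (Subgroup.mem_normalizer_iff.1 hu1 ⟨h, hAP hh⟩).1 hh
        exact h3
      · intro hh
        have h4 : h ∈ (Pb : Subgroup (G ⧸ K)) := by
          have h6 : (u : G ⧸ K) * h * (u : G ⧸ K)⁻¹ ∈ (Pb : Subgroup (G ⧸ K)) := hAP hh
          have h7 : h = (u : G ⧸ K)⁻¹ * ((u : G ⧸ K) * h * (u : G ⧸ K)⁻¹) * u := by group
          rw [h7]
          exact (Pb : Subgroup (G ⧸ K)).mul_mem ((Pb : Subgroup (G ⧸ K)).mul_mem ((Pb : Subgroup (G ⧸ K)).inv_mem u.2) h6) u.2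
        exact (Subgroup.mem_normalizer_iff.1 hu1 ⟨h, h4⟩).2 hh
    rw [hNA] at this
    exact this
  -- Burnside
  have hNC : Subgroup.normalizer (((Pb : Subgroup (G ⧸ K))) : Set (G ⧸ K)) ≤ Subgroup.centralizer (((Pb : Subgroup (G ⧸ K))) : Set (G ⧸ K)) := by
    rw [← hAeq, hNA]
    intro a ha
    rw [Subgroup.mem_centralizer_iff]
    intro b hb
    obtain ⟨i, rfl⟩ := Subgroup.mem_zpowers_iff.1 ha
    obtain ⟨j, rfl⟩ := Subgroup.mem_zpowers_iff.1 hb
    exact (Commute.refl xb).zpow_zpow _ _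
  have hcomp := MonoidHom.ker_transferSylow_isComplement' Pb hNC
  set Mb := (MonoidHom.transferSylow Pb hNC).ker with hMb
  have hMbn : Mb.Normal := MonoidHom.normal_ker _
  have hMK : K ≤ Mb.comap π := by
    intro k hk
    show π k ∈ Mb
    have : π k = 1 := (QuotientGroup.eq_one_iff k).2 hk
    rw [this]; exact Mb.one_mem
  rcases hmaxN _ (Subgroup.Normal.comap hMbn π) hMK with h | h
  · -- `Mb` trivial
    have hMb1 : Mb = ⊥ := by
      rw [eq_bot_iff]
      intro u hu
      obtain ⟨v, rfl⟩ := hπ u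
      have : v ∈ Mb.comap π := hu
      rw [h] at this
      have : π v = 1 := (QuotientGroup.eq_one_iff v).2 this
      rw [this]; exact Subgroup.one_mem _
    have htop : (Pb : Subgroup (G ⧸ K)) = ⊤ := by
      have := hcomp
      rw [hMb1] at this
      exact Subgroup.isComplement'_bot_left.1 this
    apply hnq
    have hcm : ∀ a b : G ⧸ K, a * b = b * a := by
      intro a b
      have ha : a ∈ Subgroup.normalizer (((Pb : Subgroup (G ⧸ K))) : Set (G ⧸ K)) := by
        rw [htop]; exact Subgroup.le_normalizer (Subgroup.mem_top a)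
      have hb : b ∈ (Pb : Subgroup (G ⧸ K)) := by rw [htop]; trivial
      exact (Subgroup.mem_centralizer_iff.1 (hNC ha) b hb).symm
    exact Group.isSolvable_of_comm hcm
  · -- `Mb` everything
    have hMb1 : Mb = ⊤ := by
      rw [eq_top_iff]
      intro u _
      obtain ⟨v, rfl⟩ := hπ u
      have : v ∈ Mb.comap π := by rw [h]; trivial
      exact this
    have hbot : (Pb : Subgroup (G ⧸ K)) = ⊥ := by
      have := hcomp
      rw [hMb1] at this
      exact Subgroup.isComplement'_top_left.1 this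
    have : xb ∈ (Pb : Subgroup (G ⧸ K)) := hAP (Subgroup.mem_zpowers _)
    rw [hbot, Subgroup.mem_bot] at this
    rw [this, orderOf_one] at hxb
    exact hp.one_lt.ne hxb

end Cfsg.Agent.S4072
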