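import Cfsg.Statements.S4074
import Cfsg.Agent.Lib.FGS.Basic

set_option autoImplicit false
open Cfsg

namespace Cfsg.Agent.S4074

theorem key4 : ∀ j t : ZMod 4, 2 * j ≠ 0 → ∃ k : Fin 4, j * ((k : ℕ) : ZMod 4) = t := by decide

open DihedralGroup in
/-- The parity homomorphism for even `n`. -/
def parity (n : ℕ) (hn : 2 ∣ n) : DihedralGroup n →* Multiplicative (ZMod 2) where
  toFun g := match g with
    | r i => Multiplicative.ofAdd (ZMod.castHom hn (ZMod 2) i)
    | sr i => Multiplicative.ofAdd (ZMod.castHom hn (ZMod 2) i)
  map_one' := by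
    show Multiplicative.ofAdd (ZMod.castHom hn (ZMod 2) 0) = 1
    simp
  map_mul' := by
    rintro (i | i) (j | j)
    · show Multiplicative.ofAdd (ZMod.castHom hn (ZMod 2) (i + j)) = _
      rw [map_add, ofAdd_add]
    · show Multiplicative.ofAdd (ZMod.castHom hn (ZMod 2) (j - i)) = _
      rw [map_sub, CharTwo.sub_eq_add, add_comm, ofAdd_add]
    · show Multiplicative.ofAdd (ZMod.castHom hn (ZMod 2) (i + j)) = _
      rw [map_add, ofAdd_add]
    · show Multiplicative.ofAdd (ZMod.castHom hn (ZMod 2) (j - i)) = _
      rw [map_sub, CharTwo.sub_eq_add, add_comm, ofAdd_add]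


/-- For n > 2, every non-abelian subgroup of the dihedral group of order 2n is self-normalizing if and only if n = 4 or n is odd. -/
theorem result (n : ℕ) (hn : 2 < n) :
    (∀ H : Subgroup (DihedralGroup n), ¬ IsMulCommutative H → Subgroup.normalizer (H : Set (DihedralGroup n)) = H) ↔
    (n = 4 ∨ Odd n) := by
  classical
  haveI : NeZero n := ⟨by omega⟩
  constructor
  · intro h
    by_contra hcon
    rw [not_or, Nat.not_odd_iff_even] at hcon
    obtain ⟨hn4, hev⟩ := hcon
    have h2n : 2 ∣ n := hev.two_dvd
    have hn6 : 6 ≤ n := by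
      obtain ⟨k, rfl⟩ := h2n
      omega
    set H := (parity n h2n).ker with hH
    have hr2 : (DihedralGroup.r 2 : DihedralGroup n) ∈ H := by
      rw [hH, MonoidHom.mem_ker]
      show Multiplicative.ofAdd (ZMod.castHom h2n (ZMod 2) 2) = 1
      rw [map_ofNat]
      rfl
    have hs0 : (DihedralGroup.sr 0 : DihedralGroup n) ∈ H := by
      rw [hH, MonoidHom.mem_ker]
      show Multiplicative.ofAdd (ZMod.castHom h2n (ZMod 2) 0) = 1
      simp
    have hnc : ¬ IsMulCommutative H := by
      intro hc
      have h1 := hc.is_comm.comm (⟨_, hr2⟩ : H) ⟨_, hs0⟩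
      have h2 : (DihedralGroup.r 2 : DihedralGroup n) * DihedralGroup.sr 0 =
          DihedralGroup.sr 0 * DihedralGroup.r 2 := congrArg Subtype.val h1
      simp only [DihedralGroup.r_mul_sr, DihedralGroup.sr_mul_r] at h2
      have h3 : (0 : ZMod n) - 2 = 0 + 2 := DihedralGroup.sr.inj h2
      have h4 : ((4 : ℕ) : ZMod n) = 0 := by
        have : (4 : ZMod n) = 0 := by
          have h5 : (2 : ZMod n) + 2 = 0 := by
            linear_combination -h3
          rw [← h5]
          norm_num
        exact_mod_cast this
      rw [ZMod.natCast_eq_zero_iff] at h4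
      have := Nat.le_of_dvd (by norm_num) h4
      omega
    have htop := Subgroup.normalizer_eq_top_iff.mpr (inferInstance : H.Normal)
    have h1 := h H hnc
    rw [htop] at h1
    have hr1 : (DihedralGroup.r 1 : DihedralGroup n) ∈ H := by
      rw [← h1]
      trivial
    rw [hH, MonoidHom.mem_ker] at hr1
    have h2 : Multiplicative.ofAdd (ZMod.castHom h2n (ZMod 2) 1) = 1 := hr1
    rw [map_one] at h2
    exact absurd h2 (by decide)
  · intro hn' H hH
    apply le_antisymm _ Subgroup.le_normalizer
    have hex : ∃ a ∈ H, ∃ b ∈ H, a * b ≠ b * a := by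
      by_contra hcon
      simp only [not_exists, not_and, not_not] at hcon
      exact hH ⟨⟨fun a b => Subtype.ext (hcon a a.2 b b.2)⟩⟩
    obtain ⟨a, ha, b, hb, hab⟩ := hex
    have hdata : ∃ i j : ZMod n, (DihedralGroup.sr i : DihedralGroup n) ∈ H ∧
        (DihedralGroup.r j : DihedralGroup n) ∈ H ∧ 2 * j ≠ 0 := by
      rcases a with u | u <;> rcases b with v | v
      · exfalso
        apply hab
        simp only [DihedralGroup.r_mul_r, add_comm]
      · refine ⟨v, u, hb, ha, ?_⟩
        intro h
        apply hab
        simp only [DihedralGroup.r_mul_sr, DihedralGroup.sr_mul_r]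
        congr 1
        linear_combination -h
      · refine ⟨u, v, ha, hb, ?_⟩
        intro h
        apply hab
        simp only [DihedralGroup.r_mul_sr, DihedralGroup.sr_mul_r]
        congr 1
        linear_combination h
      · refine ⟨u, v - u, ha, ?_, ?_⟩
        · have := H.mul_mem ha hb
          simpa only [DihedralGroup.sr_mul_sr] using this
        · intro h
          apply hab
          simp only [DihedralGroup.sr_mul_sr]
          congr 1
          linear_combination h
    obtain ⟨i, j, hi, hj, hj2⟩ := hdata
    have hrot : ∀ t : ZMod n, (DihedralGroup.r t : DihedralGroup n) ∈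
        Subgroup.normalizer (H : Set (DihedralGroup n)) → (DihedralGroup.r t : DihedralGroup n) ∈ H := by
      intro t ht
      have h1 := (Subgroup.mem_normalizer_iff.mp ht _).mp hi
      have h2 : (DihedralGroup.r t : DihedralGroup n) * DihedralGroup.sr i * (DihedralGroup.r t)⁻¹ =
          DihedralGroup.sr (i - 2 * t) := by
        simp only [DihedralGroup.inv_r, DihedralGroup.r_mul_sr, DihedralGroup.sr_mul_r]
        congr 1
        ring
      rw [h2] at h1
      have h3 : (DihedralGroup.sr i : DihedralGroup n) * DihedralGroup.sr (i - 2 * t) =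
          DihedralGroup.r (-(2 * t)) := by
        simp only [DihedralGroup.sr_mul_sr]
        congr 1
        ring
      have h4 : (DihedralGroup.r (-(2 * t)) : DihedralGroup n) ∈ H := by
        rw [← h3]
        exact H.mul_mem hi h1
      have h5 : (DihedralGroup.r (2 * t) : DihedralGroup n) ∈ H := by
        have := H.inv_mem h4
        simpa only [DihedralGroup.inv_r, neg_neg] using this
      rcases hn' with rfl | ⟨m, hm⟩
      · obtain ⟨k, hk⟩ := key4 j t hj2
        have := pow_mem hj (k : ℕ)
        rw [DihedralGroup.r_pow, hk] at this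
        exact this
      · have h6 := pow_mem h5 (m + 1)
        rw [DihedralGroup.r_pow] at h6
        have h7 : (2 * t * ((m + 1 : ℕ) : ZMod n)) = t := by
          have h8 : ((2 * m + 1 : ℕ) : ZMod n) = 0 := by
            rw [← hm]
            exact ZMod.natCast_self n
          push_cast at h8 ⊢
          linear_combination t * h8
        rwa [h7] at h6
    intro g hg
    rcases g with t | t
    · exact hrot t hg
    · have h2 : (DihedralGroup.r (i - t) : DihedralGroup n) ∈
          Subgroup.normalizer (H : Set (DihedralGroup n)) := by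
        have h1 : (DihedralGroup.sr t : DihedralGroup n) * DihedralGroup.sr i =
            DihedralGroup.r (i - t) := DihedralGroup.sr_mul_sr _ _
        rw [← h1]
        exact Subgroup.mul_mem _ hg (Subgroup.le_normalizer hi)
      have h3 := hrot _ h2
      have h4 : (DihedralGroup.sr t : DihedralGroup n) =
          DihedralGroup.r (i - t) * DihedralGroup.sr i := by
        rw [DihedralGroup.r_mul_sr]
        congr 1
        ring
      rw [h4]
      exact H.mul_mem h3 hi

end Cfsg.Agent.S4074
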