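import Cfsg.Statements.S4075
import Cfsg.Agent.Lib.FGS.Basic

set_option autoImplicit false
open Cfsg

namespace Cfsg.Agent.S4075

/-- Let G be a finite nilpotent group. Every non-abelian subgroup of G is self-normalizing if and only if G is abelian or G is a minimal non-abelian p-group for some prime p (non-abelian of prime-power order with every proper subgroup abelian). -/
theorem result {G : Type*} [Group G] [Finite G]
    [Group.IsNilpotent G] :
    (∀ H : Subgroup G, ¬ IsMulCommutative H → Subgroup.normalizer (H : Set G) = H) ↔
    (IsMulCommutative G ∨ (IsPrimePow (Nat.card G) ∧ ¬ IsMulCommutative G ∧ ∀ H : Subgroup G, H ≠ ⊤ → IsMulCommutative H)) := by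
  classical
  constructor
  · intro h
    by_cases hc : IsMulCommutative G
    · exact Or.inl hc
    · right
      have hprop : ∀ H : Subgroup G, H ≠ ⊤ → IsMulCommutative H := by
        intro H hH
        by_contra hna
        have h1 := h H hna
        have hcond : NormalizerCondition G := Group.normalizerCondition_of_isNilpotent
        have h2 := hcond H (lt_top_iff_ne_top.mpr hH)
        rw [h1] at h2
        exact lt_irrefl _ h2
      refine ⟨?_, hc, hprop⟩
      by_contra hpp
      apply hc
      have hn : ∀ {p : ℕ} [Fact p.Prime] (P : Sylow p G), (P : Subgroup G).Normal := by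
        intro p _ P
        have hq := (Group.isNilpotent_of_finite_tfae (G := G)).out 0 3
        exact hq.mp inferInstance p inferInstance P
      let e := Sylow.directProductOfNormal (G := G) hn
      have hfac : ∀ (p : (Nat.card G).primeFactors) (P : Sylow p G), IsMulCommutative (P : Subgroup G) := by
        intro p P
        have hp := Nat.prime_of_mem_primeFactors p.2
        haveI : Fact (p : ℕ).Prime := ⟨hp⟩
        apply hprop
        intro htop
        apply hpp
        obtain ⟨k, hk⟩ := IsPGroup.iff_card.mp P.isPGroup'
        rw [htop, Subgroup.card_top] at hk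
        have hdvd : (p : ℕ) ∣ Nat.card G := Nat.dvd_of_mem_primeFactors p.2
        have hdvd2 : (p : ℕ) ∣ (p : ℕ) ^ k := by
          rw [← hk]
          exact hdvd
        have hk0 : k ≠ 0 := by
          rintro hk00
          rw [hk00, pow_zero, Nat.dvd_one] at hdvd2
          exact hp.one_lt.ne' hdvd2
        rw [hk]
        exact hp.isPrimePow.pow hk0
      refine ⟨⟨fun a b => ?_⟩⟩
      apply e.symm.injective
      rw [map_mul, map_mul]
      funext p P
      exact (hfac p P).is_comm.comm _ _
  · rintro (hc | ⟨-, -, hprop⟩) H hH
    · exfalso
      apply hH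
      refine ⟨⟨fun a b => Subtype.ext (hc.is_comm.comm a b)⟩⟩
    · have htop : H = ⊤ := by
        by_contra hne
        exact hH (hprop H hne)
      rw [htop]
      exact Subgroup.normalizer_eq_top_iff.mpr (inferInstance : (⊤ : Subgroup G).Normal)

end Cfsg.Agent.S4075
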