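import Cfsg.Statements.S4080
import Cfsg.Agent.Lib.FGS.Basic

set_option autoImplicit false
open Cfsg

namespace Cfsg.Agent.S4080

theorem nil2 {F : Type*} [Field F] (B : Matrix (Fin 2) (Fin 2) F) (n : ℕ) (h : B ^ n = 0) : B ^ 2 = 0 := by
  have hn : n ≠ 0 := by
    rintro rfl
    rw [pow_zero] at h
    exact one_ne_zero h
  have hdet : B.det = 0 := by
    have h1 := congrArg Matrix.det h
    rw [Matrix.det_pow, Matrix.det_zero] at h1
    exact pow_eq_zero_iff hn |>.mp h1
  have hCH : B ^ 2 = B.trace • B := by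
    rw [Matrix.det_fin_two] at hdet
    ext i j
    fin_cases i <;> fin_cases j <;> simp [sq, Matrix.mul_apply, Fin.sum_univ_two, Matrix.trace_fin_two] <;> first | (linear_combination (-1 : F) * hdet) | ring
  have hpow : ∀ k : ℕ, B ^ (k + 1) = B.trace ^ k • B := by
    intro k
    induction k with
    | zero => simp
    | succ k ih =>
      rw [pow_succ, ih, smul_mul_assoc, ← sq, hCH, smul_smul, pow_succ]
  obtain ⟨k, rfl⟩ : ∃ k, n = k + 1 := ⟨n - 1, by omega⟩
  rw [hpow] at h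
  rcases smul_eq_zero.mp h with h0 | h0
  · have ht : B.trace = 0 := by
      by_contra hne
      exact pow_ne_zero k hne h0
    rw [hCH, ht, zero_smul]
  · rw [h0]; simp

theorem mat_core {p : ℕ} [Fact p.Prime] (hp : 3 < p) (A : Matrix (Fin 2) (Fin 2) (ZMod (p ^ 2))) (hA : A ^ p = 1) :
    (A - 1) * ((p : ℕ) : Matrix (Fin 2) (Fin 2) (ZMod (p ^ 2))) = 0 := by
  have hpp : p.Prime := Fact.out
  haveI : NeZero (p ^ 2) := ⟨by positivity⟩
  set N := A - 1 with hNdef
  have hAN : A = N + 1 := by rw [hNdef]; abel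
  let φ : ZMod (p ^ 2) →+* ZMod p := ZMod.castHom (dvd_pow_self p two_ne_zero) (ZMod p)
  let Φ := φ.mapMatrix (m := Fin 2)
  set B := Φ N with hB
  have hB1 : (B + 1) ^ p = 1 := by
    have : B + 1 = Φ A := by rw [hAN, map_add, map_one]
    rw [this, ← map_pow, hA, map_one]
  have hBp : B ^ p = 0 := by
    have h := add_pow_char_of_commute (R := Matrix (Fin 2) (Fin 2) (ZMod p)) p (Commute.one_right B)
    rw [hB1, one_pow] at h
    exact add_eq_right.mp h.symm
  have hB2 : B ^ 2 = 0 := nil2 B p hBp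
  -- entries
  have hz : ∀ z : ZMod (p ^ 2), φ z = 0 → ∃ m : ℕ, z = (p : ZMod (p ^ 2)) * (m : ZMod (p ^ 2)) := by
    intro z hz
    have h1 : ((z.val : ℕ) : ZMod (p ^ 2)) = z := ZMod.natCast_zmod_val z
    rw [← h1, map_natCast, ZMod.natCast_eq_zero_iff] at hz
    obtain ⟨m, hm⟩ := hz
    refine ⟨m, ?_⟩
    rw [← h1, hm]
    push_cast
    rfl
  have hN2e : ∀ i j, φ ((N ^ 2) i j) = 0 := by
    intro i j
    have h1 : Φ (N ^ 2) = 0 := by rw [map_pow]; exact hB2
    have h2 := congrFun (congrFun h1 i) j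
    exact h2
  choose K hK using fun i j => hz _ (hN2e i j)
  let K' : Matrix (Fin 2) (Fin 2) (ZMod (p ^ 2)) := fun i j => (K i j : ZMod (p ^ 2))
  have hN2 : N ^ 2 = ((p : ℕ) : Matrix (Fin 2) (Fin 2) (ZMod (p ^ 2))) * K' := by
    rw [← nsmul_eq_mul]
    ext i j
    rw [hK i j]
    show _ = p • (K i j : ZMod (p ^ 2))
    rw [nsmul_eq_mul]
  have hpp0 : ∀ n : ℕ, p ^ 2 ∣ n → ((n : ℕ) : Matrix (Fin 2) (Fin 2) (ZMod (p ^ 2))) = 0 := by
    intro n hn
    exact (CharP.cast_eq_zero_iff (Matrix (Fin 2) (Fin 2) (ZMod (p ^ 2))) (p ^ 2) n).mpr hn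
  have hN4 : N ^ 4 = 0 := by
    have : N ^ 4 = N ^ 2 * N ^ 2 := by rw [← pow_add]
    rw [this, hN2]
    have hc := (Nat.cast_commute p K').eq
    calc ((p : ℕ) : Matrix (Fin 2) (Fin 2) (ZMod (p ^ 2))) * K' * (((p : ℕ) : Matrix (Fin 2) (Fin 2) (ZMod (p ^ 2))) * K')
        = ((p : ℕ) : Matrix (Fin 2) (Fin 2) (ZMod (p ^ 2))) * (K' * ((p : ℕ) : Matrix (Fin 2) (Fin 2) (ZMod (p ^ 2)))) * K' := by
          simp only [mul_assoc]
      _ = ((p : ℕ) : Matrix (Fin 2) (Fin 2) (ZMod (p ^ 2))) * (((p : ℕ) : Matrix (Fin 2) (Fin 2) (ZMod (p ^ 2))) * K') * K' := by rw [hc]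
      _ = ((p * p : ℕ) : Matrix (Fin 2) (Fin 2) (ZMod (p ^ 2))) * K' * K' := by
          rw [Nat.cast_mul]
          simp only [mul_assoc]
      _ = 0 := by rw [hpp0 _ ⟨1, by ring⟩]; simp
  have hsum := (Commute.one_right N).add_pow p
  rw [← hAN, hA] at hsum
  have hsub : ({0, 1} : Finset ℕ) ⊆ Finset.range (p + 1) := by
    intro m hm
    simp only [Finset.mem_insert, Finset.mem_singleton] at hm
    rw [Finset.mem_range]
    omega
  rw [← Finset.sum_subset hsub ?_, Finset.sum_pair (by norm_num)] at hsum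
  · simp at hsum
    exact hsum
  · intro m hm hm2
    simp only [Finset.mem_insert, Finset.mem_singleton, not_or] at hm2
    rw [Finset.mem_range] at hm
    by_cases hmp : m = p
    · subst hmp
      have : N ^ m = N ^ 4 * N ^ (m - 4) := by rw [← pow_add]; congr 1; omega
      rw [this, hN4]; simp
    · have hd : p ∣ p.choose m := hpp.dvd_choose_self hm2.1 (by omega)
      obtain ⟨c, hc⟩ := hd
      have h1 : N ^ m = N ^ 2 * N ^ (m - 2) := by rw [← pow_add]; congr 1; omega
      rw [h1, hN2, hc, one_pow, mul_one]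
      have h2 := (Nat.cast_commute (p * c) (K' * N ^ (m - 2))).eq
      calc ((p : ℕ) : Matrix (Fin 2) (Fin 2) (ZMod (p ^ 2))) * K' * N ^ (m - 2) * ((p * c : ℕ) : Matrix (Fin 2) (Fin 2) (ZMod (p ^ 2)))
          = ((p : ℕ) : Matrix (Fin 2) (Fin 2) (ZMod (p ^ 2))) * ((K' * N ^ (m - 2)) * ((p * c : ℕ) : Matrix (Fin 2) (Fin 2) (ZMod (p ^ 2)))) := by
            simp only [mul_assoc]
        _ = ((p : ℕ) : Matrix (Fin 2) (Fin 2) (ZMod (p ^ 2))) * (((p * c : ℕ) : Matrix (Fin 2) (Fin 2) (ZMod (p ^ 2))) * (K' * N ^ (m - 2))) := by rw [h2]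
        _ = ((p * (p * c) : ℕ) : Matrix (Fin 2) (Fin 2) (ZMod (p ^ 2))) * (K' * N ^ (m - 2)) := by
            rw [← mul_assoc, ← Nat.cast_mul]
        _ = 0 := by
            rw [hpp0 _ ⟨c, by ring⟩]; simp


/-- Let p > 3 be a prime and L the direct product of two cyclic groups of order p². Every automorphism of L of order p fixes every element of order p of L. -/
theorem result {p : ℕ} [Fact p.Prime] (hp : 3 < p)
    (a : MulAut (Multiplicative (ZMod (p ^ 2) × ZMod (p ^ 2)))) (ha : orderOf a = p)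
    (x : Multiplicative (ZMod (p ^ 2) × ZMod (p ^ 2))) (hx : orderOf x = p) : a x = x := by
  classical
  have hpp : p.Prime := Fact.out
  haveI : NeZero (p ^ 2) := ⟨by positivity⟩
  let g : ZMod (p ^ 2) × ZMod (p ^ 2) → ZMod (p ^ 2) × ZMod (p ^ 2) :=
    fun w => Multiplicative.toAdd (a (Multiplicative.ofAdd w))
  have g0 : g 0 = 0 := by
    show Multiplicative.toAdd (a (Multiplicative.ofAdd 0)) = 0
    rw [ofAdd_zero, map_one, toAdd_one]
  have gadd : ∀ u v, g (u + v) = g u + g v := by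
    intro u v
    show Multiplicative.toAdd (a (Multiplicative.ofAdd (u + v))) = _
    rw [ofAdd_add, map_mul, toAdd_mul]
  have gn : ∀ (n : ℕ) u, g (n • u) = n • g u := by
    intro n u
    induction n with
    | zero => simp [g0]
    | succ n ih => rw [succ_nsmul, gadd, ih, succ_nsmul]
  let A : Matrix (Fin 2) (Fin 2) (ZMod (p ^ 2)) :=
    !![(g (1, 0)).1, (g (0, 1)).1; (g (1, 0)).2, (g (0, 1)).2]
  let vec : ZMod (p ^ 2) × ZMod (p ^ 2) → (Fin 2 → ZMod (p ^ 2)) := fun w => ![w.1, w.2]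
  have hdecomp : ∀ w : ZMod (p ^ 2) × ZMod (p ^ 2), w = w.1.val • ((1, 0) : ZMod (p ^ 2) × ZMod (p ^ 2)) + w.2.val • ((0, 1) : ZMod (p ^ 2) × ZMod (p ^ 2)) := by
    intro w
    ext <;> simp [nsmul_eq_mul, ZMod.natCast_zmod_val]
  have hvec : ∀ w, vec (g w) = A.mulVec (vec w) := by
    intro w
    have h1 : g w = w.1.val • g (1, 0) + w.2.val • g (0, 1) := by
      conv_lhs => rw [hdecomp w]
      rw [gadd, gn, gn]
    funext i
    fin_cases i
    · simp only [vec, A, Matrix.mulVec, dotProduct, Fin.sum_univ_two]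
      simp [h1, nsmul_eq_mul, ZMod.natCast_zmod_val, mul_comm]
    · simp only [vec, A, Matrix.mulVec, dotProduct, Fin.sum_univ_two]
      simp [h1, nsmul_eq_mul, ZMod.natCast_zmod_val, mul_comm]
  have hpow : ∀ (n : ℕ) w, vec (Multiplicative.toAdd ((a ^ n) (Multiplicative.ofAdd w))) = (A ^ n).mulVec (vec w) := by
    intro n
    induction n with
    | zero => intro w; simp
    | succ n ih =>
      intro w
      rw [pow_succ a n, pow_succ A n, ← Matrix.mulVec_mulVec, ← hvec, ← ih]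
      rfl
  have hap : a ^ p = 1 := orderOf_dvd_iff_pow_eq_one.mp (dvd_of_eq ha)
  have hAp : A ^ p = 1 := by
    have h1 : ∀ w, vec w = (A ^ p).mulVec (vec w) := by
      intro w
      rw [← hpow, hap]
      rfl
    have h10 := h1 (1, 0)
    have h01 := h1 (0, 1)
    ext i j
    fin_cases i <;> fin_cases j
    · have := congrFun h10 0
      simp [vec, Matrix.mulVec, dotProduct, Fin.sum_univ_two] at this
      simpa using this.symm
    · have := congrFun h01 0
      simp [vec, Matrix.mulVec, dotProduct, Fin.sum_univ_two] at this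
      simpa using this.symm
    · have := congrFun h10 1
      simp [vec, Matrix.mulVec, dotProduct, Fin.sum_univ_two] at this
      simpa using this.symm
    · have := congrFun h01 1
      simp [vec, Matrix.mulVec, dotProduct, Fin.sum_univ_two] at this
      simpa using this.symm
  have hcore := mat_core hp A hAp
  -- x is a multiple of p
  have hxp : x ^ p = 1 := orderOf_dvd_iff_pow_eq_one.mp (dvd_of_eq hx)
  set w := Multiplicative.toAdd x with hw
  have hwx : x = Multiplicative.ofAdd w := rfl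
  have hpw : p • w = 0 := by
    have : Multiplicative.toAdd (x ^ p) = p • w := rfl
    rw [← this, hxp]
    rfl
  have hz : ∀ z : ZMod (p ^ 2), (p : ZMod (p ^ 2)) * z = 0 → ∃ m : ZMod (p ^ 2), z = (p : ZMod (p ^ 2)) * m := by
    intro z hz
    have h1 : ((z.val : ℕ) : ZMod (p ^ 2)) = z := ZMod.natCast_zmod_val z
    rw [← h1, ← Nat.cast_mul, ZMod.natCast_eq_zero_iff] at hz
    have hz' : p * p ∣ p * z.val := Dvd.dvd.trans (by rw [sq]) hz
    obtain ⟨m, hm⟩ := Nat.dvd_of_mul_dvd_mul_left hpp.pos hz'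
    refine ⟨(m : ZMod (p ^ 2)), ?_⟩
    rw [← h1, hm]
    push_cast
    rfl
  have hw1 : (p : ZMod (p ^ 2)) * w.1 = 0 := by
    have := congrArg Prod.fst hpw
    simpa [nsmul_eq_mul] using this
  have hw2 : (p : ZMod (p ^ 2)) * w.2 = 0 := by
    have := congrArg Prod.snd hpw
    simpa [nsmul_eq_mul] using this
  obtain ⟨m1, hm1⟩ := hz _ hw1
  obtain ⟨m2, hm2⟩ := hz _ hw2
  have hvecw : vec w = ((p : ℕ) : Matrix (Fin 2) (Fin 2) (ZMod (p ^ 2))).mulVec ![m1, m2] := by
    rw [Matrix.natCast_mulVec]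
    funext i
    fin_cases i
    · simp [vec, hm1]
    · simp [vec, hm2]
  have hfix : A.mulVec (vec w) = vec w := by
    have h1 : (A - 1).mulVec (vec w) = 0 := by
      rw [hvecw, Matrix.mulVec_mulVec, hcore, Matrix.zero_mulVec]
    rw [Matrix.sub_mulVec, Matrix.one_mulVec] at h1
    exact sub_eq_zero.mp h1
  rw [← hvec] at hfix
  have h3 : g w = w := by
    have h01 := congrFun hfix 0
    have h11 := congrFun hfix 1
    exact Prod.ext h01 h11
  exact h3


end Cfsg.Agent.S4080
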