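import Cfsg.Statements.S4081
import Cfsg.Agent.Lib.Rec.AutThree4

set_option autoImplicit false
open Cfsg

namespace Cfsg.Agent.S4081

/-- Let G be a finite group whose order is not a prime power. Then the automorphism group of G has exactly three orbits on G if and only if there are distinct primes p, q with #G = pⁿ·q (n ≥ 1) such that G has a normal elementary abelian Sylow p-subgroup P, p is a primitive root modulo q (the multiplicative order of p mod q is q − 1), and every element of order q of G acts on P without non-identity fixed points. -/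
theorem result {G : Type*} [Group G] [Finite G] (hnpp : ¬ IsPrimePow (Nat.card G)) (hnt : Nat.card G ≠ 1) :
    Nat.card (MulAction.orbitRel.Quotient (MulAut G) G) = 3 ↔
    ∃ (p q n : ℕ) (_ : Fact p.Prime) (_ : Fact q.Prime), p ≠ q ∧ 1 ≤ n ∧ Nat.card G = p ^ n * q ∧
      (∀ P : Sylow p G, (P : Subgroup G).Normal ∧ Cfsg.IsElementaryAbelian p (P : Subgroup G)) ∧
      orderOf (p : ZMod q) = q - 1 ∧
      ∀ x y : G, orderOf x = q → orderOf y = p → x * y * x⁻¹ ≠ y := by
  classical
  constructor
  · intro h3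
    obtain ⟨p, q, n, hpF, hqF, P, hne, hn, hcard, hPn, hPS, hab, hexp, hord, hfree⟩ :=
      CfsgLib.Rec.AutThree.forward_structure hnpp hnt h3
    refine ⟨p, q, n, hpF, hqF, hne, hn, hcard, ?_, hord, hfree⟩
    intro S
    rw [hPS S]
    refine ⟨hPn, ⟨⟨fun a b => Subtype.ext (hab _ a.2 _ b.2)⟩⟩, hexp⟩
  · rintro ⟨p, q, n, hpF, hqF, hne, hn, hcard, hsyl, hord, hfree⟩
    obtain ⟨S⟩ : Nonempty (Sylow p G) := inferInstance
    refine CfsgLib.Rec.AutThree.reverse hne hn hcard S (hsyl S).1 ?_ (hsyl S).2.2 hord hfree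
    intro a ha b hb
    have := (hsyl S).2.1.is_comm.comm ⟨a, ha⟩ ⟨b, hb⟩
    exact congrArg Subtype.val this

end Cfsg.Agent.S4081
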