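import Cfsg.Statements.S4082
import Cfsg.Agent.Lib.FGS.Basic
import Cfsg.Agent.Lib.FGS.Syl
import Cfsg.Agent.Lib.Invol.DihedralIso

set_option autoImplicit false
open Cfsg
open scoped commutatorElement
open scoped Pointwise

namespace Cfsg.Agent.S4082

theorem h8_dih {H : Type*} [Group H] (m : ℕ) (e : H ≃* DihedralGroup m) (x u : H)
    (hu : Odd (orderOf u)) (hc : x * u ≠ u * x) :
    x ^ 2 = 1 ∧ ∀ v : H, Odd (orderOf v) → x * v * x⁻¹ = v⁻¹ := by
  have hr : ∀ v : H, Odd (orderOf v) → ∃ j, e v = DihedralGroup.r j := by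
    intro v hv
    rcases hev : e v with j | i
    · exact ⟨j, rfl⟩
    · exfalso
      have h1 : orderOf (e v) = orderOf v := MulEquiv.orderOf_eq e v
      rw [hev, DihedralGroup.orderOf_sr] at h1
      rw [← h1] at hv
      exact absurd hv (by decide)
  obtain ⟨j, hj⟩ := hr u hu
  rcases hex : e x with i | i
  · exfalso
    apply hc
    apply e.injective
    rw [map_mul, map_mul, hex, hj, DihedralGroup.r_mul_r, DihedralGroup.r_mul_r, add_comm]
  · refine ⟨?_, ?_⟩
    · apply e.injective
      rw [map_pow, hex, pow_two, DihedralGroup.sr_mul_self, map_one]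
    · intro v hv
      obtain ⟨k, hk⟩ := hr v hv
      apply e.injective
      rw [map_mul, map_mul, map_inv, map_inv, hex, hk, DihedralGroup.inv_sr, DihedralGroup.inv_r,
        DihedralGroup.sr_mul_r, DihedralGroup.sr_mul_sr]
      congr 1
      ring

theorem h8_hyp {G : Type*} [Group G] [Finite G] {p : ℕ} [Fact p.Prime] (K : Subgroup G) (hK : IsPGroup p K) (x : G)
    (hx : x ∈ Subgroup.normalizer (K : Set G)) (H : Subgroup G) (hH : H = K ⊔ Subgroup.zpowers x) :
    (∀ S : Sylow p ↥H, (S : Subgroup ↥H).Normal) ∧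
    (∀ (S : Sylow p ↥H) [(S : Subgroup ↥H).Normal], IsCyclic (↥H ⧸ (S : Subgroup ↥H))) := by
  have hKH : K ≤ H := by rw [hH]; exact le_sup_left
  have hxH : x ∈ H := by rw [hH]; exact (le_sup_right : Subgroup.zpowers x ≤ _) (Subgroup.mem_zpowers x)
  have hle : H ≤ Subgroup.normalizer (K : Set G) := by
    rw [hH]
    exact sup_le Subgroup.le_normalizer ((Subgroup.zpowers_le).2 hx)
  obtain ⟨K', hK'd⟩ : ∃ K' : Subgroup H, K' = K.subgroupOf H := ⟨_, rfl⟩
  have hK'n : K'.Normal := ⟨fun n hn g => by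
    rw [hK'd, Subgroup.mem_subgroupOf] at hn ⊢
    show (g : G) * n * (g : G)⁻¹ ∈ K
    exact (Subgroup.mem_normalizer_iff.1 (hle g.2) n).1 hn⟩
  have hK'p : IsPGroup p K' := by
    rw [hK'd]
    exact IsPGroup.comap_of_injective hK H.subtype H.subtype_injective
  obtain ⟨x', hx'⟩ : ∃ x' : H, x' = ⟨x, hxH⟩ := ⟨_, rfl⟩
  have htop : K' ⊔ Subgroup.zpowers x' = ⊤ := by
    apply Subgroup.map_injective H.subtype_injective
    rw [Subgroup.map_sup, MonoidHom.map_zpowers, hK'd, Subgroup.map_subgroupOf_eq_of_le hKH, hx',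
      ← MonoidHom.range_eq_map, Subgroup.range_subtype]
    exact hH.symm
  have hform : ∀ h : H, ∃ a ∈ K', ∃ i : ℤ, h = a * x' ^ i := by
    intro h
    have hm : h ∈ K' ⊔ Subgroup.zpowers x' := by rw [htop]; trivial
    obtain ⟨a, ha, z, hz, rfl⟩ := Subgroup.mem_sup_of_normal_left.1 hm
    obtain ⟨i, rfl⟩ := Subgroup.mem_zpowers_iff.1 hz
    exact ⟨a, ha, i, rfl⟩
  have hq : ∀ (S : Subgroup H) [S.Normal], K' ≤ S → ∀ h : H, ∃ i : ℤ, (h : H ⧸ S) = (x' : H ⧸ S) ^ i := by
    intro S _ hS h
    obtain ⟨a, ha, i, rfl⟩ := hform h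
    refine ⟨i, ?_⟩
    rw [QuotientGroup.mk_mul, QuotientGroup.mk_zpow, (QuotientGroup.eq_one_iff a).2 (hS ha), one_mul]
  have hcomm : ∀ g g' : H, g * g' * g⁻¹ * g'⁻¹ ∈ K' := by
    intro g g'
    obtain ⟨i, hi⟩ := hq K' le_rfl g
    obtain ⟨j, hj⟩ := hq K' le_rfl g'
    rw [← QuotientGroup.eq_one_iff, QuotientGroup.mk_mul, QuotientGroup.mk_mul, QuotientGroup.mk_mul,
      QuotientGroup.mk_inv, QuotientGroup.mk_inv, hi, hj]
    have hc : Commute ((x' : H ⧸ K') ^ i) ((x' : H ⧸ K') ^ j) := (Commute.refl _).zpow_zpow i j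
    rw [hc.eq]
    group
  have hSle : ∀ S : Sylow p ↥H, K' ≤ (S : Subgroup H) := by
    intro S
    refine CfsgLib.FGS.le_of_pgroup_normalized S hK'p ?_
    rw [Subgroup.normalizer_eq_top_iff.2 hK'n]
    exact le_top
  refine ⟨fun S => ⟨fun s hs g => ?_⟩, fun S _ => ?_⟩
  · have h1 := hSle S (hcomm g s)
    have h2 : g * s * g⁻¹ = (g * s * g⁻¹ * s⁻¹) * s := by group
    rw [h2]
    exact Subgroup.mul_mem _ h1 hs
  · refine ⟨⟨(x' : H ⧸ (S : Subgroup H)), fun q => ?_⟩⟩
    obtain ⟨h, rfl⟩ := QuotientGroup.mk_surjective q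
    obtain ⟨i, hi⟩ := hq S (hSle S) h
    exact ⟨i, hi.symm⟩

theorem h8_odd {G : Type*} [Group G] {p : ℕ} [hp : Fact p.Prime] (hp2 : p ≠ 2) (K : Subgroup G) (hK : IsPGroup p K)
    (v : G) (hv : v ∈ K) : Odd (orderOf v) := by
  obtain ⟨k, hk⟩ := IsPGroup.iff_orderOf.1 hK ⟨v, hv⟩
  rw [Subgroup.orderOf_mk] at hk
  rw [hk]
  exact (hp.out.odd_of_ne_two hp2).pow

theorem h8_step {G : Type*} [Group G] [Finite G] {p : ℕ} [hp : Fact p.Prime] (hp2 : p ≠ 2)
    (hR : ∀ H : Subgroup G, (∀ S : Sylow p ↥H, (S : Subgroup ↥H).Normal) →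
        (∀ (S : Sylow p ↥H) [(S : Subgroup ↥H).Normal], IsCyclic (↥H ⧸ (S : Subgroup ↥H))) →
        IsCyclic H ∨ (∃ n : ℕ, Nonempty (H ≃* DihedralGroup (p ^ n))))
    (K : Subgroup G) (hK : IsPGroup p K) (x : G) (hx : x ∈ Subgroup.normalizer (K : Set G))
    (u : G) (hu : u ∈ K) (hc : x * u ≠ u * x) :
    x ^ 2 = 1 ∧ ∀ v ∈ K, x * v * x⁻¹ = v⁻¹ := by
  have hyp := h8_hyp K hK x hx _ rfl
  have hxH : x ∈ K ⊔ Subgroup.zpowers x := (le_sup_right : Subgroup.zpowers x ≤ _) (Subgroup.mem_zpowers x)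
  have huH : u ∈ K ⊔ Subgroup.zpowers x := (le_sup_left : K ≤ _) hu
  have hne : (⟨x, hxH⟩ : ↥(K ⊔ Subgroup.zpowers x)) * ⟨u, huH⟩ ≠ ⟨u, huH⟩ * ⟨x, hxH⟩ := by
    intro h
    exact hc (congrArg (fun z : ↥(K ⊔ Subgroup.zpowers x) => (z : G)) h)
  rcases hR _ hyp.1 hyp.2 with hcyc | ⟨n, ⟨e⟩⟩
  · exfalso
    apply hne
    letI := IsCyclic.commGroup (α := ↥(K ⊔ Subgroup.zpowers x))
    exact mul_comm _ _
  · have hoddu : Odd (orderOf (⟨u, huH⟩ : ↥(K ⊔ Subgroup.zpowers x))) := by
      rw [Subgroup.orderOf_mk]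
      exact h8_odd hp2 K hK u hu
    obtain ⟨h1, h2⟩ := h8_dih _ e ⟨x, hxH⟩ ⟨u, huH⟩ hoddu hne
    refine ⟨congrArg (fun z : ↥(K ⊔ Subgroup.zpowers x) => (z : G)) h1, fun v hv => ?_⟩
    have hvH : v ∈ K ⊔ Subgroup.zpowers x := (le_sup_left : K ≤ _) hv
    have h3 := h2 ⟨v, hvH⟩ (by rw [Subgroup.orderOf_mk]; exact h8_odd hp2 K hK v hv)
    exact congrArg (fun z : ↥(K ⊔ Subgroup.zpowers x) => (z : G)) h3

theorem h8_core {G : Type*} [Group G] [Finite G] {p : ℕ} [hp : Fact p.Prime] (hp2 : p ≠ 2) (P : Sylow p G)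
    (hPc : IsCyclic P)
    (hcase : Subgroup.normalizer ((P : Subgroup G) : Set G) = Subgroup.centralizer ((P : Subgroup G) : Set G) ∨
       ((Subgroup.centralizer ((P : Subgroup G) : Set G)).relIndex (Subgroup.normalizer ((P : Subgroup G) : Set G)) = 2 ∧
        ∀ Q : Subgroup G, Q ≤ P → Nat.card Q = p →
          IsMulCommutative ↥(Subgroup.centralizer (Q : Set G)) ∧
          ∀ x : G, x ∈ Subgroup.normalizer (Q : Set G) → x ∉ Subgroup.centralizer (Q : Set G) →
            orderOf x = 2 ∧ ∀ c : G, c ∈ Subgroup.centralizer (Q : Set G) → x * c * x⁻¹ = c⁻¹))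
    (H S₀ : Subgroup G) (h : G) (hH : H = S₀ ⊔ Subgroup.zpowers h) (hS₀ : S₀ ≤ P)
    (hh : h ∈ Subgroup.normalizer (S₀ : Set G)) (hhp : ¬ p ∣ orderOf h) :
    IsCyclic H ∨ ∃ n : ℕ, Nonempty (H ≃* DihedralGroup (p ^ n)) := by
  classical
  haveI : IsCyclic S₀ := isCyclic_of_injective (Subgroup.inclusion hS₀) (Subgroup.inclusion_injective hS₀)
  obtain ⟨s', hs'⟩ := IsCyclic.exists_generator (α := S₀)
  obtain ⟨s, hsd⟩ : ∃ s : G, s = (s' : G) := ⟨_, rfl⟩
  have hsS : s ∈ S₀ := by rw [hsd]; exact s'.2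
  have hS0eq : S₀ = Subgroup.zpowers s := by
    refine le_antisymm (fun z hz => ?_) ((Subgroup.zpowers_le).2 hsS)
    obtain ⟨i, hi⟩ := Subgroup.mem_zpowers_iff.1 (hs' ⟨z, hz⟩)
    refine Subgroup.mem_zpowers_iff.2 ⟨i, ?_⟩
    have := congrArg (fun y : S₀ => (y : G)) hi
    simpa [hsd] using this
  have hS₀p : IsPGroup p S₀ := P.isPGroup'.to_le hS₀
  obtain ⟨k, hk⟩ := IsPGroup.iff_orderOf.1 hS₀p ⟨s, hsS⟩
  rw [Subgroup.orderOf_mk] at hk
  have hComm : Commute h s → IsCyclic H := by
    intro hc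
    have hcop : Nat.Coprime (orderOf h) (orderOf s) := by
      rw [hk, Nat.coprime_comm]
      exact Nat.Coprime.pow_left k ((Nat.Prime.coprime_iff_not_dvd hp.out).2 hhp)
    obtain ⟨u, hud⟩ : ∃ u, u = h * s := ⟨_, rfl⟩
    have h1 : u ^ orderOf h = s ^ orderOf h := by
      rw [hud, hc.mul_pow, pow_orderOf_eq_one, one_mul]
    have h2 : u ^ orderOf s = h ^ orderOf s := by
      rw [hud, hc.mul_pow, pow_orderOf_eq_one, mul_one]
    obtain ⟨a, ha⟩ := exists_pow_eq_self_of_coprime hcop
    obtain ⟨b, hb⟩ := exists_pow_eq_self_of_coprime hcop.symm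
    have hsu : s ∈ Subgroup.zpowers u := by
      rw [← ha, ← h1]
      exact Subgroup.pow_mem _ (Subgroup.pow_mem _ (Subgroup.mem_zpowers u) _) _
    have hhu : h ∈ Subgroup.zpowers u := by
      rw [← hb, ← h2]
      exact Subgroup.pow_mem _ (Subgroup.pow_mem _ (Subgroup.mem_zpowers u) _) _
    have hle : H ≤ Subgroup.zpowers u := by
      rw [hH, hS0eq]
      exact sup_le ((Subgroup.zpowers_le).2 hsu) ((Subgroup.zpowers_le).2 hhu)
    exact isCyclic_of_injective (Subgroup.inclusion hle) (Subgroup.inclusion_injective hle)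
  by_cases hs1 : s = 1
  · left
    apply hComm
    rw [hs1]
    exact Commute.one_right h
  have hk0 : k ≠ 0 := by
    rintro rfl
    rw [pow_zero, orderOf_eq_one_iff] at hk
    exact hs1 hk
  obtain ⟨t, htd⟩ : ∃ t, t = s ^ (p ^ (k - 1)) := ⟨_, rfl⟩
  have hpk : p ^ k = p ^ (k - 1) * p := by
    rw [← pow_succ]
    congr 1
    omega
  have hto : orderOf t = p := by
    rw [htd, orderOf_pow_of_dvd (by have := hp.out.pos; positivity) (by rw [hk, hpk]; exact dvd_mul_right _ _), hk, hpk,
      Nat.mul_div_cancel_left _ (by have := hp.out.pos; positivity)]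
  have htS : t ∈ S₀ := by rw [htd]; exact Subgroup.pow_mem _ hsS _
  have hTP : Subgroup.zpowers t ≤ (P : Subgroup G) := (Subgroup.zpowers_le).2 (hS₀ htS)
  have hTc : Nat.card (Subgroup.zpowers t) = p := by rw [Nat.card_zpowers, hto]
  have hsC : s ∈ Subgroup.centralizer (Subgroup.zpowers t : Set G) := by
    rw [Subgroup.mem_centralizer_iff]
    rintro _ ⟨i, rfl⟩
    show t ^ i * s = s * t ^ i
    rw [htd]
    exact ((Commute.refl s).pow_left _ |>.zpow_left i).eq
  have hhs : h * s * h⁻¹ ∈ S₀ := (Subgroup.mem_normalizer_iff.1 hh s).1 hsS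
  have hhT : h ∈ Subgroup.normalizer (Subgroup.zpowers t : Set G) := by
    rw [Subgroup.mem_normalizer_iff_map_conj_eq]
    refine Subgroup.eq_of_le_of_card_ge ?_ ?_
    · rw [MonoidHom.map_zpowers, Subgroup.zpowers_le]
      rw [hS0eq] at hhs
      obtain ⟨i, hi⟩ := Subgroup.mem_zpowers_iff.1 hhs
      refine Subgroup.mem_zpowers_iff.2 ⟨i, ?_⟩
      show t ^ i = MulAut.conj h t
      rw [htd, MulAut.conj_apply, ← conj_pow, ← hi, ← zpow_natCast, ← zpow_natCast, ← zpow_mul, ← zpow_mul, mul_comm]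
    · rw [Subgroup.card_map_of_injective (MulAut.conj h).injective]
  rcases hcase with hNC | ⟨_, hQ⟩
  · left
    apply hComm
    have hle : Subgroup.normalizer ((P : Subgroup G) : Set G) ≤ Subgroup.centralizer ((P : Subgroup G) : Set G) := hNC.le
    obtain ⟨f, hfd⟩ : ∃ f, f = MonoidHom.transferSylow P hle := ⟨_, rfl⟩
    have hfh : f h = 1 := by
      have h1 : orderOf (f h) ∣ orderOf h := orderOf_map_dvd f h
      obtain ⟨e, he⟩ := IsPGroup.iff_orderOf.1 P.isPGroup' (f h)
      by_cases he0 : e = 0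
      · rw [he0, pow_zero, orderOf_eq_one_iff] at he
        exact he
      · exfalso
        apply hhp
        refine dvd_trans ?_ h1
        rw [he]
        exact dvd_pow_self p he0
    have hmem : h * s * h⁻¹ * s⁻¹ ∈ f.ker := by
      rw [MonoidHom.mem_ker, map_mul, map_mul, map_mul, hfh, map_inv, map_inv, hfh]
      simp
    have hmem2 : h * s * h⁻¹ * s⁻¹ ∈ S₀ := Subgroup.mul_mem _ hhs (Subgroup.inv_mem _ hsS)
    have hdis : Disjoint f.ker S₀ := by
      rw [hfd]
      exact MonoidHom.ker_transferSylow_disjoint P hle S₀ hS₀p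
    have h1 : h * s * h⁻¹ * s⁻¹ = 1 := Subgroup.disjoint_def.1 hdis hmem hmem2
    have h2 : h * s * h⁻¹ = s := by
      rwa [mul_inv_eq_one] at h1
    show h * s = s * h
    rwa [mul_inv_eq_iff_eq_mul] at h2
  · obtain ⟨hab, hin⟩ := hQ (Subgroup.zpowers t) hTP hTc
    by_cases hhC : h ∈ Subgroup.centralizer (Subgroup.zpowers t : Set G)
    · left
      apply hComm
      have := hab.is_comm.comm ⟨h, hhC⟩ ⟨s, hsC⟩
      exact congrArg (fun z : Subgroup.centralizer (Subgroup.zpowers t : Set G) => (z : G)) this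
    · right
      obtain ⟨ho2, hinv⟩ := hin h hhT hhC
      have hh2 : h ^ 2 = 1 := by rw [← ho2]; exact pow_orderOf_eq_one h
      have hhi : h⁻¹ = h := by
        rw [inv_eq_iff_mul_eq_one, ← pow_two, hh2]
      have hsi := hinv s hsC
      rw [hhi] at hsi
      have hy2 : (h * s) ^ 2 = 1 := by
        rw [pow_two]
        calc h * s * (h * s) = (h * s * h) * s := by group
          _ = 1 := by rw [hsi]; group
      have hhS : h ∉ S₀ := by
        intro hm
        have h1 := h8_odd hp2 S₀ hS₀p h hm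
        rw [ho2] at h1
        exact absurd h1 (by decide)
      have hy1 : h * s ≠ 1 := by
        intro h1
        apply hhS
        have : h = s⁻¹ := eq_inv_of_mul_eq_one_left h1
        rw [this]
        exact Subgroup.inv_mem _ hsS
      have hyo : orderOf (h * s) = 2 := orderOf_eq_prime hy2 hy1
      have hxy : h ≠ h * s := by
        intro h1
        apply hs1
        have : h * 1 = h * s := by rw [mul_one]; exact h1
        exact (mul_left_cancel this).symm
      obtain ⟨e⟩ := CfsgLib.Invol.closure_iso ho2 hyo hxy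
      have hcl : Subgroup.closure ({h, h * s} : Set G) = H := by
        apply le_antisymm
        · rw [Subgroup.closure_le]
          have hhH : h ∈ H := by rw [hH]; exact (le_sup_right : Subgroup.zpowers h ≤ _) (Subgroup.mem_zpowers h)
          have hsH : s ∈ H := by rw [hH]; exact (le_sup_left : S₀ ≤ _) hsS
          intro z hz
          simp only [Set.mem_insert_iff, Set.mem_singleton_iff] at hz
          rcases hz with rfl | rfl
          · exact hhH
          · exact H.mul_mem hhH hsH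
        · rw [hH, hS0eq]
          have h1 : h ∈ Subgroup.closure ({h, h * s} : Set G) := Subgroup.subset_closure (by simp)
          have h2 : h * s ∈ Subgroup.closure ({h, h * s} : Set G) := Subgroup.subset_closure (by simp)
          refine sup_le ((Subgroup.zpowers_le).2 ?_) ((Subgroup.zpowers_le).2 h1)
          have h3 := Subgroup.mul_mem _ (Subgroup.inv_mem _ h1) h2
          simpa using h3
      have hos : orderOf (h * (h * s)) = p ^ k := by
        have : h * (h * s) = s := by
          rw [← mul_assoc, ← pow_two, hh2, one_mul]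
        rw [this, hk]
      have hne : Nonempty (↥(Subgroup.closure ({h, h * s} : Set G)) ≃* DihedralGroup (orderOf (h * (h * s)))) := ⟨e⟩
      rw [hcl, hos] at hne
      exact ⟨k, hne⟩


/-- Let p be an odd prime and G a finite group with Sylow p-subgroup P. Say that G has restricted p-by-cyclic subgroups when every subgroup H of G whose Sylow p-subgroup is normal in H with cyclic quotient is itself cyclic or dihedral of order 2pⁿ for some n. Then G has restricted p-by-cyclic subgroups if and only if P is cyclic and one of the following holds: (1) N_G(P) = C_G(P); or (2) N_G(P)/C_G(P) has order 2 and, for the subgroup Q of order p of P, the centralizer C_G(Q) is abelian and every element of N_G(Q) outside C_G(Q) is an involution inverting every element of C_G(Q). -/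
theorem result {G : Type*} [Group G] [Finite G] {p : ℕ}
    [Fact p.Prime] (hp : p ≠ 2) (P : Sylow p G) :
    (∀ H : Subgroup G, (∀ S : Sylow p ↥H, (S : Subgroup ↥H).Normal) →
        (∀ (S : Sylow p ↥H) [(S : Subgroup ↥H).Normal], IsCyclic (↥H ⧸ (S : Subgroup ↥H))) →
        IsCyclic H ∨ (∃ n : ℕ, Nonempty (H ≃* DihedralGroup (p ^ n)))) ↔
    (IsCyclic P ∧
      (Subgroup.normalizer ((P : Subgroup G) : Set G) = Subgroup.centralizer ((P : Subgroup G) : Set G) ∨
       ((Subgroup.centralizer ((P : Subgroup G) : Set G)).relIndex (Subgroup.normalizer ((P : Subgroup G) : Set G)) = 2 ∧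
        ∀ Q : Subgroup G, Q ≤ P → Nat.card Q = p →
          IsMulCommutative ↥(Subgroup.centralizer (Q : Set G)) ∧
          ∀ x : G, x ∈ Subgroup.normalizer (Q : Set G) → x ∉ Subgroup.centralizer (Q : Set G) →
            orderOf x = 2 ∧ ∀ c : G, c ∈ Subgroup.centralizer (Q : Set G) → x * c * x⁻¹ = c⁻¹))) := by
  classical
  constructor
  · intro hR
    have hPp : IsPGroup p (P : Subgroup G) := P.isPGroup'
    have hPc : IsCyclic P := by
      have hyp := h8_hyp (P : Subgroup G) hPp 1 (Subgroup.one_mem _) P (by simp)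
      rcases hR P hyp.1 hyp.2 with h | ⟨n, ⟨e⟩⟩
      · exact h
      · exfalso
        have h1 : Nat.card P = 2 * p ^ n := by
          rw [Nat.card_congr e.toEquiv, DihedralGroup.nat_card]
        obtain ⟨k, hk⟩ := IsPGroup.iff_card.1 hPp
        have h2 : 2 ∣ p ^ k := by
          rw [← hk, h1]
          exact dvd_mul_right _ _
        have h3 := Nat.prime_two.dvd_of_dvd_pow h2
        exact hp ((Nat.prime_dvd_prime_iff_eq Nat.prime_two (Fact.out)).1 h3).symm
    refine ⟨hPc, ?_⟩
    by_cases hNC : Subgroup.normalizer ((P : Subgroup G) : Set G) = Subgroup.centralizer ((P : Subgroup G) : Set G)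
    · left
      exact hNC
    · right
      have hCN : Subgroup.centralizer ((P : Subgroup G) : Set G) ≤ Subgroup.normalizer ((P : Subgroup G) : Set G) :=
        Subgroup.centralizer_le_normalizer _
      obtain ⟨y, hyN, hyC⟩ : ∃ y ∈ Subgroup.normalizer ((P : Subgroup G) : Set G), y ∉ Subgroup.centralizer ((P : Subgroup G) : Set G) := by
        by_contra hcon
        push Not at hcon
        exact hNC (le_antisymm hcon hCN)
      have hinv : ∀ z ∈ Subgroup.normalizer ((P : Subgroup G) : Set G), z ∉ Subgroup.centralizer ((P : Subgroup G) : Set G) →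
          z ^ 2 = 1 ∧ ∀ v ∈ (P : Subgroup G), z * v * z⁻¹ = v⁻¹ := by
        intro z hz hzC
        obtain ⟨u, huP, huy⟩ : ∃ u ∈ (P : Subgroup G), u * z ≠ z * u := by
          by_contra hcon
          push Not at hcon
          exact hzC (Subgroup.mem_centralizer_iff.2 hcon)
        exact h8_step hp hR P hPp z hz u huP (Ne.symm huy)
      obtain ⟨hy2, hyi⟩ := hinv y hyN hyC
      refine ⟨?_, ?_⟩
      · show ((Subgroup.centralizer ((P : Subgroup G) : Set G)).subgroupOf (Subgroup.normalizer ((P : Subgroup G) : Set G))).index = 2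
        rw [Subgroup.index_eq_two_iff]
        refine ⟨⟨y, hyN⟩, fun b => ?_⟩
        by_cases hb : (b : G) ∈ Subgroup.centralizer ((P : Subgroup G) : Set G)
        · refine Or.inr ⟨hb, fun h1 => hyC ?_⟩
          have h2 : (b : G) * y ∈ Subgroup.centralizer ((P : Subgroup G) : Set G) := h1
          have h3 : y = (b : G)⁻¹ * ((b : G) * y) := by group
          rw [h3]
          exact Subgroup.mul_mem _ (Subgroup.inv_mem _ hb) h2
        · refine Or.inl ⟨?_, hb⟩
          show (b : G) * y ∈ Subgroup.centralizer ((P : Subgroup G) : Set G)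
          rw [Subgroup.mem_centralizer_iff]
          intro v hv
          obtain ⟨_, hbi⟩ := hinv b b.2 hb
          have h1 := hyi v hv
          have h2 := hbi v⁻¹ (Subgroup.inv_mem _ hv)
          rw [inv_inv] at h2
          have h3 : (b : G) * y * v * ((b : G) * y)⁻¹ = v := by
            calc (b : G) * y * v * ((b : G) * y)⁻¹ = (b : G) * (y * v * y⁻¹) * (b : G)⁻¹ := by group
              _ = v := by rw [h1, h2]
          rw [mul_inv_eq_iff_eq_mul] at h3
          exact h3.symm
      · intro Q hQP hQc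
        have hQp : IsPGroup p Q := hPp.to_le hQP
        have hy1 : y⁻¹ = y := by rw [inv_eq_iff_mul_eq_one, ← pow_two, hy2]
        have hyNQ : y ∈ Subgroup.normalizer (Q : Set G) := by
          rw [Subgroup.mem_normalizer_iff]
          intro n
          constructor
          · intro hn
            rw [hyi n (hQP hn)]
            exact Subgroup.inv_mem _ hn
          · intro hn
            have h1 := hyi _ (hQP hn)
            have h2 : y * (y * n * y⁻¹) * y⁻¹ = n := by
              have hyy : y * y = 1 := by rw [← pow_two, hy2]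
              calc y * (y * n * y⁻¹) * y⁻¹ = (y * y) * n * (y * y)⁻¹ := by simp only [mul_inv_rev, mul_assoc]
                _ = n := by rw [hyy]; group
            rw [h2] at h1
            rw [h1]
            exact Subgroup.inv_mem _ hn
        obtain ⟨q, hq, hq1⟩ : ∃ q ∈ Q, q ≠ 1 := by
          by_contra hcon
          push Not at hcon
          have : Q = ⊥ := (Subgroup.eq_bot_iff_forall Q).2 hcon
          rw [this, Subgroup.card_bot] at hQc
          exact (Fact.out : p.Prime).one_lt.ne hQc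
        have hqC : y * q ≠ q * y := by
          intro h1
          have h2 : y * q * y⁻¹ = q := by rw [h1]; group
          rw [hyi q (hQP hq)] at h2
          have h3 : q ^ 2 = 1 := by
            rw [pow_two]
            nth_rewrite 1 [← h2]
            group
          have h4 := h8_odd hp Q hQp q hq
          have h5 : orderOf q ∣ 2 := orderOf_dvd_of_pow_eq_one h3
          have h6 : orderOf q = 1 := by
            have h7 := Nat.le_of_dvd (by norm_num) h5
            have h8 := orderOf_pos q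
            interval_cases h9 : orderOf q
            · rfl
            · exact absurd h4 (by decide)
          exact hq1 (orderOf_eq_one_iff.1 h6)
        have hyCQ : y ∉ Subgroup.centralizer (Q : Set G) := by
          intro h1
          exact hqC (Subgroup.mem_centralizer_iff.1 h1 q hq).symm
        have hkey : ∀ x ∈ Subgroup.normalizer (Q : Set G), x ∉ Subgroup.centralizer (Q : Set G) →
            x ^ 2 = 1 ∧ ∀ c ∈ Subgroup.centralizer (Q : Set G), x * c * x⁻¹ = c⁻¹ := by
          have hsq : ∀ x ∈ Subgroup.normalizer (Q : Set G), x ∉ Subgroup.centralizer (Q : Set G) → x ^ 2 = 1 := by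
            intro x hx hxC
            obtain ⟨u, huP, huy⟩ : ∃ u ∈ Q, u * x ≠ x * u := by
              by_contra hcon
              push Not at hcon
              exact hxC (Subgroup.mem_centralizer_iff.2 hcon)
            exact (h8_step hp hR Q hQp x hx u huP (Ne.symm huy)).1
          intro x hx hxC
          have hx2 := hsq x hx hxC
          refine ⟨hx2, fun c hc => ?_⟩
          have hcN : c ∈ Subgroup.normalizer (Q : Set G) := Subgroup.centralizer_le_normalizer _ hc
          have h1 := hsq (x * c) (Subgroup.mul_mem _ hx hcN) (fun h => hxC (by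
            have h2 : x = (x * c) * c⁻¹ := by group
            rw [h2]
            exact Subgroup.mul_mem _ h (Subgroup.inv_mem _ hc)))
          have hxi : x⁻¹ = x := by rw [inv_eq_iff_mul_eq_one, ← pow_two, hx2]
          rw [pow_two] at h1
          rw [hxi]
          calc x * c * x = x * c * x * (c * c⁻¹) := by group
            _ = (x * c * (x * c)) * c⁻¹ := by group
            _ = c⁻¹ := by rw [h1, one_mul]
        refine ⟨?_, fun x hx hxC => ?_⟩
        · refine ⟨⟨fun a b => ?_⟩⟩
          obtain ⟨_, h1⟩ := hkey y hyNQ hyCQ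
          apply Subtype.ext
          have ha := h1 a a.2
          have hb := h1 b b.2
          have hab := h1 ((a : G) * b) (Subgroup.mul_mem _ a.2 b.2)
          have h2 : y * ((a : G) * b) * y⁻¹ = (y * a * y⁻¹) * (y * b * y⁻¹) := by group
          rw [h2, ha, hb, mul_inv_rev] at hab
          have h3 : ((a : G)⁻¹ * (b : G)⁻¹)⁻¹ = ((b : G)⁻¹ * (a : G)⁻¹)⁻¹ := by rw [hab]
          simpa using h3.symm
        · obtain ⟨hx2, h1⟩ := hkey x hx hxC
          refine ⟨orderOf_eq_prime hx2 (fun h => hxC (by rw [h]; exact Subgroup.one_mem _)), h1⟩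
  · rintro ⟨hPc, hcase⟩ H hS hcy
    obtain ⟨S⟩ : Nonempty (Sylow p H) := inferInstance
    haveI := hS S
    haveI := hcy S
    obtain ⟨gb, hgb⟩ := IsCyclic.exists_generator (α := ↥H ⧸ (S : Subgroup ↥H))
    obtain ⟨g, rfl⟩ := QuotientGroup.mk_surjective gb
    obtain ⟨a, b, hb, hab⟩ := Nat.exists_eq_pow_mul_and_not_dvd (orderOf_pos g).ne' p (Fact.out : p.Prime).ne_one
    obtain ⟨h', hh'⟩ : ∃ h' : H, h' = g ^ (p ^ a) := ⟨_, rfl⟩
    have hoh' : orderOf h' = b := by
      rw [hh', orderOf_pow_of_dvd (by have := (Fact.out : p.Prime).pos; positivity) (by rw [hab]; exact dvd_mul_right _ _), hab,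
        Nat.mul_div_cancel_left _ (by have := (Fact.out : p.Prime).pos; positivity)]
    have hcop : (p ^ a).Coprime (orderOf ((g : H ⧸ (S : Subgroup H)))) := by
      apply Nat.Coprime.pow_left
      rw [Nat.Prime.coprime_iff_not_dvd Fact.out]
      intro h1
      apply S.not_dvd_index
      exact dvd_trans h1 (orderOf_dvd_natCard _)
    obtain ⟨m, hm⟩ := exists_pow_eq_self_of_coprime hcop
    have hgen : ∀ y : H, ∃ i : ℤ, (y : H ⧸ (S : Subgroup H)) = (h' : H ⧸ (S : Subgroup H)) ^ i := by
      intro y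
      obtain ⟨i, hi⟩ := Subgroup.mem_zpowers_iff.1 (hgb (y : H ⧸ (S : Subgroup H)))
      refine ⟨(m : ℤ) * i, ?_⟩
      rw [hh', QuotientGroup.mk_pow, zpow_mul, zpow_natCast, hm, hi]
    obtain ⟨S₀, hS₀d⟩ : ∃ S₀, S₀ = (S : Subgroup H).map H.subtype := ⟨_, rfl⟩
    have hS₀le : S₀ ≤ H := by rw [hS₀d]; exact Subgroup.map_subtype_le _
    have hHeq : H = S₀ ⊔ Subgroup.zpowers (h' : G) := by
      apply le_antisymm
      · intro y hy
        obtain ⟨i, hi⟩ := hgen ⟨y, hy⟩
        rw [← QuotientGroup.mk_zpow, eq_comm, QuotientGroup.eq] at hi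
        have h1 : y = (h' : G) ^ i * (((h' ^ i)⁻¹ * ⟨y, hy⟩ : H) : G) := by
          simp
        rw [h1]
        refine Subgroup.mul_mem _ ((le_sup_right : Subgroup.zpowers (h' : G) ≤ _) (Subgroup.zpow_mem _ (Subgroup.mem_zpowers _) i)) ((le_sup_left : S₀ ≤ _) ?_)
        rw [hS₀d]
        exact ⟨_, hi, rfl⟩
      · exact sup_le hS₀le ((Subgroup.zpowers_le).2 h'.2)
    have hhN : (h' : G) ∈ Subgroup.normalizer (S₀ : Set G) := by
      rw [hS₀d]
      apply Subgroup.le_normalizer_map H.subtype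
      exact ⟨h', by rw [Subgroup.normalizer_eq_top_iff.2 (hS S)]; trivial, rfl⟩
    have hS₀p : IsPGroup p S₀ := by
      rw [hS₀d]
      exact S.isPGroup'.map H.subtype
    obtain ⟨Q, hQ⟩ := hS₀p.exists_le_sylow
    obtain ⟨w, hw⟩ := MulAction.exists_smul_eq G Q P
    obtain ⟨c, hcd⟩ : ∃ c : G ≃* G, c = MulAut.conj w := ⟨_, rfl⟩
    have hS₁ : S₀.map c.toMonoidHom ≤ P := by
      rw [← hw, Sylow.coe_subgroup_smul, hcd]
      exact Subgroup.map_mono hQ
    have hcor := h8_core hp P hPc hcase (H.map c.toMonoidHom) (S₀.map c.toMonoidHom) (c h') (by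
      conv_lhs => rw [hHeq]
      rw [Subgroup.map_sup, MonoidHom.map_zpowers]
      rfl) hS₁ (Subgroup.le_normalizer_map c.toMonoidHom ⟨_, hhN, rfl⟩) (by
      rw [MulEquiv.orderOf_eq, Subgroup.orderOf_coe, hoh']
      exact hb)
    have e : H ≃* H.map c.toMonoidHom := c.subgroupMap H
    rcases hcor with h1 | ⟨n, ⟨f⟩⟩
    · left
      exact isCyclic_of_surjective e.symm e.symm.surjective
    · right
      exact ⟨n, ⟨e.trans f⟩⟩

end Cfsg.Agent.S4082
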