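import Cfsg.Statements.S4084
import Cfsg.Agent.Lib.FGS.Elem

set_option autoImplicit false
open Cfsg

namespace Cfsg.Agent.S4084

theorem char_aux {K : Type*} [Group K] [Finite K] {p q : ℕ} (hp : p.Prime) (hq : q.Prime)
    (hpq : p ≠ q) : (∃ g : K, orderOf g = p * q) ↔
      ∃ x : K, p * q ∣ Nat.card {y : K // ∀ w : K, Commute w x → Commute w y} := by
  let A : K → Subgroup K := fun x =>
    { carrier := {y | ∀ w : K, Commute w x → Commute w y}
      one_mem' := fun w _ => Commute.one_right w
      mul_mem' := fun {a b} ha hb w hw => (ha w hw).mul_right (hb w hw)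
      inv_mem' := fun {a} ha w hw => (ha w hw).inv_right }
  have hcard : ∀ x : K, Nat.card {y : K // ∀ w : K, Commute w x → Commute w y} = Nat.card (A x) := fun x => rfl
  have hcomm : ∀ x : K, ∀ a ∈ A x, ∀ b ∈ A x, Commute a b := by
    intro x a ha b hb
    have h1 : Commute x b := hb x (Commute.refl x)
    have h2 : Commute a x := ha x (Commute.refl x) |>.symm
    -- `b` commutes with `x`, so `b` commutes with `a`
    exact (ha b h1.symm).symm
  constructor
  · rintro ⟨g, hg⟩
    refine ⟨g, ?_⟩
    rw [hcard, ← hg]
    apply Subgroup.orderOf_dvd_natCard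
    exact fun w hw => hw
  · rintro ⟨x, hx⟩
    rw [hcard] at hx
    have hpd : p ∣ Nat.card (A x) := (Dvd.intro _ rfl).trans hx
    have hqd : q ∣ Nat.card (A x) := (Dvd.intro_left _ rfl).trans hx
    haveI := Fact.mk hp
    haveI := Fact.mk hq
    obtain ⟨a, ha⟩ := exists_prime_orderOf_dvd_card' p hpd
    obtain ⟨b, hb⟩ := exists_prime_orderOf_dvd_card' q hqd
    have hc : Commute (a : K) (b : K) := hcomm x a a.2 b b.2
    refine ⟨a * b, ?_⟩
    rw [hc.orderOf_mul_eq_mul_orderOf_of_coprime]
    · rw [Subgroup.orderOf_coe, Subgroup.orderOf_coe, ha, hb]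
    · rw [Subgroup.orderOf_coe, Subgroup.orderOf_coe, ha, hb]
      exact (Nat.coprime_primes hp hq).mpr hpq


/-- Let G and H be finite groups whose commuting graphs are isomorphic: there is a bijection e : G → H with x, y commuting exactly when e(x), e(y) commute. Then G and H have the same prime graph: for distinct primes p, q, G has an element of order pq if and only if H does (and #G = #H, so the prime divisors agree). -/
theorem result {G H : Type*} [Group G] [Finite G] [Group H] [Finite H] (e : G ≃ H)
    (he : ∀ x y : G, Commute x y ↔ Commute (e x) (e y))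
    {p q : ℕ} (hp : p.Prime) (hq : q.Prime) (hpq : p ≠ q) :
    (∃ g : G, orderOf g = p * q) ↔ (∃ h : H, orderOf h = p * q) := by
  rw [char_aux hp hq hpq, char_aux hp hq hpq]
  have key : ∀ x : G, Nat.card {y : G // ∀ w : G, Commute w x → Commute w y} =
      Nat.card {y : H // ∀ w : H, Commute w (e x) → Commute w y} := by
    intro x
    refine Nat.card_congr (Equiv.subtypeEquiv e ?_)
    intro y
    constructor
    · intro h w hw
      have h1 := h (e.symm w) (by rw [he]; simpa using hw)
      rw [he] at h1
      simpa using h1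
    · intro h w hw
      rw [he]
      exact h (e w) ((he _ _).mp hw)
  constructor
  · rintro ⟨x, hx⟩
    exact ⟨e x, (key x) ▸ hx⟩
  · rintro ⟨y, hy⟩
    refine ⟨e.symm y, ?_⟩
    rw [key]
    simpa using hy

end Cfsg.Agent.S4084
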