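import Cfsg.Statements.S4086
import Cfsg.Agent.Lib.FGS.Elem

set_option autoImplicit false
open Cfsg

namespace Cfsg.Agent.S4086

/-- For a finite group G the following are equivalent: every non-identity element has prime-power order; whenever two elements generate a cyclic subgroup, one of them is a power of the other (the enhanced power graph of G coincides with its power graph). -/
theorem result {G : Type*} [Group G] [Finite G] :
    (∀ g : G, g ≠ 1 → IsPrimePow (orderOf g)) ↔
    (∀ x y : G, IsCyclic ↥(Subgroup.closure ({x, y} : Set G)) → (x ∈ Subgroup.zpowers y ∨ y ∈ Subgroup.zpowers x)) := by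
  classical
  constructor
  · intro h x y hc
    by_cases hx1 : x = 1
    · left; rw [hx1]; exact Subgroup.one_mem _
    by_cases hy1 : y = 1
    · right; rw [hy1]; exact Subgroup.one_mem _
    obtain ⟨p, a, hp, ha, hxa⟩ := h x hx1
    obtain ⟨q, b, hq, hb, hyb⟩ := h y hy1
    rw [← Nat.prime_iff] at hp hq
    set C := Subgroup.closure ({x, y} : Set G) with hC
    have hxC : x ∈ C := Subgroup.subset_closure (by simp)
    have hyC : y ∈ C := Subgroup.subset_closure (by simp)
    have key : ∀ u ∈ C, ∀ v ∈ C, orderOf u ∣ orderOf v → u ∈ Subgroup.zpowers v := by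
      intro u hu v hv hd
      have h1 : (⟨u, hu⟩ : C) ∈ Subgroup.zpowers (⟨v, hv⟩ : C) :=
        CfsgLib.FGS.mem_zpowers_of_orderOf_dvd_of_isCyclic (by simpa [Subgroup.orderOf_mk] using hd)
      obtain ⟨k, hk⟩ := h1
      exact ⟨k, by simpa using congrArg Subtype.val hk⟩
    have hpq : p = q := by
      by_contra hne
      have hcomm : Commute x y := by
        have h1 : (⟨x, hxC⟩ : C) * ⟨y, hyC⟩ = ⟨y, hyC⟩ * ⟨x, hxC⟩ := by
          obtain ⟨g, hg⟩ := hc.exists_generator
          obtain ⟨i, hi⟩ := hg ⟨x, hxC⟩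
          obtain ⟨j, hj⟩ := hg ⟨y, hyC⟩
          rw [← hi, ← hj, ← zpow_add, ← zpow_add, add_comm]
        exact congrArg Subtype.val h1
      have hcop : Nat.Coprime (orderOf x) (orderOf y) := by
        rw [← hxa, ← hyb]
        exact Nat.Coprime.pow _ _ ((Nat.coprime_primes hp hq).mpr hne)
      have hord := hcomm.orderOf_mul_eq_mul_orderOf_of_coprime hcop
      have hxy1 : x * y ≠ 1 := by
        intro h1
        rw [h1, orderOf_one] at hord
        have : orderOf x = 1 := Nat.eq_one_of_mul_eq_one_right hord.symm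
        exact hx1 (orderOf_eq_one_iff.mp this)
      have hpp := h (x * y) hxy1
      rw [hord, ← hxa, ← hyb] at hpp
      obtain ⟨r, -, hr⟩ := (isPrimePow_iff_unique_prime_dvd.mp hpp)
      have hpd : p = r := hr p ⟨hp, (dvd_pow_self p ha.ne').trans (Dvd.intro _ rfl)⟩
      have hqd : q = r := hr q ⟨hq, (dvd_pow_self q hb.ne').trans (Dvd.intro_left _ rfl)⟩
      exact hne (hpd.trans hqd.symm)
    subst hpq
    rcases le_total a b with hab | hab
    · left
      apply key x hxC y hyC
      rw [← hxa, ← hyb]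
      exact pow_dvd_pow p hab
    · right
      apply key y hyC x hxC
      rw [← hxa, ← hyb]
      exact pow_dvd_pow p hab
  · intro h g hg
    by_contra hnp
    have hord1 : orderOf g ≠ 1 := fun h1 => hg (orderOf_eq_one_iff.mp h1)
    obtain ⟨p, hp, hpd⟩ := Nat.exists_prime_and_dvd hord1
    have hN : orderOf g ≠ 0 := (orderOf_pos g).ne'
    obtain ⟨k, m, hpm, hkm⟩ := Nat.exists_eq_pow_mul_and_not_dvd hN p hp.ne_one
    have hk : k ≠ 0 := by
      rintro rfl
      rw [pow_zero, one_mul] at hkm
      exact hpm (hkm ▸ hpd)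
    have hm1 : m ≠ 1 := by
      rintro rfl
      rw [mul_one] at hkm
      apply hnp
      rw [hkm]
      exact ⟨p, k, hp.prime, Nat.pos_of_ne_zero hk, rfl⟩
    have hm0 : m ≠ 0 := by
      rintro rfl
      rw [mul_zero] at hkm
      exact hN hkm
    have hcop : Nat.Coprime (p ^ k) m := Nat.Coprime.pow_left k ((Nat.Prime.coprime_iff_not_dvd hp).mpr hpm)
    set x := g ^ (p ^ k) with hx
    set y := g ^ m with hy
    have hox : orderOf x = m := by
      rw [hx, orderOf_pow_of_dvd (pow_ne_zero k hp.ne_zero) ⟨m, hkm⟩, hkm]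
      exact Nat.mul_div_cancel_left _ (pow_pos hp.pos k)
    have hoy : orderOf y = p ^ k := by
      rw [hy, orderOf_pow_of_dvd hm0 ⟨p ^ k, by rw [hkm]; ring⟩, hkm]
      exact Nat.mul_div_cancel _ (Nat.pos_of_ne_zero hm0)
    have hle : Subgroup.closure ({x, y} : Set G) ≤ Subgroup.zpowers g := by
      rw [Subgroup.closure_le]
      rintro z (rfl | rfl)
      · exact Subgroup.npow_mem_zpowers _ _
      · exact Subgroup.npow_mem_zpowers _ _
    have hcyc : IsCyclic ↥(Subgroup.closure ({x, y} : Set G)) :=
      isCyclic_of_injective (Subgroup.inclusion hle) (Subgroup.inclusion_injective hle)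
    rcases h x y hcyc with h1 | h1
    · have h2 := orderOf_dvd_of_mem_zpowers h1
      rw [hox, hoy] at h2
      have h3 : m ∣ Nat.gcd (p ^ k) m := Nat.dvd_gcd h2 (dvd_refl m)
      rw [hcop] at h3
      exact hm1 (Nat.dvd_one.mp h3)
    · have h2 := orderOf_dvd_of_mem_zpowers h1
      rw [hox, hoy] at h2
      exact hpm ((dvd_pow_self p hk).trans h2)

end Cfsg.Agent.S4086
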