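import Cfsg.Statements.S4088
import Cfsg.Agent.Lib.FGS.Sbn

set_option autoImplicit false
open Cfsg
open scoped commutatorElement
open scoped Pointwise

namespace Cfsg.Agent.S4088

theorem h8_fib {Z Y : Type*} [Finite Z] [Finite Y] (f : Z → Y) (m : ℕ) (hm : ∀ y, Nat.card {z // f z = y} = m) :
    Nat.card Z = Nat.card Y * m := by
  classical
  haveI := Fintype.ofFinite Y
  rw [Nat.card_congr (Equiv.sigmaFiberEquiv f).symm, Nat.card_sigma]
  simp only [hm, Finset.sum_const, Finset.card_univ, smul_eq_mul, Nat.card_eq_fintype_card]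

theorem h8_mem_smul {G : Type*} [Group G] [Finite G] {p : ℕ} [Fact p.Prime] (P : Sylow p G) (g x : G) :
    x ∈ ((g⁻¹ • P : Sylow p G) : Subgroup G) ↔ g * x * g⁻¹ ∈ (P : Subgroup G) := by
  rw [Sylow.coe_subgroup_smul, Subgroup.mem_pointwise_smul_iff_inv_smul_mem]
  simp [MulAut.smul_def, MulAut.conj_apply]

theorem h8_map_conj {G : Type*} [Group G] [Finite G] (H : Subgroup G) (g g0 : G) :
    H.map (MulAut.conj g).toMonoidHom = H.map (MulAut.conj g0).toMonoidHom ↔ g0⁻¹ * g ∈ Subgroup.normalizer (H : Set G) := by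
  constructor
  · intro h
    apply CfsgLib.FGS.mem_normalizer_of_conj_le
    intro x hx
    have h1 : g * x * g⁻¹ ∈ H.map (MulAut.conj g).toMonoidHom := ⟨x, hx, by simp [MulAut.conj_apply]⟩
    rw [h] at h1
    obtain ⟨y, hy, hye⟩ := h1
    have h2 : g0⁻¹ * g * x * (g0⁻¹ * g)⁻¹ = y := by
      have h3 : g0 * y * g0⁻¹ = g * x * g⁻¹ := by simpa [MulAut.conj_apply] using hye
      have h4 : y = g0⁻¹ * (g * x * g⁻¹) * g0 := by rw [← h3]; group
      rw [h4]; group
    rw [h2]
    exact hy
  · intro hu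
    set u := g0⁻¹ * g with hud
    have hg : g = g0 * u := by rw [hud]; group
    apply le_antisymm
    · rintro _ ⟨x, hx, rfl⟩
      refine ⟨u * x * u⁻¹, (Subgroup.mem_normalizer_iff.1 hu x).1 hx, ?_⟩
      show g0 * (u * x * u⁻¹) * g0⁻¹ = g * x * g⁻¹
      have hg2 : g * x * g⁻¹ = g0 * u * x * (g0 * u)⁻¹ := by rw [← hg]
      rw [hg2]
      group
    · rintro _ ⟨x, hx, rfl⟩
      have hu' := (Subgroup.normalizer (H : Set G)).inv_mem hu
      have h1 := (Subgroup.mem_normalizer_iff.1 hu' x).1 hx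
      refine ⟨_, h1, ?_⟩
      show g * (u⁻¹ * x * u⁻¹⁻¹) * g⁻¹ = g0 * x * g0⁻¹
      have hg2 : g * (u⁻¹ * x * u⁻¹⁻¹) * g⁻¹ = g0 * u * (u⁻¹ * x * u⁻¹⁻¹) * (g0 * u)⁻¹ := by rw [← hg]
      rw [hg2]
      group


/-- Let G be a finite group, p a prime dividing the order of G, H a p-subgroup of G and P a Sylow p-subgroup of G. Call the subnormalizer of H the set of elements g of G such that H is subnormal in the subgroup generated by H and g. Then the number of elements of the subnormalizer of H equals the number of Sylow p-subgroups of G containing H times the order of N_G(P), and also equals the number of conjugates of H contained in P times the order of N_G(H). -/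
theorem result {G : Type*} [Group G] [Finite G] (p : ℕ) [Fact p.Prime]
    (hp : p ∣ Nat.card G) (H : Subgroup G) (hH : IsPGroup p H) (P : Sylow p G) :
    Nat.card {g : G // ((H).subgroupOf (H ⊔ Subgroup.zpowers g)).IsSubnormal} =
        Nat.card {Q : Sylow p G // H ≤ (Q : Subgroup G)} * Nat.card (Subgroup.normalizer ((P : Subgroup G) : Set G)) ∧
    Nat.card {g : G // ((H).subgroupOf (H ⊔ Subgroup.zpowers g)).IsSubnormal} =
        Nat.card {K : Subgroup G // K ≤ (P : Subgroup G) ∧ ∃ g : G, K = H.map (MulAut.conj g).toMonoidHom} *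
          Nat.card (Subgroup.normalizer (H : Set G)) := by
  classical
  have hcongr : Nat.card {g : G // ((H).subgroupOf (H ⊔ Subgroup.zpowers g)).IsSubnormal} = Nat.card (CfsgLib.FGS.Sbn.Sb p H) :=
    Nat.card_congr (Equiv.subtypeEquivRight fun g => CfsgLib.FGS.Sbn.subnormal_iff_Sb H hH g)
  have hcore := CfsgLib.FGS.Sbn.core_count p (Nat.card G) G le_rfl H.index H hH le_rfl
  have hs : Nat.card (Sylow p G) = (Subgroup.normalizer ((P : Subgroup G) : Set G)).index := Sylow.card_eq_index_normalizer P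
  have hG2 := (Subgroup.normalizer ((P : Subgroup G) : Set G)).card_mul_index
  have hspos : 0 < Nat.card (Sylow p G) := Nat.card_pos
  have h1 : Nat.card {g : G // ((H).subgroupOf (H ⊔ Subgroup.zpowers g)).IsSubnormal} =
      Nat.card {Q : Sylow p G // H ≤ (Q : Subgroup G)} * Nat.card (Subgroup.normalizer ((P : Subgroup G) : Set G)) := by
    rw [hcongr]
    apply Nat.eq_of_mul_eq_mul_right hspos
    rw [hcore, mul_assoc, hs, hG2]
  refine ⟨h1, ?_⟩
  rw [h1]
  -- double count
  let Z := {g : G // H.map (MulAut.conj g).toMonoidHom ≤ (P : Subgroup G)}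
  have hZmem : ∀ (z : Z), ∀ x ∈ H, (z : G) * x * (z : G)⁻¹ ∈ (P : Subgroup G) := by
    intro z x hx
    exact z.2 ⟨x, hx, by simp [MulAut.conj_apply]⟩
  let φ1 : Z → {K : Subgroup G // K ≤ (P : Subgroup G) ∧ ∃ g : G, K = H.map (MulAut.conj g).toMonoidHom} :=
    fun z => ⟨H.map (MulAut.conj (z : G)).toMonoidHom, z.2, _, rfl⟩
  let φ2 : Z → {Q : Sylow p G // H ≤ (Q : Subgroup G)} :=
    fun z => ⟨(z : G)⁻¹ • P, fun x hx => (h8_mem_smul P z x).2 (hZmem z x hx)⟩
  have hc1 := h8_fib φ1 (Nat.card (Subgroup.normalizer (H : Set G))) (by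
    rintro ⟨K, hK, g0, rfl⟩
    refine Nat.card_congr
      { toFun := fun z => ⟨g0⁻¹ * (z.1 : G), (h8_map_conj H z.1 g0).1 (congrArg Subtype.val z.2)⟩
        invFun := fun u => ⟨⟨g0 * (u : G), ?_⟩, ?_⟩
        left_inv := ?_
        right_inv := ?_ }
    · have h3 : H.map (MulAut.conj (g0 * (u : G))).toMonoidHom = H.map (MulAut.conj g0).toMonoidHom := by
        rw [h8_map_conj]
        simpa using u.2
      rw [h3]
      exact hK
    · apply Subtype.ext
      rw [h8_map_conj]
      simpa using u.2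
    · intro z
      apply Subtype.ext
      apply Subtype.ext
      simp
    · intro u
      apply Subtype.ext
      simp)
  have hc2 := h8_fib φ2 (Nat.card (Subgroup.normalizer ((P : Subgroup G) : Set G))) (by
    rintro ⟨Q, hQ⟩
    obtain ⟨g1, hg1⟩ := MulAction.exists_smul_eq G P Q
    subst hg1
    set g0 := g1⁻¹ with hg0
    have hg1' : g1 = g0⁻¹ := by rw [hg0, inv_inv]
    have hfib : ∀ w : G, (w⁻¹ • P = g1 • P) ↔ g0 * w⁻¹ ∈ Subgroup.normalizer ((P : Subgroup G) : Set G) := by
      intro w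
      rw [hg1']
      constructor
      · intro h
        have h2 : (g0 * w⁻¹) • P = P := by
          rw [mul_smul, h, smul_inv_smul]
        exact Sylow.smul_eq_iff_mem_normalizer.1 h2
      · intro h
        have h2 := Sylow.smul_eq_iff_mem_normalizer.2 h
        rw [mul_smul] at h2
        have h5 : w⁻¹ • P = g0⁻¹ • (g0 • (w⁻¹ • P)) := (inv_smul_smul _ _).symm
        rw [h5, h2]
    refine Nat.card_congr
      { toFun := fun z => ⟨g0 * (z.1 : G)⁻¹, (hfib z.1).1 (congrArg Subtype.val z.2)⟩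
        invFun := fun u => ⟨⟨(u : G)⁻¹ * g0, ?_⟩, ?_⟩
        left_inv := ?_
        right_inv := ?_ }
    · have hu2 : (((u : G)⁻¹ * g0)⁻¹) • P = g1 • P := (hfib _).2 (by simpa using u.2)
      rintro _ ⟨x, hx, rfl⟩
      have h3 : x ∈ ((((u : G)⁻¹ * g0)⁻¹ • P : Sylow p G) : Subgroup G) := by
        rw [hu2]
        exact hQ hx
      have h4 := (h8_mem_smul P _ x).1 h3
      exact h4
    · apply Subtype.ext
      exact (hfib _).2 (by simpa using u.2)
    · intro z
      apply Subtype.ext
      apply Subtype.ext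
      simp
    · intro u
      apply Subtype.ext
      simp)
  rw [← hc1, ← hc2]

end Cfsg.Agent.S4088
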