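import Cfsg.Statements.S4089
import Cfsg.Agent.Lib.FGS.Basic
import Cfsg.Agent.Lib.FGS.Syl
import Cfsg.Agent.Lib.Solv.Nilp
import Cfsg.Agent.Lib.Solv.Core
import Cfsg.Agent.Lib.PLocal.Core
import Cfsg.Agent.Lib.Solv.SZ

set_option autoImplicit false
open Cfsg
open scoped commutatorElement
open scoped Pointwise

namespace Cfsg.Agent.S4089

open Subgroup

variable {G : Type*} [Group G] [Finite G] {p : ℕ} [Fact p.Prime]

private lemma exists_pgroup_of_subnormal (H : Subgroup G) (hH : IsPGroup p H) (g : G)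
    (hs : (H.subgroupOf (H ⊔ Subgroup.zpowers g)).IsSubnormal) :
    ∃ W : Subgroup G, H ≤ W ∧ IsPGroup p W ∧ g ∈ normalizer (W : Set G) := by
  obtain ⟨K, hK⟩ : ∃ K, K = H ⊔ Subgroup.zpowers g := ⟨_, rfl⟩
  rw [← hK] at hs
  have hHK : H ≤ K := by rw [hK]; exact le_sup_left
  have hgK : g ∈ K := by rw [hK]; exact Subgroup.mem_sup_right (Subgroup.mem_zpowers g)
  have hHp : IsPGroup p (H.subgroupOf K) := by
    have : Nat.card (H.subgroupOf K) = Nat.card H := CfsgLib.Solv.card_subgroupOf_of_le hHK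
    obtain ⟨k, hk⟩ := hH.exists_card_eq
    exact IsPGroup.of_card (n := k) (by rw [this, hk])
  have h1 : H.subgroupOf K ≤ Cfsg.pCore p K :=
    CfsgLib.PLocal.le_pCore_of_subnormal hs hHp le_rfl Subgroup.le_normalizer
  refine ⟨(Cfsg.pCore p K).map K.subtype, ?_, (CfsgLib.Solv.pCore_isPGroup p).map _, ?_⟩
  · intro x hx
    have hx' : (⟨x, hHK hx⟩ : K) ∈ H.subgroupOf K := by rwa [Subgroup.mem_subgroupOf]
    exact ⟨_, h1 hx', rfl⟩
  · apply CfsgLib.FGS.mem_normalizer_of_conj_le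
    rintro _ ⟨y, hy, rfl⟩
    refine ⟨⟨g, hgK⟩ * y * ⟨g, hgK⟩⁻¹, ?_, rfl⟩
    exact (CfsgLib.Solv.pCore_normal' p).conj_mem y hy ⟨g, hgK⟩

private lemma subnormal_of_pgroup (H W : Subgroup G) (hHW : H ≤ W) (hW : IsPGroup p W) (g : G)
    (hg : g ∈ normalizer (W : Set G)) :
    (H.subgroupOf (H ⊔ Subgroup.zpowers g)).IsSubnormal := by
  obtain ⟨K, hK⟩ : ∃ K, K = H ⊔ Subgroup.zpowers g := ⟨_, rfl⟩
  rw [← hK]
  have hHK : H ≤ K := by rw [hK]; exact le_sup_left
  have hKN : K ≤ normalizer (W : Set G) := by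
    rw [hK]
    exact sup_le (hHW.trans le_normalizer) ((Subgroup.zpowers_le).2 hg)
  -- `V = W ∩ K` is normal in `K`
  obtain ⟨V, hV⟩ : ∃ V : Subgroup K, V = W.subgroupOf K := ⟨_, rfl⟩
  have hVn : V.Normal := by
    rw [hV]
    constructor
    intro x hx k
    rw [Subgroup.mem_subgroupOf] at hx ⊢
    exact (Subgroup.mem_normalizer_iff.1 (hKN k.2) x).1 hx
  have hHV : H.subgroupOf K ≤ V := by
    rw [hV]; exact Subgroup.subgroupOf_mono _ hHW
  have hVp : IsPGroup p V := by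
    intro x
    have hxV : (x : K) ∈ W.subgroupOf K := hV ▸ x.2
    obtain ⟨k, hk⟩ := hW ⟨(x : K), Subgroup.mem_subgroupOf.1 hxV⟩
    refine ⟨k, Subtype.ext (Subtype.ext ?_)⟩
    have h9 := congrArg Subtype.val hk
    simpa using h9
  haveI := hVp.isNilpotent
  have h1 : ((H.subgroupOf K).subgroupOf V).IsSubnormal :=
    CfsgLib.Solv.nilpotent_iff_all_subnormal.1 inferInstance _
  exact Subgroup.IsSubnormal.trans hHV h1 hVn.isSubnormal

/-- Let G be a finite group, p a prime and H a p-subgroup of G. Then the set of elements g of G such that H is subnormal in the subgroup generated by H and g is the union of the normalizers N_G(R) over the subgroups R of G containing H with R = O_p(N_G(R)); and this set does not change when H is replaced by the intersection of all Sylow p-subgroups of G containing H. -/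
theorem result {G : Type*} [Group G] [Finite G] (p : ℕ) [Fact p.Prime]
    (H : Subgroup G) (hH : IsPGroup p H) :
    {g : G | ((H).subgroupOf (H ⊔ Subgroup.zpowers g)).IsSubnormal} =
      {g : G | ∃ R : Subgroup G, H ≤ R ∧ (Cfsg.pCore p (Subgroup.normalizer (R : Set G))).map (Subgroup.normalizer (R : Set G)).subtype = R ∧ g ∈ Subgroup.normalizer (R : Set G)} ∧
    ∀ g : G, (((H).subgroupOf (H ⊔ Subgroup.zpowers g)).IsSubnormal ↔
      (((sInf {K : Subgroup G | ∃ Q : Sylow p G, H ≤ (Q : Subgroup G) ∧ K = (Q : Subgroup G)})).subgroupOf ((sInf {K : Subgroup G | ∃ Q : Sylow p G, H ≤ (Q : Subgroup G) ∧ K = (Q : Subgroup G)}) ⊔ Subgroup.zpowers g)).IsSubnormal) := by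
  have hA := fun (K : Subgroup G) (hK : IsPGroup p K) (g : G) => exists_pgroup_of_subnormal K hK g
  have hB := fun (K W : Subgroup G) (hKW : K ≤ W) (hW : IsPGroup p W) (g : G) => subnormal_of_pgroup K W hKW hW g
  refine ⟨?_, ?_⟩
  · ext g
    constructor
    · intro hg
      obtain ⟨W, hHW, hWp, hgW⟩ := hA H hH g hg
      have hfin : ({R : Subgroup G | H ≤ R ∧ IsPGroup p R ∧ g ∈ Subgroup.normalizer (R : Set G)}).Finite := Set.toFinite _
      obtain ⟨R, hR⟩ := hfin.exists_maximal ⟨W, hHW, hWp, hgW⟩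
      obtain ⟨hHR, hRp, hgR⟩ := hR.1
      refine ⟨R, hHR, ?_, hgR⟩
      obtain ⟨Y, hY⟩ : ∃ Y : Subgroup G, Y = Subgroup.normalizer (R : Set G) := ⟨_, rfl⟩
      rw [← hY]
      have hgY : g ∈ Y := by rw [hY]; exact hgR
      have hRY : R ≤ Y := by rw [hY]; exact Subgroup.le_normalizer
      have hOp : IsPGroup p ((Cfsg.pCore p Y).map Y.subtype) := (CfsgLib.Solv.pCore_isPGroup p).map _
      have hRO : R ≤ (Cfsg.pCore p Y).map Y.subtype := by
        have hRn : (R.subgroupOf Y).Normal := by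
          rw [hY]; exact Subgroup.normal_in_normalizer
        have hRp' : IsPGroup p (R.subgroupOf Y) := by
          obtain ⟨k, hk⟩ := hRp.exists_card_eq
          exact IsPGroup.of_card (n := k) (by rw [CfsgLib.Solv.card_subgroupOf_of_le hRY, hk])
        have h1 := CfsgLib.Solv.le_pCore' (R.subgroupOf Y) hRp'
        intro x hx
        have hx' : (⟨x, hRY hx⟩ : Y) ∈ R.subgroupOf Y := by rwa [Subgroup.mem_subgroupOf]
        exact ⟨_, h1 hx', rfl⟩
      have hgO : g ∈ Subgroup.normalizer (((Cfsg.pCore p Y).map Y.subtype : Subgroup G) : Set G) := by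
        apply CfsgLib.FGS.mem_normalizer_of_conj_le
        rintro _ ⟨y, hy, rfl⟩
        refine ⟨⟨g, hgY⟩ * y * ⟨g, hgY⟩⁻¹, ?_, rfl⟩
        exact (CfsgLib.Solv.pCore_normal' p).conj_mem y hy ⟨g, hgY⟩
      have hmem : (Cfsg.pCore p Y).map Y.subtype ∈ {R : Subgroup G | H ≤ R ∧ IsPGroup p R ∧ g ∈ Subgroup.normalizer (R : Set G)} :=
        ⟨hHR.trans hRO, hOp, hgO⟩
      exact le_antisymm (hR.2 hmem hRO) hRO
    · rintro ⟨R, hHR, hRe, hgR⟩
      have hRp : IsPGroup p R := by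
        rw [← hRe]; exact (CfsgLib.Solv.pCore_isPGroup p).map _
      exact hB H R hHR hRp g hgR
  · intro g
    -- Sylows containing `H`
    obtain ⟨D, hD⟩ : ∃ D : Subgroup G, D = sInf {K : Subgroup G | ∃ Q : Sylow p G, H ≤ (Q : Subgroup G) ∧ K = (Q : Subgroup G)} := ⟨_, rfl⟩
    rw [← hD]
    obtain ⟨Q₀, hQ₀⟩ := hH.exists_le_sylow
    have hHD : H ≤ D := by
      rw [hD]
      refine le_sInf ?_
      rintro K ⟨Q, hQ, rfl⟩
      exact hQ
    have hDQ₀ : D ≤ Q₀ := by
      rw [hD]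
      exact sInf_le ⟨Q₀, hQ₀, rfl⟩
    have hDp : IsPGroup p D := Q₀.isPGroup'.to_le hDQ₀
    constructor
    · intro hg
      obtain ⟨W, hHW, hWp, hgW⟩ := hA H hH g hg
      obtain ⟨W', hW'⟩ : ∃ W' : Subgroup G, W' = sInf {K : Subgroup G | ∃ Q : Sylow p G, W ≤ (Q : Subgroup G) ∧ K = (Q : Subgroup G)} := ⟨_, rfl⟩
      obtain ⟨Q₁, hQ₁⟩ := hWp.exists_le_sylow
      have hW'Q₁ : W' ≤ Q₁ := by
        rw [hW']
        exact sInf_le ⟨Q₁, hQ₁, rfl⟩
      have hW'p : IsPGroup p W' := Q₁.isPGroup'.to_le hW'Q₁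
      have hDW' : D ≤ W' := by
        rw [hW', hD]
        refine le_sInf ?_
        rintro K ⟨Q, hQ, rfl⟩
        exact sInf_le ⟨Q, hHW.trans hQ, rfl⟩
      refine hB D W' hDW' hW'p g ?_
      apply CfsgLib.FGS.mem_normalizer_of_conj_le
      intro x hx
      rw [hW'] at hx ⊢
      rw [Subgroup.mem_sInf] at hx ⊢
      rintro K ⟨Q, hQ, rfl⟩
      have h1 : W ≤ ((g⁻¹ • Q : Sylow p G) : Subgroup G) := by
        intro w hw
        rw [Sylow.coe_subgroup_smul, CfsgLib.Solv.mem_conj_smul]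
        have h2 : g⁻¹⁻¹ * w * g⁻¹ ∈ W := by
          rw [inv_inv]
          exact (Subgroup.mem_normalizer_iff.1 hgW w).1 hw
        exact hQ h2
      have h3 := hx _ ⟨g⁻¹ • Q, h1, rfl⟩
      rw [Sylow.coe_subgroup_smul, CfsgLib.Solv.mem_conj_smul] at h3
      simpa using h3
    · intro hg
      obtain ⟨W, hHW, hWp, hgW⟩ := hA D hDp g hg
      exact hB H W (hHD.trans hHW) hWp g hgW

end Cfsg.Agent.S4089
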