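import Cfsg.Statements.S4090
import Cfsg.Agent.Lib.FGS.Sbn
import Cfsg.Agent.S4088

set_option autoImplicit false
open scoped BigOperators
open Cfsg
open scoped commutatorElement
open scoped Pointwise

namespace Cfsg.Agent.S4090

open Cfsg.Agent.S4088 (h8_fib h8_mem_smul)

theorem h8_Zcount {G : Type*} [Group G] [Finite G] {p : ℕ} [Fact p.Prime] (H : Subgroup G) (P : Sylow p G) :
    Nat.card {g : G // ∀ h ∈ H, g * h * g⁻¹ ∈ (P : Subgroup G)} =
      Nat.card {Q : Sylow p G // H ≤ (Q : Subgroup G)} * Nat.card (Subgroup.normalizer ((P : Subgroup G) : Set G)) := by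
  classical
  let φ2 : {g : G // ∀ h ∈ H, g * h * g⁻¹ ∈ (P : Subgroup G)} → {Q : Sylow p G // H ≤ (Q : Subgroup G)} :=
    fun z => ⟨(z : G)⁻¹ • P, fun x hx => (h8_mem_smul P z x).2 (z.2 x hx)⟩
  refine h8_fib φ2 (Nat.card (Subgroup.normalizer ((P : Subgroup G) : Set G))) ?_
  rintro ⟨Q, hQ⟩
  obtain ⟨g1, hg1⟩ := MulAction.exists_smul_eq G P Q
  subst hg1
  set g0 := g1⁻¹ with hg0
  have hg1' : g1 = g0⁻¹ := by rw [hg0, inv_inv]
  have hfib : ∀ w : G, (w⁻¹ • P = g1 • P) ↔ g0 * w⁻¹ ∈ Subgroup.normalizer ((P : Subgroup G) : Set G) := by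
    intro w
    rw [hg1']
    constructor
    · intro h
      have h2 : (g0 * w⁻¹) • P = P := by
        rw [mul_smul, h, smul_inv_smul]
      exact Sylow.smul_eq_iff_mem_normalizer.1 h2
    · intro h
      have h2 := Sylow.smul_eq_iff_mem_normalizer.2 h
      rw [mul_smul] at h2
      have h5 : w⁻¹ • P = g0⁻¹ • (g0 • (w⁻¹ • P)) := (inv_smul_smul _ _).symm
      rw [h5, h2]
  refine Nat.card_congr
    { toFun := fun z => ⟨g0 * (z.1 : G)⁻¹, (hfib z.1).1 (congrArg Subtype.val z.2)⟩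
      invFun := fun u => ⟨⟨(u : G)⁻¹ * g0, ?_⟩, ?_⟩
      left_inv := ?_
      right_inv := ?_ }
  · have hu2 : (((u : G)⁻¹ * g0)⁻¹) • P = g1 • P := (hfib _).2 (by simpa using u.2)
    intro x hx
    have h3 : x ∈ ((((u : G)⁻¹ * g0)⁻¹ • P : Sylow p G) : Subgroup G) := by
      rw [hu2]
      exact hQ hx
    exact (h8_mem_smul P _ x).1 h3
  · apply Subtype.ext
    exact (hfib _).2 (by simpa using u.2)
  · intro z
    apply Subtype.ext
    apply Subtype.ext
    simp
  · intro u
    apply Subtype.ext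
    simp

theorem h8_tele : ∀ (n : ℕ) (x : Fin (n + 1) → ℕ) (b a : Fin n → ℕ),
    (∀ j : Fin n, x j.castSucc * b j = x j.succ * a j) →
    x 0 * (Finset.univ.prod b) = x (Fin.last n) * (Finset.univ.prod a) := by
  intro n
  induction n with
  | zero =>
    intro x b a _
    simp
  | succ n ih =>
    intro x b a h
    rw [Fin.prod_univ_succ, Fin.prod_univ_succ]
    have h0 := h 0
    simp only [Fin.castSucc_zero] at h0
    have h1 := ih (fun j : Fin (n+1) => x j.succ) (fun j : Fin n => b j.succ) (fun j : Fin n => a j.succ) (fun j : Fin n => by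
      have := h j.succ
      simpa using this)
    simp only [Fin.succ_zero_eq_one, Fin.succ_last] at h1
    calc x 0 * (b 0 * Finset.univ.prod fun i : Fin n => b i.succ)
        = (x 0 * b 0) * Finset.univ.prod fun i : Fin n => b i.succ := by ring
      _ = (x (Fin.succ 0) * a 0) * Finset.univ.prod fun i : Fin n => b i.succ := by rw [h0]
      _ = (x (Fin.succ 0) * Finset.univ.prod fun i : Fin n => b i.succ) * a 0 := by ring
      _ = _ := by
        have h2 : x (Fin.succ 0) = x 1 := by simp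
        rw [h2, h1]
        ring

section step
variable {G : Type*} [Group G] [Finite G] {p : ℕ} [hpf : Fact p.Prime]

/-- `P ∩ Y ≤ X` for a `p'`-factor; and the consequence for `(P ⊔ X) ⊓ Y`. -/
theorem h8_inf_le (X Y : Subgroup G) [hXn : X.Normal] (hc : (X.relIndex Y).Coprime p) (P : Sylow p G) :
    ∀ w ∈ Y, w ∈ (P : Subgroup G) ⊔ X → w ∈ X := by
  intro w hw hw2
  obtain ⟨z, hz, x, hx, rfl⟩ := Subgroup.mem_sup_of_normal_right.1 hw2
  have hzY' : z ∈ Y ∨ True := Or.inr trivial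
  -- the image of `Y` in `G ⧸ X` has order prime to `p`
  have h1 : Nat.card (Y.map (QuotientGroup.mk' X)) = X.relIndex Y := by
    have h := Subgroup.relIndex_ker (QuotientGroup.mk' X) (K := Y)
    rw [QuotientGroup.ker_mk'] at h
    exact h.symm
  have h2 : QuotientGroup.mk' X (z * x) = QuotientGroup.mk' X z := by
    have hx1 : QuotientGroup.mk' X x = 1 := (QuotientGroup.eq_one_iff x).2 hx
    rw [map_mul, hx1, mul_one]
  have h3 : QuotientGroup.mk' X z ∈ Y.map (QuotientGroup.mk' X) := by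
    rw [← h2]
    exact Subgroup.mem_map_of_mem _ hw
  have h4 : orderOf (QuotientGroup.mk' X z) ∣ Nat.card (Y.map (QuotientGroup.mk' X)) :=
    Subgroup.orderOf_dvd_natCard _ h3
  rw [h1] at h4
  obtain ⟨k, hk⟩ := (IsPGroup.iff_orderOf.1 P.isPGroup') ⟨z, hz⟩
  have h5 : orderOf (QuotientGroup.mk' X z) ∣ p ^ k := by
    apply orderOf_dvd_of_pow_eq_one
    rw [← map_pow]
    have : z ^ p ^ k = 1 := by
      have h6 := congrArg Subtype.val (pow_orderOf_eq_one (⟨z, hz⟩ : (P : Subgroup G)))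
      rw [hk] at h6
      simpa using h6
    rw [this, map_one]
  have h6 : (orderOf (QuotientGroup.mk' X z)).Coprime (p ^ k) :=
    Nat.Coprime.pow_right k (Nat.Coprime.coprime_dvd_left h4 hc)
  have h7 : orderOf (QuotientGroup.mk' X z) = 1 := Nat.Coprime.eq_one_of_dvd h6 h5
  have h8 : QuotientGroup.mk' X z = 1 := orderOf_eq_one_iff.1 h7
  have h9 : z ∈ X := (QuotientGroup.eq_one_iff z).1 h8
  exact X.mul_mem h9 hx

theorem h8_comm_iff (X Y : Subgroup G) [hXn : X.Normal] [hYn : Y.Normal] (hc : (X.relIndex Y).Coprime p) (P : Sylow p G)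
    (x m : G) (hx : x ∈ (P : Subgroup G)) (hm : m ∈ Y) :
    m * x * m⁻¹ ∈ (P : Subgroup G) ⊔ X ↔ x * m * x⁻¹ * m⁻¹ ∈ X := by
  constructor
  · intro h
    have h1 : m * x * m⁻¹ * x⁻¹ ∈ Y := by
      have : m * x * m⁻¹ * x⁻¹ = m * (x * m⁻¹ * x⁻¹) := by group
      rw [this]
      exact Y.mul_mem hm (hYn.conj_mem _ (Y.inv_mem hm) x)
    have h2 : m * x * m⁻¹ * x⁻¹ ∈ (P : Subgroup G) ⊔ X :=
      Subgroup.mul_mem _ h (Subgroup.mem_sup_left (Subgroup.inv_mem _ hx))
    have h3 := h8_inf_le X Y hc P _ h1 h2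
    have h4 : x * m * x⁻¹ * m⁻¹ = (m * x * m⁻¹ * x⁻¹)⁻¹ := by group
    rw [h4]
    exact X.inv_mem h3
  · intro h
    have h4 : m * x * m⁻¹ = (x * m * x⁻¹ * m⁻¹)⁻¹ * x := by group
    rw [h4]
    exact Subgroup.mul_mem _ (Subgroup.mem_sup_right (X.inv_mem h)) (Subgroup.mem_sup_left hx)

/-- A `p`-subgroup of `P ⊔ Y` is conjugate into `P` by an element of `Y`. -/
theorem h8_exists_conj (Y : Subgroup G) [hYn : Y.Normal] (P : Sylow p G) (K : Subgroup G) (hK : IsPGroup p K)
    (hKT : K ≤ (P : Subgroup G) ⊔ Y) : ∃ y ∈ Y, ∀ x ∈ K, y * x * y⁻¹ ∈ (P : Subgroup G) := by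
  set T := (P : Subgroup G) ⊔ Y with hT
  have hPT : (P : Subgroup G) ≤ T := le_sup_left
  -- the Sylow subgroup of `T` containing `K`
  obtain ⟨S, hS⟩ := (CfsgLib.FGS.Sbn.isPGroup_subgroupOf hK T).exists_le_sylow
  have hnd : ¬ p ∣ ((P : Subgroup G).subgroupOf T).index := by
    intro hd
    have h1 : ((P : Subgroup G).subgroupOf T).index ∣ (P : Subgroup G).index :=
      Subgroup.relIndex_dvd_index_of_le hPT
    exact P.not_dvd_index (hd.trans h1)
  obtain ⟨t, ht⟩ := CfsgLib.FGS.exists_conj_sylow_le ((P : Subgroup G).subgroupOf T) hnd S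
  obtain ⟨b, hb, y, hy, hby⟩ := Subgroup.mem_sup_of_normal_right.1 t.2
  refine ⟨y, hy, fun x hx => ?_⟩
  have h1 := ht ⟨x, hKT hx⟩ (hS hx)
  have h2 : (t : G) * x * (t : G)⁻¹ ∈ (P : Subgroup G) := h1
  rw [← hby] at h2
  have h3 : y * x * y⁻¹ = b⁻¹ * (b * y * x * (b * y)⁻¹) * b := by group
  rw [h3]
  exact Subgroup.mul_mem _ (Subgroup.mul_mem _ (Subgroup.inv_mem _ hb) h2) hb

theorem h8_step (H X Y : Subgroup G) [hXn : X.Normal] [hYn : Y.Normal] (hXY : X ≤ Y) (hc : (X.relIndex Y).Coprime p)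
    (hH : IsPGroup p H) (P : Sylow p G) :
    Nat.card {g : G // ∀ h ∈ H, g * h * g⁻¹ ∈ (P : Subgroup G) ⊔ X} * Nat.card Y =
      Nat.card {g : G // ∀ h ∈ H, g * h * g⁻¹ ∈ (P : Subgroup G) ⊔ Y} *
        Nat.card {u : G // u ∈ Y ∧ ∀ h ∈ H, h * u * h⁻¹ * u⁻¹ ∈ X} := by
  classical
  have hle : (P : Subgroup G) ⊔ X ≤ (P : Subgroup G) ⊔ Y := sup_le_sup le_rfl hXY
  let A := {q : G × G // (∀ h ∈ H, q.1 * h * q.1⁻¹ ∈ (P : Subgroup G) ⊔ Y) ∧ q.2 ∈ Y ∧
    ∀ h ∈ H, (q.2 * q.1) * h * (q.2 * q.1)⁻¹ ∈ (P : Subgroup G) ⊔ X}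
  let π1 : A → {g : G // ∀ h ∈ H, g * h * g⁻¹ ∈ (P : Subgroup G) ⊔ Y} := fun q => ⟨q.1.1, q.2.1⟩
  let π2 : A → {g : G // ∀ h ∈ H, g * h * g⁻¹ ∈ (P : Subgroup G) ⊔ X} := fun q => ⟨q.1.2 * q.1.1, q.2.2.2⟩
  have hc2 := h8_fib π2 (Nat.card Y) (by
    rintro ⟨g', hg'⟩
    refine Nat.card_congr
      { toFun := fun q => ⟨q.1.1.2, q.1.2.2.1⟩
        invFun := fun m => ⟨⟨((m : G)⁻¹ * g', (m : G)), ?_, m.2, ?_⟩, ?_⟩
        left_inv := ?_
        right_inv := ?_ }
    · intro h hh
      have h1 := hle (hg' h hh)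
      have h2 : (m : G)⁻¹ ∈ (P : Subgroup G) ⊔ Y := Subgroup.mem_sup_right (Y.inv_mem m.2)
      have h3 : (m : G) ∈ (P : Subgroup G) ⊔ Y := Subgroup.mem_sup_right m.2
      have h4 : ((m : G)⁻¹ * g') * h * ((m : G)⁻¹ * g')⁻¹ = (m : G)⁻¹ * (g' * h * g'⁻¹) * (m : G) := by group
      show ((m : G)⁻¹ * g') * h * ((m : G)⁻¹ * g')⁻¹ ∈ _
      rw [h4]
      exact Subgroup.mul_mem _ (Subgroup.mul_mem _ h2 h1) h3
    · intro h hh
      have h4 : (m : G) * ((m : G)⁻¹ * g') = g' := by group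
      show ((m : G) * ((m : G)⁻¹ * g')) * h * ((m : G) * ((m : G)⁻¹ * g'))⁻¹ ∈ _
      rw [h4]
      exact hg' h hh
    · apply Subtype.ext
      show (m : G) * ((m : G)⁻¹ * g') = g'
      group
    · rintro ⟨⟨⟨g, m⟩, h1, h2, h3⟩, hq⟩
      apply Subtype.ext
      apply Subtype.ext
      have hq' : m * g = g' := congrArg Subtype.val hq
      apply Prod.ext
      · show m⁻¹ * g' = g
        rw [← hq']
        group
      · rfl
    · intro m
      apply Subtype.ext
      rfl)
  have hc1 := h8_fib π1 (Nat.card {u : G // u ∈ Y ∧ ∀ h ∈ H, h * u * h⁻¹ * u⁻¹ ∈ X}) (by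
    rintro ⟨g, hg⟩
    -- conjugate into `P`
    have hK : IsPGroup p (H.map (MulAut.conj g).toMonoidHom) := hH.map _
    obtain ⟨y, hy, hyK⟩ := h8_exists_conj Y P (H.map (MulAut.conj g).toMonoidHom) hK (by
      rintro _ ⟨h, hh, rfl⟩
      exact hg h hh)
    set g1 := y * g with hg1
    have hg1P : ∀ h ∈ H, g1 * h * g1⁻¹ ∈ (P : Subgroup G) := by
      intro h hh
      have := hyK _ ⟨h, hh, rfl⟩
      have h2 : g1 * h * g1⁻¹ = y * (MulAut.conj g).toMonoidHom h * y⁻¹ := by
        simp [hg1, MulAut.conj_apply]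
        group
      rw [h2]
      exact this
    have hconjY : ∀ (a v : G), v ∈ Y → a * v * a⁻¹ ∈ Y := fun a v hv => hYn.conj_mem v hv a
    refine Nat.card_congr
      { toFun := fun q => ⟨g1⁻¹ * (q.1.1.2 * y⁻¹) * g1, ?_, ?_⟩
        invFun := fun u => ⟨⟨(g, g1 * (u : G) * g1⁻¹ * y), ?_, ?_, ?_⟩, ?_⟩
        left_inv := ?_
        right_inv := ?_ }
    · have h1 : q.1.1.2 * y⁻¹ ∈ Y := Y.mul_mem q.1.2.2.1 (Y.inv_mem hy)
      have := hconjY g1⁻¹ _ h1
      simpa using this
    · intro h hh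
      set m' := q.1.1.2 * y⁻¹ with hm'
      have hm'Y : m' ∈ Y := Y.mul_mem q.1.2.2.1 (Y.inv_mem hy)
      have hq1 : q.1.1.1 = g := congrArg Subtype.val q.2
      set x := g1 * h * g1⁻¹ with hx
      have hxP : x ∈ (P : Subgroup G) := hg1P h hh
      have h1 := q.1.2.2.2 h hh
      have h2 : (q.1.1.2 * q.1.1.1) * h * (q.1.1.2 * q.1.1.1)⁻¹ = m' * x * m'⁻¹ := by
        rw [hq1, hm', hx, hg1]
        group
      rw [h2] at h1
      have h3 := (h8_comm_iff X Y hc P x m' hxP hm'Y).1 h1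
      have h4 : h * (g1⁻¹ * m' * g1) * h⁻¹ * (g1⁻¹ * m' * g1)⁻¹ = g1⁻¹ * (x * m' * x⁻¹ * m'⁻¹) * g1 := by
        rw [hx]
        group
      rw [h4]
      have := hXn.conj_mem _ h3 g1⁻¹
      simpa using this
    · exact hg
    · have h1 := hconjY g1 _ u.2.1
      exact Y.mul_mem h1 hy
    · intro h hh
      show ((g1 * (u : G) * g1⁻¹ * y) * g) * h * ((g1 * (u : G) * g1⁻¹ * y) * g)⁻¹ ∈ _
      set m' := g1 * (u : G) * g1⁻¹ with hm'
      have hm'Y : m' ∈ Y := hconjY g1 _ u.2.1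
      set x := g1 * h * g1⁻¹ with hx
      have hxP : x ∈ (P : Subgroup G) := hg1P h hh
      have h2 : (m' * y * g) * h * (m' * y * g)⁻¹ = m' * x * m'⁻¹ := by
        rw [hx, hg1]
        group
      rw [h2]
      refine (h8_comm_iff X Y hc P x m' hxP hm'Y).2 ?_
      have h3 := u.2.2 h hh
      have h4 : x * m' * x⁻¹ * m'⁻¹ = g1 * (h * (u : G) * h⁻¹ * (u : G)⁻¹) * g1⁻¹ := by
        rw [hx, hm']
        group
      rw [h4]
      exact hXn.conj_mem _ h3 g1
    · apply Subtype.ext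
      rfl
    · rintro ⟨⟨⟨g', m⟩, h1, h2, h3⟩, hq⟩
      apply Subtype.ext
      apply Subtype.ext
      have hq' : g' = g := congrArg Subtype.val hq
      apply Prod.ext
      · exact hq'.symm
      · show g1 * (g1⁻¹ * (m * y⁻¹) * g1) * g1⁻¹ * y = m
        group
    · intro u
      apply Subtype.ext
      show g1⁻¹ * (g1 * (u : G) * g1⁻¹ * y * y⁻¹) * g1 = u
      group)
  exact hc2.symm.trans hc1

end step

theorem h8_U_dvd {G : Type*} [Group G] [Finite G] (H X Y : Subgroup G) [hXn : X.Normal] (hXY : X ≤ Y) :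
    Nat.card X ∣ Nat.card {u : G // u ∈ Y ∧ ∀ h ∈ H, h * u * h⁻¹ * u⁻¹ ∈ X} := by
  let U : Subgroup G :=
    { carrier := {u | u ∈ Y ∧ ∀ h ∈ H, h * u * h⁻¹ * u⁻¹ ∈ X}
      mul_mem' := by
        rintro a b ⟨ha, ha2⟩ ⟨hb, hb2⟩
        refine ⟨Y.mul_mem ha hb, fun h hh => ?_⟩
        have h1 : h * (a * b) * h⁻¹ * (a * b)⁻¹ = (h * a * h⁻¹ * a⁻¹) * (a * (h * b * h⁻¹ * b⁻¹) * a⁻¹) := by group
        rw [h1]
        exact X.mul_mem (ha2 h hh) (hXn.conj_mem _ (hb2 h hh) a)
      one_mem' := by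
        refine ⟨Y.one_mem, fun h _ => ?_⟩
        simp
      inv_mem' := by
        rintro a ⟨ha, ha2⟩
        refine ⟨Y.inv_mem ha, fun h hh => ?_⟩
        have h2 : h * a⁻¹ * h⁻¹ * a⁻¹⁻¹ = a⁻¹ * (h * a * h⁻¹ * a⁻¹)⁻¹ * a := by
          group
        rw [h2]
        have := hXn.conj_mem _ (X.inv_mem (ha2 h hh)) a⁻¹
        simpa using this }
  have hXU : X ≤ U := by
    intro u hu
    refine ⟨hXY hu, fun h _ => ?_⟩
    exact X.mul_mem (hXn.conj_mem _ hu h) (X.inv_mem hu)
  have h := Subgroup.card_dvd_of_le hXU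
  have h2 : Nat.card U = Nat.card {u : G // u ∈ Y ∧ ∀ h ∈ H, h * u * h⁻¹ * u⁻¹ ∈ X} := rfl
  rwa [h2] at h

theorem h8_sup_eq {G : Type*} [Group G] [Finite G] {p : ℕ} [Fact p.Prime] (X Y : Subgroup G) [hXn : X.Normal] [hYn : Y.Normal]
    (m : ℕ) (hm : X.relIndex Y = p ^ m) (P : Sylow p G) (hXY : X ≤ Y) :
    (P : Subgroup G) ⊔ X = (P : Subgroup G) ⊔ Y := by
  apply le_antisymm (sup_le_sup le_rfl hXY)
  refine sup_le le_sup_left ?_
  intro y hy
  let f := QuotientGroup.mk' X
  have hf : Function.Surjective f := QuotientGroup.mk'_surjective X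
  have h1 : Nat.card (Y.map f) = X.relIndex Y := by
    have h := Subgroup.relIndex_ker f (K := Y)
    rw [QuotientGroup.ker_mk'] at h
    exact h.symm
  have h2 : IsPGroup p (Y.map f) := IsPGroup.of_card (h1.trans hm)
  have hn : (Y.map f).Normal := Subgroup.Normal.map hYn f hf
  have h3 : Y.map f ≤ (P.mapSurjective hf : Subgroup (G ⧸ X)) :=
    CfsgLib.FGS.le_of_pgroup_normalized (P.mapSurjective hf) h2 (by
      rw [Subgroup.normalizer_eq_top_iff.2 hn]
      exact le_top)
  have h4 := h3 (Subgroup.mem_map_of_mem f hy)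
  obtain ⟨z, hz, hzy⟩ := (show f y ∈ (P : Subgroup G).map f from h4)
  have h5 : z⁻¹ * y ∈ X := by
    have : f (z⁻¹ * y) = 1 := by
      rw [map_mul, map_inv, hzy, inv_mul_cancel]
    exact (QuotientGroup.eq_one_iff _).1 this
  have h6 : y = z * (z⁻¹ * y) := by group
  rw [h6]
  exact Subgroup.mul_mem _ (Subgroup.mem_sup_left hz) (Subgroup.mem_sup_right h5)


/-- Let G be a finite p-solvable group, H a p-subgroup of G and P a Sylow p-subgroup, and fix a chain of normal subgroups 1 = M₀ ≤ M₁ ≤ ⋯ ≤ Mₙ = G of G each of whose factors is a p-group or a p'-group. Then the number of elements g of G such that H is subnormal in the subgroup generated by H and g equals the order of P times the product, over the factors Mᵢ₊₁/Mᵢ of order prime to p, of the order of the centralizer of H in Mᵢ₊₁/Mᵢ (counted as the number of u ∈ Mᵢ₊₁ with [h, u] ∈ Mᵢ for all h ∈ H, divided by the order of Mᵢ). -/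
theorem result {G : Type*} [Group G] [Finite G] (p : ℕ) [Fact p.Prime]
    (hG : Cfsg.IsPSolvable p G) (H : Subgroup G) (hH : IsPGroup p H) (P : Sylow p G)
    (n : ℕ) (M : Fin (n + 1) → Subgroup G) (h0 : M 0 = ⊥) (hn : M (Fin.last n) = ⊤) (hmono : Monotone M)
    (hnormal : ∀ i, (M i).Normal)
    (hfac : ∀ i : Fin n, (∃ m : ℕ, (M i.castSucc).relIndex (M i.succ) = p ^ m) ∨ ((M i.castSucc).relIndex (M i.succ)).Coprime p) :
    Nat.card {g : G // ((H).subgroupOf (H ⊔ Subgroup.zpowers g)).IsSubnormal} =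
      Nat.card (P : Subgroup G) *
        ∏ i : Fin n, (if ((M i.castSucc).relIndex (M i.succ)).Coprime p then
          Nat.card {u : G // u ∈ M i.succ ∧ ∀ h ∈ H, h * u * h⁻¹ * u⁻¹ ∈ M i.castSucc} / Nat.card (M i.castSucc)
          else 1) := by
  classical
  have hL : Nat.card {g : G // ((H).subgroupOf (H ⊔ Subgroup.zpowers g)).IsSubnormal} =
      Nat.card {g : G // ∀ h ∈ H, g * h * g⁻¹ ∈ (P : Subgroup G)} := by
    have hcongr : Nat.card {g : G // ((H).subgroupOf (H ⊔ Subgroup.zpowers g)).IsSubnormal} = Nat.card (CfsgLib.FGS.Sbn.Sb p H) :=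
      Nat.card_congr (Equiv.subtypeEquivRight fun g => CfsgLib.FGS.Sbn.subnormal_iff_Sb H hH g)
    have hcore := CfsgLib.FGS.Sbn.core_count p (Nat.card G) G le_rfl H.index H hH le_rfl
    have hs : Nat.card (Sylow p G) = (Subgroup.normalizer ((P : Subgroup G) : Set G)).index := Sylow.card_eq_index_normalizer P
    have hG2 := (Subgroup.normalizer ((P : Subgroup G) : Set G)).card_mul_index
    have hspos : 0 < Nat.card (Sylow p G) := Nat.card_pos
    rw [h8_Zcount, hcongr]
    apply Nat.eq_of_mul_eq_mul_right hspos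
    rw [hcore, mul_assoc, hs, hG2]
  let x : Fin (n + 1) → ℕ := fun j => Nat.card {g : G // ∀ h ∈ H, g * h * g⁻¹ ∈ (P : Subgroup G) ⊔ M j}
  let e : Fin n → ℕ := fun i => (M i.castSucc).relIndex (M i.succ)
  let a : Fin n → ℕ := fun i => if (e i).Coprime p then
    Nat.card {u : G // u ∈ M i.succ ∧ ∀ h ∈ H, h * u * h⁻¹ * u⁻¹ ∈ M i.castSucc} / Nat.card (M i.castSucc) else 1
  let b : Fin n → ℕ := fun i => if (e i).Coprime p then e i else 1
  let q : Fin n → ℕ := fun i => if (e i).Coprime p then 1 else e i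
  have hepos : ∀ i, 0 < e i := fun i => Nat.pos_of_ne_zero (Subgroup.index_ne_zero_of_finite (H := (M i.castSucc).subgroupOf (M i.succ)))
  have hXY : ∀ i : Fin n, M i.castSucc ≤ M i.succ := fun i => hmono (Fin.castSucc_lt_succ).le
  have hY : ∀ i : Fin n, Nat.card (M i.succ) = Nat.card (M i.castSucc) * e i := by
    intro i
    have h := ((M i.castSucc).subgroupOf (M i.succ)).card_mul_index
    rw [CfsgLib.Solv.card_subgroupOf_of_le (hXY i)] at h
    exact h.symm
  have hrel : ∀ i : Fin n, x i.castSucc * b i = x i.succ * a i := by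
    intro i
    haveI := hnormal i.castSucc
    haveI := hnormal i.succ
    by_cases hc : (e i).Coprime p
    · have hb : b i = e i := if_pos hc
      have ha : a i = Nat.card {u : G // u ∈ M i.succ ∧ ∀ h ∈ H, h * u * h⁻¹ * u⁻¹ ∈ M i.castSucc} / Nat.card (M i.castSucc) := if_pos hc
      rw [hb, ha]
      have hs := h8_step H (M i.castSucc) (M i.succ) (hXY i) hc hH P
      rw [hY i] at hs
      obtain ⟨c, hc'⟩ := h8_U_dvd H (M i.castSucc) (M i.succ) (hXY i)
      rw [hc'] at hs ⊢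
      have hpos : 0 < Nat.card (M i.castSucc) := Nat.card_pos
      rw [Nat.mul_div_cancel_left _ hpos]
      apply Nat.eq_of_mul_eq_mul_left hpos
      show Nat.card (M i.castSucc) * (x i.castSucc * e i) = Nat.card (M i.castSucc) * (x i.succ * c)
      have h1 : x i.castSucc * (Nat.card (M i.castSucc) * e i) = x i.succ * (Nat.card (M i.castSucc) * c) := hs
      calc Nat.card (M i.castSucc) * (x i.castSucc * e i) = x i.castSucc * (Nat.card (M i.castSucc) * e i) := by ring
        _ = x i.succ * (Nat.card (M i.castSucc) * c) := h1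
        _ = _ := by ring
    · have hb : b i = 1 := if_neg hc
      have ha : a i = 1 := if_neg hc
      rw [hb, ha, mul_one, mul_one]
      obtain ⟨m, hm⟩ : ∃ m, e i = p ^ m := by
        rcases hfac i with h | h
        · exact h
        · exact absurd h hc
      have h1 := h8_sup_eq (M i.castSucc) (M i.succ) m hm P (hXY i)
      show Nat.card {g : G // ∀ h ∈ H, g * h * g⁻¹ ∈ (P : Subgroup G) ⊔ M i.castSucc} =
        Nat.card {g : G // ∀ h ∈ H, g * h * g⁻¹ ∈ (P : Subgroup G) ⊔ M i.succ}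
      rw [h1]
  have hx0 : x 0 = Nat.card {g : G // ∀ h ∈ H, g * h * g⁻¹ ∈ (P : Subgroup G)} := by
    show Nat.card {g : G // ∀ h ∈ H, g * h * g⁻¹ ∈ (P : Subgroup G) ⊔ M 0} = _
    rw [h0, sup_bot_eq]
  have hxl : x (Fin.last n) = Nat.card G := by
    show Nat.card {g : G // ∀ h ∈ H, g * h * g⁻¹ ∈ (P : Subgroup G) ⊔ M (Fin.last n)} = _
    rw [hn, sup_top_eq]
    exact Nat.card_congr (Equiv.subtypeUnivEquiv (fun _ _ _ => Subgroup.mem_top _))
  have htele := h8_tele n x b a hrel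
  have hcardG : Nat.card G = Finset.univ.prod e := by
    have h := h8_tele n (fun j => Nat.card (M j)) e (fun _ => 1) (fun i => by
      simpa using (hY i).symm)
    simp only [Finset.prod_const_one, mul_one] at h
    rw [h0, hn] at h
    simp only [Subgroup.card_bot, one_mul, Subgroup.card_top] at h
    exact h.symm
  have hebq : ∀ i, e i = b i * q i := by
    intro i
    by_cases hc : (e i).Coprime p
    · show e i = (if (e i).Coprime p then e i else 1) * (if (e i).Coprime p then 1 else e i)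
      rw [if_pos hc, if_pos hc, mul_one]
    · show e i = (if (e i).Coprime p then e i else 1) * (if (e i).Coprime p then 1 else e i)
      rw [if_neg hc, if_neg hc, one_mul]
  have hprod : Nat.card G = (Finset.univ.prod b) * (Finset.univ.prod q) := by
    rw [hcardG, ← Finset.prod_mul_distrib]
    exact Finset.prod_congr rfl fun i _ => hebq i
  have hbcop : (Finset.univ.prod b).Coprime p := by
    apply Nat.Coprime.prod_left
    intro i _
    by_cases hc : (e i).Coprime p
    · show (if (e i).Coprime p then e i else 1).Coprime p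
      rw [if_pos hc]
      exact hc
    · show (if (e i).Coprime p then e i else 1).Coprime p
      rw [if_neg hc]
      exact Nat.coprime_one_left p
  have hqp : ∃ l, Finset.univ.prod q = p ^ l := by
    have : ∀ s : Finset (Fin n), ∃ l, s.prod q = p ^ l := by
      intro s
      induction s using Finset.induction_on with
      | empty => exact ⟨0, by simp⟩
      | insert i s hi ih =>
        obtain ⟨l, hl⟩ := ih
        rw [Finset.prod_insert hi, hl]
        by_cases hc : (e i).Coprime p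
        · refine ⟨l, ?_⟩
          show (if (e i).Coprime p then 1 else e i) * _ = _
          rw [if_pos hc, one_mul]
        · obtain ⟨m, hm⟩ : ∃ m, e i = p ^ m := by
            rcases hfac i with h | h
            · exact h
            · exact absurd h hc
          refine ⟨m + l, ?_⟩
          show (if (e i).Coprime p then 1 else e i) * _ = _
          rw [if_neg hc, hm, pow_add]
    exact this _
  have hq : Finset.univ.prod q = Nat.card (P : Subgroup G) := by
    obtain ⟨l, hl⟩ := hqp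
    obtain ⟨k, hk⟩ := (IsPGroup.iff_card.1 P.isPGroup')
    have hPidx := (P : Subgroup G).card_mul_index
    have hidx : (P : Subgroup G).index.Coprime p := by
      have := fact_iff.1 (inferInstance : Fact p.Prime)
      exact ((Nat.Prime.coprime_iff_not_dvd this).2 P.not_dvd_index).symm
    have heq : Finset.univ.prod b * p ^ l = p ^ k * (P : Subgroup G).index := by
      rw [← hl, ← hprod, ← hk, hPidx]
    have hd1 : p ^ l ∣ p ^ k := by
      have h1 : p ^ l ∣ p ^ k * (P : Subgroup G).index := ⟨Finset.univ.prod b, by rw [← heq]; ring⟩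
      exact (Nat.Coprime.pow_left l hidx.symm).dvd_of_dvd_mul_right h1
    have hd2 : p ^ k ∣ p ^ l := by
      have h1 : p ^ k ∣ Finset.univ.prod b * p ^ l := ⟨(P : Subgroup G).index, heq⟩
      exact (Nat.Coprime.pow_left k hbcop.symm).dvd_of_dvd_mul_left h1
    rw [hl, hk]
    exact Nat.dvd_antisymm hd1 hd2
  have hbpos : 0 < Finset.univ.prod b := by
    apply Finset.prod_pos
    intro i _
    show 0 < if (e i).Coprime p then e i else 1
    split_ifs
    · exact hepos i
    · exact one_pos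
  rw [hL, ← hx0]
  apply Nat.eq_of_mul_eq_mul_left hbpos
  show Finset.univ.prod b * x 0 = Finset.univ.prod b * (Nat.card (P : Subgroup G) * Finset.univ.prod a)
  rw [mul_comm _ (x 0), htele, hxl, hprod, hq]
  ring

end Cfsg.Agent.S4090
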