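import Cfsg.Statements.S4092
import Cfsg.Agent.Lib.FGS.Syl

set_option autoImplicit false
open Cfsg

namespace Cfsg.Agent.S4092

section helpers
variable {G : Type*} [Group G]

/-- elements of a subgroup as a finset -/
noncomputable def sf [Fintype G] (T : Subgroup G) : Finset G := by
  classical exact Finset.univ.filter (· ∈ T)

theorem mem_sf [Fintype G] {T : Subgroup G} {x : G} : x ∈ sf T ↔ x ∈ T := by
  classical
  simp [sf]

theorem card_sf [Fintype G] (T : Subgroup G) : (sf T).card = Nat.card T := by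
  classical
  rw [Nat.card_eq_fintype_card, Fintype.card_subtype]
  simp [sf]

theorem count_A [Fintype G] [DecidableEq G] (𝓣 : Finset (Subgroup G)) (c d : ℕ) (hc : ∀ T ∈ 𝓣, Nat.card T = c)
    (hd : ∀ T ∈ 𝓣, ∀ T' ∈ 𝓣, T ≠ T' → Nat.card (T ⊓ T' : Subgroup G) ≤ d) :
    2 * 𝓣.card * c + d * 𝓣.card ≤ 2 * (𝓣.biUnion sf).card + d * 𝓣.card * 𝓣.card := by
  classical
  induction 𝓣 using Finset.induction_on with
  | empty => simp
  | insert S 𝓣 hS ih =>
    have ih' := ih (fun T hT => hc T (Finset.mem_insert_of_mem hT))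
      (fun T hT T' hT' hne => hd T (Finset.mem_insert_of_mem hT) T' (Finset.mem_insert_of_mem hT') hne)
    rw [Finset.biUnion_insert, Finset.card_insert_of_notMem hS]
    set U := 𝓣.biUnion sf with hU
    set m := 𝓣.card with hm
    have h1 := Finset.card_union_add_card_inter (sf S) U
    have h2 : (sf S ∩ U).card ≤ m * d := by
      have h3 : sf S ∩ U ⊆ 𝓣.biUnion (fun T => sf (S ⊓ T)) := by
        intro x hx
        rw [Finset.mem_inter, hU, Finset.mem_biUnion] at hx
        obtain ⟨hxS, T, hT, hxT⟩ := hx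
        rw [Finset.mem_biUnion]
        exact ⟨T, hT, mem_sf.mpr ⟨mem_sf.mp hxS, mem_sf.mp hxT⟩⟩
      refine (Finset.card_le_card h3).trans ?_
      apply Finset.card_biUnion_le_card_mul
      intro T hT
      rw [card_sf]
      apply hd S (Finset.mem_insert_self _ _) T (Finset.mem_insert_of_mem hT)
      rintro rfl
      exact hS hT
    rw [card_sf, hc S (Finset.mem_insert_self _ _)] at h1
    nlinarith

theorem count_B [Fintype G] (𝓣 : Finset (Subgroup G)) (Q : Subgroup G) (c q : ℕ)
    (hc : ∀ T ∈ 𝓣, Nat.card T = c) (hQ : Nat.card Q = q) (hle : ∀ T ∈ 𝓣, Q ≤ T)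
    (hinf : ∀ T ∈ 𝓣, ∀ T' ∈ 𝓣, T ≠ T' → T ⊓ T' ≤ Q) (X : Finset G) (hQX : sf Q ⊆ X)
    (hTX : ∀ T ∈ 𝓣, sf T ⊆ X) : q + 𝓣.card * (c - q) ≤ X.card := by
  classical
  have h1 : (𝓣.biUnion (fun T => sf T \ sf Q)).card = 𝓣.card * (c - q) := by
    rw [Finset.card_biUnion]
    · rw [Finset.sum_congr rfl (g := fun _ => c - q)]
      · simp
      · intro T hT
        rw [Finset.card_sdiff_of_subset, card_sf, card_sf, hc T hT, hQ]
        intro x hx
        exact mem_sf.mpr (hle T hT (mem_sf.mp hx))
    · intro T hT T' hT' hne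
      change Disjoint _ _
      rw [Finset.disjoint_left]
      intro x hx hx'
      rw [Finset.mem_sdiff] at hx hx'
      exact hx.2 (mem_sf.mpr (hinf T hT T' hT' hne ⟨mem_sf.mp hx.1, mem_sf.mp hx'.1⟩))
  have h2 : Disjoint (sf Q) (𝓣.biUnion (fun T => sf T \ sf Q)) := by
    rw [Finset.disjoint_left]
    intro x hx hx'
    rw [Finset.mem_biUnion] at hx'
    obtain ⟨T, _, hxT⟩ := hx'
    exact (Finset.mem_sdiff.mp hxT).2 hx
  have h3 : (sf Q ∪ 𝓣.biUnion (fun T => sf T \ sf Q)).card = q + 𝓣.card * (c - q) := by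
    rw [Finset.card_union_of_disjoint h2, h1, card_sf, hQ]
  rw [← h3]
  apply Finset.card_le_card
  intro x hx
  rw [Finset.mem_union, Finset.mem_biUnion] at hx
  rcases hx with hx | ⟨T, hT, hx⟩
  · exact hQX hx
  · exact hTX T hT (Finset.mem_sdiff.mp hx).1

theorem exists_family [Finite G] (p : ℕ) [Fact p.Prime] (R S : Sylow p G) (h : R ≠ S) :
    ∃ 𝓣 : Finset (Sylow p G), 𝓣.card = p + 1 := by
  classical
  haveI : Fintype (Sylow p G) := Fintype.ofFinite _
  have hn : Nat.card (Sylow p G) ≡ 1 [MOD p] := card_sylow_modEq_one p G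
  have hn2 : 1 < Nat.card (Sylow p G) := by
    haveI : Nontrivial (Sylow p G) := ⟨R, S, h⟩
    exact Finite.one_lt_card
  have h1 : p ∣ Nat.card (Sylow p G) - 1 := (Nat.modEq_iff_dvd' hn2.le).mp hn.symm
  have h2 : p ≤ Nat.card (Sylow p G) - 1 := Nat.le_of_dvd (by omega) h1
  have h3 : p + 1 ≤ (Finset.univ : Finset (Sylow p G)).card := by
    rw [Finset.card_univ, ← Nat.card_eq_fintype_card]
    omega
  obtain ⟨t, _, ht⟩ := Finset.exists_subset_card_eq h3
  exact ⟨t, ht⟩

/-- If `Q ≤ D ≤ T` and `|T| = p |Q|` then `D = Q` or `D = T`. -/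
theorem eq_or_eq_of_index_prime {p : ℕ} [Fact p.Prime] {Q D T : Subgroup G} [Finite G]
    (hQD : Q ≤ D) (hDT : D ≤ T) (hc : Nat.card T = p * Nat.card Q) : D = Q ∨ D = T := by
  have hpp : p.Prime := Fact.out
  have h1 : Nat.card Q ∣ Nat.card D := Subgroup.card_dvd_of_le hQD
  have h2 : Nat.card D ∣ Nat.card T := Subgroup.card_dvd_of_le hDT
  obtain ⟨u, hu⟩ := h1
  obtain ⟨v, hv⟩ := h2
  have hQ0 : 0 < Nat.card Q := Nat.card_pos
  have h3 : p = u * v := by
    have : Nat.card Q * p = Nat.card Q * (u * v) := by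
      rw [mul_comm, ← hc, hv, hu, mul_assoc]
    exact Nat.eq_of_mul_eq_mul_left hQ0 this
  rcases (Nat.prime_mul_iff.mp (h3 ▸ hpp)) with ⟨_, hv1⟩ | ⟨_, hu1⟩
  · right
    apply Subgroup.eq_of_le_of_card_ge hDT
    rw [hv, hv1, mul_one]
  · left
    symm
    apply Subgroup.eq_of_le_of_card_ge hQD
    rw [hu, hu1, mul_one]

theorem le_normalizer_of_index_prime' {p : ℕ} [Fact p.Prime] {Q R : Subgroup G} [Finite G] (hR : IsPGroup p R)
    (hQR : Q < R) (hc : Nat.card R = p * Nat.card Q) : R ≤ Subgroup.normalizer (Q : Set G) := by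
  obtain ⟨x, hxR, hxQ, hxN⟩ := CfsgLib.FGS.exists_mem_normalizer_of_lt hR hQR
  have hQD : Q ≤ R ⊓ Subgroup.normalizer (Q : Set G) := le_inf hQR.le Subgroup.le_normalizer
  rcases eq_or_eq_of_index_prime hQD inf_le_left hc with h | h
  · exact absurd (h ▸ (⟨hxR, hxN⟩ : x ∈ R ⊓ Subgroup.normalizer (Q : Set G))) hxQ
  · rw [← h]
    exact inf_le_right

end helpers


/-- Let G be a finite group, p a prime and P a Sylow p-subgroup of G that is not normal in G. Then G has at least p·#P elements of p-power order (the identity included). -/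
theorem result {G : Type*} [Group G] [Finite G] (p : ℕ) [Fact p.Prime]
    (P : Sylow p G) (hP : ¬ (P : Subgroup G).Normal) :
    p * Nat.card (P : Subgroup G) ≤ Nat.card {g : G // ∃ k : ℕ, orderOf g = p ^ k} := by
  classical
  haveI := Fintype.ofFinite G
  have hpp : p.Prime := Fact.out
  let X : Finset G := Finset.univ.filter (fun g => ∃ k : ℕ, orderOf g = p ^ k)
  have hX : Nat.card {g : G // ∃ k : ℕ, orderOf g = p ^ k} = X.card := by
    rw [Nat.card_eq_fintype_card, Fintype.card_subtype]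
  rw [hX]
  have hsfX : ∀ T : Subgroup G, IsPGroup p T → sf T ⊆ X := by
    intro T hT x hx
    have hxT := mem_sf.mp hx
    obtain ⟨k, hk⟩ := hT ⟨x, hxT⟩
    have h1 : x ^ p ^ k = 1 := by
      simpa using congrArg (fun z : T => (z : G)) hk
    obtain ⟨j, _, hj⟩ := (Nat.dvd_prime_pow hpp).mp (orderOf_dvd_of_pow_eq_one h1)
    exact Finset.mem_filter.mpr ⟨Finset.mem_univ _, j, hj⟩
  set c := Nat.card (P : Subgroup G) with hc
  have hcS : ∀ S : Sylow p G, Nat.card (S : Subgroup G) = c := by
    intro S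
    rw [hc, S.card_eq_multiplicity, P.card_eq_multiplicity]
  obtain ⟨n, hn⟩ : ∃ n, c = p ^ n := by
    exact ⟨_, P.card_eq_multiplicity⟩
  have hcpos : 0 < c := Nat.card_pos
  by_cases hA : ∀ R S : Sylow p G, R ≠ S → p ^ 2 * Nat.card ((R : Subgroup G) ⊓ (S : Subgroup G) : Subgroup G) ≤ c
  · -- Case A
    have hR : ∃ S : Sylow p G, S ≠ P := by
      by_contra hcon
      push Not at hcon
      haveI : Subsingleton (Sylow p G) := ⟨fun a b => (hcon a).trans (hcon b).symm⟩
      exact hP (Sylow.normal_of_subsingleton P)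
    obtain ⟨S, hS⟩ := hR
    obtain ⟨𝓣, h𝓣⟩ := exists_family p S P hS
    let 𝓣' : Finset (Subgroup G) := 𝓣.image (fun S : Sylow p G => (S : Subgroup G))
    have hinj : Function.Injective (fun S : Sylow p G => (S : Subgroup G)) := fun a b h => Sylow.ext h
    have hcard : 𝓣'.card = p + 1 := by
      rw [Finset.card_image_of_injective _ hinj, h𝓣]
    have hmem : ∀ T ∈ 𝓣', ∃ S : Sylow p G, T = S := by
      intro T hT
      obtain ⟨S, _, rfl⟩ := Finset.mem_image.mp hT
      exact ⟨S, rfl⟩
    set d := c / p ^ 2 with hd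
    have hdle : p ^ 2 * d ≤ c := Nat.mul_div_le _ _
    have h1 := count_A 𝓣' c d (fun T hT => by
        obtain ⟨S, rfl⟩ := hmem T hT
        exact hcS S)
      (fun T hT T' hT' hne => by
        obtain ⟨S, rfl⟩ := hmem T hT
        obtain ⟨S', rfl⟩ := hmem T' hT'
        have hne' : S ≠ S' := by
          rintro rfl
          exact hne rfl
        have := hA S S' hne'
        rw [hd, Nat.le_div_iff_mul_le (pow_pos hpp.pos 2), mul_comm]
        exact this)
    rw [hcard] at h1
    have h2 : (𝓣'.biUnion sf).card ≤ X.card := by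
      apply Finset.card_le_card
      intro x hx
      obtain ⟨T, hT, hx⟩ := Finset.mem_biUnion.mp hx
      obtain ⟨S, rfl⟩ := hmem T hT
      exact hsfX _ S.isPGroup' hx
    have hp2 : 2 ≤ p := hpp.two_le
    have h3 : d * (p + 1) * p ≤ 2 * c := by
      have : (p + 1) ≤ 2 * p := by omega
      calc d * (p + 1) * p ≤ d * (2 * p) * p := by gcongr
        _ = 2 * (p ^ 2 * d) := by ring
        _ ≤ 2 * c := by omega
    nlinarith
  · -- Case B
    push Not at hA
    obtain ⟨R, S, hne, hRS⟩ := hA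
    set Q : Subgroup G := (R : Subgroup G) ⊓ (S : Subgroup G) with hQ
    set q := Nat.card Q with hq
    have hQR : Q ≤ R := inf_le_left
    have hQS : Q ≤ S := inf_le_right
    have hqc : q ∣ c := by
      rw [← hcS R]
      exact Subgroup.card_dvd_of_le hQR
    obtain ⟨j, hjn, hj⟩ := (Nat.dvd_prime_pow hpp).mp (hn ▸ hqc)
    have hQne : q ≠ c := by
      intro h
      apply hne
      apply Sylow.ext
      have h1 : Q = R := Subgroup.eq_of_le_of_card_ge hQR (by rw [hcS R, ← h])
      have h2 : Q = S := Subgroup.eq_of_le_of_card_ge hQS (by rw [hcS S, ← h])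
      rw [← h1, ← h2]
    have hjlt : j < n := by
      apply lt_of_le_of_ne hjn
      rintro rfl
      exact hQne (hj.trans hn.symm)
    have hnj : n = j + 1 := by
      rw [hj, hn, ← pow_add] at hRS
      have := (Nat.pow_lt_pow_iff_right hpp.one_lt).mp hRS
      omega
    have hcq : c = p * q := by
      rw [hn, hnj, hj, pow_succ, mul_comm]
    have hQltR : Q < R := by
      refine lt_of_le_of_ne hQR ?_
      intro h
      apply hQne
      rw [hq, h, hcS R]
    have hQltS : Q < S := by
      refine lt_of_le_of_ne hQS ?_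
      intro h
      apply hQne
      rw [hq, h, hcS S]
    have hRN : (R : Subgroup G) ≤ Subgroup.normalizer (Q : Set G) :=
      le_normalizer_of_index_prime' R.isPGroup' hQltR (by rw [hcS R, hcq])
    have hSN : (S : Subgroup G) ≤ Subgroup.normalizer (Q : Set G) :=
      le_normalizer_of_index_prime' S.isPGroup' hQltS (by rw [hcS S, hcq])
    let N : Subgroup G := Subgroup.normalizer (Q : Set G)
    have hQN : Q ≤ N := Subgroup.le_normalizer
    let R' : Sylow p N := R.subtype hRN
    let S' : Sylow p N := S.subtype hSN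
    have hne' : R' ≠ S' := by
      intro h
      exact hne (Sylow.subtype_injective h)
    obtain ⟨𝓣, h𝓣⟩ := exists_family p R' S' hne'
    let f : Sylow p N → Subgroup G := fun T => (T : Subgroup N).map N.subtype
    have hfinj : Function.Injective f := by
      intro a b h
      apply Sylow.ext
      exact Subgroup.map_injective N.subtype_injective h
    let 𝓣' : Finset (Subgroup G) := 𝓣.image f
    have hcard : 𝓣'.card = p + 1 := by
      rw [Finset.card_image_of_injective _ hfinj, h𝓣]
    have hmem : ∀ T ∈ 𝓣', ∃ Y : Sylow p N, T = f Y := by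
      intro T hT
      obtain ⟨Y, _, rfl⟩ := Finset.mem_image.mp hT
      exact ⟨Y, rfl⟩
    have hfc : ∀ Y : Sylow p N, Nat.card (f Y) = c := by
      intro Y
      have h1 : Nat.card (f Y) = Nat.card (Y : Subgroup N) :=
        Subgroup.card_map_of_injective N.subtype_injective
      have h2 : Nat.card (Y : Subgroup N) = Nat.card (R' : Subgroup N) := by
        rw [Y.card_eq_multiplicity, R'.card_eq_multiplicity]
      have h3 : Nat.card (R' : Subgroup N) = Nat.card (R : Subgroup G) := by
        show Nat.card (R.subtype hRN : Subgroup N) = _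
        rw [Sylow.coe_subtype]
        exact Nat.card_congr (Subgroup.subgroupOfEquivOfLe hRN).toEquiv
      rw [h1, h2, h3, hcS R]
    have hQf : ∀ Y : Sylow p N, Q ≤ f Y := by
      intro Y x hx
      have hQ'p : IsPGroup p (Q.subgroupOf N) :=
        (IsPGroup.comap_of_injective (H := Q) (R.isPGroup'.to_le hQR) N.subtype N.subtype_injective)
      haveI hQ'n : (Q.subgroupOf N).Normal := Subgroup.normal_subgroupOf_of_le_normalizer le_rfl
      have h1 : Q.subgroupOf N ≤ (Y : Subgroup N) := by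
        apply CfsgLib.FGS.le_of_pgroup_normalized Y hQ'p
        rw [Subgroup.normalizer_eq_top_iff.mpr hQ'n]
        exact le_top
      exact ⟨⟨x, hQN hx⟩, h1 (Subgroup.mem_subgroupOf.mpr hx), rfl⟩
    have hfp : ∀ Y : Sylow p N, IsPGroup p (f Y) := fun Y => Y.isPGroup'.map N.subtype
    have h1 := count_B 𝓣' Q c q (fun T hT => by
        obtain ⟨Y, rfl⟩ := hmem T hT
        exact hfc Y) rfl (fun T hT => by
        obtain ⟨Y, rfl⟩ := hmem T hT
        exact hQf Y)
      (fun T hT T' hT' hne => by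
        obtain ⟨Y, rfl⟩ := hmem T hT
        obtain ⟨Y', rfl⟩ := hmem T' hT'
        have hQD : Q ≤ f Y ⊓ f Y' := le_inf (hQf Y) (hQf Y')
        rcases eq_or_eq_of_index_prime hQD inf_le_left (by rw [hfc Y, hcq]) with h | h
        · rw [h]
        · exfalso
          apply hne
          have hle : f Y ≤ f Y' := by
            rw [← h]
            exact inf_le_right
          exact Subgroup.eq_of_le_of_card_ge hle (by rw [hfc Y, hfc Y']))
      X (hsfX Q (R.isPGroup'.to_le hQR)) (fun T hT => by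
        obtain ⟨Y, rfl⟩ := hmem T hT
        exact hsfX _ (hfp Y))
    rw [hcard, hcq] at h1
    have hqpos : 0 < q := Nat.card_pos
    have hp2 : 2 ≤ p := hpp.two_le
    refine le_trans ?_ h1
    rw [hcq]
    obtain ⟨r, rfl⟩ : ∃ r, p = r + 1 := ⟨p - 1, by omega⟩
    have h5 : (r + 1) * q - q = r * q := by
      rw [add_mul, one_mul]; omega
    rw [h5]
    nlinarith


end Cfsg.Agent.S4092
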