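import Cfsg.Statements.S4093
import Cfsg.Agent.Lib.FGS.Syl
import Cfsg.Agent.Lib.H9.Count

set_option autoImplicit false
open scoped BigOperators
open Cfsg

namespace Cfsg.Agent.S4093

/-- Let G be a finite group with a normal subgroup N complementing a Sylow p-subgroup P (a normal p-complement). Then the number of elements of G of p-power order equals the sum over x ∈ P of the index of C_N(x) in N. -/
theorem result {G : Type*} [Group G] [Finite G] (p : ℕ) [Fact p.Prime]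
    (P : Sylow p G) (N : Subgroup G) [N.Normal] (hNP : N.IsComplement' (P : Subgroup G)) :
    Nat.card {g : G // ∃ k : ℕ, orderOf g = p ^ k} =
      ∑ᶠ x : (P : Subgroup G), Nat.card N / Nat.card ↥(N ⊓ Subgroup.centralizer ({(x : G)} : Set G)) := by
  classical
  haveI := Fintype.ofFinite (P : Subgroup G)
  have hp : p.Prime := Fact.out
  rw [finsum_eq_sum_of_fintype]
  have hNcop : (Nat.card N).Coprime p := by
    have h1 := hNP.index_eq_card
    rw [← h1]
    exact ((Nat.Prime.coprime_iff_not_dvd hp).mpr P.not_dvd_index).symm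
  have hex : ∀ g : G, ∃! x : (P : Subgroup G), (x : G)⁻¹ * g ∈ N := by
    intro g
    obtain ⟨⟨x, n⟩, hxn, huniq⟩ := hNP.symm.existsUnique g
    have hxn' : (x : G) * (n : G) = g := hxn
    refine ⟨x, ?_, ?_⟩
    · have : (x : G)⁻¹ * g = n := by rw [← hxn']; group
      show (x : G)⁻¹ * g ∈ N
      rw [this]
      exact n.2
    · intro y hy
      have h1 := huniq (y, ⟨(y : G)⁻¹ * g, hy⟩) (by
        show (y : G) * ((y : G)⁻¹ * g) = g
        group)
      exact congrArg Prod.fst h1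
  let ρ : G → (P : Subgroup G) := fun g => (hex g).choose
  have hρ : ∀ g, ((ρ g : (P : Subgroup G)) : G)⁻¹ * g ∈ N := fun g => (hex g).choose_spec.1
  have hρu : ∀ (g : G) (x : (P : Subgroup G)), (x : G)⁻¹ * g ∈ N → x = ρ g :=
    fun g x h => (hex g).choose_spec.2 x h
  let α := {g : G // ∃ k : ℕ, orderOf g = p ^ k}
  have hcard : Nat.card α = ∑ x : (P : Subgroup G), Nat.card {a : α // ρ a.1 = x} := by
    rw [← Nat.card_congr (Equiv.sigmaFiberEquiv (fun a : α => ρ a.1)), Nat.card_sigma]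
  rw [hcard]
  apply Finset.sum_congr rfl
  intro x _
  -- p-elements of `N` are trivial
  have hNp : ∀ u ∈ N, (∃ k : ℕ, orderOf u = p ^ k) → u = 1 := by
    rintro u hu ⟨k, hk⟩
    have h1 : orderOf u ∣ Nat.card N := by
      have := orderOf_dvd_natCard (⟨u, hu⟩ : N)
      rwa [Subgroup.orderOf_mk] at this
    have h2 : Nat.Coprime (orderOf u) (Nat.card N) := by
      rw [hk]
      exact (Nat.Coprime.pow_right _ hNcop).symm
    exact orderOf_eq_one_iff.mp (Nat.Coprime.eq_one_of_dvd h2 h1)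
  have hpow : ∀ (u : G) (j : ℕ), (∃ k : ℕ, orderOf u = p ^ k) → ∃ k : ℕ, orderOf (u ^ j) = p ^ k := by
    rintro u j ⟨k, hk⟩
    have h0 : orderOf (u ^ j) ∣ p ^ k := by
      rw [← hk]
      exact orderOf_pow_dvd j
    obtain ⟨i, _, hi⟩ := (Nat.dvd_prime_pow hp).mp h0
    exact ⟨i, hi⟩
  have hordmk : ∀ u : G, (∃ k : ℕ, orderOf u = p ^ k) → orderOf (u : G ⧸ N) = orderOf u := by
    intro u hu
    apply Nat.dvd_antisymm
    · apply orderOf_dvd_of_pow_eq_one
      rw [← QuotientGroup.mk_pow, pow_orderOf_eq_one, QuotientGroup.mk_one]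
    · apply orderOf_dvd_of_pow_eq_one
      apply hNp _ _ (hpow u _ hu)
      rw [← QuotientGroup.eq_one_iff, QuotientGroup.mk_pow, pow_orderOf_eq_one]
  have hxpelt : ∃ k : ℕ, orderOf (x : G) = p ^ k := by
    obtain ⟨k, hk⟩ := IsPGroup.iff_orderOf.mp P.isPGroup' x
    exact ⟨k, by rw [Subgroup.orderOf_coe]; exact hk⟩
  have hconj_pelt : ∀ n : N, ∃ k : ℕ, orderOf ((n : G) * x * (n : G)⁻¹) = p ^ k := by
    intro n
    obtain ⟨k, hk⟩ := hxpelt
    refine ⟨k, ?_⟩
    rw [← hk]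
    exact (MulAut.conj (n : G)).orderOf_eq (x : G)
  have hρconj : ∀ n : N, ρ ((n : G) * x * (n : G)⁻¹) = x := by
    intro n
    symm
    apply hρu
    have h1 : (x : G)⁻¹ * ((n : G) * x * (n : G)⁻¹) = ((x : G)⁻¹ * (n : G) * x) * (n : G)⁻¹ := by
      group
    rw [h1]
    refine N.mul_mem ?_ (N.inv_mem n.2)
    have := ‹N.Normal›.conj_mem n n.2 (x : G)⁻¹
    simpa using this
  let θ : N → {a : α // ρ a.1 = x} := fun n => ⟨⟨(n : G) * x * (n : G)⁻¹, hconj_pelt n⟩, hρconj n⟩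
  have hθsurj : Function.Surjective θ := by
    rintro ⟨⟨g, hg⟩, hgρ⟩
    have hgx : (x : G)⁻¹ * g ∈ N := by
      have := hρ g
      have hgρ' : ρ g = x := hgρ
      rwa [hgρ'] at this
    have hmk : (x : G ⧸ N) = (g : G ⧸ N) := QuotientGroup.eq.mpr hgx
    have hord : orderOf g = orderOf (x : G) := by
      rw [← hordmk g hg, ← hordmk _ hxpelt, hmk]
    have hxp : IsPGroup p (Subgroup.zpowers (x : G)) := by
      obtain ⟨k, hk⟩ := hxpelt
      rw [IsPGroup.iff_card, Nat.card_zpowers]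
      exact ⟨k, hk⟩
    have hgp : IsPGroup p (Subgroup.zpowers g) := by
      obtain ⟨k, hk⟩ := hg
      rw [IsPGroup.iff_card, Nat.card_zpowers]
      exact ⟨k, hk⟩
    have hle : Subgroup.zpowers g ≤ Subgroup.zpowers (x : G) ⊔ N := by
      rw [Subgroup.zpowers_le]
      have h1 : g = (x : G) * ((x : G)⁻¹ * g) := by group
      rw [h1]
      exact Subgroup.mul_mem _ ((le_sup_left : Subgroup.zpowers (x : G) ≤ _) (Subgroup.mem_zpowers _))
        ((le_sup_right : N ≤ _) hgx)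
    obtain ⟨n, hn, hnc⟩ := CfsgLib.FGS.exists_conj_of_coprime_normal hNcop hxp hgp
      (by rw [Nat.card_zpowers, Nat.card_zpowers, hord]) hle
    have h2 := hnc (x : G) (Subgroup.mem_zpowers _)
    obtain ⟨i, hi⟩ := Submonoid.mem_powers_iff _ _ |>.mp (mem_powers_iff_mem_zpowers.mpr h2)
    have h3 : (g : G ⧸ N) ^ i = (g : G ⧸ N) ^ 1 := by
      rw [← QuotientGroup.mk_pow, hi, pow_one, ← hmk]
      apply QuotientGroup.eq.mpr
      have h4 : ((n : G) * x * (n : G)⁻¹)⁻¹ * (x : G) = (n : G) * (x : G)⁻¹ * (n : G)⁻¹ * (x : G) := by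
        group
      rw [h4]
      have h5 : (n : G) * (x : G)⁻¹ * (n : G)⁻¹ * (x : G) =
          (n : G) * ((x : G)⁻¹ * (n : G)⁻¹ * (x : G)) := by group
      rw [h5]
      refine N.mul_mem hn ?_
      have := ‹N.Normal›.conj_mem _ (N.inv_mem hn) (x : G)⁻¹
      simpa using this
    have h6 := pow_eq_pow_iff_modEq.mp h3
    rw [hordmk g hg] at h6
    have h7 : g ^ i = g ^ 1 := pow_eq_pow_iff_modEq.mpr h6
    rw [pow_one, hi] at h7
    refine ⟨⟨n, hn⟩, ?_⟩
    apply Subtype.ext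
    apply Subtype.ext
    exact h7
  have hfib : ∀ y : {a : α // ρ a.1 = x}, Nat.card {n : N // θ n = y} =
      Nat.card ↥(N ⊓ Subgroup.centralizer ({(x : G)} : Set G)) := by
    intro y
    obtain ⟨n₀, rfl⟩ := hθsurj y
    refine Nat.card_congr ⟨fun n => ⟨(n₀ : G)⁻¹ * n.1, ?_, ?_⟩, fun c => ⟨⟨(n₀ : G) * c, ?_⟩, ?_⟩, ?_, ?_⟩
    · exact N.mul_mem (N.inv_mem n₀.2) n.1.2
    · have h1 : (n.1 : G) * x * (n.1 : G)⁻¹ = (n₀ : G) * x * (n₀ : G)⁻¹ :=
        congrArg (fun z : {a : α // ρ a.1 = x} => z.1.1) n.2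
      rw [mul_inv_eq_iff_eq_mul] at h1
      show (n₀ : G)⁻¹ * (n.1 : G) ∈ Subgroup.centralizer ({(x : G)} : Set G)
      rw [Subgroup.mem_centralizer_singleton_iff]
      calc (n₀ : G)⁻¹ * (n.1 : G) * x = (n₀ : G)⁻¹ * ((n.1 : G) * x) := by group
        _ = (n₀ : G)⁻¹ * ((n₀ : G) * x * (n₀ : G)⁻¹ * (n.1 : G)) := by rw [h1]
        _ = x * ((n₀ : G)⁻¹ * (n.1 : G)) := by group
    · exact N.mul_mem n₀.2 c.2.1
    · apply Subtype.ext
      apply Subtype.ext
      have h1 : (c : G) * x = x * (c : G) := by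
        have h0 : (c : G) ∈ Subgroup.centralizer ({(x : G)} : Set G) := c.2.2
        rwa [Subgroup.mem_centralizer_singleton_iff] at h0
      show ((n₀ : G) * c) * x * ((n₀ : G) * c)⁻¹ = (n₀ : G) * x * (n₀ : G)⁻¹
      calc ((n₀ : G) * c) * x * ((n₀ : G) * c)⁻¹ = (n₀ : G) * ((c : G) * x) * (c : G)⁻¹ * (n₀ : G)⁻¹ := by
            group
        _ = (n₀ : G) * (x * (c : G)) * (c : G)⁻¹ * (n₀ : G)⁻¹ := by rw [h1]
        _ = (n₀ : G) * x * (n₀ : G)⁻¹ := by group
    · intro n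
      apply Subtype.ext
      apply Subtype.ext
      show (n₀ : G) * ((n₀ : G)⁻¹ * n.1) = n.1
      group
    · intro c
      apply Subtype.ext
      show (n₀ : G)⁻¹ * ((n₀ : G) * c) = c
      group
  have hfinal := CfsgLib.H9.natCard_eq_of_fibers θ _ hfib
  rw [hfinal, Nat.mul_div_cancel _ Nat.card_pos]

end Cfsg.Agent.S4093
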