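import Cfsg.Statements.S4107
import Cfsg.Agent.Lib.FGS.Cover
import Cfsg.Agent.Lib.Trans.Ito
import Cfsg.Agent.Lib.Solv.Core

set_option autoImplicit false
open Cfsg
open scoped commutatorElement
open scoped Pointwise

namespace Cfsg.Agent.S4107

open CfsgLib.Solv in
theorem h8_key {G : Type*} [Group G] [Finite G] (N : Subgroup G) [hNn : N.Normal] (hN1 : N ≠ ⊥)
    (heq : ∀ x : G, x ∉ N → ∀ n ∈ N, orderOf (x * n) = orderOf x)
    (x : G) (hxF : x ∈ Cfsg.fittingSubgroup G) (hxN : x ∉ N) :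
    ∃ r : ℕ, r.Prime ∧ IsPGroup r (Cfsg.fittingSubgroup G) ∧ N ≤ Cfsg.fittingSubgroup G := by
  classical
  obtain ⟨F, hF⟩ : ∃ F : Subgroup G, F = Cfsg.fittingSubgroup G := ⟨_, rfl⟩
  rw [← hF] at hxF ⊢
  haveI hFn : F.Normal := by rw [hF]; exact CfsgLib.Solv.fittingSubgroup_normal'
  have hFnil : Group.IsNilpotent F := by rw [hF]; exact CfsgLib.Solv.fitting_nilpotent
  have hcomm : ∀ a b : G, a ∈ F → b ∈ F → (orderOf a).Coprime (orderOf b) → a * b = b * a :=
    fun a b ha hb h => CfsgLib.Trans.subgroup_commute_of_coprime hFnil ha hb h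
  have hcoreF : ∀ (p : ℕ) (hp : p.Prime), Cfsg.pCore p G ≤ F := by
    intro p hp
    rw [hF, CfsgLib.Solv.fitting_eq_iSup_pCore]
    exact le_iSup (fun p : Nat.Primes => Cfsg.pCore (p : ℕ) G) ⟨p, hp⟩
  have hbar : (QuotientGroup.mk x : G ⧸ N) ≠ 1 := by
    rwa [Ne, QuotientGroup.eq_one_iff]
  have h1 : orderOf (QuotientGroup.mk x : G ⧸ N) ≠ 1 := by
    rwa [Ne, orderOf_eq_one_iff]
  obtain ⟨r, hr, hrd⟩ := Nat.exists_prime_and_dvd h1
  haveI : Fact r.Prime := ⟨hr⟩
  have hn : orderOf x ≠ 0 := (orderOf_pos x).ne'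
  obtain ⟨a, m, hm, hnm⟩ := Nat.exists_eq_pow_mul_and_not_dvd hn r hr.ne_one
  obtain ⟨y, hy⟩ : ∃ y : G, y = x ^ m := ⟨_, rfl⟩
  have hyF : y ∈ F := by rw [hy]; exact F.pow_mem hxF m
  have hyN : y ∉ N := by
    intro h
    apply hm
    have h2 : (QuotientGroup.mk x : G ⧸ N) ^ m = 1 := by
      rw [← QuotientGroup.mk_pow, QuotientGroup.eq_one_iff, ← hy]
      exact h
    exact hrd.trans (orderOf_dvd_of_pow_eq_one h2)
  have hyo : y ^ r ^ a = 1 := by
    rw [hy, ← pow_mul, mul_comm, ← hnm, pow_orderOf_eq_one]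
  obtain ⟨b, -, hyb⟩ := (Nat.dvd_prime_pow hr).1 (orderOf_dvd_of_pow_eq_one hyo)
  have hsbot : ∀ s : ℕ, s.Prime → s ≠ r → Cfsg.pCore s G = ⊥ := by
    intro s hs hsr
    haveI : Fact s.Prime := ⟨hs⟩
    obtain ⟨S, hS⟩ : ∃ S : Subgroup G, S = Cfsg.pCore s G := ⟨_, rfl⟩
    rw [← hS]
    haveI hSn : S.Normal := by rw [hS]; exact CfsgLib.Solv.pCore_normal' s
    have hSp : IsPGroup s S := by rw [hS]; exact CfsgLib.Solv.pCore_isPGroup s
    have hSF : S ≤ F := by rw [hS]; exact hcoreF s hs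
    have hord : ∀ v ∈ S, ∃ k, orderOf v = s ^ k := by
      intro v hv
      obtain ⟨k, hk⟩ := (IsPGroup.iff_orderOf).1 hSp ⟨v, hv⟩
      exact ⟨k, by rw [← hk, Subgroup.orderOf_mk]⟩
    have hSN : ∀ v ∈ S, v ∈ N → v = 1 := by
      intro v hv hvN
      obtain ⟨k, hk⟩ := hord v hv
      have hcop : (orderOf y).Coprime (orderOf v) := by
        rw [hyb, hk]
        exact Nat.Coprime.pow _ _ ((Nat.coprime_primes hr hs).2 (Ne.symm hsr))
      have hc := hcomm y v hyF (hSF hv) hcop
      have h2 := heq y hyN v hvN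
      have h3 : (y * v) ^ orderOf y = 1 := by
        rw [← h2]
        exact pow_orderOf_eq_one _
      have hC : Commute y v := hc
      rw [hC.mul_pow, pow_orderOf_eq_one, one_mul] at h3
      have h4 : orderOf v ∣ orderOf y := orderOf_dvd_of_pow_eq_one h3
      have h5 : orderOf v = 1 := hcop.symm.eq_one_of_dvd h4
      exact orderOf_eq_one_iff.1 h5
    have hSNc : ∀ v ∈ S, ∀ n ∈ N, v * n = n * v := by
      intro v hv n hn
      have h2 : v * n * v⁻¹ * n⁻¹ ∈ S := by
        have h3 : v * n * v⁻¹ * n⁻¹ = v * (n * v⁻¹ * n⁻¹) := by group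
        rw [h3]
        exact S.mul_mem hv (hSn.conj_mem _ (S.inv_mem hv) n)
      have h4 : v * n * v⁻¹ * n⁻¹ ∈ N :=
        N.mul_mem (hNn.conj_mem _ hn v) (N.inv_mem hn)
      have h5 := hSN _ h2 h4
      have h6 : v * n * v⁻¹ = n := mul_inv_eq_one.1 h5
      exact (mul_inv_eq_iff_eq_mul.1 h6)
    rcases Subgroup.bot_or_exists_ne_one S with h0 | ⟨v, hv, hv1⟩
    · exact h0
    exfalso
    have hvN : v ∉ N := fun h => hv1 (hSN v hv h)
    have hNs : IsPGroup s N := by
      rw [IsPGroup.iff_orderOf]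
      rintro ⟨n, hn⟩
      obtain ⟨k, hk⟩ := hord v hv
      have h2 := heq v hvN n hn
      have h3 : (v * n) ^ orderOf v = 1 := by
        rw [← h2]
        exact pow_orderOf_eq_one _
      have hC : Commute v n := hSNc v hv n hn
      rw [hC.mul_pow, pow_orderOf_eq_one, one_mul] at h3
      have h4 : orderOf n ∣ s ^ k := by
        rw [← hk]; exact orderOf_dvd_of_pow_eq_one h3
      obtain ⟨t, -, ht⟩ := (Nat.dvd_prime_pow hs).1 h4
      exact ⟨t, by rw [Subgroup.orderOf_mk]; exact ht⟩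
    have hNS : N ≤ S := by
      rw [hS]; exact CfsgLib.Solv.le_pCore' N hNs
    apply hN1
    rw [eq_bot_iff]
    intro n hn
    exact hSN n (hNS hn) hn
  have hFle : F ≤ Cfsg.pCore r G := by
    rw [hF, CfsgLib.Solv.fitting_eq_iSup_pCore]
    refine iSup_le (fun p => ?_)
    by_cases hpr : (p : ℕ) = r
    · rw [hpr]
    · rw [hsbot p p.2 hpr]; exact bot_le
  have hFr : IsPGroup r F := (CfsgLib.Solv.pCore_isPGroup r).to_le hFle
  refine ⟨r, hr, hFr, ?_⟩
  have hNr : IsPGroup r N := by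
    refine IsPGroup.of_card (Nat.eq_prime_pow_of_unique_prime_dvd Nat.card_pos.ne' (fun {q} hq hqd => ?_))
    by_contra hqr
    haveI : Fact q.Prime := ⟨hq⟩
    obtain ⟨u', hu'⟩ := exists_prime_orderOf_dvd_card' q hqd
    obtain ⟨u, hu⟩ : ∃ u : G, u = (u' : G) := ⟨_, rfl⟩
    have huN : u ∈ N := hu ▸ u'.2
    have huo : orderOf u = q := by
      rw [hu, ← Subgroup.orderOf_coe] at *
      exact hu'
    have hFord : ∀ c ∈ F, ∃ k, orderOf c = r ^ k := by
      intro c hc
      obtain ⟨k, hk⟩ := (IsPGroup.iff_orderOf).1 hFr ⟨c, hc⟩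
      exact ⟨k, by rw [← hk, Subgroup.orderOf_mk]⟩
    -- the coset of `y` modulo `F ∩ N`
    let X := {z : G // ∃ m ∈ F ⊓ N, z = y * m}
    haveI : Fintype X := Fintype.ofFinite X
    have hXcard : Fintype.card X = Nat.card ↥(F ⊓ N) := by
      rw [← Nat.card_eq_fintype_card]
      apply Nat.card_congr
      exact
        { toFun := fun z => ⟨y⁻¹ * z.1, by
            obtain ⟨m, hm, hz⟩ := z.2
            rw [hz]; simpa using hm⟩
          invFun := fun m => ⟨y * m.1, m.1, m.2, rfl⟩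
          left_inv := fun z => by
            apply Subtype.ext
            simp
          right_inv := fun m => by
            apply Subtype.ext
            simp }
    have hstable : ∀ z : X, u * z.1 * u⁻¹ ∈ {z : G | ∃ m ∈ F ⊓ N, z = y * m} := by
      rintro ⟨z, m', hm', rfl⟩
      refine ⟨y⁻¹ * (u * (y * m') * u⁻¹), ⟨?_, ?_⟩, by group⟩
      · refine F.mul_mem (F.inv_mem hyF) (hFn.conj_mem _ (F.mul_mem hyF hm'.1) u)
      · have h3 : y⁻¹ * (u * (y * m') * u⁻¹) = (y⁻¹ * u * y) * (m' * u⁻¹) := by group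
        rw [h3]
        refine N.mul_mem ?_ (N.mul_mem hm'.2 (N.inv_mem huN))
        have := hNn.conj_mem u huN y⁻¹
        simpa using this
    let f : Function.End X := fun z => ⟨u * z.1 * u⁻¹, hstable z⟩
    have hfpow : ∀ (n : ℕ) (z : X), ((f ^ n) z).1 = u ^ n * z.1 * (u ^ n)⁻¹ := by
      intro n
      induction n with
      | zero => intro z; simp; rfl
      | succ n ih =>
        intro z
        rw [pow_succ, Function.End.mul_def]
        show ((f ^ n) (f z)).1 = _
        rw [ih]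
        show u ^ n * (u * z.1 * u⁻¹) * (u ^ n)⁻¹ = _
        rw [pow_succ]
        group
    have hf : f ^ q ^ 1 = 1 := by
      funext z
      apply Subtype.ext
      rw [hfpow, pow_one, ← huo, pow_orderOf_eq_one]
      simp
      rfl
    have hmod := Equiv.Perm.card_fixedPoints_modEq hf
    have hne : (Function.fixedPoints f).Nonempty := by
      by_contra hemp
      rw [Set.not_nonempty_iff_eq_empty] at hemp
      have h0 : Fintype.card (Function.fixedPoints f) = 0 := by
        rw [Fintype.card_eq_zero_iff]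
        rw [hemp]
        exact ⟨fun z => z.2⟩
      rw [h0, hXcard] at hmod
      have h2 : q ∣ Nat.card ↥(F ⊓ N) := (Nat.modEq_zero_iff_dvd).1 hmod
      have h3 : IsPGroup r ↥(F ⊓ N) := hFr.to_le inf_le_left
      obtain ⟨k, hk⟩ := (IsPGroup.iff_card).1 h3
      rw [hk] at h2
      exact hqr ((Nat.prime_dvd_prime_iff_eq hq hr).1 (hq.dvd_of_dvd_pow h2))
    obtain ⟨⟨c, m', hm', hc⟩, hfix⟩ := hne
    have hfix' : u * c * u⁻¹ = c := congrArg Subtype.val hfix
    have hcF : c ∈ F := by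
      rw [hc]; exact F.mul_mem hyF hm'.1
    have hcN : c ∉ N := by
      intro h
      apply hyN
      have : y = c * m'⁻¹ := by rw [hc]; group
      rw [this]
      exact N.mul_mem h (N.inv_mem hm'.2)
    have h2 := heq c hcN u huN
    have h3 : (c * u) ^ orderOf c = 1 := by
      rw [← h2]
      exact pow_orderOf_eq_one _
    have hC : Commute c u := by
      have : u * c = c * u := by
        calc u * c = (u * c * u⁻¹) * u := by group
          _ = c * u := by rw [hfix']
      exact this.symm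
    rw [hC.mul_pow, pow_orderOf_eq_one, one_mul] at h3
    have h4 : q ∣ orderOf c := by
      rw [← huo]; exact orderOf_dvd_of_pow_eq_one h3
    obtain ⟨k, hk⟩ := hFord c hcF
    rw [hk] at h4
    exact hqr ((Nat.prime_dvd_prime_iff_eq hq hr).1 (hq.dvd_of_dvd_pow h4))
  exact (CfsgLib.Solv.le_pCore' N hNr).trans (hcoreF r hr)

/-- Let G be a finite group and N a proper non-trivial normal subgroup such that for every x outside N all elements of the coset xN have the same order as x. Then N ≤ F(G) or F(G) ≤ N, where F(G) is the Fitting subgroup; and if N is properly contained in F(G) then F(G) has prime-power order. -/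
theorem result {G : Type*} [Group G] [Finite G] (N : Subgroup G) [N.Normal] (hN1 : N ≠ ⊥) (hN2 : N ≠ ⊤)
    (heq : ∀ x : G, x ∉ N → ∀ n ∈ N, orderOf (x * n) = orderOf x) :
    (N ≤ Cfsg.fittingSubgroup G ∨ Cfsg.fittingSubgroup G ≤ N) ∧
    (N < Cfsg.fittingSubgroup G → IsPrimePow (Nat.card (Cfsg.fittingSubgroup G))) := by
  classical
  constructor
  · by_cases hFN : Cfsg.fittingSubgroup G ≤ N
    · exact Or.inr hFN
    · obtain ⟨x, hx, hxN⟩ := SetLike.not_le_iff_exists.1 hFN
      obtain ⟨r, hr, -, h⟩ := h8_key N hN1 heq x hx hxN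
      exact Or.inl h
  · intro hlt
    have hFN : ¬ Cfsg.fittingSubgroup G ≤ N := fun h => hlt.2 h
    obtain ⟨x, hx, hxN⟩ := SetLike.not_le_iff_exists.1 hFN
    obtain ⟨r, hr, hF, -⟩ := h8_key N hN1 heq x hx hxN
    haveI : Fact r.Prime := ⟨hr⟩
    obtain ⟨k, hk⟩ := (IsPGroup.iff_card).1 hF
    rw [hk]
    refine (isPrimePow_nat_iff _).2 ⟨r, k, hr, ?_, rfl⟩
    rcases Nat.eq_zero_or_pos k with h0 | h0
    · exfalso
      rw [h0, pow_zero] at hk
      have h1 : Cfsg.fittingSubgroup G = ⊥ := (Subgroup.card_eq_one).1 hk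
      apply hFN
      rw [h1]; exact bot_le
    · exact h0

end Cfsg.Agent.S4107
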