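import Cfsg.Statements.S4108
import Cfsg.Agent.Lib.FGS.FrobEq

set_option autoImplicit false
open Cfsg

namespace Cfsg.Agent.S4108

/-- Let G be a finite group, p a prime and N a proper non-trivial normal p-subgroup such that for every x outside N all elements of the coset xN have the same order as x. Then every non-trivial subgroup H of G of order prime to p acts fixed-point-freely on N: NH is a Frobenius group with complement H and kernel N. -/
theorem result {G : Type*} [Group G] [Finite G] (N : Subgroup G) [N.Normal] (hN1 : N ≠ ⊥) (hN2 : N ≠ ⊤)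
    (heq : ∀ x : G, x ∉ N → ∀ n ∈ N, orderOf (x * n) = orderOf x)
    (p : ℕ) [Fact p.Prime] (hNp : IsPGroup p N) :
    ∀ H : Subgroup G, H ≠ ⊥ → (Nat.card H).Coprime p →
      Cfsg.IsFrobeniusComplement (H.subgroupOf (N ⊔ H)) ∧ Cfsg.frobeniusKernel (H.subgroupOf (N ⊔ H)) = (N.subgroupOf (N ⊔ H) : Set ↥(N ⊔ H)) := by
  intro H hH hcop
  classical
  have hpp : p.Prime := Fact.out
  have hdis : N ⊓ H = ⊥ := by
    rw [eq_bot_iff]
    intro x hx
    obtain ⟨hx1, hx2⟩ := Subgroup.mem_inf.mp hx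
    have h1 : orderOf x ∣ Nat.card H := Subgroup.orderOf_dvd_natCard H hx2
    obtain ⟨k, hk⟩ := (IsPGroup.iff_orderOf.mp hNp) ⟨x, hx1⟩
    rw [Subgroup.orderOf_mk] at hk
    rw [hk] at h1
    have h2 : Nat.Coprime (p ^ k) (Nat.card H) := (hcop.symm.pow_left k)
    have h3 : p ^ k = 1 := Nat.Coprime.eq_one_of_dvd h2 h1
    rw [h3] at hk
    exact Subgroup.mem_bot.mpr (orderOf_eq_one_iff.mp hk)
  apply CfsgLib.FGS.frob_subgroupOf N H hN1 hH hdis
  intro h hh hh1 n hn hcomm
  have hhN : h ∉ N := fun hN' => hh1 (by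
    have : h ∈ N ⊓ H := Subgroup.mem_inf.mpr ⟨hN', hh⟩
    rw [hdis] at this
    exact Subgroup.mem_bot.mp this)
  have h1 := heq h hhN n hn
  have hc : Commute h n := hcomm.symm
  obtain ⟨k, hk⟩ := (IsPGroup.iff_orderOf.mp hNp) ⟨n, hn⟩
  rw [Subgroup.orderOf_mk] at hk
  have hcoph : Nat.Coprime (orderOf h) (orderOf n) := by
    rw [hk]
    exact Nat.Coprime.pow_right k (Nat.Coprime.coprime_dvd_left (Subgroup.orderOf_dvd_natCard H hh) hcop)
  rw [hc.orderOf_mul_eq_mul_orderOf_of_coprime hcoph] at h1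
  have h2 : orderOf n = 1 := by
    have hpos : 0 < orderOf h := by
      exact orderOf_pos h
    exact Nat.eq_of_mul_eq_mul_left hpos (by rw [h1, mul_one])
  exact orderOf_eq_one_iff.mp h2

end Cfsg.Agent.S4108
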