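import Cfsg.Statements.S4112
import Cfsg.Agent.Lib.FGS.Cyc
import Cfsg.Agent.Lib.FGS.MinSupp

set_option autoImplicit false
open Cfsg

namespace Cfsg.Agent.S4112

/-- Let G be a finite group and M ≤ N non-trivial proper normal subgroups such that for every g outside N the conjugacy class of g is a union of cosets of M (equivalently gm is conjugate to g for every m ∈ M). Then (1) and (2) below are equivalent, and they imply (3): (1) every g outside N acts fixed-point-freely on M, that is C_G(x) ≤ N for every x ∈ M, x ≠ 1; (2) the index of N in G is coprime to the order of M; (3) there is a subgroup H of G with HN = G and H ∩ M = 1. -/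
theorem result {G : Type*} [Group G] [Finite G] (N M : Subgroup G) [N.Normal] [M.Normal] (hMN : M ≤ N) (hM1 : M ≠ ⊥) (hN2 : N ≠ ⊤)
    (hcam : ∀ g : G, g ∉ N → ∀ m ∈ M, ∃ x : G, x * g * x⁻¹ = g * m) :
    ((∀ x ∈ M, x ≠ 1 → Subgroup.centralizer ({x} : Set G) ≤ N) ↔ N.index.Coprime (Nat.card M)) ∧
    ((∀ x ∈ M, x ≠ 1 → Subgroup.centralizer ({x} : Set G) ≤ N) → ∃ H : Subgroup G, H ⊔ N = ⊤ ∧ H ⊓ M = ⊥) := by
  classical
  have h12 : (∀ x ∈ M, x ≠ 1 → Subgroup.centralizer ({x} : Set G) ≤ N) → N.index.Coprime (Nat.card M) := by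
    intro hfpf
    by_contra hnc
    obtain ⟨p, hp, hp1, hp2⟩ := Nat.Prime.not_coprime_iff_dvd.mp hnc
    haveI := Fact.mk hp
    obtain ⟨y₀, hy₀⟩ := exists_prime_orderOf_dvd_card' (G := M) p hp2
    have hyo : orderOf (y₀ : G) = p := by rwa [Subgroup.orderOf_coe]
    have hpg : IsPGroup p (Subgroup.zpowers (y₀ : G)) := by
      apply IsPGroup.of_card (n := 1)
      rw [Nat.card_zpowers, hyo, pow_one]
    obtain ⟨P, hP⟩ := hpg.exists_le_sylow
    have hyP : (y₀ : G) ∈ (P : Subgroup G) := hP (Subgroup.mem_zpowers _)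
    haveI : Group.IsNilpotent (P : Subgroup G) := P.isPGroup'.isNilpotent
    have hA : M.subgroupOf (P : Subgroup G) ≠ ⊥ := by
      intro h
      have h1 : (⟨y₀, hyP⟩ : (P : Subgroup G)) ∈ M.subgroupOf (P : Subgroup G) := y₀.2
      rw [h] at h1
      have h2 : (y₀ : G) = 1 := congrArg Subtype.val (Subgroup.mem_bot.mp h1)
      rw [h2, orderOf_one] at hyo
      exact hp.one_lt.ne hyo
    haveI hAn : (M.subgroupOf (P : Subgroup G)).Normal := Subgroup.normal_subgroupOf
    have hne := CfsgLib.Solv.normal_inf_center_ne_bot _ hA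
    obtain ⟨w, hw, hw1⟩ : ∃ w ∈ M.subgroupOf (P : Subgroup G) ⊓ Subgroup.center (P : Subgroup G), w ≠ 1 := by
      by_contra hcon
      apply hne
      rw [eq_bot_iff]
      intro v hv
      by_contra hv1
      exact hcon ⟨v, hv, hv1⟩
    obtain ⟨hw2, hw3⟩ := Subgroup.mem_inf.mp hw
    have hxM : (w : G) ∈ M := hw2
    have hx1 : (w : G) ≠ 1 := fun h => hw1 (Subtype.ext h)
    have hPC : (P : Subgroup G) ≤ Subgroup.centralizer ({(w : G)} : Set G) := by
      intro z hz
      rw [Subgroup.mem_centralizer_singleton_iff]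
      have := Subgroup.mem_center_iff.mp hw3 ⟨z, hz⟩
      exact (congrArg Subtype.val this)
    have hPN := hPC.trans (hfpf _ hxM hx1)
    exact P.not_dvd_index (hp1.trans (Subgroup.index_dvd_of_le hPN))
  have h21 : N.index.Coprime (Nat.card M) → (∀ x ∈ M, x ≠ 1 → Subgroup.centralizer ({x} : Set G) ≤ N) := by
    intro hcop x hx hx1 g hg
    by_contra hgN
    rw [Subgroup.mem_centralizer_singleton_iff] at hg
    set π : G →* G ⧸ N := QuotientGroup.mk' N with hπ
    have hmem : ∀ z, π z = 1 ↔ z ∈ N := fun z => by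
      rw [← MonoidHom.mem_ker, hπ, QuotientGroup.ker_mk']
    have h1 : orderOf (π g) ≠ 1 := by
      intro h
      exact hgN ((hmem g).mp (orderOf_eq_one_iff.mp h))
    obtain ⟨r, hr, hrd⟩ := Nat.exists_prime_and_dvd h1
    have hrN : r ∣ N.index := hrd.trans (by
      have := orderOf_dvd_natCard (π g)
      rwa [← Subgroup.index_eq_card] at this)
    have hrM : ¬ r ∣ Nat.card M := by
      intro h
      have := Nat.dvd_gcd hrN h
      rw [hcop] at this
      exact hr.one_lt.ne' (Nat.dvd_one.mp this)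
    haveI := Fact.mk hr
    obtain ⟨s, t, hs, ht, hgst, hcomm, ⟨k, hk⟩, htc⟩ := CfsgLib.FGS.exists_primary_decomp r hr g
    have hsN : s ∉ N := by
      intro hsN
      have h2 : π g = π t := by
        rw [hgst, map_mul, (hmem s).mpr hsN, one_mul]
      rw [h2] at hrd
      have h3 : r ∣ orderOf t := hrd.trans (orderOf_map_dvd π t)
      have h4 := Nat.dvd_gcd h3 (dvd_refl r)
      rw [htc] at h4
      exact hr.one_lt.ne' (Nat.dvd_one.mp h4)
    have hsx : s * x = x * s := by
      obtain ⟨i, rfl⟩ := hs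
      have : Commute g x := hg
      exact (this.zpow_left i)
    obtain ⟨u, hu⟩ := hcam s hsN x hx
    have h5 : orderOf (s * x) = orderOf s := by
      rw [← hu]
      exact (MulAut.conj u).orderOf_eq s
    have hcop2 : Nat.Coprime (orderOf s) (orderOf x) := by
      rw [hk]
      apply Nat.Coprime.pow_left
      apply (Nat.Prime.coprime_iff_not_dvd hr).mpr
      intro hrx
      exact hrM (hrx.trans (Subgroup.orderOf_dvd_natCard M hx))
    rw [(show Commute s x from hsx).orderOf_mul_eq_mul_orderOf_of_coprime hcop2] at h5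
    have h6 : orderOf x = 1 := by
      apply Nat.eq_of_mul_eq_mul_left (orderOf_pos s)
      rw [h5, mul_one]
    exact hx1 (orderOf_eq_one_iff.mp h6)
  refine ⟨⟨h12, h21⟩, fun hfpf => ?_⟩
  have hcop := h12 hfpf
  obtain ⟨H, hH, hprimes⟩ := CfsgLib.FGS.exists_supplement_primes N
  refine ⟨H, hH, ?_⟩
  rw [eq_bot_iff]
  intro x hx
  obtain ⟨hx1, hx2⟩ := Subgroup.mem_inf.mp hx
  by_contra hne
  have hne' : x ≠ 1 := fun h => hne (Subgroup.mem_bot.mpr h)
  have h1 : orderOf x ≠ 1 := fun h => hne' (orderOf_eq_one_iff.mp h)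
  obtain ⟨r, hr, hrd⟩ := Nat.exists_prime_and_dvd h1
  have h2 := hprimes r hr (hrd.trans (Subgroup.orderOf_dvd_natCard H hx1))
  have h3 := hrd.trans (Subgroup.orderOf_dvd_natCard M hx2)
  have := Nat.dvd_gcd h2 h3
  rw [hcop] at this
  exact hr.one_lt.ne' (Nat.dvd_one.mp this)

end Cfsg.Agent.S4112
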