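import Cfsg.Statements.S4115
import Cfsg.Agent.Lib.H3.TIHall2

set_option autoImplicit false
universe u
open Cfsg

namespace Cfsg.Agent.S4115

/-- Let G be a finite group and H a subgroup that meets each of its conjugates by elements outside N_G(H) trivially and whose order is coprime to its index in N_G(H). Then H has a normal complement in N_G(H) if and only if H has a normal complement in G. Moreover, if H is not normal in G and has a normal complement in N_G(H), then H is isomorphic to a Frobenius complement of some finite Frobenius group. -/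
theorem result {G : Type u} [Group G] [Finite G] (H : Subgroup G)
    (hTI : Cfsg.IsTISubset (H : Set G)) (hHall : (Nat.card H).Coprime (H.subgroupOf (Subgroup.normalizer (H : Set G))).index) :
    ((∃ K : Subgroup (Subgroup.normalizer (H : Set G)), K.Normal ∧ K.IsComplement' (H.subgroupOf (Subgroup.normalizer (H : Set G)))) ↔
      (∃ N : Subgroup G, N.Normal ∧ N.IsComplement' H)) ∧
    (¬ H.Normal → (∃ K : Subgroup (Subgroup.normalizer (H : Set G)), K.Normal ∧ K.IsComplement' (H.subgroupOf (Subgroup.normalizer (H : Set G)))) →
      ∃ (F : Type u) (_ : Group F) (_ : Finite F) (C : Subgroup F), Cfsg.IsFrobeniusComplement C ∧ Nonempty (H ≃* C)) := by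
  classical
  have h1 : (∃ K : Subgroup (Subgroup.normalizer (H : Set G)), K.Normal ∧ K.IsComplement' (H.subgroupOf (Subgroup.normalizer (H : Set G)))) →
      ∃ N : Subgroup G, N.Normal ∧ N.IsComplement' H := by
    rintro ⟨K, hKn, hK⟩
    obtain ⟨r, hr⟩ := CfsgLib.TIHall.exists_retraction H hHall K hK
    exact CfsgLib.TIHall.exists_complement H hTI hHall r hr
  refine ⟨⟨h1, ?_⟩, ?_⟩
  · rintro ⟨N, hN, hc⟩
    haveI := hN
    exact CfsgLib.TIHall.complement_in_normalizer H N hc
  · intro hnn hK
    obtain ⟨M, hM, hc⟩ := h1 hK
    haveI := hM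
    exact CfsgLib.TIHall.frob_main H hTI hHall M hc hnn

end Cfsg.Agent.S4115
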