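import Cfsg.Statements.S4116
import Cfsg.Agent.Lib.H3.ConjTools
import Cfsg.Agent.Lib.Solv.Frob
import Cfsg.Agent.Lib.Solv.SZ

set_option autoImplicit false
open Cfsg

namespace Cfsg.Agent.S4116

/-- Let G be a finite group with a subgroup H whose order is coprime to its index (a Hall subgroup) and which meets each of its conjugates by elements outside N_G(H) trivially. Then every subgroup of G whose order is divisible only by primes dividing the order of H lies in a conjugate of H. -/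
theorem result {G : Type*} [Group G] [Finite G] (H : Subgroup G)
    (hHall : (Nat.card H).Coprime H.index) (hTI : Cfsg.IsTISubset (H : Set G))
    (K : Subgroup G) (hK : ∀ q : ℕ, q.Prime → q ∣ Nat.card K → q ∣ Nat.card H) :
    ∃ g : G, K ≤ H.map (MulAut.conj g).toMonoidHom := by
  classical
  open CfsgLib.CT Pointwise in
  have hcard : ∀ g, Nat.card (H.map (MulAut.conj g).toMonoidHom) = Nat.card H := fun g =>
    Subgroup.card_map_of_injective (MulAut.conj g).injective
  have hindex : ∀ g, (H.map (MulAut.conj g).toMonoidHom).index = H.index := by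
    intro g
    have h1 := Subgroup.card_mul_index (H.map (MulAut.conj g).toMonoidHom)
    have h2 := Subgroup.card_mul_index H
    rw [hcard] at h1
    have h3 : 0 < Nat.card H := Nat.card_pos
    exact Nat.eq_of_mul_eq_mul_left h3 (h1.trans h2.symm)
  have hmapconj : ∀ a b : G, H.map (MulAut.conj (a * b)).toMonoidHom =
      (H.map (MulAut.conj b).toMonoidHom).map (MulAut.conj a).toMonoidHom := by
    intro a b
    rw [Subgroup.map_map]
    congr 1
    ext x
    simp [MulAut.conj_apply, mul_assoc]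
  -- two conjugates sharing a nontrivial element coincide
  have hTI' : ∀ a b y : G, y ≠ 1 → y ∈ H.map (MulAut.conj a).toMonoidHom → y ∈ H.map (MulAut.conj b).toMonoidHom →
      H.map (MulAut.conj a).toMonoidHom = H.map (MulAut.conj b).toMonoidHom := by
    intro a b y hy h1 h2
    rw [mem_map_conj'] at h1 h2
    have hg : b⁻¹ * a ∈ Subgroup.normalizer (H : Set G) := by
      by_contra hn
      have h3 : (b⁻¹ * a) * (a⁻¹ * y * a) * (b⁻¹ * a)⁻¹ = b⁻¹ * y * b := by group
      have h4 := hTI _ hn _ h1 (by rw [h3]; exact h2)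
      apply hy
      have h5 : y = a * (a⁻¹ * y * a) * a⁻¹ := by group
      rw [h5, h4]
      simp
    have h6 : a = b * (b⁻¹ * a) := by group
    rw [h6, hmapconj, map_conj_eq_iff.2 hg]
  -- `π`-elements normalizing a conjugate lie in it
  have hnorm : ∀ (g x : G), (∀ q : ℕ, q.Prime → q ∣ orderOf x → q ∣ Nat.card H) →
      x ∈ Subgroup.normalizer ((H.map (MulAut.conj g).toMonoidHom : Subgroup G) : Set G) →
      x ∈ H.map (MulAut.conj g).toMonoidHom := by
    intro g x hx hxn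
    set D := H.map (MulAut.conj g).toMonoidHom with hD
    haveI hDn : (D.subgroupOf (Subgroup.normalizer (D : Set G))).Normal :=
      Subgroup.normal_in_normalizer
    have h1 := Subgroup.pow_index_mem (D.subgroupOf (Subgroup.normalizer (D : Set G))) (⟨x, hxn⟩ : Subgroup.normalizer (D : Set G))
    have h2 : x ^ (D.relIndex (Subgroup.normalizer (D : Set G))) ∈ D := by
      have := Subgroup.mem_subgroupOf.1 h1
      simpa [Subgroup.relIndex] using this
    have h3 : D.relIndex (Subgroup.normalizer (D : Set G)) ∣ H.index := by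
      rw [← hindex g, ← hD, ← Subgroup.relIndex_mul_index (Subgroup.le_normalizer)]
      exact dvd_mul_right _ _
    have h4 : (D.relIndex (Subgroup.normalizer (D : Set G))).Coprime (orderOf x) := by
      apply Nat.Coprime.symm
      apply Nat.coprime_of_dvd
      intro q hq hq1 hq2
      have h5 := hx q hq hq1
      exact (Nat.Prime.not_coprime_iff_dvd.2 ⟨q, hq, h5, hq2.trans h3⟩) hHall
    obtain ⟨m, hm⟩ := exists_pow_eq_self_of_coprime h4
    rw [← hm]
    exact pow_mem h2 m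
  -- every nontrivial `π`-element lies in a conjugate
  have hmem : ∀ x : G, x ≠ 1 → (∀ q : ℕ, q.Prime → q ∣ orderOf x → q ∣ Nat.card H) →
      ∃ g, x ∈ H.map (MulAut.conj g).toMonoidHom := by
    intro x hx hxq
    have hne : orderOf x ≠ 1 := by rwa [Ne, orderOf_eq_one_iff]
    have hn0 : orderOf x ≠ 0 := (orderOf_pos x).ne'
    set q := (orderOf x).minFac with hq
    have hqp : q.Prime := Nat.minFac_prime hne
    haveI : Fact q.Prime := ⟨hqp⟩
    have hqd : q ∣ orderOf x := Nat.minFac_dvd _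
    set y := x ^ (orderOf x / q) with hy
    have hyo : orderOf y = q := orderOf_pow_orderOf_div hn0 hqd
    have hy1 : y ≠ 1 := by
      intro h
      rw [h, orderOf_one] at hyo
      exact hqp.one_lt.ne hyo
    have hp : IsPGroup q (Subgroup.zpowers y) := by
      apply IsPGroup.of_card (n := 1)
      rw [Nat.card_zpowers, hyo, pow_one]
    have hq2 : ¬ q ∣ Nat.card (G ⧸ H) := by
      intro h
      exact (Nat.Prime.not_coprime_iff_dvd.2 ⟨q, hqp, hxq q hqp hqd, h⟩) hHall
    obtain ⟨c, hc⟩ := hp.nonempty_fixed_point_of_prime_not_dvd_card (G ⧸ H) hq2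
    obtain ⟨g, rfl⟩ := QuotientGroup.mk_surjective c
    have h1 : ((y * g : G) : G ⧸ H) = (g : G ⧸ H) := hc ⟨y, Subgroup.mem_zpowers y⟩
    rw [QuotientGroup.eq] at h1
    have h2 : g⁻¹ * y * g ∈ H := by
      have h3 := H.inv_mem h1
      have h4 : ((y * g)⁻¹ * g)⁻¹ = g⁻¹ * (y * g) := by group
      rw [h4] at h3
      have h5 : g⁻¹ * (y * g) = g⁻¹ * y * g := by group
      rwa [h5] at h3
    have hyg : y ∈ H.map (MulAut.conj g).toMonoidHom := mem_map_conj'.2 h2
    have hcomm : x⁻¹ * y * x = y := by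
      rw [hy]
      have : x⁻¹ * x ^ (orderOf x / q) = x ^ (orderOf x / q) * x⁻¹ := by
        exact ((Commute.refl x).pow_right _).inv_left.eq
      rw [this]
      group
    have hyxg : y ∈ H.map (MulAut.conj (x * g)).toMonoidHom := by
      rw [mem_map_conj']
      have : (x * g)⁻¹ * y * (x * g) = g⁻¹ * (x⁻¹ * y * x) * g := by group
      rw [this, hcomm]
      exact h2
    have h6 := hTI' _ _ y hy1 hyxg hyg
    rw [hmapconj] at h6
    refine ⟨g, hnorm g x hxq (map_conj_eq_iff.1 h6)⟩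
  -- the partition
  by_contra hcon
  push Not at hcon
  have hKq : ∀ x ∈ K, ∀ q : ℕ, q.Prime → q ∣ orderOf x → q ∣ Nat.card H := by
    intro x hx q hq hd
    apply hK q hq
    refine hd.trans ?_
    rw [← Subgroup.orderOf_mk x hx]
    exact orderOf_dvd_natCard _
  -- Frobenius complements inside `K`
  have hFC : ∀ (g : G) (y : G), y ∈ K → y ≠ 1 → y ∈ H.map (MulAut.conj g).toMonoidHom →
      Cfsg.IsFrobeniusComplement ((H.map (MulAut.conj g).toMonoidHom).subgroupOf K) := by
    intro g y hyK hy1 hyg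
    refine ⟨?_, ?_, ?_⟩
    · intro hb
      have h1 : (⟨y, hyK⟩ : K) ∈ (H.map (MulAut.conj g).toMonoidHom).subgroupOf K :=
        Subgroup.mem_subgroupOf.2 hyg
      rw [hb, Subgroup.mem_bot] at h1
      exact hy1 (congrArg Subtype.val h1)
    · intro ht
      apply hcon g
      rwa [Subgroup.subgroupOf_eq_top] at ht
    · intro k hk
      rw [eq_bot_iff]
      rintro w ⟨hw1, hw2⟩
      rw [Subgroup.mem_bot]
      by_contra hw
      have hw0 : (w : G) ≠ 1 := fun h => hw (Subtype.ext h)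
      have h1 : (w : G) ∈ H.map (MulAut.conj g).toMonoidHom := Subgroup.mem_subgroupOf.1 hw1
      have h2 := (CfsgLib.Solv.mem_conj_smul k w _).1 hw2
      have h3 : ((k : G))⁻¹ * w * k ∈ H.map (MulAut.conj g).toMonoidHom := by
        have := Subgroup.mem_subgroupOf.1 h2
        simpa using this
      have h4 : (w : G) ∈ H.map (MulAut.conj ((k : G) * g)).toMonoidHom := by
        rw [hmapconj, mem_map_conj']
        exact h3
      have h5 := hTI' _ _ _ hw0 h4 h1
      rw [hmapconj] at h5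
      apply hk
      apply Subgroup.mem_subgroupOf.2
      exact hnorm g k (hKq k k.2) (map_conj_eq_iff.1 h5)
  have hKne : K ≠ ⊥ := by
    intro hb
    apply hcon 1
    rw [hb]
    exact bot_le
  obtain ⟨x₀, hx₀K, hx₀⟩ := (Subgroup.ne_bot_iff_exists_ne_one.1 hKne : ∃ x : K, x ≠ 1) |>.elim (fun x hx =>
    (⟨x.1, x.2, fun h => hx (Subtype.ext h)⟩ : ∃ x₀, x₀ ∈ K ∧ x₀ ≠ 1))
  obtain ⟨g₀, hg₀⟩ := hmem x₀ hx₀ (hKq x₀ hx₀K)
  have hF₀ := hFC g₀ x₀ hx₀K hx₀ hg₀
  obtain ⟨L₀, hL₀⟩ : ∃ L₀, L₀ = (H.map (MulAut.conj g₀).toMonoidHom).subgroupOf K := ⟨_, rfl⟩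
  rw [← hL₀] at hF₀
  have hc₀ := CfsgLib.Solv.card_frobeniusKernel hF₀
  have hidx : ∀ L : Subgroup K, L ≠ ⊥ → L ≠ ⊤ → 1 < L.index ∧ 2 * L.index ≤ Nat.card K := by
    intro L h1 h2
    have h3 : 1 < Nat.card L := (Subgroup.one_lt_card_iff_ne_bot L).2 h1
    have h4 := Subgroup.card_mul_index L
    have h5 : L.index ≠ 0 := Subgroup.index_ne_zero_of_finite
    have h6 : L.index ≠ 1 := by rwa [Ne, Subgroup.index_eq_one]
    constructor
    · omega
    · rw [← h4]
      exact Nat.mul_le_mul_right _ h3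
  obtain ⟨h₀a, h₀b⟩ := hidx L₀ hF₀.1 hF₀.2.1
  rw [Nat.card_coe_set_eq] at hc₀
  obtain ⟨x₁, hx₁, hx₁1⟩ := Set.exists_ne_of_one_lt_ncard (by rw [hc₀]; exact h₀a) (1 : K)
  have hx₁G : (x₁ : G) ≠ 1 := fun h => hx₁1 (Subtype.ext h)
  obtain ⟨g₁, hg₁⟩ := hmem x₁ hx₁G (hKq x₁ x₁.2)
  have hF₁ := hFC g₁ x₁ x₁.2 hx₁G hg₁
  obtain ⟨L₁, hL₁⟩ : ∃ L₁, L₁ = (H.map (MulAut.conj g₁).toMonoidHom).subgroupOf K := ⟨_, rfl⟩
  rw [← hL₁] at hF₁
  have hc₁ := CfsgLib.Solv.card_frobeniusKernel hF₁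
  obtain ⟨h₁a, h₁b⟩ := hidx L₁ hF₁.1 hF₁.2.1
  rw [Nat.card_coe_set_eq] at hc₁
  have hnot : ∀ k : K, x₁ ∉ MulAut.conj k • L₀ := by
    rcases hx₁ with h | h
    · exact absurd h hx₁1
    · exact h
  have hunion : Cfsg.frobeniusKernel L₀ ∪ Cfsg.frobeniusKernel L₁ = Set.univ := by
    rw [Set.eq_univ_iff_forall]
    intro x
    by_cases hx : x ∈ Cfsg.frobeniusKernel L₀
    · exact Or.inl hx
    right
    by_cases hx1 : x = 1
    · exact Or.inl hx1
    right
    intro k' hk'
    have hx0 : ∃ k : K, x ∈ MulAut.conj k • L₀ := by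
      by_contra hno
      push Not at hno
      exact hx (Or.inr hno)
    obtain ⟨k, hk⟩ := hx0
    have hxG : (x : G) ≠ 1 := fun h => hx1 (Subtype.ext h)
    rw [CfsgLib.Solv.mem_conj_smul, hL₀, Subgroup.mem_subgroupOf] at hk
    rw [CfsgLib.Solv.mem_conj_smul, hL₁, Subgroup.mem_subgroupOf] at hk'
    have h1 : (x : G) ∈ H.map (MulAut.conj ((k : G) * g₀)).toMonoidHom := by
      rw [hmapconj, mem_map_conj']
      simpa using hk
    have h2 : (x : G) ∈ H.map (MulAut.conj ((k' : G) * g₁)).toMonoidHom := by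
      rw [hmapconj, mem_map_conj']
      simpa using hk'
    have h3 := hTI' _ _ _ hxG h1 h2
    rw [hmapconj, hmapconj] at h3
    -- move `x₁`
    apply hnot (k'⁻¹ * k)
    rw [CfsgLib.Solv.mem_conj_smul, hL₀, Subgroup.mem_subgroupOf]
    have h4 : (k : G) * ((k'⁻¹ * k)⁻¹ * x₁ * (k'⁻¹ * k) : K) * (k : G)⁻¹ = (k' : G) * x₁ * (k' : G)⁻¹ := by
      simp only [Subgroup.coe_mul, Subgroup.coe_inv]
      group
    have h5 : (k' : G) * x₁ * (k' : G)⁻¹ ∈ (H.map (MulAut.conj g₁).toMonoidHom).map (MulAut.conj (k' : G)).toMonoidHom :=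
      conj_mem_map hg₁
    rw [← h3, ← h4, mem_map_conj'] at h5
    have h6 : (k : G)⁻¹ * ((k : G) * ((k'⁻¹ * k)⁻¹ * x₁ * (k'⁻¹ * k) : K) * (k : G)⁻¹) * (k : G) =
        (((k'⁻¹ * k)⁻¹ * x₁ * (k'⁻¹ * k) : K) : G) := by group
    rwa [h6] at h5
  have hcount := Set.ncard_union_add_ncard_inter (Cfsg.frobeniusKernel L₀) (Cfsg.frobeniusKernel L₁)
  rw [hunion, Set.ncard_univ, hc₀, hc₁] at hcount
  have hinter : 0 < (Cfsg.frobeniusKernel L₀ ∩ Cfsg.frobeniusKernel L₁).ncard := by
    rw [Set.ncard_pos]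
    exact ⟨1, Or.inl rfl, Or.inl rfl⟩
  omega

end Cfsg.Agent.S4116
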