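import Cfsg.Statements.S4117
import Cfsg.Agent.Lib.FGS.ZAct

set_option autoImplicit false
open Cfsg
open scoped commutatorElement
open scoped Pointwise

namespace Cfsg.Agent.S4117

/-- Let A be a finite group acting on the finite group G by automorphisms with the orders of A and G coprime, and suppose every Sylow subgroup of G is cyclic. Then the fixed-point subgroup C_G(A) is a Hall subgroup of G (its order is coprime to its index), the subgroup [G, A] generated by the elements g⁻¹·a(g) is cyclic and normal with [G, A] ∩ C_G(A) = 1 and [G, A]·C_G(A) = G. -/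
theorem result {G A : Type*} [Group G] [Finite G] [Group A] [Finite A]
    [MulDistribMulAction A G] (hcop : (Nat.card A).Coprime (Nat.card G))
    (hcyc : ∀ (p : ℕ) [Fact p.Prime] (P : Sylow p G), IsCyclic (P : Subgroup G)) :
    (Nat.card (MulAction.fixedPoints A G : Set G)).Coprime (Nat.card G / Nat.card (MulAction.fixedPoints A G : Set G)) ∧
    IsCyclic (Subgroup.closure {y : G | ∃ (a : A) (g : G), y = g⁻¹ * a • g}) ∧
    (Subgroup.closure {y : G | ∃ (a : A) (g : G), y = g⁻¹ * a • g}).Normal ∧
    (Subgroup.closure {y : G | ∃ (a : A) (g : G), y = g⁻¹ * a • g} : Set G) ∩ MulAction.fixedPoints A G = {1} ∧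
    Subgroup.closure {y : G | ∃ (a : A) (g : G), y = g⁻¹ * a • g} ⊔ Subgroup.closure (MulAction.fixedPoints A G) = ⊤ := by
  classical
  let φ : A →* MulAut G := MulDistribMulAction.toMulAut A G
  let Γ := G ⋊[φ] A
  haveI hΓfin : Finite Γ := Finite.of_equiv _ (SemidirectProduct.equivProd (N := G) (G := A) (φ := φ)).symm
  let ι : G →* Γ := SemidirectProduct.inl
  let j : A →* Γ := SemidirectProduct.inr
  have hι : Function.Injective ι := SemidirectProduct.inl_injective
  have hj : Function.Injective j := SemidirectProduct.inr_injective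
  have hconj : ∀ (a : A) (g : G), j a * ι g * (j a)⁻¹ = ι (a • g) := by
    intro a g
    have h1 := SemidirectProduct.inl_aut (φ := φ) a g
    have h2 : φ a g = a • g := rfl
    rw [h2] at h1
    rw [h1]
    show SemidirectProduct.inr a * SemidirectProduct.inl g * (SemidirectProduct.inr a)⁻¹ =
      SemidirectProduct.inr a * SemidirectProduct.inl g * SemidirectProduct.inr a⁻¹
    rw [map_inv]
  obtain ⟨K, hK⟩ : ∃ K : Subgroup Γ, K = ι.range := ⟨_, rfl⟩
  obtain ⟨B, hB⟩ : ∃ B : Subgroup Γ, B = j.range := ⟨_, rfl⟩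
  have hKnorm : K.Normal := by
    rw [hK]
    have : ι.range = (SemidirectProduct.rightHom : Γ →* A).ker := SemidirectProduct.range_inl_eq_ker_rightHom
    rw [this]
    infer_instance
  have hcardK : Nat.card K = Nat.card G := by
    rw [hK]
    exact Nat.card_congr (MonoidHom.ofInjective hι).symm.toEquiv
  have hcardB : Nat.card B = Nat.card A := by
    rw [hB]
    exact Nat.card_congr (MonoidHom.ofInjective hj).symm.toEquiv
  have hBK : B ≤ Subgroup.normalizer (K : Set Γ) := by
    rw [Subgroup.normalizer_eq_top]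
    exact le_top
  have hcop2 : (Nat.card B).Coprime (Nat.card K) := by
    rw [hcardK, hcardB]
    exact hcop
  -- an isomorphism of `K` and `G`
  have hKeq : Nonempty (G ≃* K) := ⟨hK ▸ MonoidHom.ofInjective hι⟩
  obtain ⟨e⟩ := hKeq
  have hcyc2 : ∀ (p : ℕ) [Fact p.Prime] (P : Sylow p K), IsCyclic (P : Subgroup K) := by
    intro p _ P
    let Q : Sylow p G := P.mapSurjective (f := e.symm.toMonoidHom) e.symm.surjective
    have h1 := hcyc p Q
    have h2 : Function.Injective (fun x : (P : Subgroup K) => (⟨e.symm x, Subgroup.mem_map_of_mem e.symm.toMonoidHom x.2⟩ : (Q : Subgroup G))) := by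
      intro x y hxy
      have := congrArg Subtype.val hxy
      exact Subtype.ext (e.symm.injective this)
    let f : (P : Subgroup K) →* (Q : Subgroup G) :=
      { toFun := fun x => ⟨e.symm x, Subgroup.mem_map_of_mem e.symm.toMonoidHom x.2⟩
        map_one' := by
          apply Subtype.ext
          simp
        map_mul' := by
          intro x y
          apply Subtype.ext
          simp }
    exact isCyclic_of_injective f h2
  obtain ⟨hZ1, hZ2, hZ3, hZ4, hZ5⟩ := CfsgLib.FGS.zgroup_coprime_action B K hBK hcop2 hcyc2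
  -- translation
  obtain ⟨N, hN⟩ : ∃ N : Subgroup G, N = Subgroup.closure {y : G | ∃ (a : A) (g : G), y = g⁻¹ * a • g} := ⟨_, rfl⟩
  obtain ⟨F, hF⟩ : ∃ F : Subgroup G, F = FixedPoints.subgroup A G := ⟨_, rfl⟩
  have hmemF : ∀ x, x ∈ F ↔ ∀ a : A, a • x = x := by
    intro x
    rw [hF]
    exact FixedPoints.mem_subgroup A G x
  have hFset : (F : Set G) = MulAction.fixedPoints A G := by
    ext x
    exact hmemF x
  have hFcl : Subgroup.closure (MulAction.fixedPoints A G) = F := by
    rw [← hFset, Subgroup.closure_eq]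
  have hNmap : N.map ι = ⁅K, B⁆ := by
    apply le_antisymm
    · rw [hN, Subgroup.map_le_iff_le_comap, Subgroup.closure_le]
      rintro _ ⟨a, g, rfl⟩
      show ι (g⁻¹ * a • g) ∈ (⁅K, B⁆ : Subgroup Γ)
      have e1 : ι (g⁻¹ * a • g) = ⁅ι g⁻¹, j a⁆ := by
        rw [map_mul, ← hconj, commutatorElement_def, map_inv, inv_inv]
        simp only [mul_assoc]
      rw [e1]
      exact Subgroup.commutator_mem_commutator (hK ▸ ⟨g⁻¹, rfl⟩) (hB ▸ ⟨a, rfl⟩)
    · rw [Subgroup.commutator_le]
      intro k hk b hb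
      rw [hK] at hk
      rw [hB] at hb
      obtain ⟨g, rfl⟩ := hk
      obtain ⟨a, rfl⟩ := hb
      have e1 : ⁅ι g, j a⁆ = ι (g⁻¹⁻¹ * a • g⁻¹) := by
        rw [map_mul, ← hconj, commutatorElement_def, map_inv, map_inv, inv_inv]
        simp only [mul_assoc]
      rw [e1]
      apply Subgroup.mem_map_of_mem
      rw [hN]
      exact Subgroup.subset_closure ⟨a, g⁻¹, rfl⟩
  have hFmap : F.map ι = K ⊓ Subgroup.centralizer (B : Set Γ) := by
    apply le_antisymm
    · rintro _ ⟨x, hx, rfl⟩
      refine ⟨hK ▸ ⟨x, rfl⟩, ?_⟩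
      show ι x ∈ Subgroup.centralizer (B : Set Γ)
      rw [Subgroup.mem_centralizer_iff]
      intro b hb
      rw [hB] at hb
      obtain ⟨a, rfl⟩ := hb
      have h1 := hconj a x
      rw [(hmemF x).1 hx a, mul_inv_eq_iff_eq_mul] at h1
      exact h1
    · rintro _ ⟨hk, hc⟩
      rw [hK] at hk
      obtain ⟨x, rfl⟩ := hk
      refine Subgroup.mem_map_of_mem _ ((hmemF x).2 fun a => hι ?_)
      rw [← hconj, mul_inv_eq_iff_eq_mul]
      exact Subgroup.mem_centralizer_iff.1 hc (j a) (hB ▸ ⟨a, rfl⟩)
  have hcardN : Nat.card N = Nat.card (⁅K, B⁆ : Subgroup Γ) := by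
    rw [← hNmap]
    exact Nat.card_congr (N.equivMapOfInjective ι hι).toEquiv
  have hcardF : Nat.card F = Nat.card (K ⊓ Subgroup.centralizer (B : Set Γ) : Subgroup Γ) := by
    rw [← hFmap]
    exact Nat.card_congr (F.equivMapOfInjective ι hι).toEquiv
  have hcardFix : Nat.card (MulAction.fixedPoints A G : Set G) = Nat.card F := by
    rw [← hFset]
    rfl
  rw [← hN]
  rw [hFcl]
  rw [← hNmap] at hZ1 hZ2 hZ3
  rw [← hFmap] at hZ2 hZ3
  refine ⟨?_, ?_, ?_, ?_, ?_⟩
  · rw [hcardFix]
    have h1 : Nat.card G = Nat.card F * Nat.card N := by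
      rw [← hcardK, hZ5, hcardN, hcardF, mul_comm]
    rw [h1, Nat.mul_div_cancel_left _ Nat.card_pos, hcardF, hcardN]
    exact hZ4
  · exact isCyclic_of_injective (N.equivMapOfInjective ι hι).toMonoidHom (N.equivMapOfInjective ι hι).injective
  · constructor
    intro n hn g
    have h1 : ι n ∈ N.map ι := Subgroup.mem_map_of_mem _ hn
    have h2 : ι g ∈ Subgroup.normalizer ((N.map ι : Subgroup Γ) : Set Γ) := by
      rw [hNmap]
      exact CfsgLib.Solv.le_normalizer_commutator_left (hK ▸ ⟨g, rfl⟩)
    have h3 := (Subgroup.mem_normalizer_iff.1 h2 _).1 h1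
    obtain ⟨y, hy, hye⟩ := Subgroup.mem_map.1 h3
    have h4 : y = g * n * g⁻¹ := by
      apply hι
      rw [hye]
      simp only [map_mul, map_inv]
    rw [← h4]
    exact hy
  · ext x
    constructor
    · rintro ⟨h1, h2⟩
      have h3 : x ∈ F := by
        rw [← SetLike.mem_coe, hFset]
        exact h2
      have h4 : ι x ∈ N.map ι ⊓ F.map ι := ⟨Subgroup.mem_map_of_mem _ h1, Subgroup.mem_map_of_mem _ h3⟩
      rw [hZ2, Subgroup.mem_bot] at h4
      exact hι (by rw [h4, map_one])
    · intro h
      rw [Set.mem_singleton_iff] at h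
      rw [h]
      refine ⟨Subgroup.one_mem _, ?_⟩
      rw [← hFset]
      exact Subgroup.one_mem _
  · apply Subgroup.map_injective hι
    rw [Subgroup.map_sup, hZ3, hK]
    exact MonoidHom.range_eq_map ι

end Cfsg.Agent.S4117
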