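import Cfsg.Statements.S4126
import Cfsg.Agent.Lib.FGS.SmallClass

set_option autoImplicit false
open Cfsg

namespace Cfsg.Agent.S4126

/-- Let G be a finite group and p a prime. Suppose every element of order p, and when p = 2 also every element of order 4, has a conjugacy class of p-power size. Then G has a normal p-complement. -/
theorem result {G : Type*} [Group G] [Finite G] (p : ℕ) [Fact p.Prime]
    (h : ∀ x : G, (orderOf x = p ∨ (p = 2 ∧ orderOf x = 4)) → ∃ a : ℕ, (Subgroup.centralizer ({x} : Set G)).index = p ^ a) :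
    Cfsg.HasNormalPComplement p G := by
  classical
  have hcl : ∀ x : G, (x ^ p = 1 ∨ (p = 2 ∧ x ^ 4 = 1)) → ∃ a : ℕ, (Subgroup.centralizer ({x} : Set G)).index = p ^ a := by
    intro x hx
    by_cases hx1 : x = 1
    · subst hx1
      refine ⟨0, ?_⟩
      have : Subgroup.centralizer ({1} : Set G) = ⊤ := by
        ext y; simp [Subgroup.mem_centralizer_singleton_iff]
      simp [this]
    rcases hx with hx | ⟨hp2, hx⟩
    · exact h x (Or.inl (orderOf_eq_prime hx hx1))
    · subst hp2
      have h4 : orderOf x ∣ 2 ^ 2 := orderOf_dvd_of_pow_eq_one (by simpa using hx)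
      obtain ⟨k, hk, hk'⟩ := (Nat.dvd_prime_pow Nat.prime_two).1 h4
      interval_cases k
      · exact absurd (orderOf_eq_one_iff.1 (by simpa using hk')) hx1
      · exact h x (Or.inl (by simpa using hk'))
      · exact h x (Or.inr ⟨rfl, by simpa using hk'⟩)
  have hpel : ∀ x : G, (x ^ p = 1 ∨ (p = 2 ∧ x ^ 4 = 1)) → ∃ k : ℕ, x ^ p ^ k = 1 := by
    intro x hx
    rcases hx with hx | ⟨hp2, hx⟩
    · exact ⟨1, by simpa using hx⟩
    · exact ⟨2, by subst hp2; simpa using hx⟩
  -- step 1
  have hD : ∀ x : G, (x ^ p = 1 ∨ (p = 2 ∧ x ^ 4 = 1)) → x ∈ Cfsg.pCore p G := by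
    intro x hx
    obtain ⟨a, ha⟩ := hcl x hx
    obtain ⟨k, hk⟩ := hpel x hx
    have hodv : orderOf x ∣ p ^ k := orderOf_dvd_of_pow_eq_one hk
    obtain ⟨j, _, hj⟩ := (Nat.dvd_prime_pow (Fact.out : p.Prime)).1 hodv
    have hzp : IsPGroup p (Subgroup.zpowers x) := IsPGroup.of_card (n := j) (by
      rw [Nat.card_zpowers, hj])
    obtain ⟨P, hP⟩ := hzp.exists_le_sylow
    have hxP : x ∈ (P : Subgroup G) := hP (Subgroup.mem_zpowers x)
    have hcj : Subgroup.normalClosure ({x} : Set G) ≤ (P : Subgroup G) := by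
      refine Subgroup.closure_le _ |>.2 ?_
      rintro y hy
      rw [Group.mem_conjugatesOfSet_iff] at hy
      obtain ⟨z, hz, hzy⟩ := hy
      rw [Set.mem_singleton_iff] at hz
      subst hz
      obtain ⟨g, rfl⟩ := isConj_iff.1 hzy
      obtain ⟨u, hu, c, hc, rfl⟩ := CfsgLib.FGS.eq_mul_of_index_pow _ ha P g
      rw [Subgroup.mem_centralizer_singleton_iff] at hc
      have hcm : Commute c z := hc
      have e : u * c * z * (u * c)⁻¹ = u * z * u⁻¹ := by
        calc u * c * z * (u * c)⁻¹ = u * (c * z) * c⁻¹ * u⁻¹ := by group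
          _ = u * (z * c) * c⁻¹ * u⁻¹ := by rw [hcm.eq]
          _ = _ := by group
      rw [e]
      exact (P : Subgroup G).mul_mem ((P : Subgroup G).mul_mem hu hxP) ((P : Subgroup G).inv_mem hu)
    haveI : (Subgroup.normalClosure ({x} : Set G)).Normal := Subgroup.normalClosure_normal
    have h1 := CfsgLib.Solv.le_pCore' (p := p) (Subgroup.normalClosure ({x} : Set G)) (P.isPGroup'.to_le hcj)
    exact h1 (Subgroup.subset_normalClosure (Set.mem_singleton x))
  -- step 2/3
  haveI hDn : (Cfsg.pCore p G).Normal := CfsgLib.Solv.pCore_normal' p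
  have hcent : ∀ g : G, (orderOf g).Coprime p → ∀ x ∈ Cfsg.pCore p G, g * x * g⁻¹ = x := by
    intro g hg
    have hInn : Cfsg.Inn ↥(Cfsg.pCore p G) ≤ (MulAut.conjNormal (H := Cfsg.pCore p G) : G →* MulAut ↥(Cfsg.pCore p G)).range := by
      rintro α ⟨d, rfl⟩
      refine ⟨(d : G), ?_⟩
      ext y
      simp [MulAut.conjNormal_apply]
    obtain ⟨D0, hinv, -, helem, -, hfix, -⟩ := CfsgLib.CritRel.exists_small_char (CfsgLib.Solv.pCore_isPGroup p) _ hInn
    have hEn : (D0.map (Cfsg.pCore p G).subtype).Normal := by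
      refine ⟨?_⟩
      rintro _ ⟨d, hd, rfl⟩ h
      have h2 := hinv (MulAut.conjNormal h) ⟨h, rfl⟩
      have h3 : (MulAut.conjNormal (H := Cfsg.pCore p G) h : MulAut ↥(Cfsg.pCore p G)) d ∈ D0 := by
        rw [← h2]; exact ⟨d, hd, rfl⟩
      refine ⟨_, h3, ?_⟩
      simp [MulAut.conjNormal_apply]
    have hEp : IsPGroup p ↥(D0.map (Cfsg.pCore p G).subtype) :=
      (CfsgLib.Solv.pCore_isPGroup p (G := G)).to_le (Subgroup.map_subtype_le _) 
    have hE : ∀ y ∈ D0.map (Cfsg.pCore p G).subtype, ∃ a : ℕ, (Subgroup.centralizer ({y} : Set G)).index = p ^ a := by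
      rintro _ ⟨d, hd, rfl⟩
      apply hcl
      rcases helem d hd with h1 | ⟨h2, h1⟩
      · left
        have := congrArg (Subtype.val) h1
        simpa using this
      · right
        refine ⟨h2, ?_⟩
        have := congrArg (Subtype.val) h1
        simpa using this
    have hf := CfsgLib.FGS.fix_of_class_pow hEn hEp hE hg
    have hα : (MulAut.conjNormal (H := Cfsg.pCore p G) g : MulAut ↥(Cfsg.pCore p G)) = 1 := by
      apply hfix _ ⟨g, rfl⟩
      · exact Nat.Coprime.coprime_dvd_left (orderOf_map_dvd _ g) hg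
      · intro d hd
        ext
        simpa [MulAut.conjNormal_apply] using hf d ⟨d, hd, rfl⟩
    intro x hx
    have := congrArg (fun α : MulAut ↥(Cfsg.pCore p G) => ((α ⟨x, hx⟩ : ↥(Cfsg.pCore p G)) : G)) hα
    simpa [MulAut.conjNormal_apply] using this
  -- step 4
  haveI : Nonempty (Sylow p G) := inferInstance
  obtain ⟨P⟩ := (inferInstance : Nonempty (Sylow p G))
  obtain ⟨N, hN, hNP⟩ := (CfsgLib.Trans.frobenius_criterion P).2 (by
    intro Q hQ g hg hcop
    have hQp : IsPGroup p Q := P.isPGroup'.to_le hQ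
    have ha : (orderOf (Q.normalizerMonoidHom ⟨g, hg⟩)).Coprime p := by
      refine Nat.Coprime.coprime_dvd_left (orderOf_map_dvd _ _) ?_
      rwa [Subgroup.orderOf_mk]
    have h1 := CfsgLib.Omega2.aut_trivial_omega hQp _ ha (by
      intro x hx
      have hxD : (x : G) ∈ Cfsg.pCore p G := by
        apply hD
        rcases hx with h1 | ⟨h2, h1⟩
        · left
          have := congrArg (Subtype.val) h1
          simpa using this
        · right
          refine ⟨h2, ?_⟩
          have := congrArg (Subtype.val) h1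
          simpa using this
      have h2 := hcent g hcop x hxD
      ext
      simpa using h2)
    rw [Subgroup.mem_centralizer_iff]
    intro x hx
    have h2 := congrArg (fun α : MulAut ↥Q => ((α ⟨x, hx⟩ : ↥Q) : G)) h1
    have h3 : g * x * g⁻¹ = x := by simpa using h2
    calc x * g = (g * x * g⁻¹) * g := by rw [h3]
      _ = g * x := by group)
  exact ⟨P, N, hN, hNP⟩

end Cfsg.Agent.S4126
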