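import Cfsg.Statements.S4127
import Cfsg.Agent.Lib.FGS.ABLemma
import Cfsg.Agent.Lib.PLocal.CardSup
import Cfsg.Agent.Lib.FGS.NilCover

set_option autoImplicit false
open Cfsg

namespace Cfsg.Agent.S4127

open Subgroup CfsgLib.FGS in
theorem reg_hyp {G : Type*} [Group G] [Finite G] (p : ℕ) [Fact p.Prime]
    (a : ℕ) (hmax : ∀ y : G, ¬ p ^ (a + 1) ∣ (Subgroup.centralizer ({y} : Set G)).index)
    (x : G) (k : ℕ) (hk : orderOf x = p ^ k) (hidx : (Subgroup.centralizer ({x} : Set G)).index = p ^ a)
    (y : ↥(Subgroup.centralizer ({x} : Set G))) (hy : (orderOf y).Coprime p) :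
    ¬ p ∣ (Subgroup.centralizer ({y} : Set ↥(Subgroup.centralizer ({x} : Set G)))).index := by
  intro hd
  obtain ⟨y', hyC⟩ := y
  have hoy : orderOf y' = orderOf (⟨y', hyC⟩ : ↥(Subgroup.centralizer ({x} : Set G))) :=
    Subgroup.orderOf_mk y' hyC |>.symm
  have hcomm : Commute x y' := by
    have := hyC
    rw [Subgroup.mem_centralizer_singleton_iff] at this
    exact this.symm
  have hcop : (orderOf x).Coprime (orderOf y') := by
    rw [hk, hoy]
    exact Nat.Coprime.pow_left _ hy.symm
  have hmem1 : x ∈ Subgroup.zpowers (x * y') := mem_zpowers_mul_of_coprime hcomm hcop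
  have hmem2 : y' ∈ Subgroup.zpowers (x * y') := by
    have h1 : Commute y' x := hcomm.symm
    have := mem_zpowers_mul_of_coprime h1 hcop.symm
    rwa [h1.eq] at this
  have hCxy : Subgroup.centralizer ({x * y'} : Set G) = Subgroup.centralizer ({x} : Set G) ⊓ Subgroup.centralizer ({y'} : Set G) := by
    ext g
    rw [Subgroup.mem_inf, Subgroup.mem_centralizer_singleton_iff, Subgroup.mem_centralizer_singleton_iff,
      Subgroup.mem_centralizer_singleton_iff]
    constructor
    · intro h
      have hg : Commute g (x * y') := h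
      constructor
      · obtain ⟨n, hn⟩ := Subgroup.mem_zpowers_iff.mp hmem1
        rw [← hn]
        exact (hg.zpow_right n).eq
      · obtain ⟨n, hn⟩ := Subgroup.mem_zpowers_iff.mp hmem2
        rw [← hn]
        exact (hg.zpow_right n).eq
    · rintro ⟨h1, h2⟩
      have h3 : Commute g x := h1
      have h4 : Commute g y' := h2
      exact (h3.mul_right h4).eq
  have hidx2 : (Subgroup.centralizer ({⟨y', hyC⟩} : Set ↥(Subgroup.centralizer ({x} : Set G)))).index = (Subgroup.centralizer ({x} : Set G) ⊓ Subgroup.centralizer ({y'} : Set G)).relIndex (Subgroup.centralizer ({x} : Set G)) := by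
    rw [Subgroup.relIndex]
    congr 1
    ext g
    rw [Subgroup.mem_subgroupOf, Subgroup.mem_inf, Subgroup.mem_centralizer_singleton_iff]
    constructor
    · intro h
      refine ⟨g.2, ?_⟩
      rw [Subgroup.mem_centralizer_singleton_iff]
      simpa [Subtype.ext_iff] using h
    · rintro ⟨-, h⟩
      rw [Subgroup.mem_centralizer_singleton_iff] at h
      exact Subtype.ext (by simpa using h)
  have h5 := Subgroup.relIndex_mul_index (inf_le_left : Subgroup.centralizer ({x} : Set G) ⊓ Subgroup.centralizer ({y'} : Set G) ≤ Subgroup.centralizer ({x} : Set G))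
  rw [← hidx2, hidx, ← hCxy] at h5
  apply hmax (x * y')
  rw [← h5, pow_succ']
  exact mul_dvd_mul_right hd _

/-- Let G be a finite group, p a prime and p^a the largest power of p dividing the size of any conjugacy class of G. If some element of p-power order has a conjugacy class of size exactly p^a, then G has a normal p-complement. -/
theorem result {G : Type*} [Group G] [Finite G] (p : ℕ) [Fact p.Prime]
    (a : ℕ) (hmax : ∀ y : G, ¬ p ^ (a + 1) ∣ (Subgroup.centralizer ({y} : Set G)).index)
    (hx : ∃ x : G, (∃ k : ℕ, orderOf x = p ^ k) ∧ (Subgroup.centralizer ({x} : Set G)).index = p ^ a) :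
    Cfsg.HasNormalPComplement p G := by
  classical
  obtain ⟨x, ⟨k, hk⟩, hidx⟩ := hx
  have hreg := reg_hyp p a hmax x k hk hidx
  obtain ⟨hPn, H, hHn, hHcop, hinf, hsup, hcomm⟩ := CfsgLib.FGS.direct_of_regular (p := p) hreg (default : Sylow p ↥(Subgroup.centralizer ({x} : Set G)))
  -- `p'`-elements of `C` lie in `H`
  have hHp : ∀ c : ↥(Subgroup.centralizer ({x} : Set G)), (orderOf c).Coprime p → c ∈ H := by
    intro c hc
    have htop : c ∈ (((default : Sylow p ↥(Subgroup.centralizer ({x} : Set G))) : Subgroup _) ⊔ H : Subgroup _) := by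
      rw [hsup]; trivial
    haveI := hHn
    have hset : c ∈ ((((default : Sylow p ↥(Subgroup.centralizer ({x} : Set G))) : Subgroup _) ⊔ H : Subgroup _) : Set _) := htop
    rw [Subgroup.normal_mul] at hset
    obtain ⟨u, hu, v, hv, rfl⟩ := Set.mem_mul.mp hset
    have hvc : (orderOf v).Coprime p := by
      refine Nat.Coprime.coprime_dvd_left (Subgroup.orderOf_dvd_natCard H hv) ?_
      exact ((Nat.Prime.coprime_iff_not_dvd Fact.out).mpr hHcop).symm
    have hu1 : u = 1 := by
      refine CfsgLib.FGS.eq_one_of_commute_of_coprime (p := p) ?_ (hcomm v hv u hu).symm hvc hc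
      obtain ⟨n, hn⟩ := (default : Sylow p ↥(Subgroup.centralizer ({x} : Set G))).isPGroup' ⟨u, hu⟩
      exact ⟨n, by simpa [Subtype.ext_iff] using hn⟩
    rw [hu1, one_mul]
    exact hv
  have hxp : IsPGroup p (Subgroup.zpowers x) := IsPGroup.of_card (n := k) (by rw [Nat.card_zpowers, hk])
  obtain ⟨P, hxP⟩ := hxp.exists_le_sylow
  have hxP' : x ∈ (P : Subgroup G) := hxP (Subgroup.mem_zpowers x)
  have hconj : ∀ g : G, g * x * g⁻¹ ∈ (P : Subgroup G) := by
    intro g
    obtain ⟨u, hu, c, hc, rfl⟩ := CfsgLib.FGS.eq_mul_of_index_pow (Subgroup.centralizer ({x} : Set G)) hidx P g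
    rw [Subgroup.mem_centralizer_singleton_iff] at hc
    have hcx : c * x * c⁻¹ = x := by rw [hc]; group
    have h1 : u * c * x * (u * c)⁻¹ = u * (c * x * c⁻¹) * u⁻¹ := by group
    rw [h1, hcx]
    exact (P : Subgroup G).mul_mem ((P : Subgroup G).mul_mem hu hxP') ((P : Subgroup G).inv_mem hu)
  let O : Subgroup G := Subgroup.normalClosure ({x} : Set G)
  have hOle : O ≤ (P : Subgroup G) := by
    refine (Subgroup.closure_le _).mpr ?_
    intro y hy
    obtain ⟨a, ha, hay⟩ := Group.mem_conjugatesOfSet_iff.mp hy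
    rw [Set.mem_singleton_iff] at ha
    subst ha
    obtain ⟨c, rfl⟩ := isConj_iff.mp hay
    exact hconj c
  have hOp : IsPGroup p O := P.isPGroup'.to_le hOle
  have hOn : O.Normal := Subgroup.normalClosure_normal
  have hxO : x ∈ O := Subgroup.subset_normalClosure (Set.mem_singleton x)
  have hOPC : ∀ y ∈ O, x * y = y * x → ∀ v ∈ H, (v : G) * y = y * (v : G) := by
    intro y hy hyx v hv
    have hyC : y ∈ Subgroup.centralizer ({x} : Set G) := by
      rw [Subgroup.mem_centralizer_singleton_iff]; exact hyx.symm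
    have hp' : IsPGroup p ↥(O.subgroupOf (Subgroup.centralizer ({x} : Set G))) :=
      hOp.comap_of_injective (Subgroup.centralizer ({x} : Set G)).subtype (Subgroup.centralizer ({x} : Set G)).subtype_injective
    have hle := CfsgLib.FGS.le_of_normal_sylow (default : Sylow p ↥(Subgroup.centralizer ({x} : Set G))) hPn hp'
    have h2 := hcomm v hv ⟨y, hyC⟩ (hle hy)
    simpa [Subtype.ext_iff] using h2
  have hvcop : ∀ v ∈ H, (orderOf (v : G)).Coprime p := by
    intro v hv
    rw [Subgroup.orderOf_coe]
    refine Nat.Coprime.coprime_dvd_left (Subgroup.orderOf_dvd_natCard H hv) ?_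
    exact ((Nat.Prime.coprime_iff_not_dvd Fact.out).mpr hHcop).symm
  have hH'O : ∀ v ∈ H, ∀ y ∈ O, (v : G) * y = y * (v : G) := by
    intro v hv
    have hvx : (v : G) * x = x * (v : G) := by
      have := v.2
      rw [Subgroup.mem_centralizer_singleton_iff] at this
      exact this
    exact CfsgLib.FGS.ab_lemma hOp (h := (v : G)) (x := x)
      (by rw [Subgroup.normalizer_eq_top_iff.mpr hOn]; trivial)
      (by rw [Subgroup.normalizer_eq_top_iff.mpr hOn]; trivial) hvx (hvcop v hv) hxp
      (fun y hy hyx => hOPC y hy hyx v hv)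
  have hH'n : (H.map (Subgroup.centralizer ({x} : Set G)).subtype).Normal := by
    constructor
    rintro _ ⟨v, hv, rfl⟩ g
    have h0 : g⁻¹ * x * g ∈ O := by
      have := hOn.conj_mem x hxO g⁻¹
      simpa using this
    have h1 := hH'O v hv _ h0
    have h2 : g * (v : G) * g⁻¹ ∈ Subgroup.centralizer ({x} : Set G) := by
      rw [Subgroup.mem_centralizer_singleton_iff]
      calc g * (v : G) * g⁻¹ * x = g * ((v : G) * (g⁻¹ * x * g)) * g⁻¹ := by group
        _ = g * ((g⁻¹ * x * g) * (v : G)) * g⁻¹ := by rw [h1]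
        _ = x * (g * (v : G) * g⁻¹) := by group
    have h3 : (orderOf (⟨g * (v : G) * g⁻¹, h2⟩ : ↥(Subgroup.centralizer ({x} : Set G)))).Coprime p := by
      rw [Subgroup.orderOf_mk, CfsgLib.FGS.orderOf_conj_eq]
      exact hvcop v hv
    exact ⟨⟨_, h2⟩, hHp _ h3, rfl⟩
  -- cardinalities
  obtain ⟨f, hf⟩ := IsPGroup.iff_card.mp (default : Sylow p ↥(Subgroup.centralizer ({x} : Set G))).isPGroup'
  have hcardC : Nat.card ↥(Subgroup.centralizer ({x} : Set G)) = p ^ f * Nat.card H := by
    have h1 := CfsgLib.PLocal.card_sup_mul_card_inf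
      ((default : Sylow p ↥(Subgroup.centralizer ({x} : Set G))) : Subgroup _) H (by
        rw [Subgroup.normalizer_eq_top_iff.mpr hHn]; exact le_top)
    rw [hsup, hinf, hf] at h1
    simpa using h1
  have hcardG : Nat.card G = p ^ (a + f) * Nat.card H := by
    have h1 := (Subgroup.centralizer ({x} : Set G)).index_mul_card
    rw [hidx, hcardC] at h1
    rw [← h1, pow_add]; ring
  have hcardP : Nat.card (P : Subgroup G) = p ^ (a + f) := by
    rw [Sylow.card_eq_multiplicity P, hcardG, Nat.factorization_mul (pow_ne_zero _ (Fact.out : p.Prime).ne_zero) Nat.card_pos.ne']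
    simp [Nat.factorization_eq_zero_of_not_dvd hHcop, (Fact.out : p.Prime).factorization_self]
  refine ⟨P, H.map (Subgroup.centralizer ({x} : Set G)).subtype, hH'n, ?_⟩
  have hcardH' : Nat.card ↥(H.map (Subgroup.centralizer ({x} : Set G)).subtype) = Nat.card H :=
    Nat.card_congr (H.equivMapOfInjective _ (Subgroup.centralizer ({x} : Set G)).subtype_injective).toEquiv.symm
  apply Subgroup.isComplement'_of_coprime
  · rw [hcardH', hcardP, hcardG]; ring
  · rw [hcardH', hcardP]
    exact Nat.Coprime.pow_right _ ((Nat.Prime.coprime_iff_not_dvd Fact.out).mpr hHcop).symm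

end Cfsg.Agent.S4127
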