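import Cfsg.Statements.S4142
import Cfsg.Agent.Lib.FGS.Elem2

set_option autoImplicit false
open Cfsg

namespace Cfsg.Agent.S4142

/-- Let G be a finite group and N a normal subgroup. Then the conjugacy class of every element g outside N is a union of cosets of N (gn is conjugate to g for all n ∈ N) if and only if for every g outside N the centralizer of g in G has the same order as the centralizer of gN in G/N. -/
theorem result {G : Type*} [Group G] [Finite G] (N : Subgroup G) [N.Normal] :
    (∀ g : G, g ∉ N → ∀ n ∈ N, ∃ x : G, x * g * x⁻¹ = g * n) ↔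
      ∀ g : G, g ∉ N → Nat.card (Subgroup.centralizer ({g} : Set G)) =
        Nat.card (Subgroup.centralizer ({(QuotientGroup.mk g : G ⧸ N)} : Set (G ⧸ N))) := by
  classical
  -- per-element equivalence
  have key : ∀ g : G, (∀ n ∈ N, ∃ x : G, x * g * x⁻¹ = g * n) ↔
      Nat.card (Subgroup.centralizer ({g} : Set G)) =
        Nat.card (Subgroup.centralizer ({(QuotientGroup.mk g : G ⧸ N)} : Set (G ⧸ N))) := by
    intro g
    set gb : G ⧸ N := QuotientGroup.mk g with hgb
    -- the two classes
    let S : Set G := (QuotientGroup.mk : G → G ⧸ N) ⁻¹' {q | IsConj gb q}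
    let T : Set G := {h | IsConj g h}
    have hTS : T ⊆ S := by
      intro h hh
      obtain ⟨c, hc⟩ := isConj_iff.mp hh
      show IsConj gb (QuotientGroup.mk h)
      rw [isConj_iff]
      refine ⟨QuotientGroup.mk c, ?_⟩
      rw [← hc]
      rfl
    have hcS : Nat.card S = Nat.card {q | IsConj gb q} * Nat.card N := CfsgLib.FGS.card_preimage_mk N _
    have hcT : (Subgroup.centralizer ({g} : Set G)).index = Nat.card T := CfsgLib.FGS.index_centralizer_eq_card_conj g
    have hcQ : (Subgroup.centralizer ({gb} : Set (G ⧸ N))).index = Nat.card {q | IsConj gb q} :=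
      CfsgLib.FGS.index_centralizer_eq_card_conj gb
    have h1 := (Subgroup.centralizer ({g} : Set G)).card_mul_index
    have h2 := (Subgroup.centralizer ({gb} : Set (G ⧸ N))).card_mul_index
    have h3 : Nat.card (G ⧸ N) * Nat.card N = Nat.card G :=
      (Subgroup.card_eq_card_quotient_mul_card_subgroup N).symm
    have hNpos : 0 < Nat.card N := Nat.card_pos
    have hGpos : 0 < Nat.card G := Nat.card_pos
    rw [hcT] at h1
    rw [hcQ] at h2
    have hspos : 0 < Nat.card {q | IsConj gb q} := Nat.card_pos_iff.mpr ⟨⟨⟨gb, IsConj.refl gb⟩⟩, inferInstance⟩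
    -- `T = S` iff the equality of centralizers
    have hiff : T = S ↔ Nat.card (Subgroup.centralizer ({g} : Set G)) =
        Nat.card (Subgroup.centralizer ({gb} : Set (G ⧸ N))) := by
      constructor
      · intro hTeq
        have h4 : Nat.card T = Nat.card {q | IsConj gb q} * Nat.card N := by
          rw [hTeq]; exact hcS
        rw [h4] at h1
        rw [← h2] at h3
        rw [← mul_assoc] at h1
        have h5 : Nat.card (Subgroup.centralizer ({g} : Set G)) * Nat.card {q | IsConj gb q} =
            Nat.card (Subgroup.centralizer ({gb} : Set (G ⧸ N))) * Nat.card {q | IsConj gb q} :=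
          Nat.eq_of_mul_eq_mul_right hNpos (h1.trans h3.symm)
        exact Nat.eq_of_mul_eq_mul_right hspos h5
      · intro heq
        apply Set.eq_of_subset_of_ncard_le hTS _ (Set.toFinite _)
        rw [← Nat.card_coe_set_eq, ← Nat.card_coe_set_eq, hcS]
        rw [← h2, heq.symm, ← h1, mul_assoc] at h3
        exact (Nat.eq_of_mul_eq_mul_left Nat.card_pos h3).le
    rw [← hiff]
    constructor
    · intro hA
      apply Set.Subset.antisymm hTS
      intro h hh
      have hh' : IsConj gb (QuotientGroup.mk h) := hh
      obtain ⟨cb, hcb⟩ := isConj_iff.mp hh'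
      obtain ⟨c, rfl⟩ := QuotientGroup.mk_surjective cb
      have h4 : (QuotientGroup.mk (c * g * c⁻¹) : G ⧸ N) = QuotientGroup.mk h := hcb
      rw [QuotientGroup.eq] at h4
      have hn : c⁻¹ * ((c * g * c⁻¹)⁻¹ * h) * c ∈ N := by
        have := ‹N.Normal›.conj_mem _ h4 c⁻¹
        simpa using this
      obtain ⟨x, hx⟩ := hA _ hn
      show IsConj g h
      rw [isConj_iff]
      refine ⟨c * x, ?_⟩
      calc c * x * g * (c * x)⁻¹ = c * (x * g * x⁻¹) * c⁻¹ := by group
        _ = c * (g * (c⁻¹ * ((c * g * c⁻¹)⁻¹ * h) * c)) * c⁻¹ := by rw [hx]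
        _ = h := by group
    · intro hTS2 n hn
      have h4 : g * n ∈ S := by
        show IsConj gb (QuotientGroup.mk (g * n))
        have h5 : (QuotientGroup.mk (g * n) : G ⧸ N) = gb := by
          rw [QuotientGroup.mk_mul, (QuotientGroup.eq_one_iff n).mpr hn, mul_one]
        rw [h5]
      rw [← hTS2] at h4
      exact isConj_iff.mp h4
  constructor
  · intro h g hg
    exact (key g).mp (h g hg)
  · intro h g hg
    exact (key g).mpr (h g hg)

end Cfsg.Agent.S4142
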