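import Cfsg.Statements.S4152
import Cfsg.Agent.Lib.FGS.Basic

set_option autoImplicit false
open Cfsg
open scoped commutatorElement
open scoped Pointwise

namespace Cfsg.Agent.S4152

universe u_h8

theorem h8_parts (π : Set ℕ) : ∀ E : ℕ, E ≠ 0 → ∃ A B : ℕ, A * B = E ∧ (∀ q : ℕ, q.Prime → q ∣ A → q ∈ π) ∧ (∀ q : ℕ, q.Prime → q ∣ B → q ∉ π) := by
  intro E
  induction E using Nat.recOnMul with
  | zero => intro h; exact absurd rfl h
  | one =>
    intro _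
    refine ⟨1, 1, rfl, ?_, ?_⟩
    · intro q hq h; exact absurd (Nat.dvd_one.1 h) hq.ne_one
    · intro q hq h; exact absurd (Nat.dvd_one.1 h) hq.ne_one
  | prime p hp =>
    intro _
    by_cases hpi : p ∈ π
    · refine ⟨p, 1, mul_one p, ?_, ?_⟩
      · intro q hq h
        rw [(Nat.prime_dvd_prime_iff_eq hq hp).1 h]
        exact hpi
      · intro q hq h; exact absurd (Nat.dvd_one.1 h) hq.ne_one
    · refine ⟨1, p, one_mul p, ?_, ?_⟩
      · intro q hq h; exact absurd (Nat.dvd_one.1 h) hq.ne_one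
      · intro q hq h
        rw [(Nat.prime_dvd_prime_iff_eq hq hp).1 h]
        exact hpi
  | mul a b iha ihb =>
    intro h
    obtain ⟨A1, B1, h1, h2, h3⟩ := iha (left_ne_zero_of_mul h)
    obtain ⟨A2, B2, h4, h5, h6⟩ := ihb (right_ne_zero_of_mul h)
    refine ⟨A1 * A2, B1 * B2, ?_, ?_, ?_⟩
    · rw [← h1, ← h4]; ring
    · intro q hq hd
      rcases (Nat.Prime.dvd_mul hq).1 hd with h7 | h7
      · exact h2 q hq h7
      · exact h5 q hq h7
    · intro q hq hd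
      rcases (Nat.Prime.dvd_mul hq).1 hd with h7 | h7
      · exact h3 q hq h7
      · exact h6 q hq h7

theorem h8_jordan {G : Type*} [Group G] (A B : ℕ) (hc : A.Coprime B) (hE : ∀ g : G, g ^ (A * B) = 1) :
    ∃ pi co : G → G, (∀ g, pi g * co g = g) ∧ (∀ g, pi g * co g = co g * pi g) ∧ (∀ g, (pi g) ^ A = 1) ∧ (∀ g, (co g) ^ B = 1) ∧
      (∀ g c : G, c * g = g * c → c * pi g = pi g * c ∧ c * co g = co g * c) ∧
      (∀ (H : Subgroup G) (g : G), g ∈ H → pi g ∈ H ∧ co g ∈ H) ∧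
      (∀ y m : G, y ^ A = 1 → m ^ B = 1 → y * m = m * y → pi (y * m) = y ∧ co (y * m) = m) := by
  have hbez : (B : ℤ) * Nat.gcdB A B + (A : ℤ) * Nat.gcdA A B = 1 := by
    have h := Nat.gcd_eq_gcd_ab A B
    rw [hc.gcd_eq_one] at h
    push_cast at h
    linarith
  set s := Nat.gcdA A B
  set t := Nat.gcdB A B
  have hadd : ∀ g : G, g ^ ((B : ℤ) * t) * g ^ ((A : ℤ) * s) = g := by
    intro g
    rw [← zpow_add, hbez, zpow_one]
  have hzA : ∀ g : G, g ^ A = 1 → g ^ ((A : ℤ) * s) = 1 := by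
    intro g hg
    rw [zpow_mul, zpow_natCast, hg, one_zpow]
  have hzB : ∀ g : G, g ^ B = 1 → g ^ ((B : ℤ) * t) = 1 := by
    intro g hg
    rw [zpow_mul, zpow_natCast, hg, one_zpow]
  refine ⟨fun g => g ^ ((B : ℤ) * t), fun g => g ^ ((A : ℤ) * s), hadd, ?_, ?_, ?_, ?_, ?_, ?_⟩
  · intro g
    exact (Commute.refl g).zpow_zpow _ _
  · intro g
    show (g ^ ((B : ℤ) * t)) ^ A = 1
    rw [← zpow_natCast, ← zpow_mul]
    have h0 : (B : ℤ) * t * (A : ℤ) = ((A * B : ℕ) : ℤ) * t := by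
      push_cast
      ring
    rw [h0, zpow_mul, zpow_natCast, hE, one_zpow]
  · intro g
    show (g ^ ((A : ℤ) * s)) ^ B = 1
    rw [← zpow_natCast, ← zpow_mul]
    have h0 : (A : ℤ) * s * (B : ℤ) = ((A * B : ℕ) : ℤ) * s := by
      push_cast
      ring
    rw [h0, zpow_mul, zpow_natCast, hE, one_zpow]
  · intro g c h
    exact ⟨(show Commute c g from h).zpow_right _, (show Commute c g from h).zpow_right _⟩
  · intro H g hg
    exact ⟨H.zpow_mem hg _, H.zpow_mem hg _⟩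
  · intro y m hy hm hym
    have hcm : Commute y m := hym
    constructor
    · show (y * m) ^ ((B : ℤ) * t) = y
      rw [hcm.mul_zpow, hzB m hm, mul_one]
      have h1 := hadd y
      rwa [hzA y hy, mul_one] at h1
    · show (y * m) ^ ((A : ℤ) * s) = m
      rw [hcm.mul_zpow, hzA y hy, one_mul]
      have h1 := hadd m
      rwa [hzB m hm, one_mul] at h1

theorem h8_burnside {G : Type u_h8} [Group G] [Finite G] (N : Subgroup G) (P : G → Prop)
    (hP : ∀ n ∈ N, ∀ y, P y → P (n * y * n⁻¹)) :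
    ∃ (Ω : Type u_h8) (_ : Finite Ω) (o : {y // P y} → Ω), Function.Surjective o ∧
      (∀ y y' : {y // P y}, o y = o y' ↔ ∃ n ∈ N, n * y.1 * n⁻¹ = y'.1) ∧
      Nat.card {q : N × G // P q.2 ∧ (q.1 : G) * q.2 = q.2 * (q.1 : G)} = Nat.card Ω * Nat.card N := by
  classical
  letI act : MulAction N {y // P y} :=
    { smul := fun n y => ⟨n.1 * y.1 * n.1⁻¹, hP n.1 n.2 y.1 y.2⟩
      one_smul := fun y => Subtype.ext (by
        show ((1 : N) : G) * y.1 * ((1 : N) : G)⁻¹ = y.1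
        simp)
      mul_smul := fun a b y => Subtype.ext (by
        show ((a * b : N) : G) * y.1 * ((a * b : N) : G)⁻¹ = a.1 * (b.1 * y.1 * b.1⁻¹) * a.1⁻¹
        simp only [Subgroup.coe_mul]
        group) }
  refine ⟨MulAction.orbitRel.Quotient N {y // P y}, Quotient.finite _, fun y => Quotient.mk (MulAction.orbitRel N {y // P y}) y,
    fun ω => Quotient.inductionOn ω (fun y => ⟨y, rfl⟩), ?_, ?_⟩
  · intro y y'
    constructor
    · intro he
      have h1 : y ∈ MulAction.orbit N y' := MulAction.orbitRel_apply.1 (Quotient.exact he)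
      obtain ⟨n, hn⟩ := h1
      refine ⟨n.1⁻¹, N.inv_mem n.2, ?_⟩
      have h2 : n.1 * y'.1 * n.1⁻¹ = y.1 := congrArg Subtype.val hn
      rw [← h2]
      group
    · rintro ⟨n, hn, hnn⟩
      apply Quotient.sound
      apply MulAction.orbitRel_apply.2
      refine ⟨⟨n⁻¹, N.inv_mem hn⟩, Subtype.ext ?_⟩
      show n⁻¹ * y'.1 * n⁻¹⁻¹ = y.1
      rw [← hnn]
      group
  · have e1 : {q : N × G // P q.2 ∧ (q.1 : G) * q.2 = q.2 * (q.1 : G)} ≃ Σ n : N, MulAction.fixedBy {y // P y} n :=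
      { toFun := fun q => ⟨q.1.1, ⟨⟨q.1.2, q.2.1⟩, Subtype.ext (by
            show (q.1.1 : G) * q.1.2 * (q.1.1 : G)⁻¹ = q.1.2
            rw [q.2.2, mul_inv_cancel_right])⟩⟩
        invFun := fun s => ⟨(s.1, s.2.1.1), s.2.1.2, by
            have h' : (s.1 : G) * s.2.1.1 * (s.1 : G)⁻¹ = s.2.1.1 :=
              congrArg Subtype.val (show s.1 • s.2.1 = s.2.1 from s.2.2)
            exact mul_inv_eq_iff_eq_mul.1 h'⟩
        left_inv := fun q => rfl
        right_inv := fun s => rfl }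
    rw [Nat.card_congr e1, Nat.card_congr (MulAction.sigmaFixedByEquivOrbitsProdGroup N {y // P y}), Nat.card_prod]

theorem h8_core {G : Type u_h8} [Group G] [Finite G] (N : Subgroup G) [N.Normal] (A B : ℕ) (hcop : A.Coprime B)
    (hE : ∀ g : G, g ^ (A * B) = 1) (x : G)
    {F : Type*} [Finite F] {TN : Type*} [Finite TN]
    (cls : F → ConjClasses G) (hinj : Function.Injective cls)
    (hrep : ∀ t : F, ∃ y : G, (y : G ⧸ N) = (x : G ⧸ N) ∧ y ^ A = 1 ∧ ConjClasses.mk y = cls t)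
    (cn : {y : G // y ∈ N ∧ y ^ A = 1} → TN)
    (hcn : ∀ y y', cn y = cn y' → ∃ n ∈ N, n * y.1 * n⁻¹ = y'.1) :
    Nat.card F ≤ Nat.card TN := by
  classical
  obtain ⟨pi, co, hpc, hpcc, hpiA, hcoB, hcomm, hsub, hprod⟩ := h8_jordan A B hcop hE
  have inv1 : ∀ n ∈ N, ∀ y : G, ((y : G ⧸ N) = (x : G ⧸ N) ∧ y ^ A = 1) → (((n * y * n⁻¹ : G) : G ⧸ N) = (x : G ⧸ N) ∧ (n * y * n⁻¹) ^ A = 1) := by
    intro n hn y hy
    constructor
    · have h1 : (n : G ⧸ N) = 1 := (QuotientGroup.eq_one_iff n).2 hn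
      rw [QuotientGroup.mk_mul, QuotientGroup.mk_mul, QuotientGroup.mk_inv, h1, one_mul, inv_one, mul_one]
      exact hy.1
    · rw [conj_pow, hy.2, mul_one, mul_inv_cancel]
  have inv2 : ∀ n ∈ N, ∀ y : G, (y ∈ N ∧ y ^ A = 1) → (n * y * n⁻¹ ∈ N ∧ (n * y * n⁻¹) ^ A = 1) := by
    intro n hn y hy
    refine ⟨N.mul_mem (N.mul_mem hn hy.1) (N.inv_mem hn), ?_⟩
    rw [conj_pow, hy.2, mul_one, mul_inv_cancel]
  obtain ⟨Ω1, hΩ1, o1, ho1s, ho1, hc1⟩ := h8_burnside N (fun y : G => (y : G ⧸ N) = (x : G ⧸ N) ∧ y ^ A = 1) inv1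
  obtain ⟨Ω2, hΩ2, o2, ho2s, ho2, hc2⟩ := h8_burnside N (fun y : G => y ∈ N ∧ y ^ A = 1) inv2
  haveI := hΩ1
  haveI := hΩ2
  have hs1 : Nat.card F ≤ Nat.card Ω1 := by
    choose y hy1 hy2 hy3 using hrep
    refine Nat.card_le_card_of_injective (fun t => o1 ⟨y t, hy1 t, hy2 t⟩) ?_
    intro t t' he
    obtain ⟨n, hn, hnn⟩ := (ho1 _ _).1 he
    apply hinj
    rw [← hy3, ← hy3]
    exact ConjClasses.mk_eq_mk_iff_isConj.2 (isConj_iff.2 ⟨n, hnn⟩)
  have hs3 : Nat.card Ω2 ≤ Nat.card TN := by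
    have ho2s' : ∀ ω, ∃ y, o2 y = ω := ho2s
    choose r hr using ho2s'
    refine Nat.card_le_card_of_injective (fun ω => cn (r ω)) ?_
    intro ω ω' he
    have h1 := hcn _ _ he
    calc ω = o2 (r ω) := (hr ω).symm
      _ = o2 (r ω') := (ho2 _ _).2 h1
      _ = ω' := hr ω'
  have hz : ∀ u : G, ∃ z0 : G, (∃ z : G, (z : G ⧸ N) = (x : G ⧸ N) ∧ z * u = u * z) → ((z0 : G ⧸ N) = (x : G ⧸ N) ∧ z0 * u = u * z0) := by
    intro u
    by_cases h : ∃ z : G, (z : G ⧸ N) = (x : G ⧸ N) ∧ z * u = u * z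
    · obtain ⟨z, hz⟩ := h
      exact ⟨z, fun _ => hz⟩
    · exact ⟨1, fun h' => absurd h' h⟩
  choose z0 hz0 using hz
  have hΦ : ∀ q : {q : N × G // ((q.2 : G ⧸ N) = (x : G ⧸ N) ∧ q.2 ^ A = 1) ∧ (q.1 : G) * q.2 = q.2 * (q.1 : G)},
      ∃ q' : {q : N × G // (q.2 ∈ N ∧ q.2 ^ A = 1) ∧ (q.1 : G) * q.2 = q.2 * (q.1 : G)},
        q'.1.2 = pi (q.1.1 : G) ∧ (q'.1.1 : G) = (z0 (pi (q.1.1 : G)))⁻¹ * (q.1.2 * co (q.1.1 : G)) := by
    rintro ⟨⟨⟨n, hn⟩, y⟩, ⟨hy1, hy2⟩, hny⟩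
    dsimp only at hy1 hy2 hny ⊢
    have hyc := hcomm n y hny.symm
    have hzu : (y * co n) * pi n = pi n * (y * co n) := by
      calc (y * co n) * pi n = y * (co n * pi n) := mul_assoc _ _ _
        _ = y * (pi n * co n) := by rw [hpcc n]
        _ = (y * pi n) * co n := (mul_assoc _ _ _).symm
        _ = (pi n * y) * co n := by rw [hyc.1]
        _ = pi n * (y * co n) := mul_assoc _ _ _
    have hzx : ((y * co n : G) : G ⧸ N) = (x : G ⧸ N) := by
      rw [QuotientGroup.mk_mul, hy1, (QuotientGroup.eq_one_iff (co n)).2 (hsub N n hn).2, mul_one]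
    have hz1 := hz0 (pi n) ⟨_, hzx, hzu⟩
    have hm : (z0 (pi n))⁻¹ * (y * co n) ∈ N := QuotientGroup.eq.1 (hz1.1.trans hzx.symm)
    have hmu : (z0 (pi n))⁻¹ * (y * co n) * pi n = pi n * ((z0 (pi n))⁻¹ * (y * co n)) := by
      have h0 : (z0 (pi n))⁻¹ * pi n = pi n * (z0 (pi n))⁻¹ := by
        rw [inv_mul_eq_iff_eq_mul, ← mul_assoc, hz1.2, mul_assoc, mul_inv_cancel, mul_one]
      calc (z0 (pi n))⁻¹ * (y * co n) * pi n = (z0 (pi n))⁻¹ * ((y * co n) * pi n) := mul_assoc _ _ _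
        _ = (z0 (pi n))⁻¹ * (pi n * (y * co n)) := by rw [hzu]
        _ = ((z0 (pi n))⁻¹ * pi n) * (y * co n) := (mul_assoc _ _ _).symm
        _ = (pi n * (z0 (pi n))⁻¹) * (y * co n) := by rw [h0]
        _ = pi n * ((z0 (pi n))⁻¹ * (y * co n)) := mul_assoc _ _ _
    exact ⟨⟨(⟨_, hm⟩, pi n), ⟨(hsub N n hn).1, hpiA n⟩, hmu⟩, rfl, rfl⟩
  choose Φ hΦ1 hΦ2 using hΦ
  have hs2 : Nat.card {q : N × G // ((q.2 : G ⧸ N) = (x : G ⧸ N) ∧ q.2 ^ A = 1) ∧ (q.1 : G) * q.2 = q.2 * (q.1 : G)} ≤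
      Nat.card {q : N × G // (q.2 ∈ N ∧ q.2 ^ A = 1) ∧ (q.1 : G) * q.2 = q.2 * (q.1 : G)} := by
    refine Nat.card_le_card_of_injective Φ ?_
    intro q q' he
    have h1 : pi (q.1.1 : G) = pi (q'.1.1 : G) := by
      rw [← hΦ1 q, ← hΦ1 q', he]
    have h2 : (z0 (pi (q.1.1 : G)))⁻¹ * (q.1.2 * co (q.1.1 : G)) = (z0 (pi (q'.1.1 : G)))⁻¹ * (q'.1.2 * co (q'.1.1 : G)) := by
      rw [← hΦ2 q, ← hΦ2 q', he]
    rw [← h1] at h2
    have h3 := mul_left_cancel h2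
    have hcomm1 := hcomm (q.1.1 : G) q.1.2 q.2.2.symm
    have hcomm2 := hcomm (q'.1.1 : G) q'.1.2 q'.2.2.symm
    have h4 := hprod q.1.2 (co (q.1.1 : G)) q.2.1.2 (hcoB _) hcomm1.2
    have h5 := hprod q'.1.2 (co (q'.1.1 : G)) q'.2.1.2 (hcoB _) hcomm2.2
    have h6 : q.1.2 = q'.1.2 := by
      rw [← h4.1, ← h5.1, h3]
    have h7 : co (q.1.1 : G) = co (q'.1.1 : G) := by
      rw [← h4.2, ← h5.2, h3]
    have h8 : (q.1.1 : G) = (q'.1.1 : G) := by
      rw [← hpc (q.1.1 : G), ← hpc (q'.1.1 : G), h1, h7]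
    exact Subtype.ext (Prod.ext (Subtype.ext h8) h6)
  rw [hc1, hc2] at hs2
  have hs4 : Nat.card Ω1 ≤ Nat.card Ω2 := Nat.le_of_mul_le_mul_right hs2 Nat.card_pos
  exact hs1.trans (hs4.trans hs3)

theorem h8_pred {X : Type*} [Group X] {π : Set ℕ} {A : ℕ} (hA : ∀ q : ℕ, q.Prime → q ∣ A → q ∈ π) (g : X) (hg : g ^ A = 1) :
    ∀ q : ℕ, q.Prime → (∃ g' : X, ConjClasses.mk g' = ConjClasses.mk g ∧ q ∣ orderOf g') → q ∈ π := by
  rintro q hq ⟨g', hg', hd⟩
  obtain ⟨c, hc⟩ := isConj_iff.1 (ConjClasses.mk_eq_mk_iff_isConj.1 hg')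
  have h1 : g' ^ A = 1 := by
    have h2 : (c * g' * c⁻¹) ^ A = 1 := by
      rw [hc]
      exact hg
    rw [conj_pow] at h2
    exact conj_eq_one_iff.1 h2
  exact hA q hq (hd.trans (orderOf_dvd_of_pow_eq_one h1))

abbrev H8T (π : Set ℕ) (X : Type*) [Group X] :=
  {C : ConjClasses X // ∀ q : ℕ, q.Prime → (∃ g : X, ConjClasses.mk g = C ∧ q ∣ orderOf g) → q ∈ π}

theorem h8_finT (π : Set ℕ) (X : Type*) [Group X] [Finite X] : Finite (H8T π X) := by
  haveI : Finite (ConjClasses X) := Quotient.finite _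
  exact Subtype.finite


/-- Let G be a finite group, N a normal subgroup and π a set of primes. Then the number of conjugacy classes of π-elements of G (elements whose order is divisible only by primes in π) is at most the number of conjugacy classes of π-elements of N (under conjugation by N) times the number of conjugacy classes of π-elements of G/N. -/
theorem result {G : Type*} [Group G] [Finite G] (N : Subgroup G) [N.Normal] (π : Set ℕ) :
    Nat.card {C : ConjClasses G // ∀ q : ℕ, q.Prime → (∃ g : G, ConjClasses.mk g = C ∧ q ∣ orderOf g) → q ∈ π} ≤ Nat.card {C : ConjClasses N // ∀ q : ℕ, q.Prime → (∃ g : N, ConjClasses.mk g = C ∧ q ∣ orderOf g) → q ∈ π} * Nat.card {C : ConjClasses (G ⧸ N) // ∀ q : ℕ, q.Prime → (∃ g : (G ⧸ N), ConjClasses.mk g = C ∧ q ∣ orderOf g) → q ∈ π} := by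
  classical
  show Nat.card (H8T π G) ≤ Nat.card (H8T π N) * Nat.card (H8T π (G ⧸ N))
  haveI := h8_finT π G
  haveI := h8_finT π N
  haveI := h8_finT π (G ⧸ N)
  obtain ⟨A, B, hAB, hA, hB⟩ := h8_parts π (Nat.card G) Nat.card_pos.ne'
  have hcop : A.Coprime B := by
    by_contra h
    obtain ⟨q, hq, h1, h2⟩ := Nat.Prime.not_coprime_iff_dvd.1 h
    exact hB q hq h2 (hA q hq h1)
  have hE : ∀ g : G, g ^ (A * B) = 1 := fun g => by
    rw [hAB]
    exact pow_card_eq_one'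
  have hto : ∀ g : G, (∀ q : ℕ, q.Prime → q ∣ orderOf g → q ∈ π) → g ^ A = 1 := by
    intro g hg
    have h1 : orderOf g ∣ A * B := orderOf_dvd_of_pow_eq_one (hE g)
    have h2 : (orderOf g).Coprime B := by
      by_contra h
      obtain ⟨q, hq, h3, h4⟩ := Nat.Prime.not_coprime_iff_dvd.1 h
      exact hB q hq h4 (hg q hq h3)
    exact orderOf_dvd_iff_pow_eq_one.1 (h2.dvd_of_dvd_mul_right h1)
  have hfmem : ∀ C : H8T π G,
      ∀ q : ℕ, q.Prime → (∃ g : G ⧸ N, ConjClasses.mk g = ConjClasses.map (QuotientGroup.mk' N) C.1 ∧ q ∣ orderOf g) → q ∈ π := by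
    rintro ⟨C, hC⟩
    obtain ⟨g, rfl⟩ := ConjClasses.exists_rep C
    have hg : g ^ A = 1 := hto g (fun q hq hd => hC q hq ⟨g, rfl, hd⟩)
    have hg' : (g : G ⧸ N) ^ A = 1 := by
      rw [← QuotientGroup.mk_pow, hg]
      rfl
    exact h8_pred hA (g : G ⧸ N) hg'
  let f : H8T π G → H8T π (G ⧸ N) := fun C => ⟨ConjClasses.map (QuotientGroup.mk' N) C.1, hfmem C⟩
  have hfib : ∀ t : H8T π (G ⧸ N), Nat.card {C : H8T π G // f C = t} ≤ Nat.card (H8T π N) := by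
    intro t
    by_cases hne : Nonempty {C : H8T π G // f C = t}
    · obtain ⟨⟨⟨C0, hC0⟩, hft⟩⟩ := hne
      obtain ⟨x, rfl⟩ := ConjClasses.exists_rep C0
      have hft' : ConjClasses.mk (x : G ⧸ N) = t.1 := congrArg Subtype.val hft
      refine h8_core N A B hcop hE x (fun s => s.1.1) ?_ ?_
        (fun y => ⟨ConjClasses.mk (⟨y.1, y.2.1⟩ : N), h8_pred hA _ (Subtype.ext y.2.2)⟩) ?_
      · intro s s' he
        exact Subtype.ext (Subtype.ext he)
      · rintro ⟨⟨C, hC⟩, hs⟩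
        obtain ⟨g, rfl⟩ := ConjClasses.exists_rep C
        have hg : g ^ A = 1 := hto g (fun q hq hd => hC q hq ⟨g, rfl, hd⟩)
        have h1 : ConjClasses.mk (g : G ⧸ N) = ConjClasses.mk (x : G ⧸ N) := by
          rw [hft']
          exact congrArg Subtype.val hs
        obtain ⟨c, hc⟩ := isConj_iff.1 (ConjClasses.mk_eq_mk_iff_isConj.1 h1)
        obtain ⟨c', rfl⟩ := QuotientGroup.mk_surjective c
        refine ⟨c' * g * c'⁻¹, ?_, ?_, ?_⟩
        · rw [QuotientGroup.mk_mul, QuotientGroup.mk_mul, QuotientGroup.mk_inv]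
          exact hc
        · rw [conj_pow, hg, mul_one, mul_inv_cancel]
        · exact ConjClasses.mk_eq_mk_iff_isConj.2 (isConj_iff.2 ⟨c'⁻¹, by group⟩)
      · intro y y' he
        have h1 : ConjClasses.mk (⟨y.1, y.2.1⟩ : N) = ConjClasses.mk (⟨y'.1, y'.2.1⟩ : N) := congrArg Subtype.val he
        obtain ⟨c, hc⟩ := isConj_iff.1 (ConjClasses.mk_eq_mk_iff_isConj.1 h1)
        refine ⟨c.1, c.2, ?_⟩
        exact congrArg Subtype.val hc
    · rw [not_nonempty_iff] at hne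
      rw [Nat.card_of_isEmpty]
      exact Nat.zero_le _
  haveI : Fintype (H8T π (G ⧸ N)) := Fintype.ofFinite _
  have h1 : Nat.card (H8T π G) = ∑ t : H8T π (G ⧸ N), Nat.card {C : H8T π G // f C = t} := by
    rw [← Nat.card_sigma]
    exact Nat.card_congr (Equiv.sigmaFiberEquiv f).symm
  rw [h1]
  have h3 : Fintype.card (H8T π (G ⧸ N)) = Nat.card (H8T π (G ⧸ N)) := Nat.card_eq_fintype_card.symm
  calc _ ≤ ∑ _t : H8T π (G ⧸ N), Nat.card (H8T π N) := Finset.sum_le_sum (fun t _ => hfib t)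
    _ = Nat.card (H8T π N) * Nat.card (H8T π (G ⧸ N)) := by
        rw [Finset.sum_const, Finset.card_univ, smul_eq_mul, h3, mul_comm]

end Cfsg.Agent.S4152
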