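import Cfsg.Statements.S4153
import Cfsg.Agent.Lib.FGS.FrobQuot

set_option autoImplicit false
open Cfsg

namespace Cfsg.Agent.S4153

/-- Let G be a finite group, p a prime, N a normal subgroup, P a Sylow p-subgroup of G and P̄ a Sylow p-subgroup of G/N. Count the elements of p-power order, the identity included. Then (number of such elements of G/N)/#P̄ ≤ (number of such elements of G)/#P, stated as a cross-multiplied inequality, with equality when N is central. -/
theorem result {G : Type*} [Group G] [Finite G] (p : ℕ) [Fact p.Prime] (N : Subgroup G) [N.Normal]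
    (P : Sylow p G) (Pbar : Sylow p (G ⧸ N)) :
    Nat.card {g : (G ⧸ N) // ∃ k : ℕ, orderOf g = p ^ k} * Nat.card (P : Subgroup G) ≤ Nat.card {g : G // ∃ k : ℕ, orderOf g = p ^ k} * Nat.card (Pbar : Subgroup (G ⧸ N)) ∧
    (N ≤ Subgroup.center G → Nat.card {g : (G ⧸ N) // ∃ k : ℕ, orderOf g = p ^ k} * Nat.card (P : Subgroup G) = Nat.card {g : G // ∃ k : ℕ, orderOf g = p ^ k} * Nat.card (Pbar : Subgroup (G ⧸ N))) := by
  classical
  letI := Fintype.ofFinite (G ⧸ N)
  have hp : p.Prime := Fact.out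
  set s := (Nat.card N).factorization p with hs
  have hP : Nat.card (P : Subgroup G) = Nat.card (Pbar : Subgroup (G ⧸ N)) * p ^ s := by
    rw [Sylow.card_eq_multiplicity P, Sylow.card_eq_multiplicity Pbar, ← pow_add, hs,
      Subgroup.card_eq_card_quotient_mul_card_subgroup N,
      Nat.factorization_mul Nat.card_pos.ne' Nat.card_pos.ne']
    rfl
  have ha : Nat.card {g : (G ⧸ N) // ∃ k : ℕ, orderOf g = p ^ k} =
      (Finset.univ.filter (fun y : G ⧸ N => ∃ k, y ^ p ^ k = 1)).card := by
    rw [Nat.card_eq_fintype_card, Fintype.card_subtype]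
    congr 1
    ext y
    simp only [Finset.mem_filter, Finset.mem_univ, true_and]
    exact CfsgLib.FGS.pelts_iff hp y
  have hb : Nat.card {g : G // ∃ k : ℕ, orderOf g = p ^ k} = Nat.card {g : G // ∃ k, g ^ p ^ k = 1} :=
    Nat.card_congr (Equiv.subtypeEquivRight (fun g => CfsgLib.FGS.pelts_iff hp g))
  have hsum := CfsgLib.FGS.card_pelts_eq_sum hp N
  rw [ha, hb, hP, hsum]
  constructor
  · have h1 : (Finset.univ.filter (fun y : G ⧸ N => ∃ k, y ^ p ^ k = 1)).card * p ^ s ≤
        ∑ y ∈ Finset.univ.filter (fun y : G ⧸ N => ∃ k, y ^ p ^ k = 1),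
          CfsgLib.FGS.cosetPelts N p y := by
      rw [← smul_eq_mul]
      apply Finset.card_nsmul_le_sum
      intro y hy
      have hy' : ∃ k, y ^ p ^ k = 1 := by simpa using hy
      exact Nat.le_of_dvd (CfsgLib.FGS.cosetPelts_pos hp N y hy')
        (CfsgLib.FGS.dvd_cosetPelts hp N y hy' s (Nat.ordProj_dvd _ _))
    calc _ = ((Finset.univ.filter (fun y : G ⧸ N => ∃ k, y ^ p ^ k = 1)).card * p ^ s) *
          Nat.card (Pbar : Subgroup (G ⧸ N)) := by ring
      _ ≤ _ := Nat.mul_le_mul_right _ h1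
  · intro hN
    have h1 : ∑ y ∈ Finset.univ.filter (fun y : G ⧸ N => ∃ k, y ^ p ^ k = 1),
        CfsgLib.FGS.cosetPelts N p y =
        (Finset.univ.filter (fun y : G ⧸ N => ∃ k, y ^ p ^ k = 1)).card * p ^ s := by
      rw [← smul_eq_mul, ← Finset.sum_const]
      apply Finset.sum_congr rfl
      intro y hy
      have hy' : ∃ k, y ^ p ^ k = 1 := by simpa using hy
      exact CfsgLib.FGS.cosetPelts_central hp N hN y hy'
    rw [h1]
    ring

end Cfsg.Agent.S4153
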