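import Cfsg.Statements.S4154
import Cfsg.Agent.Lib.FGS.Elem2

set_option autoImplicit false
open Cfsg

namespace Cfsg.Agent.S4154

/-- Let G be a finite group and α an automorphism of G such that every element of G is the product of an element fixed by α and an element of the form g⁻¹α(g). If N is a normal α-invariant subgroup, then the automorphism ᾱ induced on G/N has the same property, and every coset fixed by ᾱ contains an element fixed by α (so the fixed points of ᾱ are the images of the fixed points of α). -/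
theorem result {G : Type*} [Group G] [Finite G] (α : MulAut G)
    (hccp : ∀ x : G, ∃ c g : G, α c = c ∧ x = c * (g⁻¹ * α g))
    (N : Subgroup G) [N.Normal] (hN : ∀ n ∈ N, α n ∈ N) :
    (∀ x : G, ∃ c g : G, c⁻¹ * α c ∈ N ∧ x⁻¹ * (c * (g⁻¹ * α g)) ∈ N) ∧
    (∀ x : G, x⁻¹ * α x ∈ N → ∃ c : G, α c = c ∧ c⁻¹ * x ∈ N) := by
  classical
  refine ⟨?_, ?_⟩
  · intro x
    obtain ⟨c, g, hc, hx⟩ := hccp x
    refine ⟨c, g, by rw [hc]; simp [N.one_mem], ?_⟩
    rw [← hx]; simp [N.one_mem]
  · intro x hx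
    -- the quotient
    have hN' : N ≤ N.comap α.toMonoidHom := fun n hn => hN n hn
    let ab : (G ⧸ N) →* (G ⧸ N) := QuotientGroup.map N N α.toMonoidHom hN'
    have hab : ∀ y : G, ab (QuotientGroup.mk y) = QuotientGroup.mk (α y) := fun y => rfl
    let F : Subgroup (G ⧸ N) := MonoidHom.eqLocus ab (MonoidHom.id _)
    have hF : ∀ q, q ∈ F ↔ ab q = q := fun q => Iff.rfl
    let f : G ⧸ N → G ⧸ N := fun q => q⁻¹ * ab q
    let I : Set (G ⧸ N) := Set.range f
    -- injection `F × I → Q`
    have hfinv : ∀ (c : G ⧸ N) (q : G ⧸ N), c ∈ F → f (c * q) = f q := by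
      intro c q hc
      have : ab c = c := hc
      simp only [f, map_mul, this]
      group
    choose s hs using (fun i : I => (i.2 : ∃ q, f q = i.1))
    have hcard : Nat.card (F × I) ≤ Nat.card (G ⧸ N) := by
      apply Nat.card_le_card_of_injective (fun p : F × I => (p.1 : G ⧸ N) * s p.2)
      rintro ⟨c, i⟩ ⟨c', i'⟩ h
      have h' : (c : G ⧸ N) * s i = c' * s i' := h
      have h1 : i = i' := by
        apply Subtype.ext
        rw [← hs i, ← hs i', ← hfinv c (s i) c.2, h', hfinv c' (s i') c'.2]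
      subst h1
      have h2 : (c : G ⧸ N) = c' := mul_right_cancel h'
      exact Prod.ext (Subtype.ext h2) rfl
    -- surjectivity of the multiplication map
    have hmem1 : (1 : G ⧸ N) ∈ I := ⟨1, by simp [f]⟩
    have hsurj : Function.Surjective (fun p : F × I => (p.1 : G ⧸ N) * p.2) := by
      intro q
      obtain ⟨y, rfl⟩ := QuotientGroup.mk_surjective q
      obtain ⟨c, g, hc, hy⟩ := hccp y
      have hcF : (QuotientGroup.mk c : G ⧸ N) ∈ F := by
        rw [hF, hab, hc]
      refine ⟨(⟨_, hcF⟩, ⟨f (QuotientGroup.mk g), ⟨_, rfl⟩⟩), ?_⟩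
      simp only [f, hab]
      rw [hy]
      rfl
    have hbij := hsurj.bijective_of_nat_card_le hcard
    -- conclusion
    obtain ⟨c, g, hc, hxe⟩ := hccp x
    refine ⟨c, hc, ?_⟩
    have hxF : (QuotientGroup.mk x : G ⧸ N) ∈ F := by
      rw [hF, hab]
      exact (QuotientGroup.eq.mpr hx).symm
    have hcF : (QuotientGroup.mk c : G ⧸ N) ∈ F := by
      rw [hF, hab, hc]
    have hxe2 : (QuotientGroup.mk x : G ⧸ N) = QuotientGroup.mk c * f (QuotientGroup.mk g) := by
      simp only [f, hab]
      rw [hxe]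
      rfl
    have hiF : f (QuotientGroup.mk g) ∈ F := by
      have : f (QuotientGroup.mk g) = (QuotientGroup.mk c : G ⧸ N)⁻¹ * QuotientGroup.mk x := by
        rw [hxe2]; group
      rw [this]
      exact F.mul_mem (F.inv_mem hcF) hxF
    have heq := hbij.1 (a₁ := (⟨_, hiF⟩, ⟨1, hmem1⟩)) (a₂ := (1, ⟨f (QuotientGroup.mk g), ⟨_, rfl⟩⟩)) (by simp)
    have hi1 : (1 : G ⧸ N) = f (QuotientGroup.mk g) := by
      have := congrArg (fun p : F × I => (p.2 : G ⧸ N)) heq
      simpa using this
    have : (QuotientGroup.mk (c⁻¹ * x) : G ⧸ N) = 1 := by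
      rw [QuotientGroup.mk_mul, QuotientGroup.mk_inv, hxe2, ← hi1]
      simp
    exact (QuotientGroup.eq_one_iff _).mp this

end Cfsg.Agent.S4154
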