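import Cfsg.Statements.S4155
import Cfsg.Agent.Lib.FGS.Cyc
import Cfsg.Agent.Lib.SS.UniqueP
import Cfsg.Agent.Lib.Solv.Fit

set_option autoImplicit false
open Cfsg
open scoped commutatorElement
open scoped Pointwise

namespace Cfsg.Agent.S4155

/-- Let G be a finite group and N a proper non-trivial normal nilpotent subgroup whose order is not a prime power, such that for every x outside N all elements of the coset xN have the same order as x. Then N is the Fitting subgroup of G, and for every prime q every Sylow q-subgroup of G/N is cyclic or generalized quaternion. -/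
theorem result {G : Type*} [Group G] [Finite G] (N : Subgroup G) [N.Normal] (hN1 : N ≠ ⊥) (hN2 : N ≠ ⊤)
    (heq : ∀ x : G, x ∉ N → ∀ n ∈ N, orderOf (x * n) = orderOf x)
    (hnil : Group.IsNilpotent N) (hnpp : ¬ IsPrimePow (Nat.card N)) :
    N = Cfsg.fittingSubgroup G ∧
    ∀ (q : ℕ) [Fact q.Prime] (Q : Sylow q (G ⧸ N)), IsCyclic (Q : Subgroup (G ⧸ N)) ∨ ∃ n : ℕ, Nonempty ((Q : Subgroup (G ⧸ N)) ≃* QuaternionGroup (2 ^ n)) := by
  classical
  have hNcard1 : Nat.card N ≠ 1 := fun h => hN1 (Subgroup.eq_bot_of_card_eq N h)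
  have hprime : ∀ q : ℕ, q.Prime → ∃ r : ℕ, r.Prime ∧ r ≠ q ∧ r ∣ Nat.card N := by
    intro q hq
    by_contra hcon
    push Not at hcon
    have h1 : ∀ {r : ℕ}, r.Prime → r ∣ Nat.card N → r = q := fun {r} hr hd => by
      by_contra hne
      exact hcon r hr hne hd
    have h2 := Nat.eq_prime_pow_of_unique_prime_dvd (Nat.card_pos (α := N)).ne' h1
    apply hnpp
    rw [h2]
    refine ⟨q, _, hq.prime, ?_, rfl⟩
    rw [Nat.pos_iff_ne_zero]
    intro h0
    rw [h0, pow_zero] at h2
    exact hNcard1 h2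
  -- central `r`-subgroups of `N`
  have hA : ∀ r : ℕ, r.Prime → r ∣ Nat.card N → ∃ A : Subgroup G, A.Normal ∧ A ≠ ⊥ ∧ A ≤ N ∧
      (∀ a ∈ A, ∀ n ∈ N, a * n = n * a) ∧ ∀ a ∈ A, ∃ k : ℕ, a ^ (r ^ k) = 1 := by
    intro r hr hd
    haveI : Fact r.Prime := ⟨hr⟩
    let A : Subgroup G :=
      { carrier := {z | z ∈ N ∧ (∀ n ∈ N, z * n = n * z) ∧ ∃ k : ℕ, z ^ (r ^ k) = 1}
        one_mem' := ⟨N.one_mem, by simp, 0, by simp⟩
        mul_mem' := by
          rintro a b ⟨ha, ha2, k, hk⟩ ⟨hb, hb2, l, hl⟩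
          refine ⟨N.mul_mem ha hb, ?_, k + l, ?_⟩
          · intro n hn
            rw [mul_assoc, hb2 n hn, ← mul_assoc, ha2 n hn, mul_assoc]
          · have hc : Commute a b := ha2 b hb
            have h1 : a ^ r ^ (k + l) = 1 := by rw [pow_add, pow_mul, hk, one_pow]
            have h2 : b ^ r ^ (k + l) = 1 := by rw [pow_add, mul_comm, pow_mul, hl, one_pow]
            rw [hc.mul_pow, h1, h2, one_mul]
        inv_mem' := by
          rintro a ⟨ha, ha2, k, hk⟩
          refine ⟨N.inv_mem ha, ?_, k, ?_⟩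
          · intro n hn
            exact (Commute.inv_left (show Commute a n from ha2 n hn)).eq
          · rw [inv_pow, hk, inv_one] }
    refine ⟨A, ?_, ?_, fun a ha => ha.1, fun a ha => ha.2.1, fun a ha => ha.2.2⟩
    · constructor
      rintro a ⟨ha, ha2, k, hk⟩ g
      refine ⟨‹N.Normal›.conj_mem a ha g, ?_, k, ?_⟩
      · intro n hn
        have h1 := ha2 _ (‹N.Normal›.conj_mem n hn g⁻¹)
        rw [inv_inv] at h1
        calc g * a * g⁻¹ * n = g * (a * (g⁻¹ * n * g)) * g⁻¹ := by group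
          _ = g * ((g⁻¹ * n * g) * a) * g⁻¹ := by rw [h1]
          _ = n * (g * a * g⁻¹) := by group
      · rw [conj_pow, hk]
        simp
    · haveI hnilN : Group.IsNilpotent N := hnil
      let P : Sylow r N := default
      have hPn : (P : Subgroup N).Normal := by
        have q := (Group.isNilpotent_of_finite_tfae (G := N)).out 0 3
        exact (q.1 hnilN) r inferInstance P
      have hPne : (P : Subgroup N) ≠ ⊥ := P.ne_bot_of_dvd_card hd
      have h1 := CfsgLib.Solv.normal_inf_center_ne_bot (P : Subgroup N) hPne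
      obtain ⟨z, ⟨hzP, hzc⟩, hz1⟩ := (Subgroup.bot_or_exists_ne_one _).resolve_left h1
      intro hbot
      have hzA : (z : G) ∈ A := by
        refine ⟨z.2, ?_, ?_⟩
        · intro n hn
          have h2 := Subgroup.mem_center_iff.1 hzc ⟨n, hn⟩
          have h3 := congrArg (fun w : N => (w : G)) h2
          exact h3.symm
        · obtain ⟨k, hk⟩ := P.isPGroup' ⟨z, hzP⟩
          refine ⟨k, ?_⟩
          have h3 := congrArg (fun w : (P : Subgroup N) => ((w : N) : G)) hk
          simpa using h3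
      rw [hbot, Subgroup.mem_bot] at hzA
      exact hz1 (Subtype.ext hzA)
  have hkey : ∀ g, g ∉ N → ∀ a ∈ N, g * a = a * g → (orderOf g).Coprime (orderOf a) → a = 1 := by
    intro g hg a ha hc hcop
    have h1 : orderOf (g * a) = orderOf g * orderOf a :=
      Commute.orderOf_mul_eq_mul_orderOf_of_coprime hc hcop
    rw [heq g hg a ha] at h1
    have h2 : orderOf g * 1 = orderOf g * orderOf a := by
      rw [mul_one]
      exact h1
    have h3 := Nat.eq_of_mul_eq_mul_left (orderOf_pos g) h2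
    exact orderOf_eq_one_iff.1 h3.symm
  constructor
  · -- the Fitting subgroup
    apply le_antisymm (CfsgLib.FGS.le_fittingSubgroup N hnil)
    intro x hx
    by_contra hxN
    haveI hFn : (Cfsg.fittingSubgroup G).Normal := CfsgLib.Solv.fittingSubgroup_normal'
    have hFnil : Group.IsNilpotent (Cfsg.fittingSubgroup G) := CfsgLib.Solv.fitting_nilpotent
    have hNF : N ≤ Cfsg.fittingSubgroup G := CfsgLib.FGS.le_fittingSubgroup N hnil
    have hFcomm : ∀ u ∈ Cfsg.fittingSubgroup G, ∀ v ∈ Cfsg.fittingSubgroup G, (orderOf u).Coprime (orderOf v) →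
        u * v = v * u := by
      intro u hu v hv hc
      have h1 := CfsgLib.FGS.commute_of_coprime_of_nilpotent _ (Cfsg.fittingSubgroup G) rfl ⟨u, hu⟩ ⟨v, hv⟩
        (by rw [Subgroup.orderOf_mk, Subgroup.orderOf_mk]; exact hc)
      exact congrArg Subtype.val h1
    obtain ⟨r₁, hr₁, hr₁d⟩ := Nat.exists_prime_and_dvd hNcard1
    obtain ⟨r₂, hr₂, hne, hr₂d⟩ := hprime r₁ hr₁
    obtain ⟨A₁, -, hA₁0, hA₁N, -, hA₁e⟩ := hA r₁ hr₁ hr₁d
    obtain ⟨A₂, -, hA₂0, hA₂N, -, hA₂e⟩ := hA r₂ hr₂ hr₂d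
    obtain ⟨a₁, ha₁, ha₁1⟩ := (Subgroup.bot_or_exists_ne_one A₁).resolve_left hA₁0
    obtain ⟨a₂, ha₂, ha₂1⟩ := (Subgroup.bot_or_exists_ne_one A₂).resolve_left hA₂0
    have hord : ∀ (r : ℕ) (a : G), r.Prime → (∃ k : ℕ, a ^ (r ^ k) = 1) → ∃ j : ℕ, orderOf a = r ^ j := by
      rintro r a hr ⟨k, hk⟩
      obtain ⟨j, _, hj⟩ := (Nat.dvd_prime_pow hr).1 (orderOf_dvd_of_pow_eq_one hk)
      exact ⟨j, hj⟩
    obtain ⟨s, t, hs, ht, hst, -, ⟨k, hk⟩, htc⟩ := CfsgLib.FGS.exists_primary_decomp r₁ hr₁ x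
    have hsF : s ∈ Cfsg.fittingSubgroup G := (Subgroup.zpowers_le).2 hx hs
    have htF : t ∈ Cfsg.fittingSubgroup G := (Subgroup.zpowers_le).2 hx ht
    -- the `r₁'`-part lies in `N`
    have htN : t ∈ N := by
      by_contra htN
      obtain ⟨j, hj⟩ := hord r₁ a₁ hr₁ (hA₁e a₁ ha₁)
      have hc : (orderOf t).Coprime (orderOf a₁) := by
        rw [hj]
        exact Nat.Coprime.pow_right j htc
      exact ha₁1 (hkey t htN a₁ (hA₁N ha₁) (hFcomm t htF a₁ (hNF (hA₁N ha₁)) hc) hc)
    have hsN : s ∉ N := by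
      intro h
      apply hxN
      rw [hst]
      exact N.mul_mem h htN
    obtain ⟨j, hj⟩ := hord r₂ a₂ hr₂ (hA₂e a₂ ha₂)
    have hc : (orderOf s).Coprime (orderOf a₂) := by
      rw [hj, hk]
      exact Nat.Coprime.pow k j ((Nat.coprime_primes hr₁ hr₂).2 (Ne.symm hne))
    exact ha₂1 (hkey s hsN a₂ (hA₂N ha₂) (hFcomm s hsF a₂ (hNF (hA₂N ha₂)) hc) hc)
  · intro q _ Q
    have hq : q.Prime := Fact.out
    obtain ⟨r, hr, hrq, hrd⟩ := hprime q hq
    obtain ⟨A, hAn, hA0, hAN, hAc, hAe⟩ := hA r hr hrd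
    haveI := hAn
    -- the action of `G / N` on `A`
    let φ₀ : G →* MulAut A := MulAut.conjNormal
    have hφ₀ : ∀ (g : G) (a : A), ((φ₀ g a : A) : G) = g * a * g⁻¹ := fun g a => MulAut.conjNormal_apply _ _
    have hker : N ≤ φ₀.ker := by
      intro n hn
      rw [MonoidHom.mem_ker]
      apply MulEquiv.ext
      intro a
      apply Subtype.ext
      rw [hφ₀]
      have h1 := hAc a a.2 n hn
      rw [mul_inv_eq_iff_eq_mul]
      exact h1.symm
    let φ : G ⧸ N →* MulAut A := QuotientGroup.lift N φ₀ hker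
    have hφ : ∀ (g : G) (a : A), ((φ (QuotientGroup.mk' N g) a : A) : G) = g * a * g⁻¹ := fun g a => hφ₀ g a
    let X := SemidirectProduct A (G ⧸ N) φ
    haveI : Finite X := Finite.of_equiv _ SemidirectProduct.equivProd.symm
    let K : Subgroup X := (SemidirectProduct.inl : A →* X).range
    haveI hKn : K.Normal := by
      show (SemidirectProduct.inl : A →* X).range.Normal
      rw [SemidirectProduct.range_inl_eq_ker_rightHom]
      infer_instance
    have hK0 : K ≠ ⊥ := by
      intro h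
      obtain ⟨a, ha, ha1⟩ := (Subgroup.bot_or_exists_ne_one A).resolve_left hA0
      have h1 : (SemidirectProduct.inl ⟨a, ha⟩ : X) ∈ K := ⟨_, rfl⟩
      rw [h, Subgroup.mem_bot] at h1
      apply ha1
      have h2 : (⟨a, ha⟩ : A) = 1 := SemidirectProduct.inl_injective (by rw [h1, map_one])
      exact congrArg Subtype.val h2
    let H : Subgroup X := (Q : Subgroup (G ⧸ N)).map (SemidirectProduct.inr : G ⧸ N →* X)
    obtain ⟨Q₁, hQ₁⟩ := Sylow.mapSurjective_surjective (QuotientGroup.mk'_surjective N) q Q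
    have hQ₁' : (Q : Subgroup (G ⧸ N)) = (Q₁ : Subgroup G).map (QuotientGroup.mk' N) := by
      rw [← hQ₁]
      rfl
    have hfpf : ∀ h ∈ H, h ≠ 1 → K ⊓ Subgroup.centralizer {h} = ⊥ := by
      rintro _ ⟨h₀, hh₀, rfl⟩ hne
      rw [hQ₁'] at hh₀
      obtain ⟨g, hg, rfl⟩ := hh₀
      have hgN : g ∉ N := by
        intro h
        apply hne
        have h1 : QuotientGroup.mk' N g = 1 := (QuotientGroup.eq_one_iff g).2 h
        rw [h1, map_one]
      rw [eq_bot_iff]
      rintro y ⟨⟨a, rfl⟩, hyc⟩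
      have h1 : (SemidirectProduct.inl a : X) * SemidirectProduct.inr (QuotientGroup.mk' N g) =
          SemidirectProduct.inr (QuotientGroup.mk' N g) * SemidirectProduct.inl a :=
        Subgroup.mem_centralizer_singleton_iff.1 hyc
      have h2 : (SemidirectProduct.inl (φ (QuotientGroup.mk' N g) a) : X) = SemidirectProduct.inl a := by
        rw [SemidirectProduct.inl_aut, ← h1, map_inv, mul_inv_cancel_right]
      have h3 := SemidirectProduct.inl_injective h2
      have h4 : g * a * g⁻¹ = a := by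
        rw [← hφ, h3]
      rw [mul_inv_eq_iff_eq_mul] at h4
      have hgord : ∃ k : ℕ, orderOf g = q ^ k := by
        obtain ⟨k, hk⟩ := (IsPGroup.iff_orderOf.1 Q₁.isPGroup') ⟨g, hg⟩
        refine ⟨k, ?_⟩
        rw [← hk]
        exact (Subgroup.orderOf_mk g hg).symm
      obtain ⟨k, hk⟩ := hgord
      obtain ⟨l, hl⟩ := hAe a a.2
      obtain ⟨j, _, hj⟩ := (Nat.dvd_prime_pow hr).1 (orderOf_dvd_of_pow_eq_one hl)
      have hc : (orderOf g).Coprime (orderOf (a : G)) := by
        rw [hk, hj]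
        exact Nat.Coprime.pow k j ((Nat.coprime_primes hq hr).2 (Ne.symm hrq))
      have h5 := hkey g hgN a (hAN a.2) h4 hc
      have h6 : a = 1 := Subtype.ext h5
      rw [h6, map_one, Subgroup.mem_bot]
    have hHq : IsPGroup q H := by
      have h1 : IsPGroup q (Q : Subgroup (G ⧸ N)) := Q.isPGroup'
      exact h1.map _
    obtain ⟨P, hP⟩ := IsPGroup.exists_le_sylow (p := q) (P := (⊤ : Subgroup H)) (IsPGroup.to_subgroup hHq ⊤)
    have hPtop : (P : Subgroup H) = ⊤ := top_le_iff.1 hP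
    have hstruct := CfsgLib.SS.fpf_sylow_structure K H hK0 hfpf q P
    have e : (Q : Subgroup (G ⧸ N)) ≃* ↥(P : Subgroup H) :=
      ((Q : Subgroup (G ⧸ N)).equivMapOfInjective _ SemidirectProduct.inr_injective).trans
        (Subgroup.topEquiv.symm.trans (MulEquiv.subgroupCongr hPtop.symm))
    rcases hstruct with h | ⟨n, ⟨e'⟩⟩
    · left
      exact isCyclic_of_surjective e.symm.toMonoidHom e.symm.surjective
    · right
      exact ⟨n, ⟨e.trans e'⟩⟩

end Cfsg.Agent.S4155
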