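import Cfsg.Statements.S4156
import Cfsg.Agent.Lib.FGS.Basic

set_option autoImplicit false
open Cfsg

namespace Cfsg.Agent.S4156

section rep
variable {n : ℕ} {F : Type*} [Field F]

def PP (σ : Equiv.Perm (Fin (n + 1))) : Matrix (Fin (n + 1)) (Fin (n + 1)) F :=
  fun i j => if σ j = i then 1 else 0

theorem PP_mul (σ τ : Equiv.Perm (Fin (n + 1))) : (PP σ * PP τ : Matrix _ _ F) = PP (σ * τ) := by
  ext i j
  rw [Matrix.mul_apply]
  simp only [PP, Equiv.Perm.mul_apply]
  rw [Finset.sum_eq_single (τ j)]
  · simp
    congr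
  · intro b _ hb
    have : τ j ≠ b := fun h => hb h.symm
    simp [this]
  · simp

theorem PP_col (τ : Equiv.Perm (Fin (n + 1))) (j : Fin (n + 1)) : ∑ k, (PP τ k j : F) = 1 := by
  simp [PP]

def RR (σ : Equiv.Perm (Fin (n + 1))) : Matrix (Fin n) (Fin n) F :=
  fun i j => PP σ i.castSucc j.castSucc - PP σ i.castSucc (Fin.last n)

theorem RR_mul (σ τ : Equiv.Perm (Fin (n + 1))) : (RR σ * RR τ : Matrix _ _ F) = RR (σ * τ) := by
  ext i j
  rw [Matrix.mul_apply]
  simp only [RR]
  rw [← PP_mul, Matrix.mul_apply, Matrix.mul_apply, ← Finset.sum_sub_distrib]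
  set X : Fin (n + 1) → F := fun k => PP τ k j.castSucc - PP τ k (Fin.last n) with hX
  have hsum : ∑ k, X k = 0 := by
    simp only [hX, Finset.sum_sub_distrib, PP_col, sub_self]
  rw [Fin.sum_univ_castSucc] at hsum
  have h1 : ∀ x : Fin (n + 1), (PP σ i.castSucc x * PP τ x j.castSucc - PP σ i.castSucc x * PP τ x (Fin.last n) : F) = PP σ i.castSucc x * X x := by
    intro x
    simp only [hX]
    ring
  rw [Finset.sum_congr rfl (fun x _ => h1 x), Fin.sum_univ_castSucc]
  have h2 : X (Fin.last n) = - ∑ k : Fin n, X k.castSucc := by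
    linear_combination hsum
  have h3 : ∀ x : Fin n, ((PP σ i.castSucc x.castSucc - PP σ i.castSucc (Fin.last n)) * (PP τ x.castSucc j.castSucc - PP τ x.castSucc (Fin.last n)) : F) = PP σ i.castSucc x.castSucc * X x.castSucc - PP σ i.castSucc (Fin.last n) * X x.castSucc := by
    intro x
    simp only [hX]
    ring
  rw [Finset.sum_congr rfl (fun x _ => h3 x), Finset.sum_sub_distrib, ← Finset.mul_sum, h2]
  ring

theorem RR_one : (RR 1 : Matrix (Fin n) (Fin n) F) = 1 := by
  ext i j
  simp [RR, PP, Matrix.one_apply, Fin.castSucc_inj, eq_comm]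

end rep


/-- Let n ≥ 5 and F a finite field. Then the projective special linear group PSL_n(F) contains a subgroup isomorphic to the alternating group of degree n + 1. -/
theorem result (n : ℕ) (hn : 5 ≤ n) (F : Type*) [Field F] [Finite F] :
    ∃ f : alternatingGroup (Fin (n + 1)) →* Matrix.ProjectiveSpecialLinearGroup (Fin n) F, Function.Injective f := by
  classical
  have hcard : 5 ≤ Nat.card (Fin (n + 1)) := by
    rw [Nat.card_eq_fintype_card, Fintype.card_fin]
    omega
  haveI hsimple : IsSimpleGroup (alternatingGroup (Fin (n + 1))) := alternatingGroup.isSimpleGroup hcard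
  have hcen : Subgroup.center (alternatingGroup (Fin (n + 1))) = ⊥ := alternatingGroup.center_eq_bot (by omega)
  let a : Fin (n + 1) := ⟨0, by omega⟩
  let b : Fin (n + 1) := ⟨1, by omega⟩
  let d : Fin (n + 1) := ⟨2, by omega⟩
  have hab : a ≠ b := by simp [a, b, Fin.ext_iff]
  have hbd : b ≠ d := by simp [b, d, Fin.ext_iff]
  have had : a ≠ d := by simp [a, d, Fin.ext_iff]
  let σ₀ : alternatingGroup (Fin (n + 1)) := ⟨Equiv.swap a b * Equiv.swap b d, by
    rw [Equiv.Perm.mem_alternatingGroup, Equiv.Perm.sign_mul, Equiv.Perm.sign_swap hab, Equiv.Perm.sign_swap hbd]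
    rfl⟩
  have hσ₀ : (σ₀ : Equiv.Perm (Fin (n + 1))) a = b := by
    show (Equiv.swap a b * Equiv.swap b d) a = b
    rw [Equiv.Perm.mul_apply, Equiv.swap_apply_of_ne_of_ne hab had, Equiv.swap_apply_left]
  let Rh : alternatingGroup (Fin (n + 1)) →* Matrix (Fin n) (Fin n) F :=
    { toFun := fun s => RR (s : Equiv.Perm (Fin (n + 1)))
      map_one' := RR_one
      map_mul' := fun s t => (RR_mul _ _).symm }
  let u : alternatingGroup (Fin (n + 1)) →* Fˣ := (Matrix.detMonoidHom.comp Rh).toHomUnits
  have hu : ∀ s, u s = 1 := by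
    have hker : u.ker = ⊥ ∨ u.ker = ⊤ := Subgroup.Normal.eq_bot_or_eq_top (MonoidHom.normal_ker u)
    rcases hker with h | h
    · exfalso
      have hinj := (MonoidHom.ker_eq_bot_iff u).mp h
      have hc : ∀ x y : alternatingGroup (Fin (n + 1)), x * y = y * x := by
        intro x y
        apply hinj
        rw [map_mul, map_mul, mul_comm]
      have h1 : σ₀ ∈ Subgroup.center (alternatingGroup (Fin (n + 1))) :=
        Subgroup.mem_center_iff.mpr (fun y => hc y σ₀)
      rw [hcen, Subgroup.mem_bot] at h1
      have h2 := hσ₀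
      rw [h1] at h2
      exact hab h2
    · intro s
      have : s ∈ u.ker := by rw [h]; trivial
      exact this
  have hdet : ∀ s, (Rh s).det = 1 := by
    intro s
    have := congrArg Units.val (hu s)
    exact this
  let sl : alternatingGroup (Fin (n + 1)) →* Matrix.SpecialLinearGroup (Fin n) F :=
    { toFun := fun s => ⟨Rh s, hdet s⟩
      map_one' := by
        apply Subtype.ext
        exact map_one Rh
      map_mul' := by
        intro x y
        apply Subtype.ext
        exact map_mul Rh x y }
  let f : alternatingGroup (Fin (n + 1)) →* Matrix.ProjectiveSpecialLinearGroup (Fin n) F :=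
    (QuotientGroup.mk' _).comp sl
  refine ⟨f, ?_⟩
  have hker : f.ker = ⊥ ∨ f.ker = ⊤ := Subgroup.Normal.eq_bot_or_eq_top (MonoidHom.normal_ker f)
  rcases hker with h | h
  · exact (MonoidHom.ker_eq_bot_iff f).mp h
  · exfalso
    have h1 : σ₀ ∈ f.ker := by rw [h]; trivial
    have h2 : sl σ₀ ∈ Subgroup.center (Matrix.SpecialLinearGroup (Fin n) F) := by
      have : (QuotientGroup.mk' _) (sl σ₀) = 1 := h1
      exact (QuotientGroup.eq_one_iff _).mp this
    obtain ⟨r, -, hr⟩ := Matrix.SpecialLinearGroup.mem_center_iff.mp h2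
    let i0 : Fin n := ⟨0, by omega⟩
    let i1 : Fin n := ⟨1, by omega⟩
    have hi : i1 ≠ i0 := by simp [i0, i1, Fin.ext_iff]
    have h3 : Matrix.scalar (Fin n) r i1 i0 = (sl σ₀ : Matrix (Fin n) (Fin n) F) i1 i0 := by
      rw [hr]
    rw [Matrix.scalar_apply, Matrix.diagonal_apply_ne _ hi] at h3
    have h4 : (sl σ₀ : Matrix (Fin n) (Fin n) F) i1 i0 = 1 := by
      show (PP (σ₀ : Equiv.Perm (Fin (n + 1))) i1.castSucc i0.castSucc - PP (σ₀ : Equiv.Perm (Fin (n + 1))) i1.castSucc (Fin.last n) : F) = 1
      have h5 : i0.castSucc = a := rfl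
      have h6 : i1.castSucc = b := rfl
      have h7 : (σ₀ : Equiv.Perm (Fin (n + 1))) (Fin.last n) = Fin.last n := by
        show (Equiv.swap a b * Equiv.swap b d) (Fin.last n) = Fin.last n
        have hLa : Fin.last n ≠ a := by
          intro h
          have h9 := congrArg Fin.val h
          simp only [a, Fin.val_last] at h9
          omega
        have hLb : Fin.last n ≠ b := by
          intro h
          have h9 := congrArg Fin.val h
          simp only [b, Fin.val_last] at h9
          omega
        have hLd : Fin.last n ≠ d := by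
          intro h
          have h9 := congrArg Fin.val h
          simp only [d, Fin.val_last] at h9
          omega
        rw [Equiv.Perm.mul_apply, Equiv.swap_apply_of_ne_of_ne hLb hLd, Equiv.swap_apply_of_ne_of_ne hLa hLb]
      have h8 : Fin.last n ≠ b := by
        intro h
        have h9 := congrArg Fin.val h
        simp only [b, Fin.val_last] at h9
        omega
      simp only [PP, h5, h6, hσ₀, h7, if_true, if_neg h8, sub_zero]
    rw [h4] at h3
    exact zero_ne_one h3


end Cfsg.Agent.S4156
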