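import Cfsg.Statements.S4160
import Cfsg.Agent.Lib.FGS.Cover

set_option autoImplicit false
open Cfsg
open scoped commutatorElement
open scoped Pointwise

namespace Cfsg.Agent.S4160

theorem h8_complement {G : Type*} [Group G] [Finite G] (p : ℕ) (hp : p.Prime)
    (P : Sylow p G) (hA : Subgroup.centralizer ((P : Subgroup G) : Set G) =
      Subgroup.normalizer ((Subgroup.centralizer ((P : Subgroup G) : Set G) : Subgroup G) : Set G)) :
    Cfsg.HasNormalPComplement p G := by
  haveI : Fact p.Prime := ⟨hp⟩
  have hle : Subgroup.normalizer ((P : Subgroup G) : Set G) ≤ Subgroup.centralizer ((P : Subgroup G) : Set G) := by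
    rw [hA]
    intro g hg
    rw [Subgroup.mem_normalizer_iff]
    intro x
    rw [Subgroup.mem_normalizer_iff] at hg
    simp only [SetLike.mem_coe, Subgroup.mem_centralizer_iff]
    constructor
    · intro hx y hy
      have h1 := (hg (g⁻¹ * y * g)).1
      have h2 : g⁻¹ * y * g ∈ (P : Subgroup G) := by
        rw [hg (g⁻¹ * y * g)]
        convert hy using 1
        group
      have h3 := hx _ h2
      calc y * (g * x * g⁻¹) = g * ((g⁻¹ * y * g) * x) * g⁻¹ := by group
        _ = g * (x * (g⁻¹ * y * g)) * g⁻¹ := by rw [h3]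
        _ = _ := by group
    · intro hx y hy
      have h2 : g * y * g⁻¹ ∈ (P : Subgroup G) := (hg y).1 hy
      have h3 := hx _ h2
      have h4 : g * (y * x) * g⁻¹ = g * (x * y) * g⁻¹ := by
        calc g * (y * x) * g⁻¹ = (g * y * g⁻¹) * (g * x * g⁻¹) := by group
          _ = (g * x * g⁻¹) * (g * y * g⁻¹) := h3
          _ = _ := by group
      have := congrArg (fun w => g⁻¹ * w * g) h4
      simpa [mul_assoc] using this
  refine ⟨P, _, ?_, MonoidHom.ker_transferSylow_isComplement' P hle⟩
  infer_instance

/-- Let G be a finite group and p ≠ q primes each dividing the size of some conjugacy class of G, such that no conjugacy class size is divisible by pq. Then G has a normal p-complement or a normal q-complement. -/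
theorem result {G : Type*} [Group G] [Finite G] (p q : ℕ) (hp : p.Prime) (hq : q.Prime) (hpq : p ≠ q)
    (hp' : ∃ x : G, p ∣ (Subgroup.centralizer ({x} : Set G)).index) (hq' : ∃ x : G, q ∣ (Subgroup.centralizer ({x} : Set G)).index) (h : ∀ x : G, ¬ p * q ∣ (Subgroup.centralizer ({x} : Set G)).index) :
    Cfsg.HasNormalPComplement p G ∨ Cfsg.HasNormalPComplement q G := by
  classical
  haveI : Fact p.Prime := ⟨hp⟩
  haveI : Fact q.Prime := ⟨hq⟩
  obtain ⟨P⟩ : Nonempty (Sylow p G) := inferInstance
  obtain ⟨Q⟩ : Nonempty (Sylow q G) := inferInstance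
  have hcov : ∀ x : G, x ∈ CfsgLib.FGS.Cover.conjUnion (Subgroup.centralizer ((P : Subgroup G) : Set G)) ∨
      x ∈ CfsgLib.FGS.Cover.conjUnion (Subgroup.centralizer ((Q : Subgroup G) : Set G)) := by
    intro x
    by_cases h1 : p ∣ (Subgroup.centralizer ({x} : Set G)).index
    · right
      refine CfsgLib.FGS.Cover.mem_conjUnion_of_not_dvd Q x ?_
      intro h2
      exact h x (Nat.Coprime.mul_dvd_of_dvd_of_dvd ((Nat.coprime_primes hp hq).2 hpq) h1 h2)
    · left
      exact CfsgLib.FGS.Cover.mem_conjUnion_of_not_dvd P x h1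
  rcases CfsgLib.FGS.Cover.self_normalizing_of_cover hcov with h1 | h1
  · exact Or.inl (h8_complement p hp P h1)
  · exact Or.inr (h8_complement q hq Q h1)

end Cfsg.Agent.S4160
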