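import Cfsg.Statements.S4163
import Cfsg.Agent.Lib.FGS.Basic
import Cfsg.Agent.Lib.Solv.Hall

set_option autoImplicit false
open Cfsg
open scoped commutatorElement
open scoped Pointwise

namespace Cfsg.Agent.S4163

theorem h8_key {G : Type*} [Group G] [Finite G] (A : Subgroup G) [hN : A.Normal] (hA : IsMulCommutative A)
    (m : ℕ) (hmin : ∀ x : G, 1 < (Subgroup.centralizer ({x} : Set G)).index → m ≤ (Subgroup.centralizer ({x} : Set G)).index)
    (x : G) (hx : (Subgroup.centralizer ({x} : Set G)).index = m) (a : G) (ha : a ∈ A) :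
    x * a * x⁻¹ * a⁻¹ ∈ Subgroup.center G := by
  classical
  obtain ⟨T, hT⟩ : ∃ T, T = Subgroup.centralizer ({x} : Set G) := ⟨_, rfl⟩
  rw [← hT] at hx
  have hmemT : ∀ t, t ∈ T ↔ t * x = x * t := by
    intro t; rw [hT, Subgroup.mem_centralizer_singleton_iff]
  obtain ⟨b, hb⟩ : ∃ b, b = x * a * x⁻¹ * a⁻¹ := ⟨_, rfl⟩
  rw [← hb]
  by_cases hb1 : b = 1
  · rw [hb1]; exact one_mem _
  have hcA : ∀ y ∈ A, x * y * x⁻¹ * y⁻¹ ∈ A := fun y hy => mul_mem (hN.conj_mem y hy x) (inv_mem hy)
  have hbA : b ∈ A := hb ▸ hcA a ha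
  have hcomm : ∀ u ∈ A, ∀ v ∈ A, u * v = v * u := by
    intro u hu v hv
    have := hA.is_comm.comm (⟨u, hu⟩ : A) ⟨v, hv⟩
    exact congrArg (fun z : A => (z : G)) this
  obtain ⟨Cb, hCb⟩ : ∃ Cb, Cb = Subgroup.centralizer ({b} : Set G) := ⟨_, rfl⟩
  have hmemCb : ∀ t, t ∈ Cb ↔ t * b = b * t := by
    intro t; rw [hCb, Subgroup.mem_centralizer_singleton_iff]
  have hACb : A ≤ Cb := fun u hu => (hmemCb u).2 (hcomm u hu b hbA)
  -- the function c on A and the size of its range
  obtain ⟨S, hS⟩ : ∃ S : Subgroup A, S = T.subgroupOf A := ⟨_, rfl⟩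
  let c : A → G := fun y => x * (y : G) * x⁻¹ * (y : G)⁻¹
  have hcS : ∀ y z : A, y⁻¹ * z ∈ S → c y = c z := by
    intro y z h
    rw [hS, Subgroup.mem_subgroupOf] at h
    have h2 := (hmemT _).1 h
    have hz : (z : G) = y * ((y : G)⁻¹ * z) := by group
    obtain ⟨t, ht⟩ : ∃ t, t = (y : G)⁻¹ * z := ⟨_, rfl⟩
    simp only [Subgroup.coe_mul, Subgroup.coe_inv, ← ht] at h2
    simp only [c]
    rw [hz, ← ht]
    have h3 : x * t * x⁻¹ = t := by rw [← h2]; group
    calc x * (y : G) * x⁻¹ * (y : G)⁻¹ = x * y * (x⁻¹ * x) * t * x⁻¹ * t⁻¹ * (y : G)⁻¹ := by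
          have : t * x⁻¹ * t⁻¹ = x⁻¹ := by
            calc t * x⁻¹ * t⁻¹ = (x * t * x⁻¹) * x⁻¹ * t⁻¹ := by rw [h3]
              _ = x * (t * x⁻¹ * x⁻¹ * t⁻¹) := by group
              _ = x⁻¹ := by
                have h4 : t * x⁻¹ = x⁻¹ * t := by
                  calc t * x⁻¹ = x⁻¹ * (x * t * x⁻¹) := by group
                    _ = x⁻¹ * t := by rw [h3]
                calc x * (t * x⁻¹ * x⁻¹ * t⁻¹) = x * (t * x⁻¹) * x⁻¹ * t⁻¹ := by group
                  _ = x * (x⁻¹ * t) * x⁻¹ * t⁻¹ := by rw [h4]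
                  _ = t * x⁻¹ * t⁻¹ := by group
                  _ = x⁻¹ * t * t⁻¹ := by rw [h4]
                  _ = x⁻¹ := by group
          calc x * (y : G) * x⁻¹ * (y : G)⁻¹ = x * y * (x⁻¹) * (y : G)⁻¹ := rfl
            _ = x * y * (t * x⁻¹ * t⁻¹) * (y : G)⁻¹ := by rw [this]
            _ = _ := by group
      _ = x * (y * t) * x⁻¹ * (y * t)⁻¹ := by group
  let cq : A ⧸ S → G := fun q => Quotient.liftOn' q c (by
    intro y z h
    exact hcS y z (QuotientGroup.leftRel_apply.1 h))
  have hcq : ∀ y : A, cq (QuotientGroup.mk y) = c y := fun y => rfl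
  obtain ⟨I, hI⟩ : ∃ I : Set G, I = Set.range c := ⟨_, rfl⟩
  have hIcard : Nat.card I ≤ S.index := by
    have hle : I ⊆ Set.range cq := by
      rw [hI]; rintro _ ⟨y, rfl⟩; exact ⟨_, hcq y⟩
    have h1 : Nat.card I ≤ Nat.card (Set.range cq) := by
      exact Nat.card_mono (Set.toFinite _) hle
    have h2 : Nat.card (Set.range cq) ≤ Nat.card (A ⧸ S) :=
      Nat.card_le_card_of_surjective _ (Set.rangeFactorization_surjective (f := cq))
    exact h1.trans h2
  have h1I : (1 : G) ∈ I := by
    rw [hI]; exact ⟨1, by simp [c]⟩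
  have hbI : b ∈ I := by
    rw [hI]; exact ⟨⟨a, ha⟩, by simp [c, hb]⟩
  -- the orbit of b under T
  obtain ⟨W, hW⟩ : ∃ W : Subgroup T, W = Cb.subgroupOf T := ⟨_, rfl⟩
  let orb : T → G := fun t => (t : G) * b * (t : G)⁻¹
  have horbW : ∀ s t : T, s⁻¹ * t ∈ W ↔ orb s = orb t := by
    intro s t
    rw [hW, Subgroup.mem_subgroupOf, hmemCb]
    simp only [orb, Subgroup.coe_mul, Subgroup.coe_inv]
    constructor
    · intro h
      have h5 : (t : G) * b = s * (b * ((s : G)⁻¹ * t)) := by
        calc (t : G) * b = s * (((s : G)⁻¹ * t) * b) := by group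
          _ = _ := by rw [h]
      rw [h5]; group
    · intro h
      have h5 : (t : G) * b = s * b * (s : G)⁻¹ * t := by
        calc (t : G) * b = ((t : G) * b * (t : G)⁻¹) * t := by group
          _ = ((s : G) * b * (s : G)⁻¹) * t := by rw [h]
      calc (s : G)⁻¹ * t * b = (s : G)⁻¹ * (t * b) := by group
        _ = (s : G)⁻¹ * (s * b * (s : G)⁻¹ * t) := by rw [h5]
        _ = _ := by group
  let oq : T ⧸ W → G := fun q => Quotient.liftOn' q orb (by
    intro y z h
    exact (horbW y z).1 (QuotientGroup.leftRel_apply.1 h))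
  have hoq : ∀ y : T, oq (QuotientGroup.mk y) = orb y := fun y => rfl
  have hoqinj : Function.Injective oq := by
    intro p q
    induction p using QuotientGroup.induction_on with
    | H s =>
    induction q using QuotientGroup.induction_on with
    | H t =>
    intro h
    rw [hoq, hoq] at h
    exact QuotientGroup.eq.2 ((horbW s t).2 h)
  have horbI : ∀ t : T, orb t ∈ I \ {1} := by
    intro t
    constructor
    · rw [hI]
      refine ⟨⟨(t : G) * a * (t : G)⁻¹, hN.conj_mem a ha t⟩, ?_⟩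
      have htx := (hmemT t).1 t.2
      have htx' : (t : G) * x⁻¹ = x⁻¹ * t := by
        calc (t : G) * x⁻¹ = x⁻¹ * (x * t) * x⁻¹ := by group
          _ = x⁻¹ * (t * x) * x⁻¹ := by rw [htx]
          _ = x⁻¹ * t := by group
      simp only [c, orb, hb]
      calc x * ((t : G) * a * (t : G)⁻¹) * x⁻¹ * ((t : G) * a * (t : G)⁻¹)⁻¹
          = (x * t) * a * (x * t)⁻¹ * ((t : G) * a⁻¹ * (t : G)⁻¹) := by group
        _ = (t * x) * a * (t * x)⁻¹ * ((t : G) * a⁻¹ * (t : G)⁻¹) := by rw [← htx]
        _ = _ := by group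
    · intro h
      have h0 : (t : G) * b * (t : G)⁻¹ = 1 := h
      apply hb1
      have : b = (t : G)⁻¹ * ((t : G) * b * (t : G)⁻¹) * t := by group
      rw [this, h0]; group
  have hWindex : W.index + 1 ≤ S.index := by
    have h1 : Nat.card (T ⧸ W) ≤ Nat.card ((I \ {1} : Set G)) := by
      have hinj : Function.Injective (fun q : T ⧸ W => (⟨oq q, by
          induction q using QuotientGroup.induction_on with
          | H s => exact horbI s⟩ : ((I \ {1} : Set G)))) := by
        intro p q h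
        exact hoqinj (congrArg (fun z : ((I \ {1} : Set G)) => (z : G)) h)
      exact Nat.card_le_card_of_injective _ hinj
    have h2 : Nat.card ((I \ {1} : Set G)) + 1 = Nat.card I := by
      have : I = insert 1 (I \ {1}) := by
        ext z; by_cases hz : z = 1
        · simp [hz, h1I]
        · simp [hz]
      have h3 := Set.ncard_insert_of_notMem (s := I \ {1}) (a := (1 : G)) (by simp) (Set.toFinite _)
      rw [← this] at h3
      simpa [Nat.card_coe_set_eq] using h3.symm
    have : W.index = Nat.card (T ⧸ W) := rfl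
    omega
  -- cardinalities
  obtain ⟨V, hV⟩ : ∃ V : Subgroup G, V = T ⊓ Cb := ⟨_, rfl⟩
  have hVcard : Nat.card W = Nat.card V := by
    have h1 : W = V.subgroupOf T := by
      rw [hW, hV, Subgroup.inf_subgroupOf_left]
    rw [h1]
    exact Nat.card_congr (Subgroup.subgroupOfEquivOfLe (hV ▸ inf_le_left)).toEquiv
  have hScard : Nat.card S = Nat.card (V ⊓ A : Subgroup G) := by
    have h0 : V ⊓ A = A ⊓ T := by
      rw [hV, inf_assoc, inf_comm Cb A, inf_eq_left.2 hACb, inf_comm]
    have h1 : S = (V ⊓ A).subgroupOf A := by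
      rw [hS, h0, Subgroup.inf_subgroupOf_left]
    rw [h1]
    exact Nat.card_congr (Subgroup.subgroupOfEquivOfLe inf_le_right).toEquiv
  have h1 := Subgroup.card_mul_index W
  have h2 := Subgroup.card_mul_index S
  have h3 := CfsgLib.Solv.card_sup_mul_card_inf V A
  have hS0 : 0 < Nat.card S := Nat.card_pos
  have hV0 : 0 < Nat.card V := Nat.card_pos
  have h4 : Nat.card (V ⊔ A : Subgroup G) = Nat.card V * S.index := by
    rw [← hScard] at h3
    rw [← h2] at h3
    have : Nat.card (V ⊔ A : Subgroup G) * Nat.card S = (Nat.card V * S.index) * Nat.card S := by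
      rw [h3]; ring
    exact Nat.eq_of_mul_eq_mul_right hS0 this
  have h5 : Nat.card (V ⊔ A : Subgroup G) ≤ Nat.card Cb :=
    Subgroup.card_le_of_le (sup_le (hV ▸ inf_le_right) hACb)
  have h6 : Nat.card T < Nat.card Cb := by
    rw [← h1, hVcard]
    calc Nat.card V * W.index < Nat.card V * S.index := Nat.mul_lt_mul_of_pos_left (by omega) hV0
      _ = _ := h4.symm
      _ ≤ _ := h5
  have h7 : Cb.index < T.index := by
    have e1 := Subgroup.card_mul_index T
    have e2 := Subgroup.card_mul_index Cb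
    have hTi : 0 < T.index := Nat.pos_of_ne_zero Subgroup.index_ne_zero_of_finite
    by_contra hc
    push Not at hc
    have : Nat.card T * T.index < Nat.card Cb * Cb.index := by
      calc Nat.card T * T.index < Nat.card Cb * T.index := Nat.mul_lt_mul_of_pos_right h6 hTi
        _ ≤ _ := Nat.mul_le_mul_left _ hc
    omega
  have h8 : Cb.index = 1 := by
    by_contra hne
    have hpos : 0 < Cb.index := Nat.pos_of_ne_zero Subgroup.index_ne_zero_of_finite
    have := hmin b (by rw [← hCb]; omega)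
    rw [← hCb] at this
    omega
  have h9 : Cb = ⊤ := Subgroup.index_eq_one.1 h8
  rw [Subgroup.mem_center_iff]
  intro g
  have : g ∈ Cb := by rw [h9]; trivial
  exact (hmemCb g).1 this

/-- Let G be a finite group with a normal abelian subgroup A satisfying C_G(A) = A. Suppose some conjugacy class of G has size greater than 1, let m be the smallest such size, and let M be the subgroup generated by the elements whose class has size 1 or m. Then M is nilpotent of class at most 3. -/
theorem result {G : Type*} [Group G] [Finite G]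
    (A : Subgroup G) [A.Normal] (hA : IsMulCommutative A) (hCA : Subgroup.centralizer (A : Set G) = A)
    (m : ℕ) (hm1 : 1 < m) (hm : ∃ x : G, (Subgroup.centralizer ({x} : Set G)).index = m) (hmin : ∀ x : G, 1 < (Subgroup.centralizer ({x} : Set G)).index → m ≤ (Subgroup.centralizer ({x} : Set G)).index) :
    Subgroup.upperCentralSeries ↥(Subgroup.closure {x : G | (Subgroup.centralizer ({x} : Set G)).index = 1 ∨ (Subgroup.centralizer ({x} : Set G)).index = m}) 3 = ⊤ := by
  classical
  obtain ⟨M, hM⟩ : ∃ M, M = Subgroup.closure {x : G | (Subgroup.centralizer ({x} : Set G)).index = 1 ∨ (Subgroup.centralizer ({x} : Set G)).index = m} := ⟨_, rfl⟩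
  rw [← hM]
  have hN : A.Normal := inferInstance
  have hZ : ∀ z ∈ Subgroup.center G, ∀ g : G, g * z * g⁻¹ = z := by
    intro z hz g
    have := Subgroup.mem_center_iff.1 hz g
    rw [this]; group
  have hcomm : ∀ u ∈ A, ∀ v ∈ A, u * v = v * u := by
    intro u hu v hv
    have := hA.is_comm.comm (⟨u, hu⟩ : A) ⟨v, hv⟩
    exact congrArg (fun z : A => (z : G)) this
  -- every element of M acts trivially on A modulo the centre
  have hP : ∀ y ∈ M, ∀ a ∈ A, y * a * y⁻¹ * a⁻¹ ∈ Subgroup.center G := by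
    intro y hy
    rw [hM] at hy
    induction hy using Subgroup.closure_induction with
    | mem x hx =>
      intro a ha
      rcases hx with hx | hx
      · have h1 : Subgroup.centralizer ({x} : Set G) = ⊤ := Subgroup.index_eq_one.1 hx
        have h2 : a ∈ Subgroup.centralizer ({x} : Set G) := by rw [h1]; trivial
        have h3 := Subgroup.mem_centralizer_singleton_iff.1 h2
        have : x * a * x⁻¹ * a⁻¹ = 1 := by
          rw [← h3]; group
        rw [this]; exact one_mem _
      · exact h8_key A hA m hmin x hx a ha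
    | one => intro a _; simp [one_mem]
    | mul y z _ _ hy hz =>
      intro a ha
      have h1 := hy a ha
      have h2 := hz a ha
      have : (y * z) * a * (y * z)⁻¹ * a⁻¹ = (y * (z * a * z⁻¹ * a⁻¹) * y⁻¹) * (y * a * y⁻¹ * a⁻¹) := by group
      rw [this, hZ _ h2 y]
      exact mul_mem h2 h1
    | inv y _ hy =>
      intro a ha
      have ha' : y⁻¹ * a * y⁻¹⁻¹ ∈ A := hN.conj_mem a ha y⁻¹
      have h1 := hy _ ha'
      have h2 : y * (y⁻¹ * a * y⁻¹⁻¹) * y⁻¹ * (y⁻¹ * a * y⁻¹⁻¹)⁻¹ = a * (y⁻¹ * a * y⁻¹⁻¹)⁻¹ := by group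
      rw [h2] at h1
      have h3 : y⁻¹ * a * y⁻¹⁻¹ * a⁻¹ = (a * (y⁻¹ * a * y⁻¹⁻¹)⁻¹)⁻¹ := by
        group
      rw [h3]
      exact inv_mem h1
  -- the commutator of two elements of M lies in A
  have hcommA : ∀ y ∈ M, ∀ z ∈ M, y * z * y⁻¹ * z⁻¹ ∈ A := by
    intro y hy z hz
    have hCA' : y * z * y⁻¹ * z⁻¹ ∈ Subgroup.centralizer (A : Set G) := by
      rw [Subgroup.mem_centralizer_iff]
      intro a ha
      obtain ⟨a1, ha1d⟩ : ∃ a1, a1 = z⁻¹ * a * z := ⟨_, rfl⟩
      obtain ⟨a2, ha2d⟩ : ∃ a2, a2 = y⁻¹ * a1 * y := ⟨_, rfl⟩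
      have ha1 : a1 ∈ A := by
        have := hN.conj_mem a ha z⁻¹
        rw [ha1d]; simpa using this
      have ha2 : a2 ∈ A := by
        have := hN.conj_mem _ ha1 y⁻¹
        rw [ha2d]; simpa using this
      obtain ⟨c1, hc1d⟩ : ∃ c1, c1 = a * a1⁻¹ := ⟨_, rfl⟩
      obtain ⟨c2, hc2d⟩ : ∃ c2, c2 = a1 * a2⁻¹ := ⟨_, rfl⟩
      have hc1 : c1 ∈ Subgroup.center G := by
        have := hP z hz a1 ha1
        have e : z * a1 * z⁻¹ = a := by rw [ha1d]; group
        rw [e] at this
        rw [hc1d]; exact this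
      have hc2 : c2 ∈ Subgroup.center G := by
        have := hP y hy a2 ha2
        have e : y * a2 * y⁻¹ = a1 := by rw [ha2d]; group
        rw [e] at this
        rw [hc2d]; exact this
      have e1 : a = c1 * a1 := by rw [hc1d]; group
      have e2 : a1 = c2 * a2 := by rw [hc2d]; group
      have e3 : z * a1 * z⁻¹ = a := by rw [ha1d]; group
      have e4 : y * a2 * y⁻¹ = a1 := by rw [ha2d]; group
      have e5 : z * a2 * z⁻¹ = c1 * a2 := by
        have h1 : a = c2 * (z * a2 * z⁻¹) := by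
          conv_lhs => rw [← e3, e2]
          have : z * c2 = c2 * z := (Subgroup.mem_center_iff.1 hc2 z)
          calc z * (c2 * a2) * z⁻¹ = (z * c2) * a2 * z⁻¹ := by group
            _ = (c2 * z) * a2 * z⁻¹ := by rw [this]
            _ = _ := by group
        have h2 : a = c2 * (c1 * a2) := by
          conv_lhs => rw [e1, e2]
          have : c1 * c2 = c2 * c1 := (Subgroup.mem_center_iff.1 hc1 c2).symm
          calc c1 * (c2 * a2) = (c1 * c2) * a2 := by group
            _ = (c2 * c1) * a2 := by rw [this]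
            _ = _ := by group
        exact mul_left_cancel (h1.symm.trans h2)
      have e6 : (y * z * y⁻¹ * z⁻¹) * a * (y * z * y⁻¹ * z⁻¹)⁻¹ = a := by
        have h1 : (y * z * y⁻¹ * z⁻¹) * a * (y * z * y⁻¹ * z⁻¹)⁻¹ = y * (z * a2 * z⁻¹) * y⁻¹ := by
          rw [ha2d, ha1d]; group
        rw [h1, e5]
        have : y * c1 = c1 * y := (Subgroup.mem_center_iff.1 hc1 y)
        calc y * (c1 * a2) * y⁻¹ = (y * c1) * a2 * y⁻¹ := by group
          _ = (c1 * y) * a2 * y⁻¹ := by rw [this]
          _ = c1 * (y * a2 * y⁻¹) := by group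
          _ = c1 * a1 := by rw [e4]
          _ = a := e1.symm
      obtain ⟨g, hg⟩ : ∃ g, g = y * z * y⁻¹ * z⁻¹ := ⟨_, rfl⟩
      rw [← hg] at e6 ⊢
      calc a * g = (g * a * g⁻¹) * g := by rw [e6]
        _ = g * a := by group
    rw [hCA] at hCA'
    exact hCA'
  have key1 : ∀ u : M, (u : G) ∈ Subgroup.center G → u ∈ Subgroup.upperCentralSeries M 1 := by
    intro u hu
    rw [Subgroup.mem_upperCentralSeries_succ_iff]
    intro y
    rw [Subgroup.upperCentralSeries_zero, Subgroup.mem_bot]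
    apply Subtype.ext
    have := Subgroup.mem_center_iff.1 hu (y : G)
    simp only [commutatorElement_def, Subgroup.coe_mul, Subgroup.coe_inv, Subgroup.coe_one]
    rw [← this]; group
  have key2 : ∀ u : M, (u : G) ∈ A → u ∈ Subgroup.upperCentralSeries M 2 := by
    intro u hu
    rw [Subgroup.mem_upperCentralSeries_succ_iff]
    intro y
    apply key1
    have h1 := hP y y.2 u hu
    have h2 : ((⁅u, y⁆ : M) : G) = ((y : G) * u * (y : G)⁻¹ * (u : G)⁻¹)⁻¹ := by
      simp only [commutatorElement_def, Subgroup.coe_mul, Subgroup.coe_inv]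
      group
    rw [h2]
    exact inv_mem h1
  rw [Subgroup.eq_top_iff']
  intro u
  rw [Subgroup.mem_upperCentralSeries_succ_iff]
  intro y
  apply key2
  have h1 := hcommA u u.2 y y.2
  simpa [commutatorElement_def] using h1

end Cfsg.Agent.S4163
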