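import Cfsg.Statements.S4168
import Cfsg.Agent.Lib.FGS.Syl

set_option autoImplicit false
open Cfsg

namespace Cfsg.Agent.S4168

/-- Let L be a finite quasisimple group (perfect with L/Z(L) simple). Then every prime dividing the order of the centre Z(L) also divides the order of L/Z(L). -/
theorem result {L : Type*} [Group L] [Finite L] (hL : Cfsg.IsQuasisimple L)
    (p : ℕ) (hp : p.Prime) (hdiv : p ∣ Nat.card (Subgroup.center L)) : p ∣ (Subgroup.center L).index := by
  classical
  haveI := Fact.mk hp
  by_contra hnd
  let P : Sylow p L := default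
  have hPZ : (P : Subgroup L) ≤ Subgroup.center L := CfsgLib.FGS.sylow_le_of_normal_of_not_dvd hnd P
  have hPne : (P : Subgroup L) ≠ ⊥ := by
    apply P.ne_bot_of_dvd_card
    exact hdiv.trans (Subgroup.card_subgroup_dvd_card _)
  have hC : Subgroup.normalizer (P : Subgroup L) ≤ Subgroup.centralizer ((P : Subgroup L) : Set L) := by
    intro x _
    rw [Subgroup.mem_centralizer_iff]
    intro y hy
    exact (Subgroup.mem_center_iff.mp (hPZ hy) x).symm
  have hc := MonoidHom.ker_transferSylow_isComplement' P hC
  have hab : IsMulCommutative (P : Subgroup L) :=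
    ⟨⟨fun a b => Subtype.ext (hC (Subgroup.le_normalizer b.2) a a.2)⟩⟩
  -- perfect: a homomorphism to an abelian group is trivial
  have hkertop : (MonoidHom.transferSylow P hC).ker = ⊤ := by
    rw [eq_top_iff]
    have hperf : commutator L = ⊤ := hL.1.commutator_eq_top
    rw [← hperf, commutator_def, Subgroup.commutator_le]
    intro x _ y _
    rw [MonoidHom.mem_ker, map_commutatorElement]
    rw [commutatorElement_eq_one_iff_commute]
    exact hab.is_comm.comm _ _
  rw [hkertop] at hc
  apply hPne
  have hdis := hc.disjoint
  rw [Subgroup.disjoint_def] at hdis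
  rw [eq_bot_iff]
  intro x hx
  exact Subgroup.mem_bot.mpr (hdis (Subgroup.mem_top x) hx)

end Cfsg.Agent.S4168
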