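import Cfsg.Statements.S4172
import Cfsg.Agent.Lib.FGS.Basic
import Cfsg.Agent.Lib.FGS.Syl
import Cfsg.Agent.Lib.FGS.PiCore
import Cfsg.Agent.Lib.OOL.Tate
import Cfsg.Agent.Lib.H3.Comp2
import Cfsg.Agent.Lib.H9.StemTools
import Cfsg.Agent.Lib.SS.Gaschutz
import Cfsg.Agent.Lib.Solv.PGroup
import Cfsg.Agent.Lib.Solv.SZ
import Cfsg.Agent.Lib.Trans.Basic
import Cfsg.Agent.Lib.PLocal.ThompsonIn

set_option autoImplicit false
open Cfsg
open scoped commutatorElement
open scoped Pointwise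

namespace Cfsg.Agent.S4172

theorem h8_tate {G : Type*} [Group G] [Finite G] {p : ℕ} [hpf : Fact p.Prime] (P : Sylow p G) (N : Subgroup G)
    (hNP : (P : Subgroup G) ≤ Subgroup.normalizer (N : Set G))
    (h : N ⊓ (P : Subgroup G) ≤ (frattini P).map (P : Subgroup G).subtype) : HasNormalPComplement p N := by
  classical
  have hpp : p.Prime := hpf.out
  obtain ⟨T, hT⟩ : ∃ T : Subgroup G, T = (P : Subgroup G) := ⟨_, rfl⟩
  subst hT
  obtain ⟨G₁, hG₁⟩ : ∃ G₁ : Subgroup G, G₁ = (P : Subgroup G) ⊔ N := ⟨_, rfl⟩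
  have hTG₁ : (P : Subgroup G) ≤ (P : Subgroup G) ⊔ N := le_sup_left
  have hNG₁ : N ≤ (P : Subgroup G) ⊔ N := le_sup_right
  let ι : (P : Subgroup G) →* ((P : Subgroup G) ⊔ N : Subgroup G) := Subgroup.inclusion hTG₁
  have hι : Function.Injective ι := Subgroup.inclusion_injective hTG₁
  have hιr : ι.range = (P : Subgroup G).subgroupOf ((P : Subgroup G) ⊔ N) := by
    ext x
    constructor
    · rintro ⟨u, rfl⟩
      exact u.2
    · intro hx
      exact ⟨⟨x, hx⟩, rfl⟩
  have hidx : ¬ p ∣ ι.range.index := by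
    rw [hιr]
    intro hd
    have h1 : ((P : Subgroup G).subgroupOf ((P : Subgroup G) ⊔ N)).index ∣ (P : Subgroup G).index := by
      have h2 := Subgroup.relIndex_mul_index hTG₁
      exact ⟨((P : Subgroup G) ⊔ N).index, h2.symm⟩
    have h3 : ¬ p ∣ (P : Subgroup G).index := P.not_dvd_index
    exact h3 (hd.trans h1)
  letI hn1 := Subgroup.normal_subgroupOf_of_le_normalizer hNP
  letI hn2 := Subgroup.normal_subgroupOf_sup_of_le_normalizer hNP
  let e := QuotientGroup.quotientInfEquivProdNormalizerQuotient (P : Subgroup G) N hNP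
  let L : (P : Subgroup G) ⧸ N.subgroupOf (P : Subgroup G) →* (P : Subgroup G) ⧸ frattini (P : Subgroup G) :=
    QuotientGroup.lift (N.subgroupOf (P : Subgroup G)) (QuotientGroup.mk' (frattini (P : Subgroup G))) (by
    intro x hx
    have h1 : (x : G) ∈ N ⊓ (P : Subgroup G) := ⟨hx, x.2⟩
    obtain ⟨y, hy, hyx⟩ := h h1
    have : y = x := Subtype.ext hyx
    rw [← this]
    exact (QuotientGroup.eq_one_iff y).mpr hy)
  let φ₀ : ((P : Subgroup G) ⊔ N : Subgroup G) →* (P : Subgroup G) ⧸ frattini (P : Subgroup G) :=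
    L.comp (e.symm.toMonoidHom.comp (QuotientGroup.mk' (N.subgroupOf ((P : Subgroup G) ⊔ N))))
  have hφ₀ : ∀ u : (P : Subgroup G), φ₀ (ι u) = (u : (P : Subgroup G) ⧸ frattini (P : Subgroup G)) := by
    intro u
    have h1 : e (u : (P : Subgroup G) ⧸ N.subgroupOf (P : Subgroup G)) = ((ι u : ((P : Subgroup G) ⊔ N : Subgroup G)) : ((P : Subgroup G) ⊔ N : Subgroup G) ⧸ N.subgroupOf ((P : Subgroup G) ⊔ N)) := rfl
    show L (e.symm ((ι u : ((P : Subgroup G) ⊔ N : Subgroup G)) : ((P : Subgroup G) ⊔ N : Subgroup G) ⧸ N.subgroupOf ((P : Subgroup G) ⊔ N))) = _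
    rw [← h1, MulEquiv.symm_apply_apply]
    rfl
  obtain ⟨φ, hφ⟩ := CfsgLib.OOL.tate_retract (p := p) P.isPGroup' ι hι hidx φ₀ hφ₀
  have hφs : Function.Surjective φ := fun u => ⟨ι u, hφ u⟩
  have hcM : (Nat.card φ.ker).Coprime p := by
    have h1 : φ.ker.index = Nat.card (P : Subgroup G) := by
      rw [Subgroup.index_ker, MonoidHom.range_eq_top.mpr hφs, Subgroup.card_top]
    have h2 := Subgroup.card_mul_index φ.ker
    have h3 := Subgroup.card_mul_index ι.range
    have h4 : Nat.card ι.range = Nat.card (P : Subgroup G) := Nat.card_congr (MonoidHom.ofInjective hι).toEquiv.symm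
    rw [h1] at h2
    rw [h4, ← h2] at h3
    have hpos : 0 < Nat.card (P : Subgroup G) := Nat.card_pos
    have h5 : ι.range.index = Nat.card φ.ker := by
      apply Nat.eq_of_mul_eq_mul_left hpos
      rw [h3]; ring
    rw [← h5]
    exact ((Nat.Prime.coprime_iff_not_dvd hpp).mpr hidx).symm
  let ψ : N →* (P : Subgroup G) := φ.comp (Subgroup.inclusion hNG₁)
  refine CfsgLib.Trans.hasNormalPComplement_iff.mpr ⟨ψ.ker, MonoidHom.normal_ker ψ, ?_, ?_⟩
  · have h1 : Nat.card ψ.ker ∣ Nat.card φ.ker := by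
      let g : ψ.ker →* φ.ker := ((Subgroup.inclusion hNG₁).comp ψ.ker.subtype).codRestrict φ.ker (fun y => y.2)
      have hg : Function.Injective g := by
        intro a b hab
        apply Subtype.ext
        apply Subtype.ext
        have := congrArg (fun z : φ.ker => ((z : ((P : Subgroup G) ⊔ N : Subgroup G)) : G)) hab
        exact this
      exact Subgroup.card_dvd_of_injective g hg
    exact Nat.Coprime.coprime_dvd_left h1 hcM
  · have h1 : ψ.ker.index ∣ Nat.card (P : Subgroup G) := by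
      rw [Subgroup.index_ker]
      exact Subgroup.card_subgroup_dvd_card _
    obtain ⟨k, hk⟩ := IsPGroup.iff_card.mp P.isPGroup'
    rw [hk] at h1
    obtain ⟨j, -, hj⟩ := (Nat.dvd_prime_pow hpp).mp h1
    exact ⟨j, hj⟩

theorem h8_L2 {T : Type*} [Group T] [Finite T] {p : ℕ} [hp : Fact p.Prime] (hidx : (frattini T).index = p ^ 2)
    (D : Subgroup T) (hnot : ¬ D ≤ frattini T) : ∃ x : T, D ⊔ Subgroup.zpowers x = ⊤ := by
  classical
  have hpp := hp.out
  by_cases hY : D ⊔ frattini T = ⊤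
  · refine ⟨1, ?_⟩
    rw [Subgroup.zpowers_one_eq_bot, sup_bot_eq]
    exact frattini_nongenerating hY
  · obtain ⟨x, hx⟩ : ∃ x, x ∉ D ⊔ frattini T := by
      by_contra hcon
      push Not at hcon
      exact hY (eq_top_iff.2 (fun z _ => hcon z))
    refine ⟨x, ?_⟩
    have hFY : frattini T ≤ D ⊔ frattini T := le_sup_right
    have h1 := Subgroup.relIndex_mul_index hFY
    rw [hidx] at h1
    have hYd : (D ⊔ frattini T).index ∣ p ^ 2 := ⟨_, by rw [← h1, mul_comm]⟩
    obtain ⟨a, ha, hYa⟩ := (Nat.dvd_prime_pow hpp).1 hYd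
    have hYp : (D ⊔ frattini T).index = p := by
      interval_cases a
      · exfalso
        rw [pow_zero, Subgroup.index_eq_one] at hYa
        exact hY hYa
      · simpa using hYa
      · exfalso
        rw [hYa] at h1
        have h2 : (frattini T).relIndex (D ⊔ frattini T) = 1 :=
          Nat.eq_of_mul_eq_mul_right (pow_pos hpp.pos 2) (by rw [h1, one_mul])
        rw [Subgroup.relIndex_eq_one] at h2
        exact hnot (le_sup_left.trans h2)
    have hYZ : D ⊔ frattini T ≤ D ⊔ frattini T ⊔ Subgroup.zpowers x := le_sup_left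
    have h2 := Subgroup.relIndex_mul_index hYZ
    rw [hYp] at h2
    have hZd : (D ⊔ frattini T ⊔ Subgroup.zpowers x).index ∣ p := ⟨_, by rw [← h2, mul_comm]⟩
    have hZ1 : (D ⊔ frattini T ⊔ Subgroup.zpowers x).index = 1 := by
      rcases (Nat.dvd_prime hpp).1 hZd with h3 | h3
      · exact h3
      · exfalso
        rw [h3] at h2
        have h4 : (D ⊔ frattini T).relIndex (D ⊔ frattini T ⊔ Subgroup.zpowers x) = 1 :=
          Nat.eq_of_mul_eq_mul_right hpp.pos (by rw [h2, one_mul])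
        rw [Subgroup.relIndex_eq_one] at h4
        exact hx (h4 ((le_sup_right : Subgroup.zpowers x ≤ _) (Subgroup.mem_zpowers x)))
    rw [Subgroup.index_eq_one] at hZ1
    apply frattini_nongenerating
    rw [← hZ1]
    rw [sup_assoc, sup_assoc, sup_comm (Subgroup.zpowers x)]

theorem h8_dec {T : Type*} [Group T] (D : Subgroup T) [D.Normal] (x : T) (hx : D ⊔ Subgroup.zpowers x = ⊤) (t : T) :
    ∃ d ∈ D, ∃ i : ℤ, t = d * x ^ i := by
  have hm : t ∈ D ⊔ Subgroup.zpowers x := by rw [hx]; trivial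
  obtain ⟨a, ha, z, hz, rfl⟩ := Subgroup.mem_sup_of_normal_left.1 hm
  obtain ⟨i, rfl⟩ := Subgroup.mem_zpowers_iff.1 hz
  exact ⟨a, ha, i, rfl⟩

theorem h8_frat_bot {G : Type*} [Group G] [Finite G] {p : ℕ} [hpf : Fact p.Prime] (P : Sylow p G)
    (hfrat : ((frattini ↥(P : Subgroup G)).map (P : Subgroup G).subtype).normalCore = ⊥)
    (R : Subgroup G) (hRn : R.Normal) (hRp : IsPGroup p R) :
    (∀ a ∈ R, ∀ b ∈ R, a * b = b * a) ∧ ∀ a ∈ R, a ^ p = 1 := by
  classical
  have hRP : R ≤ (P : Subgroup G) := CfsgLib.FGS.le_of_pgroup_normalized P hRp (by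
    rw [Subgroup.normalizer_eq_top_iff.2 hRn]; exact le_top)
  obtain ⟨hc, hpw⟩ := CfsgLib.Solv.pgroup_commutator_pow_le_frattini (P.isPGroup' : IsPGroup p ↥(P : Subgroup G))
  obtain ⟨N, hNd⟩ : ∃ N : Subgroup R, N = ((frattini ↥(P : Subgroup G)).map (P : Subgroup G).subtype).comap R.subtype := ⟨_, rfl⟩
  have hNn : N.Normal := by
    refine ⟨fun n hn g => ?_⟩
    rw [hNd] at hn ⊢
    obtain ⟨f, hf, hfn⟩ := hn
    have h1 : (⟨(g : G), hRP g.2⟩ : ↥(P : Subgroup G)) * f * (⟨(g : G), hRP g.2⟩ : ↥(P : Subgroup G))⁻¹ ∈ frattini ↥(P : Subgroup G) :=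
      (inferInstance : (frattini ↥(P : Subgroup G)).Normal).conj_mem f hf _
    refine ⟨_, h1, ?_⟩
    show (g : G) * (f : G) * (g : G)⁻¹ = (g : G) * (n : G) * (g : G)⁻¹
    rw [show (f : G) = (n : G) from hfn]
  have hcomm : commutator R ≤ N := by
    rw [_root_.commutator_def, Subgroup.commutator_le]
    intro a _ b _
    rw [hNd]
    refine ⟨⁅(⟨(a : G), hRP a.2⟩ : ↥(P : Subgroup G)), (⟨(b : G), hRP b.2⟩ : ↥(P : Subgroup G))⁆, hc ?_, rfl⟩
    exact Subgroup.commutator_mem_commutator trivial trivial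
  have hpow : ∀ x : R, x ^ p ∈ N := by
    intro x
    rw [hNd]
    exact ⟨(⟨(x : G), hRP x.2⟩ : ↥(P : Subgroup G)) ^ p, hpw _, rfl⟩
  have h1 : frattini R ≤ N := CfsgLib.Solv.frattini_le_of_commutator_pow hRp N hcomm hpow
  have hCn : ((frattini R).map R.subtype).Normal := CfsgLib.Comp.char_map_normal_of_normal hRn (frattini R)
  have hCle : (frattini R).map R.subtype ≤ (frattini ↥(P : Subgroup G)).map (P : Subgroup G).subtype := by
    rintro _ ⟨y, hy, rfl⟩
    have h2 := h1 hy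
    rw [hNd] at h2
    exact h2
  have hC0 : (frattini R).map R.subtype = ⊥ := by
    rw [eq_bot_iff, ← hfrat]
    exact Subgroup.normal_le_normalCore.2 hCle
  have hfb : frattini R = ⊥ := (Subgroup.map_eq_bot_iff_of_injective _ R.subtype_injective).1 hC0
  obtain ⟨h3, h4⟩ := CfsgLib.Solv.pgroup_commutator_pow_le_frattini hRp
  rw [hfb] at h3 h4
  refine ⟨fun a ha b hb => ?_, fun a ha => ?_⟩
  · have h5 : ⁅(⟨a, ha⟩ : R), (⟨b, hb⟩ : R)⁆ ∈ (⊥ : Subgroup R) := h3 (Subgroup.commutator_mem_commutator trivial trivial)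
    rw [Subgroup.mem_bot, commutatorElement_eq_one_iff_mul_comm] at h5
    exact congrArg (fun z : R => (z : G)) h5
  · have h5 := h4 ⟨a, ha⟩
    rw [Subgroup.mem_bot] at h5
    exact congrArg (fun z : R => (z : G)) h5

theorem h8_cyc_eq {A : Type*} [Group A] [Finite A] [IsCyclic A] {p : ℕ} [hp : Fact p.Prime] (u v : A) (hu : orderOf u = p)
    (hv : v ^ p = 1) : v ∈ Subgroup.zpowers u := by
  classical
  haveI := Fintype.ofFinite A
  have hcard := IsCyclic.card_pow_eq_one_le (α := A) (n := p) hp.out.pos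
  have hsub : Finset.univ.filter (fun a : A => a ∈ Subgroup.zpowers u) ⊆ Finset.univ.filter (fun a : A => a ^ p = 1) := by
    intro a ha
    simp only [Finset.mem_filter, Finset.mem_univ, true_and] at ha ⊢
    obtain ⟨i, rfl⟩ := Subgroup.mem_zpowers_iff.1 ha
    rw [← zpow_natCast, ← zpow_mul, mul_comm, zpow_mul, zpow_natCast, ← hu, pow_orderOf_eq_one, one_zpow]
  have hc2 : (Finset.univ.filter (fun a : A => a ∈ Subgroup.zpowers u)).card = p := by
    rw [← hu, ← Nat.card_zpowers, Nat.card_eq_fintype_card, Fintype.card_subtype]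
  have heq := Finset.eq_of_subset_of_card_le hsub (by rw [hc2]; exact hcard)
  have : v ∈ Finset.univ.filter (fun a : A => a ^ p = 1) := by simp [hv]
  rw [← heq] at this
  simpa using this

theorem h8_L1 {G : Type*} [Group G] [Finite G] {p : ℕ} [hpf : Fact p.Prime] (P : Sylow p G)
    (hcore : Cfsg.pPrimeCore p G = ⊥)
    (hfrat : ((frattini ↥(P : Subgroup G)).map (P : Subgroup G).subtype).normalCore = ⊥)
    (N : Subgroup G) [hNn : N.Normal] (hN : N ≠ ⊥) :
    ¬ (N ⊓ (P : Subgroup G) ≤ (frattini ↥(P : Subgroup G)).map (P : Subgroup G).subtype) := by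
  intro h
  obtain ⟨K', hK'n, hc, k, hk⟩ := CfsgLib.Trans.hasNormalPComplement_iff.1 (CfsgLib.OOL.tate_normal P N h)
  have hKn : (K'.map N.subtype).Normal := by
    refine ⟨fun z hz g => ?_⟩
    obtain ⟨k₀, hk₀, rfl⟩ := hz
    have hm : g * (k₀ : G) * g⁻¹ ∈ N := hNn.conj_mem _ k₀.2 g
    refine ⟨⟨_, hm⟩, ?_, rfl⟩
    have h1 : orderOf (((⟨_, hm⟩ : N) : N ⧸ K')) ∣ orderOf (⟨_, hm⟩ : N) := orderOf_map_dvd (QuotientGroup.mk' K') _
    have h2 : orderOf (((⟨_, hm⟩ : N) : N ⧸ K')) ∣ p ^ k := by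
      rw [← hk]
      exact orderOf_dvd_natCard _
    have h3 : orderOf (⟨_, hm⟩ : N) = orderOf k₀ := by
      rw [Subgroup.orderOf_mk]
      have := orderOf_injective (MulAut.conj g).toMonoidHom (MulAut.conj g).injective (k₀ : G)
      simp only [MulEquiv.coe_toMonoidHom, MulAut.conj_apply] at this
      rw [this, Subgroup.orderOf_coe]
    have h4 : (orderOf k₀).Coprime (p ^ k) := by
      apply Nat.Coprime.pow_right
      refine Nat.Coprime.coprime_dvd_left ?_ hc
      exact Subgroup.orderOf_dvd_natCard K' hk₀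
    rw [h3] at h1
    have h5 : orderOf (((⟨_, hm⟩ : N) : N ⧸ K')) = 1 := Nat.eq_one_of_dvd_coprimes h4 h1 h2
    rw [orderOf_eq_one_iff, QuotientGroup.eq_one_iff] at h5
    exact h5
  have h1 : K'.map N.subtype ≤ Cfsg.pPrimeCore p G := by
    haveI := hKn
    refine CfsgLib.FGS.le_pPrimeCore _ ?_
    rw [Subgroup.card_map_of_injective N.subtype_injective]
    exact hc
  rw [hcore, le_bot_iff, Subgroup.map_eq_bot_iff_of_injective _ N.subtype_injective] at h1
  rw [h1, Subgroup.index_bot] at hk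
  have hNp : IsPGroup p N := IsPGroup.of_card hk
  have hNP : N ≤ (P : Subgroup G) := CfsgLib.FGS.le_of_pgroup_normalized P hNp (by
    rw [Subgroup.normalizer_eq_top_iff.2 hNn]; exact le_top)
  have h2 : N ≤ (frattini ↥(P : Subgroup G)).map (P : Subgroup G).subtype := by
    intro y hy
    exact h ⟨hy, hNP hy⟩
  have h3 := Subgroup.normal_le_normalCore.2 h2
  rw [hfrat, le_bot_iff] at h3
  exact hN h3

theorem h8_comp_false {G : Type*} [Group G] [Finite G] {p : ℕ} [hpf : Fact p.Prime]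
    (hcore : Cfsg.pPrimeCore p G = ⊥) (N : Subgroup G) (hN : HasNormalPComplement p N) (C : Subgroup G)
    (hC : Cfsg.IsComponent C) (hCN : C ≤ N) : False := by
  classical
  obtain ⟨K', hK'n, hc, k, hk⟩ := CfsgLib.Trans.hasNormalPComplement_iff.1 hN
  let f : C →* N ⧸ K' := (QuotientGroup.mk' K').comp (Subgroup.inclusion hCN)
  have hQp : IsPGroup p (N ⧸ K') := IsPGroup.of_card (n := k) hk
  haveI : Group.IsNilpotent (N ⧸ K') := hQp.isNilpotent
  have hperf : Group.IsPerfect C := hC.2.1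
  have hrange : ∀ c : C, f c = 1 := by
    by_contra hcon
    push Not at hcon
    obtain ⟨c, hc'⟩ := hcon
    haveI : Nontrivial f.range := ⟨⟨⟨f c, ⟨c, rfl⟩⟩, 1, fun h => hc' (congrArg Subtype.val h)⟩⟩
    haveI : Group.IsPerfect f.range := Group.IsPerfect.ofSurjective (f := f.rangeRestrict) f.rangeRestrict_surjective
    haveI : Group.IsSolvable f.range := inferInstance
    exact Group.IsPerfect.not_isSolvable f.range inferInstance
  have hle : ∀ c (hc' : c ∈ C), (⟨c, hCN hc'⟩ : N) ∈ K' := by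
    intro c hc'
    have := hrange ⟨c, hc'⟩
    exact (QuotientGroup.eq_one_iff _).1 this
  have hCc : (Nat.card C).Coprime p := by
    have h1 : Nat.card C ∣ Nat.card K' := by
      let g : C →* K' := ((Subgroup.inclusion hCN).codRestrict K' (fun c => hle c c.2))
      refine Subgroup.card_dvd_of_injective g ?_
      intro a b hab
      apply Subtype.ext
      have := congrArg (fun z : K' => ((z : N) : G)) hab
      exact this
    exact Nat.Coprime.coprime_dvd_left h1 hc
  have hCπ := CfsgLib.FGS.le_piCore_of_subnormal {q : ℕ | q ≠ p} hC.1 (Y := C) (by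
    intro q hq hd
    show q ≠ p
    rintro rfl
    exact (Nat.Prime.coprime_iff_not_dvd hq).1 hCc.symm hd) le_rfl Subgroup.le_normalizer
  have hπ : Cfsg.piCore {q : ℕ | q ≠ p} G ≤ Cfsg.pPrimeCore p G := by
    refine CfsgLib.FGS.le_pPrimeCore _ ?_
    rw [Nat.coprime_comm, Nat.Prime.coprime_iff_not_dvd hpf.out]
    intro hd
    exact CfsgLib.FGS.piCore_primes {q : ℕ | q ≠ p} p hpf.out hd rfl
  have h2 := hCπ.trans hπ
  rw [hcore, le_bot_iff] at h2
  exact CfsgLib.Comp.comp_ne_bot hC h2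

theorem h8_min_p {G : Type*} [Group G] [Finite G] {p : ℕ} [hpf : Fact p.Prime]
    (hcore : Cfsg.pPrimeCore p G = ⊥) (M : Subgroup G) (hMn : M.Normal) (hMne : M ≠ ⊥)
    (hMab : IsMulCommutative M) (hmin : ∀ K : Subgroup G, K.Normal → K ≠ ⊥ → M ≤ K) : IsPGroup p M := by
  classical
  have hcard : Nat.card M ≠ 1 := by
    intro h
    exact hMne (Subgroup.eq_bot_of_card_eq M h)
  obtain ⟨r, hr, hrd⟩ := Nat.exists_prime_and_dvd hcard
  haveI : Fact r.Prime := ⟨hr⟩
  obtain ⟨x, hx⟩ := exists_prime_orderOf_dvd_card' (G := M) r hrd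
  let T : Subgroup G :=
    { carrier := {g | g ∈ M ∧ g ^ r = 1}
      mul_mem' := by
        rintro a b ⟨ha, ha'⟩ ⟨hb, hb'⟩
        refine ⟨M.mul_mem ha hb, ?_⟩
        have hc : Commute a b := congrArg (fun z : M => (z : G)) (hMab.is_comm.comm ⟨a, ha⟩ ⟨b, hb⟩)
        rw [hc.mul_pow, ha', hb', one_mul]
      one_mem' := ⟨M.one_mem, one_pow _⟩
      inv_mem' := by
        rintro a ⟨ha, ha'⟩
        exact ⟨M.inv_mem ha, by rw [inv_pow, ha', inv_one]⟩ }
  have hTn : T.Normal := by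
    refine ⟨fun n hn g => ⟨hMn.conj_mem n hn.1 g, ?_⟩⟩
    rw [conj_pow, hn.2]
    simp
  have hTne : T ≠ ⊥ := by
    intro h
    have h1 : (x : G) ∈ T := ⟨x.2, by
      have := pow_orderOf_eq_one x
      rw [hx] at this
      exact congrArg (fun z : M => (z : G)) this⟩
    rw [h, Subgroup.mem_bot] at h1
    have h2 : x = 1 := Subtype.ext h1
    rw [h2, orderOf_one] at hx
    exact hr.one_lt.ne hx
  have hMT := hmin T hTn hTne
  have hMr : IsPGroup r M := fun g => ⟨1, by
    apply Subtype.ext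
    rw [pow_one]
    exact (hMT g.2).2⟩
  by_cases hrp : r = p
  · rw [← hrp]
    exact hMr
  · exfalso
    obtain ⟨k, hk⟩ := IsPGroup.iff_card.1 hMr
    have h1 : M ≤ Cfsg.pPrimeCore p G := by
      haveI := hMn
      refine CfsgLib.FGS.le_pPrimeCore M ?_
      rw [hk]
      exact Nat.Coprime.pow_left k ((Nat.coprime_primes hr hpf.out).2 hrp)
    rw [hcore, le_bot_iff] at h1
    exact hMne h1

theorem h8_abel_case {G : Type*} [Group G] [Finite G] {p : ℕ} [hpf : Fact p.Prime] (P : Sylow p G)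
    (hcore : Cfsg.pPrimeCore p G = ⊥)
    (hfrat : ((frattini ↥(P : Subgroup G)).map (P : Subgroup G).subtype).normalCore = ⊥)
    (M : Subgroup G) (hMn : M.Normal) (hMne : M ≠ ⊥) (hMab : IsMulCommutative M) (hMp : IsPGroup p M)
    (hmin : ∀ K : Subgroup G, K.Normal → K ≠ ⊥ → M ≤ K)
    (x : G) (hxP : x ∈ (P : Subgroup G)) (hdec : ∀ t ∈ (P : Subgroup G), ∃ m ∈ M, ∃ i : ℤ, t = m * x ^ i) :
    Cfsg.generalizedFittingSubgroup G = M := by
  classical
  haveI hRn : (Cfsg.pCore p G).Normal := CfsgLib.Solv.pCore_normal' p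
  have hRp := CfsgLib.Solv.pCore_isPGroup (G := G) p
  obtain ⟨hRab, hRexp⟩ := h8_frat_bot P hfrat (Cfsg.pCore p G) hRn hRp
  have hMR : M ≤ Cfsg.pCore p G := by
    haveI := hMn
    exact CfsgLib.FGS.le_pCore M hMp
  have hRP : Cfsg.pCore p G ≤ (P : Subgroup G) := CfsgLib.FGS.le_of_pgroup_normalized P hRp (by
    rw [Subgroup.normalizer_eq_top_iff.2 hRn]; exact le_top)
  have hMP := hMR.trans hRP
  have hMcomm : ∀ a ∈ M, ∀ b ∈ M, a * b = b * a := fun a ha b hb =>
    congrArg (fun z : M => (z : G)) (hMab.is_comm.comm ⟨a, ha⟩ ⟨b, hb⟩)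
  have hRM : Cfsg.pCore p G ≤ M := by
    intro z hz
    by_contra hzM
    obtain ⟨m, hm, i, hzd⟩ := hdec z (hRP hz)
    obtain ⟨x₁, hx₁⟩ : ∃ x₁, x₁ = x ^ i := ⟨_, rfl⟩
    have hx₁R : x₁ ∈ Cfsg.pCore p G := by
      have : x₁ = m⁻¹ * z := by rw [hzd, hx₁]; group
      rw [this]
      exact Subgroup.mul_mem _ (Subgroup.inv_mem _ (hMR hm)) hz
    have hx₁M : x₁ ∉ M := by
      intro h
      apply hzM
      rw [hzd, ← hx₁]
      exact M.mul_mem hm h
    have hAM : Subgroup.zpowers x ⊓ M = ⊥ := by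
      rcases Subgroup.bot_or_exists_ne_one (Subgroup.zpowers x ⊓ M) with h | ⟨w, hw, hw1⟩
      · exact h
      · exfalso
        have hwp : w ^ p = 1 := hRexp w (hMR hw.2)
        have hwo : orderOf w = p := orderOf_eq_prime hwp hw1
        have h1 := h8_cyc_eq (A := Subgroup.zpowers x) (p := p) ⟨w, hw.1⟩ ⟨x₁, by rw [hx₁]; exact Subgroup.zpow_mem _ (Subgroup.mem_zpowers x) i⟩
          (by rw [Subgroup.orderOf_mk]; exact hwo) (Subtype.ext (hRexp x₁ hx₁R))
        obtain ⟨j, hj⟩ := Subgroup.mem_zpowers_iff.1 h1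
        have h2 : w ^ j = x₁ := congrArg (fun y : Subgroup.zpowers x => (y : G)) hj
        apply hx₁M
        rw [← h2]
        exact M.zpow_mem hw.2 j
    have hMA : M ⊔ Subgroup.zpowers x = (P : Subgroup G) := by
      apply le_antisymm
      · exact sup_le hMP ((Subgroup.zpowers_le).2 hxP)
      · intro t ht
        obtain ⟨m', hm', j, rfl⟩ := hdec t ht
        exact Subgroup.mul_mem _ ((le_sup_left : M ≤ _) hm') ((le_sup_right : Subgroup.zpowers x ≤ _) (Subgroup.zpow_mem _ (Subgroup.mem_zpowers x) j))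
    haveI := hMn
    haveI := hMab
    obtain ⟨H, hH⟩ := CfsgLib.SS.gaschutz_exists M (P : Subgroup G) hMP (by
      obtain ⟨k, hk⟩ := IsPGroup.iff_card.1 hMp
      rw [hk]
      exact Nat.Coprime.pow_left k ((Nat.Prime.coprime_iff_not_dvd hpf.out).2 P.not_dvd_index))
      (Subgroup.zpowers x) ((Subgroup.zpowers_le).2 hxP) hAM hMA
    have hform : ∀ g : G, ∃ m ∈ M, ∃ h ∈ H, g = m * h := by
      intro g
      obtain ⟨⟨a, b⟩, hab, -⟩ := hH.existsUnique g
      exact ⟨a.1, a.2, b.1, b.2, hab.symm⟩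
    have hMH : M ⊓ H = ⊥ := hH.disjoint.eq_bot
    haveI hCMn : (Subgroup.centralizer (M : Set G)).Normal := inferInstance
    have hCn : (Subgroup.centralizer (M : Set G) ⊓ H).Normal := by
      refine ⟨fun c hc g => ?_⟩
      obtain ⟨m', hm', h', hh', rfl⟩ := hform g
      have hu1 : h' * c * h'⁻¹ ∈ Subgroup.centralizer (M : Set G) := hCMn.conj_mem c hc.1 h'
      have hu2 : h' * c * h'⁻¹ ∈ H := H.mul_mem (H.mul_mem hh' hc.2) (H.inv_mem hh')
      have h1 : m' * h' * c * (m' * h')⁻¹ = m' * (h' * c * h'⁻¹) * m'⁻¹ := by group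
      rw [h1, Subgroup.mem_centralizer_iff.1 hu1 m' hm']
      have h2 : h' * c * h'⁻¹ * m' * m'⁻¹ = h' * c * h'⁻¹ := by group
      rw [h2]
      exact ⟨hu1, hu2⟩
    have hC : Subgroup.centralizer (M : Set G) ⊓ H = ⊥ := by
      by_contra hne
      have h1 := hmin _ hCn hne
      have h2 : M ≤ M ⊓ H := le_inf le_rfl (h1.trans inf_le_right)
      rw [hMH, le_bot_iff] at h2
      exact hMne h2
    obtain ⟨m', hm', h', hh', hz'⟩ := hform z
    have hh'C : h' ∈ Subgroup.centralizer (M : Set G) := by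
      rw [Subgroup.mem_centralizer_iff]
      intro y hy
      have h1 : h' = m'⁻¹ * z := by rw [hz']; group
      rw [h1]
      have h2 := hMcomm y hy m'⁻¹ (M.inv_mem hm')
      have h3 := hRab y (hMR hy) z hz
      calc y * (m'⁻¹ * z) = (y * m'⁻¹) * z := by group
        _ = (m'⁻¹ * y) * z := by rw [h2]
        _ = m'⁻¹ * (y * z) := by group
        _ = m'⁻¹ * (z * y) := by rw [h3]
        _ = m'⁻¹ * z * y := by group
    have h4 : h' ∈ Subgroup.centralizer (M : Set G) ⊓ H := ⟨hh'C, hh'⟩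
    rw [hC, Subgroup.mem_bot] at h4
    apply hzM
    rw [hz', h4, mul_one]
    exact hm'
  have hRMeq : Cfsg.pCore p G = M := le_antisymm hRM hMR
  have hFM : Cfsg.fittingSubgroup G = M := by
    apply le_antisymm
    · rw [CfsgLib.Solv.fitting_eq_iSup_pCore]
      refine iSup_le fun q => ?_
      by_cases hq : (q : ℕ) = p
      · rw [hq, hRMeq]
      · haveI : Fact (q : ℕ).Prime := ⟨q.2⟩
        have hqp := CfsgLib.Solv.pCore_isPGroup (G := G) (q : ℕ)
        obtain ⟨k, hk⟩ := IsPGroup.iff_card.1 hqp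
        have h1 : Cfsg.pCore (q : ℕ) G ≤ Cfsg.pPrimeCore p G := by
          haveI : (Cfsg.pCore (q : ℕ) G).Normal := CfsgLib.Solv.pCore_normal' _
          refine CfsgLib.FGS.le_pPrimeCore _ ?_
          rw [hk]
          exact Nat.Coprime.pow_left k ((Nat.coprime_primes q.2 hpf.out).2 hq)
        rw [hcore, le_bot_iff] at h1
        rw [h1]
        exact bot_le
    · haveI := hMn
      exact CfsgLib.FGS.le_fittingSubgroup M hMp.isNilpotent
  have hLay : Cfsg.layer G = ⊥ := by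
    by_contra hne
    have hComp : ∀ K ∈ {K : Subgroup G | Cfsg.IsComponent K}, ∀ a ∈ M, ∀ b ∈ K, a * b = b * a := by
      intro K hK a ha b hb
      rcases CfsgLib.Comp.le_or_commute_of_normal hK hMn with h | h
      · exfalso
        apply CfsgLib.Comp.comp_not_comm hK
        refine ⟨⟨fun u v => Subtype.ext ?_⟩⟩
        exact hMcomm _ (h u.2) _ (h v.2)
      · exact ((CfsgLib.Comp.comm_bot_iff.1 h) b hb a ha).symm
    have hME : M ≤ Cfsg.layer G := hmin _ CfsgLib.Comp.layer_normal hne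
    have hMc := CfsgLib.Comp.commute_sSup_right (A := M) (T := {K : Subgroup G | Cfsg.IsComponent K}) hComp
    obtain ⟨Q, hQ⟩ := CfsgLib.PLocal.exists_sylow_inf_normal P (CfsgLib.Comp.layer_normal (G := G))
    have hQmem : ∀ y : Cfsg.layer G, y ∈ (Q : Subgroup (Cfsg.layer G)) ↔ (y : G) ∈ (P : Subgroup G) := by
      intro y
      constructor
      · intro hy
        have h1 : (y : G) ∈ (Q : Subgroup (Cfsg.layer G)).map (Cfsg.layer G).subtype := ⟨y, hy, rfl⟩
        rw [hQ] at h1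
        exact h1.1
      · intro hy
        have h1 : (y : G) ∈ (Q : Subgroup (Cfsg.layer G)).map (Cfsg.layer G).subtype := by
          rw [hQ]
          exact ⟨hy, y.2⟩
        obtain ⟨y', hy', hyy⟩ := h1
        have : y' = y := Subtype.ext hyy
        rwa [← this]
    have hQab : ∀ a ∈ (Q : Subgroup (Cfsg.layer G)), ∀ b ∈ (Q : Subgroup (Cfsg.layer G)), a * b = b * a := by
      intro a ha b hb
      apply Subtype.ext
      show (a : G) * (b : G) = (b : G) * (a : G)
      obtain ⟨m, hm, i, hai⟩ := hdec a ((hQmem a).1 ha)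
      obtain ⟨m', hm', j, hbj⟩ := hdec b ((hQmem b).1 hb)
      have hxi : x ^ i ∈ Cfsg.layer G := by
        have : x ^ i = m⁻¹ * (a : G) := by rw [hai]; group
        rw [this]
        exact Subgroup.mul_mem _ (Subgroup.inv_mem _ (hME hm)) a.2
      have hxj : x ^ j ∈ Cfsg.layer G := by
        have : x ^ j = m'⁻¹ * (b : G) := by rw [hbj]; group
        rw [this]
        exact Subgroup.mul_mem _ (Subgroup.inv_mem _ (hME hm')) b.2
      have h1 := hMc m' hm' _ hxi
      have h2 := hMc m hm _ hxj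
      have h3 := hMcomm m hm m' hm'
      have h4 : x ^ i * x ^ j = x ^ j * x ^ i := (Commute.refl x).zpow_zpow i j
      rw [hai, hbj]
      calc m * x ^ i * (m' * x ^ j) = m * (x ^ i * m') * x ^ j := by group
        _ = m * (m' * x ^ i) * x ^ j := by rw [h1]
        _ = (m * m') * (x ^ i * x ^ j) := by group
        _ = (m' * m) * (x ^ j * x ^ i) := by rw [h3, h4]
        _ = m' * (m * x ^ j) * x ^ i := by group
        _ = m' * (x ^ j * m) * x ^ i := by rw [h2]
        _ = m' * x ^ j * (m * x ^ i) := by group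
    obtain ⟨z, hz, hz1⟩ : ∃ z ∈ M, z ≠ 1 := by
      rcases Subgroup.bot_or_exists_ne_one M with h | h
      · exact absurd h hMne
      · exact h
    have hzE : z ∈ Cfsg.layer G := hME hz
    have hzQ : (⟨z, hzE⟩ : Cfsg.layer G) ∈ (Q : Subgroup (Cfsg.layer G)) := (hQmem _).2 (hMP hz)
    have hzc : (⟨z, hzE⟩ : Cfsg.layer G) ∈ Subgroup.center (Cfsg.layer G) := by
      rw [Subgroup.mem_center_iff]
      intro y
      apply Subtype.ext
      exact (hMc z hz y y.2).symm
    have hperf : commutator (Cfsg.layer G) = ⊤ := by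
      apply Subgroup.map_injective (Cfsg.layer G).subtype_injective
      rw [_root_.commutator_def, Subgroup.map_commutator, ← MonoidHom.range_eq_map, Subgroup.range_subtype, CfsgLib.Comp.layer_perfect]
    have hcop : Nat.Coprime (orderOf (⟨z, hzE⟩ : Cfsg.layer G)) (Q : Subgroup (Cfsg.layer G)).index := by
      obtain ⟨k, hk⟩ := IsPGroup.iff_orderOf.1 hRp ⟨z, hMR hz⟩
      rw [Subgroup.orderOf_mk] at hk
      rw [Subgroup.orderOf_mk, hk]
      exact Nat.Coprime.pow_left k ((Nat.Prime.coprime_iff_not_dvd hpf.out).2 Q.not_dvd_index)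
    have h5 := CfsgLib.H9.Stem.mem_comm_of_coprime (Q : Subgroup (Cfsg.layer G)) ⟨z, hzE⟩ hzQ hzc (by rw [hperf]; trivial) hcop
    have h6 : commutator (Q : Subgroup (Cfsg.layer G)) = ⊥ := by
      rw [_root_.commutator_def, Subgroup.commutator_eq_bot_iff_le_centralizer]
      intro a _
      rw [Subgroup.mem_centralizer_iff]
      intro b _
      apply Subtype.ext
      exact hQab _ b.2 _ a.2
    rw [h6, Subgroup.mem_bot] at h5
    apply hz1
    have h7 : (⟨z, hzE⟩ : Cfsg.layer G) = 1 := congrArg Subtype.val h5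
    exact congrArg Subtype.val h7
  rw [Cfsg.generalizedFittingSubgroup, hLay, hFM, bot_sup_eq]

theorem h8_nonab_case {G : Type*} [Group G] [Finite G]
    (M : Subgroup G) (hMn : M.Normal) (hMne : M ≠ ⊥) (hMna : ¬ IsMulCommutative M)
    (hmin : ∀ K : Subgroup G, K.Normal → K ≠ ⊥ → M ≤ K) :
    Cfsg.fittingSubgroup G = ⊥ ∧ Cfsg.layer G = M := by
  classical
  have hZ : ∀ S : Subgroup G, S.Normal → S ≠ ⊥ → (∀ a ∈ S, ∀ b ∈ S, a * b = b * a) → False := by
    intro S hS hne hab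
    have h1 := hmin S hS hne
    exact hMna ⟨⟨fun a b => Subtype.ext (hab _ (h1 a.2) _ (h1 b.2))⟩⟩
  have hF : Cfsg.fittingSubgroup G = ⊥ := by
    by_contra hne
    have hnil := CfsgLib.Solv.fitting_nilpotent (G := G)
    haveI : Nontrivial (Cfsg.fittingSubgroup G) := (Subgroup.nontrivial_iff_ne_bot _).2 hne
    have hcn : Subgroup.center (Cfsg.fittingSubgroup G) ≠ ⊥ := Group.IsNilpotent.center_ne_bot _
    have hS := CfsgLib.Comp.char_map_normal_of_normal CfsgLib.Comp.fitting_normal (Subgroup.center (Cfsg.fittingSubgroup G))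
    refine hZ _ hS ?_ ?_
    · intro h
      rw [Subgroup.map_eq_bot_iff_of_injective _ (Cfsg.fittingSubgroup G).subtype_injective] at h
      exact hcn h
    · rintro _ ⟨a, ha, rfl⟩ _ ⟨b, hb, rfl⟩
      have h1 := Subgroup.mem_center_iff.1 ha b
      exact (congrArg (fun z : Cfsg.fittingSubgroup G => (z : G)) h1).symm
  have hcomp : ∀ K : Subgroup G, Cfsg.IsComponent K → K ≤ M := by
    intro K hK
    rcases CfsgLib.Comp.le_or_commute_of_normal hK hMn with h | h
    · exact h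
    · exfalso
      haveI hCn : (Subgroup.centralizer (M : Set G)).Normal := by
        haveI := hMn
        infer_instance
      have hK' : K ≤ Subgroup.centralizer (M : Set G) := by
        intro k hk
        rw [Subgroup.mem_centralizer_iff]
        intro m hm
        exact ((CfsgLib.Comp.comm_bot_iff.1 h) k hk m hm).symm
      have hne : Subgroup.centralizer (M : Set G) ≠ ⊥ := by
        intro hb
        rw [hb, le_bot_iff] at hK'
        exact CfsgLib.Comp.comp_ne_bot hK hK'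
      have h1 := hmin _ hCn hne
      refine hMna ⟨⟨fun a b => Subtype.ext ?_⟩⟩
      exact (Subgroup.mem_centralizer_iff.1 (h1 a.2) b b.2).symm
  have hLM : Cfsg.layer G ≤ M := sSup_le (fun K hK => hcomp K hK)
  have hFs : Cfsg.generalizedFittingSubgroup G ≠ ⊥ := by
    intro h
    have h1 := CfsgLib.Comp.gfit_self_centralizing (G := G)
    rw [h] at h1
    apply hMne
    rw [eq_bot_iff]
    intro m _
    apply h1
    rw [Subgroup.mem_centralizer_iff]
    intro y hy
    rw [Subgroup.mem_bot.1 hy, one_mul, mul_one]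
  have hLne : Cfsg.layer G ≠ ⊥ := by
    intro h
    apply hFs
    rw [Cfsg.generalizedFittingSubgroup, h, hF, bot_sup_eq]
  exact ⟨hF, le_antisymm hLM (hmin _ CfsgLib.Comp.layer_normal hLne)⟩

theorem h8_part_norm {G : Type*} [Group G] [Finite G] (Pg : Subgroup G) (Pr : Subgroup G → Prop)
    (hPr : ∀ y ∈ Pg, ∀ J : Subgroup G, Cfsg.IsComponent J → Pr J → Pr (J.map (MulAut.conj y).toMonoidHom)) :
    Pg ≤ Subgroup.normalizer (CfsgLib.Comp.layerPart Pr : Set G) := by
  intro y hy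
  rw [Subgroup.mem_normalizer_iff_map_conj_eq]
  refine Subgroup.eq_of_le_of_card_ge ?_ ?_
  · rw [Subgroup.map_le_iff_le_comap]
    refine sSup_le ?_
    rintro J ⟨hJ, hJP⟩
    rw [← Subgroup.map_le_iff_le_comap]
    exact CfsgLib.Comp.comp_le_part (CfsgLib.Comp.component_conj hJ y) (hPr y hy J hJ hJP)
  · rw [Subgroup.card_map_of_injective (MulAut.conj y).injective]

theorem h8_trans {G : Type*} [Group G] [Finite G] {p : ℕ} [hpf : Fact p.Prime] (P : Sylow p G)
    (hna : ¬ IsMulCommutative (P : Subgroup G)) (hcore : Cfsg.pPrimeCore p G = ⊥)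
    (M : Subgroup G) (hMn : M.Normal) (hMna : ¬ IsMulCommutative M)
    (hmin : ∀ K : Subgroup G, K.Normal → K ≠ ⊥ → M ≤ K) (hLay : Cfsg.layer G = M)
    (hcomm_of : ∀ N : Subgroup G, (P : Subgroup G) ≤ Subgroup.normalizer (N : Set G) →
      ¬ (N ⊓ (P : Subgroup G) ≤ (frattini ↥(P : Subgroup G)).map (P : Subgroup G).subtype) →
      ∀ a ∈ (P : Subgroup G), ∀ b ∈ (P : Subgroup G), a * b * a⁻¹ * b⁻¹ ∈ N)
    (K L : Subgroup G) (hK : Cfsg.IsComponent K) (hL : Cfsg.IsComponent L) :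
    ∃ x ∈ (P : Subgroup G), L = K.map (MulAut.conj x).toMonoidHom := by
  classical
  by_contra hcon
  obtain ⟨Pr, hPrd⟩ : ∃ Pr : Subgroup G → Prop, Pr = fun J => ∃ x ∈ (P : Subgroup G), J = K.map (MulAut.conj x).toMonoidHom := ⟨_, rfl⟩
  have hKP : Pr K := by
    rw [hPrd]
    refine ⟨1, Subgroup.one_mem _, ?_⟩
    ext z
    constructor
    · intro hz
      exact ⟨z, hz, by simp⟩
    · rintro ⟨y, hy, rfl⟩
      simpa using hy
  have hLP : ¬ Pr L := by
    rw [hPrd]
    exact hcon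
  have hmap : ∀ (y : G) (J : Subgroup G) (w : G), (J.map (MulAut.conj y).toMonoidHom).map (MulAut.conj w).toMonoidHom = J.map (MulAut.conj (w * y)).toMonoidHom := by
    intro y J w
    rw [Subgroup.map_map]
    congr 1
    ext z
    simp [map_mul, MulAut.mul_apply]
  have hN1 : (P : Subgroup G) ≤ Subgroup.normalizer (CfsgLib.Comp.layerPart Pr : Set G) := by
    refine h8_part_norm _ _ ?_
    intro y hy J _ hJ
    rw [hPrd] at hJ ⊢
    obtain ⟨x, hx, rfl⟩ := hJ
    exact ⟨y * x, Subgroup.mul_mem _ hy hx, hmap x K y⟩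
  have hN2 : (P : Subgroup G) ≤ Subgroup.normalizer (CfsgLib.Comp.layerPart (fun J => ¬ Pr J) : Set G) := by
    refine h8_part_norm _ _ ?_
    intro y hy J _ hJ h1
    apply hJ
    rw [hPrd] at h1 ⊢
    obtain ⟨x, hx, hxe⟩ := h1
    refine ⟨y⁻¹ * x, Subgroup.mul_mem _ (Subgroup.inv_mem _ hy) hx, ?_⟩
    rw [← hmap, ← hxe, hmap, inv_mul_cancel]
    ext z
    constructor
    · intro hz
      exact ⟨z, hz, by simp⟩
    · rintro ⟨w, hw, rfl⟩
      simpa using hw
  have hsup := CfsgLib.Comp.layer_eq_sup_parts Pr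
  have hpc := CfsgLib.Comp.parts_commute Pr
  rw [hLay] at hsup
  have hZ : (Subgroup.center M).map M.subtype = ⊥ := by
    by_contra hne
    have h1 := hmin _ (CfsgLib.Comp.char_map_normal_of_normal hMn (Subgroup.center M)) hne
    refine hMna ⟨⟨fun a b => Subtype.ext ?_⟩⟩
    obtain ⟨a', ha', hae⟩ := h1 a.2
    obtain ⟨b', hb', hbe⟩ := h1 b.2
    show (a : G) * b = b * a
    rw [← hae, ← hbe]
    have := Subgroup.mem_center_iff.1 ha' b'
    exact (congrArg (fun z : M => (z : G)) this).symm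
  have hinf : CfsgLib.Comp.layerPart Pr ⊓ CfsgLib.Comp.layerPart (fun J => ¬ Pr J) = ⊥ := by
    rw [eq_bot_iff]
    rintro w ⟨hw1, hw2⟩
    have hwM : w ∈ M := by rw [hsup]; exact (le_sup_left : CfsgLib.Comp.layerPart Pr ≤ _) hw1
    have h1 : w ∈ (Subgroup.center M).map M.subtype := by
      refine ⟨⟨w, hwM⟩, ?_, rfl⟩
      show (⟨w, hwM⟩ : M) ∈ Subgroup.center M
      rw [Subgroup.mem_center_iff]
      intro y
      apply Subtype.ext
      show (y : G) * w = w * (y : G)
      have hy : (y : G) ∈ CfsgLib.Comp.layerPart Pr ⊔ CfsgLib.Comp.layerPart (fun J => ¬ Pr J) := by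
        rw [← hsup]
        exact y.2
      obtain ⟨a, ha, b, hb, hab⟩ := CfsgLib.Comp.mem_sup_of_commute hpc hy
      rw [hab]
      have h2 := hpc a ha w hw2
      have h3 := hpc w hw1 b hb
      calc a * b * w = a * (b * w) := by group
        _ = a * (w * b) := by rw [h3]
        _ = (a * w) * b := by group
        _ = (w * a) * b := by rw [h2]
        _ = w * (a * b) := by group
    rw [hZ] at h1
    exact h1
  by_cases h1 : CfsgLib.Comp.layerPart Pr ⊓ (P : Subgroup G) ≤ (frattini ↥(P : Subgroup G)).map (P : Subgroup G).subtype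
  · exact h8_comp_false hcore _ (h8_tate P _ hN1 h1) K hK (CfsgLib.Comp.comp_le_part hK hKP)
  · by_cases h2 : CfsgLib.Comp.layerPart (fun J => ¬ Pr J) ⊓ (P : Subgroup G) ≤ (frattini ↥(P : Subgroup G)).map (P : Subgroup G).subtype
    · exact h8_comp_false hcore _ (h8_tate P _ hN2 h2) L hL (CfsgLib.Comp.comp_le_part (P := fun J => ¬ Pr J) hL hLP)
    · apply hna
      refine ⟨⟨fun a b => Subtype.ext ?_⟩⟩
      have h3 := hcomm_of _ hN1 h1 a a.2 b b.2
      have h4 := hcomm_of _ hN2 h2 a a.2 b b.2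
      have h5 : (a : G) * b * (a : G)⁻¹ * (b : G)⁻¹ ∈ CfsgLib.Comp.layerPart Pr ⊓ CfsgLib.Comp.layerPart (fun J => ¬ Pr J) := ⟨h3, h4⟩
      rw [hinf, Subgroup.mem_bot] at h5
      show (a : G) * b = b * a
      have h6 : (a : G) * b * (a : G)⁻¹ * (b : G)⁻¹ * (b * a) = a * b := by group
      rw [← h6, h5, one_mul]


/-- Let p be a prime and G a finite group with a non-commutative Sylow p-subgroup P whose Frattini subgroup has index p² in P (P is generated by two elements). Suppose G has no nontrivial normal subgroup of order prime to p and the Frattini subgroup of P contains no nontrivial normal subgroup of G. Then the generalized Fitting subgroup F*(G) is the unique minimal normal subgroup of G, the image of P in G/F*(G) is cyclic, and if F*(G) is not commutative then P permutes the components of G transitively by conjugation. -/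
theorem result {G : Type*} [Group G] [Finite G] (p : ℕ) [Fact p.Prime] (P : Sylow p G) (hna : ¬ IsMulCommutative (P : Subgroup G)) (hgen : (frattini ↥(P : Subgroup G)).index = p ^ 2) (hcore : Cfsg.pPrimeCore p G = ⊥) (hfrat : ((frattini ↥(P : Subgroup G)).map (P : Subgroup G).subtype).normalCore = ⊥) [hFn : (Cfsg.generalizedFittingSubgroup G).Normal] :
    (Cfsg.generalizedFittingSubgroup G ≠ ⊥ ∧ ∀ K : Subgroup G, K.Normal → K ≠ ⊥ → Cfsg.generalizedFittingSubgroup G ≤ K) ∧
      IsCyclic ↥((P : Subgroup G).map (QuotientGroup.mk' (Cfsg.generalizedFittingSubgroup G))) ∧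
      (¬ IsMulCommutative (Cfsg.generalizedFittingSubgroup G) → ∀ K L : Subgroup G, Cfsg.IsComponent K → Cfsg.IsComponent L → ∃ x ∈ (P : Subgroup G), L = K.map (MulAut.conj x).toMonoidHom) := by
  classical
  have hP2 : IsPGroup p ↥(P : Subgroup G) := P.isPGroup'
  haveI : Nontrivial G := by
    by_contra hn
    rw [not_nontrivial_iff_subsingleton] at hn
    exact hna ⟨⟨fun a b => Subsingleton.elim _ _⟩⟩
  have hcomm_of : ∀ N : Subgroup G, (P : Subgroup G) ≤ Subgroup.normalizer (N : Set G) →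
      ¬ (N ⊓ (P : Subgroup G) ≤ (frattini ↥(P : Subgroup G)).map (P : Subgroup G).subtype) →
      ∀ a ∈ (P : Subgroup G), ∀ b ∈ (P : Subgroup G), a * b * a⁻¹ * b⁻¹ ∈ N := by
    intro N hNP hnot a ha b hb
    haveI hD := Subgroup.normal_subgroupOf_of_le_normalizer hNP
    have hDF : ¬ (N.subgroupOf (P : Subgroup G)) ≤ frattini ↥(P : Subgroup G) := by
      intro h
      apply hnot
      rintro y ⟨hy, hyP⟩
      exact ⟨⟨y, hyP⟩, h hy, rfl⟩
    obtain ⟨x, hx⟩ := h8_L2 hgen _ hDF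
    obtain ⟨d, hd, i, hai⟩ := h8_dec _ x hx ⟨a, ha⟩
    obtain ⟨d', hd', j, hbj⟩ := h8_dec _ x hx ⟨b, hb⟩
    have h1 : (⟨a, ha⟩ : ↥(P : Subgroup G)) * ⟨b, hb⟩ * (⟨a, ha⟩ : ↥(P : Subgroup G))⁻¹ * (⟨b, hb⟩ : ↥(P : Subgroup G))⁻¹ ∈ N.subgroupOf (P : Subgroup G) := by
      rw [hai, hbj]
      obtain ⟨u, hu⟩ : ∃ u, u = x ^ i := ⟨_, rfl⟩
      obtain ⟨v, hv⟩ : ∃ v, v = x ^ j := ⟨_, rfl⟩
      rw [← hu, ← hv]
      have huv : u * v * u⁻¹ = v := by
        have h2 : u * v = v * u := by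
          rw [hu, hv]
          exact (Commute.refl x).zpow_zpow i j
        rw [h2]
        group
      have h3 : (d * u) * (d' * v) * (d * u)⁻¹ * (d' * v)⁻¹ = d * (u * d' * u⁻¹) * (v * d⁻¹ * v⁻¹) * d'⁻¹ := by
        calc (d * u) * (d' * v) * (d * u)⁻¹ * (d' * v)⁻¹ = d * (u * d' * u⁻¹) * (u * v * u⁻¹) * d⁻¹ * v⁻¹ * d'⁻¹ := by group
          _ = d * (u * d' * u⁻¹) * (v * d⁻¹ * v⁻¹) * d'⁻¹ := by rw [huv]; group
      rw [h3]
      exact Subgroup.mul_mem _ (Subgroup.mul_mem _ (Subgroup.mul_mem _ hd (hD.conj_mem _ hd' _)) (hD.conj_mem _ (Subgroup.inv_mem _ hd) _)) (Subgroup.inv_mem _ hd')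
    exact h1
  obtain ⟨M, hMn, hMne, hM₀⟩ := CfsgLib.Solv.exists_minimal_normal G
  have hnotΦ : ∀ N : Subgroup G, N.Normal → N ≠ ⊥ → ¬ (N ⊓ (P : Subgroup G) ≤ (frattini ↥(P : Subgroup G)).map (P : Subgroup G).subtype) := by
    intro N hN hne
    haveI := hN
    exact h8_L1 P hcore hfrat N hne
  have hmin : ∀ K : Subgroup G, K.Normal → K ≠ ⊥ → M ≤ K := by
    intro K hK hne
    have h1 : M ⊓ K ≠ ⊥ := by
      intro h
      apply hna
      refine ⟨⟨fun a b => Subtype.ext ?_⟩⟩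
      have hnormal : ∀ N : Subgroup G, N.Normal → (P : Subgroup G) ≤ Subgroup.normalizer (N : Set G) := by
        intro N hN
        rw [Subgroup.normalizer_eq_top_iff.2 hN]
        exact le_top
      have h3 := hcomm_of M (hnormal M hMn) (hnotΦ M hMn hMne) a a.2 b b.2
      have h4 := hcomm_of K (hnormal K hK) (hnotΦ K hK hne) a a.2 b b.2
      have h5 : (a : G) * b * (a : G)⁻¹ * (b : G)⁻¹ ∈ M ⊓ K := ⟨h3, h4⟩
      rw [h, Subgroup.mem_bot] at h5
      show (a : G) * b = b * a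
      have h6 : (a : G) * b * (a : G)⁻¹ * (b : G)⁻¹ * (b * a) = a * b := by group
      rw [← h6, h5, one_mul]
    haveI := hMn
    haveI := hK
    rcases hM₀ (M ⊓ K) inferInstance inf_le_left with h | h
    · exact absurd h h1
    · rw [← h]
      exact inf_le_right.trans (le_of_eq rfl)
  haveI hDM := Subgroup.normal_subgroupOf_of_le_normalizer (H := (P : Subgroup G)) (N := M) (by
    rw [Subgroup.normalizer_eq_top_iff.2 hMn]; exact le_top)
  have hDF : ¬ (M.subgroupOf (P : Subgroup G)) ≤ frattini ↥(P : Subgroup G) := by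
    intro h
    apply hnotΦ M hMn hMne
    rintro y ⟨hy, hyP⟩
    exact ⟨⟨y, hyP⟩, h hy, rfl⟩
  obtain ⟨x', hx'⟩ := h8_L2 hgen _ hDF
  obtain ⟨x, hxd⟩ : ∃ x : G, x = (x' : G) := ⟨_, rfl⟩
  have hxP : x ∈ (P : Subgroup G) := by rw [hxd]; exact x'.2
  have hdec : ∀ t ∈ (P : Subgroup G), ∃ m ∈ M, ∃ i : ℤ, t = m * x ^ i := by
    intro t ht
    obtain ⟨d, hd, i, hti⟩ := h8_dec _ x' hx' ⟨t, ht⟩
    refine ⟨d, hd, i, ?_⟩
    have := congrArg (fun z : ↥(P : Subgroup G) => (z : G)) hti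
    simpa [hxd] using this
  have hFsM : Cfsg.generalizedFittingSubgroup G = M ∧ (¬ IsMulCommutative M → Cfsg.layer G = M) := by
    by_cases hMab : IsMulCommutative M
    · exact ⟨h8_abel_case P hcore hfrat M hMn hMne hMab (h8_min_p hcore M hMn hMne hMab hmin) hmin x hxP hdec, fun h => absurd hMab h⟩
    · obtain ⟨hF, hL⟩ := h8_nonab_case M hMn hMne hMab hmin
      refine ⟨?_, fun _ => hL⟩
      rw [Cfsg.generalizedFittingSubgroup, hL, hF, sup_bot_eq]
  refine ⟨⟨?_, ?_⟩, ?_, ?_⟩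
  · rw [hFsM.1]
    exact hMne
  · rw [hFsM.1]
    exact hmin
  · refine ⟨⟨⟨QuotientGroup.mk x, ⟨x, hxP, rfl⟩⟩, fun q => ?_⟩⟩
    obtain ⟨_, a, ha, rfl⟩ := q
    obtain ⟨m, hm, i, rfl⟩ := hdec a ha
    refine ⟨i, Subtype.ext ?_⟩
    have hm1 : (QuotientGroup.mk m : G ⧸ Cfsg.generalizedFittingSubgroup G) = 1 := by
      rw [QuotientGroup.eq_one_iff, hFsM.1]
      exact hm
    show (QuotientGroup.mk x : G ⧸ Cfsg.generalizedFittingSubgroup G) ^ i = QuotientGroup.mk (m * x ^ i)
    rw [QuotientGroup.mk_mul, hm1, one_mul, QuotientGroup.mk_zpow]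
  · intro hnc K L hK hL
    rw [hFsM.1] at hnc
    exact h8_trans P hna hcore M hMn hnc hmin (hFsM.2 hnc) hcomm_of K L hK hL

end Cfsg.Agent.S4172
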