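import Cfsg.Statements.S4176
import Cfsg.Agent.Lib.FGS.Basic
import Cfsg.Agent.Lib.OOL.PSep2
import Cfsg.Agent.Lib.Solv.Misc
import Cfsg.Agent.Lib.Solv.Hall

set_option autoImplicit false
open Cfsg
open scoped commutatorElement
open scoped Pointwise

namespace Cfsg.Agent.S4176

universe u₁ u₂ u₃

section core
variable {k : Type u₁} {V : Type u₂} {H : Type u₃} [Field k] [AddCommGroup V] [Module k V] [Group H]

theorem h8_mul (ρ : Representation k H V) (a b : H) (x : V) : ρ (a * b) x = ρ a (ρ b x) := by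
  rw [map_mul]; rfl

theorem h8_one (ρ : Representation k H V) (x : V) : ρ 1 x = x := by
  rw [map_one]; rfl

theorem h8_inv_left (ρ : Representation k H V) (a : H) (x : V) : ρ a⁻¹ (ρ a x) = x := by
  rw [← h8_mul, inv_mul_cancel, h8_one]

theorem h8_inv_right (ρ : Representation k H V) (a : H) (x : V) : ρ a (ρ a⁻¹ x) = x := by
  rw [← h8_mul, mul_inv_cancel, h8_one]

def h8_stab (ρ : Representation k H V) (x : V) : Subgroup H where
  carrier := {h | ρ h x = x}
  mul_mem' := by
    intro a b ha hb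
    show ρ (a * b) x = x
    have ha' : ρ a x = x := ha
    have hb' : ρ b x = x := hb
    rw [h8_mul, hb', ha']
  one_mem' := h8_one ρ x
  inv_mem' := by
    intro a ha
    show ρ a⁻¹ x = x
    have ha' : ρ a x = x := ha
    conv_lhs => rw [← ha']
    exact h8_inv_left ρ a x

theorem h8_card_orbit [Finite H] (ρ : Representation k H V) (x : V) :
    Nat.card {u : V | ∃ h : H, ρ h x = u} = (h8_stab ρ x).index := by
  letI : MulAction H V :=
    { smul := fun h v => ρ h v, one_smul := h8_one ρ, mul_smul := h8_mul ρ }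
  have h1 : h8_stab ρ x = MulAction.stabilizer H x := by
    ext h; rfl
  rw [h1, MulAction.index_stabilizer]
  exact Nat.card_coe_set_eq _

variable [Finite H]

noncomputable def h8_S (ρ : Representation k H V) (X : Subgroup H) (v : V) : V :=
  letI : Fintype X := Fintype.ofFinite X
  ∑ x : X, ρ (x : H) v

theorem h8_S_fixed (ρ : Representation k H V) (X : Subgroup H) (v : V) (m : H) (hm : m ∈ X) :
    ρ m (h8_S ρ X v) = h8_S ρ X v := by
  letI : Fintype X := Fintype.ofFinite X
  unfold h8_S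
  rw [map_sum]
  calc _ = ∑ x : X, (fun y : X => ρ (y : H) v) (Equiv.mulLeft (⟨m, hm⟩ : X) x) :=
        Finset.sum_congr rfl (fun x _ => (h8_mul ρ m x v).symm)
    _ = _ := Equiv.sum_comp (Equiv.mulLeft (⟨m, hm⟩ : X)) (fun y : X => ρ (y : H) v)

theorem h8_S_const (ρ : Representation k H V) (X : Subgroup H) (v : V) (hv : ∀ x ∈ X, ρ x v = v) :
    h8_S ρ X v = (Nat.card X) • v := by
  letI : Fintype X := Fintype.ofFinite X
  unfold h8_S
  have h1 : ∑ x : X, ρ (x : H) v = ∑ _x : X, v := Finset.sum_congr rfl (fun x _ => hv (x : H) x.2)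
  show ∑ x : X, ρ (x : H) v = _
  rw [h1, Finset.sum_const, Finset.card_univ, Nat.card_eq_fintype_card]

theorem h8_S_conj (ρ : Representation k H V) (X : Subgroup H) (h : H)
    (hh : ∀ x, x ∈ X ↔ h⁻¹ * x * h ∈ X) (v : V) : h8_S ρ X (ρ h v) = ρ h (h8_S ρ X v) := by
  letI : Fintype X := Fintype.ofFinite X
  unfold h8_S
  rw [map_sum]
  let φ : X ≃ X :=
    { toFun := fun x => ⟨h⁻¹ * x * h, (hh x).1 x.2⟩
      invFun := fun x => ⟨h * x * h⁻¹, (hh _).2 (by simpa [mul_assoc] using x.2)⟩
      left_inv := fun x => Subtype.ext (by simp [mul_assoc])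
      right_inv := fun x => Subtype.ext (by simp [mul_assoc]) }
  rw [← Equiv.sum_comp φ (fun x : X => ρ h (ρ (x : H) v))]
  refine Finset.sum_congr rfl (fun x _ => ?_)
  show ρ x (ρ h v) = ρ h (ρ (h⁻¹ * x * h) v)
  rw [← h8_mul, ← h8_mul]
  have : h * (h⁻¹ * (x : H) * h) = x * h := by group
  rw [this]

open Classical in
noncomputable def h8_O (ρ : Representation k H V) (X : Subgroup H) (a : V) : Finset V :=
  letI : Fintype X := Fintype.ofFinite X
  Finset.univ.image (fun x : X => ρ (x : H) a)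

theorem h8_mem_O (ρ : Representation k H V) (X : Subgroup H) (a u : V) :
    u ∈ h8_O ρ X a ↔ ∃ x ∈ X, ρ x a = u := by
  classical
  letI : Fintype X := Fintype.ofFinite X
  unfold h8_O
  simp

theorem h8_S_orbit (ρ : Representation k H V) (X : Subgroup H) (a : V) :
    ∃ c : ℕ, h8_S ρ X a = c • ∑ u ∈ h8_O ρ X a, u ∧ Nat.card X = c * (h8_O ρ X a).card := by
  classical
  letI : Fintype X := Fintype.ofFinite X
  set g : X → V := fun x => ρ (x : H) a with hg
  have hO : h8_O ρ X a = Finset.univ.image g := by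
    ext u
    rw [h8_mem_O]
    simp only [Finset.mem_image, Finset.mem_univ, true_and, hg]
    constructor
    · rintro ⟨x, hx, rfl⟩
      exact ⟨⟨x, hx⟩, rfl⟩
    · rintro ⟨x, rfl⟩
      exact ⟨x, x.2, rfl⟩
  set c := (Finset.univ.filter (fun x : X => g x = a)).card with hc
  have hfib : ∀ u ∈ Finset.univ.image g, (Finset.univ.filter (fun x : X => g x = u)).card = c := by
    intro u hu
    obtain ⟨x0, -, rfl⟩ := Finset.mem_image.1 hu
    rw [hc]
    refine Finset.card_bij (fun y _ => x0⁻¹ * y) ?_ ?_ ?_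
    · intro y hy
      have hy' : g y = g x0 := (Finset.mem_filter.1 hy).2
      refine Finset.mem_filter.2 ⟨Finset.mem_univ _, ?_⟩
      show ρ ((x0⁻¹ * y : X) : H) a = a
      have h1 : ρ (y : H) a = ρ (x0 : H) a := hy'
      rw [Subgroup.coe_mul, h8_mul, h1, Subgroup.coe_inv, h8_inv_left]
    · intro y _ y' _ h
      exact mul_left_cancel h
    · intro z hz
      have hz' : g z = a := (Finset.mem_filter.1 hz).2
      refine ⟨x0 * z, Finset.mem_filter.2 ⟨Finset.mem_univ _, ?_⟩, by simp⟩
      show ρ ((x0 * z : X) : H) a = ρ (x0 : H) a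
      have h1 : ρ (z : H) a = a := hz'
      rw [Subgroup.coe_mul, h8_mul, h1]
  refine ⟨c, ?_, ?_⟩
  · rw [hO]
    unfold h8_S
    have h1 := Finset.sum_comp (s := (Finset.univ : Finset X)) (fun u : V => u) g
    show ∑ x : X, g x = _
    rw [h1, Finset.smul_sum]
    refine Finset.sum_congr rfl (fun u hu => ?_)
    rw [hfib u hu]
  · rw [hO, Nat.card_eq_fintype_card, ← Finset.card_univ]
    rw [Finset.card_eq_sum_card_image g Finset.univ]
    rw [Finset.sum_congr rfl hfib, Finset.sum_const, smul_eq_mul, mul_comm]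

noncomputable def h8_eL (ρ : Representation k H V) (X : Subgroup H) : V →ₗ[k] V :=
  letI : Fintype X := Fintype.ofFinite X
  ((Nat.card X : k)⁻¹) • ∑ x : X, ρ (x : H)

theorem h8_eL_apply (ρ : Representation k H V) (X : Subgroup H) (v : V) :
    h8_eL ρ X v = ((Nat.card X : k)⁻¹) • h8_S ρ X v := by
  letI : Fintype X := Fintype.ofFinite X
  unfold h8_eL h8_S
  simp [LinearMap.sum_apply]

theorem h8_eL_fixed (ρ : Representation k H V) (X : Subgroup H) (v : V) (m : H) (hm : m ∈ X) :
    ρ m (h8_eL ρ X v) = h8_eL ρ X v := by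
  rw [h8_eL_apply, map_smul, h8_S_fixed ρ X v m hm]

theorem h8_eL_id (ρ : Representation k H V) (X : Subgroup H) (hX : ((Nat.card X : ℕ) : k) ≠ 0) (v : V)
    (hv : ∀ x ∈ X, ρ x v = v) : h8_eL ρ X v = v := by
  rw [h8_eL_apply, h8_S_const ρ X v hv, ← Nat.cast_smul_eq_nsmul k, smul_smul, inv_mul_cancel₀ hX, one_smul]

theorem h8_eL_conj (ρ : Representation k H V) (X : Subgroup H) (h : H)
    (hh : ∀ x, x ∈ X ↔ h⁻¹ * x * h ∈ X) (v : V) : h8_eL ρ X (ρ h v) = ρ h (h8_eL ρ X v) := by
  rw [h8_eL_apply, h8_eL_apply, h8_S_conj ρ X h hh, map_smul]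

theorem h8_eL_orbit (ρ : Representation k H V) (X : Subgroup H) (hX : ((Nat.card X : ℕ) : k) ≠ 0) (a : V) :
    h8_eL ρ X a = (((h8_O ρ X a).card : k)⁻¹) • ∑ u ∈ h8_O ρ X a, u := by
  obtain ⟨c, h1, h2⟩ := h8_S_orbit ρ X a
  rw [h8_eL_apply, h1, ← Nat.cast_smul_eq_nsmul k, smul_smul]
  congr 1
  rw [h2] at hX ⊢
  push_cast at hX ⊢
  have h3 : (c : k) ≠ 0 := left_ne_zero_of_mul hX
  have h4 : ((h8_O ρ X a).card : k) ≠ 0 := right_ne_zero_of_mul hX
  field_simp

end core

def h8_W {k : Type u₁} {V : Type u₂} {H : Type u₃} [Field k] [AddCommGroup V] [Module k V] [Group H]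
    (ρ : Representation k H V) (M : Subgroup H) : Submodule k V where
  carrier := {v | ∀ m ∈ M, ρ m v = v}
  add_mem' := by
    intro a b ha hb m hm
    rw [map_add, ha m hm, hb m hm]
  zero_mem' := by
    intro m _
    exact map_zero _
  smul_mem' := by
    intro c v hv m hm
    rw [map_smul, hv m hm]

theorem h8_rel_dvd {H : Type*} [Group H] [Finite H] (T M : Subgroup H) [M.Normal] : T.relIndex M ∣ T.index := by
  have h1 := CfsgLib.Solv.card_sup_mul_card_inf T M
  have h2 : Nat.card M = Nat.card (T ⊓ M : Subgroup H) * T.relIndex M := by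
    have h3 := Subgroup.card_mul_index (T.subgroupOf M)
    have h4 : Nat.card (T.subgroupOf M) = Nat.card (T ⊓ M : Subgroup H) := by
      rw [← Subgroup.subgroupOf_map_subtype]
      exact (Subgroup.card_map_of_injective M.subtype_injective).symm
    rw [h4] at h3
    exact h3.symm
  have hc : 0 < Nat.card (T ⊓ M : Subgroup H) := Nat.card_pos
  have hT : 0 < Nat.card T := Nat.card_pos
  have h3 : Nat.card (T ⊔ M : Subgroup H) = Nat.card T * T.relIndex M := by
    apply Nat.eq_of_mul_eq_mul_right hc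
    rw [h1, h2]
    ring
  have h4 := Subgroup.card_mul_index (T ⊔ M)
  have h5 := Subgroup.card_mul_index T
  rw [h3] at h4
  have h6 : T.relIndex M * (T ⊔ M).index = T.index := by
    apply Nat.eq_of_mul_eq_mul_left hT
    rw [h5, ← h4]
    ring
  exact ⟨_, h6.symm⟩

section rep
variable {k : Type u₁} {V : Type u₂} {H : Type u₃} [Field k] [AddCommGroup V] [Module k V] [Group H]

theorem h8_W_inv (ρ : Representation k H V) (M : Subgroup H) [hM : M.Normal] (h : H) (v : V)
    (hv : v ∈ h8_W ρ M) : ρ h v ∈ h8_W ρ M := by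
  intro m hm
  have h1 : h⁻¹ * m * h ∈ M := by
    have := hM.conj_mem m hm h⁻¹
    simpa using this
  have h2 : m * h = h * (h⁻¹ * m * h) := by group
  rw [← h8_mul, h2, h8_mul, hv _ h1]

def h8_rW (ρ : Representation k H V) (M : Subgroup H) [M.Normal] : Representation k H (h8_W ρ M) where
  toFun h := (ρ h).restrict (fun v hv => h8_W_inv ρ M h v hv)
  map_one' := by
    ext v
    exact h8_one ρ _
  map_mul' a b := by
    ext v
    exact h8_mul ρ a b _

theorem h8_rW_coe (ρ : Representation k H V) (M : Subgroup H) [M.Normal] (h : H) (v : h8_W ρ M) :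
    ((h8_rW ρ M h v : h8_W ρ M) : V) = ρ h v := rfl

def h8_rbar (ρ : Representation k H V) (M : Subgroup H) [M.Normal] :
    Representation k (H ⧸ M) (h8_W ρ M) :=
  QuotientGroup.lift M (h8_rW ρ M) (by
    intro m hm
    rw [MonoidHom.mem_ker]
    ext v
    exact v.2 m hm)

theorem h8_rbar_coe (ρ : Representation k H V) (M : Subgroup H) [M.Normal] (h : H) (v : h8_W ρ M) :
    ((h8_rbar ρ M (h : H ⧸ M) v : h8_W ρ M) : V) = ρ h v := rfl

theorem h8_card_W (ρ : Representation k H V) (M : Subgroup H) [M.Normal] (x : h8_W ρ M) :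
    Nat.card {u : h8_W ρ M | ∃ h : H ⧸ M, h8_rbar ρ M h x = u} = Nat.card {u : V | ∃ h : H, ρ h x = u} := by
  refine Nat.card_congr (Equiv.ofBijective (fun u => ⟨(u.1 : V), ?_⟩) ⟨?_, ?_⟩)
  · obtain ⟨u, hb, hhb⟩ := u
    obtain ⟨h, rfl⟩ := QuotientGroup.mk_surjective hb
    exact ⟨h, congrArg (fun z : h8_W ρ M => (z : V)) hhb⟩
  · rintro ⟨u, hu⟩ ⟨u', hu'⟩ h
    apply Subtype.ext
    apply Subtype.ext
    exact congrArg (fun z : {u : V | ∃ h : H, ρ h (x : V) = u} => (z : V)) h
  · rintro ⟨u, h, rfl⟩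
    refine ⟨⟨h8_rW ρ M h x, (h : H ⧸ M), rfl⟩, rfl⟩

end rep

theorem h8_exists_M {p : ℕ} {G : Type*} [Group G] [Finite G] [Nontrivial G] (hsol : IsPSolvable p G) :
    ∃ M : Subgroup G, M.Normal ∧ M ≠ ⊥ ∧ ((∃ m, Nat.card M = p ^ m) ∨ (Nat.card M).Coprime p) := by
  obtain ⟨n, H, h0, hl, hmono, hnorm, hfac⟩ := hsol
  by_contra hcon
  have key : ∀ i : ℕ, ∀ hi : i < n + 1, H ⟨i, hi⟩ = ⊥ := by
    intro i
    induction i with
    | zero => intro hi; exact h0
    | succ i ih =>
      intro hi
      have h1 := ih (by omega)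
      by_contra hne
      have hf := hfac ⟨i, by omega⟩
      have h2 : (⟨i, by omega⟩ : Fin n).castSucc = (⟨i, by omega⟩ : Fin (n + 1)) := rfl
      have h3 : (⟨i, by omega⟩ : Fin n).succ = (⟨i + 1, hi⟩ : Fin (n + 1)) := rfl
      rw [h2, h3, h1, Subgroup.relIndex_bot_left] at hf
      exact hcon ⟨H ⟨i + 1, hi⟩, hnorm _, hne, hf⟩
  have h5 := key n (by omega)
  have h6 : (⟨n, by omega⟩ : Fin (n + 1)) = Fin.last n := rfl
  rw [h6, hl] at h5
  exact top_ne_bot h5

section main
variable {k : Type u₁} {V : Type u₂} {H : Type u₃} [Field k] [AddCommGroup V] [Module k V] [Group H] [Finite H]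

theorem h8_prime_case (M : Subgroup H) [hMn : M.Normal] (hM : ((Nat.card M : ℕ) : k) ≠ 0)
    (ρ : Representation k H V) (a : V)
    (hspan : Submodule.span k {u : V | ∃ h : H, ρ h a = u} = ⊤) (b : V)
    (hcop : (Nat.card {u : V | ∃ h : H, ρ h a = u}).Coprime (Nat.card {u : V | ∃ h : H, ρ h b = u})) :
    ∀ m ∈ M, ρ m b = b := by
  rw [h8_card_orbit, h8_card_orbit] at hcop
  set T := h8_stab ρ a with hT
  set S := h8_stab ρ b with hS
  have hprod := (CfsgLib.Solv.index_inf_coprime S T hcop.symm).2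
  have hT1 : T.relIndex M ∣ T.index := h8_rel_dvd T M
  have hS1 : S.relIndex M ∣ S.index := h8_rel_dvd S M
  have hcopM : (S.subgroupOf M).index.Coprime (T.subgroupOf M).index :=
    Nat.Coprime.coprime_dvd_left hS1 (Nat.Coprime.coprime_dvd_right hT1 hcop.symm)
  have hprodM := (CfsgLib.Solv.index_inf_coprime (S.subgroupOf M) (T.subgroupOf M) hcopM).2
  set B := M ⊓ S with hB
  have hBM : B ≤ M := inf_le_left
  have hBcard : ((Nat.card B : ℕ) : k) ≠ 0 := by
    intro h0
    apply hM
    obtain ⟨d, hd⟩ := Subgroup.card_dvd_of_le hBM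
    rw [hd]
    push_cast
    rw [h0, zero_mul]
  -- the averages agree on a
  have he_eq : h8_eL ρ B a = h8_eL ρ M a := by
    rw [h8_eL_orbit ρ B hBcard a, h8_eL_orbit ρ M hM a]
    have hO : h8_O ρ B a = h8_O ρ M a := by
      ext u
      rw [h8_mem_O, h8_mem_O]
      constructor
      · rintro ⟨x, hx, rfl⟩
        exact ⟨x, hBM hx, rfl⟩
      · rintro ⟨m, hm, rfl⟩
        obtain ⟨x, hx, y, hy, hxy⟩ := hprodM ⟨m, hm⟩
        have hm' : m = (x : H) * (y : H) := congrArg (fun z : M => (z : H)) hxy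
        have hy' : ρ (y : H) a = a := hy
        refine ⟨x, ⟨x.2, hx⟩, ?_⟩
        rw [hm', h8_mul, hy']
    rw [hO]
  have heM_conj : ∀ h v, h8_eL ρ M (ρ h v) = ρ h (h8_eL ρ M v) := by
    intro h v
    refine h8_eL_conj ρ M h (fun x => ?_) v
    constructor
    · intro hx
      have := hMn.conj_mem x hx h⁻¹
      simpa using this
    · intro hx
      have := hMn.conj_mem _ hx h
      have h2 : h * (h⁻¹ * x * h) * h⁻¹ = x := by group
      rwa [h2] at this
  have heB_conj : ∀ s ∈ S, ∀ v, h8_eL ρ B (ρ s v) = ρ s (h8_eL ρ B v) := by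
    intro s hs v
    refine h8_eL_conj ρ B s (fun x => ?_) v
    constructor
    · rintro ⟨hx1, hx2⟩
      refine ⟨?_, ?_⟩
      · have := hMn.conj_mem x hx1 s⁻¹
        simpa using this
      · exact S.mul_mem (S.mul_mem (S.inv_mem hs) hx2) hs
    · rintro ⟨hx1, hx2⟩
      have h2 : s * (s⁻¹ * x * s) * s⁻¹ = x := by group
      refine ⟨?_, ?_⟩
      · have := hMn.conj_mem _ hx1 s
        rwa [h2] at this
      · have := S.mul_mem (S.mul_mem hs hx2) (S.inv_mem hs)
        rwa [h2] at this
  have hBM_abs : ∀ v, h8_eL ρ B (h8_eL ρ M v) = h8_eL ρ M v := by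
    intro v
    exact h8_eL_id ρ B hBcard _ (fun x hx => h8_eL_fixed ρ M v x (hBM hx))
  -- the composite vanishes on the orbit, hence everywhere
  let L : V →ₗ[k] V := (h8_eL ρ B) ∘ₗ (LinearMap.id - h8_eL ρ M)
  have hL : ∀ v, L v = h8_eL ρ B v - h8_eL ρ M v := by
    intro v
    show h8_eL ρ B (v - h8_eL ρ M v) = _
    rw [map_sub, hBM_abs]
  have hker : (⊤ : Submodule k V) ≤ LinearMap.ker L := by
    rw [← hspan]
    refine Submodule.span_le.2 ?_
    rintro u ⟨h, rfl⟩
    obtain ⟨s, hs, t, ht, rfl⟩ := hprod h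
    have ht' : ρ t a = a := ht
    show L (ρ (s * t) a) = 0
    rw [hL, h8_mul, ht', heB_conj s hs, heM_conj, he_eq, sub_self]
  have hbfix : h8_eL ρ B b = b := h8_eL_id ρ B hBcard b (fun x hx => hx.2)
  have hb0 : L b = 0 := hker (Submodule.mem_top)
  rw [hL, hbfix, sub_eq_zero] at hb0
  intro m hm
  rw [hb0]
  exact h8_eL_fixed ρ M b m hm

theorem h8_reduce (p : ℕ) [Fact p.Prime] (M : Subgroup H) [hMn : M.Normal]
    (ρ : Representation k H V) (a : V)
    (hfix : ∃ P : Sylow p H, ∀ x : H, x ∈ (P : Subgroup H) → ρ x a = a)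
    (hspan : Submodule.span k {u : V | ∃ h : H, ρ h a = u} = ⊤)
    (e : V →ₗ[k] V) (he1 : ∀ v, ∀ m ∈ M, ρ m (e v) = e v) (he2 : ∀ v, (∀ m ∈ M, ρ m v = v) → e v = v)
    (he3 : ∀ h v, e (ρ h v) = ρ h (e v))
    (hb : ∀ b, (Nat.card {u : V | ∃ h : H, ρ h a = u}).Coprime (Nat.card {u : V | ∃ h : H, ρ h b = u}) → ∀ m ∈ M, ρ m b = b)
    (IH : ∀ a' : h8_W ρ M, (∃ P : Sylow p (H ⧸ M), ∀ x : H ⧸ M, x ∈ (P : Subgroup (H ⧸ M)) → h8_rbar ρ M x a' = a') →
      Submodule.span k {u : h8_W ρ M | ∃ h : H ⧸ M, h8_rbar ρ M h a' = u} = ⊤ →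
      Module.finrank k (h8_rbar ρ M).invariants ≤ 1 ∧
      ∀ b : h8_W ρ M, (Nat.card {u : h8_W ρ M | ∃ h : H ⧸ M, h8_rbar ρ M h a' = u}).Coprime (Nat.card {u : h8_W ρ M | ∃ h : H ⧸ M, h8_rbar ρ M h b = u}) → ∀ h : H ⧸ M, h8_rbar ρ M h b = b) :
    Module.finrank k ρ.invariants ≤ 1 ∧
    ∀ b : V, (Nat.card {u : V | ∃ h : H, ρ h a = u}).Coprime (Nat.card {u : V | ∃ h : H, ρ h b = u}) → ∀ h : H, ρ h b = b := by
  haveI hfin : Module.Finite k V := by
    refine ⟨⟨(Set.finite_range (fun h : H => ρ h a)).toFinset, ?_⟩⟩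
    rw [Set.Finite.coe_toFinset]
    exact hspan
  have he_mem : ∀ v, e v ∈ h8_W ρ M := fun v m hm => he1 v m hm
  let a' : h8_W ρ M := ⟨e a, he_mem a⟩
  have hfix' : ∃ P : Sylow p (H ⧸ M), ∀ x : H ⧸ M, x ∈ (P : Subgroup (H ⧸ M)) → h8_rbar ρ M x a' = a' := by
    obtain ⟨P, hP⟩ := hfix
    refine ⟨P.mapSurjective (QuotientGroup.mk'_surjective M), ?_⟩
    intro x hx
    rw [Sylow.coe_mapSurjective] at hx
    obtain ⟨y, hy, rfl⟩ := hx
    apply Subtype.ext
    show ρ y (e a) = e a
    rw [← he3, hP y hy]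
  have hspan' : Submodule.span k {u : h8_W ρ M | ∃ h : H ⧸ M, h8_rbar ρ M h a' = u} = ⊤ := by
    let e' : V →ₗ[k] h8_W ρ M := LinearMap.codRestrict (h8_W ρ M) e he_mem
    have h1 : LinearMap.range e' = ⊤ := by
      rw [LinearMap.range_eq_top]
      rintro ⟨w, hw⟩
      exact ⟨w, Subtype.ext (he2 w hw)⟩
    rw [eq_top_iff, ← h1, LinearMap.range_eq_map, ← hspan, Submodule.map_span]
    refine Submodule.span_mono ?_
    rintro _ ⟨_, ⟨h, rfl⟩, rfl⟩
    refine ⟨(h : H ⧸ M), ?_⟩
    apply Subtype.ext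
    show ρ h (e a) = e (ρ h a)
    rw [he3]
  obtain ⟨hr1, hr2⟩ := IH a' hfix' hspan'
  constructor
  · let L : ρ.invariants →ₗ[k] (h8_rbar ρ M).invariants :=
      LinearMap.codRestrict _ (LinearMap.codRestrict (h8_W ρ M) ρ.invariants.subtype (fun v m _ => v.2 m)) (by
        intro v x
        obtain ⟨h, rfl⟩ := QuotientGroup.mk_surjective x
        apply Subtype.ext
        exact v.2 h)
    have hL : Function.Injective L := by
      intro v w hvw
      apply Subtype.ext
      exact congrArg (fun z : (h8_rbar ρ M).invariants => ((z : h8_W ρ M) : V)) hvw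
    exact (LinearMap.finrank_le_finrank_of_injective hL).trans hr1
  · intro b hcop h
    have hbM := hb b hcop
    let b' : h8_W ρ M := ⟨b, hbM⟩
    have h2 : (Nat.card {u : h8_W ρ M | ∃ h : H ⧸ M, h8_rbar ρ M h a' = u}).Coprime (Nat.card {u : h8_W ρ M | ∃ h : H ⧸ M, h8_rbar ρ M h b' = u}) := by
      rw [h8_card_W, h8_card_W]
      show (Nat.card {u : V | ∃ h : H, ρ h (e a) = u}).Coprime (Nat.card {u : V | ∃ h : H, ρ h b = u})
      rw [h8_card_orbit] at hcop ⊢
      rw [h8_card_orbit] at hcop ⊢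
      refine Nat.Coprime.coprime_dvd_left (Subgroup.index_dvd_of_le ?_) hcop
      intro x hx
      have hx' : ρ x a = a := hx
      show ρ x (e a) = e a
      rw [← he3, hx']
    have h3 := hr2 b' h2 (h : H ⧸ M)
    exact congrArg (fun z : h8_W ρ M => (z : V)) h3

end main

theorem h8_main (p : ℕ) [hp : Fact p.Prime] (k : Type u₁) [Field k] [CharP k p] (V : Type u₂) :
    ∀ (n : ℕ) (H : Type u₃) [Group H] [Finite H] (V : Type u₂) [AddCommGroup V] [Module k V],
      Nat.card H = n → IsPSolvable p H → ∀ (ρ : Representation k H V) (a : V),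
      (∃ P : Sylow p H, ∀ x : H, x ∈ (P : Subgroup H) → ρ x a = a) →
      Submodule.span k {u : V | ∃ h : H, ρ h a = u} = ⊤ →
      Module.finrank k ρ.invariants ≤ 1 ∧
      ∀ b : V, (Nat.card {u : V | ∃ h : H, ρ h a = u}).Coprime (Nat.card {u : V | ∃ h : H, ρ h b = u}) → ∀ h : H, ρ h b = b := by
  intro n
  induction n using Nat.strong_induction_on with
  | _ n ih =>
    intro H _ _ V _ _ hn hsol ρ a hfix hspan
    by_cases hnt : Nontrivial H
    · obtain ⟨M, hMn, hMne, hM⟩ := h8_exists_M hsol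
      haveI := hMn
      have hlt : Nat.card (H ⧸ M) < n := by
        rw [← hn]
        have h1 := Subgroup.card_mul_index M
        have h2 : 1 < Nat.card M := by
          have := (Subgroup.one_lt_card_iff_ne_bot M).2 hMne
          exact this
        have h3 : 0 < M.index := Nat.pos_of_ne_zero Subgroup.index_ne_zero_of_finite
        show M.index < _
        rw [← h1]
        nlinarith
      have IH := fun a' => ih _ hlt (H ⧸ M) (h8_W ρ M) rfl
        (CfsgLib.OOL.psep_of_surjective (QuotientGroup.mk' M) (QuotientGroup.mk'_surjective M) hsol) (h8_rbar ρ M) a'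
      rcases hM with hM | hM
      · -- a normal p-subgroup acts trivially
        obtain ⟨m, hm⟩ := hM
        have hpg : IsPGroup p M := IsPGroup.of_card hm
        obtain ⟨P, hP⟩ := hfix
        have hMP : M ≤ (P : Subgroup H) := by
          intro x hx
          obtain ⟨Q, hQ⟩ := hpg.exists_le_sylow
          obtain ⟨g, hg⟩ := MulAction.exists_smul_eq H Q P
          rw [← hg, Sylow.coe_subgroup_smul]
          refine ⟨g⁻¹ * x * g, hQ ?_, by simp [mul_assoc]⟩
          have := hMn.conj_mem x hx g⁻¹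
          simpa using this
        have htriv : ∀ m ∈ M, ∀ v, ρ m v = v := by
          have hW : (⊤ : Submodule k V) ≤ h8_W ρ M := by
            rw [← hspan]
            refine Submodule.span_le.2 ?_
            rintro u ⟨h, rfl⟩ m hm
            have h1 : h⁻¹ * m * h ∈ M := by
              have := hMn.conj_mem m hm h⁻¹
              simpa using this
            have h2 : m * h = h * (h⁻¹ * m * h) := by group
            show ρ m (ρ h a) = ρ h a
            rw [← h8_mul, h2, h8_mul, hP _ (hMP h1)]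
          intro m hm v
          exact hW (Submodule.mem_top (x := v)) m hm
        refine h8_reduce p M ρ a ⟨P, hP⟩ hspan LinearMap.id (fun v m hm => htriv m hm v) (fun v _ => rfl) (fun h v => rfl)
          (fun b _ m hm => htriv m hm b) IH
      · have hk : ((Nat.card M : ℕ) : k) ≠ 0 := by
          intro h0
          have h1 := (CharP.cast_eq_zero_iff k p _).1 h0
          have h2 : p ∣ 1 := by
            have := Nat.dvd_gcd h1 (dvd_refl p)
            rwa [hM] at this
          exact hp.out.one_lt.ne' (Nat.dvd_one.1 h2)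
        refine h8_reduce p M ρ a hfix hspan (h8_eL ρ M) (fun v m hm => h8_eL_fixed ρ M v m hm)
          (fun v hv => h8_eL_id ρ M hk v hv) ?_ (fun b hcop => h8_prime_case M hk ρ a hspan b hcop) IH
        intro h v
        refine h8_eL_conj ρ M h (fun x => ?_) v
        constructor
        · intro hx
          have := hMn.conj_mem x hx h⁻¹
          simpa using this
        · intro hx
          have := hMn.conj_mem _ hx h
          have h2 : h * (h⁻¹ * x * h) * h⁻¹ = x := by group
          rwa [h2] at this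
    · have hsub : Subsingleton H := not_nontrivial_iff_subsingleton.1 hnt
      haveI hfin : Module.Finite k V := by
        refine ⟨⟨(Set.finite_range (fun h : H => ρ h a)).toFinset, ?_⟩⟩
        rw [Set.Finite.coe_toFinset]
        exact hspan
      constructor
      · have h1 : Module.finrank k V ≤ 1 := by
          refine finrank_le_one a (fun w => ?_)
          have hw : w ∈ Submodule.span k {u : V | ∃ h : H, ρ h a = u} := by
            rw [hspan]; exact Submodule.mem_top
          have h2 : {u : V | ∃ h : H, ρ h a = u} = {a} := by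
            ext u
            constructor
            · rintro ⟨h, rfl⟩
              rw [Subsingleton.elim h 1, h8_one]
              rfl
            · rintro rfl
              exact ⟨1, h8_one ρ _⟩
          rw [h2] at hw
          exact Submodule.mem_span_singleton.1 hw
        exact (Submodule.finrank_le _).trans h1
      · intro b _ h
        rw [Subsingleton.elim h 1, h8_one]

/-- Let k be a field of prime characteristic p, H a finite p-soluble group and ρ a k-linear representation of H on V. Let a be a vector that is fixed by some Sylow p-subgroup of H and whose H-orbit spans V. Then the space of H-fixed vectors has dimension at most 1, and every vector b whose H-orbit has size coprime to the size of the orbit of a is fixed by H. -/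
theorem result {k V H : Type*} [Field k] (p : ℕ) [Fact p.Prime] [CharP k p] [AddCommGroup V] [Module k V]
    [Group H] [Finite H] (hsol : Cfsg.IsPSolvable p H) (ρ : Representation k H V) (a : V)
    (hfix : ∃ P : Sylow p H, ∀ x : H, x ∈ (P : Subgroup H) → ρ x a = a)
    (hspan : Submodule.span k {u : V | ∃ h : H, ρ h a = u} = ⊤) :
    Module.finrank k ρ.invariants ≤ 1 ∧
    ∀ b : V, (Nat.card {u : V | ∃ h : H, ρ h a = u}).Coprime (Nat.card {u : V | ∃ h : H, ρ h b = u}) → ∀ h : H, ρ h b = b := by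
  exact h8_main p k V _ H V rfl hsol ρ a hfix hspan

end Cfsg.Agent.S4176
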