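import Cfsg.Statements.S4177
import Cfsg.Agent.Lib.FGS.Basic
import Cfsg.Agent.Lib.Solv.Misc

set_option autoImplicit false
open Cfsg

namespace Cfsg.Agent.S4177

/-- Let k be a field whose characteristic does not divide the order of the finite group H (for instance a field of characteristic zero), and ρ a k-linear representation of H on V. Let a be a vector whose H-orbit spans V. Then the space of H-fixed vectors has dimension at most 1, and every vector b whose H-orbit has size coprime to the size of the orbit of a is fixed by H. -/
theorem result {k V H : Type*} [Field k] [AddCommGroup V] [Module k V] [Group H] [Finite H]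
    (hchar : ¬ ringChar k ∣ Nat.card H) (ρ : Representation k H V) (a : V)
    (hspan : Submodule.span k {u : V | ∃ h : H, ρ h a = u} = ⊤) :
    Module.finrank k ρ.invariants ≤ 1 ∧
    ∀ b : V, (Nat.card {u : V | ∃ h : H, ρ h a = u}).Coprime (Nat.card {u : V | ∃ h : H, ρ h b = u}) → ∀ h : H, ρ h b = b := by
  classical
  haveI := Fintype.ofFinite H
  have hne : ((Nat.card H : ℕ) : k) ≠ 0 := by
    intro h0
    exact hchar ((CharP.cast_eq_zero_iff k (ringChar k) _).mp h0)
  let e : V →ₗ[k] V := ∑ h : H, ρ h
  have he : ∀ v, e v = ∑ h : H, ρ h v := by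
    intro v
    simp [e, LinearMap.sum_apply]
  have heg : ∀ g v, ρ g (e v) = e v := by
    intro g v
    rw [he, map_sum, ← Equiv.sum_comp (Equiv.mulLeft g) (fun h => ρ h v)]
    refine Finset.sum_congr rfl ?_
    intro h _
    simp [map_mul]
  have hge : ∀ g v, e (ρ g v) = e v := by
    intro g v
    rw [he, he, ← Equiv.sum_comp (Equiv.mulRight g) (fun h => ρ h v)]
    refine Finset.sum_congr rfl ?_
    intro h _
    simp [map_mul]
  have hinv : ∀ v, (∀ g, ρ g v = v) → e v = ((Nat.card H : ℕ) : k) • v := by
    intro v hv
    rw [he, Finset.sum_congr rfl (fun h _ => hv h)]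
    simp [Nat.card_eq_fintype_card, Nat.cast_smul_eq_nsmul]
  constructor
  · -- first part
    have hle : ρ.invariants ≤ Submodule.span k {e a} := by
      intro v hv
      have hv' : ∀ g, ρ g v = v := fun g => hv g
      let W := (Submodule.span k {e a}).comap e
      have hW : Submodule.span k {u : V | ∃ h : H, ρ h a = u} ≤ W := by
        apply Submodule.span_le.mpr
        rintro u ⟨h, rfl⟩
        show e (ρ h a) ∈ Submodule.span k {e a}
        rw [hge]
        exact Submodule.mem_span_singleton_self _
      rw [hspan] at hW
      have h1 : e v ∈ Submodule.span k {e a} := hW (Submodule.mem_top (x := v))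
      rw [hinv v hv'] at h1
      have h2 := Submodule.smul_mem _ ((Nat.card H : ℕ) : k)⁻¹ h1
      rwa [smul_smul, inv_mul_cancel₀ hne, one_smul] at h2
    by_cases h0 : e a = 0
    · rw [h0] at hle
      simp only [Set.singleton_zero, Submodule.span_zero, le_bot_iff] at hle
      rw [hle]
      simp
    · refine (Submodule.finrank_mono hle).trans ?_
      rw [finrank_span_singleton h0]
  · intro b hc
    letI act : MulAction H V :=
      { smul := fun h v => ρ h v
        one_smul := by intro v; show ρ 1 v = v; simp
        mul_smul := by intro x y v; show ρ (x * y) v = ρ x (ρ y v); simp }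
    have hsmul : ∀ (h : H) (v : V), h • v = ρ h v := fun _ _ => rfl
    let K := MulAction.stabilizer H b
    have hKmem : ∀ s, s ∈ K ↔ ρ s b = b := fun s => MulAction.mem_stabilizer_iff
    have hKi : K.index = Nat.card {u : V | ∃ h : H, ρ h b = u} := by
      have := MulAction.index_stabilizer H b
      rw [this, ← Nat.card_coe_set_eq]
      rfl
    let eK : V →ₗ[k] V := ∑ s : K, ρ s
    have heK : ∀ v, eK v = ∑ s : K, ρ s v := by
      intro v
      simp [eK, LinearMap.sum_apply]
    have hid : ∀ u ∈ {u : V | ∃ h : H, ρ h a = u}, e u = ((K.index : ℕ) : k) • eK u := by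
      rintro u ⟨g, rfl⟩
      set u := ρ g a with hu
      let L := MulAction.stabilizer H u
      have hLmem : ∀ s, s ∈ L ↔ ρ s u = u := fun s => MulAction.mem_stabilizer_iff
      have hLi : L.index = Nat.card {u : V | ∃ h : H, ρ h a = u} := by
        have h1 := MulAction.index_stabilizer H u
        have h2 : MulAction.orbit H u = MulAction.orbit H a := by
          rw [hu]
          exact MulAction.orbit_smul g a
        rw [h1, h2, ← Nat.card_coe_set_eq]
        rfl
      have hcop : L.index.Coprime K.index := by
        rw [hLi, hKi]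
        exact hc
      have hdec := (CfsgLib.Solv.index_inf_coprime L K hcop).2
      have hq : ∀ q : H ⧸ K, ∃ r ∈ L, ((r : H) : H ⧸ K) = q := by
        intro q
        obtain ⟨g, rfl⟩ := QuotientGroup.mk_surjective q
        obtain ⟨x, hx, y, hy, rfl⟩ := hdec g
        refine ⟨x, hx, QuotientGroup.eq.mpr ?_⟩
        simpa using hy
      choose r hrL hrq using hq
      haveI : Fintype (H ⧸ K) := Fintype.ofFinite _
      let Φ : (H ⧸ K) × K → H := fun p => r p.1 * p.2
      have hΦ : Function.Bijective Φ := by
        constructor
        · rintro ⟨q, s⟩ ⟨q', s'⟩ h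
          have h1 : r q * (s : H) = r q' * (s' : H) := h
          have h2 : ((r q * (s : H) : H) : H ⧸ K) = q := by
            rw [QuotientGroup.mk_mul_of_mem _ s.2, hrq]
          have h3 : ((r q' * (s' : H) : H) : H ⧸ K) = q' := by
            rw [QuotientGroup.mk_mul_of_mem _ s'.2, hrq]
          have hqq : q = q' := by rw [← h2, ← h3, h1]
          subst hqq
          have h4 : (s : H) = s' := mul_left_cancel h1
          rw [Subtype.ext h4]
        · intro h
          let q : H ⧸ K := (h : H ⧸ K)
          have h1 : (r q)⁻¹ * h ∈ K := by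
            apply QuotientGroup.eq.mp
            exact hrq q
          refine ⟨(q, ⟨_, h1⟩), ?_⟩
          show r q * ((r q)⁻¹ * h) = h
          group
      have hsum : e u = ∑ h : H, ρ h⁻¹ u := by
        rw [he]
        exact (Equiv.sum_comp (Equiv.inv H) (fun h => ρ h u)).symm
      rw [hsum, ← hΦ.sum_comp (fun h => ρ h⁻¹ u)]
      have hterm : ∀ p : (H ⧸ K) × K, ρ (Φ p)⁻¹ u = ρ (p.2 : H)⁻¹ u := by
        rintro ⟨q, s⟩
        show ρ (r q * (s : H))⁻¹ u = _
        rw [mul_inv_rev, map_mul, Module.End.mul_apply, (hLmem _).mp (L.inv_mem (hrL q))]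
      rw [Finset.sum_congr rfl (fun p _ => hterm p), Fintype.sum_prod_type]
      simp only [Finset.sum_const, Finset.card_univ]
      rw [heK, ← Equiv.sum_comp (Equiv.inv K) (fun s : K => ρ (s : H) u), ← Nat.cast_smul_eq_nsmul k]
      have hidx : Fintype.card (H ⧸ K) = K.index := by
        rw [← Nat.card_eq_fintype_card]
        rfl
      rw [hidx]
      rfl
    have hall : e = ((K.index : ℕ) : k) • eK := by
      apply LinearMap.ext_on_range (v := fun x : {u : V | ∃ h : H, ρ h a = u} => (x : V))
      · simpa using hspan
      · rintro ⟨u, hu⟩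
        exact hid u hu
    have hb : e b = ((Nat.card H : ℕ) : k) • b := by
      rw [hall, LinearMap.smul_apply, heK, Finset.sum_congr rfl (fun s _ => (hKmem s.1).mp s.2)]
      simp only [Finset.sum_const, Finset.card_univ]
      rw [← Nat.cast_smul_eq_nsmul k, smul_smul, ← Nat.cast_mul, ← Nat.card_eq_fintype_card, Subgroup.index_mul_card]
    intro g
    have h1 := heg g b
    rw [hb, map_smul] at h1
    exact smul_right_injective V hne h1

end Cfsg.Agent.S4177
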