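import Cfsg.Statements.S4178
import Cfsg.Agent.Lib.FGS.Basic

set_option autoImplicit false
open Cfsg
open scoped commutatorElement
open scoped Pointwise

namespace Cfsg.Agent.S4178

theorem h8_bound {H X : Type*} [Group H] [Finite H] [Finite X] (R : Subgroup H) (x₀ : X) (φ : H → X)
    (hφ : ∀ a b : H, φ a = φ b → b⁻¹ * a ∈ R) (hne : ∀ h, φ h ≠ x₀) : R.index + 1 ≤ Nat.card X := by
  classical
  haveI := Fintype.ofFinite X
  let ψ : (H ⧸ R) → {x : X // x ≠ x₀} := fun t => ⟨φ t.out, hne _⟩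
  have hψ : Function.Injective ψ := by
    intro s t hst
    have h1 : φ s.out = φ t.out := congrArg Subtype.val hst
    have h2 := hφ _ _ h1
    have h3 : (QuotientGroup.mk t.out : H ⧸ R) = QuotientGroup.mk s.out := QuotientGroup.eq.2 h2
    rw [QuotientGroup.out_eq', QuotientGroup.out_eq'] at h3
    exact h3.symm
  have h1 := Nat.card_le_card_of_injective ψ hψ
  have h2 : Nat.card {x : X // x ≠ x₀} = Nat.card X - 1 := by
    rw [Nat.card_eq_fintype_card, Nat.card_eq_fintype_card, Fintype.card_subtype_compl]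
    simp
  have h3 : 0 < Nat.card X := Nat.card_pos_iff.2 ⟨⟨x₀⟩, inferInstance⟩
  have h4 : R.index = Nat.card (H ⧸ R) := rfl
  omega

theorem h8_eigen {F V : Type*} [Field F] [Finite V] [AddCommGroup V] [Module F V]
    (W : Submodule F V) (k : V ≃ₗ[F] V) (hk : ∀ w ∈ W, k w ∈ W) (v : V) (hv : v ∉ W)
    (hkv : k v - v ∈ W) : ∃ u : V, u ≠ 0 ∧ k u = u := by
  by_contra hcon
  push Not at hcon
  have hinj : ∀ u : V, k u = u → u = 0 := by
    intro u hu
    by_contra hu0
    exact hcon u hu0 hu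
  let L : W → W := fun w => ⟨k w - w, W.sub_mem (hk _ w.2) w.2⟩
  have hL : Function.Injective L := by
    intro a b hab
    have h1 : k a - a = k b - b := congrArg Subtype.val hab
    have h2 : k ((a : V) - b) = (a : V) - b := by
      rw [map_sub]
      exact sub_eq_sub_iff_sub_eq_sub.1 h1
    have h3 := hinj _ h2
    exact Subtype.ext (sub_eq_zero.1 h3)
  have hLs := Finite.injective_iff_surjective.1 hL
  obtain ⟨w, hw⟩ := hLs ⟨k v - v, hkv⟩
  have h1 : k w - w = k v - v := congrArg Subtype.val hw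
  have h2 : k (v - w) = v - w := by
    rw [map_sub]
    exact sub_eq_sub_iff_sub_eq_sub.1 h1.symm
  have h3 := hinj _ h2
  apply hv
  rw [sub_eq_zero.1 h3]
  exact w.2

/-- Let F be a finite field with q elements, V a non-zero finite-dimensional F-space of dimension d, H a group of invertible linear maps of V, and R the subgroup of H generated by the elements of H that fix some non-zero vector (have eigenvalue 1). Then the index of R in H is at most q^d − 1; and if H leaves invariant some proper non-zero subspace, the index is at most q^(d/2) − 1. -/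
theorem result {F V : Type*} [Field F] [Fintype F] [AddCommGroup V] [Module F V] [FiniteDimensional F V] [Nontrivial V]
    (H : Subgroup (V ≃ₗ[F] V)) :
    (Subgroup.closure {h : ↥H | ∃ v : V, v ≠ 0 ∧ (h : V ≃ₗ[F] V) v = v}).index ≤ Fintype.card F ^ Module.finrank F V - 1 ∧
    ((∃ W : Submodule F V, W ≠ ⊥ ∧ W ≠ ⊤ ∧ ∀ h ∈ H, ∀ w ∈ W, h w ∈ W) →
      ((Subgroup.closure {h : ↥H | ∃ v : V, v ≠ 0 ∧ (h : V ≃ₗ[F] V) v = v}).index : ℝ) ≤ Real.sqrt ((Fintype.card F : ℝ) ^ Module.finrank F V) - 1) := by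
  classical
  haveI : Finite V := Module.finite_of_finite F
  haveI : Finite (V ≃ₗ[F] V) := by
    apply Finite.of_injective (fun f : V ≃ₗ[F] V => (f : V → V))
    intro a b hab
    exact LinearEquiv.ext (fun x => congrFun hab x)
  obtain ⟨R, hR⟩ : ∃ R : Subgroup ↥H, R = Subgroup.closure {h : ↥H | ∃ v : V, v ≠ 0 ∧ (h : V ≃ₗ[F] V) v = v} := ⟨_, rfl⟩
  rw [← hR]
  have hfix : ∀ (k : ↥H) (u : V), u ≠ 0 → (k : V ≃ₗ[F] V) u = u → k ∈ R := by
    intro k u hu hk
    rw [hR]
    exact Subgroup.subset_closure ⟨u, hu, hk⟩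
  have hdiv : ∀ (a b : ↥H) (v : V), (a : V ≃ₗ[F] V) v = (b : V ≃ₗ[F] V) v →
      ((b⁻¹ * a : ↥H) : V ≃ₗ[F] V) v = v := by
    intro a b v h
    have h1 : ((b⁻¹ * a : ↥H) : V ≃ₗ[F] V) v = ((b⁻¹ : ↥H) : V ≃ₗ[F] V) ((a : V ≃ₗ[F] V) v) := rfl
    rw [h1, h]
    have h2 : ((b⁻¹ : ↥H) : V ≃ₗ[F] V) ((b : V ≃ₗ[F] V) v) = ((b⁻¹ * b : ↥H) : V ≃ₗ[F] V) v := rfl
    rw [h2, inv_mul_cancel]
    rfl
  have hcardV : Nat.card V = Fintype.card F ^ Module.finrank F V := by
    rw [Module.natCard_eq_pow_finrank (K := F), Nat.card_eq_fintype_card]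
  refine ⟨?_, ?_⟩
  · obtain ⟨v, hv⟩ := exists_ne (0 : V)
    have h1 := h8_bound R (0 : V) (fun h : ↥H => (h : V ≃ₗ[F] V) v)
      (fun a b hab => hfix _ v hv (hdiv a b v hab))
      (fun h h0 => hv ((h : V ≃ₗ[F] V).map_eq_zero_iff.1 h0))
    rw [hcardV] at h1
    omega
  · rintro ⟨W, hW1, hW2, hW⟩
    obtain ⟨w, hw, hw0⟩ := Submodule.exists_mem_ne_zero_of_ne_bot hW1
    obtain ⟨v, hv⟩ : ∃ v, v ∉ W := by
      by_contra hcon
      push Not at hcon
      exact hW2 (eq_top_iff.2 (fun x _ => hcon x))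
    have h1 := h8_bound R (0 : W) (fun h : ↥H => ⟨(h : V ≃ₗ[F] V) w, hW _ h.2 w hw⟩)
      (fun a b hab => hfix _ w hw0 (hdiv a b w (congrArg Subtype.val hab)))
      (fun h h0 => hw0 ((h : V ≃ₗ[F] V).map_eq_zero_iff.1 (congrArg Subtype.val h0)))
    have hk : ∀ k : ↥H, ∀ w ∈ W, (k : V ≃ₗ[F] V) w ∈ W := fun k w hw => hW _ k.2 w hw
    haveI : Finite (V ⧸ W) := Finite.of_surjective W.mkQ W.mkQ_surjective
    have h2 := h8_bound R (0 : V ⧸ W) (fun h : ↥H => (Submodule.Quotient.mk ((h : V ≃ₗ[F] V) v) : V ⧸ W))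
      (fun a b hab => by
        have h3 : (a : V ≃ₗ[F] V) v - (b : V ≃ₗ[F] V) v ∈ W := (Submodule.Quotient.eq W).1 hab
        have h4 : ((b⁻¹ * a : ↥H) : V ≃ₗ[F] V) v - v ∈ W := by
          have h5 := hk b⁻¹ _ h3
          rw [map_sub] at h5
          have h6 : ((b⁻¹ : ↥H) : V ≃ₗ[F] V) ((b : V ≃ₗ[F] V) v) = v := by
            have h7 := hdiv b b v rfl
            exact h7
          rw [h6] at h5
          exact h5
        obtain ⟨u, hu, hu2⟩ := h8_eigen W _ (hk (b⁻¹ * a)) v hv h4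
        exact hfix _ u hu hu2)
      (fun h h0 => by
        apply hv
        have h3 : (h : V ≃ₗ[F] V) v ∈ W := (Submodule.Quotient.mk_eq_zero W).1 h0
        have h4 := hk h⁻¹ _ h3
        have h6 : ((h⁻¹ : ↥H) : V ≃ₗ[F] V) ((h : V ≃ₗ[F] V) v) = v := hdiv h h v rfl
        rwa [h6] at h4)
    have hcW : Nat.card W * Nat.card (V ⧸ W) = Nat.card V := by
      have := Submodule.card_eq_card_quotient_mul_card W
      rw [this, mul_comm]
    have hmul : (R.index + 1) * (R.index + 1) ≤ Fintype.card F ^ Module.finrank F V := by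
      rw [← hcardV, ← hcW]
      exact Nat.mul_le_mul h1 h2
    have hreal : ((R.index : ℝ) + 1) ^ 2 ≤ (Fintype.card F : ℝ) ^ Module.finrank F V := by
      have : (((R.index + 1) * (R.index + 1) : ℕ) : ℝ) ≤ ((Fintype.card F ^ Module.finrank F V : ℕ) : ℝ) := by
        exact_mod_cast hmul
      push_cast at this
      nlinarith
    have h5 : (R.index : ℝ) + 1 ≤ Real.sqrt ((Fintype.card F : ℝ) ^ Module.finrank F V) :=
      Real.le_sqrt_of_sq_le hreal
    linarith

end Cfsg.Agent.S4178
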