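import Cfsg.Statements.S4186
import Cfsg.Agent.Lib.FGS.Elem

set_option autoImplicit false
open Cfsg

namespace Cfsg.Agent.S4186

/-- Let T and X be subgroups of a group with T a finite 2-group normalizing X but not centralizing it. Then some element of T inverts some non-identity element of X under conjugation. -/
theorem result {G : Type*} [Group G] (T X : Subgroup G) [Finite ↥T] (hT : IsPGroup 2 ↥T) (hTN : T ≤ Subgroup.normalizer (X : Set G)) (hTC : ¬ T ≤ Subgroup.centralizer (X : Set G)) : ∃ t ∈ T, ∃ x ∈ X, x ≠ 1 ∧ t * x * t⁻¹ = x⁻¹ := by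
  -- find `t ∈ T` not centralizing `X` with `t ^ 2` centralizing `X`
  obtain ⟨t₀, ht₀T, ht₀⟩ : ∃ t ∈ T, t ∉ Subgroup.centralizer (X : Set G) := by
    by_contra hcon
    simp only [not_exists, not_and, not_not] at hcon
    exact hTC hcon
  obtain ⟨k, hk⟩ := IsPGroup.iff_orderOf.mp hT ⟨t₀, ht₀T⟩
  have hk' : orderOf t₀ = 2 ^ k := by rw [← hk, Subgroup.orderOf_mk]
  have hex : ∃ i : ℕ, t₀ ^ (2 ^ i) ∈ Subgroup.centralizer (X : Set G) :=
    ⟨k, by rw [← hk', pow_orderOf_eq_one]; exact Subgroup.one_mem _⟩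
  classical
  have hfind := Nat.find_spec hex
  have hmin := fun m => Nat.find_min hex (m := m)
  set i₀ := Nat.find hex with hi₀
  have hi₀pos : i₀ ≠ 0 := by
    intro h0
    rw [h0] at hfind
    exact ht₀ (by simpa using hfind)
  obtain ⟨j, hj⟩ := Nat.exists_eq_succ_of_ne_zero hi₀pos
  set t := t₀ ^ (2 ^ j) with ht
  have htT : t ∈ T := T.pow_mem ht₀T _
  have htnc : t ∉ Subgroup.centralizer (X : Set G) := hmin j (by omega)
  have ht2 : t * t ∈ Subgroup.centralizer (X : Set G) := by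
    have : t * t = t₀ ^ (2 ^ i₀) := by
      rw [hj, ht, ← pow_add]
      congr 1
      rw [Nat.succ_eq_add_one, pow_succ]
      ring
    rwa [this]
  obtain ⟨x, hxX, hx⟩ : ∃ x ∈ X, t * x * t⁻¹ ≠ x := by
    by_contra hcon
    simp only [not_exists, not_and, not_not] at hcon
    apply htnc
    rw [Subgroup.mem_centralizer_iff]
    intro h hh
    have := hcon h hh
    exact (mul_inv_eq_iff_eq_mul.mp this).symm
  refine ⟨t, htT, x⁻¹ * (t * x * t⁻¹), ?_, ?_, ?_⟩
  · have h1 := (Subgroup.mem_normalizer_iff.mp (hTN htT) x).mp hxX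
    exact X.mul_mem (X.inv_mem hxX) h1
  · intro h1
    apply hx
    exact (inv_mul_eq_one.mp h1).symm
  · have h2 : t * t * x = x * (t * t) := (Subgroup.mem_centralizer_iff.mp ht2 x hxX).symm
    have h3 : t * (t * x * t⁻¹) * t⁻¹ = x := by
      have : t * (t * x * t⁻¹) * t⁻¹ = (t * t * x) * (t * t)⁻¹ := by group
      rw [this, h2]; group
    calc t * (x⁻¹ * (t * x * t⁻¹)) * t⁻¹ = (t * x⁻¹ * t⁻¹) * (t * (t * x * t⁻¹) * t⁻¹) := by group
      _ = (t * x⁻¹ * t⁻¹) * x := by rw [h3]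
      _ = (x⁻¹ * (t * x * t⁻¹))⁻¹ := by group

end Cfsg.Agent.S4186
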