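import Cfsg.Statements.S4196
import Cfsg.Agent.Lib.FGS.RealElt

set_option autoImplicit false
open Cfsg

namespace Cfsg.Agent.S4196

/-- A finite group G has elementary abelian Sylow 2-subgroups (commutative with every element squaring to the identity) if and only if every 2-element of G has a Sylow 2-subgroup in its centralizer and is conjugate to its inverse. -/
theorem result {G : Type*} [Group G] [Finite G] (P : Sylow 2 G) :
    (IsMulCommutative (P : Subgroup G) ∧ ∀ x ∈ (P : Subgroup G), x ^ 2 = 1) ↔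
      ∀ x : G, (∃ k : ℕ, orderOf x = 2 ^ k) → (∃ Q : Sylow 2 G, (Q : Subgroup G) ≤ Subgroup.centralizer ({x} : Set G)) ∧ IsConj x x⁻¹ := by
  constructor
  · rintro ⟨hab, hsq⟩ x ⟨k, hk⟩
    -- `x` lies in a conjugate of `P`
    obtain ⟨Q, hQ⟩ : ∃ Q : Sylow 2 G, x ∈ (Q : Subgroup G) := by
      have hpg : IsPGroup 2 (Subgroup.zpowers x) := by
        rw [IsPGroup.iff_card, Nat.card_zpowers, hk]
        exact ⟨k, rfl⟩
      obtain ⟨Q, hQ⟩ := hpg.exists_le_sylow
      exact ⟨Q, hQ (Subgroup.mem_zpowers x)⟩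
    obtain ⟨g, hg⟩ := MulAction.exists_smul_eq G P Q
    have hQ2 := hQ
    rw [← hg, Sylow.coe_subgroup_smul, CfsgLib.FGS.mem_conj_smul_iff] at hQ2
    have hy2 := hsq _ hQ2
    have hx2 : x ^ 2 = 1 := by
      have h3 : x = g * (g⁻¹ * x * g) * g⁻¹ := by group
      rw [h3, conj_pow, hy2]
      group
    refine ⟨⟨Q, ?_⟩, ?_⟩
    · intro q hq
      rw [Subgroup.mem_centralizer_singleton_iff]
      have hq2 := hq
      rw [← hg, Sylow.coe_subgroup_smul, CfsgLib.FGS.mem_conj_smul_iff] at hq2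
      have hc : (⟨g⁻¹ * q * g, hq2⟩ : (P : Subgroup G)) * ⟨g⁻¹ * x * g, hQ2⟩ = ⟨g⁻¹ * x * g, hQ2⟩ * ⟨g⁻¹ * q * g, hq2⟩ :=
        hab.is_comm.comm _ _
      have hc2 : (g⁻¹ * q * g) * (g⁻¹ * x * g) = (g⁻¹ * x * g) * (g⁻¹ * q * g) := congrArg Subtype.val hc
      have h4 : g * ((g⁻¹ * q * g) * (g⁻¹ * x * g)) * g⁻¹ = g * ((g⁻¹ * x * g) * (g⁻¹ * q * g)) * g⁻¹ := by rw [hc2]
      have h5 : g * ((g⁻¹ * q * g) * (g⁻¹ * x * g)) * g⁻¹ = q * x := by group
      have h6 : g * ((g⁻¹ * x * g) * (g⁻¹ * q * g)) * g⁻¹ = x * q := by group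
      rw [h5, h6] at h4
      exact h4
    · have : x⁻¹ = x := by
        rw [inv_eq_iff_mul_eq_one, ← sq, hx2]
      rw [this]
  · intro h
    have hsq : ∀ x ∈ (P : Subgroup G), x ^ 2 = 1 := by
      intro x hx
      have hp : IsPGroup 2 (P : Subgroup G) := P.isPGroup'
      obtain ⟨k, hk⟩ := IsPGroup.iff_orderOf.mp hp ⟨x, hx⟩
      have hk' : orderOf x = 2 ^ k := by rw [← hk, Subgroup.orderOf_mk]
      obtain ⟨⟨Q, hQ⟩, hreal⟩ := h x ⟨k, hk'⟩
      have hodd : Odd (Subgroup.centralizer ({x} : Set G)).index := by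
        have h1 := Subgroup.index_dvd_of_le hQ
        have h2 : ¬ 2 ∣ (Q : Subgroup G).index := Q.not_dvd_index
        have h3 : ¬ 2 ∣ (Subgroup.centralizer ({x} : Set G)).index := fun h => h2 (h.trans h1)
        exact Nat.not_even_iff_odd.mp (fun he => h3 he.two_dvd)
      exact CfsgLib.FGS.sq_eq_one_of_real_of_odd_index hreal hodd
    refine ⟨⟨⟨fun a b => ?_⟩⟩, hsq⟩
    have h1 : (a * b) ^ 2 = 1 := by
      have := hsq _ (a * b).2
      exact Subtype.ext this
    have h2 : a ^ 2 = 1 := Subtype.ext (hsq _ a.2)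
    have h3 : b ^ 2 = 1 := Subtype.ext (hsq _ b.2)
    have h4 : a * b * (a * b) = 1 := by rwa [sq] at h1
    have ha : a * a = 1 := by rwa [sq] at h2
    have hb : b * b = 1 := by rwa [sq] at h3
    calc a * b = a * b * (b * a * (b * a)) := by
            have : b * a * (b * a) = 1 := by
              have h5 : (b * a) ^ 2 = 1 := Subtype.ext (hsq _ (b * a).2)
              rwa [sq] at h5
            rw [this, mul_one]
      _ = (a * (b * b)) * a * (b * a) := by group
      _ = b * a := by rw [hb, mul_one, ha, one_mul]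

end Cfsg.Agent.S4196
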