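import Cfsg.Statements.S4230
import Cfsg.Agent.Lib.FGS.Elem

set_option autoImplicit false
open Cfsg

namespace Cfsg.Agent.S4230

/-- Let p be an odd prime, q a natural number not divisible by p, and e the multiplicative order of q modulo p. For a natural number f, p divides the value at q of the f-th cyclotomic polynomial if and only if f = e·p^j for some j ≥ 0. -/
theorem result (p q f : ℕ) (hp : p.Prime) (hp2 : p ≠ 2) (hpq : ¬ p ∣ q) :
    ((p : ℤ) ∣ (Polynomial.cyclotomic f ℤ).eval (q : ℤ)) ↔ ∃ j : ℕ, f = orderOf (q : ZMod p) * p ^ j := by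
  haveI : Fact p.Prime := ⟨hp⟩
  have hq0 : (q : ZMod p) ≠ 0 := by
    rwa [Ne, ZMod.natCast_eq_zero_iff]
  set e := orderOf (q : ZMod p) with he
  have hedvd : e ∣ p - 1 := ZMod.orderOf_dvd_card_sub_one hq0
  have hepos : 0 < e := by
    rcases Nat.eq_zero_or_pos e with h | h
    · rw [h] at hedvd
      have := Nat.eq_zero_of_zero_dvd hedvd
      have := hp.two_le
      omega
    · exact h
  have hpe : ¬ p ∣ e := by
    intro h
    have h1 : p ∣ p - 1 := h.trans hedvd
    have h2 := Nat.le_of_dvd (by have := hp.two_le; omega) h1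
    have := hp.two_le
    omega
  have hroot : ((p : ℤ) ∣ (Polynomial.cyclotomic f ℤ).eval (q : ℤ)) ↔
      Polynomial.IsRoot (Polynomial.cyclotomic f (ZMod p)) (q : ZMod p) := by
    rw [← ZMod.intCast_zmod_eq_zero_iff_dvd, Polynomial.IsRoot.def, ← Polynomial.map_cyclotomic_int f (ZMod p)]
    have := Polynomial.eval_intCast_map (Int.castRingHom (ZMod p)) (Polynomial.cyclotomic f ℤ) (q : ℤ)
    simp only [Int.cast_natCast, eq_intCast] at this
    rw [this]
  rw [hroot]
  rcases Nat.eq_zero_or_pos f with rfl | hf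
  · simp only [Polynomial.cyclotomic_zero, Polynomial.IsRoot.def, Polynomial.eval_one, one_ne_zero, false_iff, not_exists]
    intro j h
    have h2 : 0 < e * p ^ j := Nat.mul_pos hepos (pow_pos hp.pos j)
    omega
  obtain ⟨k, m, hpm, hkm⟩ := Nat.exists_eq_pow_mul_and_not_dvd hf.ne' p hp.ne_one
  have hm0 : m ≠ 0 := by
    rintro rfl
    rw [mul_zero] at hkm
    omega
  haveI : NeZero (m : ZMod p) := ⟨by rwa [Ne, ZMod.natCast_eq_zero_iff]⟩
  have hkey : Polynomial.IsRoot (Polynomial.cyclotomic f (ZMod p)) (q : ZMod p) ↔ m = e := by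
    have h1 : Polynomial.IsRoot (Polynomial.cyclotomic f (ZMod p)) (q : ZMod p) ↔
        Polynomial.IsRoot (Polynomial.cyclotomic m (ZMod p)) (q : ZMod p) := by
      rw [hkm]
      rcases Nat.eq_zero_or_pos k with rfl | hk
      · simp
      · rw [Polynomial.cyclotomic_mul_prime_pow_eq (ZMod p) hpm hk, Polynomial.IsRoot.def,
          Polynomial.eval_pow, pow_eq_zero_iff]
        · rfl
        · have : p ^ (k - 1) < p ^ k := Nat.pow_lt_pow_right hp.one_lt (by omega)
          omega
    rw [h1, Polynomial.isRoot_cyclotomic_iff]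
    constructor
    · intro h
      exact h.eq_orderOf
    · intro h
      rw [h]
      exact IsPrimitiveRoot.orderOf _
  rw [hkey]
  constructor
  · intro h
    exact ⟨k, by rw [hkm, h]; ring⟩
  · rintro ⟨j, hj⟩
    have h1 : p ^ k * m = e * p ^ j := by rw [← hkm, hj]
    have hcm : Nat.Coprime m (p ^ j) := Nat.Coprime.pow_right j ((Nat.coprime_comm.mp ((Nat.Prime.coprime_iff_not_dvd hp).mpr hpm)))
    have hce : Nat.Coprime e (p ^ k) := Nat.Coprime.pow_right k ((Nat.coprime_comm.mp ((Nat.Prime.coprime_iff_not_dvd hp).mpr hpe)))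
    apply Nat.dvd_antisymm
    · exact hcm.dvd_of_dvd_mul_right ⟨p ^ k, by rw [mul_comm m, h1]⟩ 
    · exact hce.dvd_of_dvd_mul_left ⟨p ^ j, by rw [h1]⟩

end Cfsg.Agent.S4230
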