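import Cfsg.Statements.S4238
import Cfsg.Agent.Lib.FGS.Cover
import Cfsg.Agent.Lib.Trans.Frob
import Cfsg.Agent.Lib.Solv.PGroup
import Cfsg.Agent.Lib.Solv.Core

set_option autoImplicit false
open Cfsg
open scoped commutatorElement
open scoped Pointwise

namespace Cfsg.Agent.S4238

theorem h8_pgroup_exp {K : Type*} [Group K] [Finite K] (p : ℕ) [Fact p.Prime] (hK : IsPGroup p K) :
    ∃ k : K, orderOf k = Monoid.exponent K := by
  have hpp : p.Prime := Fact.out
  obtain ⟨k, hk⟩ := Finite.exists_max (orderOf : K → ℕ)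
  refine ⟨k, ?_⟩
  apply Nat.dvd_antisymm (Monoid.order_dvd_exponent k)
  apply Monoid.exponent_dvd_of_forall_pow_eq_one
  intro x
  obtain ⟨e, he⟩ := (IsPGroup.iff_orderOf).1 hK x
  obtain ⟨m, hm⟩ := (IsPGroup.iff_orderOf).1 hK k
  have h1 : e ≤ m := by
    have := hk x
    rw [he, hm] at this
    exact (Nat.pow_le_pow_iff_right hpp.one_lt).1 this
  rw [hm]
  have h2 : orderOf x ∣ p ^ m := by rw [he]; exact pow_dvd_pow p h1
  exact orderOf_dvd_iff_pow_eq_one.1 h2

/-- The abstract lemma on `W ⋊ Z_l`. -/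
theorem h8_frob_section {K : Type*} [Group K] [Finite K] (p l : ℕ) (hp : p.Prime) (hl : l.Prime)
    (hlp : l ≠ p) (W : Subgroup K) [hWn : W.Normal] (hWp : ∀ w ∈ W, w ^ p = 1) (hW1 : W ≠ ⊥)
    (t : K) (ht : t ^ l = 1) (ht1 : t ≠ 1) (hgen : ∀ x : K, ∃ w ∈ W, ∃ i : ℤ, x = w * t ^ i)
    (hfpf : ∀ w ∈ W, t * w * t⁻¹ = w → w = 1) :
    Cfsg.pPrimeCore p K = ⊥ ∧ ¬ ∃ k : K, orderOf k = Monoid.exponent K := by
  classical
  haveI : Fact l.Prime := ⟨hl⟩
  haveI : Fact p.Prime := ⟨hp⟩
  have hto : orderOf t = l := orderOf_eq_prime ht ht1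
  have hcop : Nat.Coprime l p := (Nat.coprime_primes hl hp).2 hlp
  -- powers of `t`
  have hpow : ∀ i : ℤ, t ^ i ≠ 1 → ∃ j : ℤ, (t ^ i) ^ j = t := by
    intro i hi
    have hi2 : ¬ (l : ℤ) ∣ i := by
      intro h
      apply hi
      rw [← hto] at h
      exact orderOf_dvd_iff_zpow_eq_one.1 h
    have hc : IsCoprime i (l : ℤ) := by
      have := (Nat.prime_iff_prime_int.1 hl).coprime_iff_not_dvd.2 hi2
      exact this.symm
    obtain ⟨a, b, hab⟩ := hc
    refine ⟨a, ?_⟩
    have h1 : t ^ ((a * i + b * l : ℤ)) = t := by rw [hab, zpow_one]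
    have h2 : t ^ (l : ℤ) = 1 := by rw [zpow_natCast, ht]
    rw [zpow_add, mul_comm b, zpow_mul t (l : ℤ) b, h2, one_zpow, mul_one, mul_comm a, zpow_mul] at h1
    exact h1
  have hfpf' : ∀ i : ℤ, t ^ i ≠ 1 → ∀ w ∈ W, t ^ i * w = w * t ^ i → w = 1 := by
    intro i hi w hw hc
    obtain ⟨j, hj⟩ := hpow i hi
    apply hfpf w hw
    have hcomm : Commute (t ^ i) w := hc
    have h1 : Commute t w := by
      rw [← hj]
      exact hcomm.zpow_left j
    have h2 : t * w = w * t := h1
    rw [h2]; group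
  -- elements outside `W`
  have hout : ∀ x : K, x ∉ W → ∃ (i : ℤ) (a : K), t ^ i ≠ 1 ∧ x = a * t ^ i * a⁻¹ := by
    intro x hx
    obtain ⟨w, hw, i, rfl⟩ := hgen x
    have hi : t ^ i ≠ 1 := by
      intro h
      apply hx
      rw [h, mul_one]; exact hw
    obtain ⟨s, hs⟩ : ∃ s, s = t ^ i := ⟨_, rfl⟩
    rw [← hs] at hi ⊢
    have hconj : ∀ a ∈ W, s * a⁻¹ * s⁻¹ ∈ W := fun a ha => hWn.conj_mem _ (W.inv_mem ha) s
    let φ : W → W := fun a => ⟨a * (s * (a : K)⁻¹ * s⁻¹), W.mul_mem a.2 (hconj a a.2)⟩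
    have hφ : Function.Injective φ := by
      intro a b hab
      have h1 : (a : K) * (s * (a : K)⁻¹ * s⁻¹) = (b : K) * (s * (b : K)⁻¹ * s⁻¹) :=
        congrArg Subtype.val hab
      have h2 : s * ((b : K)⁻¹ * a) = ((b : K)⁻¹ * a) * s := by
        have h3 : (a : K) * s * (a : K)⁻¹ = (b : K) * s * (b : K)⁻¹ := by
          have := congrArg (fun u => u * s) h1
          simpa [mul_assoc] using this
        calc s * ((b : K)⁻¹ * a) = (b : K)⁻¹ * ((b : K) * s * (b : K)⁻¹) * a := by group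
          _ = (b : K)⁻¹ * ((a : K) * s * (a : K)⁻¹) * a := by rw [h3]
          _ = _ := by group
      have h4 := hfpf' i (hs ▸ hi) _ (W.mul_mem (W.inv_mem b.2) a.2) (hs ▸ h2)
      apply Subtype.ext
      have h5 : (a : K) = b := (inv_mul_eq_one.1 h4).symm
      exact h5
    obtain ⟨a, ha⟩ := (Finite.injective_iff_surjective.1 hφ) ⟨w, hw⟩
    have ha' : (a : K) * (s * (a : K)⁻¹ * s⁻¹) = w := congrArg Subtype.val ha
    refine ⟨i, a, hs ▸ hi, ?_⟩
    rw [← hs, ← ha']
    group
  have horder : ∀ x : K, x ∉ W → x ^ l = 1 := by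
    intro x hx
    obtain ⟨i, a, -, rfl⟩ := hout x hx
    have h1 : (a * t ^ i * a⁻¹) ^ l = a * (t ^ i) ^ l * a⁻¹ := by
      have := map_pow (MulAut.conj a).toMonoidHom (t ^ i) l
      simpa [MulAut.conj_apply] using this.symm
    rw [h1]
    have h2 : (t ^ i) ^ l = 1 := by
      rw [← zpow_natCast, ← zpow_mul, mul_comm, zpow_mul, zpow_natCast, ht, one_zpow]
    rw [h2]; group
  constructor
  · -- the core
    by_contra hT
    obtain ⟨T, hTe⟩ : ∃ T : Subgroup K, T = Cfsg.pPrimeCore p K := ⟨_, rfl⟩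
    rw [← hTe] at hT
    haveI hTn : T.Normal := by rw [hTe]; exact CfsgLib.Solv.pPrimeCore_normal' p
    have hTc : (Nat.card T).Coprime p := by rw [hTe]; exact CfsgLib.Solv.pPrimeCore_coprime p
    have hTW : ∀ x ∈ T, x ∈ W → x = 1 := by
      intro x hxT hxW
      have h1 : orderOf x ∣ p := orderOf_dvd_of_pow_eq_one (hWp x hxW)
      have h2 : orderOf x ∣ Nat.card T := Subgroup.orderOf_dvd_natCard T hxT
      exact orderOf_eq_one_iff.1 (Nat.eq_one_of_dvd_coprimes hTc h2 h1)
    rcases Subgroup.bot_or_exists_ne_one T with h0 | ⟨x, hx, hx1⟩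
    · exact hT h0
    have hxW : x ∉ W := fun h => hx1 (hTW x hx h)
    obtain ⟨i, a, hi, rfl⟩ := hout x hxW
    have htT : t ^ i ∈ T := by
      have := hTn.conj_mem _ hx a⁻¹
      have h1 : a⁻¹ * (a * t ^ i * a⁻¹) * a⁻¹⁻¹ = t ^ i := by group
      rwa [h1] at this
    apply hW1
    rw [eq_bot_iff]
    intro w hw
    apply Subgroup.mem_bot.2
    apply hfpf' i hi w hw
    have h2 : t ^ i * w * (t ^ i)⁻¹ * w⁻¹ ∈ T := by
      have h3 : t ^ i * w * (t ^ i)⁻¹ * w⁻¹ = t ^ i * (w * (t ^ i)⁻¹ * w⁻¹) := by group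
      rw [h3]
      exact T.mul_mem htT (hTn.conj_mem _ (T.inv_mem htT) w)
    have h4 : t ^ i * w * (t ^ i)⁻¹ * w⁻¹ ∈ W :=
      W.mul_mem (hWn.conj_mem _ hw _) (W.inv_mem hw)
    have h5 := hTW _ h2 h4
    have h6 : t ^ i * w * (t ^ i)⁻¹ = w := mul_inv_eq_one.1 h5
    exact mul_inv_eq_iff_eq_mul.1 h6
  · rintro ⟨k, hk⟩
    rcases Subgroup.bot_or_exists_ne_one W with h0 | ⟨w, hw, hw1⟩
    · exact hW1 h0
    have h1 : orderOf w = p := orderOf_eq_prime (hWp w hw) hw1
    have h2 : p ∣ orderOf k := by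
      rw [hk, ← h1]; exact Monoid.order_dvd_exponent w
    have h3 : l ∣ orderOf k := by
      rw [hk, ← hto]; exact Monoid.order_dvd_exponent t
    by_cases hkW : k ∈ W
    · have h4 : orderOf k ∣ p := orderOf_dvd_of_pow_eq_one (hWp k hkW)
      have h5 := (Nat.prime_dvd_prime_iff_eq hl hp).1 (h3.trans h4)
      exact hlp h5
    · have h4 : orderOf k ∣ l := orderOf_dvd_of_pow_eq_one (horder k hkW)
      have h5 := (Nat.prime_dvd_prime_iff_eq hp hl).1 (h2.trans h4)
      exact hlp h5.symm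

theorem h8_primary {G : Type*} [Group G] [Finite G] (C : Subgroup G) :
    ∀ (n : ℕ) (g : G), orderOf g = n → g ∉ C → ∃ l k m : ℕ, l.Prime ∧ (g ^ m) ^ (l ^ k) = 1 ∧ g ^ m ∉ C := by
  intro n
  induction n using Nat.strong_induction_on with
  | _ n ih =>
    intro g hg hgC
    have hg1 : n ≠ 1 := by
      rintro rfl
      apply hgC
      rw [orderOf_eq_one_iff.1 hg]
      exact C.one_mem
    have hn0 : n ≠ 0 := by
      rw [← hg]; exact (orderOf_pos g).ne'
    obtain ⟨l, hl, hld⟩ := Nat.exists_prime_and_dvd hg1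
    obtain ⟨a, m, hm, hnm⟩ := Nat.exists_eq_pow_mul_and_not_dvd hn0 l hl.ne_one
    by_cases hu : g ^ m ∈ C
    · by_cases hv : g ^ (l ^ a) ∈ C
      · exfalso
        apply hgC
        have hcop : Nat.Coprime (l ^ a) m := Nat.Coprime.pow_left a ((Nat.Prime.coprime_iff_not_dvd hl).2 hm)
        have h1 := Nat.gcd_eq_gcd_ab (l ^ a) m
        rw [hcop] at h1
        have h2 : g = (g ^ (l ^ a)) ^ (Nat.gcdA (l ^ a) m) * (g ^ m) ^ (Nat.gcdB (l ^ a) m) := by
          rw [← zpow_natCast, ← zpow_natCast, ← zpow_mul, ← zpow_mul, ← zpow_add]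
          rw [← h1]
          simp
        rw [h2]
        exact C.mul_mem (C.zpow_mem hv _) (C.zpow_mem hu _)
      · have hlt : orderOf (g ^ (l ^ a)) < n := by
          have hpos : 0 < l ^ a := pow_pos hl.pos a
          have h3 : orderOf (g ^ (l ^ a)) = orderOf g / Nat.gcd (orderOf g) (l ^ a) := orderOf_pow' g hpos.ne'
          rw [h3, hg]
          have h4 : Nat.gcd n (l ^ a) = l ^ a := Nat.gcd_eq_right (hnm ▸ Dvd.intro _ rfl)
          rw [h4, hnm, Nat.mul_div_cancel_left _ hpos]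
          have ha : a ≠ 0 := by
            rintro rfl
            apply hm
            rw [hnm] at hld
            simpa using hld
          have hm0 : 0 < m := by
            rcases Nat.eq_zero_or_pos m with h | h
            · rw [h] at hm
              exact absurd (dvd_zero l) hm
            · exact h
          have h5 : 1 < l ^ a := Nat.one_lt_pow ha hl.one_lt
          nlinarith
        obtain ⟨l', k', m', hl', h1, h2⟩ := ih _ hlt (g ^ (l ^ a)) rfl hv
        refine ⟨l', k', l ^ a * m', hl', ?_, ?_⟩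
        · rw [pow_mul]; exact h1
        · rw [pow_mul]; exact h2
    · refine ⟨l, a, m, hl, ?_, hu⟩
      rw [← pow_mul, mul_comm, ← hnm, ← hg, pow_orderOf_eq_one]

/-- Minimal pair. -/
theorem h8_min_pair {G : Type*} [Group G] [Finite G] (p l : ℕ) [Fact p.Prime] (hl : l.Prime) :
    ∀ (n : ℕ) (D : Subgroup G) (y : G), Nat.card D * orderOf y = n → IsPGroup p D →
      y ∈ Subgroup.normalizer (D : Set G) → y ∉ Subgroup.centralizer (D : Set G) → (∃ k, y ^ (l ^ k) = 1) →
      ∃ (D' : Subgroup G) (y' : G) (k : ℕ), IsPGroup p D' ∧ y' ∈ Subgroup.normalizer (D' : Set G) ∧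
        y' ∉ Subgroup.centralizer (D' : Set G) ∧ y' ^ (l ^ k) = 1 ∧ y' ^ l ∈ Subgroup.centralizer (D' : Set G) ∧
        y' ∈ Subgroup.centralizer (((frattini D').map D'.subtype : Subgroup G) : Set G) := by
  intro n
  induction n using Nat.strong_induction_on with
  | _ n ih =>
    intro D y hn hD hyN hyC hk
    obtain ⟨k, hk⟩ := hk
    by_cases h1 : y ^ l ∈ Subgroup.centralizer (D : Set G)
    · by_cases h2 : y ∈ Subgroup.centralizer (((frattini D).map D.subtype : Subgroup G) : Set G)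
      · exact ⟨D, y, k, hD, hyN, hyC, hk, h1, h2⟩
      · -- smaller `D`
        obtain ⟨Φ, hΦ⟩ : ∃ Φ : Subgroup G, Φ = (frattini D).map D.subtype := ⟨_, rfl⟩
        rw [← hΦ] at h2
        have hΦD : Φ ≤ D := by rw [hΦ]; exact Subgroup.map_subtype_le _
        have hcΦ : Nat.card Φ = Nat.card (frattini D) := by
          rw [hΦ]; exact Subgroup.card_map_of_injective D.subtype_injective
        have hyD : ∀ (a : G), a ∈ Subgroup.normalizer (D : Set G) → ∀ x ∈ Φ, a * x * a⁻¹ ∈ Φ := by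
          intro a ha x hx
          have hconj : ∀ x ∈ D, a * x * a⁻¹ ∈ D := fun x hx => (Subgroup.mem_normalizer_iff.1 ha x).1 hx
          have hconj' : ∀ x ∈ D, a⁻¹ * x * a ∈ D := by
            intro x hx
            have := (Subgroup.mem_normalizer_iff.1 (Subgroup.inv_mem _ ha) x).1 hx
            simpa using this
          let σ : MulAut D :=
            { toFun := fun x => ⟨a * x * a⁻¹, hconj x x.2⟩
              invFun := fun x => ⟨a⁻¹ * x * a, hconj' x x.2⟩
              left_inv := fun x => by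
                apply Subtype.ext
                show a⁻¹ * (a * x * a⁻¹) * a = x
                group
              right_inv := fun x => by
                apply Subtype.ext
                show a * (a⁻¹ * x * a) * a⁻¹ = x
                group
              map_mul' := fun u v => by
                apply Subtype.ext
                show a * (u * v) * a⁻¹ = (a * u * a⁻¹) * (a * v * a⁻¹)
                group }
          have hmap : (frattini D).map σ.toMonoidHom = frattini D :=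
            (Subgroup.characteristic_iff_map_eq.1 inferInstance) σ
          rw [hΦ] at hx ⊢
          obtain ⟨u, hu, rfl⟩ := hx
          have h3 : σ u ∈ (frattini D).map σ.toMonoidHom := ⟨u, hu, rfl⟩
          rw [hmap] at h3
          exact ⟨σ u, h3, rfl⟩
        have hyΦ : y ∈ Subgroup.normalizer (Φ : Set G) := by
          rw [Subgroup.mem_normalizer_iff]
          intro x
          constructor
          · exact hyD y hyN x
          · intro hx
            have := hyD y⁻¹ (Subgroup.inv_mem _ hyN) _ hx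
            have h4 : y⁻¹ * (y * x * y⁻¹) * y⁻¹⁻¹ = x := by group
            rwa [h4] at this
        have hlt : Nat.card Φ < Nat.card D := by
          rw [hcΦ]
          have hne : frattini D ≠ ⊤ := by
            intro htop
            have hnt : Nontrivial D := by
              by_contra hnt
              rw [not_nontrivial_iff_subsingleton] at hnt
              apply hyC
              rw [Subgroup.mem_centralizer_iff]
              intro d hd
              have h5 : (⟨d, hd⟩ : D) = 1 := Subsingleton.elim _ _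
              have h6 : d = 1 := congrArg Subtype.val h5
              rw [h6]; group
            obtain ⟨M, hM, -⟩ := (eq_top_or_exists_le_coatom (⊥ : Subgroup D)).resolve_left bot_ne_top
            have := frattini_le_coatom hM
            rw [htop] at this
            exact hM.1 (top_le_iff.1 this)
          refine lt_of_le_of_ne (Subgroup.card_le_card_group _) (fun h => hne ?_)
          exact Subgroup.eq_top_of_card_eq _ h
        have hlt2 : Nat.card Φ * orderOf y < n := by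
          rw [← hn]
          exact Nat.mul_lt_mul_of_pos_right hlt (orderOf_pos y)
        exact ih _ hlt2 Φ y rfl (hD.to_le hΦD) hyΦ h2 ⟨k, hk⟩
    · -- smaller order
      have hlt : orderOf (y ^ l) < orderOf y := by
        have hy1 : orderOf y ≠ 1 := by
          intro h
          apply hyC
          rw [orderOf_eq_one_iff.1 h]
          exact Subgroup.one_mem _
        obtain ⟨a, -, ha⟩ := (Nat.dvd_prime_pow hl).1 (orderOf_dvd_of_pow_eq_one hk)
        have ha0 : a ≠ 0 := by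
          rintro rfl
          exact hy1 (by simpa using ha)
        have h3 : orderOf (y ^ l) = orderOf y / Nat.gcd (orderOf y) l := orderOf_pow' y hl.pos.ne'
        have h4 : Nat.gcd (orderOf y) l = l := by
          apply Nat.gcd_eq_right
          rw [ha]; exact dvd_pow_self l ha0
        rw [h3, h4]
        exact Nat.div_lt_self (orderOf_pos y) hl.one_lt
      have hlt2 : Nat.card D * orderOf (y ^ l) < n := by
        rw [← hn]
        exact Nat.mul_lt_mul_of_pos_left hlt Nat.card_pos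
      refine ih _ hlt2 D (y ^ l) rfl hD (Subgroup.pow_mem _ hyN l) h1 ⟨k, ?_⟩
      rw [← pow_mul, mul_comm, pow_mul, hk, one_pow]

/-- Let G be a finite group and p a prime. Then G has a normal p-complement if and only if every section K = H/N of G (N a normal subgroup of a subgroup H) whose largest normal subgroup of order prime to p is trivial contains an element whose order equals the exponent of K. -/
theorem result {G : Type*} [Group G] [Finite G] (p : ℕ) [Fact p.Prime] :
    Cfsg.HasNormalPComplement p G ↔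
      ∀ (H : Subgroup G) (N : Subgroup H) [N.Normal], Cfsg.pPrimeCore p (H ⧸ N) = ⊥ →
        ∃ k : H ⧸ N, orderOf k = Monoid.exponent (H ⧸ N) := by
  classical
  have hpp : p.Prime := Fact.out
  constructor
  · rintro ⟨P, M, hMn, hc⟩ H N _ hO
    haveI := hMn
    obtain ⟨a, ha⟩ := (IsPGroup.iff_card).1 P.2
    have hMi : M.index = p ^ a := by rw [hc.symm.index_eq_card, ha]
    have hMcop : (Nat.card M).Coprime p := by
      have h2 : ¬ p ∣ Nat.card M := by
        intro h3
        apply P.not_dvd_index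
        rw [hc.index_eq_card]
        exact h3
      exact ((Nat.Prime.coprime_iff_not_dvd hpp).2 h2).symm
    obtain ⟨Mb, hMb⟩ : ∃ Mb : Subgroup (H ⧸ N), Mb = (M.subgroupOf H).map (QuotientGroup.mk' N) := ⟨_, rfl⟩
    haveI hMbn : Mb.Normal := by
      rw [hMb]
      exact Subgroup.Normal.map (Subgroup.Normal.subgroupOf hMn H) _ (QuotientGroup.mk'_surjective N)
    have hMbc : (Nat.card Mb).Coprime p := by
      have h1 : Nat.card Mb ∣ Nat.card (M.subgroupOf H) := by
        rw [hMb]; exact Subgroup.card_map_dvd _ _ 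
      have h2 : Nat.card (M.subgroupOf H) ∣ Nat.card M := by
        let f : (M.subgroupOf H) →* M :=
          { toFun := fun x => ⟨x.1.1, x.2⟩
            map_one' := rfl
            map_mul' := fun _ _ => rfl }
        apply Subgroup.card_dvd_of_injective f
        intro a b hab
        have h3 : ((f a : M) : G) = ((f b : M) : G) := by rw [hab]
        exact Subtype.ext (Subtype.ext h3)
      exact Nat.Coprime.coprime_dvd_left (h1.trans h2) hMcop
    have hMbot : Mb ≤ ⊥ := by
      rw [← hO]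
      exact CfsgLib.Solv.le_pPrimeCore' Mb hMbc
    have hKp : IsPGroup p (H ⧸ N) := by
      intro k
      obtain ⟨h, rfl⟩ := QuotientGroup.mk_surjective k
      refine ⟨a, ?_⟩
      have h1 : ((h : G)) ^ p ^ a ∈ M := by
        rw [← hMi]; exact Subgroup.pow_index_mem M (h : G)
      have h2 : h ^ p ^ a ∈ M.subgroupOf H := by
        rw [Subgroup.mem_subgroupOf]
        simpa using h1
      have h3 : ((h ^ p ^ a : H) : H ⧸ N) ∈ Mb := by
        rw [hMb]; exact ⟨_, h2, rfl⟩
      have h4 := hMbot h3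
      rw [Subgroup.mem_bot] at h4
      rw [← QuotientGroup.mk_pow]
      exact h4
    exact h8_pgroup_exp p hKp
  · intro hall
    by_contra hnc
    obtain ⟨S⟩ : Nonempty (Sylow p G) := inferInstance
    have hnot : ¬ ∀ Q : Subgroup G, Q ≤ (S : Subgroup G) → ∀ g ∈ Subgroup.normalizer (Q : Set G),
        Nat.Coprime (orderOf g) p → g ∈ Subgroup.centralizer (Q : Set G) := by
      intro h
      obtain ⟨N, hn, hc⟩ := (CfsgLib.Trans.frobenius_criterion S).2 h
      exact hnc ⟨S, N, hn, hc⟩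
    push Not at hnot
    obtain ⟨Q, hQ, g, hg, hgc, hgC⟩ := hnot
    obtain ⟨l, k0, m0, hl, hy1, hyC⟩ := h8_primary _ _ g rfl hgC
    obtain ⟨y0, hy0⟩ : ∃ y, y = g ^ m0 := ⟨_, rfl⟩
    rw [← hy0] at hy1 hyC
    have hy0N : y0 ∈ Subgroup.normalizer (Q : Set G) := by rw [hy0]; exact Subgroup.pow_mem _ hg m0
    have hlp : l ≠ p := by
      rintro rfl
      have hy0c : (orderOf y0).Coprime l := by
        rw [hy0]
        exact Nat.Coprime.coprime_dvd_left (orderOf_pow_dvd m0) hgc
      have h0 : orderOf y0 ∣ l ^ k0 := orderOf_dvd_of_pow_eq_one hy1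
      have h1 : orderOf y0 = 1 := Nat.eq_one_of_dvd_coprimes (Nat.Coprime.pow_right k0 hy0c) (dvd_refl _) h0
      apply hyC
      rw [orderOf_eq_one_iff.1 h1]
      exact Subgroup.one_mem _
    obtain ⟨D, y, k, hD, hyN, hyC', hyk, hyl, hyΦ⟩ := h8_min_pair p l hl _ Q y0 rfl (S.2.to_le hQ) hy0N hyC ⟨k0, hy1⟩
    haveI : Fact l.Prime := ⟨hl⟩
    have hcoplp : Nat.Coprime l p := (Nat.coprime_primes hl hpp).2 hlp
    -- basic facts
    have hyzN : ∀ (i : ℤ) (d : G), d ∈ D → y ^ i * d * (y ^ i)⁻¹ ∈ D := fun i d hd =>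
      (Subgroup.mem_normalizer_iff.1 (Subgroup.zpow_mem _ hyN i) d).1 hd
    have hpelt : ∀ d ∈ D, ∃ e, orderOf d = p ^ e := by
      intro d hd
      obtain ⟨e, he⟩ := (IsPGroup.iff_orderOf).1 hD ⟨d, hd⟩
      exact ⟨e, by rw [← he, Subgroup.orderOf_mk]⟩
    have hDz : ∀ i : ℤ, y ^ i ∈ D → y ^ i = 1 := by
      intro i hi
      obtain ⟨e, he⟩ := hpelt _ hi
      have h1 : (y ^ i) ^ l ^ k = 1 := by
        rw [← zpow_natCast, ← zpow_mul, mul_comm, zpow_mul, zpow_natCast, hyk, one_zpow]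
      have h2 : orderOf (y ^ i) ∣ l ^ k := orderOf_dvd_of_pow_eq_one h1
      have h3 : Nat.Coprime (l ^ k) (p ^ e) := Nat.Coprime.pow _ _ hcoplp
      exact orderOf_eq_one_iff.1 (Nat.eq_one_of_dvd_coprimes h3 h2 (by rw [he]))
    have hyl' : ∀ (i : ℤ) (d : G), d ∈ D → (y ^ l) ^ i * d = d * (y ^ l) ^ i := by
      intro i d hd
      have h1 : (y ^ l) ^ i ∈ Subgroup.centralizer (D : Set G) := Subgroup.zpow_mem _ hyl i
      exact (Subgroup.mem_centralizer_iff.1 h1 d hd).symm
    have hΦfacts : ∀ d ∈ D, d ^ p * y = y * d ^ p := by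
      intro d hd
      have h1 : ((⟨d, hd⟩ : D) ^ p) ∈ frattini D := (CfsgLib.Solv.pgroup_commutator_pow_le_frattini hD).2 _
      have h2 := Subgroup.mem_centralizer_iff.1 hyΦ (d ^ p) ⟨_, h1, rfl⟩
      exact h2
    have hΦcomm : ∀ d ∈ D, ∀ c ∈ D, (d * c * d⁻¹ * c⁻¹) * y = y * (d * c * d⁻¹ * c⁻¹) := by
      intro d hd c hc
      have h1 : ⁅(⟨d, hd⟩ : D), (⟨c, hc⟩ : D)⁆ ∈ frattini D :=
        (CfsgLib.Solv.pgroup_commutator_pow_le_frattini hD).1 (Subgroup.commutator_mem_commutator trivial trivial)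
      have h2 := Subgroup.mem_centralizer_iff.1 hyΦ (d * c * d⁻¹ * c⁻¹) ⟨_, h1, rfl⟩
      exact h2
    have hyzc : ∀ (i : ℤ) (c : G), y * c = c * y → y ^ i * c = c * y ^ i := by
      intro i c hc
      have h1 : Commute y c := hc
      exact h1.zpow_left i
    -- the group `H`
    obtain ⟨H, hH⟩ : ∃ H : Subgroup G, ∀ x, x ∈ H ↔ ∃ d ∈ D, ∃ i : ℤ, x = d * y ^ i :=
      ⟨{ carrier := {x | ∃ d ∈ D, ∃ i : ℤ, x = d * y ^ i}
         mul_mem' := by
          rintro _ _ ⟨d, hd, i, rfl⟩ ⟨d', hd', j, rfl⟩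
          refine ⟨d * (y ^ i * d' * (y ^ i)⁻¹), D.mul_mem hd (hyzN i d' hd'), i + j, ?_⟩
          rw [zpow_add]
          group
         one_mem' := ⟨1, D.one_mem, 0, by simp⟩
         inv_mem' := by
          rintro _ ⟨d, hd, i, rfl⟩
          refine ⟨y ^ (-i) * d⁻¹ * (y ^ (-i))⁻¹, hyzN (-i) _ (D.inv_mem hd), -i, ?_⟩
          group }, fun _ => Iff.rfl⟩
    have hDH : D ≤ H := fun d hd => (hH d).2 ⟨d, hd, 0, by simp⟩
    have hyH : y ∈ H := (hH y).2 ⟨1, D.one_mem, 1, by simp⟩
    -- the normal subgroup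
    obtain ⟨N', hN'⟩ : ∃ N' : Subgroup G, ∀ x, x ∈ N' ↔ ∃ c ∈ D, y * c = c * y ∧ ∃ i : ℤ, x = c * (y ^ l) ^ i :=
      ⟨{ carrier := {x | ∃ c ∈ D, y * c = c * y ∧ ∃ i : ℤ, x = c * (y ^ l) ^ i}
         mul_mem' := by
          rintro _ _ ⟨c, hc, hcy, i, rfl⟩ ⟨c', hc', hcy', j, rfl⟩
          refine ⟨c * c', D.mul_mem hc hc', ?_, i + j, ?_⟩
          · calc y * (c * c') = (y * c) * c' := by group
              _ = c * (y * c') := by rw [hcy]; group
              _ = c * (c' * y) := by rw [hcy']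
              _ = _ := by group
          · rw [zpow_add]
            have h1 := hyl' i c' hc'
            calc c * (y ^ l) ^ i * (c' * (y ^ l) ^ j) = c * ((y ^ l) ^ i * c') * (y ^ l) ^ j := by group
              _ = c * (c' * (y ^ l) ^ i) * (y ^ l) ^ j := by rw [h1]
              _ = _ := by group
         one_mem' := ⟨1, D.one_mem, by simp, 0, by simp⟩
         inv_mem' := by
          rintro _ ⟨c, hc, hcy, i, rfl⟩
          refine ⟨c⁻¹, D.inv_mem hc, ?_, -i, ?_⟩
          · have h1 : Commute y c := hcy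
            exact h1.inv_right
          · have h1 := hyl' (-i) c⁻¹ (D.inv_mem hc)
            rw [mul_inv_rev, zpow_neg] at *
            exact h1 }, fun _ => Iff.rfl⟩
    have hN'H : N' ≤ H := by
      intro x hx
      obtain ⟨c, hc, -, i, rfl⟩ := (hN' x).1 hx
      refine (hH _).2 ⟨c, hc, l * i, ?_⟩
      rw [zpow_mul, zpow_natCast]
    have hN'D : ∀ x ∈ N', x ∈ D → x * y = y * x := by
      intro x hx hxD
      obtain ⟨c, hc, hcy, i, rfl⟩ := (hN' x).1 hx
      have h1 : (y ^ l) ^ i ∈ D := by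
        have : (y ^ l) ^ i = c⁻¹ * (c * (y ^ l) ^ i) := by group
        rw [this]
        exact D.mul_mem (D.inv_mem hc) hxD
      have h2 : (y ^ l) ^ i = y ^ ((l : ℤ) * i) := by rw [zpow_mul, zpow_natCast]
      rw [h2] at h1 ⊢
      rw [hDz _ h1, mul_one]
      exact hcy.symm
    haveI hNn : (N'.subgroupOf H).Normal := by
      constructor
      rintro n hn ⟨g', hg'⟩
      rw [Subgroup.mem_subgroupOf] at hn ⊢
      obtain ⟨c, hc, hcy, j, hnc⟩ := (hN' _).1 hn
      obtain ⟨d, hd, i, hg2⟩ := (hH _).1 hg'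
      show g' * (n : G) * g'⁻¹ ∈ N'
      rw [hnc, hg2]
      refine (hN' _).2 ⟨d * c * d⁻¹, ?_, ?_, j, ?_⟩
      · exact D.mul_mem (D.mul_mem hd hc) (D.inv_mem hd)
      · have h1 := hΦcomm d hd c hc
        calc y * (d * c * d⁻¹) = y * ((d * c * d⁻¹ * c⁻¹) * c) := by group
          _ = (y * (d * c * d⁻¹ * c⁻¹)) * c := by group
          _ = ((d * c * d⁻¹ * c⁻¹) * y) * c := by rw [h1]
          _ = (d * c * d⁻¹ * c⁻¹) * (y * c) := by group
          _ = (d * c * d⁻¹ * c⁻¹) * (c * y) := by rw [hcy]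
          _ = _ := by group
      · have h1 : y ^ i * c = c * y ^ i := hyzc i c hcy
        have h2 : y ^ i * (y ^ l) ^ j = (y ^ l) ^ j * y ^ i := by
          have : Commute (y ^ i) ((y ^ l) ^ j) := ((Commute.refl y).pow_right l |>.zpow_right j).zpow_left i
          exact this
        have h3 := hyl' j d hd
        calc d * y ^ i * (c * (y ^ l) ^ j) * (d * y ^ i)⁻¹ = d * (y ^ i * c) * (y ^ l) ^ j * (y ^ i)⁻¹ * d⁻¹ := by group
          _ = d * (c * y ^ i) * (y ^ l) ^ j * (y ^ i)⁻¹ * d⁻¹ := by rw [h1]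
          _ = d * c * (y ^ i * (y ^ l) ^ j) * (y ^ i)⁻¹ * d⁻¹ := by group
          _ = d * c * ((y ^ l) ^ j * y ^ i) * (y ^ i)⁻¹ * d⁻¹ := by rw [h2]
          _ = d * c * ((y ^ l) ^ j * d⁻¹) := by group
          _ = d * c * (d⁻¹ * (y ^ l) ^ j) := by rw [hyl' j d⁻¹ (D.inv_mem hd)]
          _ = _ := by group
    haveI hDHn : (D.subgroupOf H).Normal := by
      constructor
      rintro n hn ⟨g', hg'⟩
      rw [Subgroup.mem_subgroupOf] at hn ⊢
      obtain ⟨d, hd, i, hg2⟩ := (hH _).1 hg'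
      show g' * (n : G) * g'⁻¹ ∈ D
      rw [hg2]
      have h1 := hyzN i _ hn
      have h2 : d * y ^ i * (n : G) * (d * y ^ i)⁻¹ = d * (y ^ i * (n : G) * (y ^ i)⁻¹) * d⁻¹ := by group
      rw [h2]
      exact D.mul_mem (D.mul_mem hd h1) (D.inv_mem hd)
    obtain ⟨W, hW⟩ : ∃ W : Subgroup (H ⧸ N'.subgroupOf H), W = (D.subgroupOf H).map (QuotientGroup.mk' (N'.subgroupOf H)) := ⟨_, rfl⟩
    haveI hWn : W.Normal := by
      rw [hW]
      exact Subgroup.Normal.map hDHn _ (QuotientGroup.mk'_surjective _)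
    have hWmem : ∀ w ∈ W, ∃ d ∈ D, ∃ hdH : d ∈ H, w = ((⟨d, hdH⟩ : H) : H ⧸ N'.subgroupOf H) := by
      intro w hw
      rw [hW] at hw
      obtain ⟨u, hu, rfl⟩ := hw
      exact ⟨u, hu, u.2, rfl⟩
    have hmk1 : ∀ (x : G) (hx : x ∈ H), ((⟨x, hx⟩ : H) : H ⧸ N'.subgroupOf H) = 1 ↔ x ∈ N' := by
      intro x hx
      rw [QuotientGroup.eq_one_iff, Subgroup.mem_subgroupOf]
    obtain ⟨t, ht⟩ : ∃ t : H ⧸ N'.subgroupOf H, t = ((⟨y, hyH⟩ : H) : H ⧸ N'.subgroupOf H) := ⟨_, rfl⟩
    have hyN' : y ^ l ∈ N' := (hN' _).2 ⟨1, D.one_mem, by simp, 1, by simp⟩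
    have htl : t ^ l = 1 := by
      rw [ht, ← QuotientGroup.mk_pow]
      have h1 : (⟨y, hyH⟩ : H) ^ l = ⟨y ^ l, H.pow_mem hyH l⟩ := rfl
      rw [h1, hmk1]
      exact hyN'
    have hy1ne : orderOf y ≠ 1 := by
      intro h
      apply hyC'
      rw [orderOf_eq_one_iff.1 h]
      exact Subgroup.one_mem _
    have hlord : l ∣ orderOf y := by
      obtain ⟨a, -, ha⟩ := (Nat.dvd_prime_pow hl).1 (orderOf_dvd_of_pow_eq_one hyk)
      rw [ha]
      refine dvd_pow_self l ?_
      rintro rfl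
      exact hy1ne (by simpa using ha)
    have ht1 : t ≠ 1 := by
      intro h
      rw [ht, hmk1] at h
      obtain ⟨c, hc, -, i, hci⟩ := (hN' y).1 h
      have h2 : y ^ (1 - (l : ℤ) * i) ∈ D := by
        have h3 : y ^ (1 - (l : ℤ) * i) = c := by
          have h3' : c = y * ((y ^ l) ^ i)⁻¹ := eq_mul_inv_iff_mul_eq.2 hci.symm
          rw [h3', zpow_sub, zpow_one, zpow_mul, zpow_natCast]
        rw [h3]; exact hc
      have h4 := hDz _ h2
      have h5 : (orderOf y : ℤ) ∣ 1 - (l : ℤ) * i := orderOf_dvd_iff_zpow_eq_one.2 h4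
      have h6 : (l : ℤ) ∣ (orderOf y : ℤ) := Int.natCast_dvd_natCast.2 hlord
      have h7 : (l : ℤ) ∣ (1 - (l : ℤ) * i) + (l : ℤ) * i := dvd_add (h6.trans h5) (dvd_mul_right _ _)
      rw [sub_add_cancel] at h7
      have h8 := Int.le_of_dvd one_pos h7
      have h9 := hl.one_lt
      omega
    have hWp : ∀ w ∈ W, w ^ p = 1 := by
      intro w hw
      obtain ⟨d, hd, hdH, rfl⟩ := hWmem w hw
      rw [← QuotientGroup.mk_pow]
      have h1 : (⟨d, hdH⟩ : H) ^ p = ⟨d ^ p, H.pow_mem hdH p⟩ := rfl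
      rw [h1, hmk1]
      exact (hN' _).2 ⟨d ^ p, D.pow_mem hd p, (hΦfacts d hd).symm, 0, by simp⟩
    have hW1 : W ≠ ⊥ := by
      intro hbot
      apply hyC'
      rw [Subgroup.mem_centralizer_iff]
      intro d hd
      have h1 : ((⟨d, hDH hd⟩ : H) : H ⧸ N'.subgroupOf H) ∈ W := by
        rw [hW]
        exact ⟨⟨d, hDH hd⟩, hd, rfl⟩
      rw [hbot, Subgroup.mem_bot, hmk1] at h1
      exact hN'D d h1 hd
    have hgen : ∀ x : H ⧸ N'.subgroupOf H, ∃ w ∈ W, ∃ i : ℤ, x = w * t ^ i := by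
      intro x
      obtain ⟨⟨h, hh⟩, rfl⟩ := QuotientGroup.mk_surjective x
      obtain ⟨d, hd, i, hi⟩ := (hH h).1 hh
      refine ⟨((⟨d, hDH hd⟩ : H) : H ⧸ N'.subgroupOf H), ?_, i, ?_⟩
      · rw [hW]
        exact ⟨⟨d, hDH hd⟩, hd, rfl⟩
      · rw [ht, ← QuotientGroup.mk_zpow, ← QuotientGroup.mk_mul]
        congr 1
        apply Subtype.ext
        simpa using hi
    have hfpf : ∀ w ∈ W, t * w * t⁻¹ = w → w = 1 := by
      intro w hw hc
      obtain ⟨d, hd, hdH, rfl⟩ := hWmem w hw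
      rw [ht, ← QuotientGroup.mk_inv, ← QuotientGroup.mk_mul, ← QuotientGroup.mk_mul] at hc
      have h1 := QuotientGroup.eq.1 hc
      rw [Subgroup.mem_subgroupOf] at h1
      obtain ⟨e, he⟩ : ∃ e : G, e = y * d * y⁻¹ * d⁻¹ := ⟨_, rfl⟩
      -- the commutator in the other order
      have h2 : d⁻¹ * (y * d * y⁻¹) ∈ N' := by
        have h3 : (((⟨y, hyH⟩ * ⟨d, hdH⟩ * (⟨y, hyH⟩ : H)⁻¹ : H)⁻¹ * (⟨d, hdH⟩ : H) : H) : G) = (y * d * y⁻¹)⁻¹ * d := by
          simp
        rw [h3] at h1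
        have h4 := N'.inv_mem h1
        simpa using h4
      have h3 : d⁻¹ * (y * d * y⁻¹) ∈ D := by
        have h30 := hyzN 1 d hd
        rw [zpow_one] at h30
        exact D.mul_mem (D.inv_mem hd) h30
      obtain ⟨u, hu⟩ : ∃ u, u = d⁻¹ * (y * d * y⁻¹) := ⟨_, rfl⟩
      rw [← hu] at h2 h3
      have huy : u * y = y * u := hN'D u h2 h3
      have hyd : y * d * y⁻¹ = d * u := by rw [hu]; group
      have hit : ∀ n : ℕ, y ^ n * d * (y ^ n)⁻¹ = d * u ^ n := by
        intro n
        induction n with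
        | zero => simp
        | succ n ih =>
          have hC : Commute y (u ^ n) := (Commute.symm huy).pow_right n
          calc y ^ (n + 1) * d * (y ^ (n + 1))⁻¹ = y * (y ^ n * d * (y ^ n)⁻¹) * y⁻¹ := by
                rw [pow_succ']; group
            _ = y * (d * u ^ n) * y⁻¹ := by rw [ih]
            _ = (y * d * y⁻¹) * (y * u ^ n * y⁻¹) := by group
            _ = (d * u) * (u ^ n) := by
                rw [hyd, hC.eq]; group
            _ = d * u ^ (n + 1) := by rw [pow_succ']; group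
      have h4 := hit (l ^ k)
      rw [hyk] at h4
      have h5 : u ^ l ^ k = 1 := by
        have h6 : d = d * u ^ l ^ k := by simpa using h4
        exact (mul_eq_left.1 h6.symm)
      have hu1 : u = 1 := by
        obtain ⟨e', he'⟩ := hpelt u h3
        have h6 : orderOf u ∣ l ^ k := orderOf_dvd_of_pow_eq_one h5
        have h7 : Nat.Coprime (l ^ k) (p ^ e') := Nat.Coprime.pow _ _ hcoplp
        exact orderOf_eq_one_iff.1 (Nat.eq_one_of_dvd_coprimes h7 h6 (by rw [he']))
      have hfix : y * d = d * y := by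
        rw [hu1, mul_one] at hyd
        exact mul_inv_eq_iff_eq_mul.1 hyd
      rw [hmk1]
      exact (hN' _).2 ⟨d, hd, hfix, 0, by simp⟩
    obtain ⟨hO, hno⟩ := h8_frob_section p l hpp hl hlp W hWp hW1 t htl ht1 hgen hfpf
    exact hno (hall H _ hO)

end Cfsg.Agent.S4238
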