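import Cfsg.Statements.S4242
import Cfsg.Agent.Lib.FGS.Cover
import Cfsg.Agent.Lib.Trans.Frob
import Cfsg.Agent.Lib.Trans.Ito
import Cfsg.Agent.Lib.Solv.CoprimeSylow
import Cfsg.Agent.Lib.Solv.Hall
import Cfsg.Agent.Lib.PLocal.CardSup

set_option autoImplicit false
open Cfsg
open scoped commutatorElement
open scoped Pointwise

namespace Cfsg.Agent.S4242

theorem h8_nil_le {G : Type*} [Group G] {X Y : Subgroup G} (h : X ≤ Y) (hY : Group.IsNilpotent Y) :
    Group.IsNilpotent X := by
  haveI := hY
  exact Group.nilpotent_of_mulEquiv (Subgroup.subgroupOfEquivOfLe h)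

theorem h8_nil_of_comm {A : Type*} [Group A] (h : ∀ a b : A, a * b = b * a) : Group.IsNilpotent A := by
  letI : CommGroup A := { (inferInstance : Group A) with mul_comm := h }
  exact CommGroup.isNilpotent

theorem h8_ord_coprime {G : Type*} [Group G] [Finite G] {p : ℕ} (hp : p.Prime) {x : G} {A : Subgroup G}
    (hx : x ∈ A) (hA : ¬ p ∣ Nat.card A) : (orderOf x).Coprime p := by
  have h1 : orderOf x ∣ Nat.card A := Subgroup.orderOf_dvd_natCard A hx
  have h2 : Nat.Coprime (Nat.card A) p := ((Nat.Prime.coprime_iff_not_dvd hp).2 hA).symm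
  exact Nat.Coprime.coprime_dvd_left h1 h2

theorem h8_key {G : Type*} [Group G] [Finite G] (p : ℕ) (hp : p.Prime) (hpG : p ∣ Nat.card G)
    (hall : ∀ M : Subgroup G, IsCoatom M → p ∣ Nat.card M → Group.IsNilpotent M)
    (M₀ : Subgroup G) (hM₀ : IsCoatom M₀) (hnil : ¬ Group.IsNilpotent M₀) :
    ∃ Z K : Subgroup G, Z.Normal ∧ K.Normal ∧ Z ⊓ K = ⊥ ∧ Z ⊔ K = ⊤ ∧ Nat.card Z = p ∧
          Cfsg.IsMinimalNonNilpotent K ∧ ¬ p ∣ Nat.card K := by
  classical
  haveI : Fact p.Prime := ⟨hp⟩
  have hprop : ∀ X : Subgroup G, X ≠ ⊤ → p ∣ Nat.card X → Group.IsNilpotent X := by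
    intro X hX hpX
    obtain ⟨M, hM, hXM⟩ := (eq_top_or_exists_le_coatom X).resolve_left hX
    refine h8_nil_le hXM (hall M hM (hpX.trans (Subgroup.card_dvd_of_le hXM)))
  have hpM₀ : ¬ p ∣ Nat.card M₀ := fun h => hnil (hall M₀ hM₀ h)
  obtain ⟨P⟩ : Nonempty (Sylow p G) := inferInstance
  obtain ⟨k, hk⟩ := (IsPGroup.iff_card).1 P.2
  have hPne : Nat.card P ≠ 1 := by
    intro h
    apply P.not_dvd_index
    have h1 := Subgroup.card_mul_index (P : Subgroup G)
    rw [h, one_mul] at h1
    rw [h1]; exact hpG
  have hk0 : k ≠ 0 := by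
    rintro rfl
    exact hPne (by simpa using hk)
  have hpP : p ∣ Nat.card P := by rw [hk]; exact dvd_pow_self p hk0
  have hordP : ∀ y ∈ (P : Subgroup G), ∃ e, orderOf y = p ^ e := by
    intro y hy
    obtain ⟨e, he⟩ := (IsPGroup.iff_orderOf).1 P.2 ⟨y, hy⟩
    exact ⟨e, by rw [← he, Subgroup.orderOf_mk]⟩
  have hcopP : ∀ (x y : G), y ∈ (P : Subgroup G) → (orderOf x).Coprime p → (orderOf x).Coprime (orderOf y) := by
    intro x y hy hx
    obtain ⟨e, he⟩ := hordP y hy
    rw [he]
    exact Nat.Coprime.pow_right e hx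
  have hPnotle : ¬ (P : Subgroup G) ≤ M₀ := fun h => hpM₀ (hpP.trans (Subgroup.card_dvd_of_le h))
  have hsup : M₀ ⊔ (P : Subgroup G) = ⊤ := by
    apply hM₀.2
    exact lt_of_le_of_ne le_sup_left (fun h => hPnotle (by rw [h]; exact le_sup_right))
  -- a general remark: when `P` normalizes `L`
  have hPnormal : (P : Subgroup G).Normal := by
    by_contra hPn
    -- Frobenius
    have hcrit : ∀ Q : Subgroup G, Q ≤ (P : Subgroup G) → ∀ g ∈ Subgroup.normalizer (Q : Set G),
        Nat.Coprime (orderOf g) p → g ∈ Subgroup.centralizer (Q : Set G) := by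
      intro Q hQ g hg hgc
      by_cases hQ0 : Q = ⊥
      · subst hQ0
        rw [Subgroup.mem_centralizer_iff]
        intro q hq
        have : q = 1 := by simpa using hq
        rw [this]; group
      have hQp : IsPGroup p Q := P.2.to_le hQ
      obtain ⟨e, he⟩ := (IsPGroup.iff_card).1 hQp
      have hQne : Nat.card Q ≠ 1 := by
        intro h
        exact hQ0 (Subgroup.card_eq_one.1 h)
      have he0 : e ≠ 0 := by
        rintro rfl
        exact hQne (by simpa using he)
      have hpQ : p ∣ Nat.card Q := by rw [he]; exact dvd_pow_self p he0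
      have hXtop : Q ⊔ Subgroup.zpowers g ≠ ⊤ := by
        intro htop
        have hNtop : Subgroup.normalizer (Q : Set G) = ⊤ := by
          apply top_le_iff.1
          rw [← htop]
          refine sup_le Subgroup.le_normalizer ?_
          rw [Subgroup.zpowers_le]; exact hg
        haveI hQn : Q.Normal := Subgroup.normalizer_eq_top_iff.1 hNtop
        have hc := CfsgLib.Solv.card_sup_mul_card_inf (Subgroup.zpowers g) Q
        have hdis : Subgroup.zpowers g ⊓ Q = ⊥ := by
          have : Disjoint (Subgroup.zpowers g) Q := by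
            apply Subgroup.disjoint_of_coprime_natCard
            rw [Nat.card_zpowers, he]
            exact Nat.Coprime.pow_right e hgc
          exact this.eq_bot
        rw [hdis, sup_comm, htop] at hc
        simp only [Subgroup.card_top, Subgroup.card_bot, mul_one, Nat.card_zpowers] at hc
        -- `P = Q`
        have hPQ : Nat.card P ∣ Nat.card Q := by
          have h1 : Nat.card P ∣ Nat.card G := Subgroup.card_subgroup_dvd_card _
          rw [hc, mul_comm] at h1
          refine Nat.Coprime.dvd_of_dvd_mul_right ?_ h1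
          rw [hk]
          exact Nat.Coprime.pow_left k hgc.symm
        have hPeq : (P : Subgroup G) = Q :=
          (Subgroup.eq_of_le_of_card_ge hQ (Nat.le_of_dvd Nat.card_pos hPQ)).symm
        apply hPn
        rw [hPeq]
        exact hQn
      have hXnil := hprop _ hXtop (hpQ.trans (Subgroup.card_dvd_of_le le_sup_left))
      rw [Subgroup.mem_centralizer_iff]
      intro y hy
      exact CfsgLib.Trans.subgroup_commute_of_coprime hXnil (Subgroup.mem_sup_left hy)
        (Subgroup.mem_sup_right (Subgroup.mem_zpowers g)) (by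
          have := hcopP g y (hQ hy) hgc
          exact this.symm)
    obtain ⟨N, hNn, hN⟩ := (CfsgLib.Trans.frobenius_criterion P).2 hcrit
    haveI := hNn
    have hNi : N.index = p ^ k := by rw [hN.symm.index_eq_card, hk]
    have hM₀N : M₀ ≤ N := by
      intro x hx
      apply CfsgLib.Trans.mem_of_coprime_index
      rw [hNi]
      exact Nat.Coprime.pow_right k (h8_ord_coprime hp hx hpM₀)
    have hNtop : N ≠ ⊤ := by
      rintro rfl
      have h1 := hN.card_mul_card
      rw [Subgroup.card_top] at h1
      have h2 : Nat.card P = 1 := by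
        have h3 : 0 < Nat.card G := Nat.card_pos
        nlinarith
      exact hPne h2
    have hNeq : M₀ = N := by
      rcases hM₀.le_iff.1 hM₀N with h | h
      · exact absurd h hNtop
      · exact h.symm
    have hM₀n : M₀.Normal := hNeq ▸ hNn
    have hPnorm : (P : Subgroup G) ≤ Subgroup.normalizer (M₀ : Set G) := by
      rw [Subgroup.normalizer_eq_top_iff.2 hM₀n]; exact le_top
    have hcopc : (Nat.card P).Coprime (Nat.card M₀) := by
      rw [hk]
      exact Nat.Coprime.pow_left k ((Nat.Prime.coprime_iff_not_dvd hp).2 hpM₀)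
    have hcentS : ∀ (r : ℕ) [Fact r.Prime], ∃ S : Sylow r M₀,
        (S : Subgroup M₀) ≤ (Subgroup.centralizer ((P : Subgroup G) : Set G)).subgroupOf M₀ := by
      intro r _
      obtain ⟨Q, hQs, hQn⟩ := CfsgLib.Solv.exists_invariant_sylow (p := r) (P : Subgroup G) M₀ hPnorm hcopc
        (Or.inl (haveI := P.2.isNilpotent; inferInstance))
      obtain ⟨S, hS⟩ := hQs.exists_sylow
      refine ⟨S, ?_⟩
      intro s hs
      rw [Subgroup.mem_subgroupOf, Subgroup.mem_centralizer_iff]
      intro y hy
      have hsQ : (s : G) ∈ Q := by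
        rw [← hS]
        exact ⟨s, hs, rfl⟩
      have hQM : Q ≤ M₀ := hQs.1
      have hXtop : Q ⊔ (P : Subgroup G) ≠ ⊤ := by
        intro htop
        have hc := CfsgLib.PLocal.card_sup_mul_card_inf (P : Subgroup G) Q hQn
        have hdis : (P : Subgroup G) ⊓ Q = ⊥ := by
          have : Disjoint (P : Subgroup G) Q := by
            apply Subgroup.disjoint_of_coprime_natCard
            exact Nat.Coprime.coprime_dvd_right (Subgroup.card_dvd_of_le hQM) hcopc
          exact this.eq_bot
        rw [hdis, sup_comm, htop] at hc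
        simp only [Subgroup.card_top, Subgroup.card_bot, mul_one] at hc
        have hG := hN.card_mul_card
        rw [← hNeq] at hG
        have h1 : Nat.card Q = Nat.card M₀ := by
          have h2 : Nat.card P * Nat.card Q = Nat.card P * Nat.card M₀ := by
            rw [← hc, ← hG, mul_comm]
          exact Nat.eq_of_mul_eq_mul_left Nat.card_pos h2
        have h3 : Q = M₀ := Subgroup.eq_of_le_of_card_ge hQM h1.ge
        apply hnil
        rw [← h3]
        exact hQs.2.1.isNilpotent
      have hXnil := hprop _ hXtop (hpP.trans (Subgroup.card_dvd_of_le le_sup_right))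
      exact CfsgLib.Trans.subgroup_commute_of_coprime hXnil (Subgroup.mem_sup_right hy)
        (Subgroup.mem_sup_left hsQ) (by
          have := hcopP (s : G) y hy (h8_ord_coprime hp (hQM hsQ) hpM₀)
          exact this.symm)
    have hcent := CfsgLib.Trans.eq_top_of_forall_sylow_le _ hcentS
    apply hPn
    have : Subgroup.normalizer ((P : Subgroup G) : Set G) = ⊤ := by
      apply top_le_iff.1
      rw [← hsup]
      refine sup_le ?_ Subgroup.le_normalizer
      intro m hm
      rw [Subgroup.mem_normalizer_iff]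
      intro y
      have hmc : (m : G) ∈ Subgroup.centralizer ((P : Subgroup G) : Set G) := by
        have : (⟨m, hm⟩ : M₀) ∈ (Subgroup.centralizer ((P : Subgroup G) : Set G)).subgroupOf M₀ := by
          rw [hcent]; trivial
        exact this
      rw [Subgroup.mem_centralizer_iff] at hmc
      constructor
      · intro hy
        have := hmc y hy
        rw [← this]; simpa using hy
      · intro hy
        have h4 := hmc _ hy
        have h6 : (m * y * m⁻¹) * m = m * (m * y * m⁻¹) := h4
        have h5 : y = m * y * m⁻¹ := by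
          calc y = m⁻¹ * ((m * y * m⁻¹) * m) := by group
            _ = m⁻¹ * (m * (m * y * m⁻¹)) := by rw [h6]
            _ = _ := by group
        rw [h5]; exact hy
    exact Subgroup.normalizer_eq_top_iff.1 this
  haveI := hPnormal
  have hdisP : ∀ X : Subgroup G, ¬ p ∣ Nat.card X → X ⊓ (P : Subgroup G) = ⊥ := by
    intro X hX
    have : Disjoint X (P : Subgroup G) := by
      apply Subgroup.disjoint_of_coprime_natCard
      rw [hk]
      exact Nat.Coprime.pow_right k ((Nat.Prime.coprime_iff_not_dvd hp).2 hX).symm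
    exact this.eq_bot
  have hcardsup : ∀ X : Subgroup G, ¬ p ∣ Nat.card X → Nat.card ↥(X ⊔ (P : Subgroup G)) = Nat.card X * Nat.card P := by
    intro X hX
    have h1 := CfsgLib.Solv.card_sup_mul_card_inf X (P : Subgroup G)
    rw [hdisP X hX] at h1
    simpa using h1
  have hGc : Nat.card G = Nat.card M₀ * Nat.card P := by
    have h1 := hcardsup M₀ hpM₀
    rw [hsup] at h1
    simpa using h1
  -- `M₀` centralizes `P`
  have hMc : ∀ x ∈ M₀, ∀ y ∈ (P : Subgroup G), x * y = y * x := by
    intro x hx y hy
    have hpx : ¬ p ∣ Nat.card (Subgroup.zpowers x) := by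
      rw [Nat.card_zpowers]
      intro h
      exact hpM₀ (h.trans (Subgroup.orderOf_dvd_natCard M₀ hx))
    have hXtop : Subgroup.zpowers x ⊔ (P : Subgroup G) ≠ ⊤ := by
      intro htop
      have h1 := hcardsup _ hpx
      rw [htop, Subgroup.card_top, hGc, Nat.card_zpowers] at h1
      have h2 : Nat.card M₀ = orderOf x := Nat.eq_of_mul_eq_mul_right Nat.card_pos h1
      have h3 : Subgroup.zpowers x = M₀ := by
        apply Subgroup.eq_of_le_of_card_ge
        · rw [Subgroup.zpowers_le]; exact hx
        · rw [Nat.card_zpowers, h2]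
      apply hnil
      rw [← h3]
      apply h8_nil_of_comm
      intro a b
      obtain ⟨i, hi⟩ := a.2
      obtain ⟨j, hj⟩ := b.2
      apply Subtype.ext
      show (a : G) * b = b * a
      rw [← hi, ← hj]
      simp only [← zpow_add]
      rw [add_comm]
    have hXnil := hprop _ hXtop (hpP.trans (Subgroup.card_dvd_of_le le_sup_right))
    exact CfsgLib.Trans.subgroup_commute_of_coprime hXnil (Subgroup.mem_sup_left (Subgroup.mem_zpowers x))
      (Subgroup.mem_sup_right hy) (hcopP x y hy (h8_ord_coprime hp hx hpM₀))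
  have hM₀n : M₀.Normal := by
    apply Subgroup.normalizer_eq_top_iff.1
    apply top_le_iff.1
    rw [← hsup]
    refine sup_le Subgroup.le_normalizer ?_
    intro y hy
    rw [Subgroup.mem_normalizer_iff]
    intro m
    constructor
    · intro hm
      have h1 := hMc m hm y hy
      have h2 : y * m * y⁻¹ = m := by rw [← h1]; group
      rw [h2]; exact hm
    · intro hm
      have h1 := hMc _ hm y hy
      have h2 : (y * m * y⁻¹) * y = y * (y * m * y⁻¹) := h1
      have h3 : m = y * m * y⁻¹ := by
        calc m = y⁻¹ * (y * m * y⁻¹ * y) := by group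
          _ = y⁻¹ * (y * (y * m * y⁻¹)) := by rw [h2]
          _ = _ := by group
      rw [h3]; exact hm
  haveI := hM₀n
  -- `|P| = p`
  have hPp : Nat.card P = p := by
    obtain ⟨u, hu⟩ := exists_prime_orderOf_dvd_card' p hpP
    have huG : orderOf (u : G) = p := by
      rw [← Subgroup.orderOf_coe] at hu
      exact hu
    have hDcard : Nat.card (Subgroup.zpowers (u : G)) = p := by rw [Nat.card_zpowers, huG]
    have hdis : Subgroup.zpowers (u : G) ⊓ M₀ = ⊥ := by
      have : Disjoint (Subgroup.zpowers (u : G)) M₀ := by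
        apply Subgroup.disjoint_of_coprime_natCard
        rw [hDcard]
        exact (Nat.Prime.coprime_iff_not_dvd hp).2 hpM₀
      exact this.eq_bot
    have h1 := CfsgLib.Solv.card_sup_mul_card_inf (Subgroup.zpowers (u : G)) M₀
    rw [hdis, hDcard] at h1
    simp only [Subgroup.card_bot, mul_one] at h1
    have hXtop : Subgroup.zpowers (u : G) ⊔ M₀ = ⊤ := by
      by_contra hne
      have hXnil := hprop _ hne (by
        rw [h1]; exact Dvd.intro _ rfl)
      exact hnil (h8_nil_le le_sup_right hXnil)
    rw [hXtop, Subgroup.card_top, hGc, mul_comm] at h1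
    exact Nat.eq_of_mul_eq_mul_right Nat.card_pos h1
  refine ⟨P, M₀, hPnormal, hM₀n, ?_, ?_, hPp, ⟨hnil, ?_⟩, hpM₀⟩
  · rw [inf_comm]; exact hdisP M₀ hpM₀
  · rw [sup_comm]; exact hsup
  · intro H hH
    obtain ⟨H', hH'⟩ : ∃ H' : Subgroup G, H' = H.map M₀.subtype := ⟨_, rfl⟩
    have hcH' : Nat.card H' = Nat.card H := by
      rw [hH']; exact Subgroup.card_map_of_injective M₀.subtype_injective
    have hH'le : H' ≤ M₀ := by rw [hH']; exact Subgroup.map_subtype_le H
    have hcH : Nat.card H < Nat.card M₀ := by
      refine lt_of_le_of_ne (Subgroup.card_le_card_group H) (fun h => hH ?_)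
      exact Subgroup.eq_top_of_card_eq H h
    have hpH' : ¬ p ∣ Nat.card H' := fun h => hpM₀ (h.trans (Subgroup.card_dvd_of_le hH'le))
    have hXtop : H' ⊔ (P : Subgroup G) ≠ ⊤ := by
      intro htop
      have h1 := hcardsup H' hpH'
      rw [htop, Subgroup.card_top, hGc, hcH'] at h1
      have h2 : Nat.card M₀ = Nat.card H := Nat.eq_of_mul_eq_mul_right Nat.card_pos h1
      omega
    have hXnil := hprop _ hXtop (hpP.trans (Subgroup.card_dvd_of_le le_sup_right))
    have hH'nil := h8_nil_le le_sup_left hXnil
    have e : H ≃* H' := by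
      rw [hH']
      exact H.equivMapOfInjective M₀.subtype M₀.subtype_injective
    exact Group.nilpotent_of_mulEquiv e.symm

/-- Let G be a finite group and p a prime dividing its order. Every maximal subgroup of G of order divisible by p is nilpotent if and only if G is nilpotent, or G is a minimal non-nilpotent group, or G is the internal direct product of a normal subgroup of order p and a normal minimal non-nilpotent subgroup of order prime to p. -/
theorem result {G : Type*} [Group G] [Finite G] (p : ℕ) (hp : p.Prime) (hpG : p ∣ Nat.card G) :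
    (∀ M : Subgroup G, IsCoatom M → p ∣ Nat.card M → Group.IsNilpotent M) ↔
      (Group.IsNilpotent G ∨ Cfsg.IsMinimalNonNilpotent G ∨
        ∃ Z K : Subgroup G, Z.Normal ∧ K.Normal ∧ Z ⊓ K = ⊥ ∧ Z ⊔ K = ⊤ ∧ Nat.card Z = p ∧
          Cfsg.IsMinimalNonNilpotent K ∧ ¬ p ∣ Nat.card K) := by
  classical
  haveI : Fact p.Prime := ⟨hp⟩
  constructor
  · intro hall
    by_cases hG : Group.IsNilpotent G
    · exact Or.inl hG
    by_cases hc : ∀ M : Subgroup G, IsCoatom M → Group.IsNilpotent M
    · refine Or.inr (Or.inl ⟨hG, fun H hH => ?_⟩)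
      obtain ⟨M, hM, hXM⟩ := (eq_top_or_exists_le_coatom H).resolve_left hH
      exact h8_nil_le hXM (hc M hM)
    · push Not at hc
      obtain ⟨M₀, hM₀, hnil⟩ := hc
      exact Or.inr (Or.inr (h8_key p hp hpG hall M₀ hM₀ hnil))
  · rintro (hG | hG | ⟨Z, K, hZ, hK, hinf, hsup, hcZ, hmin, hpK⟩) M hM hpM
    · haveI := hG
      infer_instance
    · exact hG.2 M hM.1
    · haveI := hZ
      haveI := hK
      have hZp : IsPGroup p Z := IsPGroup.of_card (n := 1) (by rw [hcZ, pow_one])
      have hc := CfsgLib.Solv.card_sup_mul_card_inf K Z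
      rw [inf_comm, hinf, sup_comm, hsup] at hc
      simp only [Subgroup.card_top, Subgroup.card_bot, mul_one] at hc
      have hZi : Z.index = Nat.card K := by
        have h1 := Subgroup.card_mul_index Z
        rw [hc, hcZ, mul_comm] at h1
        exact Nat.eq_of_mul_eq_mul_right hp.pos h1
      -- `Z ≤ M`
      have hZM : Z ≤ M := by
        obtain ⟨u, hu⟩ := exists_prime_orderOf_dvd_card' p hpM
        have huG : orderOf (u : G) = p := by
          rw [← Subgroup.orderOf_coe] at hu
          exact hu
        have huZ : (u : G) ∈ Z := by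
          apply CfsgLib.Trans.mem_of_coprime_index
          rw [huG, hZi]
          exact (Nat.Prime.coprime_iff_not_dvd hp).2 hpK
        have hZeq : Subgroup.zpowers (u : G) = Z := by
          apply Subgroup.eq_of_le_of_card_ge
          · rw [Subgroup.zpowers_le]; exact huZ
          · rw [Nat.card_zpowers, huG, hcZ]
        rw [← hZeq, Subgroup.zpowers_le]
        exact u.2
      have hcomm : ∀ z ∈ Z, ∀ k ∈ K, z * k = k * z := by
        intro z hz k hk
        have h1 : z * k * z⁻¹ * k⁻¹ ∈ Z := by
          have h2 : z * k * z⁻¹ * k⁻¹ = z * (k * z⁻¹ * k⁻¹) := by group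
          rw [h2]
          exact Z.mul_mem hz (hZ.conj_mem _ (Z.inv_mem hz) k)
        have h3 : z * k * z⁻¹ * k⁻¹ ∈ K := K.mul_mem (hK.conj_mem _ hk z) (K.inv_mem hk)
        have h4 : z * k * z⁻¹ * k⁻¹ ∈ Z ⊓ K := ⟨h1, h3⟩
        rw [hinf] at h4
        have h5 : z * k * z⁻¹ = k := mul_inv_eq_one.1 h4
        exact mul_inv_eq_iff_eq_mul.1 h5
      obtain ⟨K₁, hK₁⟩ : ∃ K₁ : Subgroup G, K₁ = M ⊓ K := ⟨_, rfl⟩
      have hK₁K : K₁ ≤ K := by rw [hK₁]; exact inf_le_right
      have hK₁ne : K₁.subgroupOf K ≠ ⊤ := by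
        intro h
        have h1 : K ≤ K₁ := Subgroup.subgroupOf_eq_top.1 h
        have h2 : K ≤ M := h1.trans (by rw [hK₁]; exact inf_le_left)
        apply hM.1
        rw [eq_top_iff, ← hsup]
        exact sup_le hZM h2
      have hK₁nil : Group.IsNilpotent K₁ := by
        have := hmin.2 _ hK₁ne
        exact Group.nilpotent_of_mulEquiv (Subgroup.subgroupOfEquivOfLe hK₁K)
      haveI := hK₁nil
      haveI : Group.IsNilpotent Z := hZp.isNilpotent
      let f : Z × K₁ →* G := MonoidHom.noncommCoprod Z.subtype K₁.subtype (fun a b => by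
        show (a : G) * b = b * a
        exact hcomm _ a.2 _ (hK₁K b.2))
      have hrange : Group.IsNilpotent f.range :=
        Group.nilpotent_of_surjective f.rangeRestrict f.rangeRestrict_surjective
      refine h8_nil_le ?_ hrange
      intro m hm
      have h1 : m ∈ Z ⊔ K := by rw [hsup]; trivial
      obtain ⟨z, hz, k, hk, rfl⟩ := Subgroup.mem_sup_of_normal_right.1 h1
      have hkM : k ∈ M := by
        have : k = z⁻¹ * (z * k) := by group
        rw [this]
        exact M.mul_mem (M.inv_mem (hZM hz)) hm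
      refine ⟨(⟨z, hz⟩, ⟨k, by rw [hK₁]; exact ⟨hkM, hk⟩⟩), rfl⟩

end Cfsg.Agent.S4242
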