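import Cfsg.Statements.S4244
import Cfsg.Agent.Lib.FGS.Elem
import Cfsg.Agent.Lib.PLocal.CardSup

set_option autoImplicit false
open Cfsg

namespace Cfsg.Agent.S4244

/-- Let H be a subnormal subgroup of a finite group G. Then for every subgroup K of G the index of H ∩ K in H divides the index of K in G. -/
theorem result {G : Type*} [Group G] [Finite G] (H : Subgroup G) (hH : H.IsSubnormal) (K : Subgroup G) :
    (H ⊓ K).relIndex H ∣ K.index := by
  induction hH with
  | top =>
    rw [top_inf_eq, Subgroup.relIndex_top_right]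
  | step H L hHL hLs hN ih =>
    set B := L ⊓ K with hB
    have hBL : B ≤ L := inf_le_left
    have hBnorm : B ≤ Subgroup.normalizer (H : Set G) :=
      hBL.trans ((Subgroup.normal_subgroupOf_iff_le_normalizer hHL).mp hN)
    have hc := CfsgLib.PLocal.card_sup_mul_card_inf B H hBnorm
    have h1 : B ⊓ H = H ⊓ K := by
      rw [hB, inf_comm L K, inf_assoc, inf_of_le_right hHL, inf_comm]
    rw [h1] at hc
    have hr := CfsgLib.FGS.card_mul_relIndex_of_le (inf_le_left : H ⊓ K ≤ H)
    have hs := CfsgLib.FGS.card_mul_relIndex_of_le (le_sup_left : B ≤ B ⊔ H)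
    have heq : (H ⊓ K).relIndex H = B.relIndex (B ⊔ H) := by
      have hp1 : 0 < Nat.card ↥(H ⊓ K) := Nat.card_pos
      have hp2 : 0 < Nat.card B := Nat.card_pos
      apply Nat.eq_of_mul_eq_mul_left (Nat.mul_pos hp1 hp2)
      calc Nat.card ↥(H ⊓ K) * Nat.card B * (H ⊓ K).relIndex H
          = Nat.card B * (Nat.card ↥(H ⊓ K) * (H ⊓ K).relIndex H) := by ring
        _ = Nat.card B * Nat.card H := by rw [hr]
        _ = Nat.card ↥(B ⊔ H) * Nat.card ↥(H ⊓ K) := hc.symm
        _ = (Nat.card B * B.relIndex (B ⊔ H)) * Nat.card ↥(H ⊓ K) := by rw [hs]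
        _ = Nat.card ↥(H ⊓ K) * Nat.card B * B.relIndex (B ⊔ H) := by ring
    rw [heq]
    have hsupL : B ⊔ H ≤ L := sup_le hBL hHL
    have h2 := Subgroup.relIndex_mul_relIndex B (B ⊔ H) L le_sup_left hsupL
    exact (Dvd.intro _ h2).trans ih

end Cfsg.Agent.S4244
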