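import Cfsg.Statements.S4250
import Cfsg.Agent.Lib.FGS.Alperin

set_option autoImplicit false
open Cfsg
open scoped commutatorElement

namespace Cfsg.Agent.S4250

/-- Let P be a Sylow p-subgroup of a finite group G. Call an intersection H = P ∩ Q with a Sylow p-subgroup Q tame when N_P(H) and N_Q(H) are Sylow p-subgroups of N_G(H). Then P ∩ G′ is generated by [P, N_G(P)] together with the commutator subgroups [P ∩ Q, ⟨x⟩] for all tame intersections P ∩ Q and all p-elements x of N_G(P ∩ Q). -/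
theorem result {G : Type*} [Group G] [Finite G] (p : ℕ) [Fact p.Prime] (P : Sylow p G) :
    (P : Subgroup G) ⊓ commutator G =
      ⁅(P : Subgroup G), Subgroup.normalizer ((P : Subgroup G) : Set G)⁆ ⊔
        ⨆ (Q : Sylow p G) (_ : (¬ p ∣ ((P : Subgroup G) ⊓ Subgroup.normalizer (((P : Subgroup G) ⊓ (Q : Subgroup G) : Subgroup G) : Set G)).relIndex (Subgroup.normalizer (((P : Subgroup G) ⊓ (Q : Subgroup G) : Subgroup G) : Set G)) ∧ ¬ p ∣ ((Q : Subgroup G) ⊓ Subgroup.normalizer (((P : Subgroup G) ⊓ (Q : Subgroup G) : Subgroup G) : Set G)).relIndex (Subgroup.normalizer (((P : Subgroup G) ⊓ (Q : Subgroup G) : Subgroup G) : Set G))))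
          (x : G) (_ : x ∈ Subgroup.normalizer (((P : Subgroup G) ⊓ (Q : Subgroup G) : Subgroup G) : Set G) ∧ ∃ k : ℕ, orderOf x = p ^ k),
          ⁅(P : Subgroup G) ⊓ (Q : Subgroup G), Subgroup.zpowers x⁆ := by
  classical
  apply le_antisymm
  · refine CfsgLib.FGS.alperin_focal P _ ?_ ?_
    · intro x hx n hn
      apply Subgroup.mem_sup_left
      have e : x⁻¹ * (n⁻¹ * x * n) = ⁅x⁻¹, n⁻¹⁆ := by
        rw [commutatorElement_def]; group
      rw [e]
      exact Subgroup.commutator_mem_commutator (Subgroup.inv_mem _ hx) (Subgroup.inv_mem _ hn)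
    · intro Q hQ y hy t ht htp
      apply Subgroup.mem_sup_right
      have e : y⁻¹ * (t⁻¹ * y * t) = ⁅y⁻¹, t⁻¹⁆ := by
        rw [commutatorElement_def]; group
      rw [e]
      refine Subgroup.mem_iSup_of_mem Q (Subgroup.mem_iSup_of_mem hQ (Subgroup.mem_iSup_of_mem t (Subgroup.mem_iSup_of_mem ⟨ht, htp⟩ ?_)))
      exact Subgroup.commutator_mem_commutator (Subgroup.inv_mem _ hy) (Subgroup.inv_mem _ (Subgroup.mem_zpowers t))
  · have hc : ∀ A B : Subgroup G, ⁅A, B⁆ ≤ commutator G := fun A B =>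
      Subgroup.commutator_mono le_top le_top
    refine sup_le (le_inf ?_ (hc _ _)) ?_
    · exact CfsgLib.Solv.commutator_le_of_normalizes le_rfl
    · refine iSup_le fun Q => iSup_le fun hQ => iSup_le fun x => iSup_le fun hx => ?_
      refine le_inf ?_ (hc _ _)
      have h1 : ⁅(P : Subgroup G) ⊓ (Q : Subgroup G), Subgroup.zpowers x⁆ ≤ (P : Subgroup G) ⊓ (Q : Subgroup G) :=
        CfsgLib.Solv.commutator_le_of_normalizes ((Subgroup.zpowers_le).2 hx.1)
      exact h1.trans inf_le_left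

end Cfsg.Agent.S4250
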