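import Cfsg.Statements.S4251
import Cfsg.Agent.Lib.FGS.Alperin
import Cfsg.Agent.Lib.Trans.Frob

set_option autoImplicit false
open Cfsg

namespace Cfsg.Agent.S4251

/-- Decomposition in a normalizer when the automizer is a `p`-group. -/
theorem h8_decomp {G : Type*} [Group G] [Finite G] {p : ℕ} [Fact p.Prime] (H T : Subgroup G)
    (hT : CfsgLib.Solv.IsSylowIn p T (Subgroup.normalizer (H : Set G)))
    (hq : ∃ k : ℕ, (Subgroup.centralizer (H : Set G)).relIndex (Subgroup.normalizer (H : Set G)) = p ^ k)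
    {n : G} (hn : n ∈ Subgroup.normalizer (H : Set G)) :
    ∃ u ∈ T, ∀ x ∈ H, n⁻¹ * x * n = u⁻¹ * x * u := by
  classical
  obtain ⟨k, hk⟩ := hq
  have h1 := CfsgLib.AlpGold.le_sup_of_relIndex_pow hk hT
  have hle : ∀ m ∈ Subgroup.centralizer (H : Set G) ⊔ T,
      m ∈ Subgroup.normalizer (H : Set G) ∧ ∃ u ∈ T, ∀ x ∈ H, m⁻¹ * x * m = u⁻¹ * x * u := by
    intro m hm
    rw [Subgroup.sup_eq_closure] at hm
    induction hm using Subgroup.closure_induction with
    | mem z hz =>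
      rcases hz with hz | hz
      · refine ⟨Subgroup.centralizer_le_normalizer _ hz, 1, T.one_mem, fun x hx => ?_⟩
        have := Subgroup.mem_centralizer_iff.1 hz x hx
        calc z⁻¹ * x * z = z⁻¹ * (x * z) := by group
          _ = z⁻¹ * (z * x) := by rw [this]
          _ = _ := by group
      · exact ⟨hT.1 hz, z, hz, fun _ _ => rfl⟩
    | one => exact ⟨Subgroup.one_mem _, 1, T.one_mem, fun _ _ => by simp⟩
    | mul a b _ _ ha hb =>
      obtain ⟨ha1, ua, hua, ha2⟩ := ha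
      obtain ⟨hb1, ub, hub, hb2⟩ := hb
      refine ⟨Subgroup.mul_mem _ ha1 hb1, ua * ub, T.mul_mem hua hub, fun x hx => ?_⟩
      have h2 : a⁻¹ * x * a ∈ H := by
        have := (Subgroup.mem_normalizer_iff.1 (Subgroup.inv_mem _ ha1) x).1 hx
        simpa using this
      have h3 := hb2 _ h2
      rw [ha2 x hx] at h3
      calc (a * b)⁻¹ * x * (a * b) = b⁻¹ * (a⁻¹ * x * a) * b := by group
        _ = b⁻¹ * (ua⁻¹ * x * ua) * b := by rw [ha2 x hx]
        _ = ub⁻¹ * (ua⁻¹ * x * ua) * ub := h3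
        _ = _ := by group
    | inv a _ ha =>
      obtain ⟨ha1, ua, hua, ha2⟩ := ha
      refine ⟨Subgroup.inv_mem _ ha1, ua⁻¹, T.inv_mem hua, fun x hx => ?_⟩
      have h2 : a * x * a⁻¹ ∈ H := (Subgroup.mem_normalizer_iff.1 ha1 x).1 hx
      have h3 := ha2 _ h2
      have e : a⁻¹ * (a * x * a⁻¹) * a = x := by group
      rw [e] at h3
      calc a⁻¹⁻¹ * x * a⁻¹ = a * x * a⁻¹ := by group
        _ = ua * (ua⁻¹ * (a * x * a⁻¹) * ua) * ua⁻¹ := by group
        _ = ua * x * ua⁻¹ := by rw [← h3]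
        _ = _ := by group
  exact (hle n (h1 hn)).2


/-- Let P be a Sylow p-subgroup of a finite group G. Call an intersection H = P ∩ Q with a Sylow p-subgroup Q tame when N_P(H) and N_Q(H) are Sylow p-subgroups of N_G(H). If N_G(H)/C_G(H) is a p-group for every nontrivial tame intersection H = P ∩ Q, then G has a normal p-complement. -/
theorem result {G : Type*} [Group G] [Finite G] (p : ℕ) [Fact p.Prime] (P : Sylow p G)
    (h : ∀ Q : Sylow p G, (P : Subgroup G) ⊓ (Q : Subgroup G) ≠ ⊥ → (¬ p ∣ ((P : Subgroup G) ⊓ Subgroup.normalizer (((P : Subgroup G) ⊓ (Q : Subgroup G) : Subgroup G) : Set G)).relIndex (Subgroup.normalizer (((P : Subgroup G) ⊓ (Q : Subgroup G) : Subgroup G) : Set G)) ∧ ¬ p ∣ ((Q : Subgroup G) ⊓ Subgroup.normalizer (((P : Subgroup G) ⊓ (Q : Subgroup G) : Subgroup G) : Set G)).relIndex (Subgroup.normalizer (((P : Subgroup G) ⊓ (Q : Subgroup G) : Subgroup G) : Set G))) →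
      IsPGroup p (Subgroup.normalizer (((P : Subgroup G) ⊓ (Q : Subgroup G) : Subgroup G) : Set G) ⧸
        (Subgroup.centralizer (((P : Subgroup G) ⊓ (Q : Subgroup G) : Subgroup G) : Set G)).subgroupOf
          (Subgroup.normalizer (((P : Subgroup G) ⊓ (Q : Subgroup G) : Subgroup G) : Set G)))) :
    Cfsg.HasNormalPComplement p G := by
  classical
  have hgen : ∀ Q : Sylow p G, CfsgLib.FGS.AlpTame p (P : Subgroup G) (Q : Subgroup G) →
      ∀ t ∈ Subgroup.normalizer (((P : Subgroup G) ⊓ (Q : Subgroup G) : Subgroup G) : Set G),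
      ∃ u ∈ (P : Subgroup G), ∀ x ∈ (P : Subgroup G) ⊓ (Q : Subgroup G), t⁻¹ * x * t = u⁻¹ * x * u := by
    intro Q hQ t ht
    by_cases hbot : (P : Subgroup G) ⊓ (Q : Subgroup G) = ⊥
    · refine ⟨1, Subgroup.one_mem _, fun x hx => ?_⟩
      rw [hbot, Subgroup.mem_bot] at hx
      simp [hx]
    · obtain ⟨k, hk⟩ := (h Q hbot hQ).exists_card_eq
      obtain ⟨u, hu, hu2⟩ := h8_decomp ((P : Subgroup G) ⊓ (Q : Subgroup G))
        ((P : Subgroup G) ⊓ Subgroup.normalizer (((P : Subgroup G) ⊓ (Q : Subgroup G) : Subgroup G) : Set G))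
        ⟨inf_le_right, P.isPGroup'.to_le inf_le_left, hQ.1⟩ ⟨k, hk⟩ ht
      exact ⟨u, hu.1, hu2⟩
  have hall := CfsgLib.FGS.alperin_abstract P
    (fun T g => ∃ u ∈ (P : Subgroup G), ∀ x ∈ T, g⁻¹ * x * g = u⁻¹ * x * u)
    (fun T => ⟨1, Subgroup.one_mem _, fun x _ => rfl⟩)
    (by
      rintro T S g₁ g₂ hTS ⟨u₁, hu₁, h1⟩ ⟨u₂, hu₂, h2⟩
      refine ⟨u₁ * u₂, Subgroup.mul_mem _ hu₁ hu₂, fun x hx => ?_⟩
      have h3 := h2 _ (hTS x hx)
      rw [h1 x hx] at h3
      calc (g₁ * g₂)⁻¹ * x * (g₁ * g₂) = g₂⁻¹ * (g₁⁻¹ * x * g₁) * g₂ := by group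
        _ = g₂⁻¹ * (u₁⁻¹ * x * u₁) * g₂ := by rw [h1 x hx]
        _ = u₂⁻¹ * (u₁⁻¹ * x * u₁) * u₂ := h3
        _ = _ := by group)
    (by
      rintro T T' g hT ⟨u, hu, h1⟩
      exact ⟨u, hu, fun x hx => h1 x (hT hx)⟩)
    (by
      intro n hn
      have hPinf : (P : Subgroup G) ⊓ (P : Subgroup G) = (P : Subgroup G) := inf_idem _
      have htame : CfsgLib.FGS.AlpTame p (P : Subgroup G) (P : Subgroup G) := by
        unfold CfsgLib.FGS.AlpTame
        rw [hPinf]
        have h1 : (P : Subgroup G) ⊓ Subgroup.normalizer ((P : Subgroup G) : Set G) = (P : Subgroup G) :=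
          inf_eq_left.2 Subgroup.le_normalizer
        rw [h1]
        have h2 : ¬ p ∣ (P : Subgroup G).relIndex (Subgroup.normalizer ((P : Subgroup G) : Set G)) := by
          intro hd
          apply P.not_dvd_index
          rw [← Subgroup.relIndex_mul_index (Subgroup.le_normalizer (H := (P : Subgroup G)))]
          exact Dvd.dvd.mul_right hd _
        exact ⟨h2, h2⟩
      have := hgen P htame n (by rw [hPinf]; exact hn)
      rw [hPinf] at this
      exact this)
    (fun Q hQ t ht _ => hgen Q hQ t ht)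
  obtain ⟨N, hN, hNP⟩ := (CfsgLib.Trans.frobenius_criterion P).2 (by
    intro Q₀ hQ₀ g hg hcop
    have hall2 := hall g
    obtain ⟨u, hu, hu2⟩ := hall2
    have hQD : ∀ x ∈ Q₀, x ∈ CfsgLib.FGS.alpD (P : Subgroup G) g := by
      intro x hx
      rw [CfsgLib.FGS.mem_alpD]
      refine ⟨hQ₀ hx, hQ₀ ?_⟩
      have := (Subgroup.mem_normalizer_iff.1 (Subgroup.inv_mem _ hg) x).1 hx
      simpa using this
    have hconj : ∀ x ∈ Q₀, g⁻¹ * x * g = u⁻¹ * x * u := fun x hx => hu2 x (hQD x hx)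
    have hgi : ∀ x ∈ Q₀, g⁻¹ * x * g ∈ Q₀ := by
      intro x hx
      have := (Subgroup.mem_normalizer_iff.1 (Subgroup.inv_mem _ hg) x).1 hx
      simpa using this
    have huN : u ∈ Subgroup.normalizer (Q₀ : Set G) := by
      have h1 : u⁻¹ ∈ Subgroup.normalizer (Q₀ : Set G) := by
        apply CfsgLib.FGS.mem_normalizer_of_conj_le
        intro x hx
        have := hgi x hx
        rw [hconj x hx] at this
        simpa using this
      simpa using Subgroup.inv_mem _ h1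
    -- compare the two automorphisms
    have hab : Q₀.normalizerMonoidHom ⟨g, hg⟩ = Q₀.normalizerMonoidHom ⟨u, huN⟩ := by
      rw [← inv_inj]
      ext x
      show g⁻¹ * (x : G) * g⁻¹⁻¹ = u⁻¹ * (x : G) * u⁻¹⁻¹
      rw [inv_inv, inv_inv]
      exact hconj x x.2
    obtain ⟨k, hk⟩ := IsPGroup.iff_orderOf.1 P.isPGroup' ⟨u, hu⟩
    have hok : orderOf u = p ^ k := by rw [← hk, Subgroup.orderOf_mk]
    have h1 : orderOf (Q₀.normalizerMonoidHom ⟨g, hg⟩) ∣ p ^ k := by
      rw [hab, ← hok]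
      have := orderOf_map_dvd (Q₀.normalizerMonoidHom) (⟨u, huN⟩ : Subgroup.normalizer (Q₀ : Set G))
      rwa [Subgroup.orderOf_mk] at this
    have h2 : orderOf (Q₀.normalizerMonoidHom ⟨g, hg⟩) ∣ orderOf g := by
      have := orderOf_map_dvd (Q₀.normalizerMonoidHom) (⟨g, hg⟩ : Subgroup.normalizer (Q₀ : Set G))
      rwa [Subgroup.orderOf_mk] at this
    have h3 : orderOf (Q₀.normalizerMonoidHom ⟨g, hg⟩) = 1 := by
      have hc : (orderOf g).Coprime (p ^ k) := Nat.Coprime.pow_right k hcop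
      exact Nat.dvd_one.1 (by
        have := Nat.dvd_gcd h2 h1
        rwa [hc] at this)
    have h4 := orderOf_eq_one_iff.1 h3
    rw [Subgroup.mem_centralizer_iff]
    intro x hx
    have h5 := congrArg (fun α : MulAut Q₀ => ((α ⟨x, hx⟩ : Q₀) : G)) h4
    have h6 : g * x * g⁻¹ = x := h5
    calc x * g = (g * x * g⁻¹) * g := by rw [h6]
      _ = g * x := by group)
  exact ⟨P, N, hN, hNP⟩

end Cfsg.Agent.S4251
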