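import Cfsg.Statements.S4252
import Cfsg.Agent.Lib.FGS.Elem

set_option autoImplicit false
open Cfsg

namespace Cfsg.Agent.S4252

/-- Let a finite group G act on a finite set Ω with more than one point, transitively but not regularly, so that no non-identity element of G fixes two distinct points. Then the stabilizer H of any point is a Frobenius complement in G (nontrivial, proper, meeting its other conjugates trivially), and the Frobenius kernel of G with respect to H (the identity together with the elements lying in no conjugate of H) is exactly the set consisting of the identity and the elements fixing no point. -/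
theorem result {G Ω : Type*} [Group G] [Finite G] [Fintype Ω] [MulAction G Ω] (hΩ : 1 < Fintype.card Ω)
    (htrans : ∀ α β : Ω, ∃ g : G, g • α = β) (hnreg : ∃ g : G, g ≠ 1 ∧ ∃ α : Ω, g • α = α)
    (hfix : ∀ g : G, g ≠ 1 → ∀ α β : Ω, g • α = α → g • β = β → α = β) (α : Ω) :
    Cfsg.IsFrobeniusComplement (MulAction.stabilizer G α) ∧
      Cfsg.frobeniusKernel (MulAction.stabilizer G α) = {g : G | g = 1 ∨ ∀ ω : Ω, g • ω ≠ ω} := by
  have hstab : ∀ g : G, (g ∈ MulAction.stabilizer G α ↔ g • α = α) := fun g => MulAction.mem_stabilizer_iff
  refine ⟨⟨?_, ?_, ?_⟩, ?_⟩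
  · -- nontrivial
    obtain ⟨g, hg1, ω, hω⟩ := hnreg
    obtain ⟨c, hc⟩ := htrans ω α
    intro hbot
    have : c * g * c⁻¹ ∈ MulAction.stabilizer G α := by
      rw [hstab, ← hc]
      simp [mul_smul, hω]
    rw [hbot, Subgroup.mem_bot] at this
    apply hg1
    have h2 : g = c⁻¹ * (c * g * c⁻¹) * c := by group
    rw [h2, this]; group
  · -- proper
    intro htop
    obtain ⟨β, hβ⟩ : ∃ β : Ω, β ≠ α := by
      by_contra hcon
      simp only [not_exists, not_not] at hcon
      have : Fintype.card Ω ≤ 1 := Fintype.card_le_one_iff.mpr (fun a b => by rw [hcon a, hcon b])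
      omega
    obtain ⟨c, hc⟩ := htrans α β
    have : c ∈ MulAction.stabilizer G α := htop ▸ Subgroup.mem_top c
    rw [hstab] at this
    exact hβ (hc.symm.trans this)
  · -- TI
    intro g hg
    rw [eq_bot_iff]
    intro x hxx
    obtain ⟨hx1, hx2⟩ := Subgroup.mem_inf.mp hxx
    rw [Subgroup.mem_bot]
    by_contra hx
    rw [CfsgLib.FGS.mem_conj_smul_iff, hstab] at hx2
    have hx1' : x • α = α := (hstab x).mp hx1
    have h3 : x • (g • α) = g • α := by
      have : x * g = g * (g⁻¹ * x * g) := by group
      rw [← mul_smul, this, mul_smul, hx2]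
    have := hfix x hx _ _ hx1' h3
    exact hg ((hstab g).mpr this.symm)
  · -- kernel
    ext x
    simp only [Cfsg.frobeniusKernel, Set.mem_ofPred_eq]
    constructor
    · rintro (h | h)
      · exact Or.inl h
      · right
        intro ω hω
        obtain ⟨c, hc⟩ := htrans α ω
        apply h c
        rw [CfsgLib.FGS.mem_conj_smul_iff, hstab]
        rw [mul_smul, mul_smul, hc, hω]
        simp [← hc]
    · rintro (h | h)
      · exact Or.inl h
      · right
        intro c hc
        rw [CfsgLib.FGS.mem_conj_smul_iff, hstab] at hc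
        apply h (c • α)
        have : x * c = c * (c⁻¹ * x * c) := by group
        rw [← mul_smul, this, mul_smul, hc]

end Cfsg.Agent.S4252
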