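import Cfsg.Statements.S4253
import Cfsg.Agent.Lib.FGS.Elem

set_option autoImplicit false
open Cfsg

namespace Cfsg.Agent.S4253

/-- Let H be a Frobenius complement in a finite group G (a nontrivial proper subgroup meeting each conjugate gHg⁻¹ with g outside H trivially). Then in the action of G on the left cosets of H by left multiplication, no non-identity element of G fixes two distinct cosets. -/
theorem result {G : Type*} [Group G] [Finite G] (H : Subgroup G) (hH : Cfsg.IsFrobeniusComplement H)
    (g : G) (hg : g ≠ 1) (a b : G ⧸ H) (ha : g • a = a) (hb : g • b = b) : a = b := by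
  obtain ⟨hb1, hb2, hb3⟩ := hH
  induction a using QuotientGroup.induction_on with | _ x =>
  induction b using QuotientGroup.induction_on with | _ y =>
  rw [MulAction.Quotient.smul_coe, QuotientGroup.eq] at ha hb
  rw [QuotientGroup.eq]
  by_contra hw
  have h1 := hb3 _ hw
  have hu : x⁻¹ * g * x ∈ H := by
    have := H.inv_mem ha
    simpa [smul_eq_mul, mul_assoc] using this
  have hv : y⁻¹ * g * y ∈ H := by
    have := H.inv_mem hb
    simpa [smul_eq_mul, mul_assoc] using this
  have hmem : x⁻¹ * g * x ∈ (⊥ : Subgroup G) := by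
    rw [← h1]
    refine Subgroup.mem_inf.mpr ⟨hu, ?_⟩
    rw [CfsgLib.FGS.mem_conj_smul_iff]
    have : (x⁻¹ * y)⁻¹ * (x⁻¹ * g * x) * (x⁻¹ * y) = y⁻¹ * g * y := by group
    rwa [this]
  rw [Subgroup.mem_bot] at hmem
  apply hg
  have : g = x * (x⁻¹ * g * x) * x⁻¹ := by group
  rw [this, hmem]
  group

end Cfsg.Agent.S4253
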