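import Cfsg.Statements.S4260
import Cfsg.Agent.Lib.FGS.Elem

set_option autoImplicit false
open Cfsg

namespace Cfsg.Agent.S4260

/-- Let H be a Hall subgroup of a finite group G (the order of H is coprime to its index) such that x^[G : H] lies in H for every x in G. Then H is normal in G. -/
theorem result {G : Type*} [Group G] [Finite G] (H : Subgroup G) (hHall : (Nat.card H).Coprime H.index)
    (hexp : ∀ x : G, x ^ H.index ∈ H) : H.Normal := by
  constructor
  intro n hn g
  -- the conjugate `x` of `n`
  set x := g * n * g⁻¹ with hx
  have hord : orderOf x = orderOf n := CfsgLib.FGS.orderOf_conj_eq n g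
  have hdvd : orderOf n ∣ Nat.card H := Subgroup.orderOf_dvd_natCard H hn
  have hcop : Nat.Coprime (orderOf x) H.index := by
    rw [hord]
    exact Nat.Coprime.coprime_dvd_left hdvd hHall
  have h1 : x ^ H.index ∈ H := hexp x
  obtain ⟨m, hm⟩ := exists_pow_eq_self_of_coprime hcop.symm
  rw [← hm]
  exact H.pow_mem h1 m

end Cfsg.Agent.S4260
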