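import Cfsg.Statements.S4261
import Cfsg.Agent.Lib.FGS.Cyc
import Cfsg.Agent.Lib.Solv.Misc
import Cfsg.Agent.Lib.Solv.PGroup

set_option autoImplicit false
open Cfsg

namespace Cfsg.Agent.S4261

/-- Let M be a maximal subgroup of a finite solvable group G such that x^[G : M] lies in M for every x in G. Then M is normal in G. -/
theorem result {G : Type*} [Group G] [Finite G] (hG : Group.IsSolvable G) (M : Subgroup G) (hM : IsCoatom M)
    (hexp : ∀ x : G, x ^ M.index ∈ M) : M.Normal := by
  classical
  haveI := hG
  obtain ⟨p, k, hp, hk, hn⟩ := CfsgLib.Solv.isPrimePow_index_of_coatom _ G rfl M hM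
  have hpp : p.Prime := hp.nat_prime
  haveI := Fact.mk hpp
  have hcopM : ∀ x : G, (orderOf x).Coprime p → x ∈ M := by
    intro x hx
    have h1 := hexp x
    rw [← hn] at h1
    have h2 : x ∈ Subgroup.zpowers (x ^ p ^ k) := by
      rw [mem_zpowers_pow_iff]
      exact (hx.symm.pow_left k)
    exact (Subgroup.zpowers_le.mpr h1) h2
  set R := M.normalCore with hR
  have hcopR : ∀ x : G, (orderOf x).Coprime p → x ∈ R := by
    intro x hx
    show ∀ g : G, g * x * g⁻¹ ∈ M
    intro g
    apply hcopM
    have : orderOf (g * x * g⁻¹) = orderOf x := (MulAut.conj g).orderOf_eq x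
    rwa [this]
  set π : G →* G ⧸ R := QuotientGroup.mk' R with hπ
  have hπs : Function.Surjective π := QuotientGroup.mk'_surjective R
  have hker : π.ker = R := QuotientGroup.ker_mk' R
  have hQ : IsPGroup p (G ⧸ R) := by
    intro q
    obtain ⟨x, rfl⟩ := hπs q
    obtain ⟨s, t, -, -, hxst, -, ⟨m, hm⟩, ht⟩ := CfsgLib.FGS.exists_primary_decomp p hpp x
    refine ⟨m, ?_⟩
    have h1 : π t = 1 := by
      rw [← MonoidHom.mem_ker, hker]
      exact hcopR t ht
    rw [hxst, map_mul, h1, mul_one, ← map_pow, ← hm, pow_orderOf_eq_one, map_one]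
  have hRM : R ≤ M := Subgroup.normalCore_le M
  have hkerM : π.ker ≤ M := by rw [hker]; exact hRM
  have hMcoat : IsCoatom (M.map π) := by
    constructor
    · intro h
      apply hM.1
      have h2 := Subgroup.comap_map_eq_self hkerM
      rw [h, Subgroup.comap_top] at h2
      exact h2.symm
    · intro B hB
      have hlt : M < B.comap π := by
        refine lt_of_le_of_ne (fun x hx => hB.le ⟨x, hx, rfl⟩) ?_
        intro h
        apply hB.ne
        have h5 := congrArg (Subgroup.map π) h
        rwa [Subgroup.map_comap_eq_self_of_surjective hπs] at h5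
      have h3 := hM.2 _ hlt
      rw [← Subgroup.map_comap_eq_self_of_surjective hπs B, h3, Subgroup.map_top_of_surjective _ hπs]
  have hnorm := (CfsgLib.Solv.coatom_of_pgroup hQ hMcoat).1
  have h2 := Subgroup.comap_map_eq_self hkerM
  rw [← h2]
  exact Subgroup.Normal.comap hnorm π

end Cfsg.Agent.S4261
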