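import Cfsg.Statements.S4269
import Cfsg.Agent.Lib.FGS.Basic

set_option autoImplicit false
open Cfsg
open scoped commutatorElement
open scoped Pointwise

namespace Cfsg.Agent.S4269

theorem h8_sup_mul {G : Type*} [Group G] (C H : Subgroup G)
    (hn : ∀ h ∈ H, ∀ c ∈ C, h * c * h⁻¹ ∈ C) :
    ∀ y ∈ H ⊔ C, ∃ c ∈ C, ∃ h ∈ H, y = c * h := by
  intro y hy
  rw [Subgroup.sup_eq_closure] at hy
  induction hy using Subgroup.closure_induction with
  | mem x hx =>
    rcases hx with hx | hx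
    · exact ⟨1, C.one_mem, x, hx, by simp⟩
    · exact ⟨x, hx, 1, H.one_mem, by simp⟩
  | one => exact ⟨1, C.one_mem, 1, H.one_mem, by simp⟩
  | mul x y _ _ hx hy =>
    obtain ⟨c, hc, h, hh, rfl⟩ := hx
    obtain ⟨c', hc', h', hh', rfl⟩ := hy
    exact ⟨c * (h * c' * h⁻¹), C.mul_mem hc (hn h hh c' hc'), h * h', H.mul_mem hh hh', by group⟩
  | inv x _ hx =>
    obtain ⟨c, hc, h, hh, rfl⟩ := hx
    refine ⟨h⁻¹ * c⁻¹ * h⁻¹⁻¹, hn _ (H.inv_mem hh) _ (C.inv_mem hc), h⁻¹, H.inv_mem hh, by group⟩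

theorem h8_map_conj_self {G : Type*} [Group G] (H : Subgroup G) (h : G) (hh : h ∈ H) :
    H.map (MulAut.conj h).toMonoidHom = H := by
  apply le_antisymm
  · rintro _ ⟨a, ha, rfl⟩
    exact H.mul_mem (H.mul_mem hh ha) (H.inv_mem hh)
  · intro x hx
    refine ⟨h⁻¹ * x * h, H.mul_mem (H.mul_mem (H.inv_mem hh) hx) hh, ?_⟩
    show h * (h⁻¹ * x * h) * h⁻¹ = x
    group

theorem h8_map_conj_mul {G : Type*} [Group G] (H : Subgroup G) (c h : G)
    (hh : h ∈ Subgroup.normalizer (H : Set G)) :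
    H.map (MulAut.conj (c * h)).toMonoidHom = H.map (MulAut.conj c).toMonoidHom := by
  rw [Subgroup.mem_normalizer_iff] at hh
  apply le_antisymm
  · rintro _ ⟨a, ha, rfl⟩
    refine ⟨h * a * h⁻¹, (hh a).1 ha, ?_⟩
    show c * (h * a * h⁻¹) * c⁻¹ = (c * h) * a * (c * h)⁻¹
    group
  · rintro _ ⟨a, ha, rfl⟩
    refine ⟨h⁻¹ * a * h, (hh _).2 (by
      have : h * (h⁻¹ * a * h) * h⁻¹ = a := by group
      rw [this]; exact ha), ?_⟩
    show (c * h) * (h⁻¹ * a * h) * (c * h)⁻¹ = c * a * c⁻¹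
    group


/-- Let G be a finite group, V an abelian normal subgroup and H a subgroup with HV = G. Then H is pronormal in G (H and gHg⁻¹ are conjugate inside the subgroup they generate, for every g) if and only if every H-invariant subgroup U of V satisfies U = N_U(H)·[H, U], that is, U is the join of U ∩ N_G(H) and the commutator subgroup [H, U]. -/
theorem result {G : Type*} [Group G] [Finite G]
    (V : Subgroup G) [V.Normal] (hV : IsMulCommutative ↥V) (H : Subgroup G) (hHV : H ⊔ V = ⊤) :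
    Cfsg.IsPronormal H ↔
      ∀ U : Subgroup G, U ≤ V → (∀ h ∈ H, U.map (MulAut.conj h).toMonoidHom = U) →
        U = (U ⊓ Subgroup.normalizer (H : Set G)) ⊔ ⁅H, U⁆ := by
  classical
  have hVc : ∀ x ∈ V, ∀ y ∈ V, x * y = y * x := by
    intro x hx y hy
    have := hV.is_comm.comm ⟨x, hx⟩ ⟨y, hy⟩
    exact congrArg Subtype.val this
  constructor
  · intro hpron U hUV hUinv
    have hUc : ∀ h ∈ H, ∀ u ∈ U, h * u * h⁻¹ ∈ U := by
      intro h hh u hu
      have : (MulAut.conj h).toMonoidHom u ∈ U.map (MulAut.conj h).toMonoidHom := ⟨u, hu, rfl⟩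
      rw [hUinv h hh] at this
      exact this
    obtain ⟨C, hC⟩ : ∃ C : Subgroup G, C = ⁅H, U⁆ := ⟨_, rfl⟩
    rw [← hC]
    have hCU : C ≤ U := by
      rw [hC, Subgroup.commutator_le]
      intro h hh u hu
      rw [commutatorElement_def]
      exact U.mul_mem (hUc h hh u hu) (U.inv_mem hu)
    have hnC : ∀ h ∈ H, ∀ c ∈ C, h * c * h⁻¹ ∈ C := by
      intro h hh c hc
      have h1 : C.map (MulAut.conj h).toMonoidHom = C := by
        rw [hC, Subgroup.map_commutator, h8_map_conj_self H h hh, hUinv h hh]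
      have : (MulAut.conj h).toMonoidHom c ∈ C.map (MulAut.conj h).toMonoidHom := ⟨c, hc, rfl⟩
      rw [h1] at this
      exact this
    apply le_antisymm
    · intro u hu
      obtain ⟨x, hx, hxeq⟩ := hpron u
      have hle : H ⊔ H.map (MulAut.conj u).toMonoidHom ≤ H ⊔ C := by
        refine sup_le le_sup_left ?_
        rintro _ ⟨h, hh, rfl⟩
        have h1 : (MulAut.conj u).toMonoidHom h = (⁅h, u⁆)⁻¹ * h := by
          show u * h * u⁻¹ = _
          rw [commutatorElement_def]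
          group
        rw [h1]
        refine Subgroup.mul_mem _ (Subgroup.mem_sup_right (C.inv_mem ?_)) (Subgroup.mem_sup_left hh)
        rw [hC]
        exact Subgroup.commutator_mem_commutator hh hu
      obtain ⟨c, hc, h, hh, rfl⟩ := h8_sup_mul C H hnC x (hle hx)
      have h2 : H.map (MulAut.conj u).toMonoidHom = H.map (MulAut.conj c).toMonoidHom := by
        rw [hxeq]
        exact h8_map_conj_mul H c h (Subgroup.le_normalizer hh)
      have hnU : c⁻¹ * u ∈ U := U.mul_mem (U.inv_mem (hCU hc)) hu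
      have hnN : c⁻¹ * u ∈ Subgroup.normalizer (H : Set G) := by
        rw [Subgroup.mem_normalizer_iff]
        intro z
        constructor
        · intro hz
          have h3 : (MulAut.conj u).toMonoidHom z ∈ H.map (MulAut.conj u).toMonoidHom := ⟨z, hz, rfl⟩
          rw [h2] at h3
          obtain ⟨w, hw, hw2⟩ := h3
          replace hw2 : c * w * c⁻¹ = u * z * u⁻¹ := hw2
          have : c⁻¹ * u * z * (c⁻¹ * u)⁻¹ = w := by
            calc c⁻¹ * u * z * (c⁻¹ * u)⁻¹ = c⁻¹ * (u * z * u⁻¹) * c := by group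
              _ = c⁻¹ * (c * w * c⁻¹) * c := by rw [hw2]
              _ = w := by group
          rw [this]
          exact hw
        · intro hz
          have h3 : (MulAut.conj c).toMonoidHom (c⁻¹ * u * z * (c⁻¹ * u)⁻¹) ∈ H.map (MulAut.conj c).toMonoidHom := ⟨_, hz, rfl⟩
          rw [← h2] at h3
          obtain ⟨w, hw, hw2⟩ := h3
          replace hw2 : u * w * u⁻¹ = c * (c⁻¹ * u * z * (c⁻¹ * u)⁻¹) * c⁻¹ := hw2
          have h4 : u * w * u⁻¹ = u * z * u⁻¹ := by
            rw [hw2]; group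
          have h5 : w = z := by
            have := congrArg (fun y => u⁻¹ * y * u) h4
            simpa [mul_assoc] using this
          rw [← h5]
          exact hw
      have h6 : u = c * (c⁻¹ * u) := by group
      rw [h6]
      exact Subgroup.mul_mem _ (Subgroup.mem_sup_right hc) (Subgroup.mem_sup_left ⟨hnU, hnN⟩)
    · exact sup_le inf_le_left hCU
  · intro hall g
    have hg : g ∈ H ⊔ V := by rw [hHV]; trivial
    obtain ⟨h0, hh0, v0, hv0, rfl⟩ := Subgroup.mem_sup_of_normal_right.1 hg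
    -- rewrite as `v * h`
    obtain ⟨v, hv⟩ : ∃ v, v = h0 * v0 * h0⁻¹ := ⟨_, rfl⟩
    have hvV : v ∈ V := by rw [hv]; exact (‹V.Normal›).conj_mem v0 hv0 h0
    have hgeq : h0 * v0 = v * h0 := by rw [hv]; group
    rw [hgeq]
    have hmapg : H.map (MulAut.conj (v * h0)).toMonoidHom = H.map (MulAut.conj v).toMonoidHom :=
      h8_map_conj_mul H v h0 (Subgroup.le_normalizer hh0)
    rw [hmapg]
    obtain ⟨U, hU⟩ : ∃ U : Subgroup G, U = Subgroup.closure {x | ∃ h ∈ H, x = h * v * h⁻¹} := ⟨_, rfl⟩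
    have hUV : U ≤ V := by
      rw [hU, Subgroup.closure_le]
      rintro _ ⟨h, _, rfl⟩
      exact (‹V.Normal›).conj_mem v hvV h
    have hvU : v ∈ U := by
      rw [hU]
      exact Subgroup.subset_closure ⟨1, H.one_mem, by simp⟩
    have hUinv : ∀ h ∈ H, U.map (MulAut.conj h).toMonoidHom = U := by
      have hle : ∀ h ∈ H, U.map (MulAut.conj h).toMonoidHom ≤ U := by
        intro h hh
        rw [hU, MonoidHom.map_closure, Subgroup.closure_le]
        rintro _ ⟨_, ⟨k, hk, rfl⟩, rfl⟩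
        refine Subgroup.subset_closure ⟨h * k, H.mul_mem hh hk, ?_⟩
        show h * (k * v * k⁻¹) * h⁻¹ = _
        group
      intro h hh
      apply le_antisymm (hle h hh)
      intro u hu
      have h1 := hle h⁻¹ (H.inv_mem hh) ⟨u, hu, rfl⟩
      exact ⟨_, h1, by
        show h * (h⁻¹ * u * h⁻¹⁻¹) * h⁻¹ = u
        group⟩
    have hdec := hall U hUV hUinv
    obtain ⟨C, hC⟩ : ∃ C : Subgroup G, C = ⁅H, U⁆ := ⟨_, rfl⟩
    rw [← hC] at hdec
    have hUc : ∀ h ∈ H, ∀ u ∈ U, h * u * h⁻¹ ∈ U := by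
      intro h hh u hu
      have : (MulAut.conj h).toMonoidHom u ∈ U.map (MulAut.conj h).toMonoidHom := ⟨u, hu, rfl⟩
      rw [hUinv h hh] at this
      exact this
    have hCU : C ≤ U := by
      rw [hC, Subgroup.commutator_le]
      intro h hh u hu
      rw [commutatorElement_def]
      exact U.mul_mem (hUc h hh u hu) (U.inv_mem hu)
    have hv2 : v ∈ (U ⊓ Subgroup.normalizer (H : Set G)) ⊔ C := by rw [← hdec]; exact hvU
    obtain ⟨c, hc, n, hn, hvn⟩ := h8_sup_mul C (U ⊓ Subgroup.normalizer (H : Set G)) (by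
      intro a ha c hc
      have h1 := hVc a (hUV ha.1) c (hUV (hCU hc))
      rw [h1]
      simpa using hc) v hv2
    have hmapv : H.map (MulAut.conj v).toMonoidHom = H.map (MulAut.conj c).toMonoidHom := by
      rw [hvn]
      exact h8_map_conj_mul H c n hn.2
    refine ⟨c, ?_, hmapv⟩
    -- `[H, U]` lies in the join
    obtain ⟨K, hK⟩ : ∃ K : Subgroup G, K = H ⊔ H.map (MulAut.conj v).toMonoidHom := ⟨_, rfl⟩
    rw [← hK]
    have hHK : H ≤ K := by rw [hK]; exact le_sup_left
    have hHvK : ∀ a ∈ H, v * a * v⁻¹ ∈ K := by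
      intro a ha
      rw [hK]
      exact Subgroup.mem_sup_right ⟨a, ha, rfl⟩
    have hCK : C ≤ K := by
      rw [hC, Subgroup.commutator_le]
      intro h hh u hu
      rw [hU] at hu
      induction hu using Subgroup.closure_induction with
      | mem x hx =>
        obtain ⟨k, hk, rfl⟩ := hx
        rw [commutatorElement_def]
        have h1 : h * (k * v * k⁻¹) * h⁻¹ * (k * v * k⁻¹)⁻¹ =
            k * ((k⁻¹ * h * k) * (v * (k⁻¹ * h * k)⁻¹ * v⁻¹)) * k⁻¹ := by group
        rw [h1]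
        have hk1 : k⁻¹ * h * k ∈ H := H.mul_mem (H.mul_mem (H.inv_mem hk) hh) hk
        exact K.mul_mem (K.mul_mem (hHK hk) (K.mul_mem (hHK hk1) (hHvK _ (H.inv_mem hk1)))) (hHK (H.inv_mem hk))
      | one =>
        simp
      | mul x y hx hy ihx ihy =>
        have hxV : x ∈ V := hUV (hU ▸ hx)
        have hyV : y ∈ V := hUV (hU ▸ hy)
        have h1 : ⁅h, x * y⁆ = ⁅h, y⁆ * ⁅h, x⁆ := by
          simp only [commutatorElement_def]
          have hhx : h * x * h⁻¹ ∈ V := (‹V.Normal›).conj_mem x hxV h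
          have hhy : h * y * h⁻¹ ∈ V := (‹V.Normal›).conj_mem y hyV h
          have e1 : h * (x * y) * h⁻¹ * (x * y)⁻¹ = (h * x * h⁻¹) * ((h * y * h⁻¹) * y⁻¹) * x⁻¹ := by group
          have e2 : (h * x * h⁻¹) * ((h * y * h⁻¹) * y⁻¹) = ((h * y * h⁻¹) * y⁻¹) * (h * x * h⁻¹) :=
            hVc _ hhx _ (V.mul_mem hhy (V.inv_mem hyV))
          rw [e1, e2]
          group
        rw [h1]
        exact K.mul_mem ihy ihx
      | inv x hx ih =>
        have hxV : x ∈ V := hUV (hU ▸ hx)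
        have h1 : ⁅h, x⁻¹⁆ = ⁅h, x⁆⁻¹ := by
          simp only [commutatorElement_def]
          have hhx : h * x * h⁻¹ ∈ V := (‹V.Normal›).conj_mem x hxV h
          have e2 : (h * x⁻¹ * h⁻¹) * x = x * (h * x⁻¹ * h⁻¹) := by
            have h2 : h * x⁻¹ * h⁻¹ = (h * x * h⁻¹)⁻¹ := by group
            rw [h2]
            exact hVc _ (V.inv_mem hhx) _ hxV
          calc h * x⁻¹ * h⁻¹ * x⁻¹⁻¹ = (h * x⁻¹ * h⁻¹) * x := by rw [inv_inv]
            _ = x * (h * x⁻¹ * h⁻¹) := e2
            _ = _ := by group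
        rw [h1]
        exact K.inv_mem ih
    exact hCK hc

end Cfsg.Agent.S4269
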