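import Cfsg.Statements.S4303
import Cfsg.Agent.Lib.FGS.SylCount

set_option autoImplicit false
universe u
open Cfsg

namespace Cfsg.Agent.S4303

theorem h8_mem_norm_of_commute {G : Type*} [Group G] {A : Subgroup G} {u : G}
    (h : ∀ x ∈ A, u * x = x * u) : u ∈ Subgroup.normalizer (A : Set G) := by
  rw [Subgroup.mem_normalizer_iff]
  intro x
  constructor
  · intro hx
    have : u * x * u⁻¹ = x := by rw [h x hx]; group
    rwa [this]
  · intro hx
    have hx' : u * x * u⁻¹ ∈ A := hx
    have h10 := h _ hx'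
    have h11 : u * x * u⁻¹ = x := by
      apply mul_left_cancel (a := u)
      rw [h10]; group
    rwa [h11] at hx'

theorem h8_card_eq {G : Type*} [Group G] [Finite G] {A B : Subgroup G} (hle : A ≤ B) :
    Nat.card B = A.relIndex B * Nat.card A := by
  have h1 := (A.subgroupOf B).index_mul_card
  rw [Nat.card_congr (Subgroup.subgroupOfEquivOfLe hle).toEquiv] at h1
  exact h1.symm

theorem h8_mem_norm_inf {G : Type*} [Group G] {A B : Subgroup G} {x : G}
    (ha : x ∈ Subgroup.normalizer (A : Set G)) (hb : x ∈ Subgroup.normalizer (B : Set G)) :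
    x ∈ Subgroup.normalizer ((A ⊓ B : Subgroup G) : Set G) := by
  rw [Subgroup.mem_normalizer_iff] at ha hb ⊢
  intro h
  rw [Subgroup.mem_inf, Subgroup.mem_inf]
  exact and_congr (ha h) (hb h)

/-- The complement case: the primary parts of the Sylow number are `≡ 1`. -/
theorem h8_complement {G : Type u} [Group G] [Finite G] (p : ℕ) [Fact p.Prime] (K : Subgroup G) [K.Normal]
    (P : Sylow p G) (h1 : (P : Subgroup G) ⊓ K = ⊥) (h2 : (P : Subgroup G) ⊔ K = ⊤) {q : ℕ} (hq : q.Prime) :
    q ^ (Nat.card (Sylow p G)).factorization q ≡ 1 [MOD p] := by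
  classical
  haveI : Fact q.Prime := ⟨hq⟩
  have hpp : p.Prime := Fact.out
  have hnm : Nat.card (Sylow p G) ≡ 1 [MOD p] := card_sylow_modEq_one p G
  have hnpd : ¬ p ∣ Nat.card (Sylow p G) := by
    intro hd
    have h3 : (Nat.card (Sylow p G)).gcd p = (1).gcd p := hnm.gcd_eq
    rw [Nat.gcd_eq_right hd] at h3
    simp at h3
    exact hpp.one_lt.ne' h3
  by_cases hqp : q = p
  · subst hqp
    rw [Nat.factorization_eq_zero_of_not_dvd hnpd]
    simp [Nat.ModEq]
  have hKnorm : ∀ x : G, x ∈ Subgroup.normalizer (K : Set G) := by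
    intro x
    rw [Subgroup.normalizer_eq_top K]; trivial
  -- |G| = |P||K|
  have hG : Nat.card G = Nat.card (P : Subgroup G) * Nat.card K := by
    have := CfsgLib.PLocal.card_sup_mul_card_inf (P : Subgroup G) K (fun x _ => hKnorm x)
    rw [h1, h2] at this
    simpa using this
  have hKcop : (Nat.card (P : Subgroup G)).Coprime (Nat.card K) := by
    obtain ⟨r, hr⟩ := (IsPGroup.iff_card).1 P.isPGroup'
    rw [hr]
    apply Nat.Coprime.pow_left
    rw [Nat.Prime.coprime_iff_not_dvd hpp]
    intro hd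
    apply P.not_dvd_index
    have h3 := (P : Subgroup G).index_mul_card
    rw [hG] at h3
    have h4 : (P : Subgroup G).index = Nat.card K := by
      have hpos : 0 < Nat.card (P : Subgroup G) := Nat.card_pos
      apply Nat.eq_of_mul_eq_mul_right hpos
      rw [h3]; ring
    rw [h4]; exact hd
  obtain ⟨C, hC⟩ : ∃ C : Subgroup G, C = K ⊓ Subgroup.centralizer ((P : Subgroup G) : Set G) := ⟨_, rfl⟩
  have hCK : C ≤ K := by rw [hC]; exact inf_le_left
  have hCP : ∀ x ∈ C, ∀ u ∈ (P : Subgroup G), u * x = x * u := by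
    intro x hx u hu
    rw [hC] at hx
    exact Subgroup.mem_centralizer_iff.1 hx.2 u hu
  -- the normalizer in K is C
  have hNC : ∀ x ∈ K, x ∈ Subgroup.normalizer (((P : Subgroup G)) : Set G) → x ∈ C := by
    intro x hxK hxN
    rw [hC]
    refine ⟨hxK, ?_⟩
    show x ∈ Subgroup.centralizer ((P : Subgroup G) : Set G)
    rw [Subgroup.mem_centralizer_iff]
    intro u hu
    have hcm : x * u * x⁻¹ * u⁻¹ ∈ (P : Subgroup G) ⊓ K := by
      constructor
      · exact (P : Subgroup G).mul_mem ((Subgroup.mem_normalizer_iff.1 hxN u).1 hu) ((P : Subgroup G).inv_mem hu)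
      · have h5 := ‹K.Normal›.conj_mem x⁻¹ (K.inv_mem hxK) u
        have h6 : x * u * x⁻¹ * u⁻¹ = x * (u * x⁻¹ * u⁻¹) := by group
        rw [h6]
        exact K.mul_mem hxK h5
    rw [h1, Subgroup.mem_bot] at hcm
    have h7 := mul_inv_eq_one.1 hcm
    have h8 : x * u = u * x := mul_inv_eq_iff_eq_mul.1 h7
    exact h8.symm
  have hNPC : Subgroup.normalizer (((P : Subgroup G)) : Set G) = (P : Subgroup G) ⊔ C := by
    apply le_antisymm
    · intro x hx
      have hx2 : x ∈ (P : Subgroup G) ⊔ K := by rw [h2]; trivial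
      rw [← SetLike.mem_coe, Subgroup.mul_normal, Set.mem_mul] at hx2
      obtain ⟨u, hu, k, hk, rfl⟩ := hx2
      refine Subgroup.mul_mem _ (Subgroup.mem_sup_left hu) (Subgroup.mem_sup_right (hNC k hk ?_))
      have e : k = u⁻¹ * (u * k) := by group
      rw [e]
      exact Subgroup.mul_mem _ (Subgroup.inv_mem _ (Subgroup.le_normalizer hu)) hx
    · refine sup_le Subgroup.le_normalizer ?_
      intro x hx
      exact h8_mem_norm_of_commute (fun u hu => (hCP x hx u hu).symm)
  have hPnormC : (P : Subgroup G) ≤ Subgroup.normalizer (C : Set G) := by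
    intro u hu
    exact h8_mem_norm_of_commute (fun x hx => hCP x hx u hu)
  have hPC : (P : Subgroup G) ⊓ C = ⊥ := by
    apply le_bot_iff.1
    rw [← h1]
    exact inf_le_inf_left _ hCK
  have hcardN : Nat.card (Subgroup.normalizer (((P : Subgroup G)) : Set G)) = Nat.card (P : Subgroup G) * Nat.card C := by
    have := CfsgLib.PLocal.card_sup_mul_card_inf (P : Subgroup G) C hPnormC
    rw [hPC, ← hNPC] at this
    simpa using this
  -- n |C| = |K|
  have hnK : Nat.card K = Nat.card (Sylow p G) * Nat.card C := by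
    have h3 : Nat.card G = Nat.card (Sylow p G) * Nat.card (Subgroup.normalizer (((P : Subgroup G)) : Set G)) := by
      rw [Sylow.card_eq_index_normalizer P]; exact (Subgroup.index_mul_card _).symm
    rw [hG, hcardN] at h3
    have hpos : 0 < Nat.card (P : Subgroup G) := Nat.card_pos
    apply Nat.eq_of_mul_eq_mul_left hpos
    rw [h3]; ring
  -- Sylow of C
  obtain ⟨S⟩ := (inferInstance : Nonempty (Sylow q C))
  obtain ⟨U, hU⟩ : ∃ U : Subgroup G, U = (S : Subgroup C).map C.subtype := ⟨_, rfl⟩
  have hUC : U ≤ C := by rw [hU]; exact Subgroup.map_subtype_le _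
  have hUsyl : CfsgLib.Solv.IsSylowIn q U C := by
    rw [hU]; exact CfsgLib.Solv.isSylowIn_of_sylow S
  have hPU : (P : Subgroup G) ≤ Subgroup.normalizer (U : Set G) := by
    intro u hu
    exact h8_mem_norm_of_commute (fun x hx => hCP x (hUC hx) u hu)
  haveI : Group.IsNilpotent (P : Subgroup G) := P.isPGroup'.isNilpotent
  obtain ⟨Q, hQ, hUQ, hPQ⟩ := CfsgLib.Solv.exists_invariant_sylow_containing (p := q) (P : Subgroup G) K
    (fun x _ => hKnorm x) hKcop (Or.inl inferInstance) U (hUC.trans hCK) hUsyl.2.1 hPU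
  have hQC : Q ⊓ Subgroup.centralizer ((P : Subgroup G) : Set G) = U := by
    symm
    apply hUsyl.eq_of_pgroup (le_inf hUQ ?_) ?_ (hQ.2.1.to_le inf_le_left)
    · intro x hx
      rw [hC] at hUC
      exact (hUC hx).2
    · rw [hC]
      exact inf_le_inf_right _ hQ.1
  have hmod := CfsgLib.FGS.card_mod_centralizer P.isPGroup' hPQ
  rw [hQC] at hmod
  obtain ⟨a, ha⟩ := (IsPGroup.iff_card).1 hQ.2.1
  obtain ⟨b, hb⟩ := (IsPGroup.iff_card).1 hUsyl.2.1
  -- sizes
  have hK1 : Nat.card K = Q.relIndex K * q ^ a := by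
    rw [← ha]; exact h8_card_eq hQ.1
  have hC1 : Nat.card C = U.relIndex C * q ^ b := by
    rw [← hb]; exact h8_card_eq hUC
  have hE : Q.relIndex K * q ^ a = Nat.card (Sylow p G) * (U.relIndex C * q ^ b) := by
    rw [← hK1, ← hC1]; exact hnK
  have hn0 : Nat.card (Sylow p G) ≠ 0 := Nat.card_pos.ne'
  have hi1 : Q.relIndex K ≠ 0 := by
    intro h0
    exact hQ.2.2 (by rw [h0]; exact dvd_zero _)
  have hi2 : U.relIndex C ≠ 0 := by
    intro h0
    exact hUsyl.2.2 (by rw [h0]; exact dvd_zero _)
  have hq0 : ∀ m : ℕ, q ^ m ≠ 0 := fun m => pow_ne_zero _ hq.ne_zero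
  have hF : a = (Nat.card (Sylow p G)).factorization q + b := by
    have h5 : (Q.relIndex K * q ^ a).factorization q = (Nat.card (Sylow p G) * (U.relIndex C * q ^ b)).factorization q := by
      rw [hE]
    rw [Nat.factorization_mul hi1 (hq0 a), Nat.factorization_mul hn0 (Nat.mul_ne_zero hi2 (hq0 b)),
      Nat.factorization_mul hi2 (hq0 b)] at h5
    simp only [Finsupp.coe_add, Pi.add_apply] at h5
    rw [Nat.factorization_eq_zero_of_not_dvd hQ.2.2, Nat.factorization_eq_zero_of_not_dvd hUsyl.2.2,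
      Nat.Prime.factorization_pow hq, Nat.Prime.factorization_pow hq] at h5
    simp at h5
    omega
  rw [ha, hb, hF, pow_add] at hmod
  have hgcd : Nat.gcd p (q ^ b) = 1 :=
    Nat.Coprime.pow_right b ((Nat.coprime_primes hpp hq).2 (Ne.symm hqp))
  exact Nat.ModEq.cancel_right_of_coprime hgcd (by simpa using hmod)

/-- The Sylow number in the complement case as a list of prime powers. -/
theorem h8_list_of_parts {n p : ℕ} (hp : p.Prime) (hn : n ≠ 0)
    (h : ∀ q : ℕ, q.Prime → q ^ n.factorization q ≡ 1 [MOD p]) :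
    ∃ l : List ℕ, l.prod = n ∧ ∀ m ∈ l, IsPrimePow m ∧ m % p = 1 := by
  classical
  refine ⟨n.primeFactors.toList.map (fun q => q ^ n.factorization q), ?_, ?_⟩
  · rw [Finset.prod_map_toList]
    exact Nat.prod_factorization_pow_eq_self hn
  · intro m hm
    rw [List.mem_map] at hm
    obtain ⟨q, hq, rfl⟩ := hm
    rw [Finset.mem_toList] at hq
    have hqp := Nat.prime_of_mem_primeFactors hq
    constructor
    · apply IsPrimePow.pow hqp.isPrimePow
      have := (Nat.Prime.factorization_pos_of_dvd hqp hn (Nat.dvd_of_mem_primeFactors hq))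
      omega
    · have h1 := h q hqp
      have h2 : (q ^ n.factorization q) % p = 1 % p := h1
      rwa [Nat.mod_eq_of_lt hp.one_lt] at h2

theorem h8_main (p : ℕ) [Fact p.Prime] : ∀ (n : ℕ) (G : Type u) [Group G] [Finite G], Nat.card G = n →
    ∃ l : List ℕ, l.prod = Nat.card (Sylow p G) ∧
      ∀ m ∈ l, (IsPrimePow m ∧ m % p = 1) ∨
        ∃ (S : Type u) (_ : Group S) (_ : Finite S), IsSimpleGroup S ∧ m = Nat.card (Sylow p S) := by
  intro n
  induction n using Nat.strong_induction_on with
  | _ n ih =>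
    intro G _ _ hG
    classical
    by_cases hs : IsSimpleGroup G
    · refine ⟨[Nat.card (Sylow p G)], by simp, ?_⟩
      intro m hm
      rw [List.mem_singleton] at hm
      exact Or.inr ⟨G, inferInstance, inferInstance, hs, hm⟩
    by_cases ht : Subsingleton G
    · refine ⟨[], ?_, by simp⟩
      haveI : Group.IsNilpotent G := by
        have : IsPGroup p G := IsPGroup.of_card (n := 0) (by simp)
        exact this.isNilpotent
      rw [CfsgLib.FGS.card_sylow_of_nilpotent p (G := G)]
      rfl
    haveI : Nontrivial G := not_subsingleton_iff_nontrivial.1 ht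
    obtain ⟨K, hKn, hK0, hK1⟩ : ∃ K : Subgroup G, K.Normal ∧ K ≠ ⊥ ∧ K ≠ ⊤ := by
      by_contra hne
      push Not at hne
      exact hs ⟨fun K hK => by
        by_cases h0 : K = ⊥
        · exact Or.inl h0
        · exact Or.inr (hne K hK h0)⟩
    haveI := hKn
    obtain ⟨P⟩ := (inferInstance : Nonempty (Sylow p G))
    by_cases hcase : (P : Subgroup G) ⊓ K = ⊥ ∧ (P : Subgroup G) ⊔ K = ⊤
    · obtain ⟨l, hl, hl2⟩ := h8_list_of_parts (Fact.out : p.Prime) (Nat.card_pos (α := Sylow p G)).ne'
        (fun q hq => h8_complement p K P hcase.1 hcase.2 hq)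
      exact ⟨l, hl, fun m hm => Or.inl (hl2 m hm)⟩
    obtain ⟨N, hN⟩ : ∃ N : Subgroup G, N = ((P : Subgroup G) ⊔ K) ⊓
        Subgroup.normalizer (((P : Subgroup G) ⊓ K : Subgroup G) : Set G) := ⟨_, rfl⟩
    haveI hn : (((P : Subgroup G) ⊓ K).subgroupOf N).Normal :=
      Subgroup.normal_subgroupOf_of_le_normalizer (by rw [hN]; exact inf_le_right)
    have hres := Cfsg.Agent.S4341.result p K P N hN
    have hKc1 : 1 < Nat.card K := Subgroup.one_lt_card_iff_ne_bot K |>.2 hK0
    have hpos : 0 < Nat.card G := Nat.card_pos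
    have hlt1 : Nat.card (G ⧸ K) < n := by
      rw [← hG, Subgroup.card_eq_card_quotient_mul_card_subgroup K]
      have h2 : 0 < Nat.card (G ⧸ K) := Nat.card_pos
      nlinarith
    have hlt2 : Nat.card K < n := by
      rw [← hG]
      have h3 := Subgroup.card_le_card_group K
      refine lt_of_le_of_ne h3 ?_
      intro h4
      exact hK1 (Subgroup.eq_top_of_card_eq K h4)
    have hlt3 : Nat.card (N ⧸ ((P : Subgroup G) ⊓ K).subgroupOf N) < n := by
      have hNG : Nat.card N ≤ n := by rw [← hG]; exact Subgroup.card_le_card_group N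
      have hcq := Subgroup.card_eq_card_quotient_mul_card_subgroup (((P : Subgroup G) ⊓ K).subgroupOf N)
      have hqpos : 0 < Nat.card (N ⧸ ((P : Subgroup G) ⊓ K).subgroupOf N) := Nat.card_pos
      by_cases hD : (P : Subgroup G) ⊓ K = ⊥
      · have hne : (P : Subgroup G) ⊔ K ≠ ⊤ := fun h => hcase ⟨hD, h⟩
        have hNl : Nat.card N < n := by
          have h5 : Nat.card N ≤ Nat.card ↥((P : Subgroup G) ⊔ K) :=
            Subgroup.card_le_of_le (by rw [hN]; exact inf_le_left)
          have h6 : Nat.card ↥((P : Subgroup G) ⊔ K) < n := by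
            rw [← hG]
            refine lt_of_le_of_ne (Subgroup.card_le_card_group _) ?_
            intro h4
            exact hne (Subgroup.eq_top_of_card_eq _ h4)
          omega
        have h7 : 0 < Nat.card (((P : Subgroup G) ⊓ K).subgroupOf N) := Nat.card_pos
        nlinarith
      · have hDN : (P : Subgroup G) ⊓ K ≤ N := by
          rw [hN]
          exact le_inf (inf_le_left.trans le_sup_left) Subgroup.le_normalizer
        have h7 : Nat.card (((P : Subgroup G) ⊓ K).subgroupOf N) = Nat.card ↥((P : Subgroup G) ⊓ K) :=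
          Nat.card_congr (Subgroup.subgroupOfEquivOfLe hDN).toEquiv
        have h8 : 1 < Nat.card ↥((P : Subgroup G) ⊓ K) := Subgroup.one_lt_card_iff_ne_bot _ |>.2 hD
        rw [h7] at hcq
        nlinarith
    obtain ⟨l1, hl1, h1⟩ := ih _ hlt1 (G ⧸ K) rfl
    obtain ⟨l2, hl2, h2⟩ := ih _ hlt2 K rfl
    obtain ⟨l3, hl3, h3⟩ := ih _ hlt3 (N ⧸ ((P : Subgroup G) ⊓ K).subgroupOf N) rfl
    refine ⟨l1 ++ l2 ++ l3, ?_, ?_⟩
    · rw [List.prod_append, List.prod_append, hl1, hl2, hl3, hres]
    · intro m hm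
      rw [List.mem_append, List.mem_append] at hm
      rcases hm with (hm | hm) | hm
      · exact h1 m hm
      · exact h2 m hm
      · exact h3 m hm


/-- For a finite group `G` and a prime `p`, the number of Sylow `p`-subgroups of `G` is a product of natural numbers each of which is either a prime power congruent to 1 modulo `p` or the number of Sylow `p`-subgroups of some finite simple group. -/
theorem result {G : Type u} [Group G] [Finite G]
    (p : ℕ) [Fact p.Prime] :
    ∃ l : List ℕ, l.prod = Nat.card (Sylow p G) ∧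
      ∀ m ∈ l, (IsPrimePow m ∧ m % p = 1) ∨
        ∃ (S : Type u) (_ : Group S) (_ : Finite S), IsSimpleGroup S ∧ m = Nat.card (Sylow p S) := by
  exact h8_main p _ G rfl

end Cfsg.Agent.S4303
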