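import Cfsg.Statements.S4331
import Cfsg.Agent.Lib.FGS.Basic
import Cfsg.Agent.Lib.FGS.Fit
import Cfsg.Agent.Lib.Char.Burnside

set_option autoImplicit false
open Cfsg
open scoped commutatorElement
open scoped Pointwise

namespace Cfsg.Agent.S4331

def pa : Equiv.Perm (Fin 9) := ⟨![0,4,8,5,6,1,7,2,3], ![0,5,7,8,1,3,4,6,2], fun x => by revert x; decide, fun x => by revert x; decide⟩
def pb : Equiv.Perm (Fin 9) := ⟨![0,1,2,6,7,8,3,4,5], ![0,1,2,6,7,8,3,4,5], fun x => by revert x; decide, fun x => by revert x; decide⟩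
def pu : Equiv.Perm (Fin 9) := ⟨![1,2,0,4,5,3,7,8,6], ![2,0,1,5,3,4,8,6,7], fun x => by revert x; decide, fun x => by revert x; decide⟩
def pv : Equiv.Perm (Fin 9) := ⟨![3,4,5,6,7,8,0,1,2], ![6,7,8,0,1,2,3,4,5], fun x => by revert x; decide, fun x => by revert x; decide⟩
def elt (k l : Fin 3) (i : Fin 8) (j : Fin 2) : Equiv.Perm (Fin 9) := pu^k.val * pv^l.val * pa^i.val * pb^j.val

set_option maxRecDepth 100000 in
theorem c_a : ∀ (k l : Fin 3) (i : Fin 8) (j : Fin 2), ∃ (k' l' : Fin 3) (i' : Fin 8) (j' : Fin 2), elt k l i j * pa = elt k' l' i' j' := by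
  decide +kernel
set_option maxRecDepth 100000 in
theorem c_b : ∀ (k l : Fin 3) (i : Fin 8) (j : Fin 2), ∃ (k' l' : Fin 3) (i' : Fin 8) (j' : Fin 2), elt k l i j * pb = elt k' l' i' j' := by
  decide +kernel
set_option maxRecDepth 100000 in
theorem c_u : ∀ (k l : Fin 3) (i : Fin 8) (j : Fin 2), ∃ (k' l' : Fin 3) (i' : Fin 8) (j' : Fin 2), elt k l i j * pu = elt k' l' i' j' := by
  decide +kernel
set_option maxRecDepth 100000 in
theorem c_v : ∀ (k l : Fin 3) (i : Fin 8) (j : Fin 2), ∃ (k' l' : Fin 3) (i' : Fin 8) (j' : Fin 2), elt k l i j * pv = elt k' l' i' j' := by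
  decide +kernel
set_option maxRecDepth 100000 in
theorem c_ai : ∀ (k l : Fin 3) (i : Fin 8) (j : Fin 2), ∃ (k' l' : Fin 3) (i' : Fin 8) (j' : Fin 2), elt k l i j * pa⁻¹ = elt k' l' i' j' := by
  decide +kernel
set_option maxRecDepth 100000 in
theorem c_bi : ∀ (k l : Fin 3) (i : Fin 8) (j : Fin 2), ∃ (k' l' : Fin 3) (i' : Fin 8) (j' : Fin 2), elt k l i j * pb⁻¹ = elt k' l' i' j' := by
  decide +kernel
set_option maxRecDepth 100000 in
theorem c_ui : ∀ (k l : Fin 3) (i : Fin 8) (j : Fin 2), ∃ (k' l' : Fin 3) (i' : Fin 8) (j' : Fin 2), elt k l i j * pu⁻¹ = elt k' l' i' j' := by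
  decide +kernel
set_option maxRecDepth 100000 in
theorem c_vi : ∀ (k l : Fin 3) (i : Fin 8) (j : Fin 2), ∃ (k' l' : Fin 3) (i' : Fin 8) (j' : Fin 2), elt k l i j * pv⁻¹ = elt k' l' i' j' := by
  decide +kernel
set_option maxRecDepth 100000 in
theorem c_24 : ∀ (k l : Fin 3) (i : Fin 8) (j : Fin 2), (elt k l i j) ^ 24 = 1 := by
  decide +kernel
set_option maxRecDepth 100000 in
theorem c_8 : ∀ (k l : Fin 3) (i : Fin 8) (j : Fin 2), (elt k l i j) 0 = 0 → (elt k l i j) ^ 8 = 1 := by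
  decide +kernel
set_option maxRecDepth 100000 in
theorem c_P : ∀ (k l : Fin 3) (i : Fin 8) (j : Fin 2), ∃ (k' l' : Fin 3) (i' : Fin 8) (j' : Fin 2),
    (elt k' l' i' j' * elt k l i j * (elt k' l' i' j')⁻¹) 0 = 0 ∨
    (elt k' l' i' j' * elt k l i j * (elt k' l' i' j')⁻¹) * pb = pb * (elt k' l' i' j' * elt k l i j * (elt k' l' i' j')⁻¹) := by
  decide +kernel
theorem c_y3 : (pb⁻¹ * pv⁻¹ * pb * pv) ^ 3 = 1 := by decide +kernel
theorem c_y1 : (pb⁻¹ * pv⁻¹ * pb * pv) ≠ 1 := by decide +kernel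
theorem c_b2 : pb ^ 2 = 1 := by decide +kernel
theorem c_b1 : pb ≠ 1 := by decide +kernel

def GG : Subgroup (Equiv.Perm (Fin 9)) := Subgroup.closure {pa, pb, pu, pv}

theorem pa_mem : pa ∈ GG := Subgroup.subset_closure (by simp)
theorem pb_mem : pb ∈ GG := Subgroup.subset_closure (by simp)
theorem pu_mem : pu ∈ GG := Subgroup.subset_closure (by simp)
theorem pv_mem : pv ∈ GG := Subgroup.subset_closure (by simp)

theorem elt_mem (k l : Fin 3) (i : Fin 8) (j : Fin 2) : elt k l i j ∈ GG :=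
  GG.mul_mem (GG.mul_mem (GG.mul_mem (GG.pow_mem pu_mem _) (GG.pow_mem pv_mem _)) (GG.pow_mem pa_mem _)) (GG.pow_mem pb_mem _)

theorem mem_elt {x : Equiv.Perm (Fin 9)} (hx : x ∈ GG) : ∃ (k l : Fin 3) (i : Fin 8) (j : Fin 2), x = elt k l i j := by
  refine Subgroup.closure_induction_right (p := fun x _ => ∃ (k l : Fin 3) (i : Fin 8) (j : Fin 2), x = elt k l i j) ?_ ?_ ?_ hx
  · exact ⟨0, 0, 0, 0, by decide +kernel⟩
  · rintro x _ y hy ⟨k, l, i, j, rfl⟩
    simp only [Set.mem_insert_iff, Set.mem_singleton_iff] at hy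
    rcases hy with rfl | rfl | rfl | rfl
    · obtain ⟨k', l', i', j', h⟩ := c_a k l i j
      exact ⟨k', l', i', j', h⟩
    · obtain ⟨k', l', i', j', h⟩ := c_b k l i j
      exact ⟨k', l', i', j', h⟩
    · obtain ⟨k', l', i', j', h⟩ := c_u k l i j
      exact ⟨k', l', i', j', h⟩
    · obtain ⟨k', l', i', j', h⟩ := c_v k l i j
      exact ⟨k', l', i', j', h⟩
  · rintro x _ y hy ⟨k, l, i, j, rfl⟩
    simp only [Set.mem_insert_iff, Set.mem_singleton_iff] at hy
    rcases hy with rfl | rfl | rfl | rfl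
    · obtain ⟨k', l', i', j', h⟩ := c_ai k l i j
      exact ⟨k', l', i', j', h⟩
    · obtain ⟨k', l', i', j', h⟩ := c_bi k l i j
      exact ⟨k', l', i', j', h⟩
    · obtain ⟨k', l', i', j', h⟩ := c_ui k l i j
      exact ⟨k', l', i', j', h⟩
    · obtain ⟨k', l', i', j', h⟩ := c_vi k l i j
      exact ⟨k', l', i', j', h⟩

theorem GG_solv : Group.IsSolvable GG := by
  have h24 : ∀ x : GG, x ^ 24 = 1 := by
    rintro ⟨x, hx⟩
    obtain ⟨k, l, i, j, rfl⟩ := mem_elt hx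
    apply Subtype.ext
    exact c_24 k l i j
  have hpr : ∀ r : ℕ, r.Prime → r ∣ Nat.card GG → r = 2 ∨ r = 3 := by
    intro r hr hd
    haveI : Fact r.Prime := ⟨hr⟩
    obtain ⟨x, hx⟩ := exists_prime_orderOf_dvd_card' (G := GG) r hd
    have h1 : r ∣ 24 := by
      rw [← hx]
      exact orderOf_dvd_of_pow_eq_one (h24 x)
    have h2 : (24 : ℕ) = 2 ^ 3 * 3 := by norm_num
    rw [h2] at h1
    rcases (Nat.Prime.dvd_mul hr).1 h1 with h3 | h3
    · left
      exact (Nat.prime_dvd_prime_iff_eq hr Nat.prime_two).1 (hr.dvd_of_dvd_pow h3)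
    · right
      exact (Nat.prime_dvd_prime_iff_eq hr Nat.prime_three).1 h3
  have hne : Nat.card GG ≠ 0 := Nat.card_pos.ne'
  obtain ⟨a, m, hm, ham⟩ := Nat.exists_eq_two_pow_mul_odd hne
  have hm0 : m ≠ 0 := by
    rintro rfl
    simp at hm
  have h3 : m = 3 ^ m.primeFactorsList.length := by
    refine Nat.eq_prime_pow_of_unique_prime_dvd hm0 ?_
    intro d hd hdm
    rcases hpr d hd (by rw [ham]; exact dvd_mul_of_dvd_right hdm _) with h | h
    · exfalso
      rw [h] at hdm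
      exact (Nat.not_even_iff_odd.2 hm) (even_iff_two_dvd.2 hdm)
    · exact h
  exact CfsgLib.Char.solvable_of_card_eq Nat.prime_two Nat.prime_three (Nat.card GG) GG rfl ⟨a, _, by rw [ham]; congr 1⟩


/-- There is a finite solvable group G with a subgroup A of order 2 such that every conjugacy class of G contains an element g for which A is subnormal in the subgroup generated by A and g, and yet A is not contained in O_2(G). (So the corresponding criteria for odd primes fail at the prime 2, even for solvable groups.) -/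
theorem result :
    ∃ (G : Type) (_ : Group G) (_ : Finite G) (A : Subgroup G), Group.IsSolvable G ∧ Nat.card A = 2 ∧
      (∀ c : G, ∃ g : G, IsConj c g ∧ (A.subgroupOf (A ⊔ Subgroup.zpowers g)).IsSubnormal) ∧
      ¬ A ≤ Cfsg.pCore 2 G := by
  classical
  have hb : pb ∈ GG := pb_mem
  have hb2 : (⟨pb, hb⟩ : GG) ^ 2 = 1 := Subtype.ext c_b2
  have hbne : (⟨pb, hb⟩ : GG) ≠ 1 := fun h => c_b1 (congrArg (fun z : GG => (z : Equiv.Perm (Fin 9))) h)
  have hob : orderOf (⟨pb, hb⟩ : GG) = 2 := orderOf_eq_prime hb2 hbne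
  refine ⟨GG, inferInstance, inferInstance, Subgroup.zpowers ⟨pb, hb⟩, GG_solv, ?_, ?_, ?_⟩
  · rw [Nat.card_zpowers, hob]
  · intro c
    obtain ⟨cv, hcv⟩ := c
    obtain ⟨k, l, i, j, rfl⟩ := mem_elt hcv
    obtain ⟨k', l', i', j', hP⟩ := c_P k l i j
    refine ⟨⟨elt k' l' i' j', elt_mem _ _ _ _⟩ * ⟨elt k l i j, hcv⟩ * ⟨elt k' l' i' j', elt_mem _ _ _ _⟩⁻¹, isConj_iff.2 ⟨_, rfl⟩, ?_⟩
    obtain ⟨g, hg⟩ : ∃ g : GG, g = ⟨elt k' l' i' j', elt_mem _ _ _ _⟩ * ⟨elt k l i j, hcv⟩ * ⟨elt k' l' i' j', elt_mem _ _ _ _⟩⁻¹ := ⟨_, rfl⟩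
    rw [← hg]
    have hgv : (g : Equiv.Perm (Fin 9)) = elt k' l' i' j' * elt k l i j * (elt k' l' i' j')⁻¹ := by
      rw [hg]
      rfl
    rw [← hgv] at hP
    rcases hP with h0 | hcomm
    · -- both in the stabilizer of 0
      have hT : ∀ x : GG, (x : Equiv.Perm (Fin 9)) 0 = 0 → x ^ 8 = 1 := by
        rintro ⟨x, hx⟩ h
        obtain ⟨k₁, l₁, i₁, j₁, rfl⟩ := mem_elt hx
        apply Subtype.ext
        exact c_8 k₁ l₁ i₁ j₁ h
      let T : Subgroup GG :=
        { carrier := {x | (x : Equiv.Perm (Fin 9)) 0 = 0}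
          mul_mem' := by
            intro a b ha hb
            show (a : Equiv.Perm (Fin 9)) ((b : Equiv.Perm (Fin 9)) 0) = 0
            rw [show (b : Equiv.Perm (Fin 9)) 0 = 0 from hb]
            exact ha
          one_mem' := rfl
          inv_mem' := by
            intro a ha
            show ((a : Equiv.Perm (Fin 9)))⁻¹ 0 = 0
            rw [Equiv.Perm.inv_eq_iff_eq]
            exact (show (a : Equiv.Perm (Fin 9)) 0 = 0 from ha).symm }
      have hTp : IsPGroup 2 T := by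
        rintro ⟨x, hx⟩
        refine ⟨3, ?_⟩
        apply Subtype.ext
        exact hT x hx
      have hHT : Subgroup.zpowers (⟨pb, hb⟩ : GG) ⊔ Subgroup.zpowers g ≤ T := by
        refine sup_le ?_ ?_
        · rw [Subgroup.zpowers_le]
          show pb 0 = 0
          decide
        · rw [Subgroup.zpowers_le]
          exact h0
      have hHp : IsPGroup 2 (Subgroup.zpowers (⟨pb, hb⟩ : GG) ⊔ Subgroup.zpowers g : Subgroup GG) := hTp.to_le hHT
      haveI := hHp.isNilpotent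
      exact CfsgLib.FGS.isSubnormal_of_normalizerCondition normalizerCondition_of_isNilpotent _ _ rfl
    · apply Subgroup.Normal.isSubnormal
      have hcb : ∀ x ∈ (Subgroup.zpowers (⟨pb, hb⟩ : GG) ⊔ Subgroup.zpowers g : Subgroup GG), ∀ y ∈ Subgroup.zpowers (⟨pb, hb⟩ : GG), x * y = y * x := by
        have hgb : g * ⟨pb, hb⟩ = ⟨pb, hb⟩ * g := Subtype.ext hcomm
        have hle : (Subgroup.zpowers (⟨pb, hb⟩ : GG) ⊔ Subgroup.zpowers g : Subgroup GG) ≤ Subgroup.centralizer (Subgroup.zpowers (⟨pb, hb⟩ : GG) : Set GG) := by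
          refine sup_le ?_ ?_
          · rintro _ ⟨m, rfl⟩
            rw [Subgroup.mem_centralizer_iff]
            rintro _ ⟨n, rfl⟩
            exact (Commute.zpow_zpow_self _ _ _).eq
          · rintro _ ⟨m, rfl⟩
            rw [Subgroup.mem_centralizer_iff]
            rintro _ ⟨n, rfl⟩
            have hc : Commute g (⟨pb, hb⟩ : GG) := hgb
            exact (hc.zpow_zpow m n).symm.eq
        intro x hx y hy
        exact (Subgroup.mem_centralizer_iff.1 (hle hx) y hy).symm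
      refine ⟨fun n hn x => ?_⟩
      rw [Subgroup.mem_subgroupOf] at hn ⊢
      have : ((x * n * x⁻¹ : _) : GG) = n := by
        show (x : GG) * n * (x : GG)⁻¹ = n
        rw [hcb x x.2 n hn]
        group
      rw [this]
      exact hn
  · intro hle
    have hb1 : (⟨pb, hb⟩ : GG) ∈ Cfsg.pCore 2 GG := hle (Subgroup.mem_zpowers _)
    haveI := CfsgLib.Solv.pCore_normal' (G := GG) 2
    have hv : pv ∈ GG := pv_mem
    have h1 : (⟨pv, hv⟩ : GG)⁻¹ * ⟨pb, hb⟩ * ((⟨pv, hv⟩ : GG)⁻¹)⁻¹ ∈ Cfsg.pCore 2 GG :=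
      (inferInstance : (Cfsg.pCore 2 GG).Normal).conj_mem _ hb1 _
    have h2 : (⟨pb, hb⟩ : GG)⁻¹ * ((⟨pv, hv⟩ : GG)⁻¹ * ⟨pb, hb⟩ * ((⟨pv, hv⟩ : GG)⁻¹)⁻¹) ∈ Cfsg.pCore 2 GG :=
      Subgroup.mul_mem _ (Subgroup.inv_mem _ hb1) h1
    obtain ⟨e, he⟩ := IsPGroup.iff_orderOf.1 (CfsgLib.Solv.pCore_isPGroup (G := GG) 2) ⟨_, h2⟩
    obtain ⟨y, hy⟩ : ∃ y : GG, y = (⟨pb, hb⟩ : GG)⁻¹ * ((⟨pv, hv⟩ : GG)⁻¹ * ⟨pb, hb⟩ * ((⟨pv, hv⟩ : GG)⁻¹)⁻¹) := ⟨_, rfl⟩
    have hyv : (y : Equiv.Perm (Fin 9)) = pb⁻¹ * pv⁻¹ * pb * pv := by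
      rw [hy]
      show pb⁻¹ * (pv⁻¹ * pb * pv⁻¹⁻¹) = _
      rw [inv_inv]
      group
    have hoy : orderOf y = 3 := by
      refine orderOf_eq_prime ?_ ?_
      · apply Subtype.ext
        show (y : Equiv.Perm (Fin 9)) ^ 3 = 1
        rw [hyv]
        exact c_y3
      · intro h
        apply c_y1
        rw [← hyv, h]
        rfl
    rw [Subgroup.orderOf_mk, ← hy, hoy] at he
    have h3 : (3 : ℕ) ∣ 2 ^ e := ⟨1, by omega⟩
    have h4 := Nat.Prime.dvd_of_dvd_pow Nat.prime_three h3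
    omega

end Cfsg.Agent.S4331
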