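import Cfsg.Statements.S4332
import Cfsg.Agent.Lib.H3.Sym8
import Cfsg.Agent.Lib.Solv.Core

set_option autoImplicit false
open Pointwise
open Cfsg

namespace Cfsg.Agent.S4332

/-- In the symmetric group of degree 8, let A be the subgroup generated by a 3-cycle. Then every conjugacy class contains an element g for which A is subnormal in the subgroup generated by A and its conjugate by g, although O_3 of the symmetric group of degree 8 is trivial. -/
theorem result
    (σ : Equiv.Perm (Fin 8)) (hσ : σ.IsThreeCycle) :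
    (∀ c : Equiv.Perm (Fin 8), ∃ g : Equiv.Perm (Fin 8), IsConj c g ∧
      ((Subgroup.zpowers σ).subgroupOf (Subgroup.zpowers σ ⊔ MulAut.conj g • Subgroup.zpowers σ)).IsSubnormal) ∧
    Cfsg.pCore 3 (Equiv.Perm (Fin 8)) = ⊥ := by
  classical
  constructor
  · intro c
    obtain ⟨g, hg, hcomm⟩ := CfsgLib.Sym8.exists_conj_commute c σ hσ
    refine ⟨g, hg, ?_⟩
    set K := Subgroup.zpowers σ with hK
    have hK' : MulAut.conj g • K = Subgroup.zpowers (g * σ * g⁻¹) := by
      rw [hK]
      change (Subgroup.zpowers σ).map (MulAut.conj g).toMonoidHom = _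
      rw [MonoidHom.map_zpowers]
      rfl
    rw [hK']
    have hle : K ⊔ Subgroup.zpowers (g * σ * g⁻¹) ≤ Subgroup.normalizer (K : Set (Equiv.Perm (Fin 8))) := by
      apply sup_le Subgroup.le_normalizer
      refine le_trans ?_ (Subgroup.centralizer_le_normalizer _)
      rw [Subgroup.zpowers_le, Subgroup.mem_centralizer_iff]
      intro h hh
      obtain ⟨k, rfl⟩ := Subgroup.mem_zpowers_iff.1 hh
      exact ((hcomm.symm).zpow_left k)
    haveI : (K.subgroupOf (K ⊔ Subgroup.zpowers (g * σ * g⁻¹))).Normal :=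
      Subgroup.normal_subgroupOf_iff_le_normalizer le_sup_left |>.2 hle
    exact Subgroup.Normal.isSubnormal inferInstance
  · haveI := CfsgLib.Solv.pCore_normal' (G := Equiv.Perm (Fin 8)) 3
    haveI : Fact (Nat.Prime 3) := ⟨Nat.prime_three⟩
    exact CfsgLib.Sym8.normal_pgroup_eq_bot (n := 8) (p := 3) (by norm_num) Nat.prime_three (by norm_num) _
      (CfsgLib.Solv.pCore_isPGroup 3)

end Cfsg.Agent.S4332
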