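import Cfsg.Statements.S4333
import Cfsg.Agent.Lib.FGS.Zip

set_option autoImplicit false
open Pointwise
open Cfsg

namespace Cfsg.Agent.S4333

universe u in
/-- The hypothesis of the statement. -/
def H8Hyp {G : Type u} [Group G] (A : Subgroup G) : Prop :=
  ∀ a ∈ A, ∀ g : G, (A.subgroupOf (A ⊔ MulAut.conj (g⁻¹ * a * g) • A)).IsSubnormal

universe u in
theorem H8Hyp.conj {G : Type u} [Group G] {A : Subgroup G} (h : H8Hyp A) (x : G) :
    H8Hyp (MulAut.conj x • A) := by
  intro b hb g
  rw [CfsgLib.Solv.mem_conj_smul] at hb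
  have e : MulAut.conj x • A ⊔ MulAut.conj (g⁻¹ * b * g) • MulAut.conj x • A =
      MulAut.conj x • (A ⊔ MulAut.conj ((x⁻¹ * g * x)⁻¹ * (x⁻¹ * b * x) * (x⁻¹ * g * x)) • A) := by
    rw [Subgroup.smul_sup, ← CfsgLib.Solv.conj_mul_smul, ← CfsgLib.Solv.conj_mul_smul]
    congr 2
    group
  rw [e]
  exact CfsgLib.SS.subnormal_conj x (h _ hb _)

universe u in
theorem H8Hyp.subgroupOf {G : Type u} [Group G] {A Y : Subgroup G} (h : H8Hyp A) (hA : A ≤ Y) :
    H8Hyp (A.subgroupOf Y) := by
  intro a ha g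
  have hle : MulAut.conj ((g⁻¹ * a * g : Y) : G) • A ≤ Y := by
    intro x hx
    rw [CfsgLib.Solv.mem_conj_smul] at hx
    have := Y.mul_mem (Y.mul_mem (g⁻¹ * a * g : Y).2 (hA hx)) (Y.inv_mem (g⁻¹ * a * g : Y).2)
    simpa [mul_assoc] using this
  have e : A.subgroupOf Y ⊔ MulAut.conj (g⁻¹ * a * g) • A.subgroupOf Y =
      (A ⊔ MulAut.conj ((g⁻¹ * a * g : Y) : G) • A).subgroupOf Y := by
    rw [CfsgLib.SS.conj_subgroupOf, Subgroup.subgroupOf_sup hA hle]
  rw [e]
  have h1 := h (a : G) ha (g : G)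
  exact CfsgLib.SS.subnormal_nested (sup_le hA hle) (by simpa using h1)

universe u in
theorem h8_main : ∀ (c : ℕ) (G : Type u) [Group G] [Finite G], Nat.card G = c →
    ∀ A : Subgroup G, H8Hyp A → A.IsSubnormal := by
  intro c
  induction c using Nat.strong_induction_on with
  | _ c ih =>
    intro G _ _ hc A hA
    by_contra hno
    have step1 : ∀ (Y B : Subgroup G), Y ≠ ⊤ → (∃ g : G, B = MulAut.conj g • A) → B ≤ Y → (B.subgroupOf Y).IsSubnormal := by
      rintro Y B hY ⟨g, rfl⟩ hBY
      exact ih _ (hc ▸ CfsgLib.SS.card_lt_of_ne_top Y hY) Y rfl _ ((hA.conj g).subgroupOf hBY)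
    obtain ⟨M, hM, hAM, hgreat⟩ := CfsgLib.FGS.zipper_unique_max A hno step1
    have hsn : (A.subgroupOf M).IsSubnormal := step1 M A hM ⟨1, (CfsgLib.Solv.conj_one_smul A).symm⟩ hAM
    have hy : ∀ a ∈ A, ∀ g : G, g⁻¹ * a * g ∈ M := by
      intro a ha g
      apply CfsgLib.FGS.zipper_mem_of_conj_le hno hM hAM hgreat hsn
      intro b hb
      have hne : A ⊔ MulAut.conj (g⁻¹ * a * g) • A ≠ ⊤ := by
        intro e
        have h1 := hA a ha g
        rw [e] at h1
        exact hno (Subgroup.IsSubnormal.trans le_top h1 Subgroup.IsSubnormal.top)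
      have h2 := hgreat _ hne le_sup_left
      apply h2
      apply Subgroup.mem_sup_right
      rw [CfsgLib.Solv.mem_conj_smul]
      simpa [mul_assoc] using hb
    have hCM : Subgroup.normalClosure (A : Set G) ≤ M := by
      rw [Subgroup.normalClosure, Subgroup.closure_le]
      intro x hx
      obtain ⟨a, ha, hax⟩ := Group.mem_conjugatesOfSet_iff.1 hx
      obtain ⟨c', rfl⟩ := isConj_iff.1 hax
      have := hy a ha c'⁻¹
      simpa using this
    have hne : Subgroup.normalClosure (A : Set G) ≠ ⊤ := by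
      intro e
      apply hM
      rw [eq_top_iff, ← e]
      exact hCM
    have hAN : A ≤ Subgroup.normalClosure (A : Set G) := Subgroup.subset_normalClosure
    exact hno (Subgroup.IsSubnormal.trans hAN (step1 _ A hne ⟨1, (CfsgLib.Solv.conj_one_smul A).symm⟩ hAN)
      (Subgroup.normalClosure_normal).isSubnormal)


/-- Let A be a subgroup of a finite group G. If A is subnormal in the subgroup generated by A and its conjugate by g⁻¹ a g, for every a ∈ A and every g ∈ G, then A is subnormal in G. (A sharpening of Wielandt's subnormality criterion: only conjugates of A by conjugates of elements of A are needed.) -/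
theorem result {G : Type*} [Group G] [Finite G]
    (A : Subgroup G)
    (h : ∀ a ∈ A, ∀ g : G, (A.subgroupOf (A ⊔ MulAut.conj (g⁻¹ * a * g) • A)).IsSubnormal) :
    A.IsSubnormal := by
  exact h8_main _ G rfl A h

end Cfsg.Agent.S4333
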