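import Cfsg.Statements.S4334
import Cfsg.Agent.Lib.FGS.Basic
import Cfsg.Agent.Lib.FGS.Elem
import Cfsg.Agent.Lib.FGS.Cyc
import Cfsg.Agent.Lib.SS.Wielandt
import Cfsg.Agent.Lib.Trans.Frob

set_option autoImplicit false
open Cfsg
open scoped commutatorElement
open scoped Pointwise

namespace Cfsg.Agent.S4334

theorem h8_order_conj {G : Type*} [Group G] (x u : G) : orderOf (x⁻¹ * u * x) = orderOf u := by
  have := orderOf_injective (MulAut.conj x⁻¹).toMonoidHom (MulEquiv.injective _) u
  simpa using this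

theorem h8_embed {G : Type*} [Group G] [Finite G] (σ τ π : Set ℕ) (hπ : π = σ ∪ τ) (hd : Disjoint σ τ) (H Hs Ht : Subgroup G)
    (hH : Cfsg.IsPiHall π H) (hs : Cfsg.IsPiSubgroup σ Hs) (ht : Cfsg.IsPiSubgroup τ Ht) (hsn : Group.IsNilpotent Hs)
    (hjoin : Hs ⊔ Ht = H) (hcomm : ∀ a ∈ Hs, ∀ b ∈ Ht, a * b = b * a) (hD : Cfsg.IsDPiGroup τ G) :
    ∀ (n : ℕ) (U : Subgroup G), Nat.card U = n → Cfsg.IsPiSubgroup π U → ∃ x : G, ∀ u ∈ U, x⁻¹ * u * x ∈ H := by
  classical
  have hστ : ∀ p, p ∈ σ → p ∉ τ := fun p h1 h2 => Set.disjoint_left.1 hd h1 h2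
  have hcop : Nat.Coprime (Nat.card Hs) (Nat.card Ht) :=
    Nat.coprime_of_dvd (fun p hp h1 h2 => hστ p (hs p hp h1) (ht p hp h2))
  have hinf : Hs ⊓ Ht = ⊥ := (Subgroup.disjoint_of_coprime_natCard hcop).eq_bot
  have hHs : Hs ≤ H := hjoin ▸ le_sup_left
  have hHt : Ht ≤ H := hjoin ▸ le_sup_right
  have hdec : ∀ h ∈ H, ∃ a ∈ Hs, ∃ b ∈ Ht, h = a * b := by
    intro h hh
    rw [← hjoin, Subgroup.sup_eq_closure] at hh
    induction hh using Subgroup.closure_induction with
    | mem x hx =>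
      rcases hx with hx | hx
      · exact ⟨x, hx, 1, one_mem _, by simp⟩
      · exact ⟨1, one_mem _, x, hx, by simp⟩
    | one => exact ⟨1, one_mem _, 1, one_mem _, by simp⟩
    | mul x y _ _ hx hy =>
      obtain ⟨a, ha, b, hb, rfl⟩ := hx
      obtain ⟨a', ha', b', hb', rfl⟩ := hy
      refine ⟨a * a', mul_mem ha ha', b * b', mul_mem hb hb', ?_⟩
      have := hcomm a' ha' b hb
      calc a * b * (a' * b') = a * (b * a') * b' := by group
        _ = a * (a' * b) * b' := by rw [this]
        _ = _ := by group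
    | inv x _ hx =>
      obtain ⟨a, ha, b, hb, rfl⟩ := hx
      refine ⟨a⁻¹, inv_mem ha, b⁻¹, inv_mem hb, ?_⟩
      have : a * b = b * a := hcomm a ha b hb
      rw [this, mul_inv_rev]
  have hordcop : ∀ a ∈ Hs, ∀ b ∈ Ht, Nat.Coprime (orderOf a) (orderOf b) := by
    intro a ha b hb
    exact Nat.Coprime.coprime_dvd_left (Subgroup.orderOf_dvd_natCard Hs ha)
      (Nat.Coprime.coprime_dvd_right (Subgroup.orderOf_dvd_natCard Ht hb) hcop)
  have hord : ∀ a ∈ Hs, ∀ b ∈ Ht, orderOf (a * b) = orderOf a * orderOf b := by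
    intro a ha b hb
    exact (show Commute a b from hcomm a ha b hb).orderOf_mul_eq_mul_orderOf_of_coprime (hordcop a ha b hb)
  have hsprime : ∀ a ∈ Hs, ∀ q : ℕ, q.Prime → q ∣ orderOf a → q ∈ σ :=
    fun a ha q hq h => hs q hq (h.trans (Subgroup.orderOf_dvd_natCard Hs ha))
  have htprime : ∀ a ∈ Ht, ∀ q : ℕ, q.Prime → q ∣ orderOf a → q ∈ τ :=
    fun a ha q hq h => ht q hq (h.trans (Subgroup.orderOf_dvd_natCard Ht ha))
  -- tau elements of H lie in Ht, sigma elements in Hs
  have hτel : ∀ h ∈ H, (∀ q : ℕ, q.Prime → q ∣ orderOf h → q ∈ τ) → h ∈ Ht := by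
    intro h hh hq
    obtain ⟨a, ha, b, hb, rfl⟩ := hdec h hh
    have h1 : a = 1 := by
      by_contra ha1
      have h2 : orderOf a ≠ 1 := fun h => ha1 (orderOf_eq_one_iff.1 h)
      obtain ⟨q, hq1, hq2⟩ := Nat.exists_prime_and_dvd h2
      refine hστ q (hsprime a ha q hq1 hq2) (hq q hq1 ?_)
      rw [hord a ha b hb]
      exact hq2.trans (dvd_mul_right _ _)
    rw [h1, one_mul]; exact hb
  have hσel : ∀ h ∈ H, (∀ q : ℕ, q.Prime → q ∣ orderOf h → q ∈ σ) → h ∈ Hs := by
    intro h hh hq
    obtain ⟨a, ha, b, hb, rfl⟩ := hdec h hh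
    have h1 : b = 1 := by
      by_contra hb1
      have h2 : orderOf b ≠ 1 := fun h => hb1 (orderOf_eq_one_iff.1 h)
      obtain ⟨q, hq1, hq2⟩ := Nat.exists_prime_and_dvd h2
      refine hστ q (hq q hq1 ?_) (htprime b hb q hq1 hq2)
      rw [hord a ha b hb]
      exact hq2.trans (dvd_mul_left _ _)
    rw [h1, mul_one]; exact ha
  -- cardinalities
  have hcardH : Nat.card H = Nat.card Hs * Nat.card Ht := by
    let f : Hs × Ht → H := fun p => ⟨(p.1 : G) * (p.2 : G), mul_mem (hHs p.1.2) (hHt p.2.2)⟩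
    have hf : Function.Bijective f := by
      constructor
      · rintro ⟨a, b⟩ ⟨a', b'⟩ h
        have h1 : (a : G) * b = a' * b' := congrArg (fun z : H => (z : G)) h
        have h2 : (a' : G)⁻¹ * a = b' * (b : G)⁻¹ := by
          have : (a' : G)⁻¹ * ((a : G) * b) * (b : G)⁻¹ = (a' : G)⁻¹ * ((a' : G) * b') * (b : G)⁻¹ := by rw [h1]
          simpa [mul_assoc] using this
        have h3 : (a' : G)⁻¹ * a ∈ Hs ⊓ Ht :=
          Subgroup.mem_inf.2 ⟨Hs.mul_mem (Hs.inv_mem a'.2) a.2, by rw [h2]; exact Ht.mul_mem b'.2 (Ht.inv_mem b.2)⟩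
        rw [hinf, Subgroup.mem_bot] at h3
        have h4 : (a : G) = a' := by
          have := mul_eq_one_iff_eq_inv.1 h3
          simpa using (inv_mul_eq_one.1 h3).symm
        have h5 : (b : G) = b' := by
          rw [h4] at h1
          exact mul_left_cancel h1
        exact Prod.ext (Subtype.ext h4) (Subtype.ext h5)
      · rintro ⟨h, hh⟩
        obtain ⟨a, ha, b, hb, rfl⟩ := hdec h hh
        exact ⟨(⟨a, ha⟩, ⟨b, hb⟩), rfl⟩
    rw [← Nat.card_prod]
    exact (Nat.card_congr (Equiv.ofBijective f hf)).symm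
  have hGcard : Nat.card G = Nat.card H * H.index := (Subgroup.card_mul_index H).symm
  have hHsidx : Hs.index = Nat.card Ht * H.index := by
    have h1 := Subgroup.card_mul_index Hs
    rw [hGcard, hcardH, mul_assoc] at h1
    exact Nat.eq_of_mul_eq_mul_left Nat.card_pos h1
  have hHtidx : Ht.index = Nat.card Hs * H.index := by
    have h1 := Subgroup.card_mul_index Ht
    rw [hGcard, hcardH, mul_comm (Nat.card Hs), mul_assoc] at h1
    exact Nat.eq_of_mul_eq_mul_left Nat.card_pos h1
  have hσH : ∀ p : ℕ, p ∈ σ → p.Prime → ¬ p ∣ Hs.index := by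
    intro p hp hpp hdiv
    rw [hHsidx] at hdiv
    rcases (Nat.Prime.dvd_mul hpp).1 hdiv with h | h
    · exact hστ p hp (ht p hpp h)
    · exact hH.2 p hpp (hπ ▸ Or.inl hp) h
  have hτH : ∀ p : ℕ, p ∈ τ → p.Prime → ¬ p ∣ Ht.index := by
    intro p hp hpp hdiv
    rw [hHtidx] at hdiv
    rcases (Nat.Prime.dvd_mul hpp).1 hdiv with h | h
    · exact hστ p (hs p hpp h) hp
    · exact hH.2 p hpp (hπ ▸ Or.inr hp) h
  have hHsHall : (Nat.card Hs).Coprime Hs.index :=
    Nat.coprime_of_dvd (fun p hp h1 h2 => hσH p (hs p hp h1) hp h2)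
  -- sigma primes dividing the order of G divide Hs
  have hσdvd : ∀ p : ℕ, p ∈ σ → p.Prime → p ∣ Nat.card G → p ∣ Nat.card Hs := by
    intro p hp hpp hdiv
    rw [← Subgroup.card_mul_index Hs] at hdiv
    exact ((Nat.Prime.dvd_mul hpp).1 hdiv).resolve_right (hσH p hp hpp)
  have hWie : ∀ K : Subgroup G, Cfsg.IsPiSubgroup σ K → ∃ x : G, ∀ k ∈ K, x⁻¹ * k * x ∈ Hs := by
    intro K hK
    obtain ⟨x, hx⟩ := CfsgLib.SS.wielandt Hs K hsn hHsHall (fun p hp hdiv =>
      hσdvd p (hK p hp hdiv) hp (hdiv.trans (Subgroup.card_subgroup_dvd_card K)))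
    exact ⟨x, fun k hk => CfsgLib.FGS.mem_conj_smul_iff.1 (hx hk)⟩
  -- maximality of Ht
  have hHtmax : Maximal (Cfsg.IsPiSubgroup τ) Ht := by
    refine ⟨ht, fun Y hY hle => ?_⟩
    have h1 : Ht.relIndex Y = 1 := by
      by_contra hne
      obtain ⟨q, hq1, hq2⟩ := Nat.exists_prime_and_dvd hne
      have h2 : Ht.relIndex Y ∣ Nat.card Y := Subgroup.relIndex_dvd_card Ht Y
      have h3 : Ht.relIndex Y ∣ Ht.index := by
        have := Subgroup.relIndex_mul_index hle
        exact ⟨_, this.symm⟩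
      exact hτH q (hY q hq1 (hq2.trans h2)) hq1 (hq2.trans h3)
    exact Subgroup.relIndex_eq_one.1 h1
  -- tau elements normalising a sigma-subgroup centralise it
  have hstar : ∀ Q : Subgroup G, Cfsg.IsPiSubgroup σ Q → ∀ t ∈ Subgroup.normalizer (Q : Set G),
      (∀ q : ℕ, q.Prime → q ∣ orderOf t → q ∈ τ) → t ∈ Subgroup.centralizer (Q : Set G) := by
    intro Q hQ t htN htτ
    obtain ⟨x, hx⟩ := hWie Q hQ
    obtain ⟨C, hC⟩ : ∃ C, C = Subgroup.centralizer (Q : Set G) := ⟨_, rfl⟩
    obtain ⟨N, hN⟩ : ∃ N, N = Subgroup.normalizer (Q : Set G) := ⟨_, rfl⟩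
    rw [← hC]
    rw [← hN] at htN
    have hmemN : ∀ g, g ∈ N ↔ ∀ h, h ∈ Q ↔ g * h * g⁻¹ ∈ Q := by
      intro g; rw [hN]; exact Subgroup.mem_set_normalizer_iff
    have hmemC : ∀ g, g ∈ C ↔ ∀ h ∈ Q, h * g = g * h := by
      intro g; rw [hC]; exact Subgroup.mem_centralizer_iff
    have hCN : C ≤ N := by
      intro c hc
      rw [hmemN]
      intro h
      have hc' := (hmemC c).1 hc
      constructor
      · intro hh
        have : c * h * c⁻¹ = h := by rw [← hc' h hh]; group
        rw [this]; exact hh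
      · intro hh
        have h1 := hc' _ hh
        have h2 : c * h * c⁻¹ * c = c * (c * h * c⁻¹) := h1
        have h3 : c * h = c * (c * h * c⁻¹) := by simpa using h2
        have h4 : h = c * h * c⁻¹ := mul_left_cancel h3
        rw [h4]; exact hh
    have hHtC : Nat.card Ht ∣ Nat.card C := by
      have hle : Ht.map (MulAut.conj x).toMonoidHom ≤ C := by
        rintro _ ⟨u, hu, rfl⟩
        rw [hmemC]
        intro h hh
        have h1 := hcomm _ (hx h hh) u hu
        change h * (x * u * x⁻¹) = (x * u * x⁻¹) * h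
        calc h * (x * u * x⁻¹) = x * ((x⁻¹ * h * x) * u) * x⁻¹ := by group
          _ = x * (u * (x⁻¹ * h * x)) * x⁻¹ := by rw [h1]
          _ = _ := by group
      have := Subgroup.card_dvd_of_le hle
      rwa [Subgroup.card_map_of_injective (MulEquiv.injective _)] at this
    haveI hCn : (C.subgroupOf N).Normal := by
      constructor
      rintro ⟨c, hcN⟩ hc ⟨g, hg⟩
      rw [Subgroup.mem_subgroupOf] at hc ⊢
      change g * c * g⁻¹ ∈ C
      rw [hmemC]
      intro h hh
      have h1 : g⁻¹ * h * g ∈ Q := by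
        have := ((hmemN g⁻¹).1 (inv_mem hg) h).1 hh
        simpa using this
      have h2 := (hmemC c).1 hc _ h1
      calc h * (g * c * g⁻¹) = g * ((g⁻¹ * h * g) * c) * g⁻¹ := by group
        _ = g * (c * (g⁻¹ * h * g)) * g⁻¹ := by rw [h2]
        _ = _ := by group
    have hidx : ∀ q : ℕ, q.Prime → q ∈ τ → ¬ q ∣ (C.subgroupOf N).index := by
      intro q hq hqτ hdiv
      have h1 : Nat.card N = Nat.card C * (C.subgroupOf N).index := by
        have h2 := Subgroup.card_mul_index (C.subgroupOf N)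
        rw [← h2]
        congr 1
        exact Nat.card_congr (Subgroup.subgroupOfEquivOfLe hCN).toEquiv
      obtain ⟨m, hm⟩ := hHtC
      have h3 : Nat.card N ∣ Nat.card G := Subgroup.card_subgroup_dvd_card N
      rw [h1, hm, ← Subgroup.card_mul_index Ht, mul_assoc] at h3
      have h4 := Nat.dvd_of_mul_dvd_mul_left Nat.card_pos h3
      exact hτH q hqτ hq (hdiv.trans ((dvd_mul_left _ _).trans h4))
    have hcop2 : (orderOf (⟨t, htN⟩ : N)).Coprime (C.subgroupOf N).index := by
      rw [Subgroup.orderOf_mk]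
      exact Nat.coprime_of_dvd (fun q hq h1 h2 => hidx q hq (htτ q hq h1) h2)
    have := CfsgLib.Trans.mem_of_coprime_index (C.subgroupOf N) hcop2
    exact this
  -- conjugating inside H
  have hcommH : ∀ (p : ℕ) (k : ℕ), p.Prime → p ∈ σ → ∀ q ∈ H, orderOf q = p ^ k → ∀ g ∈ H, (orderOf g).Coprime p → g * q = q * g := by
    intro p k hp hpσ q hq hqo g hg hgc
    have hqs : q ∈ Hs := by
      refine hσel q hq (fun r hr hrd => ?_)
      rw [hqo] at hrd
      have := (Nat.prime_dvd_prime_iff_eq hr hp).1 (hr.dvd_of_dvd_pow hrd)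
      rw [this]; exact hpσ
    obtain ⟨a, ha, b, hb, rfl⟩ := hdec g hg
    have h1 : b * q = q * b := (hcomm q hqs b hb).symm
    have h2 : (orderOf a).Coprime (orderOf q) := by
      rw [hqo]
      refine Nat.Coprime.pow_right k ?_
      rw [hord a ha b hb] at hgc
      exact Nat.Coprime.coprime_dvd_left (dvd_mul_right _ _) hgc
    have h3 := CfsgLib.FGS.commute_of_coprime_of_nilpotent _ Hs rfl ⟨a, ha⟩ ⟨q, hqs⟩ (by
      rwa [Subgroup.orderOf_mk, Subgroup.orderOf_mk])
    have h4 : a * q = q * a := congrArg (fun z : Hs => (z : G)) h3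
    calc a * b * q = a * (b * q) := by group
      _ = a * (q * b) := by rw [h1]
      _ = (a * q) * b := by group
      _ = (q * a) * b := by rw [h4]
      _ = _ := by group
  -- the induction
  intro n
  induction n using Nat.strong_induction_on with
  | _ n ih =>
  intro U hUn hUπ
  have hUsub : ∀ V : Subgroup G, V ≤ U → Cfsg.IsPiSubgroup π V := by
    intro V hV p hp hdiv
    exact hUπ p hp (hdiv.trans (Subgroup.card_dvd_of_le hV))
  obtain ⟨S, hS⟩ : ∃ S : Set G, S = {t | t ∈ U ∧ ∀ q : ℕ, q.Prime → q ∣ orderOf t → q ∈ τ} := ⟨_, rfl⟩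
  have hmemS : ∀ t, t ∈ S ↔ t ∈ U ∧ ∀ q : ℕ, q.Prime → q ∣ orderOf t → q ∈ τ := by
    intro t; rw [hS]; rfl
  obtain ⟨W, hW⟩ : ∃ W : Subgroup G, W = Subgroup.closure S := ⟨_, rfl⟩
  have hWU : W ≤ U := by
    rw [hW, Subgroup.closure_le]
    exact fun t ht => ((hmemS t).1 ht).1
  have hSW : ∀ t ∈ S, t ∈ W := fun t ht => hW ▸ Subgroup.subset_closure ht
  by_cases hWeq : W = U
  · -- U is generated by its tau-elements, hence is a tau-group
    have hUτ : Cfsg.IsPiSubgroup τ U := by
      intro p hp hdiv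
      have h1 := hUπ p hp hdiv
      rw [hπ] at h1
      rcases h1 with h1 | h1
      swap
      · exact h1
      exfalso
      haveI : Fact p.Prime := ⟨hp⟩
      let P : Sylow p U := default
      have hcrit : ∀ Q : Subgroup U, Q ≤ (P : Subgroup U) → ∀ g ∈ Subgroup.normalizer (Q : Set U),
          Nat.Coprime (orderOf g) p → g ∈ Subgroup.centralizer (Q : Set U) := by
        intro Q hQ g hg hgc
        have hQp : IsPGroup p Q := IsPGroup.to_le P.2 hQ
        obtain ⟨Q₁, hQ₁⟩ : ∃ Q₁ : Subgroup G, Q₁ = Q.map U.subtype := ⟨_, rfl⟩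
        have hQ₁σ : Cfsg.IsPiSubgroup σ Q₁ := by
          intro r hr hrd
          have h2 : Nat.card Q₁ = Nat.card Q := by
            rw [hQ₁]; exact Subgroup.card_map_of_injective U.subtype_injective
          rw [h2] at hrd
          obtain ⟨k, hk⟩ := IsPGroup.iff_card.1 hQp
          rw [hk] at hrd
          rw [(Nat.prime_dvd_prime_iff_eq hr hp).1 (hr.dvd_of_dvd_pow hrd)]
          exact h1
        obtain ⟨Y, hY⟩ : ∃ Y : Subgroup U, Y = Subgroup.normalizer (Q : Set U) := ⟨_, rfl⟩
        by_cases hYtop : Y = ⊤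
        · -- Q normal in U
          have hUC : U ≤ Subgroup.centralizer (Q₁ : Set G) := by
            rw [← hWeq, hW, Subgroup.closure_le]
            intro t ht
            obtain ⟨htU, htτ⟩ := (hmemS t).1 ht
            refine hstar Q₁ hQ₁σ t ?_ htτ
            have h2 : (⟨t, htU⟩ : U) ∈ Subgroup.normalizer (Q : Set U) := by
              rw [← hY, hYtop]; trivial
            rw [Subgroup.mem_set_normalizer_iff] at h2 ⊢
            intro h
            constructor
            · intro hh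
              rw [SetLike.mem_coe, hQ₁] at hh ⊢
              obtain ⟨h', hh', rfl⟩ := hh
              exact ⟨_, (h2 h').1 hh', rfl⟩
            · intro hh
              rw [SetLike.mem_coe, hQ₁] at hh ⊢
              obtain ⟨h', hh', hhe⟩ := hh
              have h3 : (h' : G) = t * h * t⁻¹ := hhe
              have hU' : h ∈ U := by
                have : h = t⁻¹ * h' * t := by rw [h3]; group
                rw [this]
                exact U.mul_mem (U.mul_mem (U.inv_mem htU) h'.2) htU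
              refine ⟨⟨h, hU'⟩, ?_, rfl⟩
              refine (h2 ⟨h, hU'⟩).2 ?_
              have : (⟨t, htU⟩ : U) * ⟨h, hU'⟩ * (⟨t, htU⟩ : U)⁻¹ = h' := by
                apply Subtype.ext
                simp [h3]
              rw [SetLike.mem_coe, this]
              exact hh'
          rw [Subgroup.mem_centralizer_iff]
          intro q hq
          have h2 := Subgroup.mem_centralizer_iff.1 (hUC g.2) (q : G) (by
            rw [SetLike.mem_coe, hQ₁]; exact ⟨q, hq, rfl⟩)
          exact Subtype.ext h2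
        · -- the normaliser is proper
          have hYlt : Nat.card (Y.map U.subtype) < n := by
            rw [Subgroup.card_map_of_injective U.subtype_injective, ← hUn]
            have h2 : Nat.card Y ≠ Nat.card U := by
              intro hc
              exact hYtop (Subgroup.eq_top_of_card_eq Y hc)
            exact lt_of_le_of_ne (Subgroup.card_le_card_group Y) h2
          obtain ⟨x, hx⟩ := ih _ hYlt (Y.map U.subtype) rfl (hUsub _ (Subgroup.map_subtype_le Y))
          rw [Subgroup.mem_centralizer_iff]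
          intro q hq
          have hqY : q ∈ Y := by
            rw [hY]; exact Subgroup.le_normalizer hq
          have hgY : g ∈ Y := by
            rw [hY]; exact hg
          have hq' := hx _ ⟨q, hqY, rfl⟩
          have hg' := hx _ ⟨g, hgY, rfl⟩
          simp only [Subgroup.coe_subtype] at hq' hg'
          obtain ⟨k, hk⟩ := IsPGroup.iff_orderOf.1 hQp ⟨q, hq⟩
          rw [Subgroup.orderOf_mk] at hk
          have hko : orderOf (x⁻¹ * (q : G) * x) = p ^ k := by
            rw [h8_order_conj, Subgroup.orderOf_coe, hk]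
          have hgo : (orderOf (x⁻¹ * (g : G) * x)).Coprime p := by
            rw [h8_order_conj, Subgroup.orderOf_coe]; exact hgc
          have h3 := hcommH p k hp h1 _ hq' hko _ hg' hgo
          apply Subtype.ext
          have h4 : (x⁻¹ * (g : G) * x) * (x⁻¹ * (q : G) * x) = x⁻¹ * ((g : G) * q) * x := by group
          have h5 : (x⁻¹ * (q : G) * x) * (x⁻¹ * (g : G) * x) = x⁻¹ * ((q : G) * g) * x := by group
          rw [h4, h5] at h3
          have h6 := mul_right_cancel h3
          have h7 := mul_left_cancel h6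
          exact h7.symm
      obtain ⟨N, hNn, hN⟩ := (CfsgLib.Trans.frobenius_criterion P).2 hcrit
      haveI := hNn
      have hNidx : N.index = Nat.card (P : Subgroup U) := (CfsgLib.Trans.card_index_of_complement P N hN).2
      obtain ⟨k, hk⟩ := IsPGroup.iff_card.1 P.2
      have hNtop : N = ⊤ := by
        rw [eq_top_iff]
        rintro ⟨u, hu⟩ -
        have hu' : u ∈ W := hWeq ▸ hu
        have hall : W ≤ N.map U.subtype := by
          rw [hW, Subgroup.closure_le]
          intro t ht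
          obtain ⟨htU, htτ⟩ := (hmemS t).1 ht
          refine ⟨⟨t, htU⟩, ?_, rfl⟩
          apply CfsgLib.Trans.mem_of_coprime_index
          rw [hNidx, hk, Subgroup.orderOf_mk]
          refine Nat.Coprime.pow_right k ?_
          refine Nat.coprime_of_dvd (fun r hr h2 h3 => ?_)
          have h4 := (Nat.prime_dvd_prime_iff_eq hr hp).1 h3
          have h5 := htτ r hr h2
          rw [h4] at h5
          exact hστ p h1 h5
        obtain ⟨v, hv, hvu⟩ := hall hu'
        have : v = ⟨u, hu⟩ := Subtype.ext hvu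
        rw [← this]; exact hv
      have hP1 : Nat.card (P : Subgroup U) = 1 := by
        rw [← hNidx, hNtop, Subgroup.index_top]
      exact P.ne_bot_of_dvd_card hdiv (Subgroup.eq_bot_of_card_eq _ hP1)
    obtain ⟨T', hUT', hT'max⟩ := Finite.exists_le_maximal (α := Subgroup G) (p := Cfsg.IsPiSubgroup τ) hUτ
    obtain ⟨g, hg⟩ := hD Ht T' hHtmax hT'max
    refine ⟨g, fun u hu => hHt ?_⟩
    have h1 := hUT' hu
    rw [hg] at h1
    exact CfsgLib.FGS.mem_map_conj_iff.1 h1
  · -- W is a proper normal subgroup of U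
    have hWlt : Nat.card W < n := by
      rw [← hUn]
      have h2 : Nat.card W ≠ Nat.card U := fun hc => hWeq (Subgroup.eq_of_le_of_card_ge hWU hc.ge)
      exact lt_of_le_of_ne (Subgroup.card_le_of_le hWU) h2
    obtain ⟨x, hx⟩ := ih _ hWlt W rfl (hUsub W hWU)
    -- the conjugate of W lies in Ht
    have hxW : ∀ w ∈ W, x⁻¹ * w * x ∈ Ht := by
      intro w hw
      rw [hW] at hw
      induction hw using Subgroup.closure_induction with
      | mem t ht =>
        obtain ⟨htU, htτ⟩ := (hmemS t).1 ht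
        refine hτel _ (hx t (hSW t ht)) (fun q hq hqd => ?_)
        rw [h8_order_conj] at hqd
        exact htτ q hq hqd
      | one => simp [one_mem]
      | mul a b _ _ ha hb =>
        have : x⁻¹ * (a * b) * x = (x⁻¹ * a * x) * (x⁻¹ * b * x) := by group
        rw [this]; exact mul_mem ha hb
      | inv a _ ha =>
        have : x⁻¹ * a⁻¹ * x = (x⁻¹ * a * x)⁻¹ := by group
        rw [this]; exact inv_mem ha
    have hWτ : Cfsg.IsPiSubgroup τ W := by
      intro p hp hdiv
      have hinj : Function.Injective (MulAut.conj x⁻¹).toMonoidHom := MulEquiv.injective _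
      have h1 : W.map (MulAut.conj x⁻¹).toMonoidHom ≤ Ht := by
        rintro _ ⟨w, hw, rfl⟩
        have := hxW w hw
        simpa using this
      have h2 := Subgroup.card_dvd_of_le h1
      rw [Subgroup.card_map_of_injective hinj] at h2
      exact ht p hp (hdiv.trans h2)
    -- W is normal in U
    have hWnorm : ∀ u ∈ U, ∀ w ∈ W, u * w * u⁻¹ ∈ W := by
      intro u hu w hw
      rw [hW] at hw
      induction hw using Subgroup.closure_induction with
      | mem t ht =>
        obtain ⟨htU, htτ⟩ := (hmemS t).1 ht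
        refine hSW _ ((hmemS _).2 ⟨U.mul_mem (U.mul_mem hu htU) (U.inv_mem hu), fun q hq hqd => htτ q hq ?_⟩)
        have := h8_order_conj u⁻¹ t
        rw [inv_inv] at this
        rwa [this] at hqd
      | one => simp [one_mem]
      | mul a b _ _ ha hb =>
        have : u * (a * b) * u⁻¹ = (u * a * u⁻¹) * (u * b * u⁻¹) := by group
        rw [this]; exact mul_mem ha hb
      | inv a _ ha =>
        have : u * a⁻¹ * u⁻¹ = (u * a * u⁻¹)⁻¹ := by group
        rw [this]; exact inv_mem ha
    obtain ⟨W', hW'⟩ : ∃ W' : Subgroup U, W' = W.subgroupOf U := ⟨_, rfl⟩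
    haveI hW'n : W'.Normal := by
      rw [hW']
      constructor
      rintro ⟨w, hwU⟩ hw ⟨u, hu⟩
      rw [Subgroup.mem_subgroupOf] at hw ⊢
      exact hWnorm u hu w hw
    have hW'card : Nat.card W' = Nat.card W := by
      rw [hW']
      exact Nat.card_congr (Subgroup.subgroupOfEquivOfLe hWU).toEquiv
    have hcopW : Nat.Coprime (Nat.card W') W'.index := by
      refine Nat.coprime_of_dvd (fun p hp h1 h2 => ?_)
      rw [hW'card] at h1
      have hpτ := hWτ p hp h1
      haveI : Fact p.Prime := ⟨hp⟩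
      let R : Sylow p U := default
      have hRW : (R : Subgroup U) ≤ W' := by
        intro r hr
        rw [hW', Subgroup.mem_subgroupOf]
        refine hSW _ ((hmemS _).2 ⟨r.2, fun q hq hqd => ?_⟩)
        obtain ⟨k, hk⟩ := IsPGroup.iff_orderOf.1 R.2 ⟨r, hr⟩
        rw [Subgroup.orderOf_mk] at hk
        rw [Subgroup.orderOf_coe, hk] at hqd
        rw [(Nat.prime_dvd_prime_iff_eq hq hp).1 (hq.dvd_of_dvd_pow hqd)]
        exact hpτ
      exact R.not_dvd_index (h2.trans (Subgroup.index_dvd_of_le hRW))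
    obtain ⟨V', hV'⟩ := Subgroup.exists_right_complement'_of_coprime hcopW
    obtain ⟨V, hV⟩ : ∃ V : Subgroup G, V = V'.map U.subtype := ⟨_, rfl⟩
    have hVU : V ≤ U := by rw [hV]; exact Subgroup.map_subtype_le V'
    have hVcard : Nat.card V = Nat.card V' := by
      rw [hV]; exact Subgroup.card_map_of_injective U.subtype_injective
    have hVσ : Cfsg.IsPiSubgroup σ V := by
      intro p hp hdiv
      have h1 := hUsub V hVU p hp hdiv
      rw [hπ] at h1
      rcases h1 with h1 | h1
      · exact h1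
      exfalso
      rw [hVcard] at hdiv
      haveI : Fact p.Prime := ⟨hp⟩
      obtain ⟨v, hv⟩ := exists_prime_orderOf_dvd_card' (G := V') p hdiv
      have hvW : ((v : U) : G) ∈ W := by
        refine hSW _ ((hmemS _).2 ⟨(v : U).2, fun q hq hqd => ?_⟩)
        rw [Subgroup.orderOf_coe, Subgroup.orderOf_coe, hv] at hqd
        rw [(Nat.prime_dvd_prime_iff_eq hq hp).1 hqd]
        exact h1
      have hvW' : (v : U) ∈ W' := by
        rw [hW', Subgroup.mem_subgroupOf]; exact hvW
      have h2 : (v : U) ∈ W' ⊓ V' := Subgroup.mem_inf.2 ⟨hvW', v.2⟩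
      rw [hV'.disjoint.eq_bot, Subgroup.mem_bot] at h2
      have h3 : v = 1 := Subtype.ext h2
      rw [h3, orderOf_one] at hv
      exact hp.one_lt.ne hv
    -- pass to the normaliser of the conjugate of W
    obtain ⟨W₁, hW₁⟩ : ∃ W₁ : Subgroup G, W₁ = W.map (MulAut.conj x⁻¹).toMonoidHom := ⟨_, rfl⟩
    obtain ⟨V₁, hV₁⟩ : ∃ V₁ : Subgroup G, V₁ = V.map (MulAut.conj x⁻¹).toMonoidHom := ⟨_, rfl⟩
    have hmemW₁ : ∀ z, z ∈ W₁ ↔ x * z * x⁻¹ ∈ W := by
      intro z
      rw [hW₁]
      constructor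
      · rintro ⟨w, hw, rfl⟩
        have : x * ((MulAut.conj x⁻¹).toMonoidHom w) * x⁻¹ = w := by
          simp [mul_assoc]
        rw [this]; exact hw
      · intro h
        refine ⟨_, h, ?_⟩
        simp [mul_assoc]
    have hmemV₁ : ∀ z, z ∈ V₁ ↔ x * z * x⁻¹ ∈ V := by
      intro z
      rw [hV₁]
      constructor
      · rintro ⟨w, hw, rfl⟩
        have : x * ((MulAut.conj x⁻¹).toMonoidHom w) * x⁻¹ = w := by
          simp [mul_assoc]
        rw [this]; exact hw
      · intro h
        refine ⟨_, h, ?_⟩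
        simp [mul_assoc]
    have hW₁Ht : W₁ ≤ Ht := by
      intro z hz
      have := hxW _ ((hmemW₁ z).1 hz)
      simpa [mul_assoc] using this
    obtain ⟨N, hN⟩ : ∃ N, N = Subgroup.normalizer (W₁ : Set G) := ⟨_, rfl⟩
    have hmemN : ∀ g, g ∈ N ↔ ∀ h, h ∈ W₁ ↔ g * h * g⁻¹ ∈ W₁ := by
      intro g; rw [hN]; exact Subgroup.mem_set_normalizer_iff
    have hcentN : ∀ g, (∀ h ∈ W₁, g * h * g⁻¹ ∈ W₁) → (∀ h ∈ W₁, g⁻¹ * h * g ∈ W₁) → g ∈ N := by
      intro g h1 h2
      rw [hmemN]
      intro h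
      refine ⟨h1 h, fun hh => ?_⟩
      have := h2 _ hh
      have e : g⁻¹ * (g * h * g⁻¹) * g = h := by group
      rwa [e] at this
    have hHsN : Hs ≤ N := by
      intro a ha
      refine hcentN a (fun h hh => ?_) (fun h hh => ?_)
      · have h1 := hcomm a ha h (hW₁Ht hh)
        have : a * h * a⁻¹ = h := by rw [h1]; group
        rw [this]; exact hh
      · have h1 := hcomm a ha h (hW₁Ht hh)
        have : a⁻¹ * h * a = h := by
          calc a⁻¹ * h * a = a⁻¹ * (h * a) := by group
            _ = a⁻¹ * (a * h) := by rw [h1]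
            _ = h := by group
        rw [this]; exact hh
    have hV₁N : V₁ ≤ N := by
      intro v hv
      have hvU : x * v * x⁻¹ ∈ U := hVU ((hmemV₁ v).1 hv)
      refine hcentN v (fun h hh => ?_) (fun h hh => ?_)
      · rw [hmemW₁]
        have h1 := hWnorm _ hvU _ ((hmemW₁ h).1 hh)
        have e : (x * v * x⁻¹) * (x * h * x⁻¹) * (x * v * x⁻¹)⁻¹ = x * (v * h * v⁻¹) * x⁻¹ := by group
        rwa [e] at h1
      · rw [hmemW₁]
        have h1 := hWnorm _ (U.inv_mem hvU) _ ((hmemW₁ h).1 hh)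
        have e : (x * v * x⁻¹)⁻¹ * (x * h * x⁻¹) * (x * v * x⁻¹)⁻¹⁻¹ = x * (v⁻¹ * h * v) * x⁻¹ := by group
        rwa [e] at h1
    have hV₁card : Nat.card V₁ = Nat.card V := by
      rw [hV₁]; exact Subgroup.card_map_of_injective (MulEquiv.injective _)
    -- Wielandt inside N
    have hsnN : Group.IsNilpotent (Hs.subgroupOf N) :=
      Group.nilpotent_of_mulEquiv (Subgroup.subgroupOfEquivOfLe hHsN).symm
    have hHscard : Nat.card (Hs.subgroupOf N) = Nat.card Hs :=
      Nat.card_congr (Subgroup.subgroupOfEquivOfLe hHsN).toEquiv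
    have hHallN : (Nat.card (Hs.subgroupOf N)).Coprime (Hs.subgroupOf N).index := by
      rw [hHscard]
      have h1 : (Hs.subgroupOf N).index ∣ Hs.index := by
        have := Subgroup.relIndex_mul_index hHsN
        exact ⟨_, this.symm⟩
      exact Nat.Coprime.coprime_dvd_right h1 hHsHall
    obtain ⟨n', hn'⟩ := CfsgLib.SS.wielandt (Hs.subgroupOf N) (V₁.subgroupOf N) hsnN hHallN (by
      intro p hp hdiv
      rw [hHscard]
      have h1 : Nat.card (V₁.subgroupOf N) = Nat.card V₁ :=
        Nat.card_congr (Subgroup.subgroupOfEquivOfLe hV₁N).toEquiv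
      rw [h1, hV₁card] at hdiv
      exact hσdvd p (hVσ p hp hdiv) hp (hdiv.trans (Subgroup.card_subgroup_dvd_card V)))
    have hn'V : ∀ v ∈ V₁, (n' : G)⁻¹ * v * n' ∈ Hs := by
      intro v hv
      have h1 := hn' (show (⟨v, hV₁N hv⟩ : N) ∈ V₁.subgroupOf N from hv)
      rw [CfsgLib.FGS.mem_conj_smul_iff, Subgroup.mem_subgroupOf] at h1
      exact h1
    refine ⟨x * n', fun u hu => ?_⟩
    obtain ⟨⟨w, v⟩, hwv, -⟩ := hV'.existsUnique ⟨u, hu⟩
    have huu : u = ((w : U) : G) * ((v : U) : G) := (congrArg (fun z : U => (z : G)) hwv).symm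
    have hwW : ((w : U) : G) ∈ W := by
      have hmw : (w : U) ∈ W' := w.2
      have hmw2 : (w : U) ∈ W.subgroupOf U := hW' ▸ hmw
      exact Subgroup.mem_subgroupOf.1 hmw2
    have hvV : ((v : U) : G) ∈ V := by
      rw [hV]; exact ⟨v, v.2, rfl⟩
    have h1 : x⁻¹ * ((w : U) : G) * x ∈ W₁ := by
      rw [hmemW₁]
      have e : x * (x⁻¹ * ((w : U) : G) * x) * x⁻¹ = ((w : U) : G) := by group
      rw [e]; exact hwW
    have h2 : x⁻¹ * ((v : U) : G) * x ∈ V₁ := by
      rw [hmemV₁]
      have e : x * (x⁻¹ * ((v : U) : G) * x) * x⁻¹ = ((v : U) : G) := by group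
      rw [e]; exact hvV
    have h3 : (n' : G)⁻¹ * (x⁻¹ * ((w : U) : G) * x) * n' ∈ W₁ := by
      have := ((hmemN (n' : G)⁻¹).1 (inv_mem n'.2) (x⁻¹ * ((w : U) : G) * x)).1 h1
      simpa using this
    have h5 := hn'V _ h2
    have e : (x * (n' : G))⁻¹ * u * (x * n') =
        ((n' : G)⁻¹ * (x⁻¹ * ((w : U) : G) * x) * n') * ((n' : G)⁻¹ * (x⁻¹ * ((v : U) : G) * x) * n') := by
      rw [huu]; group
    rw [e]
    exact H.mul_mem (hHt (hW₁Ht h3)) (hHs h5)

/-- Let σ and τ be disjoint sets of primes with union π. Suppose a finite group G has a Hall π-subgroup H which is the direct product of a nilpotent σ-subgroup and a τ-subgroup (two elementwise-commuting subgroups generating H), and that the maximal τ-subgroups of G are pairwise conjugate. Then the maximal π-subgroups of G are pairwise conjugate. -/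
theorem result {G : Type*} [Group G] [Finite G]
    (σ τ π : Set ℕ) (hπ : π = σ ∪ τ) (hd : Disjoint σ τ) (H Hs Ht : Subgroup G) (hH : Cfsg.IsPiHall π H)
    (hs : Cfsg.IsPiSubgroup σ Hs) (ht : Cfsg.IsPiSubgroup τ Ht) (hsn : Group.IsNilpotent Hs)
    (hjoin : Hs ⊔ Ht = H) (hcomm : ∀ a ∈ Hs, ∀ b ∈ Ht, a * b = b * a) (hD : Cfsg.IsDPiGroup τ G) :
    Cfsg.IsDPiGroup π G := by
  classical
  have hE := h8_embed σ τ π hπ hd H Hs Ht hH hs ht hsn hjoin hcomm hD
  have hHπ : ∀ x : G, Cfsg.IsPiSubgroup π (H.map (MulAut.conj x).toMonoidHom) := by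
    intro x p hp hdiv
    rw [Subgroup.card_map_of_injective (MulEquiv.injective _)] at hdiv
    exact hH.1 p hp hdiv
  have key : ∀ K : Subgroup G, Maximal (Cfsg.IsPiSubgroup π) K → ∃ x : G, K = H.map (MulAut.conj x).toMonoidHom := by
    intro K hK
    obtain ⟨x, hx⟩ := hE _ K rfl hK.1
    refine ⟨x, ?_⟩
    have hle : K ≤ H.map (MulAut.conj x).toMonoidHom := fun u hu =>
      CfsgLib.FGS.mem_map_conj_iff.2 (hx u hu)
    exact le_antisymm hle (hK.2 (hHπ x) hle)
  intro K L hK hL
  obtain ⟨x, rfl⟩ := key K hK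
  obtain ⟨y, rfl⟩ := key L hL
  refine ⟨y * x⁻¹, ?_⟩
  rw [Subgroup.map_map]
  congr 1
  ext z
  simp [mul_assoc]

end Cfsg.Agent.S4334
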