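import Cfsg.Statements.S4337
import Cfsg.Agent.Lib.FGS.Basic
import Cfsg.Agent.Lib.Char.Burnside

set_option autoImplicit false
open Cfsg

namespace Cfsg.Agent.S4337

theorem h8_perm_solvable (α : Type) [Fintype α] (h : Fintype.card α ≤ 4) :
    Group.IsSolvable (Equiv.Perm α) := by
  classical
  have hc : Nat.card (Equiv.Perm α) = (Fintype.card α).factorial := by
    rw [Nat.card_eq_fintype_card, Fintype.card_perm]
  refine CfsgLib.Char.solvable_of_card_eq Nat.prime_two Nat.prime_three _ _ hc ?_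
  generalize Fintype.card α = k at h
  interval_cases k
  · exact ⟨0, 0, by decide⟩
  · exact ⟨0, 0, by decide⟩
  · exact ⟨1, 0, by decide⟩
  · exact ⟨1, 1, by decide⟩
  · exact ⟨3, 1, by decide⟩

theorem h8_main {n : ℕ} (T1 T2 : Finset (Fin n)) (h1 : T1.card ≤ 4) (h2 : T2.card ≤ 4)
    (S : Set (Equiv.Perm (Fin n)))
    (hS : ∀ g ∈ S, (∀ x, x ∈ T1 ↔ g x ∈ T1) ∧ (∀ x, x ∈ T2 ↔ g x ∈ T2) ∧ ∀ x, x ∉ T1 → x ∉ T2 → g x = x) :
    Group.IsSolvable (Subgroup.closure S) := by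
  classical
  let G' : Subgroup (Equiv.Perm (Fin n)) :=
    { carrier := {g | (∀ x, x ∈ T1 ↔ g x ∈ T1) ∧ (∀ x, x ∈ T2 ↔ g x ∈ T2) ∧ ∀ x, x ∉ T1 → x ∉ T2 → g x = x}
      mul_mem' := by
        rintro a b ⟨a1, a2, a3⟩ ⟨b1, b2, b3⟩
        refine ⟨fun x => (b1 x).trans (a1 _), fun x => (b2 x).trans (a2 _), fun x hx hx' => ?_⟩
        show a (b x) = x
        rw [b3 x hx hx', a3 x hx hx']
      one_mem' := ⟨fun _ => Iff.rfl, fun _ => Iff.rfl, fun _ _ _ => rfl⟩
      inv_mem' := by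
        rintro a ⟨a1, a2, a3⟩
        refine ⟨fun x => ?_, fun x => ?_, fun x hx hx' => ?_⟩
        · have := a1 (a⁻¹ x)
          simpa using this.symm
        · have := a2 (a⁻¹ x)
          simpa using this.symm
        · rw [Equiv.Perm.inv_eq_iff_eq]
          exact (a3 x hx hx').symm }
  have hle : Subgroup.closure S ≤ G' := by
    rw [Subgroup.closure_le]
    exact hS
  let ψ1 : G' →* Equiv.Perm {x // x ∈ T1} :=
    { toFun := fun g => Equiv.Perm.subtypePerm g.1 (fun x => (g.2.1 x).symm)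
      map_one' := by
        ext x; rfl
      map_mul' := by
        intro a b
        ext x; rfl }
  let ψ2 : G' →* Equiv.Perm {x // x ∈ T2} :=
    { toFun := fun g => Equiv.Perm.subtypePerm g.1 (fun x => (g.2.2.1 x).symm)
      map_one' := by
        ext x; rfl
      map_mul' := by
        intro a b
        ext x; rfl }
  have hinj : Function.Injective (ψ1.prod ψ2) := by
    rw [injective_iff_map_eq_one]
    intro g hg
    have hg1 : ψ1 g = 1 := congrArg Prod.fst hg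
    have hg2 : ψ2 g = 1 := congrArg Prod.snd hg
    apply Subtype.ext
    ext x
    show ((g : Equiv.Perm (Fin n)) x : ℕ) = x
    by_cases hx1 : x ∈ T1
    · have := congrArg (fun σ : Equiv.Perm {x // x ∈ T1} => ((σ ⟨x, hx1⟩ : {x // x ∈ T1}) : Fin n)) hg1
      exact congrArg Fin.val this
    by_cases hx2 : x ∈ T2
    · have := congrArg (fun σ : Equiv.Perm {x // x ∈ T2} => ((σ ⟨x, hx2⟩ : {x // x ∈ T2}) : Fin n)) hg2
      exact congrArg Fin.val this
    rw [g.2.2.2 x hx1 hx2]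
  haveI : Group.IsSolvable (Equiv.Perm {x // x ∈ T1}) := h8_perm_solvable _ (by simpa using h1)
  haveI : Group.IsSolvable (Equiv.Perm {x // x ∈ T2}) := h8_perm_solvable _ (by simpa using h2)
  haveI : Group.IsSolvable G' := Group.isSolvable_of_isSolvable_injective hinj
  exact Group.isSolvable_of_isSolvable_injective (f := Subgroup.inclusion hle) (Subgroup.inclusion_injective hle)

theorem h8_swap_mem {n : ℕ} (T : Finset (Fin n)) (u v : Fin n) (h : u ∈ T ↔ v ∈ T) (x : Fin n) :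
    x ∈ T ↔ Equiv.swap u v x ∈ T := by
  by_cases hu : x = u
  · subst hu
    rw [Equiv.swap_apply_left]
    exact h
  by_cases hv : x = v
  · subst hv
    rw [Equiv.swap_apply_right]
    exact h.symm
  rw [Equiv.swap_apply_of_ne_of_ne hu hv]

theorem h8_case0 {n : ℕ} (T : Finset (Fin n)) (hT : T.card ≤ 4) (S : Set (Equiv.Perm (Fin n)))
    (hS : ∀ g ∈ S, ∃ u v, u ∈ T ∧ v ∈ T ∧ g = Equiv.swap u v) : Group.IsSolvable (Subgroup.closure S) := by
  apply h8_main T ∅ hT (by simp) S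
  intro g hg
  obtain ⟨u, v, hu, hv, rfl⟩ := hS g hg
  refine ⟨h8_swap_mem T u v (by simp [hu, hv]), by simp, ?_⟩
  intro x hx _
  apply Equiv.swap_apply_of_ne_of_ne
  · rintro rfl; exact hx hu
  · rintro rfl; exact hx hv

/-- disjointness of two pairs -/
def h8D {n : ℕ} (a1 a2 b1 b2 : Fin n) : Prop := a1 ≠ b1 ∧ a1 ≠ b2 ∧ a2 ≠ b1 ∧ a2 ≠ b2

theorem h8_case1 {n : ℕ} (a1 a2 b1 b2 c1 c2 : Fin n) (hab : h8D a1 a2 b1 b2) (hac : h8D a1 a2 c1 c2) :
    Group.IsSolvable (Subgroup.closure ({Equiv.swap a1 a2, Equiv.swap b1 b2, Equiv.swap c1 c2} : Set (Equiv.Perm (Fin n)))) := by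
  classical
  obtain ⟨h1, h2, h3, h4⟩ := hab
  obtain ⟨h5, h6, h7, h8⟩ := hac
  have hT1 : ({a1, a2} : Finset (Fin n)).card ≤ 4 := (Finset.card_le_two).trans (by norm_num)
  have hT2 : ({b1, b2, c1, c2} : Finset (Fin n)).card ≤ 4 := Finset.card_le_four
  apply h8_main {a1, a2} {b1, b2, c1, c2} hT1 hT2
  intro g hg
  rcases hg with rfl | rfl | rfl
  · refine ⟨h8_swap_mem _ _ _ (by simp), h8_swap_mem _ _ _ (by simp [h1, h2, h3, h4, h5, h6, h7, h8]), ?_⟩
    intro x hx _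
    simp only [Finset.mem_insert, Finset.mem_singleton, not_or] at hx
    exact Equiv.swap_apply_of_ne_of_ne hx.1 hx.2
  · refine ⟨h8_swap_mem _ _ _ (by simp [h1.symm, h2.symm, h3.symm, h4.symm]), h8_swap_mem _ _ _ (by simp), ?_⟩
    intro x _ hx
    simp only [Finset.mem_insert, Finset.mem_singleton, not_or] at hx
    exact Equiv.swap_apply_of_ne_of_ne hx.1 hx.2.1
  · refine ⟨h8_swap_mem _ _ _ (by simp [h5.symm, h6.symm, h7.symm, h8.symm]), h8_swap_mem _ _ _ (by simp), ?_⟩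
    intro x _ hx
    simp only [Finset.mem_insert, Finset.mem_singleton, not_or] at hx
    exact Equiv.swap_apply_of_ne_of_ne hx.2.2.1 hx.2.2.2

theorem h8_card {n : ℕ} (x1 x2 y1 y2 z1 z2 : Fin n) (T : Finset (Fin n))
    (hT : T ⊆ {x1, x2, y1, y2, z1, z2}) (hxy : ¬ h8D x1 x2 y1 y2) (hxz : ¬ h8D x1 x2 z1 z2) : T.card ≤ 4 := by
  classical
  obtain ⟨y', hy'⟩ : ∃ y' : Fin n, y1 ∈ ({x1, x2, y'} : Finset (Fin n)) ∧ y2 ∈ ({x1, x2, y'} : Finset (Fin n)) := by
    unfold h8D at hxy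
    by_cases h1 : x1 = y1
    · exact ⟨y2, by simp [h1]⟩
    by_cases h2 : x1 = y2
    · exact ⟨y1, by simp [h2]⟩
    by_cases h3 : x2 = y1
    · exact ⟨y2, by simp [h3]⟩
    by_cases h4 : x2 = y2
    · exact ⟨y1, by simp [h4]⟩
    exact absurd ⟨h1, h2, h3, h4⟩ hxy
  obtain ⟨z', hz'⟩ : ∃ z' : Fin n, z1 ∈ ({x1, x2, z'} : Finset (Fin n)) ∧ z2 ∈ ({x1, x2, z'} : Finset (Fin n)) := by
    unfold h8D at hxz
    by_cases h1 : x1 = z1
    · exact ⟨z2, by simp [h1]⟩
    by_cases h2 : x1 = z2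
    · exact ⟨z1, by simp [h2]⟩
    by_cases h3 : x2 = z1
    · exact ⟨z2, by simp [h3]⟩
    by_cases h4 : x2 = z2
    · exact ⟨z1, by simp [h4]⟩
    exact absurd ⟨h1, h2, h3, h4⟩ hxz
  have hsub : T ⊆ {x1, x2, y', z'} := by
    have hs1 : ({x1, x2, y'} : Finset (Fin n)) ⊆ {x1, x2, y', z'} := by
      intro t ht
      simp only [Finset.mem_insert, Finset.mem_singleton] at ht ⊢
      rcases ht with h | h | h
      · exact Or.inl h
      · exact Or.inr (Or.inl h)
      · exact Or.inr (Or.inr (Or.inl h))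
    have hs2 : ({x1, x2, z'} : Finset (Fin n)) ⊆ {x1, x2, y', z'} := by
      intro t ht
      simp only [Finset.mem_insert, Finset.mem_singleton] at ht ⊢
      rcases ht with h | h | h
      · exact Or.inl h
      · exact Or.inr (Or.inl h)
      · exact Or.inr (Or.inr (Or.inr h))
    intro t ht
    have h5 := hT ht
    simp only [Finset.mem_insert, Finset.mem_singleton] at h5
    rcases h5 with h | h | h | h | h | h
    · rw [h]; simp
    · rw [h]; simp
    · rw [h]; exact hs1 hy'.1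
    · rw [h]; exact hs1 hy'.2
    · rw [h]; exact hs2 hz'.1
    · rw [h]; exact hs2 hz'.2
  exact (Finset.card_le_card hsub).trans Finset.card_le_four


/-- In a finite symmetric group, any three transpositions generate a solvable subgroup. -/
theorem result (n : ℕ) (a b c : Equiv.Perm (Fin n))
    (ha : a.IsSwap) (hb : b.IsSwap) (hc : c.IsSwap) :
    Group.IsSolvable (Subgroup.closure ({a, b, c} : Set (Equiv.Perm (Fin n)))) := by
  classical
  obtain ⟨a1, a2, -, rfl⟩ := ha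
  obtain ⟨b1, b2, -, rfl⟩ := hb
  obtain ⟨c1, c2, -, rfl⟩ := hc
  have hsymm : ∀ x1 x2 y1 y2 : Fin n, h8D x1 x2 y1 y2 → h8D y1 y2 x1 x2 := by
    rintro x1 x2 y1 y2 ⟨h1, h2, h3, h4⟩
    exact ⟨h1.symm, h3.symm, h2.symm, h4.symm⟩
  by_cases hab : h8D a1 a2 b1 b2
  · by_cases hac : h8D a1 a2 c1 c2
    · exact h8_case1 a1 a2 b1 b2 c1 c2 hab hac
    by_cases hbc : h8D b1 b2 c1 c2
    · have e : ({Equiv.swap a1 a2, Equiv.swap b1 b2, Equiv.swap c1 c2} : Set (Equiv.Perm (Fin n))) =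
          {Equiv.swap b1 b2, Equiv.swap a1 a2, Equiv.swap c1 c2} := Set.insert_comm _ _ _
      rw [e]
      exact h8_case1 b1 b2 a1 a2 c1 c2 (hsymm _ _ _ _ hab) hbc
    · -- c meets a and b
      apply h8_case0 ({c1, c2, a1, a2, b1, b2} : Finset (Fin n))
      · exact h8_card c1 c2 a1 a2 b1 b2 _ (Finset.Subset.refl _)
          (fun h => hac (hsymm _ _ _ _ h)) (fun h => hbc (hsymm _ _ _ _ h))
      · rintro g (rfl | rfl | rfl)
        · exact ⟨a1, a2, by simp, by simp, rfl⟩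
        · exact ⟨b1, b2, by simp, by simp, rfl⟩
        · exact ⟨c1, c2, by simp, by simp, rfl⟩
  · by_cases hac : h8D a1 a2 c1 c2
    · by_cases hbc : h8D b1 b2 c1 c2
      · have e : ({Equiv.swap a1 a2, Equiv.swap b1 b2, Equiv.swap c1 c2} : Set (Equiv.Perm (Fin n))) =
            {Equiv.swap c1 c2, Equiv.swap a1 a2, Equiv.swap b1 b2} := by
          ext x; simp only [Set.mem_insert_iff, Set.mem_singleton_iff]; tauto
        rw [e]
        exact h8_case1 c1 c2 a1 a2 b1 b2 (hsymm _ _ _ _ hac) (hsymm _ _ _ _ hbc)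
      · -- b meets a and c
        apply h8_case0 ({b1, b2, a1, a2, c1, c2} : Finset (Fin n))
        · exact h8_card b1 b2 a1 a2 c1 c2 _ (Finset.Subset.refl _)
            (fun h => hab (hsymm _ _ _ _ h)) hbc
        · rintro g (rfl | rfl | rfl)
          · exact ⟨a1, a2, by simp, by simp, rfl⟩
          · exact ⟨b1, b2, by simp, by simp, rfl⟩
          · exact ⟨c1, c2, by simp, by simp, rfl⟩
    · -- a meets b and c
      apply h8_case0 ({a1, a2, b1, b2, c1, c2} : Finset (Fin n))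
      · exact h8_card a1 a2 b1 b2 c1 c2 _ (Finset.Subset.refl _) hab hac
      · rintro g (rfl | rfl | rfl)
        · exact ⟨a1, a2, by simp, by simp, rfl⟩
        · exact ⟨b1, b2, by simp, by simp, rfl⟩
        · exact ⟨c1, c2, by simp, by simp, rfl⟩

end Cfsg.Agent.S4337
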