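import Cfsg.Statements.S4341
import Cfsg.Agent.Lib.FGS.SylQuot
import Cfsg.Agent.Lib.Fusion.Quick

set_option autoImplicit false
open Cfsg

namespace Cfsg.Agent.S4341

theorem h8_normalizer_inf {G : Type*} [Group G] {A B : Subgroup G} {x : G}
    (ha : x ∈ Subgroup.normalizer (A : Set G)) (hb : x ∈ Subgroup.normalizer (B : Set G)) :
    x ∈ Subgroup.normalizer ((A ⊓ B : Subgroup G) : Set G) := by
  rw [Subgroup.mem_normalizer_iff] at ha hb ⊢
  intro h
  rw [Subgroup.mem_inf, Subgroup.mem_inf]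
  exact and_congr (ha h) (hb h)

theorem h8_card_subgroupOf {G : Type*} [Group G] (A B : Subgroup G) :
    Nat.card (A.subgroupOf B) = Nat.card ↥(B ⊓ A) := by
  have : (B ⊓ A).subgroupOf B = A.subgroupOf B := by
    ext x; simp [Subgroup.mem_subgroupOf]
  rw [← this]
  exact Nat.card_congr (Subgroup.subgroupOfEquivOfLe inf_le_left).toEquiv

theorem h8_aux {G : Type*} [Group G] [Finite G]
    (p : ℕ) [Fact p.Prime] (K : Subgroup G) [K.Normal] (P : Sylow p G) (D : Subgroup G)
    (hD : D = (P : Subgroup G) ⊓ K) (N : Subgroup G)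
    (hN : N = ((P : Subgroup G) ⊔ K) ⊓ Subgroup.normalizer (D : Set G))
    [hn : (D.subgroupOf N).Normal] :
    Nat.card (Sylow p G) =
      Nat.card (Sylow p (G ⧸ K)) * Nat.card (Sylow p K) * Nat.card (Sylow p (N ⧸ D.subgroupOf N)) := by
  classical
  obtain ⟨Np, hNp⟩ : ∃ X : Subgroup G, X = Subgroup.normalizer ((P : Subgroup G) : Set G) := ⟨_, rfl⟩
  obtain ⟨Nd, hNd⟩ : ∃ X : Subgroup G, X = Subgroup.normalizer (D : Set G) := ⟨_, rfl⟩
  rw [← hNd] at hN
  have hKnorm : ∀ x : G, x ∈ Subgroup.normalizer (K : Set G) := by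
    intro x
    rw [Subgroup.normalizer_eq_top K]; trivial
  have hPnp : (P : Subgroup G) ≤ Np := by rw [hNp]; exact Subgroup.le_normalizer
  have hnpd : ∀ x, x ∈ Np → x ∈ Nd := by
    intro x hx
    rw [hNd, hD]
    exact h8_normalizer_inf (hNp ▸ hx) (hKnorm x)
  have hPnd : (P : Subgroup G) ≤ Nd := fun x hx => hnpd x (hPnp hx)
  have hPN : (P : Subgroup G) ≤ N := by
    rw [hN]; exact le_inf le_sup_left hPnd
  have hKL : K ≤ (P : Subgroup G) ⊔ K := le_sup_right
  have hDP : D ≤ (P : Subgroup G) := by rw [hD]; exact inf_le_left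
  -- E1
  have E1 : Nat.card G = Nat.card (Sylow p G) * Nat.card Np := by
    rw [Sylow.card_eq_index_normalizer P, hNp]; exact (Subgroup.index_mul_card _).symm
  -- E2
  have E2 : Nat.card G = Nat.card (Sylow p (G ⧸ K)) * Nat.card ↥(Np ⊔ K) := by
    rw [CfsgLib.FGS.card_sylow_quotient_eq K P, hNp]; exact (Subgroup.index_mul_card _).symm
  -- E3
  have E3 : Nat.card ↥(Np ⊔ K) * Nat.card ↥(Np ⊓ K) = Nat.card Np * Nat.card K :=
    CfsgLib.PLocal.card_sup_mul_card_inf Np K (fun x _ => hKnorm x)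
  -- E4
  have E4 : Nat.card K = Nat.card (Sylow p K) * Nat.card ↥(K ⊓ Nd) := by
    obtain ⟨R, hR⟩ := CfsgLib.Fusion.sylow_inf_normal P K
    rw [Sylow.card_eq_index_normalizer R, ← h8_card_subgroupOf]
    have h2 : Subgroup.normalizer (((R : Sylow p K) : Subgroup K) : Set K) = Nd.subgroupOf K := by
      rw [hR, ← hD, hNd, Subgroup.subgroupOf_normalizer_eq (by rw [hD]; exact inf_le_right)]
    change Nat.card K = (Subgroup.normalizer (((R : Sylow p K) : Subgroup K) : Set K)).index * _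
    rw [h2]
    exact (Subgroup.index_mul_card _).symm
  -- E5
  have E5 : Nat.card N = Nat.card (Sylow p (N ⧸ D.subgroupOf N)) * Nat.card ↥(N ⊓ Np) := by
    have h1 := CfsgLib.FGS.card_sylow_quotient_eq (D.subgroupOf N) (P.subtype hPN)
    have h2 : Subgroup.normalizer (((P.subtype hPN : Sylow p N) : Subgroup N) : Set N) = Np.subgroupOf N := by
      rw [hNp, Subgroup.subgroupOf_normalizer_eq hPN]
      rfl
    rw [h2, sup_eq_left.2 (fun x hx => hPnp (hDP hx))] at h1
    rw [h1, ← h8_card_subgroupOf]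
    exact (Subgroup.index_mul_card _).symm
  -- E6
  have E6 : Nat.card N * Nat.card ↥(Np ⊓ K) = Nat.card ↥(N ⊓ Np) * Nat.card ↥(K ⊓ Nd) := by
    have h1 := CfsgLib.PLocal.card_sup_mul_card_inf (N ⊓ Np) (K ⊓ Nd) (by
      intro x hx
      refine h8_normalizer_inf (hKnorm x) ?_
      have hxd : x ∈ Nd := hnpd x hx.2
      rw [Subgroup.mem_normalizer_iff]
      intro y
      constructor
      · intro hy; exact Nd.mul_mem (Nd.mul_mem hxd hy) (Nd.inv_mem hxd)
      · intro hy
        have := Nd.mul_mem (Nd.mul_mem (Nd.inv_mem hxd) hy) hxd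
        simpa [mul_assoc] using this)
    have h2 : N ⊓ Np ⊔ K ⊓ Nd = N := by
      apply le_antisymm
      · refine sup_le inf_le_left ?_
        rw [hN]
        exact inf_le_inf_right _ hKL
      · intro x hx
        have hxL : x ∈ (P : Subgroup G) ⊔ K := by rw [hN] at hx; exact hx.1
        rw [← SetLike.mem_coe, Subgroup.mul_normal, Set.mem_mul] at hxL
        obtain ⟨u, hu, k, hk, rfl⟩ := hxL
        refine Subgroup.mul_mem _ (Subgroup.mem_sup_left ⟨hPN hu, hPnp hu⟩) (Subgroup.mem_sup_right ⟨hk, ?_⟩)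
        have : k = u⁻¹ * (u * k) := by group
        rw [this]
        have hxd : u * k ∈ Nd := by rw [hN] at hx; exact hx.2
        exact Nd.mul_mem (Nd.inv_mem (hPnd hu)) hxd
    have h3 : N ⊓ Np ⊓ (K ⊓ Nd) = Np ⊓ K := by
      apply le_antisymm
      · intro x hx
        exact ⟨hx.1.2, hx.2.1⟩
      · intro x hx
        have hxd := hnpd x hx.1
        refine ⟨⟨?_, hx.1⟩, hx.2, hxd⟩
        rw [hN]
        exact ⟨hKL hx.2, hxd⟩
    rw [h2, h3] at h1
    exact h1
  -- combine
  have hpos1 : 0 < Nat.card ↥(Np ⊓ K) := Nat.card_pos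
  have hpos2 : 0 < Nat.card Np := Nat.card_pos
  have hpos3 : 0 < Nat.card ↥(N ⊓ Np) := Nat.card_pos
  have F1 : Nat.card (Sylow p G) * Nat.card ↥(Np ⊓ K) = Nat.card (Sylow p (G ⧸ K)) * Nat.card K := by
    apply Nat.eq_of_mul_eq_mul_left hpos2
    calc Nat.card Np * (Nat.card (Sylow p G) * Nat.card ↥(Np ⊓ K))
        = (Nat.card (Sylow p G) * Nat.card Np) * Nat.card ↥(Np ⊓ K) := by ring
      _ = (Nat.card (Sylow p (G ⧸ K)) * Nat.card ↥(Np ⊔ K)) * Nat.card ↥(Np ⊓ K) := by rw [← E1, ← E2]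
      _ = Nat.card (Sylow p (G ⧸ K)) * (Nat.card ↥(Np ⊔ K) * Nat.card ↥(Np ⊓ K)) := by ring
      _ = Nat.card (Sylow p (G ⧸ K)) * (Nat.card Np * Nat.card K) := by rw [E3]
      _ = _ := by ring
  have F2 : Nat.card ↥(K ⊓ Nd) = Nat.card (Sylow p (N ⧸ D.subgroupOf N)) * Nat.card ↥(Np ⊓ K) := by
    apply Nat.eq_of_mul_eq_mul_left hpos3
    rw [← E6, E5]
    ring
  apply Nat.eq_of_mul_eq_mul_right hpos1
  rw [F1, E4, F2]
  ring


/-- Let K be a normal subgroup of a finite group G, p a prime and P a Sylow p-subgroup of G; let N be the normalizer of P ∩ K inside the subgroup PK. Then the number of Sylow p-subgroups of G equals the product of the numbers of Sylow p-subgroups of G/K, of K, and of N/(P ∩ K). (The normality of P ∩ K in N, which always holds, is assumed as a hypothesis so that the quotient can be formed.) -/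
theorem result {G : Type*} [Group G] [Finite G]
    (p : ℕ) [Fact p.Prime] (K : Subgroup G) [K.Normal] (P : Sylow p G) (N : Subgroup G)
    (hN : N = ((P : Subgroup G) ⊔ K) ⊓ Subgroup.normalizer (((P : Subgroup G) ⊓ K : Subgroup G) : Set G))
    [hn : (((P : Subgroup G) ⊓ K).subgroupOf N).Normal] :
    Nat.card (Sylow p G) =
      Nat.card (Sylow p (G ⧸ K)) * Nat.card (Sylow p K) * Nat.card (Sylow p (N ⧸ ((P : Subgroup G) ⊓ K).subgroupOf N)) := by
  exact h8_aux p K P _ rfl N hN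

end Cfsg.Agent.S4341
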