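import Cfsg.Statements.S4343
import Mathlib
-- import your own Cfsg.Agent.* helpers here

set_option autoImplicit false
open Cfsg

namespace Cfsg.Agent.S4343

section aux
variable {S : Type*} [Group S] [Finite S] {p : ℕ} [hpp : Fact p.Prime]

theorem stab_eq (R T : Sylow p S) :
    MulAction.stabilizer (R : Subgroup S) T = (T : Subgroup S).subgroupOf (R : Subgroup S) := by
  ext ⟨r, hr⟩
  rw [MulAction.mem_stabilizer_iff, Subgroup.mem_subgroupOf]
  show (r • T = T) ↔ r ∈ (T : Subgroup S)
  rw [Sylow.smul_eq_iff_mem_normalizer]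
  constructor
  · intro h
    have h1 := R.isPGroup'.inf_normalizer_sylow T
    have : r ∈ (R : Subgroup S) ⊓ Subgroup.normalizer (T : Set S) := ⟨hr, h⟩
    rw [h1] at this
    exact this.2
  · intro h
    exact Subgroup.le_normalizer h

theorem orbit_ncard (hn : Nat.card (Sylow p S) < p ^ 2) (R T : Sylow p S) (hne : R ≠ T) :
    (MulAction.orbit (R : Subgroup S) T).ncard = p := by
  have h1 := MulAction.index_stabilizer (R : Subgroup S) T
  rw [stab_eq] at h1
  obtain ⟨k, hk⟩ := R.isPGroup'.index ((T : Subgroup S).subgroupOf (R : Subgroup S))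
  have h2 : (MulAction.orbit (R : Subgroup S) T).ncard ≤ Nat.card (Sylow p S) := by
    have := Set.ncard_le_ncard (Set.subset_univ (MulAction.orbit (R : Subgroup S) T)) (Set.toFinite Set.univ)
    rwa [Set.ncard_univ] at this
  rw [← h1, hk] at h2 ⊢
  have hp2 := hpp.out.two_le
  have hk2 : k < 2 := by
    by_contra hcon
    have : p ^ 2 ≤ p ^ k := Nat.pow_le_pow_right (by omega) (by omega)
    omega
  have hk0 : k ≠ 0 := by
    rintro rfl
    rw [pow_zero, Subgroup.index_eq_one] at hk
    apply hne
    have hle : (R : Subgroup S) ≤ T := by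
      intro x hx
      have : (⟨x, hx⟩ : (R : Subgroup S)) ∈ (T : Subgroup S).subgroupOf (R : Subgroup S) := by
        rw [hk]; exact Subgroup.mem_top _
      exact this
    exact Sylow.ext (R.is_maximal' T.isPGroup' hle).symm
  have : k = 1 := by omega
  rw [this, pow_one]

theorem index_inf (hn : Nat.card (Sylow p S) < p ^ 2) (R T : Sylow p S) (hne : R ≠ T) :
    ((T : Subgroup S).subgroupOf (R : Subgroup S)).index = p := by
  have h1 := MulAction.index_stabilizer (R : Subgroup S) T
  rw [stab_eq, orbit_ncard hn R T hne] at h1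
  exact h1

theorem card_inf (hn : Nat.card (Sylow p S) < p ^ 2) (R T : Sylow p S) (hne : R ≠ T) :
    Nat.card ↥((T : Subgroup S) ⊓ (R : Subgroup S)) * p = Nat.card (R : Subgroup S) := by
  have h1 := Subgroup.card_mul_index ((T : Subgroup S).subgroupOf (R : Subgroup S))
  rw [index_inf hn R T hne] at h1
  rw [← h1, ← Subgroup.inf_subgroupOf_right]
  congr 1
  exact (Nat.card_congr (Subgroup.subgroupOfEquivOfLe inf_le_right).toEquiv).symm

theorem inf_conj (hn : Nat.card (Sylow p S) < p ^ 2) (R T : Sylow p S) (hne : R ≠ T) (r : S) (hr : r ∈ (R : Subgroup S))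
    (x : S) (hx : x ∈ (T : Subgroup S)) (hxR : x ∈ (R : Subgroup S)) : r * x * r⁻¹ ∈ (T : Subgroup S) := by
  have hidx := index_inf hn R T hne
  obtain ⟨m, hm⟩ := IsPGroup.iff_card.1 R.isPGroup'
  have hm0 : m ≠ 0 := by
    rintro rfl
    rw [pow_zero] at hm
    have h1 := Subgroup.card_mul_index ((T : Subgroup S).subgroupOf (R : Subgroup S))
    rw [hidx, hm] at h1
    have := hpp.out.one_lt
    have h2 := Nat.eq_one_of_mul_eq_one_left h1
    omega
  have hnormal : ((T : Subgroup S).subgroupOf (R : Subgroup S)).Normal := by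
    apply Subgroup.normal_of_index_eq_minFac_card
    rw [hidx, hm, Nat.Prime.pow_minFac hpp.out hm0]
  have h3 : (⟨x, hxR⟩ : (R : Subgroup S)) ∈ (T : Subgroup S).subgroupOf (R : Subgroup S) := hx
  have h4 := hnormal.conj_mem _ h3 ⟨r, hr⟩
  exact h4

end aux

/-- Let S be a finite non-abelian simple group and p a prime dividing its order. If S has fewer than p² Sylow p-subgroups, then its Sylow p-subgroups have order p. -/
theorem result {S : Type*} [Group S] [Finite S]
    [IsSimpleGroup S] (hS : ¬ IsMulCommutative S) (p : ℕ) [Fact p.Prime] (hp : p ∣ Nat.card S)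
    (hn : Nat.card (Sylow p S) < p ^ 2) (P : Sylow p S) : Nat.card P = p := by
  classical
  by_contra hP
  haveI := Fintype.ofFinite (Sylow p S)
  -- no Sylow is everything
  have htop : ∀ R : Sylow p S, (R : Subgroup S) ≠ ⊤ := by
    intro R hR
    have hpg : IsPGroup p S := by
      have := R.isPGroup'
      rw [hR] at this
      intro g
      obtain ⟨k, hk⟩ := this ⟨g, Subgroup.mem_top g⟩
      exact ⟨k, by simpa [Subtype.ext_iff] using hk⟩
    haveI : Nontrivial S := IsSimpleGroup.toNontrivial
    haveI := hpg.center_nontrivial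
    have hc : Subgroup.center S ≠ ⊥ := by
      intro h
      have := (Subgroup.nontrivial_iff_ne_bot (Subgroup.center S)).1 inferInstance
      exact this h
    have hct : Subgroup.center S = ⊤ := ((inferInstance : (Subgroup.center S).Normal).eq_bot_or_eq_top).resolve_left hc
    apply hS
    refine ⟨⟨fun a b => ?_⟩⟩
    have : (b : S) ∈ Subgroup.center S := by rw [hct]; exact Subgroup.mem_top _
    exact (Subgroup.mem_center_iff.1 this a)
  -- a second Sylow
  have hPbot : (P : Subgroup S) ≠ ⊥ := P.ne_bot_of_dvd_card hp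
  obtain ⟨Q, hQ⟩ : ∃ Q : Sylow p S, P ≠ Q := by
    by_contra hcon
    push Not at hcon
    have hN : (P : Subgroup S).Normal := by
      constructor
      intro x hx g
      have h1 : g • P = P := (hcon _).symm
      have h2 : g * x * g⁻¹ ∈ ((g • P : Sylow p S) : Subgroup S) := by
        rw [Sylow.coe_subgroup_smul]
        exact Subgroup.mem_map_of_mem _ hx
      rwa [h1] at h2
    rcases hN.eq_bot_or_eq_top with h | h
    · exact hPbot h
    · exact htop P h
  set D : Subgroup S := (Q : Subgroup S) ⊓ (P : Subgroup S) with hD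
  have hDc : Nat.card D * p = Nat.card (P : Subgroup S) := card_inf hn P Q hQ
  have hcP : ∀ R : Sylow p S, Nat.card (R : Subgroup S) = Nat.card (P : Subgroup S) := by
    intro R
    exact Nat.card_congr (Sylow.equiv R P).toEquiv
  have hpos : 0 < p := (Fact.out : p.Prime).pos
  -- equal cardinalities of intersections
  have hcardD : ∀ T T' : Sylow p S, T ≠ T' → Nat.card ↥((T' : Subgroup S) ⊓ (T : Subgroup S)) = Nat.card D := by
    intro T T' hne
    have h1 := card_inf hn T T' hne
    rw [hcP T, ← hDc] at h1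
    exact Nat.eq_of_mul_eq_mul_right hpos h1
  have hDbot : D ≠ ⊥ := by
    intro h
    rw [h] at hDc
    simp at hDc
    apply hP
    exact hDc.symm
  -- `D` is not in every Sylow
  obtain ⟨R, hR⟩ : ∃ R : Sylow p S, ¬ D ≤ (R : Subgroup S) := by
    by_contra hcon
    push Not at hcon
    have h1 : D ≤ (P : Subgroup S).normalCore := by
      intro x hx g
      have h2 := hcon (g⁻¹ • P) hx
      rw [Sylow.coe_subgroup_smul] at h2
      obtain ⟨y, hy, hyx⟩ := h2
      have h3 : g * x * g⁻¹ = y := by
        rw [← hyx]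
        simp [MulAut.conj_apply]
        group
      rw [h3]; exact hy
    have h2 := Subgroup.normalCore_normal (P : Subgroup S)
    rcases h2.eq_bot_or_eq_top with h | h
    · rw [h] at h1
      exact hDbot (le_bot_iff.1 h1)
    · exact htop P (top_le_iff.1 (h ▸ Subgroup.normalCore_le _))
  -- the family
  set L : Finset (Sylow p S) := Finset.univ.filter (fun T => D ≤ (T : Subgroup S)) with hL
  let Orb : Sylow p S → Set (Sylow p S) := fun T => MulAction.orbit (R : Subgroup S) T
  have hRL : ∀ T ∈ L, R ≠ T := by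
    rintro T hT rfl
    simp only [hL, Finset.mem_filter, Finset.mem_univ, true_and] at hT
    exact hR hT
  have hdisj : ∀ T ∈ L, ∀ T' ∈ L, T ≠ T' → Disjoint ((Orb T).toFinset) ((Orb T').toFinset) := by
    intro T hT T' hT' hne
    rw [Finset.disjoint_left]
    intro V hV hV'
    simp only [Set.mem_toFinset] at hV hV'
    have hVT : T' ∈ MulAction.orbit (R : Subgroup S) T := by
      have h1 : MulAction.orbit (R : Subgroup S) V = MulAction.orbit (R : Subgroup S) T := MulAction.orbit_eq_iff.2 hV
      have h2 : MulAction.orbit (R : Subgroup S) V = MulAction.orbit (R : Subgroup S) T' := MulAction.orbit_eq_iff.2 hV'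
      rw [← h1, h2]
      exact MulAction.mem_orbit_self _
    obtain ⟨⟨r, hr⟩, hrT⟩ := hVT
    have hrT' : r • T = T' := hrT
    simp only [hL, Finset.mem_filter, Finset.mem_univ, true_and] at hT hT'
    -- E ≤ T'
    have hE : (T : Subgroup S) ⊓ (R : Subgroup S) ≤ (T' : Subgroup S) := by
      rintro x ⟨hx1, hx2⟩
      have hx3 : r⁻¹ * x * r ∈ (T : Subgroup S) := by
        have := inf_conj hn R T (hRL T (by simpa [hL] using hT)) r⁻¹ (Subgroup.inv_mem _ hr) x hx1 hx2
        simpa using this
      rw [← hrT', Sylow.coe_subgroup_smul]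
      refine ⟨_, hx3, ?_⟩
      simp
      group
    have h1 : D ≤ (T' : Subgroup S) ⊓ (T : Subgroup S) := le_inf hT' hT
    have h2 : D = (T' : Subgroup S) ⊓ (T : Subgroup S) :=
      Subgroup.eq_of_le_of_card_ge h1 (le_of_eq (hcardD T T' hne))
    have h3 : (T : Subgroup S) ⊓ (R : Subgroup S) ≤ D := by
      rw [h2]
      exact le_inf hE inf_le_left
    have h4 : (T : Subgroup S) ⊓ (R : Subgroup S) = D :=
      Subgroup.eq_of_le_of_card_ge h3 (le_of_eq (hcardD R T (hRL T (by simpa [hL] using hT))).symm)
    exact hR (h4 ▸ inf_le_right)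
  have hOrbCard : ∀ T ∈ L, ((Orb T).toFinset).card = p := by
    intro T hT
    have h1 := orbit_ncard hn R T (hRL T hT)
    rw [Set.ncard_eq_toFinset_card'] at h1
    exact h1
  have hLcard : p ≤ L.card := by
    have h1 := orbit_ncard hn P Q hQ
    rw [Set.ncard_eq_toFinset_card'] at h1
    refine h1.symm.le.trans ?_
    apply Finset.card_le_card
    intro V hV
    simp only [Set.mem_toFinset] at hV
    obtain ⟨⟨u, hu⟩, huV⟩ := hV
    have huV' : u • Q = V := huV
    simp only [hL, Finset.mem_filter, Finset.mem_univ, true_and]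
    rw [← huV', Sylow.coe_subgroup_smul]
    rintro x ⟨hx1, hx2⟩
    have hx3 : u⁻¹ * x * u ∈ (Q : Subgroup S) := by
      have := inf_conj hn P Q hQ u⁻¹ (Subgroup.inv_mem _ hu) x hx1 hx2
      simpa using this
    refine ⟨_, hx3, ?_⟩
    simp
    group
  have htotal := Finset.card_biUnion hdisj
  rw [Finset.sum_congr rfl hOrbCard, Finset.sum_const, smul_eq_mul] at htotal
  have hle : (L.biUnion (fun T => (Orb T).toFinset)).card ≤ Nat.card (Sylow p S) := by
    rw [Nat.card_eq_fintype_card]
    exact Finset.card_le_univ _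
  rw [htotal] at hle
  have : p * p ≤ L.card * p := Nat.mul_le_mul_right _ hLcard
  rw [pow_two] at hn
  omega

end Cfsg.Agent.S4343
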