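import Cfsg.Statements.S4344
import Cfsg.Agent.Lib.FGS.Syl

set_option autoImplicit false
open Cfsg

namespace Cfsg.Agent.S4344

/-- Let S be a finite non-abelian simple group, M a maximal subgroup of S and C a cyclic normal subgroup of M. If a Sylow p-subgroup P of S (for a prime p dividing the order of S) is contained in C, then the number of Sylow p-subgroups of S equals the index of M. -/
theorem result {S : Type*} [Group S] [Finite S]
    [IsSimpleGroup S] (hS : ¬ IsMulCommutative S) (p : ℕ) [Fact p.Prime] (hp : p ∣ Nat.card S)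
    (M : Subgroup S) (hM : IsCoatom M) (C : Subgroup S) (hCM : C ≤ M) (hCn : (C.subgroupOf M).Normal)
    (hC : IsCyclic C) (P : Sylow p S) (hP : (P : Subgroup S) ≤ C) :
    Nat.card (Sylow p S) = M.index := by
  classical
  haveI hCc := hC
  have hPnormM : M ≤ Subgroup.normalizer ((P : Subgroup S) : Set S) := by
    intro g hg
    apply CfsgLib.FGS.mem_normalizer_of_conj_sylow_le
    intro x hx
    haveI : IsCyclic ((P : Subgroup S).subgroupOf C) := inferInstance
    obtain ⟨c, hc⟩ := IsCyclic.exists_ofOrder_eq_natCard (α := (P : Subgroup S).subgroupOf C)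
    have hcC : ((c : C) : S) ∈ (P : Subgroup S) := Subgroup.mem_subgroupOf.mp c.2
    have hxC : x ∈ C := hP hx
    have hyC : g * x * g⁻¹ ∈ C := by
      have h1 := hCn.conj_mem ⟨x, hCM hxC⟩ (Subgroup.mem_subgroupOf.mpr hxC) ⟨g, hg⟩
      exact Subgroup.mem_subgroupOf.mp h1
    have hcard : Nat.card ((P : Subgroup S).subgroupOf C) = Nat.card (P : Subgroup S) :=
      Nat.card_congr (Subgroup.subgroupOfEquivOfLe hP).toEquiv
    have hord : orderOf (⟨g * x * g⁻¹, hyC⟩ : C) ∣ orderOf (c : C) := by
      rw [Subgroup.orderOf_mk, CfsgLib.FGS.orderOf_conj_eq, Subgroup.orderOf_coe, hc, hcard]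
      exact Subgroup.orderOf_dvd_natCard _ hx
    have h2 := CfsgLib.FGS.mem_zpowers_of_orderOf_dvd_of_isCyclic hord
    have h3 : (⟨g * x * g⁻¹, hyC⟩ : C) ∈ (P : Subgroup S).subgroupOf C :=
      (Subgroup.zpowers_le.mpr c.2) h2
    exact Subgroup.mem_subgroupOf.mp h3
  have hNne : Subgroup.normalizer ((P : Subgroup S) : Set S) ≠ ⊤ := by
    intro h
    have hn : (P : Subgroup S).Normal := Subgroup.normalizer_eq_top_iff.mp h
    rcases hn.eq_bot_or_eq_top with h0 | h0
    · exact P.ne_bot_of_dvd_card hp h0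
    · apply hS
      have hCt : C = ⊤ := top_le_iff.mp (h0 ▸ hP)
      have hcomm : ∀ a b : C, a * b = b * a := hC.commGroup.mul_comm
      refine ⟨⟨fun a b => ?_⟩⟩
      have ha : a ∈ C := hCt ▸ Subgroup.mem_top a
      have hb : b ∈ C := hCt ▸ Subgroup.mem_top b
      exact congrArg Subtype.val (hcomm ⟨a, ha⟩ ⟨b, hb⟩)
  have hMN : M = Subgroup.normalizer ((P : Subgroup S) : Set S) := by
    by_contra hne
    exact hNne (hM.2 _ (lt_of_le_of_ne hPnormM hne))
  rw [hMN]
  exact Sylow.card_eq_index_normalizer P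

end Cfsg.Agent.S4344
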