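import Cfsg.Statements.S4345
import Cfsg.Agent.Lib.FGS.SylCount

set_option autoImplicit false
open Cfsg

namespace Cfsg.Agent.S4345

universe u in
theorem h8_aux (p ℓ : ℕ) [Fact p.Prime] (hℓ : ℓ.Prime) : ∀ (n : ℕ) (G : Type u) [Group G] [Finite G],
    Nat.card G = n → Group.IsSolvable G → ℓ ^ (Nat.card (Sylow p G)).factorization ℓ ≡ 1 [MOD p] := by
  intro n
  induction n using Nat.strong_induction_on with
  | _ n ih =>
    intro G _ _ hG hsolv
    by_cases ht : Subsingleton G
    · haveI : Group.IsNilpotent G := by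
        have : IsPGroup p G := IsPGroup.of_card (n := 0) (by simp [Nat.card_of_subsingleton])
        exact this.isNilpotent
      rw [CfsgLib.FGS.card_sylow_of_nilpotent p (G := G)]
      simp [Nat.ModEq]
    · haveI : Nontrivial G := not_subsingleton_iff_nontrivial.1 ht
      obtain ⟨K, hKn, hK0, hmin⟩ := CfsgLib.Solv.exists_minimal_normal G
      haveI := hKn
      obtain ⟨-, q, hq, hqK⟩ := CfsgLib.Solv.minimal_normal_elementary K hK0 hmin
      have hKp : IsPGroup q K := by
        intro x
        exact ⟨1, by ext; simpa using hqK x x.2⟩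
      obtain ⟨a, ha, hqa⟩ := CfsgLib.FGS.sylow_count_factor p K hq hKp
      have hlt : Nat.card (G ⧸ K) < n := by
        rw [← hG, Subgroup.card_eq_card_quotient_mul_card_subgroup K]
        have h1 : 1 < Nat.card K := Subgroup.one_lt_card_iff_ne_bot K |>.2 hK0
        have h2 : 0 < Nat.card (G ⧸ K) := Nat.card_pos
        nlinarith
      have h1 := ih _ hlt (G ⧸ K) rfl (by infer_instance)
      have hne : Nat.card (Sylow p (G ⧸ K)) ≠ 0 := Nat.card_pos.ne'
      exact CfsgLib.FGS.factorization_part_mul hne hq hℓ a h1 hqa ha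


/-- Let G be a finite solvable group and p, ℓ primes. Then the largest power of ℓ dividing the number of Sylow p-subgroups of G is congruent to 1 modulo p. -/
theorem result {G : Type*} [Group G] [Finite G]
    (hG : Group.IsSolvable G) (p ℓ : ℕ) [Fact p.Prime] (hℓ : ℓ.Prime) :
    ℓ ^ (Nat.card (Sylow p G)).factorization ℓ ≡ 1 [MOD p] := by
  exact h8_aux p ℓ hℓ _ G rfl hG

end Cfsg.Agent.S4345
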