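import Cfsg.Statements.S4364
import Cfsg.Agent.Lib.Kaz.Main
import Cfsg.Agent.Lib.Solv.Fit
import Cfsg.Agent.Lib.H3.Comp2
import Cfsg.Agent.Lib.OOL.Stable
-- import your own Cfsg.Agent.* helpers here

set_option autoImplicit false
open Cfsg

namespace Cfsg.Agent.S4364

/-- Let G be a finite group, p a prime and x an element whose conjugacy class has p-power size. Then for any two conjugates y and z of x, the commutator y z y⁻¹ z⁻¹ lies in O_p(G), the largest normal p-subgroup of G. -/
theorem result {G : Type*} [Group G] [Finite G] (p : ℕ) [Fact p.Prime]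
    (x : G) (hx : ∃ a : ℕ, (Subgroup.centralizer ({x} : Set G)).index = p ^ a) (g h : G) :
    (g * x * g⁻¹) * (h * x * h⁻¹) * (g * x * g⁻¹)⁻¹ * (h * x * h⁻¹)⁻¹ ∈ Cfsg.pCore p G := by
  classical
  obtain ⟨a, ha⟩ := hx
  have hpp : p.Prime := Fact.out
  set O := Cfsg.pCore p G with hOdef
  haveI hOn : O.Normal := CfsgLib.PLocal.pCore_normal'
  have hOp : IsPGroup p O := CfsgLib.PLocal.pCore_isPGroup
  -- pass to the quotient
  let π : G →* G ⧸ O := QuotientGroup.mk' O
  have hO : Cfsg.pCore p (G ⧸ O) = ⊥ := by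
    rw [eq_bot_iff]
    intro z hz
    induction z using QuotientGroup.induction_on with
    | H t =>
      have h1 := CfsgLib.OOL.mem_pCore_of_quot O hOp hz
      exact (QuotientGroup.eq_one_iff t).2 h1
  set X : G ⧸ O := π x with hX
  have hle : Subgroup.centralizer ({x} : Set G) ≤
      (Subgroup.centralizer ({X} : Set (G ⧸ O))).comap π := by
    intro t ht
    rw [Subgroup.mem_comap, Subgroup.mem_centralizer_singleton_iff]
    rw [Subgroup.mem_centralizer_singleton_iff] at ht
    rw [hX, ← map_mul, ← map_mul, ht]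
  have hdvd := Subgroup.index_dvd_of_le hle
  rw [Subgroup.index_comap_of_surjective _ (QuotientGroup.mk'_surjective O), ha] at hdvd
  obtain ⟨j, -, hj⟩ := (Nat.dvd_prime_pow hpp).1 hdvd
  set K := Subgroup.normalClosure ({X} : Set (G ⧸ O)) with hKdef
  haveI hKn : K.Normal := Subgroup.normalClosure_normal
  haveI hKs : Group.IsSolvable K := CfsgLib.Kaz.kazarin X hpp hj
  -- conjugates of X are in K
  have hconjK : ∀ c : G ⧸ O, c * X * c⁻¹ ∈ K := fun c =>
    hKn.conj_mem X (Subgroup.subset_normalClosure (Set.mem_singleton X)) c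
  set F : Subgroup K := Cfsg.fittingSubgroup K with hF
  haveI hFc : F.Characteristic := CfsgLib.Comp.fitting_char
  haveI hFnil : Group.IsNilpotent F := CfsgLib.Solv.fitting_nilpotent
  set F' : Subgroup (G ⧸ O) := F.map K.subtype with hF'
  haveI hF'n : F'.Normal := CfsgLib.OOL.char_map_normal F
  haveI hF'nil : Group.IsNilpotent F' :=
    Group.nilpotent_of_mulEquiv (F.equivMapOfInjective K.subtype K.subtype_injective)
  -- F' has order prime to p
  have hF'c : ¬ p ∣ Nat.card F' := by
    let S : Sylow p F' := default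
    have hSn : (S : Subgroup F').Normal :=
      Sylow.normal_of_normalizerCondition Group.normalizerCondition_of_isNilpotent S
    haveI hSc : (S : Subgroup F').Characteristic := Sylow.characteristic_of_normal S hSn
    haveI hSmn : ((S : Subgroup F').map F'.subtype).Normal := CfsgLib.OOL.char_map_normal (S : Subgroup F')
    have h1 : (S : Subgroup F').map F'.subtype ≤ Cfsg.pCore p (G ⧸ O) :=
      CfsgLib.PLocal.le_pCore_of_normal _ hSmn (S.isPGroup'.map _)
    rw [hO, le_bot_iff, Subgroup.map_eq_bot_iff_of_injective _ F'.subtype_injective] at h1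
    have h2 := S.not_dvd_index
    rw [h1, Subgroup.index_bot] at h2
    exact h2
  -- F' centralizes all conjugates of X
  have hcent : ∀ (c : G ⧸ O), ∀ u ∈ F', u * (c * X * c⁻¹) = (c * X * c⁻¹) * u := by
    intro c u hu
    have h1 : (Subgroup.centralizer ({c * X * c⁻¹} : Set (G ⧸ O))).index = p ^ j := by
      rw [CfsgLib.Kaz.index_centralizer_conj, hj]
    have h2 := CfsgLib.Kaz.relIndex_dvd_index_of_normal_right
      (Subgroup.centralizer ({c * X * c⁻¹} : Set (G ⧸ O))) F'
    rw [h1] at h2
    obtain ⟨i, -, hi⟩ := (Nat.dvd_prime_pow hpp).1 h2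
    have h3 : (Subgroup.centralizer ({c * X * c⁻¹} : Set (G ⧸ O))).relIndex F' ∣ Nat.card F' := by
      rw [Subgroup.relIndex]
      exact Subgroup.index_dvd_card _
    have hi0 : i = 0 := by
      by_contra hne
      rw [hi] at h3
      exact hF'c (dvd_trans (dvd_pow_self p hne) h3)
    rw [hi0, pow_zero, Subgroup.relIndex_eq_one] at hi
    exact Subgroup.mem_centralizer_singleton_iff.1 (hi hu)
  -- so F' centralizes K
  have hcentK : ∀ u ∈ F', ∀ w ∈ K, u * w = w * u := by
    intro u hu w hw
    have hcl : K ≤ Subgroup.centralizer ({u} : Set (G ⧸ O)) := by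
      show Subgroup.closure (Group.conjugatesOfSet ({X} : Set (G ⧸ O))) ≤ _
      rw [Subgroup.closure_le]
      intro y hy
      obtain ⟨b, hb, hconj⟩ := Group.mem_conjugatesOfSet_iff.1 hy
      rw [Set.mem_singleton_iff] at hb
      subst hb
      obtain ⟨c, hc⟩ := isConj_iff.1 hconj
      show y ∈ Subgroup.centralizer ({u} : Set (G ⧸ O))
      rw [Subgroup.mem_centralizer_singleton_iff, ← hc]
      exact (hcent c u hu).symm
    have := Subgroup.mem_centralizer_singleton_iff.1 (hcl hw)
    exact this.symm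
  have hFtop : F = ⊤ := by
    rw [eq_top_iff]
    have h1 : Subgroup.centralizer (F : Set K) = ⊤ := by
      rw [eq_top_iff]
      intro w _
      rw [Subgroup.mem_centralizer_iff]
      intro u hu
      apply Subtype.ext
      exact hcentK u.1 ⟨u, hu, rfl⟩ w.1 w.2
    rw [← h1]
    exact CfsgLib.Solv.centralizer_fitting_le
  have hKF : K ≤ F' := by
    intro w hw
    refine ⟨⟨w, hw⟩, ?_, rfl⟩
    rw [hFtop]
    trivial
  -- conclude
  have hfin : (π g * X * (π g)⁻¹) * (π h * X * (π h)⁻¹) =
      (π h * X * (π h)⁻¹) * (π g * X * (π g)⁻¹) :=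
    hcentK _ (hKF (hconjK (π g))) _ (hconjK (π h))
  rw [← QuotientGroup.eq_one_iff]
  show π _ = 1
  simp only [map_mul, map_inv]
  rw [← hX, hfin]
  group

end Cfsg.Agent.S4364
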