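import Cfsg.Statements.S4370
import Cfsg.Agent.Lib.H3.QuatCent

set_option autoImplicit false
open Cfsg

namespace Cfsg.Agent.S4370

/-- Let G be a finite non-abelian nilpotent group. Then the centralizer of every non-central element of G is cyclic if and only if G is isomorphic to the direct product of a generalized quaternion group and a cyclic group of odd order. -/
theorem result {G : Type*} [Group G] [Finite G] (hG : Group.IsNilpotent G)
    (hna : ¬ IsMulCommutative G) :
    (∀ x : G, x ∉ Subgroup.center G → IsCyclic (Subgroup.centralizer ({x} : Set G))) ↔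
      ∃ (k m : ℕ), 1 ≤ k ∧ Odd m ∧ Nonempty (G ≃* QuaternionGroup (2 ^ k) × Multiplicative (ZMod m)) := by
  constructor
  · exact CfsgLib.QuatCent.forward hG hna
  · rintro ⟨k, m, -, hm, ⟨e⟩⟩ x hx
    exact CfsgLib.QuatCent.reverse k m hm e x hx

end Cfsg.Agent.S4370
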