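import Mathlib
import Cfsg.Agent.Lib.ClassMax.OrderType
import Cfsg.Agent.Lib.ClassMax.OrderTypeS
import Cfsg.Agent.Lib.ClassMax.OrderTypeT
import Cfsg.Agent.Lib.ClassMax.OrderTypeT2
import Cfsg.Statements.S4376
-- import your own Cfsg.Agent.* helpers here

set_option autoImplicit false
open Cfsg

namespace Cfsg.Agent.S4376

open CfsgLib.OrderType

def listH : List Bun :=
  List.replicate 3 (c2Bun) ++
  List.replicate 13 (mkK 0 0 0 1 0 0) ++
  List.replicate 1 (c3Bun) ++
  List.replicate 5 (mkK 1 0 0 0 0 0) ++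
  List.replicate 8 (mkK 1 0 1 0 0 0) ++
  List.replicate 1 (mkK 0 0 0 0 1 2) ++
  List.replicate 4 (mkK 0 0 0 0 0 1) ++
  List.replicate 2 (mkK 1 0 0 0 1 1) ++
  List.replicate 2 (mkK 0 0 2 1 0 0) ++
  List.replicate 7 (mkK 0 0 1 0 1 1) ++
  List.replicate 5 (mkK 0 0 1 1 0 1) ++
  List.replicate 5 (mkK 0 1 1 1 0 0) ++
  List.replicate 3 (mkK 0 0 2 0 1 0) ++
  List.replicate 1 (mkK 2 0 0 0 0 0) ++
  List.replicate 1 (mkK 0 0 1 1 2 0) ++
  List.replicate 2 (mkK 0 0 1 0 1 0) ++
  List.replicate 2 (mkK 1 0 0 0 0 1)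

def listG : List Bun :=
  [sBun] ++
  List.replicate 11 (mkK 0 0 0 0 1 1) ++
  List.replicate 3 (mkK 0 0 0 0 0 0) ++
  List.replicate 5 (mkK 0 1 1 0 0 0) ++
  List.replicate 2 (mkK 0 0 0 1 0 2) ++
  List.replicate 7 (mkK 1 0 0 1 0 0) ++
  List.replicate 2 (mkK 0 0 1 1 1 0) ++
  List.replicate 7 (mkK 0 0 1 1 0 0) ++
  List.replicate 5 (mkK 1 0 1 0 1 0) ++
  List.replicate 2 (mkK 0 0 0 1 0 1) ++
  List.replicate 3 (mkK 1 0 1 1 0 0) ++
  List.replicate 1 (mkK 2 0 0 0 0 1) ++
  List.replicate 3 (mkK 0 0 2 0 0 0) ++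
  List.replicate 2 (mkK 1 0 0 1 0 1) ++
  List.replicate 7 (mkK 0 0 1 0 0 0) ++
  List.replicate 2 (mkK 0 0 2 0 0 1)


theorem key : ∀ d ∈ Ds, tabT d * (Big listH).val d = (Big listG).val d := by
  decide +kernel

/-- There are finite groups G and H having the same number of elements of each order (the same order type) with G solvable and H not solvable. -/
theorem result :
    ∃ (G : Type) (_ : Group G) (_ : Finite G) (H : Type) (_ : Group H) (_ : Finite H),
      Group.IsSolvable G ∧ ¬ Group.IsSolvable H ∧ ∀ n : ℕ, Nat.card {g : G // orderOf g = n} = Nat.card {h : H // orderOf h = n} := by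
  refine ⟨(Big listG).α, inferInstance, inferInstance, T168 × (Big listH).α, inferInstance,
    inferInstance, inferInstance, ?_, ?_⟩
  · intro h
    haveI := h
    have hinj : Function.Injective (MonoidHom.inl T168 (Big listH).α) :=
      fun a b hab => congrArg Prod.fst hab
    exact T168_not_solvable (Group.isSolvable_of_isSolvable_injective hinj)
  · refine order_count_eq fun n _ => ?_
    have hG : ∀ x : (Big listG).α, x ^ 84 = 1 := (Big listG).exp
    have hH : ∀ x : T168 × (Big listH).α, x ^ 84 = 1 := fun x =>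
      Prod.ext (T168_exp x.1) ((Big listH).exp x.2)
    rw [solCount_gcd 84 hG n, solCount_gcd 84 hH n, solCount_prod]
    have hd : Nat.gcd n 84 ∣ 84 := Nat.gcd_dvd_right n 84
    rw [(Big listG).hval _ hd, (Big listH).hval _ hd, solCount_T _ (mem_Ds _ hd)]
    exact (key _ (mem_Ds _ hd)).symm

end Cfsg.Agent.S4376
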