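import Cfsg.Statements.S4377
import Cfsg.Agent.Lib.FGS.Elem

set_option autoImplicit false
open Cfsg

namespace Cfsg.Agent.S4377

/-- Two finite groups have the same number of elements of each order if and only if, for every n, they have the same number of elements g with gⁿ = 1. -/
theorem result {G H : Type*} [Group G] [Finite G] [Group H] [Finite H] :
    (∀ n : ℕ, Nat.card {g : G // orderOf g = n} = Nat.card {h : H // orderOf h = n}) ↔
      ∀ n : ℕ, Nat.card {g : G // g ^ n = 1} = Nat.card {h : H // h ^ n = 1} := by
  constructor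
  · intro h n
    have hsum : ∀ n : ℕ, n ≠ 0 → Nat.card {g : G // g ^ n = 1} = Nat.card {h : H // h ^ n = 1} := by
      intro n hn
      rw [CfsgLib.FGS.card_pow_eq_one_eq_sum hn, CfsgLib.FGS.card_pow_eq_one_eq_sum hn]
      exact Finset.sum_congr rfl fun d _ => h d
    rcases eq_or_ne n 0 with rfl | hn
    · have hpG : 0 < Nat.card G := Nat.card_pos
      have hpH : 0 < Nat.card H := Nat.card_pos
      have hN : Nat.card G * Nat.card H ≠ 0 := (Nat.mul_pos hpG hpH).ne'
      have h1 := hsum _ hN
      have h2 : Nat.card {g : G // g ^ (Nat.card G * Nat.card H) = 1} = Nat.card G := by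
        have : ∀ g : G, g ^ (Nat.card G * Nat.card H) = 1 := fun g => by
          rw [pow_mul, pow_card_eq_one', one_pow]
        exact Nat.card_congr (Equiv.subtypeUnivEquiv this)
      have h3 : Nat.card {g : H // g ^ (Nat.card G * Nat.card H) = 1} = Nat.card H := by
        have : ∀ g : H, g ^ (Nat.card G * Nat.card H) = 1 := fun g => by
          rw [mul_comm, pow_mul, pow_card_eq_one', one_pow]
        exact Nat.card_congr (Equiv.subtypeUnivEquiv this)
      rw [h2, h3] at h1
      have h4 : Nat.card {g : G // g ^ 0 = 1} = Nat.card G :=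
        Nat.card_congr (Equiv.subtypeUnivEquiv (fun g => pow_zero g))
      have h5 : Nat.card {g : H // g ^ 0 = 1} = Nat.card H :=
        Nat.card_congr (Equiv.subtypeUnivEquiv (fun g => pow_zero g))
      rw [h4, h5, h1]
    · exact hsum n hn
  · intro h n
    induction n using Nat.strong_induction_on with
    | _ n ih =>
    rcases eq_or_ne n 0 with rfl | hn
    · have h1 : IsEmpty {g : G // orderOf g = 0} := ⟨fun x => (orderOf_pos x.1).ne' x.2⟩
      have h2 : IsEmpty {g : H // orderOf g = 0} := ⟨fun x => (orderOf_pos x.1).ne' x.2⟩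
      rw [Nat.card_of_isEmpty, Nat.card_of_isEmpty]
    · have h1 := h n
      rw [CfsgLib.FGS.card_pow_eq_one_eq_sum hn, CfsgLib.FGS.card_pow_eq_one_eq_sum hn,
        ← Nat.insert_self_properDivisors hn, Finset.sum_insert (by simp), Finset.sum_insert (by simp)] at h1
      have h2 : ∑ d ∈ n.properDivisors, Nat.card {g : G // orderOf g = d} =
          ∑ d ∈ n.properDivisors, Nat.card {g : H // orderOf g = d} :=
        Finset.sum_congr rfl fun d hd => ih d (Nat.mem_properDivisors.mp hd).2
      omega

end Cfsg.Agent.S4377
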