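import Cfsg.Statements.S4381
import Cfsg.Agent.Lib.FGS.Cover
import Cfsg.Agent.Lib.PLocal.Maschke
import Cfsg.Agent.Lib.Solv.CoprimeSylow
import Cfsg.Agent.Lib.Solv.PGroup

set_option autoImplicit false
open Pointwise
open Cfsg
open scoped commutatorElement
open scoped Pointwise

namespace Cfsg.Agent.S4381

open scoped Pointwise in
theorem h8_inv_sylow {A G : Type*} [Group A] [Finite A] [Group G] [Finite G] [MulDistribMulAction A G]
    (hcop : (Nat.card A).Coprime (Nat.card G)) (hsol : Group.IsSolvable A ∨ Group.IsSolvable G)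
    (r : ℕ) [Fact r.Prime] :
    ∃ S : Subgroup G, IsPGroup r S ∧ ¬ r ∣ S.index ∧ ∀ a : A, ∀ x ∈ S, a • x ∈ S := by
  classical
  let φ : A →* MulAut G := MulDistribMulAction.toMulAut A G
  let inl' : G →* G ⋊[φ] A := SemidirectProduct.inl
  let inr' : A →* G ⋊[φ] A := SemidirectProduct.inr
  haveI : Finite (G ⋊[φ] A) := Finite.of_equiv _ SemidirectProduct.equivProd.symm
  have hinl : Function.Injective inl' := SemidirectProduct.inl_injective
  have hinr : Function.Injective inr' := SemidirectProduct.inr_injective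
  obtain ⟨K, hK⟩ : ∃ K : Subgroup (G ⋊[φ] A), K = inl'.range := ⟨_, rfl⟩
  obtain ⟨B, hB⟩ : ∃ B : Subgroup (G ⋊[φ] A), B = inr'.range := ⟨_, rfl⟩
  haveI hKn : K.Normal := by
    rw [hK]
    have : inl'.range = (SemidirectProduct.rightHom : G ⋊[φ] A →* A).ker := SemidirectProduct.range_inl_eq_ker_rightHom
    rw [this]
    infer_instance
  have hcK : Nat.card K = Nat.card G := by
    rw [hK]; exact Nat.card_congr (MonoidHom.ofInjective hinl).toEquiv.symm
  have hcB : Nat.card B = Nat.card A := by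
    rw [hB]; exact Nat.card_congr (MonoidHom.ofInjective hinr).toEquiv.symm
  have hAK : B ≤ Subgroup.normalizer (K : Set (G ⋊[φ] A)) := by
    rw [Subgroup.normalizer_eq_top_iff.2 hKn]; exact le_top
  have hsolv : Group.IsSolvable B ∨ Group.IsSolvable K := by
    rcases hsol with h | h
    · left
      rw [hB]
      exact Group.isSolvable_of_surjective inr'.rangeRestrict_surjective
    · right
      rw [hK]
      exact Group.isSolvable_of_surjective inl'.rangeRestrict_surjective
  obtain ⟨P, ⟨hPK, hPp, hPi⟩, hPn⟩ := CfsgLib.Solv.exists_invariant_sylow (p := r) B K hAK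
    (by rw [hcB, hcK]; exact hcop) hsolv
  refine ⟨P.comap inl', hPp.comap_of_injective inl' hinl, ?_, ?_⟩
  · have h1 : (P.comap inl').relIndex ⊤ = P.relIndex (Subgroup.map inl' ⊤) := Subgroup.relIndex_comap P inl' ⊤
    rw [Subgroup.relIndex_top_right, ← MonoidHom.range_eq_map, ← hK] at h1
    rw [h1]
    exact hPi
  · intro a x hx
    have h1 : inl' x ∈ P := hx
    have h2 : inr' a ∈ Subgroup.normalizer (P : Set (G ⋊[φ] A)) := hPn (by rw [hB]; exact ⟨a, rfl⟩)
    have h3 := (Subgroup.mem_normalizer_iff.1 h2 _).1 h1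
    have h4 : inr' a * inl' x * (inr' a)⁻¹ = inl' (a • x) := by
      have := SemidirectProduct.inl_aut (φ := φ) a x
      simp only [inl', inr']
      rw [← map_inv, ← this]
      rfl
    rw [h4] at h3
    exact h3

abbrev h8Inv (A : Type*) {G : Type*} [Group A] [Group G] [MulDistribMulAction A G] (L : Subgroup G) : Prop :=
  ∀ a : A, ∀ x ∈ L, a • x ∈ L

abbrev h8Max (A : Type*) {G : Type*} [Group A] [Group G] [MulDistribMulAction A G] (M : Subgroup G) : Prop :=
  M ≠ ⊤ ∧ (∀ a : A, ∀ x ∈ M, a • x ∈ M) ∧ ∀ L : Subgroup G, M < L → (∀ a : A, ∀ x ∈ L, a • x ∈ L) → L = ⊤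

theorem h8_exists_max {A G : Type*} [Group A] [Group G] [Finite G] [MulDistribMulAction A G]
    (L : Subgroup G) (hL : L ≠ ⊤) (hinv : h8Inv A L) : ∃ M : Subgroup G, L ≤ M ∧ h8Max A M := by
  classical
  have hfin : ({M : Subgroup G | L ≤ M ∧ M ≠ ⊤ ∧ h8Inv A M}).Finite := Set.toFinite _
  obtain ⟨M, hM⟩ := hfin.exists_maximal ⟨L, le_rfl, hL, hinv⟩
  refine ⟨M, hM.1.1, hM.1.2.1, hM.1.2.2, ?_⟩
  intro K hMK hK
  by_contra hne
  have h1 : K ≤ M := hM.2 ⟨hM.1.1.trans hMK.le, hne, hK⟩ hMK.le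
  exact absurd h1 (not_le_of_gt hMK)

theorem h8_exists_complement {E : Type*} [CommGroup E] [Finite E] (p : ℕ) [Fact p.Prime]
    (hexp : ∀ e : E, e ^ p = 1) (N : Subgroup E) : ∃ W : Subgroup E, N ⊓ W = ⊥ ∧ N ⊔ W = ⊤ := by
  classical
  have hpp : p.Prime := Fact.out
  have hfin : ({W : Subgroup E | N ⊓ W = ⊥}).Finite := Set.toFinite _
  obtain ⟨W, hW⟩ := hfin.exists_maximal ⟨⊥, inf_bot_eq _⟩
  refine ⟨W, hW.1, ?_⟩
  by_contra hne
  obtain ⟨x, -, hx⟩ := SetLike.exists_of_lt (lt_top_iff_ne_top.2 hne)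
  have h1 : N ⊓ (W ⊔ Subgroup.zpowers x) = ⊥ := by
    rw [eq_bot_iff]
    rintro y ⟨hyN, hyW⟩
    obtain ⟨w, hw, b, hb, rfl⟩ := Subgroup.mem_sup.1 hyW
    obtain ⟨i, rfl⟩ := hb
    replace hyN : w * x ^ i ∈ N := hyN
    show w * x ^ i ∈ (⊥ : Subgroup E)
    by_cases hb1 : x ^ i = 1
    · rw [hb1, mul_one] at hyN ⊢
      have : w ∈ N ⊓ W := ⟨hyN, hw⟩
      rw [hW.1] at this
      exact this
    · exfalso
      apply hx
      have hdvd : ¬ (p : ℤ) ∣ i := by
        intro hd
        obtain ⟨j, rfl⟩ := hd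
        apply hb1
        rw [zpow_mul, zpow_natCast, hexp, one_zpow]
      have hc : IsCoprime i (p : ℤ) := ((Nat.prime_iff_prime_int.1 hpp).coprime_iff_not_dvd.2 hdvd).symm
      obtain ⟨u, v, huv⟩ := hc
      have h2 : x = (x ^ i) ^ u := by
        have h3 : x ^ (u * i + v * (p : ℤ)) = x := by rw [huv, zpow_one]
        rw [zpow_add, mul_comm v, zpow_mul x (p : ℤ) v, zpow_natCast, hexp, one_zpow, mul_one, mul_comm u, zpow_mul] at h3
        exact h3.symm
      have h4 : x ^ i ∈ N ⊔ W := by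
        have h5 : x ^ i = w⁻¹ * (w * x ^ i) := by group
        rw [h5]
        exact Subgroup.mul_mem _ (Subgroup.mem_sup_right (W.inv_mem hw)) (Subgroup.mem_sup_left hyN)
      rw [h2]
      exact Subgroup.zpow_mem _ h4 u
  have h2 : W ⊔ Subgroup.zpowers x ≤ W := hW.2 h1 le_sup_left
  apply hx
  exact Subgroup.mem_sup_right (h2 (Subgroup.mem_sup_right (Subgroup.mem_zpowers x)))

theorem h8_maschke3 {A E : Type*} [Group A] [Finite A] [Group E] [Finite E] (p : ℕ) [Fact p.Prime]
    (hcomm : ∀ u v : E, u * v = v * u) (hexp : ∀ e : E, e ^ p = 1)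
    (σ : A → E → E) (hσhom : ∀ a u v, σ a (u * v) = σ a u * σ a v) (hσ1 : ∀ u, σ 1 u = u)
    (hσmul : ∀ a b u, σ (a * b) u = σ a (σ b u)) (hcop : (Nat.card A).Coprime (Nat.card E))
    (N : Subgroup E) (hN : ∀ a, ∀ x ∈ N, σ a x ∈ N) :
    ∃ W : Subgroup E, (∀ a, ∀ x ∈ W, σ a x ∈ W) ∧ N ⊓ W = ⊥ ∧ N ⊔ W = ⊤ := by
  classical
  letI inst : CommGroup E := { ‹Group E› with mul_comm := hcomm }
  let ρ : A →* MulAut E :=
    { toFun := fun a =>
        { toFun := σ a
          invFun := σ a⁻¹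
          left_inv := fun u => by
            rw [← hσmul, inv_mul_cancel, hσ1]
          right_inv := fun u => by
            rw [← hσmul, mul_inv_cancel, hσ1]
          map_mul' := hσhom a }
      map_one' := by
        ext u
        exact hσ1 u
      map_mul' := fun a b => by
        ext u
        exact hσmul a b u }
  obtain ⟨W, hW1, hW2⟩ := h8_exists_complement p hexp N
  obtain ⟨W', h1, h2, h3⟩ := CfsgLib.PLocal.maschke_complement ρ hcop N W hN hW1 hW2
  exact ⟨W', h1, h2, h3⟩

/-- Let the finite group A act by automorphisms on the finite group G with the orders of A and G coprime, and assume that A or G is solvable. Call a proper A-invariant subgroup of G maximal A-invariant when no A-invariant subgroup lies strictly between it and G. Then all maximal A-invariant subgroups of G are conjugate under elements of the fixed-point subgroup C_G(A) if and only if G is a p-group for some prime p and A leaves invariant no subgroup strictly between the Frattini subgroup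 of G and G. In that case, if G is nontrivial, the Frattini subgroup is the only maximal A-invariant subgroup (a trivial G has none). -/
theorem result {A G : Type*} [Group A] [Finite A]
    [Group G] [Finite G] [MulDistribMulAction A G] (hcop : (Nat.card A).Coprime (Nat.card G)) (hsol : Group.IsSolvable A ∨ Group.IsSolvable G) :
    ((∀ M N : Subgroup G, (M ≠ ⊤ ∧ (∀ a : A, ∀ x ∈ M, a • x ∈ M) ∧ ∀ L : Subgroup G, M < L → (∀ a : A, ∀ x ∈ L, a • x ∈ L) → L = ⊤) → (N ≠ ⊤ ∧ (∀ a : A, ∀ x ∈ N, a • x ∈ N) ∧ ∀ L : Subgroup G, N < L → (∀ a : A, ∀ x ∈ L, a • x ∈ L) → L = ⊤) →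
        ∃ c : G, (∀ a : A, a • c = c) ∧ N = MulAut.conj c • M) ↔
      ((∃ p : ℕ, p.Prime ∧ IsPGroup p G) ∧ ∀ L : Subgroup G, frattini G < L → (∀ a : A, ∀ x ∈ L, a • x ∈ L) → L = ⊤)) ∧
    (((∃ p : ℕ, p.Prime ∧ IsPGroup p G) ∧ ∀ L : Subgroup G, frattini G < L → (∀ a : A, ∀ x ∈ L, a • x ∈ L) → L = ⊤) →
      ∀ M : Subgroup G, (M ≠ ⊤ ∧ (∀ a : A, ∀ x ∈ M, a • x ∈ M) ∧ ∀ L : Subgroup G, M < L → (∀ a : A, ∀ x ∈ L, a • x ∈ L) → L = ⊤) ↔ (M = frattini G ∧ M ≠ ⊤)) := by
  classical
  have hΦinv : h8Inv A (frattini G) := by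
    intro a x hx
    let σ : MulAut G := MulDistribMulAction.toMulAut A G a
    have hmap : (frattini G).map σ.toMonoidHom = frattini G :=
      (Subgroup.characteristic_iff_map_eq.1 inferInstance) σ
    have h1 : σ x ∈ (frattini G).map σ.toMonoidHom := ⟨x, hx, rfl⟩
    rw [hmap] at h1
    exact h1
  have hsupinv : ∀ L K : Subgroup G, h8Inv A L → h8Inv A K → h8Inv A (L ⊔ K) := by
    intro L K hL hK a x hx
    let σ : MulAut G := MulDistribMulAction.toMulAut A G a
    have h1 : (L ⊔ K).map σ.toMonoidHom ≤ L ⊔ K := by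
      rw [Subgroup.map_sup]
      apply sup_le_sup
      · rintro _ ⟨y, hy, rfl⟩
        exact hL a y hy
      · rintro _ ⟨y, hy, rfl⟩
        exact hK a y hy
    exact h1 ⟨x, hx, rfl⟩
  have hΦle : ∀ M : Subgroup G, h8Max A M → frattini G ≤ M := by
    rintro M ⟨hM1, hM2, hM3⟩
    by_contra hnot
    have hlt : M < M ⊔ frattini G := lt_of_le_of_ne le_sup_left (fun h => hnot (by rw [h]; exact le_sup_right))
    have h1 := hM3 _ hlt (hsupinv M _ hM2 hΦinv)
    exact hM1 (frattini_nongenerating h1)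
  have hpart2 : ((∃ p : ℕ, p.Prime ∧ IsPGroup p G) ∧ ∀ L : Subgroup G, frattini G < L → (∀ a : A, ∀ x ∈ L, a • x ∈ L) → L = ⊤) →
      ∀ M : Subgroup G, (M ≠ ⊤ ∧ (∀ a : A, ∀ x ∈ M, a • x ∈ M) ∧ ∀ L : Subgroup G, M < L → (∀ a : A, ∀ x ∈ L, a • x ∈ L) → L = ⊤) ↔ (M = frattini G ∧ M ≠ ⊤) := by
    rintro ⟨-, hgap⟩ M
    constructor
    · intro hM
      have h1 := hΦle M hM
      refine ⟨?_, hM.1⟩
      by_contra hne
      have hlt : frattini G < M := lt_of_le_of_ne h1 (Ne.symm hne)
      exact hM.1 (hgap M hlt hM.2.1)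
    · rintro ⟨rfl, h2⟩
      exact ⟨h2, hΦinv, hgap⟩
  refine ⟨⟨?_, ?_⟩, hpart2⟩
  · intro hconj
    -- every maximal invariant subgroup has the same order
    have hpg : ∃ p : ℕ, p.Prime ∧ IsPGroup p G := by
      by_contra hno
      push Not at hno
      have hnot2 : (⊥ : Subgroup G) ≠ ⊤ := by
        intro h
        apply hno 2 Nat.prime_two
        intro g
        have h1 : g ∈ (⊥ : Subgroup G) := by rw [h]; trivial
        rw [Subgroup.mem_bot] at h1
        exact ⟨0, by simp [h1]⟩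
      obtain ⟨M₀, -, hM₀⟩ := h8_exists_max (A := A) (⊥ : Subgroup G) hnot2 (by
        intro a x hx
        rw [Subgroup.mem_bot] at hx ⊢
        rw [hx, smul_one])
      have hidx : M₀.index ≠ 1 := by
        rw [Ne, Subgroup.index_eq_one]; exact hM₀.1
      obtain ⟨r, hr, hrd⟩ := Nat.exists_prime_and_dvd hidx
      haveI : Fact r.Prime := ⟨hr⟩
      obtain ⟨S, hS1, hS2, hS3⟩ := h8_inv_sylow hcop hsol r
      have hStop : S ≠ ⊤ := by
        rintro rfl
        apply hno r hr
        intro g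
        obtain ⟨k, hk⟩ := hS1 ⟨g, trivial⟩
        exact ⟨k, congrArg Subtype.val hk⟩
      obtain ⟨M', hSM', hM'⟩ := h8_exists_max (A := A) S hStop hS3
      obtain ⟨c, -, hc⟩ := hconj M₀ M' hM₀ hM'
      have hcard : Nat.card M' = Nat.card M₀ := by
        rw [hc]
        exact CfsgLib.Solv.card_conj_smul c M₀
      obtain ⟨u, hu⟩ : Nat.card S ∣ Nat.card M₀ := by
        rw [← hcard]
        exact Subgroup.card_dvd_of_le hSM'
      have h1 := Subgroup.card_mul_index S
      have h2 := Subgroup.card_mul_index M₀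
      rw [hu, ← h1, mul_assoc] at h2
      have h3 : u * M₀.index = S.index := Nat.eq_of_mul_eq_mul_left Nat.card_pos h2
      apply hS2
      rw [← h3]
      exact hrd.trans (Dvd.intro_left _ rfl)
    refine ⟨hpg, ?_⟩
    obtain ⟨p, hp, hpG⟩ := hpg
    haveI : Fact p.Prime := ⟨hp⟩
    intro L hL hLinv
    by_contra hLtop
    obtain ⟨M₁, hLM, hM₁⟩ := h8_exists_max (A := A) L hLtop hLinv
    have hΦM : frattini G < M₁ := lt_of_lt_of_le hL hLM
    obtain ⟨hcomm, hpow⟩ := CfsgLib.Solv.pgroup_commutator_pow_le_frattini hpG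
    haveI hM₁n : M₁.Normal := by
      constructor
      intro x hx g
      have h1 : g * x * g⁻¹ * x⁻¹ ∈ commutator G := by
        rw [_root_.commutator_def]
        exact Subgroup.commutator_mem_commutator (Subgroup.mem_top _) (Subgroup.mem_top _)
      have h2 : g * x * g⁻¹ = (g * x * g⁻¹ * x⁻¹) * x := by group
      rw [h2]
      exact M₁.mul_mem (hΦM.le (hcomm h1)) hx
    -- the module
    haveI hΦn : (frattini G).Normal := inferInstance
    let σ : A → (G ⧸ frattini G) → (G ⧸ frattini G) := fun a =>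
      QuotientGroup.map (frattini G) (frattini G) (MulDistribMulAction.toMulAut A G a).toMonoidHom
        (fun x hx => hΦinv a x hx)
    have hσv : ∀ (a : A) (x : G), σ a (x : G ⧸ frattini G) = ((a • x : G) : G ⧸ frattini G) := fun a x => rfl
    have hEcomm : ∀ u v : G ⧸ frattini G, u * v = v * u := by
      intro u v
      obtain ⟨x, rfl⟩ := QuotientGroup.mk_surjective u
      obtain ⟨y, rfl⟩ := QuotientGroup.mk_surjective v
      rw [← QuotientGroup.mk_mul, ← QuotientGroup.mk_mul, QuotientGroup.eq]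
      have h1 : (x * y)⁻¹ * (y * x) = ⁅y⁻¹, x⁻¹⁆ := by
        rw [commutatorElement_def]; group
      rw [h1]
      apply hcomm
      rw [_root_.commutator_def]
      exact Subgroup.commutator_mem_commutator (Subgroup.mem_top _) (Subgroup.mem_top _)
    have hEexp : ∀ e : G ⧸ frattini G, e ^ p = 1 := by
      intro e
      obtain ⟨x, rfl⟩ := QuotientGroup.mk_surjective e
      rw [← QuotientGroup.mk_pow, QuotientGroup.eq_one_iff]
      exact hpow x
    obtain ⟨Nb, hNb⟩ : ∃ Nb : Subgroup (G ⧸ frattini G), Nb = M₁.map (QuotientGroup.mk' (frattini G)) := ⟨_, rfl⟩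
    have hEcop : (Nat.card A).Coprime (Nat.card (G ⧸ frattini G)) :=
      Nat.Coprime.coprime_dvd_right (Subgroup.card_quotient_dvd_card _) hcop
    obtain ⟨W, hW1, hW2, hW3⟩ := h8_maschke3 p hEcomm hEexp σ
      (by
        intro a u v
        obtain ⟨x, rfl⟩ := QuotientGroup.mk_surjective u
        obtain ⟨y, rfl⟩ := QuotientGroup.mk_surjective v
        rw [← QuotientGroup.mk_mul, hσv, hσv, hσv, smul_mul', QuotientGroup.mk_mul])
      (by
        intro u
        obtain ⟨x, rfl⟩ := QuotientGroup.mk_surjective u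
        rw [hσv, one_smul])
      (by
        intro a b u
        obtain ⟨x, rfl⟩ := QuotientGroup.mk_surjective u
        rw [hσv, hσv, hσv, mul_smul])
      hEcop Nb
      (by
        intro a x hx
        rw [hNb] at hx ⊢
        obtain ⟨m, hm, rfl⟩ := hx
        exact ⟨a • m, hM₁.2.1 a m hm, rfl⟩)
    obtain ⟨U, hU⟩ : ∃ U : Subgroup G, U = W.comap (QuotientGroup.mk' (frattini G)) := ⟨_, rfl⟩
    have hUinv : h8Inv A U := by
      intro a x hx
      rw [hU] at hx ⊢
      have h1 := hW1 a _ hx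
      exact h1
    have hUtop : U ≠ ⊤ := by
      intro h
      have h1 : W = ⊤ := by
        rw [eq_top_iff]
        intro e _
        obtain ⟨x, rfl⟩ := QuotientGroup.mk_surjective e
        have : x ∈ U := by rw [h]; trivial
        rw [hU] at this
        exact this
      rw [h1, inf_top_eq] at hW2
      obtain ⟨x, hx, hxΦ⟩ := SetLike.exists_of_lt hΦM
      apply hxΦ
      have h2 : (x : G ⧸ frattini G) ∈ Nb := by
        rw [hNb]; exact ⟨x, hx, rfl⟩
      rw [hW2, Subgroup.mem_bot, QuotientGroup.eq_one_iff] at h2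
      exact h2
    obtain ⟨M', hUM', hM'⟩ := h8_exists_max (A := A) U hUtop hUinv
    obtain ⟨c, -, hc⟩ := hconj M₁ M' hM₁ hM'
    have hM'eq : M' = M₁ := by
      rw [hc]
      ext z
      rw [CfsgLib.Solv.mem_conj_smul]
      constructor
      · intro hz
        have := hM₁n.conj_mem _ hz c
        have h2 : c * (c⁻¹ * z * c) * c⁻¹ = z := by group
        rwa [h2] at this
      · intro hz
        have := hM₁n.conj_mem _ hz c⁻¹
        simpa using this
    rw [hM'eq] at hUM'
    have hWbot : W = ⊥ := by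
      rw [eq_bot_iff, ← hW2]
      intro e he
      refine ⟨?_, he⟩
      obtain ⟨x, rfl⟩ := QuotientGroup.mk_surjective e
      rw [hNb]
      refine ⟨x, hUM' ?_, rfl⟩
      rw [hU]
      exact he
    rw [hWbot, sup_bot_eq] at hW3
    apply hM₁.1
    rw [eq_top_iff]
    intro g _
    have h1 : (g : G ⧸ frattini G) ∈ Nb := by rw [hW3]; trivial
    rw [hNb] at h1
    obtain ⟨m, hm, hmg⟩ := h1
    have h2 : m⁻¹ * g ∈ frattini G := QuotientGroup.eq.1 hmg
    have h3 : g = m * (m⁻¹ * g) := by group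
    rw [h3]
    exact M₁.mul_mem hm (hΦM.le h2)
  · intro hrhs M N hM hN
    have hMe := ((hpart2 hrhs M).1 hM).1
    have hNe := ((hpart2 hrhs N).1 hN).1
    refine ⟨1, fun a => smul_one a, ?_⟩
    rw [map_one, one_smul, hMe, hNe]

end Cfsg.Agent.S4381
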