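import Cfsg.Statements.S4387
import Cfsg.Agent.Lib.FGS.Elem2

set_option autoImplicit false
open Pointwise
open Cfsg

namespace Cfsg.Agent.S4387

/-- Let G be a non-trivial finite group in which any two maximal subgroups are conjugate. Then G is cyclic of prime-power order. -/
theorem result {G : Type*} [Group G] [Finite G] [Nontrivial G]
    (h : ∀ M N : Subgroup G, IsCoatom M → IsCoatom N → ∃ g : G, N = MulAut.conj g • M) :
    IsCyclic G ∧ IsPrimePow (Nat.card G) := by
  classical
  obtain ⟨M, hM, -⟩ := (eq_top_or_exists_le_coatom (⊥ : Subgroup G)).resolve_left bot_ne_top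
  obtain ⟨x, hx⟩ := CfsgLib.FGS.exists_not_mem_conj hM.1
  have htop : Subgroup.zpowers x = ⊤ := by
    by_contra hne
    obtain ⟨N, hN, hxN⟩ := (eq_top_or_exists_le_coatom (Subgroup.zpowers x)).resolve_left hne
    obtain ⟨g, hg⟩ := h M N hM hN
    have h1 : x ∈ N := hxN (Subgroup.mem_zpowers x)
    rw [hg, CfsgLib.FGS.mem_conj_smul_iff] at h1
    exact hx g h1
  have hcyc : IsCyclic G := isCyclic_iff_exists_zpowers_eq_top.mpr ⟨x, htop⟩
  refine ⟨hcyc, ?_⟩
  have hn1 : Nat.card G ≠ 1 := by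
    intro h1
    exact not_subsingleton G (Finite.card_le_one_iff_subsingleton.mp h1.le)
  rw [isPrimePow_iff_unique_prime_dvd]
  obtain ⟨p, hp, hpd⟩ := Nat.exists_prime_and_dvd hn1
  -- each prime divisor gives a maximal subgroup of index dividing it
  have hord : orderOf x = Nat.card G := by
    rw [← Nat.card_zpowers, htop, Subgroup.card_top]
  have key : ∀ r : ℕ, r.Prime → r ∣ Nat.card G → ∃ N : Subgroup G, IsCoatom N ∧ N.index = r := by
    intro r hr hrd
    have hne : Subgroup.zpowers (x ^ r) ≠ ⊤ := by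
      intro htop2
      have h1 : orderOf (x ^ r) = Nat.card G := by
        rw [← Nat.card_zpowers, htop2, Subgroup.card_top]
      rw [orderOf_pow_of_dvd hr.ne_zero (hord ▸ hrd), hord] at h1
      have h2 : 0 < Nat.card G := Nat.card_pos
      have h3 := Nat.div_lt_self h2 hr.one_lt
      omega
    obtain ⟨N, hN, hle⟩ := (eq_top_or_exists_le_coatom _).resolve_left hne
    refine ⟨N, hN, ?_⟩
    have hidx : (Subgroup.zpowers (x ^ r)).index = r := by
      have h1 := (Subgroup.zpowers (x ^ r)).card_mul_index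
      rw [Nat.card_zpowers, orderOf_pow_of_dvd hr.ne_zero (hord ▸ hrd), hord] at h1
      have h2 : 0 < Nat.card G := Nat.card_pos
      have h3 : 0 < Nat.card G / r := Nat.div_pos (Nat.le_of_dvd h2 hrd) hr.pos
      have h4 : Nat.card G / r * r = Nat.card G := Nat.div_mul_cancel hrd
      exact Nat.eq_of_mul_eq_mul_left h3 (h1.trans h4.symm)
    have hd := Subgroup.index_dvd_of_le hle
    rw [hidx] at hd
    rcases (Nat.dvd_prime hr).mp hd with h | h
    · exact absurd (Subgroup.index_eq_one.mp h) hN.1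
    · exact h
  refine ⟨p, ⟨hp, hpd⟩, ?_⟩
  rintro q ⟨hq, hqd⟩
  obtain ⟨Np, hNp, hip⟩ := key p hp hpd
  obtain ⟨Nq, hNq, hiq⟩ := key q hq hqd
  obtain ⟨g, hg⟩ := h Np Nq hNp hNq
  have heq : Nq = Np := by
    ext y
    rw [hg, CfsgLib.FGS.mem_conj_smul_iff]
    obtain ⟨i, hi⟩ : ∃ i : ℤ, x ^ i = g := by
      have : g ∈ Subgroup.zpowers x := htop ▸ Subgroup.mem_top g
      exact this
    obtain ⟨j, hj⟩ : ∃ j : ℤ, x ^ j = y := by
      have : y ∈ Subgroup.zpowers x := htop ▸ Subgroup.mem_top y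
      exact this
    have : g⁻¹ * y * g = y := by
      rw [← hi, ← hj, ← zpow_neg, ← zpow_add, ← zpow_add]
      congr 1
      ring
    rw [this]
  rw [← hiq, heq, hip]

end Cfsg.Agent.S4387
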