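import Cfsg.Statements.S4400
import Cfsg.Agent.Lib.FGS.Basic
import Cfsg.Agent.Lib.Solv.PGroup
import Cfsg.Agent.Lib.Solv.SZ
import Cfsg.Agent.Lib.Solv.Hall

set_option autoImplicit false
open Cfsg
open scoped commutatorElement
open scoped Pointwise

namespace Cfsg.Agent.S4400

theorem h8_idx_frattini {P : Type*} [Group P] [Finite P] (hP : IsPGroup 2 P) (hna : ¬ IsMulCommutative P) :
    4 ≤ (frattini P).index := by
  classical
  haveI : Fact (Nat.Prime 2) := ⟨Nat.prime_two⟩
  obtain ⟨n, hn⟩ := IsPGroup.index hP (frattini P)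
  by_contra hlt
  have hn1 : n ≤ 1 := by
    by_contra h2
    apply hlt
    rw [hn]
    have : 2 ≤ n := by omega
    calc 4 = 2 ^ 2 := by norm_num
      _ ≤ 2 ^ n := Nat.pow_le_pow_right (by norm_num) this
  haveI := Fintype.ofFinite P
  obtain ⟨T, -, hT, hcl⟩ := CfsgLib.Solv.burnside_basis_exists hP n hn Finset.univ (by simp)
  apply hna
  obtain ⟨t, ht⟩ : ∃ t : P, T ⊆ {t} := by
    rw [← Finset.card_le_one_iff_subset_singleton]
    omega
  have htop : Subgroup.zpowers t = ⊤ := by
    rw [eq_top_iff, ← hcl, Subgroup.closure_le]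
    intro x hx
    have : x ∈ ({t} : Finset P) := ht hx
    rw [Finset.mem_singleton] at this
    rw [this]
    exact Subgroup.mem_zpowers t
  refine ⟨⟨fun a b => ?_⟩⟩
  have ha : a ∈ Subgroup.zpowers t := htop ▸ Subgroup.mem_top a
  have hb : b ∈ Subgroup.zpowers t := htop ▸ Subgroup.mem_top b
  obtain ⟨i, rfl⟩ := Subgroup.mem_zpowers_iff.1 ha
  obtain ⟨j, rfl⟩ := Subgroup.mem_zpowers_iff.1 hb
  exact (zpow_mul_comm t i j)

theorem h8_two {S : Type*} [Group S] [Finite S] (A : Subgroup S) (hA : Nat.card A = 2) (c : S) (hc : c ∈ A) (hc1 : c ≠ 1) :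
    A = Subgroup.zpowers c := by
  symm
  apply Subgroup.eq_of_le_of_card_ge
  · exact (Subgroup.zpowers_le).2 hc
  · rw [hA, Nat.card_zpowers]
    have h1 : orderOf c ≠ 1 := fun h => hc1 (orderOf_eq_one_iff.1 h)
    have h2 : 0 < orderOf c := orderOf_pos c
    omega

theorem h8_center_le {P : Type*} [Group P] [Finite P] (hP : IsPGroup 2 P) (hna : ¬ IsMulCommutative P)
    (hZ : Nat.card (Subgroup.center P) = 2) : Subgroup.center P ≤ frattini P := by
  haveI : Fact (Nat.Prime 2) := ⟨Nat.prime_two⟩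
  haveI : Group.IsNilpotent P := IsPGroup.isNilpotent hP
  have hne : commutator P ≠ ⊥ := by
    intro h
    apply hna
    have hc : Subgroup.center P = ⊤ := (commutator_eq_bot_iff_center_eq_top P).1 h
    refine ⟨⟨fun a b => ?_⟩⟩
    have : a ∈ Subgroup.center P := hc ▸ Subgroup.mem_top a
    exact (Subgroup.mem_center_iff.1 this b).symm
  have h1 := CfsgLib.Solv.normal_inf_center_ne_bot (commutator P) hne
  obtain ⟨c, hc, hc1⟩ := (Subgroup.bot_or_exists_ne_one _).resolve_left h1
  have h2 := h8_two (Subgroup.center P) hZ c hc.2 hc1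
  rw [h2]
  exact (Subgroup.zpowers_le).2 ((CfsgLib.Solv.pgroup_commutator_pow_le_frattini hP).1 hc.1)


/-- Let S be a finite 2-group of sectional 2-rank at most 4, and let P and Q be normal non-abelian subgroups of S whose centres have order 2 and are different. Then P and Q commute elementwise and intersect trivially, and PQ contains its own centralizer in S. -/
theorem result {S : Type*} [Group S] [Finite S] (h2 : IsPGroup 2 S) (hr : Cfsg.SectionalPRankLE 2 4 S)
    (P Q : Subgroup S) [P.Normal] [Q.Normal] (hP : ¬ IsMulCommutative ↥P) (hQ : ¬ IsMulCommutative ↥Q)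
    (hZP : Nat.card ↥(Subgroup.center ↥P) = 2) (hZQ : Nat.card ↥(Subgroup.center ↥Q) = 2)
    (hne : (Subgroup.center ↥P).map P.subtype ≠ (Subgroup.center ↥Q).map Q.subtype) :
    ⁅P, Q⁆ = ⊥ ∧ P ⊓ Q = ⊥ ∧ Subgroup.centralizer ((P ⊔ Q : Subgroup S) : Set S) ≤ P ⊔ Q := by
  classical
  haveI : Fact (Nat.Prime 2) := ⟨Nat.prime_two⟩
  haveI : Group.IsNilpotent S := IsPGroup.isNilpotent h2
  have hPp : IsPGroup 2 P := IsPGroup.to_subgroup h2 P
  have hQp : IsPGroup 2 Q := IsPGroup.to_subgroup h2 Q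
  have hcardmapP : Nat.card ((Subgroup.center ↥P).map P.subtype) = 2 := by
    rw [Subgroup.card_map_of_injective P.subtype_injective, hZP]
  have hcardmapQ : Nat.card ((Subgroup.center ↥Q).map Q.subtype) = 2 := by
    rw [Subgroup.card_map_of_injective Q.subtype_injective, hZQ]
  have hPQ : P ⊓ Q = ⊥ := by
    by_contra hne'
    have h1 := CfsgLib.Solv.normal_inf_center_ne_bot (P ⊓ Q) hne'
    obtain ⟨c, hc, hc1⟩ := (Subgroup.bot_or_exists_ne_one _).resolve_left h1
    have hcP : c ∈ (Subgroup.center ↥P).map P.subtype := by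
      refine ⟨⟨c, hc.1.1⟩, ?_, rfl⟩
      rw [SetLike.mem_coe, Subgroup.mem_center_iff]
      intro g
      apply Subtype.ext
      exact (Subgroup.mem_center_iff.1 hc.2 (g : S))
    have hcQ : c ∈ (Subgroup.center ↥Q).map Q.subtype := by
      refine ⟨⟨c, hc.1.2⟩, ?_, rfl⟩
      rw [SetLike.mem_coe, Subgroup.mem_center_iff]
      intro g
      apply Subtype.ext
      exact (Subgroup.mem_center_iff.1 hc.2 (g : S))
    apply hne
    rw [h8_two _ hcardmapP c hcP hc1, h8_two _ hcardmapQ c hcQ hc1]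
  have hcomm : ⁅P, Q⁆ = ⊥ := by
    rw [eq_bot_iff, ← hPQ]
    exact Subgroup.commutator_le_inf P Q
  have hPQc : ∀ a ∈ P, ∀ b ∈ Q, a * b = b * a := by
    intro a ha b hb
    have h1 : ⁅a, b⁆ ∈ ⁅P, Q⁆ := Subgroup.commutator_mem_commutator ha hb
    rw [hcomm, Subgroup.mem_bot] at h1
    exact commutatorElement_eq_one_iff_mul_comm.1 h1
  refine ⟨hcomm, hPQ, ?_⟩
  intro u hu
  by_contra huR
  -- the last power of `u` outside `P ⊔ Q`
  have hex : ∃ k : ℕ, u ^ (2 ^ k) ∈ P ⊔ Q := by
    obtain ⟨k, hk⟩ := (IsPGroup.iff_orderOf.1 h2) u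
    refine ⟨k, ?_⟩
    rw [← hk, pow_orderOf_eq_one]
    exact Subgroup.one_mem _
  have hk0 : Nat.find hex ≠ 0 := by
    intro h0
    have := Nat.find_spec hex
    rw [h0] at this
    simp only [pow_zero, pow_one] at this
    exact huR this
  obtain ⟨k, hk⟩ := Nat.exists_eq_succ_of_ne_zero hk0
  set w := u ^ (2 ^ k) with hw
  have hwR : w ∉ P ⊔ Q := Nat.find_min hex (by omega)
  have hw2 : w ^ 2 ∈ P ⊔ Q := by
    have := Nat.find_spec hex
    rw [hk] at this
    have h3 : w ^ 2 = u ^ (2 ^ (k + 1)) := by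
      rw [hw, ← pow_mul, pow_succ]
    rw [h3]
    exact this
  set R := P ⊔ Q with hR
  have hwC : w ∈ Subgroup.centralizer (R : Set S) := Subgroup.pow_mem _ hu _
  have hwcomm : ∀ x ∈ R, w * x = x * w := fun x hx => (Subgroup.mem_centralizer_iff.1 hwC x hx).symm
  -- the subgroup N
  set NP := (frattini ↥P).map P.subtype with hNP
  set NQ := (frattini ↥Q).map Q.subtype with hNQ
  haveI hNPn : NP.Normal := inferInstance
  haveI hNQn : NQ.Normal := inferInstance
  set N := NP ⊔ NQ with hN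
  have hNPle : NP ≤ P := by
    rintro _ ⟨x, -, rfl⟩
    exact x.2
  have hNQle : NQ ≤ Q := by
    rintro _ ⟨x, -, rfl⟩
    exact x.2
  have hsqP : ∀ a ∈ P, a ^ 2 ∈ NP := by
    intro a ha
    refine ⟨(⟨a, ha⟩ : P) ^ 2, (CfsgLib.Solv.pgroup_commutator_pow_le_frattini hPp).2 _, ?_⟩
    simp
  have hsqQ : ∀ a ∈ Q, a ^ 2 ∈ NQ := by
    intro a ha
    refine ⟨(⟨a, ha⟩ : Q) ^ 2, (CfsgLib.Solv.pgroup_commutator_pow_le_frattini hQp).2 _, ?_⟩
    simp
  have hCP := h8_center_le hPp hP hZP
  have hCQ := h8_center_le hQp hQ hZQ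
  have hw2N : w ^ 2 ∈ N := by
    obtain ⟨b1, hb1, b2, hb2, hb⟩ := Subgroup.mem_sup_of_normal_right.1 hw2
    have hcw2 : ∀ x ∈ R, (b1 * b2) * x = x * (b1 * b2) := by
      intro x hx
      rw [hb, pow_two, mul_assoc, hwcomm x hx, ← mul_assoc, hwcomm x hx, mul_assoc]
    have h1 : b1 ∈ NP := by
      refine ⟨⟨b1, hb1⟩, hCP ?_, rfl⟩
      rw [Subgroup.mem_center_iff]
      rintro ⟨g, hg⟩
      apply Subtype.ext
      show g * b1 = b1 * g
      have h4 := hcw2 g (Subgroup.mem_sup_left hg)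
      rw [mul_assoc, hPQc g hg b2 hb2 |>.symm, ← mul_assoc, ← mul_assoc] at h4
      exact (mul_right_cancel h4).symm
    have h2' : b2 ∈ NQ := by
      refine ⟨⟨b2, hb2⟩, hCQ ?_, rfl⟩
      rw [Subgroup.mem_center_iff]
      rintro ⟨g, hg⟩
      apply Subtype.ext
      show g * b2 = b2 * g
      have h4 := hcw2 g (Subgroup.mem_sup_right hg)
      have h5 : g * (b1 * b2) = b1 * (g * b2) := by
        rw [← mul_assoc, ← mul_assoc, (hPQc b1 hb1 g hg)]
      rw [h5, mul_assoc] at h4
      exact (mul_left_cancel h4).symm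
    rw [← hb]
    exact Subgroup.mul_mem _ (Subgroup.mem_sup_left h1) (Subgroup.mem_sup_right h2')
  -- the section
  set H := Subgroup.zpowers w ⊔ R with hH
  have hRH : R ≤ H := le_sup_right
  have hNR : N ≤ R := sup_le_sup hNPle hNQle
  have hNH : N ≤ H := hNR.trans hRH
  have hsqH : ∀ x ∈ H, x ^ 2 ∈ N := by
    intro x hx
    obtain ⟨b, hb, a, ha, rfl⟩ := Subgroup.mem_sup_of_normal_right.1 hx
    obtain ⟨c, rfl⟩ := Subgroup.mem_zpowers_iff.1 hb
    obtain ⟨a1, ha1, a2, ha2, rfl⟩ := Subgroup.mem_sup_of_normal_right.1 ha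
    have h1 : (w ^ c) * (a1 * a2) = (a1 * a2) * (w ^ c) := by
      have : Commute w (a1 * a2) := hwcomm _ ha
      exact (this.zpow_left c)
    have h2' : (w ^ c * (a1 * a2)) ^ 2 = (w ^ 2) ^ c * (a1 ^ 2 * a2 ^ 2) := by
      have h3 : Commute (w ^ c) (a1 * a2) := h1
      rw [h3.mul_pow, ← zpow_natCast (w ^ c), ← zpow_natCast w, ← zpow_mul, ← zpow_mul, mul_comm]
      congr 1
      have h4 : Commute a1 a2 := hPQc a1 ha1 a2 ha2
      rw [h4.mul_pow]
    rw [h2']
    exact Subgroup.mul_mem _ (Subgroup.zpow_mem _ hw2N _)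
      (Subgroup.mul_mem _ (Subgroup.mem_sup_left (hsqP a1 ha1)) (Subgroup.mem_sup_right (hsqQ a2 ha2)))
  -- the quotient is elementary
  let N' : Subgroup H := N.subgroupOf H
  haveI hN'n : N'.Normal := inferInstance
  have hb := hr H N'
  have hexp : ∀ a : H ⧸ N', a ^ 2 = 1 := by
    intro a
    obtain ⟨x, rfl⟩ := QuotientGroup.mk'_surjective N' a
    rw [← map_pow]
    apply (QuotientGroup.eq_one_iff _).2
    exact hsqH x.1 x.2
  have hcommQ : ∀ a b : H ⧸ N', a * b = b * a := by
    intro a b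
    have h1 : (a * b) ^ 2 = 1 := hexp _
    have h2' : a * a = 1 := by rw [← pow_two]; exact hexp a
    have h3 : b * b = 1 := by rw [← pow_two]; exact hexp b
    rw [pow_two] at h1
    calc a * b = a * b * (a * b * (b * a)) := by
          have : a * b * (b * a) = 1 := by
            calc a * b * (b * a) = a * (b * b) * a := by group
              _ = 1 := by rw [h3, mul_one, h2']
          rw [this, mul_one]
      _ = (a * b * (a * b)) * (b * a) := by group
      _ = b * a := by rw [h1, one_mul]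
  have hle := hb ⊤ ⟨⟨fun a b => Subtype.ext (hcommQ a.1 b.1)⟩⟩ (fun a _ => hexp a)
  rw [Subgroup.card_top] at hle
  -- counting
  have hcardN' : Nat.card N' = Nat.card N := by
    exact CfsgLib.Solv.card_subgroupOf_of_le hNH
  have hH1 : Nat.card H = Nat.card N * Nat.card (H ⧸ N') := by
    have := N'.card_mul_index
    rw [hcardN'] at this
    exact this.symm
  have hcardR : Nat.card R = Nat.card P * Nat.card Q := by
    have := CfsgLib.Solv.card_sup_mul_card_inf P Q
    rw [hPQ, Subgroup.card_bot, mul_one] at this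
    exact this
  have hinfN : NP ⊓ NQ = ⊥ := by
    rw [eq_bot_iff, ← hPQ]
    exact inf_le_inf hNPle hNQle
  have hcardN : Nat.card N = Nat.card NP * Nat.card NQ := by
    have := CfsgLib.Solv.card_sup_mul_card_inf NP NQ
    rw [hinfN, Subgroup.card_bot, mul_one] at this
    exact this
  have hcP : Nat.card P = Nat.card NP * (frattini ↥P).index := by
    have := (frattini ↥P).card_mul_index
    rw [hNP, Subgroup.card_map_of_injective P.subtype_injective]
    exact this.symm
  have hcQ : Nat.card Q = Nat.card NQ * (frattini ↥Q).index := by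
    have := (frattini ↥Q).card_mul_index
    rw [hNQ, Subgroup.card_map_of_injective Q.subtype_injective]
    exact this.symm
  have hiP := h8_idx_frattini hPp hP
  have hiQ := h8_idx_frattini hQp hQ
  have hRH2 : 2 * Nat.card R ≤ Nat.card H := by
    have h1 := Subgroup.card_dvd_of_le hRH
    obtain ⟨c, hc⟩ := h1
    have hc0 : c ≠ 0 := by
      rintro rfl
      rw [mul_zero] at hc
      exact (Nat.card_pos (α := H)).ne' hc
    have hc1 : c ≠ 1 := by
      rintro rfl
      rw [mul_one] at hc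
      have h3 : R = H := Subgroup.eq_of_le_of_card_ge hRH hc.le
      exact hwR (h3 ▸ (Subgroup.mem_sup_left (Subgroup.mem_zpowers w)))
    have h2' : 2 ≤ c := by omega
    calc 2 * Nat.card R ≤ c * Nat.card R := Nat.mul_le_mul_right _ h2'
      _ = Nat.card R * c := mul_comm _ _
      _ = Nat.card H := hc.symm
  have hNpos : 0 < Nat.card N := Nat.card_pos
  have hfin : Nat.card N * 32 ≤ Nat.card N * Nat.card (H ⧸ N') := by
    rw [← hH1]
    refine le_trans ?_ hRH2
    rw [hcardR, hcP, hcQ, hcardN]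
    have h5 : Nat.card NP * (frattini ↥P).index * (Nat.card NQ * (frattini ↥Q).index) =
        Nat.card NP * Nat.card NQ * ((frattini ↥P).index * (frattini ↥Q).index) := by ring
    rw [h5]
    have h6 : 16 ≤ (frattini ↥P).index * (frattini ↥Q).index := by
      calc 16 = 4 * 4 := by norm_num
        _ ≤ _ := Nat.mul_le_mul hiP hiQ
    nlinarith
  have h32 := Nat.le_of_mul_le_mul_left hfin hNpos
  have : Nat.card (H ⧸ N') ≤ 2 ^ 4 := hle
  norm_num at this
  omega

end Cfsg.Agent.S4400
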