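import Cfsg.Statements.S4405
import Cfsg.Agent.Lib.FGS.Eigen
import Cfsg.Agent.Lib.FGS.Syl
import Cfsg.Agent.Lib.OOL.ES
import Cfsg.Agent.Lib.Char.Burnside
import Cfsg.Agent.Lib.Solv.Hall

set_option autoImplicit false
open Cfsg
open scoped commutatorElement
open scoped Pointwise

namespace Cfsg.Agent.S4405

open CfsgLib.OOL.ES in
theorem h8_comm_mk {H : Type*} [Group H] (hH : IsES 2 H) (a b : H ⧸ Subgroup.center H) : a * b = b * a := by
  obtain ⟨x, rfl⟩ := QuotientGroup.mk'_surjective (Subgroup.center H) a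
  obtain ⟨y, rfl⟩ := QuotientGroup.mk'_surjective (Subgroup.center H) b
  rw [← commutatorElement_eq_one_iff_mul_comm, ← map_commutatorElement]
  exact (QuotientGroup.eq_one_iff _).2 (hH.comm_mem x y)

open CfsgLib.OOL.ES in
theorem h8_sq_mk {H : Type*} [Group H] [Finite H] (hH : IsES 2 H) (a : H ⧸ Subgroup.center H) : a ^ 2 = 1 := by
  obtain ⟨x, rfl⟩ := QuotientGroup.mk'_surjective (Subgroup.center H) a
  rw [← map_pow]
  exact (QuotientGroup.eq_one_iff _).2 (pow_p_mem hH x)

open CfsgLib.OOL.ES in
theorem h8_fix_center {H : Type*} [Group H] [Finite H] (hH : IsES 2 H) (φ : MulAut H) {z : H}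
    (hz : z ∈ Subgroup.center H) : φ z = z := by
  by_cases h1 : z = 1
  · rw [h1, map_one]
  · have h2 : φ z ∈ Subgroup.center H := by
      rw [Subgroup.mem_center_iff] at hz ⊢
      intro g
      obtain ⟨g', rfl⟩ := φ.surjective g
      rw [← map_mul, ← map_mul, hz]
    have h3 : φ z ≠ 1 := fun h => h1 (by simpa using h)
    exact center_two_eq hH h2 h3 hz h1

open CfsgLib.OOL.ES in
noncomputable def h8_delta {H : Type*} [Group H] (hH : IsES 2 H) (α : MulAut H) : H →* H ⧸ Subgroup.center H :=
  MonoidHom.mk' (fun x => QuotientGroup.mk' (Subgroup.center H) x * QuotientGroup.mk' (Subgroup.center H) (α x)) (by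
    intro a b
    simp only [map_mul]
    have h := h8_comm_mk hH (QuotientGroup.mk' (Subgroup.center H) (α a)) (QuotientGroup.mk' (Subgroup.center H) b)
    calc _ = QuotientGroup.mk' (Subgroup.center H) a * (QuotientGroup.mk' (Subgroup.center H) b * QuotientGroup.mk' (Subgroup.center H) (α a)) * QuotientGroup.mk' (Subgroup.center H) (α b) := by simp only [mul_assoc]
      _ = _ := by rw [← h]; simp only [mul_assoc])

open CfsgLib.OOL.ES in
theorem h8_mem_ker {H : Type*} [Group H] [Finite H] (hH : IsES 2 H) (α : MulAut H) (x : H) :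
    x ∈ (h8_delta hH α).ker ↔ α x * x⁻¹ ∈ Subgroup.center H := by
  rw [MonoidHom.mem_ker]
  show QuotientGroup.mk' (Subgroup.center H) x * QuotientGroup.mk' (Subgroup.center H) (α x) = 1 ↔ _
  have h1 := h8_sq_mk hH (QuotientGroup.mk' (Subgroup.center H) x)
  have h2 : QuotientGroup.mk' (Subgroup.center H) x * QuotientGroup.mk' (Subgroup.center H) x = 1 := by
    rw [← pow_two]; exact h1
  have h3 : (QuotientGroup.mk' (Subgroup.center H) x)⁻¹ = QuotientGroup.mk' (Subgroup.center H) x :=
    inv_eq_of_mul_eq_one_left h2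
  have key : (α x * x⁻¹ ∈ Subgroup.center H) ↔ QuotientGroup.mk' (Subgroup.center H) (α x * x⁻¹) = 1 :=
    (QuotientGroup.eq_one_iff _).symm
  rw [key, map_mul, map_inv, h3, h8_comm_mk hH]

open CfsgLib.OOL.ES in
theorem h8_L1 {H : Type*} [Group H] [Finite H] (hH : IsES 2 H) (hc : Nat.card H = 32) (α : MulAut H)
    (hα : ∀ x, α (α x) = x) (hB : Nat.card (h8_delta hH α).ker ≤ 8) (y : H) (hy : α y = y) : y ^ 2 = 1 := by
  set δ := h8_delta hH α with hδ
  let π := QuotientGroup.mk' (Subgroup.center H)
  have h1 : Nat.card H = Nat.card δ.ker * Nat.card δ.range := by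
    rw [← Subgroup.index_ker, Subgroup.card_mul_index]
  have hR : 4 ≤ Nat.card δ.range := by
    rw [hc] at h1
    by_contra hlt
    have : Nat.card δ.range ≤ 3 := by omega
    have h2 := Nat.mul_le_mul hB this
    omega
  have hCB : Subgroup.center H ≤ δ.ker := by
    intro z hz
    rw [hδ, h8_mem_ker]
    rw [h8_fix_center hH α hz, mul_inv_cancel]
    exact Subgroup.one_mem _
  have hmapcard : Nat.card (δ.ker.map π) * 2 = Nat.card δ.ker := by
    have h3 : Nat.card (δ.ker.map π) = (Subgroup.center H).relIndex δ.ker := by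
      have h := Subgroup.relIndex_ker π (K := δ.ker)
      rw [QuotientGroup.ker_mk'] at h
      exact h.symm
    have h4 := ((Subgroup.center H).subgroupOf δ.ker).card_mul_index
    rw [CfsgLib.Solv.card_subgroupOf_of_le hCB, hH.card_center] at h4
    rw [h3, mul_comm]
    exact h4
  have hle : δ.range ≤ δ.ker.map π := by
    rintro _ ⟨x, rfl⟩
    refine ⟨x * α x, (h8_mem_ker hH α _).2 ?_, rfl⟩
    rw [map_mul, hα]
    have h3 : α x * x * (x * α x)⁻¹ = ⁅α x, x⁆ := by
      rw [commutatorElement_def]; group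
    rw [h3]
    exact hH.comm_mem _ _
  have heq : δ.range = δ.ker.map π := by
    apply Subgroup.eq_of_le_of_card_ge hle
    omega
  have hyB : y ∈ δ.ker := by
    rw [hδ, h8_mem_ker, hy, mul_inv_cancel]
    exact Subgroup.one_mem _
  have hy2 : π y ∈ δ.range := by
    rw [heq]
    exact ⟨y, hyB, rfl⟩
  obtain ⟨x, hx⟩ := hy2
  have hx' : π (x * α x) = π y := hx
  have hz : (x * α x)⁻¹ * y ∈ Subgroup.center H := by
    exact QuotientGroup.eq.1 hx'
  set z := (x * α x)⁻¹ * y with hzdef
  have hyz : y = x * α x * z := by rw [hzdef]; group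
  have hzc : ∀ g, z * g = g * z := fun g => (Subgroup.mem_center_iff.1 hz g).symm
  have hαz : α z = z := h8_fix_center hH α hz
  have hcomm : x * α x = α x * x := by
    have h2 : α y = α x * x * z := by
      rw [hyz, map_mul, map_mul, hα, hαz]
    rw [hy] at h2
    rw [hyz] at h2
    exact mul_right_cancel h2
  have hxc : x ^ 2 ∈ Subgroup.center H := pow_p_mem hH x
  have hαx2 : (α x) ^ 2 = x ^ 2 := by
    rw [← map_pow]
    exact h8_fix_center hH α hxc
  have hzz : z * z = 1 := center_sq hH hz
  have hxx : x ^ 2 * x ^ 2 = 1 := center_sq hH hxc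
  rw [hyz]
  calc (x * α x * z) ^ 2 = (x * α x) * (x * α x) * (z * z) := by
        rw [pow_two]
        calc x * α x * z * (x * α x * z) = x * α x * (z * (x * α x)) * z := by simp only [mul_assoc]
          _ = _ := by rw [hzc]; simp only [mul_assoc]
    _ = (x * x) * (α x * α x) := by
        rw [hzz, mul_one]
        calc x * α x * (x * α x) = x * (α x * x) * α x := by simp only [mul_assoc]
          _ = _ := by rw [← hcomm]; simp only [mul_assoc]
    _ = x ^ 2 * (α x) ^ 2 := by simp only [pow_two]
    _ = 1 := by rw [hαx2, hxx]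

open CfsgLib.OOL.ES in
theorem h8_L2 {H : Type*} [Group H] [Finite H] (hH : IsES 2 H) (hc : Nat.card H = 32) (φ : MulAut H)
    (hφ : ∀ x, φ (φ (φ (φ (φ x)))) = x) (y : H) (hy : y ∉ Subgroup.center H) (hy2 : φ y * y⁻¹ ∈ Subgroup.center H) :
    ∀ x, φ x = x := by
  classical
  haveI : Fact (Nat.Prime 5) := ⟨by norm_num⟩
  have hcen : Subgroup.center H ≤ (Subgroup.center H).comap φ.toMonoidHom := by
    intro z hz
    show φ z ∈ Subgroup.center H
    rw [h8_fix_center hH φ hz]
    exact hz
  let θ : (H ⧸ Subgroup.center H) →* (H ⧸ Subgroup.center H) := QuotientGroup.map _ _ φ.toMonoidHom hcen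
  have hθ : ∀ x, θ (QuotientGroup.mk' _ x) = QuotientGroup.mk' _ (φ x) := fun x => rfl
  haveI := Fintype.ofFinite (H ⧸ Subgroup.center H)
  let f : Function.End (H ⧸ Subgroup.center H) := fun a => θ a
  have hf : f ^ 5 ^ 1 = 1 := by
    have h5 : (5 : ℕ) ^ 1 = 5 := by norm_num
    rw [h5]
    funext a
    obtain ⟨x, rfl⟩ := QuotientGroup.mk'_surjective (Subgroup.center H) a
    simp only [pow_succ, pow_zero, one_mul]
    show θ (θ (θ (θ (θ (QuotientGroup.mk' _ x))))) = _
    simp only [hθ, hφ]
    rfl
  have hmod := Equiv.Perm.card_fixedPoints_modEq (f := f) (p := 5) (n := 1) hf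
  let Fx : Subgroup (H ⧸ Subgroup.center H) := θ.eqLocus (MonoidHom.id _)
  have hFx : ∀ a, a ∈ Fx ↔ θ a = a := fun a => Iff.rfl
  have hcardW : Nat.card (H ⧸ Subgroup.center H) = 16 := by
    have h1 := (Subgroup.center H).card_mul_index
    rw [hH.card_center, hc] at h1
    have h2 : (Subgroup.center H).index = 16 := by omega
    exact h2
  have hcardFx : Nat.card (Function.fixedPoints f) = Nat.card Fx :=
    Nat.card_congr (Equiv.subtypeEquivRight fun a => by
      rw [Function.mem_fixedPoints, Function.IsFixedPt]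
      exact Iff.rfl)
  rw [Fintype.card_eq_nat_card, Fintype.card_eq_nat_card, hcardFx, hcardW] at hmod
  have hdvd : Nat.card Fx ∣ 16 := hcardW ▸ Subgroup.card_subgroup_dvd_card Fx
  have hne : Nat.card Fx ≠ 1 := by
    intro h1
    have h2 : Fx = ⊥ := (Subgroup.card_eq_one).1 h1
    have h3 : QuotientGroup.mk' (Subgroup.center H) y ∈ Fx := by
      rw [hFx, hθ]
      exact (QuotientGroup.eq.2 (by
        have h5 : (φ y)⁻¹ * y = y⁻¹ * (y * (φ y)⁻¹) * y := by group
        rw [h5]
        have h6 : y * (φ y)⁻¹ = (φ y * y⁻¹)⁻¹ := by group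
        rw [h6]
        exact (Subgroup.Normal.conj_mem inferInstance _ (Subgroup.inv_mem _ hy2) y⁻¹ |> fun h => by simpa using h)))
    rw [h2, Subgroup.mem_bot] at h3
    exact hy ((QuotientGroup.eq_one_iff y).1 h3)
  have h16 : Nat.card Fx = 16 := by
    have hle : Nat.card Fx ≤ 16 := Nat.le_of_dvd (by norm_num) hdvd
    have hm : 16 % 5 = Nat.card Fx % 5 := hmod
    interval_cases h : Nat.card Fx <;> first | rfl | omega | (exfalso; revert hdvd; decide)
  have htop : Fx = ⊤ := by
    apply Subgroup.eq_top_of_card_eq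
    rw [h16, hcardW]
  have hall : ∀ x, φ x * x⁻¹ ∈ Subgroup.center H := by
    intro x
    have h1 : QuotientGroup.mk' (Subgroup.center H) x ∈ Fx := htop ▸ Subgroup.mem_top _
    rw [hFx, hθ] at h1
    have h2 : QuotientGroup.mk' (Subgroup.center H) (φ x) = QuotientGroup.mk' (Subgroup.center H) x := h1
    have h3 : (φ x)⁻¹ * x ∈ Subgroup.center H := QuotientGroup.eq.1 h2
    have h4 : φ x * x⁻¹ = ((φ x)⁻¹ * x)⁻¹ := by
      have h5 := Subgroup.mem_center_iff.1 h3 (φ x)
      have : ((φ x)⁻¹ * x)⁻¹ = x⁻¹ * φ x := by group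
      rw [this]
      have h6 : φ x * ((φ x)⁻¹ * x) = ((φ x)⁻¹ * x) * φ x := h5
      have h7 : x = (φ x)⁻¹ * x * φ x := by
        calc x = φ x * ((φ x)⁻¹ * x) := by group
          _ = _ := h6
      calc φ x * x⁻¹ = φ x * ((φ x)⁻¹ * x * φ x)⁻¹ := by rw [← h7]
        _ = φ x * (φ x)⁻¹ * x⁻¹ * φ x := by group
        _ = x⁻¹ * φ x := by group
    rw [h4]
    exact Subgroup.inv_mem _ h3
  intro x
  set z := φ x * x⁻¹ with hz
  have hzm : z ∈ Subgroup.center H := hall x
  have hφx : φ x = z * x := by rw [hz]; group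
  have hzz : z * z = 1 := center_sq hH hzm
  have hφz : φ z = z := h8_fix_center hH φ hzm
  have h2 : φ (φ x) = x := by
    rw [hφx, map_mul, hφz, hφx, ← mul_assoc, hzz, one_mul]
  have h3 := hφ x
  rw [h2, h2] at h3
  exact h3


/-- Let G be a finite group of order 320 = 64·5 whose largest normal 2-subgroup H = O₂(G) equals the Fitting subgroup F(G) and is extraspecial of order 32 containing no elementary abelian subgroup of order 8 (so H is the central product of a quaternion group and a dihedral group of order 8). If T is an involution of G outside H whose centralizer in H contains an elementary abelian subgroup of order 4, then C_H(T) itself is elementary abelian of order 4. -/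
theorem result {G : Type*} [Group G] [Finite G]
    (hG : Nat.card G = 320) (hHF : Cfsg.pCore 2 G = Cfsg.fittingSubgroup G)
    (hex : Cfsg.IsExtraspecial 2 ↥(Cfsg.pCore 2 G)) (h32 : Nat.card ↥(Cfsg.pCore 2 G) = 32)
    (hminus : ∀ A : Subgroup G, A ≤ Cfsg.pCore 2 G → Cfsg.IsElementaryAbelian 2 A → Nat.card ↥A ≤ 4)
    (T : G) (hT : orderOf T = 2) (hTH : T ∉ Cfsg.pCore 2 G)
    (V : Subgroup G) (hV : V ≤ Cfsg.pCore 2 G ⊓ Subgroup.centralizer ({T} : Set G)) (hV4 : Nat.card ↥V = 4) (hVe : Cfsg.IsElementaryAbelian 2 V) :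
    Nat.card ↥(Cfsg.pCore 2 G ⊓ Subgroup.centralizer ({T} : Set G)) = 4 ∧
      Cfsg.IsElementaryAbelian 2 (Cfsg.pCore 2 G ⊓ Subgroup.centralizer ({T} : Set G)) := by
  classical
  haveI : Fact (Nat.Prime 2) := ⟨Nat.prime_two⟩
  haveI : Fact (Nat.Prime 5) := ⟨by norm_num⟩
  set H := Cfsg.pCore 2 G with hHdef
  haveI hHn : H.Normal := CfsgLib.Solv.pCore_normal' 2
  have hES : CfsgLib.OOL.ES.IsES 2 ↥H := CfsgLib.OOL.ES.isES_of_extraspecial hex
  let c : G →* MulAut ↥H := MulAut.conjNormal
  have hc : ∀ g (x : ↥H), ((c g x : ↥H) : G) = g * x * g⁻¹ := fun g x => MulAut.conjNormal_apply g x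
  let α := c T
  have hT2 : T * T = 1 := by
    have := pow_orderOf_eq_one T
    rwa [hT, pow_two] at this
  have hTinv : T⁻¹ = T := inv_eq_of_mul_eq_one_left hT2
  have hα : ∀ x, α (α x) = x := by
    intro x
    apply Subtype.ext
    show ((c T (c T x) : ↥H) : G) = x
    rw [hc, hc, hTinv]
    calc T * (T * (x : G) * T) * T = (T * T) * x * (T * T) := by group
      _ = x := by rw [hT2]; group
  have hcen : ∀ (g : G) {z : ↥H}, z ∈ Subgroup.center ↥H → c g z = z := fun g z hz => h8_fix_center hES (c g) hz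
  have hB : Nat.card (h8_delta hES α).ker ≤ 8 := by
    by_contra hB8
    push Not at hB8
    set B := (h8_delta hES α).ker with hBdef
    have hidx : B.index ≤ 2 := by
      have h1 := B.card_mul_index
      rw [h32] at h1
      by_contra hi
      push Not at hi
      have h2 : 3 ≤ B.index := hi
      rcases Nat.lt_or_ge B.index 4 with h3 | h3
      · have h4 : B.index = 3 := by omega
        rw [h4] at h1
        omega
      · have h5 := Nat.mul_le_mul (Nat.succ_le_of_lt hB8) h3
        rw [h1] at h5
        norm_num at h5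
    obtain ⟨f, hf⟩ := exists_prime_orderOf_dvd_card' (G := G) 5 (by rw [hG]; norm_num)
    let B' : Subgroup ↥H := B.comap (c f⁻¹).toMonoidHom
    have hidx' : B'.index = B.index := Subgroup.index_comap_of_surjective B (c f⁻¹).surjective
    have hinf : (B ⊓ B').index ≤ 4 := by
      refine le_trans Subgroup.index_inf_le ?_
      rw [hidx']
      exact (Nat.mul_le_mul hidx hidx).trans (by norm_num)
    have hcardinf : 8 ≤ Nat.card ↥(B ⊓ B') := by
      have h1 := (B ⊓ B').card_mul_index
      rw [h32] at h1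
      by_contra h2
      push Not at h2
      have h3 : Nat.card ↥(B ⊓ B') ≤ 7 := by omega
      have h5 := Nat.mul_le_mul h3 hinf
      rw [h1] at h5
      norm_num at h5
    obtain ⟨y, hyB, hyc⟩ : ∃ y ∈ B ⊓ B', y ∉ Subgroup.center ↥H := by
      by_contra hc'
      push Not at hc'
      have h1 : Nat.card ↥(B ⊓ B') ≤ Nat.card (Subgroup.center ↥H) := Subgroup.card_le_of_le hc'
      rw [hES.card_center] at h1
      omega
    have hy1 : α y * y⁻¹ ∈ Subgroup.center ↥H := (h8_mem_ker hES α y).1 hyB.1
    have hy2 : α ((c f⁻¹) y) * ((c f⁻¹) y)⁻¹ ∈ Subgroup.center ↥H := (h8_mem_ker hES α _).1 hyB.2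
    let J : Subgroup G :=
      { carrier := {g | c g y * y⁻¹ ∈ Subgroup.center ↥H}
        mul_mem' := by
          intro a b ha hb
          have ha' : c a y * y⁻¹ ∈ Subgroup.center ↥H := ha
          have hb' : c b y * y⁻¹ ∈ Subgroup.center ↥H := hb
          show c (a * b) y * y⁻¹ ∈ Subgroup.center ↥H
          have h1 : c (a * b) y * y⁻¹ = c a (c b y * y⁻¹) * (c a y * y⁻¹) := by
            rw [map_mul, map_mul, map_inv]
            show c a (c b y) * y⁻¹ = _
            group
          rw [h1, hcen a hb']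
          exact Subgroup.mul_mem _ hb' ha'
        one_mem' := by
          show c 1 y * y⁻¹ ∈ Subgroup.center ↥H
          rw [map_one]
          show y * y⁻¹ ∈ Subgroup.center ↥H
          rw [mul_inv_cancel]
          exact Subgroup.one_mem _
        inv_mem' := by
          intro a ha
          have ha' : c a y * y⁻¹ ∈ Subgroup.center ↥H := ha
          show c a⁻¹ y * y⁻¹ ∈ Subgroup.center ↥H
          set z := c a y * y⁻¹ with hz
          have h1 : c a y = z * y := by rw [hz]; group
          have h2 : c a⁻¹ (c a y) = y := by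
            rw [← MulAut.mul_apply, ← map_mul, inv_mul_cancel, map_one]
            rfl
          rw [h1, map_mul, hcen a⁻¹ ha'] at h2
          have h3 : c a⁻¹ y * y⁻¹ = z⁻¹ := by
            have h4 : c a⁻¹ y = z⁻¹ * y := by
              rw [eq_inv_mul_iff_mul_eq]
              exact h2
            rw [h4]
            group
          rw [h3]
          exact Subgroup.inv_mem _ ha' }
    have hJmem : ∀ g, g ∈ J ↔ c g y * y⁻¹ ∈ Subgroup.center ↥H := fun g => Iff.rfl
    have hHJ : H ≤ J := by
      intro h hh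
      rw [hJmem]
      have h1 : c h y * y⁻¹ = ⁅(⟨h, hh⟩ : ↥H), y⁆ := by
        apply Subtype.ext
        show ((c h y : ↥H) : G) * ((y : G))⁻¹ = _
        rw [hc]
        simp [commutatorElement_def]
      rw [h1]
      exact hES.comm_mem _ _
    have hTJ : T ∈ J := hy1
    have hT'J : f * T * f⁻¹ ∈ J := by
      rw [hJmem]
      have h2 : c f ((c f⁻¹) y) = y := by
        rw [← MulAut.mul_apply, ← map_mul, mul_inv_cancel, map_one]
        rfl
      have h3 : c (f * T * f⁻¹) y = c f (α ((c f⁻¹) y)) := by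
        rw [map_mul c, map_mul c]
        rfl
      have h1 : c (f * T * f⁻¹) y * y⁻¹ = c f (α ((c f⁻¹) y) * ((c f⁻¹) y)⁻¹) := by
        rw [h3, (c f).map_mul, (c f).map_inv, h2]
      rw [h1, hcen f hy2]
      exact hy2
    -- the subgroup `M`
    set M := Subgroup.zpowers T ⊔ H with hM
    have hMcard : Nat.card M = 64 := by
      have h1 := CfsgLib.Solv.card_sup_mul_card_inf (Subgroup.zpowers T) H
      have h2 : Nat.card ↥(Subgroup.zpowers T) = 2 := by rw [Nat.card_zpowers, hT]
      have h3 : Nat.card ↥(Subgroup.zpowers T ⊓ H) = 1 := by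
        have h4 : Nat.card ↥(Subgroup.zpowers T ⊓ H) ∣ 2 := by
          rw [← h2]
          exact Subgroup.card_dvd_of_le inf_le_left
        rcases (Nat.dvd_prime Nat.prime_two).1 h4 with h5 | h5
        · exact h5
        · exfalso
          have h6 : Subgroup.zpowers T ⊓ H = Subgroup.zpowers T :=
            Subgroup.eq_of_le_of_card_ge inf_le_left (by rw [h2, h5])
          apply hTH
          have h7 : T ∈ Subgroup.zpowers T ⊓ H := by
            rw [h6]
            exact Subgroup.mem_zpowers T
          exact h7.2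
      rw [h2, h3, h32, mul_one] at h1
      exact h1
    have hMJ : M ≤ J := sup_le ((Subgroup.zpowers_le).2 hTJ) hHJ
    have hfJ : f ∈ J := by
      have hd1 : 64 ∣ Nat.card J := by
        rw [← hMcard]
        exact Subgroup.card_dvd_of_le hMJ
      have hd2 : Nat.card J ∣ 320 := by
        rw [← hG]
        exact Subgroup.card_subgroup_dvd_card J
      obtain ⟨k, hk⟩ := hd1
      have hk5 : k ∣ 5 := by
        rw [hk] at hd2
        have h320 : (320 : ℕ) = 64 * 5 := by norm_num
        rw [h320] at hd2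
        exact Nat.dvd_of_mul_dvd_mul_left (by norm_num) hd2
      rcases (Nat.dvd_prime (by norm_num : Nat.Prime 5)).1 hk5 with h5 | h5
      · exfalso
        rw [h5, mul_one] at hk
        have hMeq : M = J := Subgroup.eq_of_le_of_card_ge hMJ (by rw [hk, hMcard])
        have hT'M : f * T * f⁻¹ ∈ M := hMeq ▸ hT'J
        have hconj : ∀ m ∈ M, f * m * f⁻¹ ∈ M := by
          have h1 : M ≤ M.comap (MulAut.conj f).toMonoidHom := by
            refine sup_le ((Subgroup.zpowers_le).2 ?_) ?_
            · exact hT'M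
            · intro h hh
              exact Subgroup.mem_sup_right (hHn.conj_mem h hh f)
          exact fun m hm => h1 hm
        have hfN : f ∈ Subgroup.normalizer (M : Set G) := CfsgLib.FGS.mem_normalizer_of_conj_le hconj
        have hMN : M ≤ Subgroup.normalizer (M : Set G) := Subgroup.le_normalizer
        have hd3 : 64 ∣ Nat.card (Subgroup.normalizer (M : Set G)) := by
          rw [← hMcard]
          exact Subgroup.card_dvd_of_le hMN
        have hd4 : 5 ∣ Nat.card (Subgroup.normalizer (M : Set G)) := by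
          rw [← hf]
          exact Subgroup.orderOf_dvd_natCard _ hfN
        have hd5 : 320 ∣ Nat.card (Subgroup.normalizer (M : Set G)) := by
          have h320 : (320 : ℕ) = 64 * 5 := by norm_num
          rw [h320]
          exact Nat.Coprime.mul_dvd_of_dvd_of_dvd (by norm_num) hd3 hd4
        have hd6 : Nat.card (Subgroup.normalizer (M : Set G)) ∣ 320 := by
          rw [← hG]
          exact Subgroup.card_subgroup_dvd_card _
        have htop : Subgroup.normalizer (M : Set G) = ⊤ := by
          apply Subgroup.eq_top_of_card_eq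
          rw [hG]
          exact Nat.dvd_antisymm hd6 hd5
        haveI hMn : M.Normal := Subgroup.normalizer_eq_top_iff.1 htop
        have hMp : IsPGroup 2 M := IsPGroup.of_card (n := 6) (by rw [hMcard]; norm_num)
        exact hTH (CfsgLib.FGS.le_pCore M hMp (Subgroup.mem_sup_left (Subgroup.mem_zpowers T)))
      · rw [h5] at hk
        have htop : J = ⊤ := by
          apply Subgroup.eq_top_of_card_eq
          rw [hk, hG]
        rw [htop]
        exact Subgroup.mem_top f
    have hφ5 : ∀ x, c f (c f (c f (c f (c f x)))) = x := by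
      intro x
      have h1 : f ^ 5 = 1 := by rw [← hf]; exact pow_orderOf_eq_one f
      have h2 : c (f ^ 5) x = x := by rw [h1, map_one]; rfl
      rw [map_pow] at h2
      simpa only [pow_succ, pow_zero, one_mul, MulAut.mul_apply] using h2
    have hall := h8_L2 hES h32 (c f) hφ5 y hyc hfJ
    have hfC : f ∈ Subgroup.centralizer (H : Set G) := by
      rw [Subgroup.mem_centralizer_iff]
      intro h hh
      have h1 := congrArg Subtype.val (hall ⟨h, hh⟩)
      rw [hc] at h1
      have h2 : f * h * f⁻¹ = h := h1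
      calc h * f = (f * h * f⁻¹) * f := by rw [h2]
        _ = f * h := by group
    haveI hsolv : Group.IsSolvable G :=
      CfsgLib.Char.solvable_of_card_eq Nat.prime_two (by norm_num : Nat.Prime 5) 320 G hG ⟨6, 1, by norm_num⟩
    rw [hHF] at hfC
    have hfF := CfsgLib.Solv.centralizer_fitting_le hfC
    rw [← hHF] at hfF
    have h5 : 5 ∣ 32 := by
      rw [← h32, ← hf]
      exact Subgroup.orderOf_dvd_natCard H hfF
    omega
  have hsq : ∀ y ∈ H ⊓ Subgroup.centralizer ({T} : Set G), y ^ 2 = 1 := by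
    rintro y ⟨hyH, hyC⟩
    have hyT : T * y = y * T := (Subgroup.mem_centralizer_singleton_iff.1 hyC).symm
    have h1 := h8_L1 hES h32 α hα hB ⟨y, hyH⟩ (Subtype.ext (by
      show ((c T ⟨y, hyH⟩ : ↥H) : G) = y
      rw [hc]
      show T * y * T⁻¹ = y
      rw [hyT]
      group))
    have h2 := congrArg Subtype.val h1
    simpa using h2
  have hCab : Cfsg.IsElementaryAbelian 2 (H ⊓ Subgroup.centralizer ({T} : Set G)) := by
    refine ⟨⟨⟨fun a b => ?_⟩⟩, hsq⟩
    apply Subtype.ext
    have ha := hsq a a.2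
    have hb := hsq b b.2
    have hab := hsq (a * b : G) (Subgroup.mul_mem _ a.2 b.2)
    rw [pow_two] at ha hb hab
    have h1 : (a : G)⁻¹ = a := inv_eq_of_mul_eq_one_left ha
    have h2 : (b : G)⁻¹ = b := inv_eq_of_mul_eq_one_left hb
    have h3 : ((a : G) * b)⁻¹ = a * b := inv_eq_of_mul_eq_one_left hab
    rw [mul_inv_rev, h1, h2] at h3
    exact h3.symm
  have hle := hminus _ inf_le_left hCab
  have hge : Nat.card ↥V ≤ Nat.card ↥(H ⊓ Subgroup.centralizer ({T} : Set G)) := Subgroup.card_le_of_le hV
  rw [hV4] at hge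
  exact ⟨le_antisymm hle hge, hCab⟩

end Cfsg.Agent.S4405
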