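import Cfsg.Statements.S4406
import Cfsg.Agent.Lib.FGS.Syl

set_option autoImplicit false
open Cfsg

namespace Cfsg.Agent.S4406

abbrev A4 := ↥(alternatingGroup (Fin 4))

theorem a4_pow12 : ∀ w : A4, w ^ 12 = 1 := by decide +kernel
theorem a4_pow4 : ∀ w : A4, w ^ 4 = 1 → w ^ 2 = 1 := by decide +kernel
theorem a4_act : ∀ a x y : A4, a ^ 3 = 1 → a ≠ 1 → x ^ 2 = 1 → y ^ 2 = 1 → x ≠ 1 → y ≠ 1 → x ≠ y →
    (a * x * a⁻¹ = y ∧ a * y * a⁻¹ = x * y) ∨ (a⁻¹ * x * a = y ∧ a⁻¹ * y * a = x * y) := by decide +kernel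
theorem a4_comm : ∀ x y : A4, x ^ 2 = 1 → y ^ 2 = 1 → x * y = y * x := by decide +kernel
theorem a4_card : Nat.card A4 = 12 := by
  rw [Nat.card_eq_fintype_card]
  decide +kernel

theorem two_elt {w : A4} {k : ℕ} (h : w ^ 2 ^ k = 1) : w ^ 2 = 1 := by
  obtain ⟨j, _, hj⟩ := (Nat.dvd_prime_pow Nat.prime_two).mp (orderOf_dvd_of_pow_eq_one h)
  have h1 : orderOf w ∣ 12 := orderOf_dvd_of_pow_eq_one (a4_pow12 w)
  apply a4_pow4
  apply orderOf_dvd_iff_pow_eq_one.mp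
  rw [hj] at h1 ⊢
  have hj2 : j ≤ 2 := by
    by_contra hcon
    have : 2 ^ 3 ∣ 12 := (pow_dvd_pow 2 (by omega : 3 ≤ j)).trans h1
    omega
  exact (pow_dvd_pow 2 hj2)

theorem three_elt {w : A4} {k : ℕ} (h : w ^ 3 ^ k = 1) : w ^ 3 = 1 := by
  obtain ⟨j, _, hj⟩ := (Nat.dvd_prime_pow Nat.prime_three).mp (orderOf_dvd_of_pow_eq_one h)
  have h1 : orderOf w ∣ 12 := orderOf_dvd_of_pow_eq_one (a4_pow12 w)
  apply orderOf_dvd_iff_pow_eq_one.mp
  rw [hj] at h1 ⊢
  have hj2 : j ≤ 1 := by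
    by_contra hcon
    have : 3 ^ 2 ∣ 12 := (pow_dvd_pow 3 (by omega : 2 ≤ j)).trans h1
    omega
  exact (pow_dvd_pow 3 hj2)

/-- A Sylow 3-subgroup has a nontrivial element with trivial second coordinate. -/
theorem exists_ker (Q : Subgroup (A4 × A4)) (hQ : Nat.card Q = 9) (π : A4 × A4 →* A4) :
    ∃ x ∈ Q, x ≠ 1 ∧ π x = 1 := by
  by_contra hcon
  push Not at hcon
  have hinj : Function.Injective (π.comp Q.subtype) := by
    rw [injective_iff_map_eq_one]
    rintro ⟨x, hx⟩ h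
    by_contra hne
    exact hcon x hx (fun h1 => hne (Subtype.ext h1)) h
  have h1 : Nat.card Q = Nat.card (π.comp Q.subtype).range := (Nat.card_eq_of_bijective _ (MonoidHom.ofInjective hinj).bijective)
  have h2 : Nat.card (π.comp Q.subtype).range ∣ Nat.card A4 := Subgroup.card_subgroup_dvd_card _
  rw [← h1, hQ, a4_card] at h2
  omega


theorem choose_dir (a x1 y1 : A4) (h1 : a ^ 3 = 1) (h2 : a ≠ 1) (h3 : x1 ^ 2 = 1) (h4 : y1 ^ 2 = 1)
    (h5 : x1 ≠ 1) (h6 : y1 ≠ 1) (h7 : x1 ≠ y1) (P : A4 → Prop) (hP : P a) (hP' : P a⁻¹) :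
    ∃ a' : A4, a' ^ 3 = 1 ∧ a' ≠ 1 ∧ P a' ∧ a' * x1 * a'⁻¹ = y1 ∧ a' * y1 * a'⁻¹ = x1 * y1 := by
  rcases a4_act a x1 y1 h1 h2 h3 h4 h5 h6 h7 with ⟨h8, h9⟩ | ⟨h8, h9⟩
  · exact ⟨a, h1, h2, hP, h8, h9⟩
  · refine ⟨a⁻¹, by rw [inv_pow, h1, inv_one], inv_ne_one.mpr h2, hP', ?_, ?_⟩
    · rw [inv_inv]; exact h8
    · rw [inv_inv]; exact h9

/-- In the direct product P = A₄ × A₄, let X be the Sylow 2-subgroup, X₁ and X₂ its intersections with the two direct factors, Q a Sylow 3-subgroup and Q₁, Q₂ its intersections with the two factors. Then every subgroup B of X of order 4 either meets X₁ or X₂ nontrivially, or is normalized by one of the two subgroups of Q of order 3 other than Q₁ and Q₂. -/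
theorem result
    (X : Sylow 2 (↥(alternatingGroup (Fin 4)) × ↥(alternatingGroup (Fin 4))))
    (Q : Sylow 3 (↥(alternatingGroup (Fin 4)) × ↥(alternatingGroup (Fin 4))))
    (B : Subgroup (↥(alternatingGroup (Fin 4)) × ↥(alternatingGroup (Fin 4)))) (hBX : B ≤ (X : Subgroup _)) (hB4 : Nat.card ↥B = 4) :
    B ⊓ ((X : Subgroup _) ⊓ Subgroup.prod ⊤ ⊥) ≠ ⊥ ∨ B ⊓ ((X : Subgroup _) ⊓ Subgroup.prod ⊥ ⊤) ≠ ⊥ ∨
      ∃ R : Subgroup (↥(alternatingGroup (Fin 4)) × ↥(alternatingGroup (Fin 4))), R ≤ (Q : Subgroup _) ∧ Nat.card ↥R = 3 ∧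
        R ≠ (Q : Subgroup _) ⊓ Subgroup.prod ⊤ ⊥ ∧ R ≠ (Q : Subgroup _) ⊓ Subgroup.prod ⊥ ⊤ ∧ R ≤ Subgroup.normalizer (B : Set _) := by
  classical
  by_cases h1 : B ⊓ ((X : Subgroup _) ⊓ Subgroup.prod ⊤ ⊥) ≠ ⊥
  · exact Or.inl h1
  by_cases h2 : B ⊓ ((X : Subgroup _) ⊓ Subgroup.prod ⊥ ⊤) ≠ ⊥
  · exact Or.inr (Or.inl h2)
  right; right
  rw [not_not] at h1 h2
  have hB2 : ∀ x ∈ B, x.2 = 1 → x = 1 := by
    intro x hx hx2
    have : x ∈ B ⊓ ((X : Subgroup _) ⊓ Subgroup.prod ⊤ ⊥) :=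
      ⟨hx, hBX hx, Subgroup.mem_prod.mpr ⟨Subgroup.mem_top _, by simpa using hx2⟩⟩
    rw [h1] at this
    simpa using this
  have hB1 : ∀ x ∈ B, x.1 = 1 → x = 1 := by
    intro x hx hx1
    have : x ∈ B ⊓ ((X : Subgroup _) ⊓ Subgroup.prod ⊥ ⊤) :=
      ⟨hx, hBX hx, Subgroup.mem_prod.mpr ⟨by simpa using hx1, Subgroup.mem_top _⟩⟩
    rw [h2] at this
    simpa using this
  have hsq : ∀ x ∈ B, x.1 ^ 2 = 1 ∧ x.2 ^ 2 = 1 := by
    intro x hx
    obtain ⟨k, hk⟩ := X.isPGroup' ⟨x, hBX hx⟩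
    have h3 : x ^ 2 ^ k = 1 := by simpa using congrArg Subtype.val hk
    have h4 : x.1 ^ 2 ^ k = 1 := by simpa using congrArg Prod.fst h3
    have h5 : x.2 ^ 2 ^ k = 1 := by simpa using congrArg Prod.snd h3
    exact ⟨two_elt h4, two_elt h5⟩
  obtain ⟨x, hxB, hx1⟩ : ∃ x ∈ B, x ≠ 1 := by
    by_contra h
    push Not at h
    have : B = ⊥ := (Subgroup.eq_bot_iff_forall _).mpr h
    rw [this] at hB4
    simp at hB4
  have hcB : ∀ w ∈ B, ∀ z ∈ B, w * z = z * w := by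
    intro w hw z hz
    exact Prod.ext (a4_comm _ _ (hsq w hw).1 (hsq z hz).1) (a4_comm _ _ (hsq w hw).2 (hsq z hz).2)
  have hsB : ∀ w ∈ B, w * w = 1 := by
    intro w hw
    refine Prod.ext ?_ ?_
    · have := (hsq w hw).1
      rw [sq] at this
      exact this
    · have := (hsq w hw).2
      rw [sq] at this
      exact this
  let T : Finset (A4 × A4) := Finset.univ.filter (· ∈ B)
  have hT : T.card = 4 := by
    rw [← hB4, Nat.card_eq_fintype_card, Fintype.card_subtype]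
  have hTm : ∀ w, w ∈ T ↔ w ∈ B := by
    intro w
    simp [T]
  obtain ⟨y, hyB, hy1, hyx⟩ : ∃ y ∈ B, y ≠ 1 ∧ y ≠ x := by
    by_contra h
    push Not at h
    have hsub : T ⊆ {1, x} := by
      intro w hw
      have hw' := (hTm w).mp hw
      simp only [Finset.mem_insert, Finset.mem_singleton]
      by_cases hw1 : w = 1
      · exact Or.inl hw1
      · exact Or.inr (h w hw' hw1)
    have := Finset.card_le_card hsub
    have h2 : ({1, x} : Finset (A4 × A4)).card ≤ 2 := Finset.card_le_two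
    omega
  have hxy1 : x * y ≠ 1 := by
    intro h
    apply hyx
    have h3 := hsB x hxB
    calc y = (x * x) * y := by rw [h3, one_mul]
      _ = x * (x * y) := by rw [mul_assoc]
      _ = x := by rw [h, mul_one]
  have hxyx : x * y ≠ x := by
    intro h
    exact hy1 (mul_left_cancel (h.trans (mul_one x).symm))
  have hxyy : x * y ≠ y := by
    intro h
    exact hx1 (mul_right_cancel (h.trans (one_mul y).symm))
  have hS : T = {1, x, y, x * y} := by
    symm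
    apply Finset.eq_of_subset_of_card_le
    · intro w hw
      simp only [Finset.mem_insert, Finset.mem_singleton] at hw
      rw [hTm]
      rcases hw with rfl | rfl | rfl | rfl
      · exact B.one_mem
      · exact hxB
      · exact hyB
      · exact B.mul_mem hxB hyB
    · rw [hT]
      rw [Finset.card_insert_of_notMem, Finset.card_insert_of_notMem, Finset.card_insert_of_notMem, Finset.card_singleton]
      · simp only [Finset.mem_singleton]
        exact hxyy.symm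
      · simp only [Finset.mem_insert, Finset.mem_singleton, not_or]
        exact ⟨hyx.symm, hxyx.symm⟩
      · simp only [Finset.mem_insert, Finset.mem_singleton, not_or]
        exact ⟨hx1.symm, hy1.symm, hxy1.symm⟩
  have hall : ∀ w ∈ B, w = 1 ∨ w = x ∨ w = y ∨ w = x * y := by
    intro w hw
    have := (hTm w).mpr hw
    rw [hS] at this
    simpa only [Finset.mem_insert, Finset.mem_singleton] using this
  -- order of Q
  have hG : Nat.card (A4 × A4) = 144 := by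
    rw [Nat.card_prod, a4_card]
  have hQ9 : Nat.card (Q : Subgroup (A4 × A4)) = 9 := by
    rw [Q.card_eq_multiplicity, hG]
    have h3 : (144 : ℕ).factorization 3 = 2 := by
      apply le_antisymm
      · by_contra hcon
        have : 3 ≤ (144 : ℕ).factorization 3 := by omega
        have := (Nat.Prime.pow_dvd_iff_le_factorization Nat.prime_three (by norm_num)).mpr this
        omega
      · exact (Nat.Prime.pow_dvd_iff_le_factorization Nat.prime_three (by norm_num)).mp (by norm_num)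
    rw [h3]
    norm_num
  obtain ⟨u, huQ, hu1, hu2⟩ := exists_ker Q hQ9 (MonoidHom.snd _ _)
  obtain ⟨v, hvQ, hv1, hv2⟩ := exists_ker Q hQ9 (MonoidHom.fst _ _)
  have hu2' : u.2 = 1 := hu2
  have hv2' : v.1 = 1 := hv2
  have hcub : ∀ w ∈ (Q : Subgroup (A4 × A4)), w.1 ^ 3 = 1 ∧ w.2 ^ 3 = 1 := by
    intro w hw
    obtain ⟨k, hk⟩ := Q.isPGroup' ⟨w, hw⟩
    have h3 : w ^ 3 ^ k = 1 := by simpa using congrArg Subtype.val hk
    have h4 : w.1 ^ 3 ^ k = 1 := by simpa using congrArg Prod.fst h3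
    have h5 : w.2 ^ 3 ^ k = 1 := by simpa using congrArg Prod.snd h3
    exact ⟨three_elt h4, three_elt h5⟩
  have ha1 : u.1 ≠ 1 := by
    intro h
    exact hu1 (Prod.ext h hu2')
  have hb1 : v.2 ≠ 1 := by
    intro h
    exact hv1 (Prod.ext hv2' h)
  have hxy : x.1 ≠ y.1 := by
    intro h
    apply hxy1
    apply hB1 _ (B.mul_mem hxB hyB)
    show x.1 * y.1 = 1
    rw [← h, ← sq]
    exact (hsq x hxB).1
  have hxy' : x.2 ≠ y.2 := by
    intro h
    apply hxy1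
    apply hB2 _ (B.mul_mem hxB hyB)
    show x.2 * y.2 = 1
    rw [← h, ← sq]
    exact (hsq x hxB).2
  obtain ⟨a', ha3, ha'1, haQ, hax, hay⟩ := choose_dir u.1 x.1 y.1 (hcub u huQ).1 ha1 (hsq x hxB).1 (hsq y hyB).1
    (fun h => hx1 (hB1 x hxB h)) (fun h => hy1 (hB1 y hyB h)) hxy
    (fun t => ((t, 1) : A4 × A4) ∈ (Q : Subgroup (A4 × A4)))
    (by
      have : ((u.1, 1) : A4 × A4) = u := Prod.ext rfl hu2'.symm
      rw [this]; exact huQ)
    (by
      have : ((u.1⁻¹, 1) : A4 × A4) = u⁻¹ := Prod.ext rfl (by simp [hu2'])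
      rw [this]; exact Q.inv_mem huQ)
  obtain ⟨b', hb3, hb'1, hbQ, hbx, hby⟩ := choose_dir v.2 x.2 y.2 (hcub v hvQ).2 hb1 (hsq x hxB).2 (hsq y hyB).2
    (fun h => hx1 (hB2 x hxB h)) (fun h => hy1 (hB2 y hyB h)) hxy'
    (fun t => ((1, t) : A4 × A4) ∈ (Q : Subgroup (A4 × A4)))
    (by
      have : ((1, v.2) : A4 × A4) = v := Prod.ext hv2'.symm rfl
      rw [this]; exact hvQ)
    (by
      have : ((1, v.2⁻¹) : A4 × A4) = v⁻¹ := Prod.ext (by simp [hv2']) rfl
      rw [this]; exact Q.inv_mem hvQ)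
  let c : A4 × A4 := (a', b')
  have hcQ : c ∈ (Q : Subgroup (A4 × A4)) := by
    have h3 := Q.mul_mem haQ hbQ
    have h4 : ((a', 1) : A4 × A4) * (1, b') = c := by
      show ((a' * 1, 1 * b') : A4 × A4) = c
      simp [c]
    rwa [h4] at h3
  have hcx : c * x * c⁻¹ = y := Prod.ext hax hbx
  have hcy : c * y * c⁻¹ = x * y := Prod.ext hay hby
  have hc3 : c ^ 3 = 1 := Prod.ext ha3 hb3
  have hc1 : c ≠ 1 := by
    intro h
    exact ha'1 (congrArg Prod.fst h)
  have hcxy : c * (x * y) * c⁻¹ = x := by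
    have h3 : c * (x * y) * c⁻¹ = (c * x * c⁻¹) * (c * y * c⁻¹) := by group
    rw [h3, hcx, hcy]
    calc y * (x * y) = (x * y) * y := hcB _ hyB _ (B.mul_mem hxB hyB)
      _ = x * (y * y) := mul_assoc _ _ _
      _ = x := by rw [hsB y hyB, mul_one]
  have hcN : c ∈ Subgroup.normalizer (B : Set (A4 × A4)) := by
    apply CfsgLib.FGS.mem_normalizer_of_conj_le
    intro w hw
    rcases hall w hw with rfl | rfl | rfl | rfl
    · simp [B.one_mem]
    · rw [hcx]; exact hyB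
    · rw [hcy]; exact B.mul_mem hxB hyB
    · rw [hcxy]; exact hxB
  refine ⟨Subgroup.zpowers c, ?_, ?_, ?_, ?_, ?_⟩
  · exact (Subgroup.zpowers_le).mpr hcQ
  · rw [Nat.card_zpowers]
    exact orderOf_eq_prime hc3 hc1
  · intro h
    have h3 : c ∈ (Q : Subgroup (A4 × A4)) ⊓ Subgroup.prod ⊤ ⊥ := h ▸ Subgroup.mem_zpowers c
    have h4 := (Subgroup.mem_prod.mp h3.2).2
    exact hb'1 (by simpa [c] using h4)
  · intro h
    have h3 : c ∈ (Q : Subgroup (A4 × A4)) ⊓ Subgroup.prod ⊥ ⊤ := h ▸ Subgroup.mem_zpowers c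
    have h4 := (Subgroup.mem_prod.mp h3.2).1
    exact ha'1 (by simpa [c] using h4)
  · exact (Subgroup.zpowers_le).mpr hcN


end Cfsg.Agent.S4406
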