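import Cfsg.Statements.S4408
import Cfsg.Agent.Lib.FGS.Eigen
import Cfsg.Agent.Lib.FGS.Syl

set_option autoImplicit false
open Cfsg
open scoped commutatorElement
open scoped Pointwise

namespace Cfsg.Agent.S4408

/-- Let S be a finite solvable group whose Fitting subgroup F(S) has odd order, and let I be an elementary abelian 2-subgroup of S of order 2ⁿ with n ≥ 1. Then F(S) contains subgroups A₁, …, Aₙ of prime order, each normalized by I, pairwise commuting and generating a subgroup A of order |A₁|⋯|Aₙ| (their internal direct product), such that no non-identity element of I centralizes A. -/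
theorem result {S : Type*} [Group S] [Finite S]
    [Group.IsSolvable S] (hF : Odd (Nat.card ↥(Cfsg.fittingSubgroup S)))
    (I : Subgroup S) (hI : Cfsg.IsElementaryAbelian 2 I) (n : ℕ) (hn : 1 ≤ n) (hIn : Nat.card ↥I = 2 ^ n) :
    ∃ f : Fin n → Subgroup S, (∀ i, (Nat.card ↥(f i)).Prime) ∧ (∀ i, f i ≤ Cfsg.fittingSubgroup S) ∧
      (∀ i, I ≤ Subgroup.normalizer ((f i) : Set S)) ∧ (∀ i j, i ≠ j → ∀ a ∈ f i, ∀ b ∈ f j, a * b = b * a) ∧
      Nat.card ↥(⨆ i, f i) = ∏ i, Nat.card ↥(f i) ∧ I ⊓ Subgroup.centralizer ((⨆ i, f i : Subgroup S) : Set S) = ⊥ := by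
  classical
  haveI hFn : (Cfsg.fittingSubgroup S).Normal := CfsgLib.Solv.fittingSubgroup_normal'
  set F := Cfsg.fittingSubgroup S with hFdef
  have hnil : Group.IsNilpotent F := CfsgLib.Solv.fitting_nilpotent
  let ρ : I →* MulAut F := (MulAut.conjNormal).comp I.subtype
  have hρ : ∀ (g : I) (x : F), ((ρ g x : F) : S) = g * x * (g : S)⁻¹ := fun g x =>
    MulAut.conjNormal_apply _ _
  have hsq : ∀ a ∈ I, a * a = 1 := fun a ha => by
    have := hI.2 a ha
    rwa [sq] at this
  have hΓ : ∀ g : I, g * g = 1 := fun g => Subtype.ext (hsq g g.2)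
  have hfaith : ∀ g, (∀ x, ρ g x = x) → g = 1 := by
    intro g hg
    have h1 : (g : S) ∈ Subgroup.centralizer (F : Set S) := by
      rw [Subgroup.mem_centralizer_iff]
      intro x hx
      have h2 := congrArg Subtype.val (hg ⟨x, hx⟩)
      rw [hρ] at h2
      change (g : S) * x * (g : S)⁻¹ = x at h2
      rw [mul_inv_eq_iff_eq_mul] at h2
      exact h2.symm
    have h3 : (g : S) ∈ F := CfsgLib.Solv.centralizer_fitting_le h1
    have h4 : (⟨g, h3⟩ : F) = (⟨g, h3⟩ : F)⁻¹ := by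
      apply Subtype.ext
      show (g : S) = (g : S)⁻¹
      exact eq_inv_of_mul_eq_one_left (hsq g g.2)
    have h5 := CfsgLib.FGS.Eigen.eq_one_of_eq_inv hF h4
    have h6 : (g : S) = 1 := congrArg (fun z : F => (z : S)) h5
    exact Subtype.ext h6
  obtain ⟨y, hycomm, hyp, hye, hcard, hfix⟩ :=
    CfsgLib.FGS.Eigen.exists_faithful_chain ρ hnil hΓ hF hfaith n hIn
  have hAB : ∀ i j, ∀ a ∈ Subgroup.zpowers (y i), ∀ b ∈ Subgroup.zpowers (y j), a * b = b * a := by
    intro i j a ha b hb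
    obtain ⟨m, rfl⟩ := Subgroup.mem_zpowers_iff.1 ha
    obtain ⟨l, rfl⟩ := Subgroup.mem_zpowers_iff.1 hb
    exact ((Commute.zpow_zpow (show Commute (y i) (y j) from hycomm i j) m l)).eq
  have hcardf : ∀ i, Nat.card ↥((Subgroup.zpowers (y i)).map F.subtype) = orderOf (y i) := by
    intro i
    rw [Subgroup.card_map_of_injective F.subtype_injective, Nat.card_zpowers]
  refine ⟨fun i => (Subgroup.zpowers (y i)).map F.subtype, ?_, ?_, ?_, ?_, ?_, ?_⟩
  · intro i
    rw [hcardf]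
    exact hyp i
  · intro i
    exact Subgroup.map_subtype_le _
  · intro i g hg
    apply CfsgLib.FGS.mem_normalizer_of_conj_le
    rintro _ ⟨x, hx, rfl⟩
    refine ⟨ρ ⟨g, hg⟩ x, ?_, (hρ ⟨g, hg⟩ x)⟩
    obtain ⟨m, rfl⟩ := Subgroup.mem_zpowers_iff.1 hx
    rw [map_zpow]
    rcases hye i ⟨g, hg⟩ with h | h
    · rw [h]
      exact Subgroup.zpow_mem _ (Subgroup.mem_zpowers _) _
    · rw [h]
      exact Subgroup.zpow_mem _ (Subgroup.inv_mem _ (Subgroup.mem_zpowers _)) _
  · rintro i j - _ ⟨a, ha, rfl⟩ _ ⟨b, hb, rfl⟩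
    exact congrArg Subtype.val (hAB i j a ha b hb)
  · have h1 : (⨆ i, (Subgroup.zpowers (y i)).map F.subtype) = (⨆ i, Subgroup.zpowers (y i)).map F.subtype :=
      (Subgroup.map_iSup _ _).symm
    rw [h1, Subgroup.card_map_of_injective F.subtype_injective, hcard]
    exact Finset.prod_congr rfl fun i _ => (hcardf i).symm
  · rw [eq_bot_iff]
    rintro g ⟨hgI, hgc⟩
    have h1 : (⟨g, hgI⟩ : I) ∈ CfsgLib.FGS.Eigen.fixSub ρ (Set.range y) := by
      rintro _ ⟨i, rfl⟩
      apply Subtype.ext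
      rw [hρ]
      have h2 : ((y i : F) : S) ∈ (⨆ i, (Subgroup.zpowers (y i)).map F.subtype) :=
        Subgroup.mem_iSup_of_mem i ⟨y i, Subgroup.mem_zpowers _, rfl⟩
      have h3 := Subgroup.mem_centralizer_iff.1 hgc _ h2
      show g * ((y i : F) : S) * g⁻¹ = ((y i : F) : S)
      rw [mul_inv_eq_iff_eq_mul]
      exact h3.symm
    rw [hfix, Subgroup.mem_bot] at h1
    rw [Subgroup.mem_bot]
    exact congrArg Subtype.val h1

end Cfsg.Agent.S4408
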