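import Cfsg.Statements.S4410
import Cfsg.Agent.Lib.FGS.Eigen

set_option autoImplicit false
open Cfsg
open scoped commutatorElement
open scoped Pointwise

namespace Cfsg.Agent.S4410

section lin
variable {V : Type*} [AddCommGroup V] [Module (ZMod 2) V]

theorem h8_z2 (x : ZMod 2) : x = 0 ∨ x = 1 := by
  revert x; decide

theorem h8_2v (x : V) : x + x = 0 := by
  have h : ((1 : ZMod 2) + 1) • x = 0 := by
    have : (1 : ZMod 2) + 1 = 0 := by decide
    rw [this, zero_smul]
  rwa [add_smul, one_smul] at h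

theorem h8_z2a (x : ZMod 2) : x + x = 0 := by
  revert x; decide

theorem h8_pair (s1 s2 : V ≃ₗ[ZMod 2] V) (a1 a2 : V) (f1 f2 : V →ₗ[ZMod 2] ZMod 2)
    (h1 : ∀ v, s1 v = v + f1 v • a1) (h2 : ∀ v, s2 v = v + f2 v • a2) (h11 : f1 a1 = 0) (h22 : f2 a2 = 0)
    (hodd : Odd (orderOf (s1 * s2))) (hne : s1 * s2 ≠ 1) : f1 a2 = 1 := by
  by_contra hc
  have h0 : f1 a2 = 0 := (h8_z2 _).resolve_right hc
  apply hne
  set n := s1 * s2 with hn
  have hnv : ∀ v, n v = v + f2 v • a2 + f1 v • a1 := by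
    intro v
    show s1 (s2 v) = _
    rw [h1, h2, map_add, map_smul, h0]
    simp
  have hf1 : ∀ v, f1 (n v) = f1 v := by
    intro v
    rw [hnv]
    simp [h0, h11]
  set β := f2 a1 with hβ
  have hf2 : ∀ v, f2 (n v) = f2 v + f1 v * β := by
    intro v
    rw [hnv]
    simp [h22, ← hβ]
  have hn2 : ∀ v, n (n v) = v + (f1 v * β) • a2 := by
    intro v
    rw [hnv (n v), hf1, hf2, hnv v, add_smul]
    rw [← sub_eq_zero]
    have : v + f2 v • a2 + f1 v • a1 + (f2 v • a2 + (f1 v * β) • a2) + f1 v • a1 - (v + (f1 v * β) • a2)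
        = (f2 v • a2 + f2 v • a2) + (f1 v • a1 + f1 v • a1) := by abel
    rw [this, h8_2v, h8_2v, add_zero]
  have hn4 : ∀ v, n (n (n (n v))) = v := by
    intro v
    rw [hn2 (n (n v)), hn2 v]
    have : f1 (v + (f1 v * β) • a2) = f1 v := by
      simp [h0]
    rw [this, add_assoc, h8_2v, add_zero]
  have hpow : n ^ 4 = 1 := by
    ext v
    show n (n (n (n v))) = v
    exact hn4 v
  have hd : orderOf n ∣ 2 ^ 2 := by
    have : (2 : ℕ) ^ 2 = 4 := by norm_num
    rw [this]
    exact orderOf_dvd_of_pow_eq_one hpow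
  have h3 : (orderOf n).Coprime (2 ^ 2) := Nat.Coprime.pow_right 2 (Nat.coprime_two_right.2 hodd)
  exact orderOf_eq_one_iff.1 (Nat.Coprime.eq_one_of_dvd h3 hd)

theorem h8_triple (s1 s2 s3 : V ≃ₗ[ZMod 2] V) (a1 a2 a3 : V) (f1 f2 f3 : V →ₗ[ZMod 2] ZMod 2)
    (h1 : ∀ v, s1 v = v + f1 v • a1) (h2 : ∀ v, s2 v = v + f2 v • a2) (h3 : ∀ v, s3 v = v + f3 v • a3)
    (h11 : f1 a1 = 0) (h22 : f2 a2 = 0) (h33 : f3 a3 = 0)
    (h12 : f1 a2 = 1) (h21 : f2 a1 = 1) (h13 : f1 a3 = 1) (h23 : f2 a3 = 1)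
    (hodd : Odd (orderOf ((s1 * s2 * s1) * s3))) : s1 * s2 * s1 * s3 = 1 := by
  by_contra hne
  have hs : ∀ v, (s1 * s2 * s1) v = v + (f1 + f2) v • (a1 + a2) := by
    intro v
    show s1 (s2 (s1 v)) = _
    rw [h1 (s2 (s1 v)), h2 (s1 v), h1 v]
    simp only [map_add, map_smul, h21, h11, h12, smul_eq_mul, mul_one, mul_zero, add_zero, LinearMap.add_apply, smul_add, add_smul]
    rw [← sub_eq_zero]
    have : v + f1 v • a1 + (f2 v • a2 + f1 v • a2) + (f1 v • a1 + (f2 v • a1 + f1 v • a1)) -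
      (v + (f1 v • a1 + f2 v • a1 + (f1 v • a2 + f2 v • a2))) = (f1 v • a1 + f1 v • a1) := by
      abel
    rw [this, h8_2v]
  have hsa : (f1 + f2) (a1 + a2) = 0 := by
    simp only [LinearMap.add_apply, map_add, h11, h12, h21, h22]
    decide
  have := h8_pair (s1 * s2 * s1) s3 (a1 + a2) a3 (f1 + f2) f3 hs h3 hsa h33 hodd hne
  simp only [LinearMap.add_apply, h13, h23] at this
  exact absurd this (by decide)

theorem h8_inv (s : V ≃ₗ[ZMod 2] V) (a : V) (f : V →ₗ[ZMod 2] ZMod 2) (h : ∀ v, s v = v + f v • a) (h0 : f a = 0) :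
    s * s = 1 := by
  ext v
  show s (s v) = v
  rw [h (s v), h v]
  simp only [map_add, map_smul, h0, smul_eq_mul, mul_zero, add_zero]
  rw [add_assoc, h8_2v, add_zero]

end lin


/-- Let V be a finite-dimensional vector space over the field with two elements and S a solvable group of linear automorphisms of V with O₂(S) = 1. If P ∈ S has order 4 and (P − 1)³ = 0 on V, then the image of (P − 1)² has at least 4 elements; equivalently, in the decomposition of V into indecomposable modules for the cyclic group generated by P, at least two summands have dimension 3. -/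
theorem result
    {V : Type*} [AddCommGroup V] [Module (ZMod 2) V] [Finite V]
    (S : Subgroup (V ≃ₗ[ZMod 2] V)) (hS : Group.IsSolvable ↥S) (hO2 : Cfsg.pCore 2 ↥S = ⊥)
    (P : V ≃ₗ[ZMod 2] V) (hPS : P ∈ S) (hP4 : orderOf P = 4)
    (hcub : ((P : V →ₗ[ZMod 2] V) - LinearMap.id) ^ 3 = 0) :
    4 ≤ Nat.card ↥(LinearMap.range (((P : V →ₗ[ZMod 2] V) - LinearMap.id) ^ 2)) := by
  classical
  haveI : Finite (V ≃ₗ[ZMod 2] V) := Finite.of_injective (fun e : V ≃ₗ[ZMod 2] V => (e : V → V)) (fun e e' h => LinearEquiv.ext (congrFun h))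
  by_contra hlt
  have hlt' : Nat.card ↥(LinearMap.range (((P : V →ₗ[ZMod 2] V) - LinearMap.id) ^ 2)) < 4 := not_le.1 hlt
  set D := ((P : V →ₗ[ZMod 2] V) - LinearMap.id) ^ 2 with hD
  -- `D v = P (P v) + v`
  have hDv : ∀ v, D v = P (P v) + v := by
    intro v
    rw [hD, pow_two, Module.End.mul_apply]
    simp only [LinearMap.sub_apply, LinearEquiv.coe_coe, LinearMap.id_apply, map_sub]
    rw [← sub_eq_zero]
    have : P (P v) - P v - (P v - v) - (P (P v) + v) = -(P v + P v) := by abel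
    rw [this, h8_2v, neg_zero]
  set t := P * P with ht
  have htv : ∀ v, t v = v + D v := by
    intro v
    rw [hDv]
    show P (P v) = _
    rw [← sub_eq_zero]
    have : P (P v) - (v + (P (P v) + v)) = -(v + v) := by abel
    rw [this, h8_2v, neg_zero]
  have ht1 : t ≠ 1 := by
    intro h
    have h2 : orderOf P ∣ 2 := orderOf_dvd_of_pow_eq_one (by rw [pow_two]; exact h)
    rw [hP4] at h2
    omega
  have htt : t * t = 1 := by
    have h4 : P ^ 4 = 1 := by rw [← hP4]; exact pow_orderOf_eq_one P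
    rw [ht]
    calc P * P * (P * P) = P ^ 4 := by simp only [pow_succ, pow_zero, one_mul, mul_assoc]
      _ = 1 := h4
  -- the range has two elements
  obtain ⟨v0, hv0⟩ : ∃ v, D v ≠ 0 := by
    by_contra h
    push Not at h
    apply ht1
    ext v
    rw [htv, h v, add_zero]
    rfl
  set a := D v0 with ha
  have hrange : ∀ v, D v = 0 ∨ D v = a := by
    intro v
    by_contra hc
    push Not at hc
    obtain ⟨hc1, hc2⟩ := hc
    set b := D v with hb
    have hab : a + b ≠ 0 := by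
      intro h
      apply hc2
      have : a + b + b = a := by rw [add_assoc, h8_2v, add_zero]
      rw [h, zero_add] at this
      exact this
    let g : Fin 4 → ↥(LinearMap.range D) := ![⟨0, Submodule.zero_mem _⟩, ⟨a, ⟨v0, rfl⟩⟩, ⟨b, ⟨v, rfl⟩⟩, ⟨a + b, ⟨v0 + v, by simp [← ha, ← hb]⟩⟩]
    have hg : Function.Injective g := by
      intro i j hij
      have h5 : ((g i : ↥(LinearMap.range D)) : V) = g j := congrArg Subtype.val hij
      fin_cases i <;> fin_cases j <;> first
        | rfl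
        | (exfalso; simp [g] at h5
           first
            | exact hv0 h5
            | exact hv0 h5.symm
            | exact hc1 h5
            | exact hc1 h5.symm
            | exact hc2 h5
            | exact hc2 h5.symm
            | exact hab h5
            | exact hab h5.symm
            | skip)
    have hc4 := Nat.card_le_card_of_injective g hg
    rw [Nat.card_fin] at hc4
    omega
  -- the functional
  let f : V →ₗ[ZMod 2] ZMod 2 :=
    { toFun := fun v => if D v = 0 then 0 else 1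
      map_add' := by
        intro v w
        have h5 : D (v + w) = D v + D w := map_add D v w
        rcases hrange v with h1 | h1 <;> rcases hrange w with h2 | h2
        · have h3 : D (v + w) = 0 := by rw [h5, h1, h2, add_zero]
          simp [h1, h2, h3]
        · have h3 : D (v + w) = a := by rw [h5, h1, h2, zero_add]
          simp [h1, h2, h3, hv0]
        · have h3 : D (v + w) = a := by rw [h5, h1, h2, add_zero]
          simp [h1, h2, h3, hv0]
        · have h3 : D (v + w) = 0 := by rw [h5, h1, h2, h8_2v]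
          simp only [h3, h1, h2, if_true, if_neg hv0]
          decide
      map_smul' := by
        intro c v
        rcases h8_z2 c with rfl | rfl
        · simp
        · simp }
  have hfv : ∀ v, D v = f v • a := by
    intro v
    show D v = (if D v = 0 then (0 : ZMod 2) else 1) • a
    rcases hrange v with h1 | h1
    · rw [if_pos h1, zero_smul, h1]
    · rw [if_neg (by rw [h1]; exact hv0), one_smul, h1]
  have htf : ∀ v, t v = v + f v • a := fun v => by rw [htv, hfv]
  have hfv0 : f v0 = 1 := by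
    show (if D v0 = 0 then (0 : ZMod 2) else 1) = 1
    rw [if_neg hv0]
  have hfa : f a = 0 := by
    have h1 : t (t v0) = v0 := by
      have := congrArg (fun g : V ≃ₗ[ZMod 2] V => g v0) htt
      exact this
    rw [htf (t v0), htf v0, hfv0, one_smul] at h1
    have h2 : f (v0 + a) = 1 + f a := by rw [map_add, hfv0]
    rw [h2] at h1
    rcases h8_z2 (f a) with h | h
    · exact h
    · exfalso
      rw [h] at h1
      have h3 : (1 : ZMod 2) + 1 = 0 := by decide
      rw [h3, zero_smul, add_zero] at h1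
      exact hv0 (add_left_cancel (h1.trans (add_zero v0).symm))
  -- the group
  let Pg : ↥S := ⟨P, hPS⟩
  let tg : ↥S := Pg * Pg
  have htgc : (tg : V ≃ₗ[ZMod 2] V) = t := rfl
  have htg2 : tg * tg = 1 := Subtype.ext htt
  have htg1 : tg ≠ 1 := fun h => ht1 (congrArg Subtype.val h)
  have htginv : tg⁻¹ = tg := inv_eq_of_mul_eq_one_left htg2
  let F := Cfsg.fittingSubgroup ↥S
  haveI hFn : F.Normal := CfsgLib.Solv.fittingSubgroup_normal'
  have hFodd : Odd (Nat.card F) := CfsgLib.FGS.Eigen.odd_fitting hO2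
  have hoddF : ∀ w ∈ F, Odd (orderOf w) := fun w hw => Odd.of_dvd_nat hFodd (Subgroup.orderOf_dvd_natCard F hw)
  have hoddF' : ∀ w ∈ F, Odd (orderOf (w : V ≃ₗ[ZMod 2] V)) := by
    intro w hw
    rw [Subgroup.orderOf_coe]
    exact hoddF w hw
  let sx : ↥S → ↥S := fun x => x * tg * x⁻¹
  let ax : ↥S → V := fun x => (x : V ≃ₗ[ZMod 2] V) a
  let fx : ↥S → (V →ₗ[ZMod 2] ZMod 2) := fun x => f.comp ((x⁻¹ : ↥S) : V ≃ₗ[ZMod 2] V).toLinearMap
  have hsdata : ∀ x v, ((sx x : ↥S) : V ≃ₗ[ZMod 2] V) v = v + fx x v • ax x := by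
    intro x v
    show (x : V ≃ₗ[ZMod 2] V) (t (((x⁻¹ : ↥S) : V ≃ₗ[ZMod 2] V) v)) = _
    rw [htf, map_add, map_smul]
    congr 1
    show ((x * x⁻¹ : ↥S) : V ≃ₗ[ZMod 2] V) v = v
    rw [mul_inv_cancel]
    rfl
  have hsa0 : ∀ x, fx x (ax x) = 0 := by
    intro x
    show f (((x⁻¹ * x : ↥S) : V ≃ₗ[ZMod 2] V) a) = 0
    rw [inv_mul_cancel]
    exact hfa
  have hss : ∀ x, sx x * sx x = 1 := by
    intro x
    show x * tg * x⁻¹ * (x * tg * x⁻¹) = 1
    calc x * tg * x⁻¹ * (x * tg * x⁻¹) = x * (tg * tg) * x⁻¹ := by group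
      _ = 1 := by rw [htg2]; group
  have hprod : ∀ x ∈ F, ∀ y ∈ F, sx x * sx y ∈ F := by
    intro x hx y hy
    have h1 : sx x * sx y = x * (tg * (x⁻¹ * y) * tg⁻¹) * (tg * tg) * y⁻¹ := by
      show x * tg * x⁻¹ * (y * tg * y⁻¹) = _
      group
    rw [h1, htg2, mul_one]
    exact F.mul_mem (F.mul_mem hx (hFn.conj_mem _ (F.mul_mem (F.inv_mem hx) hy) tg)) (F.inv_mem hy)
  have hpair : ∀ x ∈ F, ∀ y ∈ F, sx x ≠ sx y → fx x (ax y) = 1 := by
    intro x hx y hy hne
    refine h8_pair _ _ _ _ _ _ (hsdata x) (hsdata y) (hsa0 x) (hsa0 y) (hoddF' _ (hprod x hx y hy)) ?_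
    intro h
    apply hne
    have h2 : sx x * sx y = 1 := Subtype.ext h
    have h3 := hss y
    calc sx x = sx x * (sx y * sx y) := by rw [h3, mul_one]
      _ = (sx x * sx y) * sx y := by group
      _ = sx y := by rw [h2, one_mul]
  have hs1 : sx 1 = tg := by
    show 1 * tg * 1⁻¹ = tg
    group
  -- `t` does not centralize `F`
  obtain ⟨x0, hx0, hx0t⟩ : ∃ x ∈ F, sx x ≠ tg := by
    by_contra hc
    push Not at hc
    have hC : tg ∈ Subgroup.centralizer (F : Set ↥S) := by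
      rw [Subgroup.mem_centralizer_iff]
      intro x hx
      have h1 := hc x hx
      have h2 : x * tg * x⁻¹ = tg := h1
      calc x * tg = x * tg * x⁻¹ * x := by group
        _ = tg * x := by rw [h2]
    haveI : Group.IsSolvable ↥S := hS
    have hF : tg ∈ F := CfsgLib.Solv.centralizer_fitting_le hC
    have h1 := hoddF tg hF
    have h2 : orderOf tg ∣ 2 := orderOf_dvd_of_pow_eq_one (by rw [pow_two]; exact htg2)
    have h3 : (orderOf tg).Coprime 2 := Nat.coprime_two_right.2 h1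
    exact htg1 (orderOf_eq_one_iff.1 (Nat.Coprime.eq_one_of_dvd h3 h2))
  have hPgc : Pg * tg * Pg⁻¹ = tg := by
    show Pg * (Pg * Pg) * Pg⁻¹ = Pg * Pg
    group
  set y0 := Pg * x0 * Pg⁻¹ with hy0
  have hy0F : y0 ∈ F := hFn.conj_mem _ hx0 Pg
  have huconj : sx y0 = Pg * sx x0 * Pg⁻¹ := by
    show y0 * tg * y0⁻¹ = Pg * (x0 * tg * x0⁻¹) * Pg⁻¹
    have h1 : tg = Pg * tg * Pg⁻¹ := hPgc.symm
    calc y0 * tg * y0⁻¹ = y0 * (Pg * tg * Pg⁻¹) * y0⁻¹ := by rw [← h1]
      _ = _ := by rw [hy0]; group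
  set x3 := tg * x0 * tg⁻¹ with hx3
  have hx3F : x3 ∈ F := hFn.conj_mem _ hx0 tg
  have hs3 : sx x3 = tg * sx x0 * tg := by
    show x3 * tg * x3⁻¹ = tg * (x0 * tg * x0⁻¹) * tg
    have h1 : x3 * tg * x3⁻¹ = tg * (x0 * tg * x0⁻¹) * tg⁻¹ := by rw [hx3]; group
    rw [h1, htginv]
  have hs3P : sx x3 = Pg * sx y0 * Pg⁻¹ := by
    rw [hs3, huconj]
    show tg * sx x0 * tg = Pg * (Pg * sx x0 * Pg⁻¹) * Pg⁻¹
    have h1 : tg * sx x0 * tg = tg * sx x0 * tg⁻¹ := by rw [htginv]
    rw [h1]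
    show (Pg * Pg) * sx x0 * (Pg * Pg)⁻¹ = _
    group
  have hs32 : sx x3 ≠ sx x0 := by
    intro h
    rw [hs3] at h
    set w := tg * sx x0 with hw
    have h2 : w * w = 1 := by
      calc w * w = (tg * sx x0 * tg) * sx x0 := by rw [hw]; group
        _ = 1 := by rw [h, hss]
    have hwF : w ∈ F := by
      have := hprod 1 F.one_mem x0 hx0
      rw [hs1] at this
      exact this
    have h3 : orderOf w ∣ 2 := orderOf_dvd_of_pow_eq_one (by rw [pow_two]; exact h2)
    have h4 : (orderOf w).Coprime 2 := Nat.coprime_two_right.2 (hoddF w hwF)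
    have h5 : w = 1 := orderOf_eq_one_iff.1 (Nat.Coprime.eq_one_of_dvd h4 h3)
    apply hx0t
    have h6 := hss 1
    rw [hs1] at h6
    calc sx x0 = tg * tg * sx x0 := by rw [h6, one_mul]
      _ = tg * w := by rw [hw]; group
      _ = tg := by rw [h5, mul_one]
  have hut : sx y0 ≠ tg := by
    intro h
    rw [huconj] at h
    apply hx0t
    calc sx x0 = Pg⁻¹ * (Pg * sx x0 * Pg⁻¹) * Pg := by group
      _ = Pg⁻¹ * tg * Pg := by rw [h]
      _ = Pg⁻¹ * (Pg * tg * Pg⁻¹) * Pg := by rw [hPgc]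
      _ = tg := by group
  by_cases hu2 : sx y0 = sx x0
  · apply hs32
    rw [hs3P, hu2, ← huconj, hu2]
  · -- the triple
    have h1ne : sx 1 ≠ sx x0 := by rw [hs1]; exact fun h => hx0t h.symm
    have h2ne : sx 1 ≠ sx y0 := by rw [hs1]; exact fun h => hut h.symm
    have h12 := hpair 1 F.one_mem x0 hx0 h1ne
    have h21 := hpair x0 hx0 1 F.one_mem h1ne.symm
    have h13 := hpair 1 F.one_mem y0 hy0F h2ne
    have h23 := hpair x0 hx0 y0 hy0F (fun h => hu2 h.symm)
    have hodd3 : Odd (orderOf (((sx 1 : ↥S) : V ≃ₗ[ZMod 2] V) * ((sx x0 : ↥S) : V ≃ₗ[ZMod 2] V) * ((sx 1 : ↥S) : V ≃ₗ[ZMod 2] V) * ((sx y0 : ↥S) : V ≃ₗ[ZMod 2] V))) := by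
      have h5 : sx 1 * sx x0 * sx 1 * sx y0 ∈ F := by
        have := hprod x3 hx3F y0 hy0F
        rw [hs3, ← hs1] at this
        exact this
      have key : ∀ A B C D : ↥S, (A * B * C * D) ∈ F → Odd (orderOf ((A : V ≃ₗ[ZMod 2] V) * B * C * D)) :=
        fun A B C D h => hoddF' (A * B * C * D) h
      exact key _ _ _ _ h5
    have ht3 := h8_triple _ _ _ _ _ _ _ _ _ (hsdata 1) (hsdata x0) (hsdata y0) (hsa0 1) (hsa0 x0) (hsa0 y0) h12 h21 h13 h23 hodd3
    have key2 : ∀ A B C D : ↥S, (A : V ≃ₗ[ZMod 2] V) * B * C * D = 1 → A * B * C * D = 1 :=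
      fun A B C D h => Subtype.ext h
    have ht4 : sx 1 * sx x0 * sx 1 * sx y0 = 1 := key2 _ _ _ _ ht3
    rw [hs1, ← hs3] at ht4
    have h6 := hss y0
    have h7 : sx x3 = sx y0 := by
      calc sx x3 = sx x3 * (sx y0 * sx y0) := by rw [h6, mul_one]
        _ = (sx x3 * sx y0) * sx y0 := by group
        _ = sx y0 := by rw [ht4, one_mul]
    apply hu2
    -- `Pg` centralizes `u`
    have h8 : Pg * sx y0 * Pg⁻¹ = sx y0 := by rw [← hs3P, h7]
    have h9 : Pg * sx x0 * Pg⁻¹ = sx y0 := huconj.symm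
    have h10 : Pg * sx y0 = sx y0 * Pg := by
      calc Pg * sx y0 = Pg * sx y0 * Pg⁻¹ * Pg := by group
        _ = sx y0 * Pg := by rw [h8]
    have h11 : Pg * sx x0 = sx y0 * Pg := by
      calc Pg * sx x0 = Pg * sx x0 * Pg⁻¹ * Pg := by group
        _ = sx y0 * Pg := by rw [h9]
    exact (mul_left_cancel (h10.trans h11.symm))

end Cfsg.Agent.S4410
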