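import Cfsg.Statements.S4412
import Cfsg.Agent.Lib.FGS.Eigen

set_option autoImplicit false
open Cfsg
open scoped commutatorElement
open scoped Pointwise

namespace Cfsg.Agent.S4412

/-- Let p be an odd prime, P a finite p-group and I an elementary abelian subgroup of order 8 of Aut(P). Call T ∈ I, T ≠ 1, broad when its fixed-point subgroup C_P(T) is not cyclic. Suppose I has a proper subgroup I₀ containing no broad element such that the product of any two broad elements lies in I₀. Then P is abelian of rank exactly 3 (generated by three elements but not by two), there are exactly three broad elements and they generate I, and I₀ is exactly the set of products of two broad elements. -/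
theorem result
    {P : Type*} [Group P] [Finite P] (p : ℕ) (hp : p.Prime) (hp2 : p ≠ 2) (hP : IsPGroup p P)
    (I : Subgroup (MulAut P)) (hI : Cfsg.IsElementaryAbelian 2 I) (hI8 : Nat.card ↥I = 8)
    (I₀ : Subgroup (MulAut P)) (hI₀ : I₀ < I)
    (hdisj : ∀ T ∈ I₀, T ≠ 1 → ∃ g : P, ∀ x : P, (T x = x ↔ x ∈ Subgroup.zpowers g))
    (hprod : ∀ T ∈ I, ∀ T' ∈ I, T ≠ 1 → T' ≠ 1 → (¬ ∃ g : P, ∀ x : P, (T x = x ↔ x ∈ Subgroup.zpowers g)) →
      (¬ ∃ g : P, ∀ x : P, (T' x = x ↔ x ∈ Subgroup.zpowers g)) → T * T' ∈ I₀) :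
    IsMulCommutative P ∧ (∃ a b c : P, Subgroup.closure {a, b, c} = ⊤) ∧ (¬ ∃ a b : P, Subgroup.closure {a, b} = ⊤) ∧
      Nat.card {T : MulAut P // T ∈ I ∧ T ≠ 1 ∧ ¬ ∃ g : P, ∀ x : P, (T x = x ↔ x ∈ Subgroup.zpowers g)} = 3 ∧
      Subgroup.closure {T : MulAut P | T ∈ I ∧ T ≠ 1 ∧ ¬ ∃ g : P, ∀ x : P, (T x = x ↔ x ∈ Subgroup.zpowers g)} = I ∧
      (I₀ : Set (MulAut P)) = {S : MulAut P | ∃ T T' : MulAut P, T ∈ I ∧ T' ∈ I ∧ T ≠ 1 ∧ T' ≠ 1 ∧
        (¬ ∃ g : P, ∀ x : P, (T x = x ↔ x ∈ Subgroup.zpowers g)) ∧ (¬ ∃ g : P, ∀ x : P, (T' x = x ↔ x ∈ Subgroup.zpowers g)) ∧ S = T * T'} := by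
  classical
  haveI : Fact p.Prime := ⟨hp⟩
  have hodd : Odd (Nat.card P) := by
    obtain ⟨k, hk⟩ := IsPGroup.iff_card.1 hP
    rw [hk]
    exact (hp.odd_of_ne_two hp2).pow
  have hnil : Group.IsNilpotent P := IsPGroup.isNilpotent hP
  have hsq : ∀ T ∈ I, T * T = 1 := fun T hT => by
    have := hI.2 T hT
    rwa [sq] at this
  have hsq' : ∀ T ∈ I, ∀ x, T (T x) = x := by
    intro T hT x
    rw [← MulAut.mul_apply, hsq T hT]
    rfl
  have hΓ : ∀ g : I, g * g = 1 := fun g => Subtype.ext (hsq g g.2)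
  have hcomm : ∀ T ∈ I, ∀ T' ∈ I, T * T' = T' * T := by
    intro T hT T' hT'
    have := CfsgLib.FGS.Eigen.comm_of_sq hΓ ⟨T, hT⟩ ⟨T', hT'⟩
    exact congrArg Subtype.val this
  have hcomm' : ∀ T ∈ I, ∀ T' ∈ I, ∀ x, T (T' x) = T' (T x) := by
    intro T hT T' hT' x
    rw [← MulAut.mul_apply, hcomm T hT T' hT']
    rfl
  let ρ : I →* MulAut P := I.subtype
  obtain ⟨y, hycomm, hyp, hye, hcard, hfix⟩ :=
    CfsgLib.FGS.Eigen.exists_faithful_chain ρ hnil hΓ hodd
      (fun g hg => Subtype.ext (MulEquiv.ext hg)) 3 (by rw [hI8]; norm_num)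
  have hye' : ∀ T ∈ I, ∀ i, T (y i) = y i ∨ T (y i) = (y i)⁻¹ := fun T hT i => hye i ⟨T, hT⟩
  have hord : ∀ i, orderOf (y i) = p := by
    intro i
    obtain ⟨m, hm⟩ := IsPGroup.iff_orderOf.1 hP (y i)
    have h1 := hyp i
    rw [hm] at h1
    have h2 := (Nat.Prime.pow_eq_iff h1).1 rfl
    rw [hm, h2.2, pow_one]
  have hy1 : ∀ i, y i ≠ 1 := by
    intro i h
    have h1 := hyp i
    rw [h, orderOf_one] at h1
    exact Nat.not_prime_one h1
  have hne : ∀ i, y i ≠ (y i)⁻¹ := fun i h => hy1 i (CfsgLib.FGS.Eigen.eq_one_of_eq_inv hodd h)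
  have hdet : ∀ g ∈ I, ∀ h ∈ I, (∀ i, g (y i) = y i ↔ h (y i) = y i) → g = h := by
    intro g hg h hh hiff
    have h1 : (⟨g * h, I.mul_mem hg hh⟩ : I) ∈ CfsgLib.FGS.Eigen.fixSub ρ (Set.range y) := by
      rintro _ ⟨i, rfl⟩
      show (g * h) (y i) = y i
      rw [MulAut.mul_apply]
      rcases hye' h hh i with h2 | h2
      · rw [h2]
        exact (hiff i).2 h2
      · rw [h2, map_inv]
        rcases hye' g hg i with h3 | h3
        · exact absurd ((hiff i).1 h3) (fun h4 => hne i (h4.symm.trans h2))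
        · rw [h3, inv_inv]
    rw [hfix, Subgroup.mem_bot] at h1
    have h2 : g * h = 1 := congrArg Subtype.val h1
    have h3 : h⁻¹ = h := inv_eq_of_mul_eq_one_left (hsq h hh)
    rw [← h3]
    exact eq_inv_of_mul_eq_one_left h2
  have hdet3 : ∀ g ∈ I, ∀ h ∈ I, (g (y 0) = y 0 ↔ h (y 0) = y 0) → (g (y 1) = y 1 ↔ h (y 1) = y 1) →
      (g (y 2) = y 2 ↔ h (y 2) = y 2) → g = h := by
    intro g hg h hh h0 h1 h2
    apply hdet g hg h hh
    intro i
    fin_cases i
    · exact h0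
    · exact h1
    · exact h2
  let χ : I → (Fin 3 → Bool) := fun g i => decide ((g : MulAut P) (y i) = y i)
  have hχinj : Function.Injective χ := by
    intro g h hgh
    apply Subtype.ext
    apply hdet g g.2 h h.2
    intro i
    have := congrFun hgh i
    simpa [χ] using this
  have hχbij : Function.Bijective χ :=
    hχinj.bijective_of_nat_card_le (by rw [hI8]; simp [Nat.card_eq_fintype_card])
  obtain ⟨⟨T0, hT0⟩, hχ0⟩ := hχbij.2 ![false, true, true]
  obtain ⟨⟨T1, hT1⟩, hχ1⟩ := hχbij.2 ![true, false, true]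
  obtain ⟨⟨T2, hT2⟩, hχ2⟩ := hχbij.2 ![true, true, false]
  have f00 : ¬ T0 (y 0) = y 0 := by simpa [χ] using congrFun hχ0 0
  have f01 : T0 (y 1) = y 1 := by simpa [χ] using congrFun hχ0 1
  have f02 : T0 (y 2) = y 2 := by simpa [χ] using congrFun hχ0 2
  have f10 : T1 (y 0) = y 0 := by simpa [χ] using congrFun hχ1 0
  have f11 : ¬ T1 (y 1) = y 1 := by simpa [χ] using congrFun hχ1 1
  have f12 : T1 (y 2) = y 2 := by simpa [χ] using congrFun hχ1 2
  have f20 : T2 (y 0) = y 0 := by simpa [χ] using congrFun hχ2 0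
  have f21 : T2 (y 1) = y 1 := by simpa [χ] using congrFun hχ2 1
  have f22 : ¬ T2 (y 2) = y 2 := by simpa [χ] using congrFun hχ2 2
  have g00 : T0 (y 0) = (y 0)⁻¹ := (hye' T0 hT0 0).resolve_left f00
  have g11 : T1 (y 1) = (y 1)⁻¹ := (hye' T1 hT1 1).resolve_left f11
  have g22 : T2 (y 2) = (y 2)⁻¹ := (hye' T2 hT2 2).resolve_left f22
  have hmul : ∀ g ∈ I, ∀ h ∈ I, ∀ i, (g * h) (y i) = y i ↔ (g (y i) = y i ↔ h (y i) = y i) := by
    intro g hg h hh i
    rw [MulAut.mul_apply]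
    rcases hye' h hh i with h1 | h1
    · rw [h1]
      simp only [iff_true]
    · rw [h1, map_inv]
      have hn : ¬ (y i)⁻¹ = y i := fun h => hne i h.symm
      rcases hye' g hg i with h2 | h2
      · rw [h2]
        simp [hn]
      · rw [h2, inv_inv]
        simp [hn]
  have hne01 : T0 ≠ 1 := fun h => f00 (by rw [h]; rfl)
  have hne11 : T1 ≠ 1 := fun h => f11 (by rw [h]; rfl)
  have hne21 : T2 ≠ 1 := fun h => f22 (by rw [h]; rfl)
  -- broad elements
  have key3 : ∀ T ∈ I, ∀ U ∈ I, ∀ i j, T (y i) = y i → T (y j) = y j → U (y i) = (y i)⁻¹ →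
      U (y j) = y j → ¬ ∃ g : P, ∀ x : P, (T x = x ↔ x ∈ Subgroup.zpowers g) := by
    rintro T _ U _ i j h1 h2 h3 h4 ⟨g, hg⟩
    have h5 := CfsgLib.FGS.Eigen.mem_zpowers_of_prime_order ((hg _).1 h1) ((hg _).1 h2) hp (hord i) (hord j)
    obtain ⟨m, hm⟩ := Subgroup.mem_zpowers_iff.1 h5
    have h6 : U (y j) = (y j)⁻¹ := by
      rw [← hm, map_zpow, h3, inv_zpow]
    rw [h4] at h6
    exact hne j h6
  have b0 := key3 T0 hT0 T1 hT1 1 2 f01 f02 g11 f12
  have b1 := key3 T1 hT1 T0 hT0 0 2 f10 f12 g00 f02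
  have b2 := key3 T2 hT2 T0 hT0 0 1 f20 f21 g00 f01
  have i01 := hprod T0 hT0 T1 hT1 hne01 hne11 b0 b1
  have i02 := hprod T0 hT0 T2 hT2 hne01 hne21 b0 b2
  have i12 := hprod T1 hT1 T2 hT2 hne11 hne21 b1 b2
  have m01 := hmul T0 hT0 T1 hT1
  have m02 := hmul T0 hT0 T2 hT2
  have m12 := hmul T1 hT1 T2 hT2
  have m012 := hmul (T0 * T1) (I.mul_mem hT0 hT1) T2 hT2
  have hne001 : T0 * T1 ≠ 1 := fun h => by
    have := (m01 0).1 (by rw [h]; rfl)
    exact f00 (this.2 f10)
  have hne002 : T0 * T2 ≠ 1 := fun h => by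
    have := (m02 0).1 (by rw [h]; rfl)
    exact f00 (this.2 f20)
  have hne012 : T1 * T2 ≠ 1 := fun h => by
    have := (m12 1).1 (by rw [h]; rfl)
    exact f11 (this.2 f21)
  have key1 : ∀ Ti ∈ I, ∀ Tj ∈ I, ∀ Tk ∈ I, ∀ i, Ti (y i) = y i → Tj (y i) = y i → Tk (y i) = (y i)⁻¹ →
      Ti * Tj ∈ I₀ → Ti * Tj ≠ 1 → ∃ c : P, (∀ x, (Ti * Tj) x = x ↔ x ∈ Subgroup.zpowers c) ∧
        Ti c = c ∧ Tj c = c ∧ Tk c = c⁻¹ := by
    intro Ti hTi Tj hTj Tk hTk i hi hj hk hI0 hne1
    obtain ⟨c, hc⟩ := hdisj _ hI0 hne1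
    have hykc : y i ∈ Subgroup.zpowers c := (hc (y i)).1 (by rw [MulAut.mul_apply, hj, hi])
    obtain ⟨m, hm⟩ := Subgroup.mem_zpowers_iff.1 hykc
    have hcfix : (Ti * Tj) c = c := (hc c).2 (Subgroup.mem_zpowers c)
    have hsign : ∀ τ ∈ I, τ c = c ∨ τ c = c⁻¹ := by
      intro τ hτ
      apply CfsgLib.FGS.Eigen.cyclic_sign hp hp2 hP τ (hsq' τ hτ) c
      rw [← hc, hcomm' _ (I.mul_mem hTi hTj) τ hτ, hcfix]
    refine ⟨c, hc, ?_, ?_, ?_⟩
    · refine (hsign Ti hTi).resolve_right (fun h => hne i ?_)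
      have h1 : Ti (y i) = (y i)⁻¹ := by rw [← hm, map_zpow, h, inv_zpow]
      rw [hi] at h1
      exact h1
    · refine (hsign Tj hTj).resolve_right (fun h => hne i ?_)
      have h1 : Tj (y i) = (y i)⁻¹ := by rw [← hm, map_zpow, h, inv_zpow]
      rw [hj] at h1
      exact h1
    · refine (hsign Tk hTk).resolve_left (fun h => hne i ?_)
      have h1 : Tk (y i) = y i := by rw [← hm, map_zpow, h]
      rw [hk] at h1
      exact h1.symm
  have key2 : ∀ Ti ∈ I, ∀ Tj ∈ I, ∀ Tk ∈ I, ∀ u v w : P, Tk u = u → Tk v = v → Tk w = w⁻¹ →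
      (∀ x, (Ti * Tj) x = x ↔ x ∈ Subgroup.zpowers w) → u * v = v * u := by
    intro Ti hTi Tj hTj Tk hTk u v w hu hv hw hfixw
    let Q : Subgroup P := MonoidHom.eqLocus Tk.toMonoidHom (MonoidHom.id P)
    refine CfsgLib.FGS.Eigen.fpf_comm (Ti * Tj) (hsq' _ (I.mul_mem hTi hTj)) Q ?_ ?_ u hu v hv
    · intro x hx
      have hx' : Tk x = x := hx
      show Tk ((Ti * Tj) x) = (Ti * Tj) x
      rw [hcomm' Tk hTk _ (I.mul_mem hTi hTj), hx']
    · intro x hx hfx
      have hx' : Tk x = x := hx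
      obtain ⟨m, rfl⟩ := Subgroup.mem_zpowers_iff.1 ((hfixw x).1 hfx)
      have h1 : Tk (w ^ m) = (w ^ m)⁻¹ := by rw [map_zpow, hw, inv_zpow]
      rw [hx'] at h1
      exact CfsgLib.FGS.Eigen.eq_one_of_eq_inv hodd h1
  obtain ⟨c2, hc2, h02, h12, h22⟩ := key1 T0 hT0 T1 hT1 T2 hT2 2 f02 f12 g22 i01 hne001
  obtain ⟨c1, hc1, h01, h21, h11⟩ := key1 T0 hT0 T2 hT2 T1 hT1 1 f01 f21 g11 i02 hne002
  obtain ⟨c0, hc0, h10, h20, h00⟩ := key1 T1 hT1 T2 hT2 T0 hT0 0 f10 f20 g00 i12 hne012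
  have c01 : c0 * c1 = c1 * c0 := key2 T0 hT0 T1 hT1 T2 hT2 c0 c1 c2 h20 h21 h22 hc2
  have c02 : c0 * c2 = c2 * c0 := key2 T0 hT0 T2 hT2 T1 hT1 c0 c2 c1 h10 h12 h11 hc1
  have c12 : c1 * c2 = c2 * c1 := key2 T1 hT1 T2 hT2 T0 hT0 c1 c2 c0 h01 h02 h00 hc0
  have hprod12 : T0 * T1 * (T0 * T2) = T1 * T2 := by
    rw [hcomm T0 hT0 T1 hT1, mul_assoc, ← mul_assoc T0 T0 T2, hsq T0 hT0, one_mul]
  have hgen : Subgroup.closure {c0, c1, c2} = ⊤ := by
    have hv4 := CfsgLib.FGS.Eigen.v4_gen ρ hnil hΓ hodd ⟨T0 * T1, I.mul_mem hT0 hT1⟩ ⟨T0 * T2, I.mul_mem hT0 hT2⟩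
    rw [eq_top_iff, ← hv4, Subgroup.closure_le]
    rintro x ((hx | hx) | hx)
    · have h1 : x ∈ Subgroup.zpowers c2 := (hc2 x).1 hx
      have h2 : Subgroup.zpowers c2 ≤ Subgroup.closure {c0, c1, c2} :=
        (Subgroup.zpowers_le).2 (Subgroup.subset_closure (by simp))
      exact h2 h1
    · have h1 : x ∈ Subgroup.zpowers c1 := (hc1 x).1 hx
      have h2 : Subgroup.zpowers c1 ≤ Subgroup.closure {c0, c1, c2} :=
        (Subgroup.zpowers_le).2 (Subgroup.subset_closure (by simp))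
      exact h2 h1
    · have h3 : (T1 * T2) x = x := by
        rw [← hprod12]
        exact hx
      have h1 : x ∈ Subgroup.zpowers c0 := (hc0 x).1 h3
      have h2 : Subgroup.zpowers c0 ≤ Subgroup.closure {c0, c1, c2} :=
        (Subgroup.zpowers_le).2 (Subgroup.subset_closure (by simp))
      exact h2 h1
  have hcen : ∀ u ∈ ({c0, c1, c2} : Set P), u ∈ Subgroup.center P := by
    intro u hu
    have hall : ∀ v ∈ ({c0, c1, c2} : Set P), v * u = u * v := by
      intro v hv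
      simp only [Set.mem_insert_iff, Set.mem_singleton_iff] at hu hv
      rcases hu with rfl | rfl | rfl <;> rcases hv with rfl | rfl | rfl
      · rfl
      · exact c01.symm
      · exact c02.symm
      · exact c01
      · rfl
      · exact c12.symm
      · exact c02
      · exact c12
      · rfl
    have hle : Subgroup.closure {c0, c1, c2} ≤ Subgroup.centralizer {u} := by
      rw [Subgroup.closure_le]
      intro v hv
      exact Subgroup.mem_centralizer_singleton_iff.2 (hall v hv)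
    rw [hgen] at hle
    rw [Subgroup.mem_center_iff]
    intro z
    exact Subgroup.mem_centralizer_singleton_iff.1 (hle (Subgroup.mem_top z))
  have hab : ∀ x z : P, x * z = z * x := by
    have hle : Subgroup.closure {c0, c1, c2} ≤ Subgroup.center P := (Subgroup.closure_le _).2 hcen
    rw [hgen] at hle
    intro x z
    exact (Subgroup.mem_center_iff.1 (hle (Subgroup.mem_top x)) z).symm
  set τ := T0 * T1 * T2 with hτ
  have hτI : τ ∈ I := I.mul_mem (I.mul_mem hT0 hT1) hT2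
  have hτinv : ∀ x, τ x = x⁻¹ := by
    intro x
    have hx : x ∈ Subgroup.closure {c0, c1, c2} := by rw [hgen]; exact Subgroup.mem_top x
    induction hx using Subgroup.closure_induction with
    | mem x hx =>
      simp only [Set.mem_insert_iff, Set.mem_singleton_iff] at hx
      rcases hx with rfl | rfl | rfl
      · simp only [hτ, MulAut.mul_apply, h20, h10, h00]
      · simp only [hτ, MulAut.mul_apply, h21, h11, map_inv, h01]
      · simp only [hτ, MulAut.mul_apply, h22, map_inv, h12, h02]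
    | one => simp
    | mul x z _ _ hx hz => rw [map_mul, hx, hz, mul_inv_rev, hab]
    | inv x _ hx => rw [map_inv, hx]
  have hτb : ∃ g : P, ∀ x : P, (τ x = x ↔ x ∈ Subgroup.zpowers g) := by
    refine ⟨1, fun x => ?_⟩
    rw [hτinv, Subgroup.zpowers_one_eq_bot, Subgroup.mem_bot]
    constructor
    · intro h
      exact CfsgLib.FGS.Eigen.eq_one_of_eq_inv hodd h.symm
    · rintro rfl
      simp
  have hclass : ∀ T ∈ I, T = 1 ∨ T = T0 ∨ T = T1 ∨ T = T2 ∨ T = T0 * T1 ∨ T = T0 * T2 ∨ T = T1 * T2 ∨ T = τ := by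
    intro T hT
    have i1 := I.mul_mem hT0 hT1
    have i2 := I.mul_mem hT0 hT2
    have i3 := I.mul_mem hT1 hT2
    by_cases h0 : T (y 0) = y 0 <;> by_cases h1 : T (y 1) = y 1 <;> by_cases h2 : T (y 2) = y 2
    · left
      exact hdet3 T hT 1 I.one_mem (by simp [h0]) (by simp [h1]) (by simp [h2])
    · right; right; right; left
      exact hdet3 T hT T2 hT2 (by simp [h0, f20]) (by simp [h1, f21]) (by simp [h2, f22])
    · right; right; left
      exact hdet3 T hT T1 hT1 (by simp [h0, f10]) (by simp [h1, f11]) (by simp [h2, f12])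
    · right; right; right; right; right; right; left
      refine hdet3 T hT _ i3 ?_ ?_ ?_
      · rw [m12]; simp [h0, f10, f20]
      · rw [m12]; simp [h1, f11, f21]
      · rw [m12]; simp [h2, f12, f22]
    · right; left
      exact hdet3 T hT T0 hT0 (by simp [h0, f00]) (by simp [h1, f01]) (by simp [h2, f02])
    · right; right; right; right; right; left
      refine hdet3 T hT _ i2 ?_ ?_ ?_
      · rw [m02]; simp [h0, f00, f20]
      · rw [m02]; simp [h1, f01, f21]
      · rw [m02]; simp [h2, f02, f22]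
    · right; right; right; right; left
      refine hdet3 T hT _ i1 ?_ ?_ ?_
      · rw [m01]; simp [h0, f00, f10]
      · rw [m01]; simp [h1, f01, f11]
      · rw [m01]; simp [h2, f02, f12]
    · right; right; right; right; right; right; right
      refine hdet3 T hT _ hτI ?_ ?_ ?_
      · rw [hτ, m012, m01]; simp [h0, f00, f10, f20]
      · rw [hτ, m012, m01]; simp [h1, f01, f11, f21]
      · rw [hτ, m012, m01]; simp [h2, f02, f12, f22]
  have hbroad : ∀ T : MulAut P, (T ∈ I ∧ T ≠ 1 ∧ ¬ ∃ g : P, ∀ x : P, (T x = x ↔ x ∈ Subgroup.zpowers g)) ↔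
      T ∈ ({T0, T1, T2} : Finset (MulAut P)) := by
    intro T
    simp only [Finset.mem_insert, Finset.mem_singleton]
    constructor
    · rintro ⟨hT, hne1, hb⟩
      rcases hclass T hT with h | h | h | h | h | h | h | h
      · exact absurd h hne1
      · exact Or.inl h
      · exact Or.inr (Or.inl h)
      · exact Or.inr (Or.inr h)
      · rw [h] at hb hne1
        exact absurd (hdisj _ i01 hne1) hb
      · rw [h] at hb hne1
        exact absurd (hdisj _ i02 hne1) hb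
      · rw [h] at hb hne1
        exact absurd (hdisj _ i12 hne1) hb
      · rw [h] at hb
        exact absurd hτb hb
    · rintro (h | h | h)
      · rw [h]
        exact ⟨hT0, hne01, b0⟩
      · rw [h]
        exact ⟨hT1, hne11, b1⟩
      · rw [h]
        exact ⟨hT2, hne21, b2⟩
  have h0n1 : T0 ≠ T1 := fun h => f00 (by rw [h]; exact f10)
  have h0n2 : T0 ≠ T2 := fun h => f00 (by rw [h]; exact f20)
  have h1n2 : T1 ≠ T2 := fun h => f11 (by rw [h]; exact f21)
  have hT0no : T0 ∉ I₀ := fun h => b0 (hdisj _ h hne01)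
  have hT1no : T1 ∉ I₀ := fun h => b1 (hdisj _ h hne11)
  have hT2no : T2 ∉ I₀ := fun h => b2 (hdisj _ h hne21)
  refine ⟨⟨⟨hab⟩⟩, ⟨c0, c1, c2, hgen⟩, ?_, ?_, ?_, ?_⟩
  · rintro ⟨a, b, h⟩
    let E : Subgroup P :=
      { carrier := {x | x ^ p = 1}
        one_mem' := one_pow p
        mul_mem' := by
          rintro x z hx hz
          show (x * z) ^ p = 1
          rw [(show Commute x z from hab x z).mul_pow, hx, hz, one_mul]
        inv_mem' := by
          intro x hx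
          show x⁻¹ ^ p = 1
          rw [inv_pow, hx, inv_one] }
    have hKE : (⨆ i, Subgroup.zpowers (y i)) ≤ E :=
      iSup_le fun i => (Subgroup.zpowers_le).2 (by
        show (y i) ^ p = 1
        rw [← hord i, pow_orderOf_eq_one])
    have h1 := CfsgLib.FGS.Eigen.card_exp_le_of_two_gen hp hab a b h (⨆ i, Subgroup.zpowers (y i))
      (fun x hx => hKE hx)
    rw [hcard, Fin.prod_univ_three, hord, hord, hord] at h1
    have h2 : p * p * p ≤ p * p * 1 := by simpa using h1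
    have h3 : p ≤ 1 := Nat.le_of_mul_le_mul_left h2 (Nat.mul_pos hp.pos hp.pos)
    exact absurd hp.two_le (by omega)
  · rw [Nat.card_congr (Equiv.subtypeEquivRight hbroad), Nat.card_eq_fintype_card, Fintype.card_coe]
    exact Finset.card_eq_three.2 ⟨T0, T1, T2, h0n1, h0n2, h1n2, rfl⟩
  · apply le_antisymm
    · rw [Subgroup.closure_le]
      intro T hT
      exact hT.1
    · intro T hT
      have hc0' : T0 ∈ Subgroup.closure {T : MulAut P | T ∈ I ∧ T ≠ 1 ∧ ¬ ∃ g : P, ∀ x : P, (T x = x ↔ x ∈ Subgroup.zpowers g)} :=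
        Subgroup.subset_closure ⟨hT0, hne01, b0⟩
      have hc1' : T1 ∈ Subgroup.closure {T : MulAut P | T ∈ I ∧ T ≠ 1 ∧ ¬ ∃ g : P, ∀ x : P, (T x = x ↔ x ∈ Subgroup.zpowers g)} :=
        Subgroup.subset_closure ⟨hT1, hne11, b1⟩
      have hc2' : T2 ∈ Subgroup.closure {T : MulAut P | T ∈ I ∧ T ≠ 1 ∧ ¬ ∃ g : P, ∀ x : P, (T x = x ↔ x ∈ Subgroup.zpowers g)} :=
        Subgroup.subset_closure ⟨hT2, hne21, b2⟩
      rcases hclass T hT with h | h | h | h | h | h | h | h <;> rw [h]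
      · exact Subgroup.one_mem _
      · exact hc0'
      · exact hc1'
      · exact hc2'
      · exact Subgroup.mul_mem _ hc0' hc1'
      · exact Subgroup.mul_mem _ hc0' hc2'
      · exact Subgroup.mul_mem _ hc1' hc2'
      · exact Subgroup.mul_mem _ (Subgroup.mul_mem _ hc0' hc1') hc2'
  · ext S
    constructor
    · intro hS
      have hS' : S ∈ I := hI₀.le hS
      rcases hclass S hS' with h | h | h | h | h | h | h | h
      · exact ⟨T0, T0, hT0, hT0, hne01, hne01, b0, b0, by rw [h, hsq T0 hT0]⟩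
      · rw [h] at hS
        exact absurd hS hT0no
      · rw [h] at hS
        exact absurd hS hT1no
      · rw [h] at hS
        exact absurd hS hT2no
      · exact ⟨T0, T1, hT0, hT1, hne01, hne11, b0, b1, h⟩
      · exact ⟨T0, T2, hT0, hT2, hne01, hne21, b0, b2, h⟩
      · exact ⟨T1, T2, hT1, hT2, hne11, hne21, b1, b2, h⟩
      · exfalso
        rw [h] at hS
        apply hT2no
        have h1 : T2 = (T0 * T1)⁻¹ * τ := by rw [hτ]; group
        rw [h1]
        exact I₀.mul_mem (I₀.inv_mem i01) hS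
    · rintro ⟨T, T', hT, hT', h1, h2, hb1, hb2, rfl⟩
      exact hprod T hT T' hT' h1 h2 hb1 hb2

end Cfsg.Agent.S4412
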