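import Cfsg.Statements.S4420
import Cfsg.Agent.Lib.FGS.Elem

set_option autoImplicit false
open Cfsg

namespace Cfsg.Agent.S4420

theorem comm_of_sq {H : Type*} [Group H] (h : ∀ x : H, x ^ 2 = 1) (a b : H) : a * b = b * a := by
  have h1 := h (a * b)
  have h2 := h a
  have h3 := h b
  rw [sq] at h1 h2 h3
  calc a * b = a * b * (b * a * (b * a)) := by
        have h5 := h (b * a)
        rw [sq] at h5
        rw [h5, mul_one]
    _ = (a * (b * b)) * a * (b * a) := by group
    _ = b * a := by rw [h3, mul_one, h2, one_mul]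

theorem uniq_aux {H : Type*} [Group H] [Finite H] (B B' : Subgroup H)
    (hBc : IsMulCommutative ↥B) (hB'c : IsMulCommutative ↥B')
    (hBi : B.index = 2) (hB'i : B'.index = 2)
    (hB : ∀ x : H, x ∉ B → x ^ 2 = 1 ∧ ∀ b ∈ B, x * b * x⁻¹ = b⁻¹)
    (hB' : ∀ x : H, x ∉ B' → x ^ 2 = 1 ∧ ∀ b ∈ B', x * b * x⁻¹ = b⁻¹) (hne : B' ≠ B) :
    ∀ z : H, z ^ 2 = 1 := by
  have hcard : Nat.card B = Nat.card B' := by
    have h1 := B.card_mul_index
    have h2 := B'.card_mul_index
    rw [hBi] at h1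
    rw [hB'i] at h2
    omega
  have hx : ∃ x ∈ B', x ∉ B := by
    by_contra hcon
    simp only [not_exists, not_and, not_not] at hcon
    exact hne (Subgroup.eq_of_le_of_card_ge hcon hcard.le)
  have hb : ∃ b ∈ B, b ∉ B' := by
    by_contra hcon
    simp only [not_exists, not_and, not_not] at hcon
    exact hne (Subgroup.eq_of_le_of_card_ge hcon hcard.ge).symm
  obtain ⟨x, hxB', hxB⟩ := hx
  obtain ⟨b, hbB, hbB'⟩ := hb
  intro z
  by_cases hz : z ∈ B
  · by_cases hz' : z ∈ B'
    · have hy : b * x ∉ B := fun h => hxB (by simpa using B.mul_mem (B.inv_mem hbB) h)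
      have h1 := (hB _ hy).2 z hz
      have hc1 : b * z = z * b := by
        have := hBc.is_comm.comm (⟨b, hbB⟩ : B) ⟨z, hz⟩
        exact congrArg Subtype.val this
      have hc2 : x * z = z * x := by
        have := hB'c.is_comm.comm (⟨x, hxB'⟩ : B') ⟨z, hz'⟩
        exact congrArg Subtype.val this
      have h2 : b * x * z * (b * x)⁻¹ = z := by
        calc b * x * z * (b * x)⁻¹ = b * (x * z) * (b * x)⁻¹ := by group
          _ = b * (z * x) * (b * x)⁻¹ := by rw [hc2]
          _ = (b * z) * x * (b * x)⁻¹ := by group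
          _ = (z * b) * x * (b * x)⁻¹ := by rw [hc1]
          _ = z := by group
      rw [h2] at h1
      rw [sq]
      nth_rewrite 1 [h1]
      simp
    · exact (hB' z hz').1
  · exact (hB z hz).1


/-- Structure of groups in which every element outside some proper subgroup has square 1. Let H be a finite group with a proper subgroup A such that every element outside A has square 1. Then H has an abelian normal subgroup B of index 2 such that every element outside B is an involution inverting every element of B; and if H is not an elementary abelian 2-group, B is the only abelian normal subgroup of index 2 with this property. -/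
theorem result {H : Type*} [Group H] [Finite H] (A : Subgroup H) (hA : A ≠ ⊤) (hD : ∀ x : H, x ∉ A → x ^ 2 = 1) :
    ∃ B : Subgroup H, B.Normal ∧ IsMulCommutative ↥B ∧ B.index = 2 ∧
      (∀ x : H, x ∉ B → x ^ 2 = 1 ∧ ∀ b ∈ B, x * b * x⁻¹ = b⁻¹) ∧
      (¬ (IsMulCommutative H ∧ ∀ x : H, x ^ 2 = 1) →
        ∀ B' : Subgroup H, B'.Normal → IsMulCommutative ↥B' → B'.index = 2 →
          (∀ x : H, x ∉ B' → x ^ 2 = 1 ∧ ∀ b ∈ B', x * b * x⁻¹ = b⁻¹) → B' = B) := by
  classical
  -- any `x ∉ A` inverts `A`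
  have hinv : ∀ x : H, x ∉ A → ∀ a ∈ A, x * a * x⁻¹ = a⁻¹ := by
    intro x hx a ha
    have h1 : x * a ∉ A := fun h => hx (by simpa using A.mul_mem h (A.inv_mem ha))
    have h2 := hD _ h1
    have h3 := hD x hx
    rw [sq] at h2 h3
    have h4 : x⁻¹ = x := inv_eq_of_mul_eq_one_left h3
    rw [h4]
    exact eq_inv_of_mul_eq_one_left (by rw [← h2]; group)
  obtain ⟨x₀, hx₀⟩ : ∃ x, x ∉ A := by
    by_contra hcon
    simp only [not_exists, not_not] at hcon
    exact hA (eq_top_iff.mpr fun y _ => hcon y)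
  -- `A` is abelian
  have hAab : ∀ a ∈ A, ∀ b ∈ A, a * b = b * a := by
    intro a ha b hb
    have h1 := hinv x₀ hx₀ (a * b) (A.mul_mem ha hb)
    have h2 : x₀ * (a * b) * x₀⁻¹ = (x₀ * a * x₀⁻¹) * (x₀ * b * x₀⁻¹) := by group
    rw [h2, hinv x₀ hx₀ a ha, hinv x₀ hx₀ b hb] at h1
    have h4 : (b * a)⁻¹ = (a * b)⁻¹ := by rw [← h1]; group
    exact (inv_inj.mp h4).symm
  by_cases hidx : A.index = 2
  · refine ⟨A, Subgroup.normal_of_index_eq_two hidx, ⟨⟨fun a b => Subtype.ext (hAab _ a.2 _ b.2)⟩⟩, hidx,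
      fun x hx => ⟨hD x hx, hinv x hx⟩, ?_⟩
    intro hna B' _ hB'c hB'i hB'
    by_contra hne
    have hall := uniq_aux A B' ⟨⟨fun a b => Subtype.ext (hAab _ a.2 _ b.2)⟩⟩ hB'c hidx hB'i
      (fun x hx => ⟨hD x hx, hinv x hx⟩) hB' hne
    exact hna ⟨⟨⟨fun a b => comm_of_sq hall a b⟩⟩, hall⟩
  · -- all squares are trivial
    have hy : ∃ y, y ∉ A ∧ y * x₀ ∉ A := by
      by_contra hcon
      simp only [not_exists, not_and, not_not] at hcon
      apply hidx
      rw [Subgroup.index_eq_two_iff]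
      refine ⟨x₀, fun b => ?_⟩
      by_cases hb : b ∈ A
      · right
        refine ⟨hb, fun h => hx₀ ?_⟩
        simpa using A.mul_mem (A.inv_mem hb) h
      · left
        exact ⟨hcon b hb, hb⟩
    obtain ⟨y, hy1, hy2⟩ := hy
    have hall : ∀ z : H, z ^ 2 = 1 := by
      intro z
      by_cases hz : z ∈ A
      · have h1 := hinv _ hy2 z hz
        have h2 := hinv x₀ hx₀ z hz
        have h3 := hinv y hy1 z hz
        have h4 : (y * x₀) * z * (y * x₀)⁻¹ = y * (x₀ * z * x₀⁻¹) * y⁻¹ := by group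
        rw [h4, h2] at h1
        have h5 : y * z⁻¹ * y⁻¹ = (y * z * y⁻¹)⁻¹ := by group
        rw [h5, h3, inv_inv] at h1
        rw [sq]
        nth_rewrite 1 [h1]
        simp
      · exact hD z hz
    have hcomm := comm_of_sq hall
    haveI : Fact (Nat.Prime 2) := ⟨Nat.prime_two⟩
    have hpg : IsPGroup 2 H := fun g => ⟨1, by simpa using hall g⟩
    obtain ⟨M, hM, hAM⟩ := (eq_top_or_exists_le_coatom A).resolve_left hA
    have hMi := CfsgLib.FGS.index_eq_of_isCoatom_of_isPGroup hpg hM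
    refine ⟨M, Subgroup.normal_of_index_eq_two hMi, ⟨⟨fun a b => Subtype.ext (hcomm _ _)⟩⟩, hMi, ?_, ?_⟩
    · intro x _
      refine ⟨hall x, fun b _ => ?_⟩
      have h1 : x * b * x⁻¹ = b := by
        rw [hcomm x b]; group
      rw [h1]
      have h2 := hall b
      rw [sq] at h2
      exact eq_inv_of_mul_eq_one_left h2
    · intro hna
      exact absurd ⟨⟨⟨hcomm⟩⟩, hall⟩ hna

end Cfsg.Agent.S4420
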