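import Cfsg.Statements.S4541
import Cfsg.Agent.Lib.Block.KB7

set_option autoImplicit false
open Cfsg

namespace Cfsg.Agent.S4541

/-- Let B be a 2-block of the finite group G (relative to a maximal ideal M of the algebraic integers containing 2), u a 2-element, and b a block of the centralizer of u inducing B (a subsection (u, b)), of defect q and 2-regular rank l; write s for the integer square root of l and k₀(B) for the number of members of B of height zero. If s is odd then k₀(B) ≤ s·2 ^ q, and otherwise (s + 1)·k₀(B) ≤ l·2 ^ q; in particular k₀(B) ≤ 2 ^ q when l ≤ 3. -/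
theorem result {G : Type*} [Group G] [Finite G] (M : Ideal Cfsg.AlgInt) (hM : Cfsg.IsPModular 2 M) (B : Set (Cfsg.IrrCharacter G)) (hB : Cfsg.IsPBlock M B) (u : G) (hu : ∃ j : ℕ, orderOf u = 2 ^ j) (b : Set (Cfsg.IrrCharacter ↥(Subgroup.centralizer ({u} : Set G)))) (hb : Cfsg.IsInducedBlock M (Subgroup.centralizer ({u} : Set G)) b B) : (Odd (Nat.sqrt (Cfsg.blockRank 2 b)) → Nat.card {χ : Cfsg.IrrCharacter G // χ ∈ B ∧ Cfsg.blockHeight 2 B (χ : G → ℂ) = 0} ≤ Nat.sqrt (Cfsg.blockRank 2 b) * 2 ^ Cfsg.blockDefect 2 b) ∧ (¬ Odd (Nat.sqrt (Cfsg.blockRank 2 b)) → (Nat.sqrt (Cfsg.blockRank 2 b) + 1) * Nat.card {χ : Cfsg.IrrCharacter G // χ ∈ B ∧ Cfsg.blockHeight 2 B (χ : G → ℂ) = 0} ≤ Cfsg.blockRank 2 b * 2 ^ Cfsg.blockDefect 2 b) ∧ (Cfsg.blockRank 2 b ≤ 3 → Nat.card {χ : Cfsg.IrrCharacter G // χ ∈ B ∧ Cfsg.blockHeight 2 B (χ : G → ℂ) = 0} ≤ 2 ^ Cfsg.blockDefect 2 b) := by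
  classical
  letI : Fintype G := Fintype.ofFinite G
  letI : Fintype (Subgroup.centralizer ({u} : Set G)) := Fintype.ofFinite _
  obtain ⟨k, hk⟩ := hu
  obtain ⟨t, ht0, ht1, ht2⟩ := CfsgLib.Block.s4541_core hM hB hk _ rfl hb
  refine CfsgLib.Block.s4541_combi _ _ _ (pow_pos two_pos _) fun h0 => ?_
  let T : Finset (Cfsg.IrrCharacter G) := Finset.univ.filter (fun χ₁ => χ₁ ∈ B ∧ Cfsg.blockHeight 2 B (χ₁ : G → ℂ) = 0)
  have hTmem : ∀ χ₁, χ₁ ∈ T ↔ (χ₁ ∈ B ∧ Cfsg.blockHeight 2 B (χ₁ : G → ℂ) = 0) := by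
    intro χ₁
    simp [T]
  have hcardT : Nat.card {χ₁ : Cfsg.IrrCharacter G // χ₁ ∈ B ∧ Cfsg.blockHeight 2 B (χ₁ : G → ℂ) = 0} = T.card := Nat.subtype_card T hTmem
  have hne : T.Nonempty := by
    rw [← Finset.card_pos, ← hcardT]
    exact Nat.pos_of_ne_zero h0
  obtain ⟨χ₀, hχ₀, hmin⟩ := Finset.exists_min_image T t hne
  obtain ⟨hχ₀B, hχ₀0⟩ := (hTmem χ₀).1 hχ₀
  obtain ⟨hodd, hle⟩ := ht1 χ₀ hχ₀B ((CfsgLib.Block.blockHeight_eq_zero_iff hχ₀B).1 hχ₀0)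
  obtain ⟨m, hm⟩ := Int.eq_ofNat_of_zero_le (ht0 χ₀)
  refine ⟨m, ?_, ?_, ?_⟩
  · rw [hm] at hodd
    exact_mod_cast hodd
  · rw [hm] at hle
    have : (Nat.card {χ : Cfsg.IrrCharacter G // χ ∈ B ∧ Cfsg.blockHeight 2 B (χ : G → ℂ) = 0} : ℤ) ≤ ((m * 2 ^ Cfsg.blockDefect 2 b : ℕ) : ℤ) := by
      push_cast
      linarith
    exact_mod_cast this
  · have h1 : ∑ χ ∈ T, t χ ≤ ∑ χ, t χ :=
      Finset.sum_le_sum_of_subset_of_nonneg (Finset.subset_univ T) (fun χ _ _ => ht0 χ)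
    have h2 : (T.card : ℤ) * t χ₀ ≤ ∑ χ ∈ T, t χ := by
      have := Finset.card_nsmul_le_sum T t (t χ₀) hmin
      simpa using this
    rw [ht2, hm] at *
    rw [hcardT]
    have h3 : ((T.card * m : ℕ) : ℤ) ≤ ((2 ^ Cfsg.blockDefect 2 b * Cfsg.blockRank 2 b : ℕ) : ℤ) := by
      push_cast
      linarith
    exact_mod_cast h3

end Cfsg.Agent.S4541
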