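import Cfsg.Statements.S4558
import Cfsg.Agent.Lib.Lead.CharEigen
import Mathlib

set_option autoImplicit false

namespace Cfsg.Agent.S4558

open Module

/-- Let χ be a character of the finite group G and g an element of p-power order for the prime p. If χ g = 0, then p divides the degree of χ. -/
theorem result {G : Type*} [Group G] [Finite G] (p : ℕ) [Fact p.Prime] (χ : G → ℂ) (hχ : Cfsg.IsCharacter G χ) (g : G) (hg : ∃ j : ℕ, orderOf g = p ^ j) (h0 : χ g = 0) : p ∣ Cfsg.charDegree χ := by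
  classical
  obtain ⟨n, ρ, rfl⟩ := hχ
  obtain ⟨j, hj⟩ := hg
  have hp : p.Prime := Fact.out
  obtain ⟨m, b, μ, hb, hμ⟩ := CfsgLib.Lead.rep_eigen_order ρ g
  have hdeg : Cfsg.charDegree ρ.character = n := by
    unfold Cfsg.charDegree
    rw [CfsgLib.Lead.character_one_eq]
    simp
  have hm : m = n := by
    have := CfsgLib.Char.finrank_eq_of_basis b
    simpa using this.symm
  have hsum := CfsgLib.Char.character_eq_sum ρ g b μ hb
  rw [h0] at hsum
  have hint : ∀ i, IsIntegral ℤ (μ i) := by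
    intro i
    refine ⟨Polynomial.X ^ (orderOf g) - 1, Polynomial.monic_X_pow_sub_C 1 (orderOf_pos g).ne', ?_⟩
    simp [Polynomial.eval₂_sub, hμ i]
  obtain ⟨r, hr, hrs⟩ := CfsgLib.Lead.sum_pow_prime_pow_integral Finset.univ μ hint p j hp
  rw [← hsum, zero_pow (pow_pos hp.pos j).ne'] at hrs
  have h1 : ∀ i, μ i ^ (p ^ j) = 1 := fun i => by rw [← hj]; exact hμ i
  simp only [h1, Finset.sum_const, Finset.card_univ, Fintype.card_fin, nsmul_eq_mul, mul_one] at hrs
  rw [hdeg, ← hm]
  have hpC : (p : ℂ) ≠ 0 := by exact_mod_cast hp.pos.ne'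
  have hdiv : (m : ℂ) / (p : ℂ) = -r := by
    rw [div_eq_iff hpC]
    linear_combination -hrs
  apply CfsgLib.Char.dvd_of_isIntegral_div hp.pos
  rw [hdiv]
  exact hr.neg

end Cfsg.Agent.S4558
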