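import Cfsg.Statements.S4566
import Mathlib
import Cfsg.Agent.Lib.Char.Linear

set_option autoImplicit false

namespace Cfsg.Agent.S4566

open Cfsg CfsgLib.Char

/-- Let N be a central subgroup of the finite group G, ψ a faithful irreducible (hence degree-one) character of N, and χ an irreducible character of G whose restriction to N contains ψ. If g ∈ G and some x ∈ G has commutator x⁻¹ g⁻¹ x g in N but different from 1, then χ g = 0. -/
theorem result {G : Type*} [Group G] [Fintype G] (N : Subgroup G) [Fintype N] (hN : N ≤ Subgroup.center G) (ψ : Cfsg.IrrCharacter ↥N) (hfaith : ∀ n : ↥N, (ψ : ↥N → ℂ) n = (ψ : ↥N → ℂ) 1 → n = 1) (χ : Cfsg.IrrCharacter G) (hover : Cfsg.classInner (fun n : ↥N => (χ : G → ℂ) n) (ψ : ↥N → ℂ) ≠ 0) (g x : G) (hcomm : x⁻¹ * g⁻¹ * x * g ∈ N) (hne : x⁻¹ * g⁻¹ * x * g ≠ 1) : (χ : G → ℂ) g = 0 := by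
  obtain ⟨χf, hχ⟩ := χ
  obtain ⟨n, ρ, hirr, rfl⟩ := hχ
  simp only at hover ⊢
  have hcentral : ∀ (z : N) (h : G), (z : G) * h = h * z := fun z h =>
    (Subgroup.mem_center_iff.1 (hN z.2) h).symm
  have hscal : ∀ z : N, ∃ c : ℂ, ρ z = c • LinearMap.id := by
    intro z
    apply schur_scalar ρ (ρ z)
    intro h v
    have : ρ z * ρ h = ρ h * ρ z := by rw [← map_mul, ← map_mul, hcentral]
    exact LinearMap.congr_fun this v
  choose lam hlam using hscal
  haveI : Nontrivial (Fin n → ℂ) := ((isIrreducible_iff ρ).1 hirr).1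
  have hinj : ∀ c d : ℂ, c • (LinearMap.id : (Fin n → ℂ) →ₗ[ℂ] (Fin n → ℂ)) = d • LinearMap.id → c = d := by
    intro c d h
    obtain ⟨v, hv⟩ := exists_ne (0 : Fin n → ℂ)
    have h1 := LinearMap.congr_fun h v
    simp only [LinearMap.smul_apply, LinearMap.id_apply] at h1
    exact smul_left_injective ℂ hv h1
  have lam1 : lam 1 = 1 := by
    apply hinj
    rw [← hlam, one_smul]
    simp
    rfl
  have lammul : ∀ a b : N, lam (a * b) = lam a * lam b := by
    intro a b
    apply hinj
    rw [← hlam, mul_smul]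
    have : ρ ((a * b : N) : G) = ρ a * ρ b := by push_cast; rw [map_mul]
    rw [this, hlam, hlam]
    ext v
    simp
    ring
  let l0 : N →* ℂ := { toFun := lam, map_one' := lam1, map_mul' := lammul }
  let l : N →* ℂˣ := l0.toHomUnits
  have hl : (fun z => ((l z : ℂˣ) : ℂ)) = lam := by
    funext z
    rfl
  have hlamirr : IsIrrCharacter N lam := by
    rw [← hl]
    exact isIrr_of_hom l
  have hres : (fun z : N => ρ.character z) = (n : ℂ) • lam := by
    funext z
    simp only [Representation.character, hlam z, Pi.smul_apply]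
    simp [LinearMap.trace_id]
    ring
  rw [hres, classInner_smul_left] at hover
  have hlamψ : lam = ψ := by
    by_contra hcon
    apply hover
    rw [classInner_irr_ne hlamirr ψ.2 hcon, mul_zero]
  let z : N := ⟨_, hcomm⟩
  have hz : (z : G) = x⁻¹ * g⁻¹ * x * g := rfl
  have hz1 : z ≠ 1 := fun h => hne (by rw [← hz, h]; rfl)
  have hzinv : lam z⁻¹ ≠ 1 := by
    intro h
    have h1 : (ψ : N → ℂ) z⁻¹ = (ψ : N → ℂ) 1 := by rw [← hlamψ, h, lam1]
    exact hz1 (by simpa using hfaith _ h1)
  have hconj : x⁻¹ * g * x = g * ((z⁻¹ : N) : G) := by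
    push_cast
    rw [hz]
    group
  have h2 : ρ.character g = ρ.character (g * ((z⁻¹ : N) : G)) := by
    rw [← hconj]
    have := Representation.char_conj ρ g x⁻¹
    rw [inv_inv] at this
    exact this.symm
  have h3 : ρ.character (g * ((z⁻¹ : N) : G)) = lam z⁻¹ * ρ.character g := by
    simp only [Representation.character]
    rw [map_mul, hlam]
    have : ρ g * (lam z⁻¹ • LinearMap.id) = lam z⁻¹ • ρ g := by ext; simp
    rw [this, map_smul]
    rfl
  rw [h3] at h2
  have h4 : (1 - lam z⁻¹) * ρ.character g = 0 := by linear_combination h2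
  rcases mul_eq_zero.1 h4 with h5 | h5
  · exact absurd (by linear_combination -h5) hzinv
  · exact h5

end Cfsg.Agent.S4566
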