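import Cfsg.Statements.S4584
import Cfsg.Agent.Lib.Lead.Pfour
import Cfsg.Agent.Lib.PLocal.MaxClass

set_option autoImplicit false
open Cfsg

namespace Cfsg.Agent.S4584

open Subgroup CfsgLib.Lead CfsgLib.PLocal
open scoped commutatorElement

/-- Let p be a prime and P a group of order p^4. Then the derived subgroup P' has order p if and only if the centre Z(P) has index p^2 in P. -/
theorem result {P : Type*} [Group P] [Finite P] (p : ℕ) [Fact p.Prime] (hP : Nat.card P = p ^ 4) :
    Nat.card (commutator P) = p ↔ (Subgroup.center P).index = p ^ 2 := by
  have hp := (Fact.out : p.Prime)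
  have hpos := hp.pos
  have hPg : IsPGroup p P := IsPGroup.of_card hP
  constructor
  · intro h
    have hne : (⊤ : Subgroup P).lowerCentralSeries 1 ≠ ⊥ := by
      intro h0
      have h1 : Nat.card (commutator P) = 1 := by
        have : commutator P = ⊥ := h0
        rw [this]; exact Nat.card_unique
      rw [h] at h1
      exact hp.one_lt.ne' h1
    have hlt := lcs_succ_lt hPg hne
    have h2 := p_mul_card_dvd_of_lt (hPg.to_subgroup _) hlt
    have h3 : Nat.card ((⊤ : Subgroup P).lowerCentralSeries 1) = p := h
    rw [h3] at h2
    have h4 : Nat.card ((⊤ : Subgroup P).lowerCentralSeries (1 + 1)) = 1 := by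
      have h5 : p * Nat.card ((⊤ : Subgroup P).lowerCentralSeries (1 + 1)) ≤ p := Nat.le_of_dvd hpos h2
      have h6 : 0 < Nat.card ((⊤ : Subgroup P).lowerCentralSeries (1 + 1)) := Nat.card_pos
      nlinarith
    have h5 : (⊤ : Subgroup P).lowerCentralSeries (1 + 1) = ⊥ := Subgroup.eq_bot_of_card_eq _ h4
    have hc : commutator P ≤ center P := by
      intro z hz
      rw [Subgroup.mem_center_iff]
      intro g
      have h6 : ⁅z, g⁆ ∈ (⊤ : Subgroup P).lowerCentralSeries (1 + 1) :=
        Subgroup.commutator_mem_commutator hz (mem_top g)
      rw [h5, Subgroup.mem_bot, commutatorElement_eq_one_iff_mul_comm] at h6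
      exact h6.symm
    have hntop : center P ≠ ⊤ := by
      intro h0
      apply hne
      exact commutator_eq_bot_of_center_top h0
    have hidx := Subgroup.card_mul_index (center P)
    rw [hP] at hidx
    obtain ⟨k, hk, hk2⟩ := (Nat.dvd_prime_pow hp).1 (⟨_, by rw [← hidx, mul_comm]⟩ : (center P).index ∣ p ^ 4)
    interval_cases k
    · rw [pow_zero, Subgroup.index_eq_one] at hk2
      exact absurd hk2 hntop
    · rw [pow_one] at hk2
      exact absurd (center_eq_top_of_index_prime hp hk2) hntop
    · exact hk2
    · -- |Z| = p is impossible
      exfalso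
      have hZ : Nat.card (center P) = p := by
        rw [hk2] at hidx
        have : Nat.card (center P) * p ^ 3 = p * p ^ 3 := by rw [hidx]; ring
        exact Nat.eq_of_mul_eq_mul_right (by positivity) this
      obtain ⟨a, ha⟩ : ∃ a : P, a ∉ center P := by
        by_contra hcon
        push_neg at hcon
        exact hntop ((Subgroup.eq_top_iff' _).2 hcon)
      obtain ⟨N, hNdef⟩ : ∃ N : Subgroup P, N = (comHom hc a).ker := ⟨_, rfl⟩
      haveI hNn : N.Normal := by rw [hNdef]; exact MonoidHom.normal_ker _
      have hZN : center P ≤ N := by rw [hNdef]; exact center_le_ker_comHom hc a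
      have haN : a ∈ N := by rw [hNdef, mem_ker_comHom]
      have hNmem : ∀ g, g ∈ N ↔ a * g = g * a := fun g => by rw [hNdef, mem_ker_comHom]
      have hNtop : N ≠ ⊤ := by
        intro hN
        apply ha
        rw [Subgroup.mem_center_iff]
        intro g
        exact ((hNmem g).1 (hN ▸ mem_top g)).symm
      have hNidx : N.index = p := by
        have h6 : N.index ∣ p := by
          rw [hNdef, Subgroup.index_ker]
          have := Subgroup.card_dvd_of_le (range_comHom_le hc a)
          rwa [h] at this
        rcases (Nat.dvd_prime hp).1 h6 with h7 | h7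
        · rw [Subgroup.index_eq_one] at h7
          exact absurd h7 hNtop
        · exact h7
      have hNcard : Nat.card N = p ^ 3 := by
        have h6 := Subgroup.card_mul_index N
        rw [hNidx, hP] at h6
        have : Nat.card N * p = p ^ 3 * p := by rw [h6]; ring
        exact Nat.eq_of_mul_eq_mul_right hpos this
      -- N is abelian
      have hNg : IsPGroup p N := IsPGroup.of_card hNcard
      have hZ' : Nat.card ((center P).subgroupOf N) = p := by
        rw [← hZ]
        exact Nat.card_congr (Subgroup.subgroupOfEquivOfLe hZN).toEquiv
      have hlt2 : (center P).subgroupOf N < center N := by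
        refine lt_of_le_of_ne ?_ ?_
        · intro z hz
          rw [Subgroup.mem_subgroupOf] at hz
          rw [Subgroup.mem_center_iff]
          intro g
          exact Subtype.ext (Subgroup.mem_center_iff.1 hz g)
        · intro he
          have h6 : (⟨a, haN⟩ : N) ∈ center N := by
            rw [Subgroup.mem_center_iff]
            intro g
            exact Subtype.ext ((hNmem g).1 g.2).symm
          rw [← he, Subgroup.mem_subgroupOf] at h6
          exact ha h6
      have h8 := p_mul_card_dvd_of_lt (hNg.to_subgroup _) hlt2
      rw [hZ'] at h8
      have h9 := Subgroup.card_mul_index (center N)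
      rw [hNcard] at h9
      have h10 : (center N).index ∣ p := by
        obtain ⟨t, ht⟩ := h8
        have : (p * p) * (t * (center N).index) = p * p * p := by
          rw [← mul_assoc, ← ht, h9]; ring
        have h11 : t * (center N).index = p := Nat.eq_of_mul_eq_mul_left (by positivity) this
        exact ⟨t, by rw [← h11]; ring⟩
      have hNcen : center N = ⊤ := by
        rcases (Nat.dvd_prime hp).1 h10 with h7 | h7
        · exact Subgroup.index_eq_one.1 h7
        · exact center_eq_top_of_index_prime hp h7
      have hab : ∀ x ∈ N, ∀ y ∈ N, x * y = y * x := by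
        intro x hx y hy
        have h6 := Subgroup.mem_center_iff.1 (hNcen ▸ mem_top (⟨y, hy⟩ : N)) ⟨x, hx⟩
        exact congrArg Subtype.val h6
      have hK := index_commutator_of_abelian_max p hp N hNidx hab hZN
      have hcp := Subgroup.card_mul_index (commutator P)
      rw [h, hK, hZ, hP] at hcp
      have h15 : p ^ 3 * 1 = p ^ 3 * p := by
        rw [mul_one]
        calc p ^ 3 = p * (p * p) := by ring
          _ = p ^ 4 := hcp
          _ = p ^ 3 * p := by ring
      have h16 := Nat.eq_of_mul_eq_mul_left (by positivity) h15
      exact hp.one_lt.ne h16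
    · -- center trivial
      exfalso
      have hZ : Nat.card (center P) = 1 := by
        rw [hk2] at hidx
        have : Nat.card (center P) * p ^ 4 = 1 * p ^ 4 := by rw [hidx]; ring
        exact Nat.eq_of_mul_eq_mul_right (by positivity) this
      haveI : Nontrivial P := by
        rw [← Finite.one_lt_card_iff_nontrivial, hP]
        exact Nat.one_lt_pow (by norm_num) hp.one_lt
      haveI := hPg.center_nontrivial
      have := Finite.one_lt_card (α := center P)
      omega
  · exact card_commutator_of_center_index p hP

end Cfsg.Agent.S4584
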