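import Cfsg.Statements.S4585
import Cfsg.Agent.Lib.Lead.Pfour
import Cfsg.Agent.Lib.PLocal.MaxClass
import Cfsg.Agent.Lib.Solv.Nilp

set_option autoImplicit false
open Cfsg

namespace Cfsg.Agent.S4585

open Subgroup CfsgLib.Lead CfsgLib.PLocal
open scoped commutatorElement

/-- Let p be a prime and P a group of order p^4. Then P' has index p^2 in P if and only if P has maximal nilpotency class, that is, nilpotency class exactly 3. -/
theorem result {P : Type*} [Group P] [Finite P] (p : ℕ) [Fact p.Prime] (hP : Nat.card P = p ^ 4) :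
    (commutator P).index = p ^ 2 ↔ Group.nilpotencyClass P = 3 := by
  have hp := (Fact.out : p.Prime)
  have hpos := hp.pos
  have hPg : IsPGroup p P := IsPGroup.of_card hP
  haveI hnil : Group.IsNilpotent P := hPg.isNilpotent
  have hidxc := Subgroup.card_mul_index (commutator P)
  rw [hP] at hidxc
  constructor
  · intro h
    have hcard : Nat.card (commutator P) = p ^ 2 := by
      rw [h] at hidxc
      have : Nat.card (commutator P) * p ^ 2 = p ^ 2 * p ^ 2 := by rw [hidxc]; ring
      exact Nat.eq_of_mul_eq_mul_right (by positivity) this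
    have hne : commutator P ≠ ⊥ := by
      intro h0
      rw [h0] at hcard
      have h1 : Nat.card (⊥ : Subgroup P) = 1 := Nat.card_unique
      rw [h1] at hcard
      have : 1 < p ^ 2 := Nat.one_lt_pow (by norm_num) hp.one_lt
      omega
    have hle3 : Group.nilpotencyClass P ≤ 3 := CfsgLib.Solv.nilpotencyClass_le_of_card 4 P p hP (by norm_num)
    by_contra hc3
    have hle2 : Group.nilpotencyClass P ≤ 2 := by omega
    have hbot := _root_.lowerCentralSeries_eq_bot_iff_nilpotencyClass_le.2 hle2
    have hc : commutator P ≤ center P := by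
      intro z hz
      rw [Subgroup.mem_center_iff]
      intro g
      have h6 : ⁅z, g⁆ ∈ (⊤ : Subgroup P).lowerCentralSeries (1 + 1) :=
        Subgroup.commutator_mem_commutator hz (mem_top g)
      rw [hbot, Subgroup.mem_bot, commutatorElement_eq_one_iff_mul_comm] at h6
      exact h6.symm
    have hntop : center P ≠ ⊤ := fun h0 => hne (commutator_eq_bot_of_center_top h0)
    have hd : (center P).index ∣ p ^ 2 := by
      rw [← h]
      exact Subgroup.index_dvd_of_le hc
    obtain ⟨k, hk, hk2⟩ := (Nat.dvd_prime_pow hp).1 hd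
    interval_cases k
    · rw [pow_zero, Subgroup.index_eq_one] at hk2
      exact absurd hk2 hntop
    · rw [pow_one] at hk2
      exact absurd (center_eq_top_of_index_prime hp hk2) hntop
    · have := card_commutator_of_center_index p hP hk2
      rw [hcard] at this
      have h1 : p * 1 = p * p := by rw [mul_one]; nth_rewrite 1 [← this]; ring
      have := Nat.eq_of_mul_eq_mul_left hpos h1
      exact hp.one_lt.ne this
  · intro h
    have hbot2 : (⊤ : Subgroup P).lowerCentralSeries 2 ≠ ⊥ := by
      intro h0
      have := _root_.lowerCentralSeries_eq_bot_iff_nilpotencyClass_le.1 h0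
      omega
    have hne1 : (⊤ : Subgroup P).lowerCentralSeries 1 ≠ ⊥ := by
      intro h0
      apply hbot2
      rw [eq_bot_iff, ← h0]
      exact Subgroup.lowerCentralSeries_antitone _ (by norm_num)
    have h1 := p_sq_dvd_index hPg hne1
    rw [hP] at h1
    have hlt := lcs_succ_lt hPg hne1
    have h2 := p_mul_card_dvd_of_lt (hPg.to_subgroup _) hlt
    -- p ∣ |lcs 2|
    have h3 : p ∣ Nat.card ((⊤ : Subgroup P).lowerCentralSeries (1 + 1)) := by
      have hg : IsPGroup p ((⊤ : Subgroup P).lowerCentralSeries (1 + 1)) := hPg.to_subgroup _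
      obtain ⟨m, hm⟩ := IsPGroup.iff_card.mp hg
      rw [hm]
      apply dvd_pow_self
      rintro rfl
      rw [pow_zero] at hm
      exact hbot2 (Subgroup.eq_bot_of_card_eq _ hm)
    have h4 : p ^ 2 ∣ Nat.card ((⊤ : Subgroup P).lowerCentralSeries 1) := by
      refine dvd_trans ?_ h2
      rw [pow_two]
      exact mul_dvd_mul_left _ h3
    have hc1 : Nat.card ((⊤ : Subgroup P).lowerCentralSeries 1) = Nat.card (commutator P) := rfl
    rw [hc1] at h1 h4
    obtain ⟨t, ht⟩ := h4
    have h5 : (commutator P).index = p ^ 2 := by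
      have h6 : p ^ 2 * (p ^ 2 * t) ∣ p ^ 2 * p ^ 2 := by
        rw [← ht]
        have : p ^ 2 * p ^ 2 = p ^ 4 := by ring
        rw [this]; exact h1
      have h7 : p ^ 2 * t ∣ p ^ 2 := Nat.dvd_of_mul_dvd_mul_left (by positivity) h6
      have h8 : t ∣ 1 := by
        have : p ^ 2 * t ∣ p ^ 2 * 1 := by rwa [mul_one]
        exact Nat.dvd_of_mul_dvd_mul_left (by positivity) this
      have h9 : t = 1 := Nat.dvd_one.1 h8
      rw [h9, mul_one] at ht
      rw [ht] at hidxc
      have : p ^ 2 * (commutator P).index = p ^ 2 * p ^ 2 := by rw [hidxc]; ring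
      exact Nat.eq_of_mul_eq_mul_left (by positivity) this
    exact h5

end Cfsg.Agent.S4585
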