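import Cfsg.Statements.S4586
import Mathlib
import Cfsg.Agent.Lib.Lead.Pfour

set_option autoImplicit false
open Cfsg

namespace Cfsg.Agent.S4586

open Subgroup
open scoped commutatorElement

variable {P : Type*} [Group P] [Finite P]

/-- Let p be a prime, P a finite p-group and N a normal subgroup of P of index p. For x ∈ P write c(x) for the number of elements n of N whose commutator x n x⁻¹ n⁻¹ lies in the derived subgroup N' (so c(x)/#N' is the order of the centralizer of x acting on N/N'). Then [P : P'] = p² if and only if c(x) = p·#N' for every x ∈ P outside N, and also if and only if c(x) = p·#N' for some x ∈ P outside N. -/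
theorem result {P : Type*} [Group P] [Finite P] (p : ℕ) [Fact p.Prime] (hP : IsPGroup p P) (N : Subgroup P) [N.Normal] (hN : N.index = p) :
    ((commutator P).index = p ^ 2 ↔ ∀ x : P, x ∉ N →
        Nat.card {n : N // x * n * x⁻¹ * (n : P)⁻¹ ∈ (commutator N).map N.subtype} = p * Nat.card (commutator N)) ∧
    ((commutator P).index = p ^ 2 ↔ ∃ x : P, x ∉ N ∧
        Nat.card {n : N // x * n * x⁻¹ * (n : P)⁻¹ ∈ (commutator N).map N.subtype} = p * Nat.card (commutator N)) := by
  have hp := (Fact.out : p.Prime)
  have hex : ∃ x : P, x ∉ N := by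
    by_contra hcon
    push_neg at hcon
    have : N = ⊤ := (Subgroup.eq_top_iff' N).2 hcon
    rw [this, Subgroup.index_top] at hN
    exact hp.one_lt.ne hN
  have hcN : 0 < Nat.card (commutator N) := Nat.card_pos
  have key : ∀ x : P, x ∉ N → ((commutator P).index = p ^ 2 ↔
      Nat.card {n : N // x * n * x⁻¹ * (n : P)⁻¹ ∈ (commutator N).map N.subtype} = p * Nat.card (commutator N)) := by
    intro x hx
    have h := CfsgLib.Lead.ledermann_main p hp N hN x hx
    constructor
    · intro h1
      rw [h1] at h
      have : p * (p * Nat.card (commutator N)) = p * Nat.card {n : N // x * n * x⁻¹ * (n : P)⁻¹ ∈ (commutator N).map N.subtype} := by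
        rw [← h]; ring
      exact (Nat.eq_of_mul_eq_mul_left hp.pos this).symm
    · intro h1
      rw [h1] at h
      apply Nat.eq_of_mul_eq_mul_right hcN
      rw [h]; ring
  constructor
  · constructor
    · intro h x hx
      exact (key x hx).1 h
    · intro h
      obtain ⟨x, hx⟩ := hex
      exact (key x hx).2 (h x hx)
  · constructor
    · intro h
      obtain ⟨x, hx⟩ := hex
      exact ⟨x, hx, (key x hx).1 h⟩
    · rintro ⟨x, hx, h⟩
      exact (key x hx).2 h

end Cfsg.Agent.S4586
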