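import Cfsg.Statements.S4593
import Cfsg.Agent.Lib.ZStarAb.Basic

set_option autoImplicit false
open Cfsg

namespace Cfsg.Agent.S4593

/-- Let G be a finite group with trivial centre and no nontrivial normal subgroup of odd order, whose Sylow 2-subgroups are abelian, and let P be a Sylow 2-subgroup. Every automorphism of G of 2-power order that fixes P elementwise is inner. -/
theorem result {G : Type*} [Group G] [Finite G] (hZ : Subgroup.center G = ⊥) (hcore : Cfsg.pPrimeCore 2 G = ⊥) (P : Sylow 2 G) (hab : IsMulCommutative (P : Subgroup G))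
    (α : MulAut G) (h2 : ∃ j : ℕ, orderOf α = 2 ^ j) (hfix : ∀ x ∈ (P : Subgroup G), α x = x) :
    ∃ g : G, ∀ x : G, α x = g * x * g⁻¹ := by
  classical
  haveI : Fact (Nat.Prime 2) := ⟨Nat.prime_two⟩
  haveI : Finite (MulAut G) := Finite.of_injective (fun φ : MulAut G => (φ : G → G)) (fun a b h => MulEquiv.ext (congrFun h))
  let c : G →* MulAut G := MulAut.conj
  have hc : ∀ (φ : MulAut G) (g : G), φ * c g * φ⁻¹ = c (φ g) := by
    intro φ g
    ext x
    show φ (g * φ⁻¹ x * g⁻¹) = φ g * x * (φ g)⁻¹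
    rw [map_mul, map_mul, map_inv, MulAut.apply_inv_self]
  have hcinj : Function.Injective c := by
    intro a b h
    have h1 : a⁻¹ * b ∈ Subgroup.center G := by
      rw [Subgroup.mem_center_iff]
      intro x
      have h2 := congrArg (fun φ : MulAut G => φ x) h
      have h3 : a * x * a⁻¹ = b * x * b⁻¹ := h2
      calc x * (a⁻¹ * b) = a⁻¹ * (a * x * a⁻¹) * b := by group
        _ = a⁻¹ * (b * x * b⁻¹) * b := by rw [h3]
        _ = a⁻¹ * b * x := by group
    rw [hZ, Subgroup.mem_bot, inv_mul_eq_one] at h1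
    exact h1
  let I : Subgroup (MulAut G) := c.range
  haveI hI : I.Normal := ⟨by
    rintro _ ⟨g, rfl⟩ φ
    exact ⟨φ g, (hc φ g).symm⟩⟩
  let Γ : Subgroup (MulAut G) := I ⊔ Subgroup.zpowers α
  have hΓ : ∀ γ ∈ Γ, ∃ (g : G) (k : ℤ), γ = c g * α ^ k := by
    intro γ hγ
    have h1 : γ ∈ ((I ⊔ Subgroup.zpowers α : Subgroup (MulAut G)) : Set (MulAut G)) := hγ
    rw [Subgroup.normal_mul] at h1
    obtain ⟨_, ⟨g, rfl⟩, _, ⟨k, rfl⟩, rfl⟩ := Set.mem_mul.1 h1
    exact ⟨g, k, rfl⟩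
  have hcΓ : ∀ g, c g ∈ Γ := fun g => Subgroup.mem_sup_left ⟨g, rfl⟩
  have hαΓ : α ∈ Γ := Subgroup.mem_sup_right (Subgroup.mem_zpowers α)
  let c' : G →* Γ := c.codRestrict Γ hcΓ
  have hc'inj : Function.Injective c' := by
    intro a b h
    exact hcinj (congrArg Subtype.val h)
  let H : Subgroup Γ := I.subgroupOf Γ
  haveI hHn : H.Normal := inferInstance
  obtain ⟨j₀, hj₀⟩ := h2
  have hαpow : α ^ (2 ^ j₀) = 1 := by rw [← hj₀]; exact pow_orderOf_eq_one α
  let ψ : MulAut G →* MulAut G ⧸ I := QuotientGroup.mk' I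
  have hψc : ∀ g, ψ (c g) = 1 := fun g => (QuotientGroup.eq_one_iff _).2 ⟨g, rfl⟩
  have hψ : ∀ γ ∈ Γ, ∃ k : ℤ, ψ γ = ψ α ^ k := by
    intro γ hγ
    obtain ⟨g, k, rfl⟩ := hΓ γ hγ
    exact ⟨k, by rw [map_mul, hψc, one_mul, map_zpow]⟩
  have hmemH : ∀ γ : Γ, ψ (γ : MulAut G) = 1 → γ ∈ H := by
    intro γ h
    exact Subgroup.mem_subgroupOf.2 ((QuotientGroup.eq_one_iff _).1 h)
  have hpow2 : ∀ γ : Γ, ∃ j : ℕ, γ ^ (2 ^ j) ∈ H := by
    intro γ
    refine ⟨j₀, hmemH _ ?_⟩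
    obtain ⟨k, hk⟩ := hψ γ γ.2
    push_cast
    rw [map_pow, hk, ← zpow_natCast, ← zpow_mul, mul_comm, zpow_mul, zpow_natCast, ← map_pow, hαpow, map_one, one_zpow]
  have hcomm : ∀ a b : Γ, a * b * a⁻¹ * b⁻¹ ∈ H := by
    intro a b
    refine hmemH _ ?_
    obtain ⟨k, hk⟩ := hψ a a.2
    obtain ⟨l, hl⟩ := hψ b b.2
    push_cast
    rw [map_mul, map_mul, map_mul, map_inv, map_inv, hk, hl]
    have h1 : Commute (ψ α ^ k) (ψ α ^ l) := (Commute.refl _).zpow_zpow _ _
    rw [h1.eq]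
    group
  -- no odd normal subgroups
  have hO : ∀ N : Subgroup Γ, N.Normal → Odd (Nat.card N) → N = ⊥ := by
    intro N hN hodd
    have hN₀ : (N.comap c').Normal := hN.comap c'
    have hdvd : Nat.card (N.comap c') ∣ Nat.card N := by
      have h1 : Nat.card (N.comap c') = Nat.card ((N.comap c').map c') := (Subgroup.card_map_of_injective hc'inj).symm
      rw [h1]
      exact Subgroup.card_dvd_of_le (Subgroup.map_comap_le _ _)
    have hcop : (Nat.card (N.comap c')).Coprime 2 := by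
      have h1 : (Nat.card N).Coprime 2 := Nat.coprime_two_right.2 hodd
      exact Nat.Coprime.coprime_dvd_left hdvd h1
    have hle := CfsgLib.PLocal.le_pPrimeCore_of_normal _ hN₀ hcop
    rw [hcore, le_bot_iff] at hle
    rw [eq_bot_iff]
    intro ν hν
    obtain ⟨j, hj⟩ := hpow2 ν
    have h1 : (ν ^ (2 ^ j) : Γ) ∈ N := N.pow_mem hν _
    obtain ⟨g, hg⟩ := Subgroup.mem_subgroupOf.1 hj
    have h2 : c' g = ν ^ (2 ^ j) := Subtype.ext hg
    have h3 : g ∈ N.comap c' := by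
      rw [Subgroup.mem_comap, h2]
      exact h1
    rw [hle, Subgroup.mem_bot] at h3
    have h4 : ν ^ (2 ^ j) = 1 := by
      rw [← h2, h3, map_one]
    have h5 : orderOf ν ∣ Nat.card N := Subgroup.orderOf_dvd_natCard N hν
    have h6 : ν ^ Nat.card N = 1 := by
      rw [← pow_mod_orderOf, Nat.mod_eq_zero_of_dvd h5, pow_zero]
    have h7 := (pow_gcd_eq_one).2 ⟨h6, h4⟩
    have h8 : (Nat.card N).gcd (2 ^ j) = 1 := Nat.Coprime.pow_right _ (Nat.coprime_two_right.2 hodd)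
    rw [h8, pow_one] at h7
    rw [Subgroup.mem_bot]
    exact h7
  -- no central elements
  have hZ' : ∀ z : Γ, z * z = 1 → (∀ g, z * g = g * z) → z = 1 := by
    intro z _ hz
    apply Subtype.ext
    ext x
    have h1 : (z : MulAut G) * c x * (z : MulAut G)⁻¹ = c x := by
      have h2 := congrArg Subtype.val (hz (c' x))
      have h3 : (z : MulAut G) * c x = c x * (z : MulAut G) := h2
      rw [h3]
      group
    rw [hc] at h1
    exact hcinj h1
  -- the abelian Sylow subgroup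
  have hαc : ∀ s ∈ (P : Subgroup G), Commute α (c s) := by
    intro s hs
    have h1 : α * c s * α⁻¹ = c s := by rw [hc, hfix s hs]
    exact mul_inv_eq_iff_eq_mul.1 h1
  have hαzc : ∀ (k : ℤ), ∀ s ∈ (P : Subgroup G), Commute (α ^ k) (c s) := fun k s hs => (hαc s hs).zpow_left k
  let Q0 : Subgroup Γ :=
    { carrier := {γ | ∃ s ∈ (P : Subgroup G), ∃ k : ℤ, (γ : MulAut G) = c s * α ^ k}
      mul_mem' := by
        rintro a b ⟨s, hs, k, hk⟩ ⟨s', hs', k', hk'⟩
        refine ⟨s * s', (P : Subgroup G).mul_mem hs hs', k + k', ?_⟩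
        push_cast
        rw [hk, hk', map_mul, zpow_add]
        have := (hαzc k s' hs').eq
        calc c s * α ^ k * (c s' * α ^ k') = c s * (α ^ k * c s') * α ^ k' := by group
          _ = c s * (c s' * α ^ k) * α ^ k' := by rw [this]
          _ = _ := by group
      one_mem' := ⟨1, (P : Subgroup G).one_mem, 0, by simp⟩
      inv_mem' := by
        rintro a ⟨s, hs, k, hk⟩
        refine ⟨s⁻¹, (P : Subgroup G).inv_mem hs, -k, ?_⟩
        push_cast
        rw [hk, mul_inv_rev, map_inv, zpow_neg]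
        exact (((hαzc k s hs).inv_inv)).eq }
  have hQ0ab : ∀ a ∈ Q0, ∀ b ∈ Q0, a * b = b * a := by
    rintro a ⟨s, hs, k, hk⟩ b ⟨s', hs', k', hk'⟩
    apply Subtype.ext
    push_cast
    rw [hk, hk']
    have h1 := (hαzc k s' hs').eq
    have h2 := (hαzc k' s hs).eq
    have h3 : s * s' = s' * s := by
      have := hab.is_comm.comm (⟨s, hs⟩ : (P : Subgroup G)) ⟨s', hs'⟩
      exact congrArg Subtype.val this
    have h4 : c s * c s' = c s' * c s := by rw [← map_mul, ← map_mul, h3]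
    have h5 : α ^ k * α ^ k' = α ^ k' * α ^ k := ((Commute.refl α).zpow_zpow k k').eq
    calc c s * α ^ k * (c s' * α ^ k') = c s * (α ^ k * c s') * α ^ k' := by group
      _ = c s * (c s' * α ^ k) * α ^ k' := by rw [h1]
      _ = (c s * c s') * (α ^ k * α ^ k') := by group
      _ = (c s' * c s) * (α ^ k' * α ^ k) := by rw [h4, h5]
      _ = c s' * (c s * α ^ k') * α ^ k := by group
      _ = c s' * (α ^ k' * c s) * α ^ k := by rw [h2]
      _ = c s' * α ^ k' * (c s * α ^ k) := by group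
  have hQ0p : IsPGroup 2 Q0 := by
    rintro ⟨a, ⟨s, hs, k, hk⟩⟩
    have h1 : ∃ j : ℕ, s ^ (2 ^ j) = 1 := by
      have := P.isPGroup' ⟨s, hs⟩
      obtain ⟨j, hj⟩ := this
      exact ⟨j, congrArg Subtype.val hj⟩
    obtain ⟨j, hj⟩ := h1
    refine ⟨j + j₀, ?_⟩
    apply Subtype.ext
    apply Subtype.ext
    show ((a : MulAut G)) ^ (2 ^ (j + j₀)) = 1
    have hs1 : s ^ (2 ^ (j + j₀)) = 1 := by rw [pow_add, pow_mul, hj, one_pow]
    have hα1 : α ^ (2 ^ (j + j₀)) = 1 := by rw [pow_add, mul_comm, pow_mul, hαpow, one_pow]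
    have hα2 : (α ^ k) ^ (2 ^ (j + j₀)) = 1 := by
      rw [← zpow_natCast, ← zpow_mul, mul_comm, zpow_mul, zpow_natCast, hα1, one_zpow]
    rw [hk, ((hαzc k s hs).symm).mul_pow, ← map_pow, hs1, map_one, one_mul, hα2]
  obtain ⟨R, hR⟩ := hQ0p.exists_le_sylow
  have hαR : (⟨α, hαΓ⟩ : Γ) ∈ R := hR ⟨1, (P : Subgroup G).one_mem, 1, by simp⟩
  have hRQ0 : (R : Subgroup Γ) ≤ Q0 := by
    intro r hr
    obtain ⟨g, k, hgk⟩ := hΓ r r.2
    have h1 : (⟨α, hαΓ⟩ : Γ) ^ k ∈ R := (R : Subgroup Γ).zpow_mem hαR k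
    have h2 : c' g = r * ((⟨α, hαΓ⟩ : Γ) ^ k)⁻¹ := by
      apply Subtype.ext
      push_cast
      rw [hgk]
      show c g = _
      group
    have h3 : c' g ∈ R := by
      rw [h2]
      exact (R : Subgroup Γ).mul_mem hr ((R : Subgroup Γ).inv_mem h1)
    have hR0 : IsPGroup 2 ((R : Subgroup Γ).comap c') := by
      rintro ⟨u, hu⟩
      obtain ⟨j, hj⟩ := R.isPGroup' ⟨c' u, hu⟩
      refine ⟨j, ?_⟩
      apply Subtype.ext
      apply hc'inj
      have := congrArg Subtype.val hj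
      show c' (u ^ (2 ^ j)) = c' 1
      rw [map_pow, map_one]
      exact this
    have hle : (P : Subgroup G) ≤ (R : Subgroup Γ).comap c' := by
      intro s hs
      exact hR ⟨s, hs, 0, by simp; rfl⟩
    have heq := P.is_maximal' hR0 hle
    have hgP : g ∈ (P : Subgroup G) := by
      rw [← heq]
      exact h3
    exact ⟨g, hgP, k, hgk⟩
  have hRab : ∀ a ∈ R, ∀ b ∈ R, a * b = b * a := fun a ha b hb => hQ0ab a (hRQ0 ha) b (hRQ0 hb)
  have hfinal := CfsgLib.ZStarAb.sylow_le_of_no_central hO hZ' R hRab H hpow2 hcomm hαR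
  obtain ⟨g, hg⟩ := Subgroup.mem_subgroupOf.1 hfinal
  refine ⟨g, fun x => ?_⟩
  have h := congrArg (fun f : MulAut G => f x) hg
  exact h.symm

end Cfsg.Agent.S4593
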