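import Cfsg.Statements.S4619
import Mathlib

set_option autoImplicit false
open scoped Pointwise
open Cfsg

namespace Cfsg.Agent.S4619

theorem result {G : Type*} [Group G] [Finite G] (p : ℕ) [Fact p.Prime] (P : Sylow p G) (hTI : (∀ g : G, g ∉ Subgroup.normalizer ((P : Subgroup G) : Set G) → (P : Subgroup G) ⊓ (MulAut.conj g • (P : Subgroup G)) = ⊥)) (Q : Subgroup G) (hQ : Q ≤ (P : Subgroup G)) (hQ1 : Q ≠ ⊥) :
    Subgroup.normalizer (Q : Set G) ≤ Subgroup.normalizer ((P : Subgroup G) : Set G) ∧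
      ∀ g : G, MulAut.conj g • Q ≤ (P : Subgroup G) → g ∈ Subgroup.normalizer ((P : Subgroup G) : Set G) := by
  have key : ∀ g : G, MulAut.conj g • Q ≤ (P : Subgroup G) → g ∈ Subgroup.normalizer ((P : Subgroup G) : Set G) := by
    intro g hg
    by_contra hn
    have h := hTI g hn
    apply hQ1
    rw [eq_bot_iff]
    intro a ha
    have h1 : MulAut.conj g • a ∈ MulAut.conj g • Q := Subgroup.smul_mem_pointwise_smul a _ _ ha
    have h2 : MulAut.conj g • a ∈ MulAut.conj g • (P : Subgroup G) := Subgroup.smul_mem_pointwise_smul a _ _ (hQ ha)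
    have h3 : MulAut.conj g • a ∈ (P : Subgroup G) ⊓ (MulAut.conj g • (P : Subgroup G)) := ⟨hg h1, h2⟩
    rw [h, Subgroup.mem_bot] at h3
    have h4 : g * a * g⁻¹ = 1 := by simpa using h3
    have : a = 1 := by
      have := congrArg (fun x => g⁻¹ * x * g) h4
      simpa [mul_assoc] using this
    simpa using this
  refine ⟨?_, key⟩
  intro n hn
  apply key
  rw [Subgroup.mem_normalizer_iff_map_conj_eq] at hn
  have : MulAut.conj n • Q = Q := by
    rw [Subgroup.pointwise_smul_def]
    exact hn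
  rw [this]; exact hQ

end Cfsg.Agent.S4619
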