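import Cfsg.Statements.S4620
import Cfsg.Agent.Lib.PLocal.Core
-- import your own Cfsg.Agent.* helpers here

set_option autoImplicit false
open scoped Pointwise
open Cfsg

namespace Cfsg.Agent.S4620

section aux
variable {H : Type*} [Group H] [Finite H] {p : ℕ} [hp : Fact p.Prime]

theorem char_normal {C : Subgroup H} [hC : C.Normal] (K : Subgroup C) (hK : ∀ α : C ≃* C, K.map α.toMonoidHom = K) :
    (K.map C.subtype).Normal := by
  refine ⟨?_⟩
  rintro _ ⟨k, hk, rfl⟩ g
  have h1 : K.map (MulAut.conjNormal g : C ≃* C).toMonoidHom = K := hK _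
  have h2 : MulAut.conjNormal g k ∈ K := by
    rw [← h1]
    exact ⟨k, hk, rfl⟩
  exact ⟨_, h2, by simp⟩

/-- Normal `p`-subgroups of a normal subgroup vanish. -/
theorem normal_p_trivial (hOp : Cfsg.pCore p H = ⊥) (U : Subgroup H) [hU : U.Normal] (Y : Subgroup U) [hY : Y.Normal]
    (hYp : IsPGroup p Y) : Y = ⊥ := by
  have h1 : Y ≤ Cfsg.pCore p U := CfsgLib.PLocal.le_pCore_of_normal Y hY hYp
  have h2 := char_normal (Cfsg.pCore p U) (fun α => CfsgLib.PLocal.pCore_map_equiv α)
  have h3 : IsPGroup p ((Cfsg.pCore p U).map U.subtype) := (CfsgLib.PLocal.pCore_isPGroup).map _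
  have h4 := CfsgLib.PLocal.le_pCore_of_normal _ h2 h3
  rw [hOp, le_bot_iff] at h4
  rw [eq_bot_iff]
  intro y hy
  have h5 : (y : H) ∈ (Cfsg.pCore p U).map U.subtype := ⟨y, h1 hy, rfl⟩
  rw [h4, Subgroup.mem_bot] at h5
  exact Subgroup.mem_bot.2 (Subtype.ext h5)

theorem normal_p'_trivial (hOp' : Cfsg.pPrimeCore p H = ⊥) (U : Subgroup H) [hU : U.Normal] (Y : Subgroup U) [hY : Y.Normal]
    (hYp : (Nat.card Y).Coprime p) : Y = ⊥ := by
  have h1 : Y ≤ Cfsg.pPrimeCore p U := CfsgLib.PLocal.le_pPrimeCore_of_normal Y hY hYp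
  have h2 := char_normal (Cfsg.pPrimeCore p U) (fun α => CfsgLib.PLocal.pPrimeCore_map_equiv α)
  have h3 : (Nat.card ((Cfsg.pPrimeCore p U).map U.subtype)).Coprime p := by
    rw [Subgroup.card_map_of_injective U.subtype_injective]
    exact CfsgLib.PLocal.pPrimeCore_coprime
  have h4 := CfsgLib.PLocal.le_pPrimeCore_of_normal _ h2 h3
  rw [hOp', le_bot_iff] at h4
  rw [eq_bot_iff]
  intro y hy
  have h5 : (y : H) ∈ (Cfsg.pPrimeCore p U).map U.subtype := ⟨y, h1 hy, rfl⟩
  rw [h4, Subgroup.mem_bot] at h5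
  exact Subgroup.mem_bot.2 (Subtype.ext h5)

/-- From `TI` for `P` to `TI` for all pairs. -/
theorem ti_all (P : Sylow p H)
    (hTI : ∀ g : H, g ∉ Subgroup.normalizer ((P : Subgroup H) : Set H) → (P : Subgroup H) ⊓ (MulAut.conj g • (P : Subgroup H)) = ⊥)
    (R R' : Sylow p H) (x : H) (hx : x ≠ 1) (hxR : x ∈ (R : Subgroup H)) (hxR' : x ∈ (R' : Subgroup H)) : R = R' := by
  obtain ⟨g, rfl⟩ := MulAction.exists_smul_eq H P R
  obtain ⟨g', rfl⟩ := MulAction.exists_smul_eq H P R'
  rw [Sylow.coe_subgroup_smul] at hxR hxR'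
  obtain ⟨a, ha, rfl⟩ := hxR
  obtain ⟨a', ha', hae⟩ := hxR'
  by_cases hn : g⁻¹ * g' ∈ Subgroup.normalizer ((P : Subgroup H) : Set H)
  · have h1 : (g⁻¹ * g') • P = P := Sylow.smul_eq_iff_mem_normalizer.2 hn
    rw [mul_smul, inv_smul_eq_iff] at h1
    exact h1.symm
  · exfalso
    have h2 := hTI _ hn
    have h3 : a ∈ (P : Subgroup H) ⊓ (MulAut.conj (g⁻¹ * g') • (P : Subgroup H)) := by
      refine ⟨ha, a', ha', ?_⟩
      have h4 : g' * a' * g'⁻¹ = g * a * g⁻¹ := hae
      have h5 : a = g⁻¹ * (g * a * g⁻¹) * g := by group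
      show (g⁻¹ * g') * a' * (g⁻¹ * g')⁻¹ = a
      rw [h5, ← h4]; group
    rw [h2, Subgroup.mem_bot] at h3
    apply hx
    simp [h3]

/-- A `p`-element commuting with a nonidentity element of a Sylow lies in it. -/
theorem mem_of_comm (P : Sylow p H)
    (hTI : ∀ g : H, g ∉ Subgroup.normalizer ((P : Subgroup H) : Set H) → (P : Subgroup H) ⊓ (MulAut.conj g • (P : Subgroup H)) = ⊥)
    (R : Sylow p H) (x y : H) (hxo : orderOf x = p) (hy : y ≠ 1) (hyR : y ∈ (R : Subgroup H)) (hc : x * y = y * x) :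
    x ∈ (R : Subgroup H) := by
  have h1 : y ∈ ((x • R : Sylow p H) : Subgroup H) := by
    rw [Sylow.coe_subgroup_smul]
    refine ⟨y, hyR, ?_⟩
    show x * y * x⁻¹ = y
    rw [hc]; group
  have h2 : x • R = R := ti_all P hTI _ _ y hy h1 hyR
  rw [Sylow.smul_eq_iff_mem_normalizer] at h2
  have hzp : IsPGroup p (Subgroup.zpowers x) := by
    rw [IsPGroup.iff_card, Nat.card_zpowers, hxo]
    exact ⟨1, by simp⟩
  have h3 := hzp.inf_normalizer_sylow R
  have h4 : x ∈ Subgroup.zpowers x ⊓ Subgroup.normalizer (R : Set H) := ⟨Subgroup.mem_zpowers x, h2⟩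
  rw [h3] at h4
  exact h4.2

/-- The commuting configuration cannot occur. -/
theorem no_commuting (hOp : Cfsg.pCore p H = ⊥) (P : Sylow p H)
    (hTI : ∀ g : H, g ∉ Subgroup.normalizer ((P : Subgroup H) : Set H) → (P : Subgroup H) ⊓ (MulAut.conj g • (P : Subgroup H)) = ⊥)
    (U : Subgroup H) [hU : U.Normal] (A B : Subgroup H) (hAU : A ≤ U) (hBU : B ≤ U)
    (hUA : U ≤ Subgroup.normalizer (A : Set H)) (hUB : U ≤ Subgroup.normalizer (B : Set H))
    (hAB : A ⊓ B = ⊥) (hpA : p ∣ Nat.card A) (hpB : p ∣ Nat.card B) : False := by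
  obtain ⟨x', hx'⟩ := exists_prime_orderOf_dvd_card' p hpA
  obtain ⟨y', hy'⟩ := exists_prime_orderOf_dvd_card' p hpB
  set x : H := x'.1 with hxd
  set y : H := y'.1 with hyd
  have hxA : x ∈ A := x'.2
  have hyB : y ∈ B := y'.2
  have hxo : orderOf x = p := by rw [hxd, Subgroup.orderOf_coe]; exact hx'
  have hyo : orderOf y = p := by rw [hyd, Subgroup.orderOf_coe]; exact hy'
  have hxU := hAU hxA
  have hcomm : ∀ a ∈ A, ∀ b ∈ B, a * b = b * a := by
    intro a ha b hb
    have h1 : a * b * a⁻¹ ∈ B := (Subgroup.mem_normalizer_iff.1 (hUB (hAU ha)) b).1 hb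
    have h2 : b * a⁻¹ * b⁻¹ ∈ A := (Subgroup.mem_normalizer_iff.1 (hUA (hBU hb)) a⁻¹).1 (A.inv_mem ha)
    have h3 : a * b * a⁻¹ * b⁻¹ ∈ A ⊓ B := by
      refine ⟨?_, B.mul_mem h1 (B.inv_mem hb)⟩
      have e : a * b * a⁻¹ * b⁻¹ = a * (b * a⁻¹ * b⁻¹) := by group
      rw [e]; exact A.mul_mem ha h2
    rw [hAB, Subgroup.mem_bot] at h3
    have h4 : a * b * a⁻¹ = b := mul_inv_eq_one.1 h3
    exact mul_inv_eq_iff_eq_mul.1 h4
  have hy1 : y ≠ 1 := by
    intro h; rw [h, orderOf_one] at hyo; exact hp.out.one_lt.ne hyo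
  have hx1 : x ≠ 1 := by
    intro h; rw [h, orderOf_one] at hxo; exact hp.out.one_lt.ne hxo
  obtain ⟨R₀, hR₀⟩ : ∃ R : Sylow p H, y ∈ (R : Subgroup H) := by
    have hzp : IsPGroup p (Subgroup.zpowers y) := by
      rw [IsPGroup.iff_card, Nat.card_zpowers, hyo]
      exact ⟨1, by simp⟩
    obtain ⟨Q, hQ⟩ := hzp.exists_le_sylow
    exact ⟨Q, hQ (Subgroup.mem_zpowers y)⟩
  have hxconj : ∀ u ∈ U, u⁻¹ * x * u ∈ (R₀ : Subgroup H) := by
    intro u hu
    have h1 : u * y * u⁻¹ ∈ B := (Subgroup.mem_normalizer_iff.1 (hUB hu) y).1 hyB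
    have h2 : u * y * u⁻¹ ≠ 1 := by
      intro h
      apply hy1
      have : y = u⁻¹ * (u * y * u⁻¹) * u := by group
      rw [this, h]; group
    have h3 : u * y * u⁻¹ ∈ ((u • R₀ : Sylow p H) : Subgroup H) := by
      rw [Sylow.coe_subgroup_smul]
      exact Subgroup.mem_map_of_mem _ hR₀
    have h4 := mem_of_comm P hTI (u • R₀) x _ hxo h2 h3 (hcomm x hxA _ h1)
    rw [Sylow.coe_subgroup_smul] at h4
    obtain ⟨w, hw, hwe⟩ := h4
    have h5 : u * w * u⁻¹ = x := hwe
    have h6 : u⁻¹ * x * u = w := by rw [← h5]; group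
    rw [h6]; exact hw
  -- normal closure in `U`
  let Y : Subgroup U := Subgroup.normalClosure {(⟨x, hxU⟩ : U)}
  have hYn : Y.Normal := Subgroup.normalClosure_normal
  have hYR : ∀ v ∈ Y, ((v : U) : H) ∈ (R₀ : Subgroup H) := by
    let C : Subgroup U :=
      { carrier := {v | ∀ u : U, (u : H)⁻¹ * v * u ∈ (R₀ : Subgroup H)}
        one_mem' := by intro u; simp
        mul_mem' := by
          intro a b ha hb u
          have e : (u : H)⁻¹ * ((a * b : U) : H) * u = ((u : H)⁻¹ * a * u) * ((u : H)⁻¹ * b * u) := by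
            simp only [Subgroup.coe_mul]; group
          rw [e]
          exact (R₀ : Subgroup H).mul_mem (ha u) (hb u)
        inv_mem' := by
          intro a ha u
          have e : (u : H)⁻¹ * ((a⁻¹ : U) : H) * u = ((u : H)⁻¹ * a * u)⁻¹ := by
            simp only [Subgroup.coe_inv]; group
          rw [e]
          exact (R₀ : Subgroup H).inv_mem (ha u) }
    have hCn : C.Normal := by
      refine ⟨fun v hv g u => ?_⟩
      have := hv (g⁻¹ * u)
      have e : (u : H)⁻¹ * ((g * v * g⁻¹ : U) : H) * u = (((g⁻¹ * u : U) : H))⁻¹ * v * ((g⁻¹ * u : U) : H) := by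
        simp only [Subgroup.coe_mul, Subgroup.coe_inv]; group
      rw [e]; exact this
    have hle : Y ≤ C := by
      apply Subgroup.normalClosure_le_normal
      rintro _ rfl u
      exact hxconj u u.2
    intro v hv
    have := hle hv 1
    simpa using this
  have hYp : IsPGroup p Y := by
    intro v
    obtain ⟨k, hk⟩ := R₀.isPGroup' ⟨(v : U), hYR v v.2⟩
    refine ⟨k, ?_⟩
    apply Subtype.ext
    apply Subtype.ext
    have := congrArg Subtype.val hk
    simpa using this
  have hY1 := normal_p_trivial hOp U Y hYp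
  have : (⟨x, hxU⟩ : U) ∈ Y := Subgroup.subset_normalClosure rfl
  rw [hY1, Subgroup.mem_bot] at this
  exact hx1 (congrArg Subtype.val this)

end aux

/-- Let H be a finite group with no nontrivial normal p-subgroup and no nontrivial normal subgroup of order prime to p, whose Sylow p-subgroup P is nontrivial and a trivial-intersection set (P meets its conjugates by elements outside N_H(P) trivially). Then H has a unique minimal normal subgroup N; N is non-abelian simple with trivial centralizer in H (so H embeds in Aut(N)), and a Sylow p-subgroup of N is again a nontrivial trivial-intersection set in N. -/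
theorem result {H : Type*} [Group H] [Finite H] (p : ℕ) [Fact p.Prime] (hOp : Cfsg.pCore p H = ⊥) (hOp' : Cfsg.pPrimeCore p H = ⊥) (P : Sylow p H) (hP1 : (P : Subgroup H) ≠ ⊥)
    (hTI : ∀ g : H, g ∉ Subgroup.normalizer ((P : Subgroup H) : Set H) → (P : Subgroup H) ⊓ (MulAut.conj g • (P : Subgroup H)) = ⊥) :
    ∃ N : Subgroup H, N.Normal ∧ N ≠ ⊥ ∧ (∀ K : Subgroup H, K.Normal → K ≠ ⊥ → N ≤ K) ∧
      IsSimpleGroup N ∧ ¬ IsMulCommutative N ∧ Subgroup.centralizer (N : Set H) = ⊥ ∧
      ∀ Q : Sylow p N, (Q : Subgroup N) ≠ ⊥ ∧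
        ∀ n : N, n ∉ Subgroup.normalizer ((Q : Subgroup N) : Set N) → (Q : Subgroup N) ⊓ (MulAut.conj n • (Q : Subgroup N)) = ⊥ := by
  classical
  -- divisibility
  have hdiv : ∀ (U : Subgroup H) [U.Normal] (K : Subgroup H), K ≤ U → U ≤ Subgroup.normalizer (K : Set H) → K ≠ ⊥ →
      p ∣ Nat.card K := by
    intro U hU K hKU hUK hK
    by_contra hnd
    have hcop : (Nat.card K).Coprime p :=
      ((Nat.Prime.coprime_iff_not_dvd (Fact.out : p.Prime)).2 hnd).symm
    have hn : (K.subgroupOf U).Normal := by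
      refine ⟨fun v hv g => ?_⟩
      exact (Subgroup.mem_normalizer_iff.1 (hUK g.2) v).1 hv
    have hc2 : (Nat.card (K.subgroupOf U)).Coprime p := by
      rw [show Nat.card (K.subgroupOf U) = Nat.card K from
        Nat.card_congr (Subgroup.subgroupOfEquivOfLe hKU).toEquiv]
      exact hcop
    have := normal_p'_trivial hOp' U _ hc2
    apply hK
    rw [eq_bot_iff]
    intro k hk
    have h2 : (⟨k, hKU hk⟩ : U) ∈ K.subgroupOf U := hk
    rw [this, Subgroup.mem_bot] at h2
    exact Subgroup.mem_bot.2 (congrArg Subtype.val h2)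
  haveI htop : (⊤ : Subgroup H).Normal := inferInstance
  -- the minimal normal subgroup
  have hne : ∃ K : Subgroup H, K.Normal ∧ K ≠ ⊥ :=
    ⟨⊤, htop, fun h => hP1 (le_bot_iff.1 (h ▸ le_top))⟩
  obtain ⟨K₀, hK₀⟩ := hne
  obtain ⟨N, -, hN⟩ := (Set.toFinite {K : Subgroup H | K.Normal ∧ K ≠ ⊥}).exists_le_minimal (a := K₀) hK₀
  obtain ⟨⟨hNn, hNb⟩, hNmin⟩ := hN
  haveI := hNn
  have hleast : ∀ K : Subgroup H, K.Normal → K ≠ ⊥ → N ≤ K := by
    intro K hK hKb
    have h1 : N ⊓ K ≠ ⊥ := by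
      intro h
      exact no_commuting hOp P hTI ⊤ N K le_top le_top
        (by haveI := hNn; rw [Subgroup.normalizer_eq_top]) (by haveI := hK; rw [Subgroup.normalizer_eq_top]) h
        (hdiv ⊤ N le_top (by haveI := hNn; rw [Subgroup.normalizer_eq_top]) hNb)
        (hdiv ⊤ K le_top (by haveI := hK; rw [Subgroup.normalizer_eq_top]) hKb)
    have h2 : N ⊓ K ∈ {K : Subgroup H | K.Normal ∧ K ≠ ⊥} := ⟨inferInstance, h1⟩
    exact (hNmin h2 inf_le_left).trans inf_le_right
  have hNorm : ∀ (A : Subgroup H), A ≤ N → N ≤ Subgroup.normalizer (A : Set H) → A ≠ ⊥ → p ∣ Nat.card A :=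
    fun A hA hNA hb => hdiv N A hA hNA hb
  have hpN : p ∣ Nat.card N := hNorm N le_rfl (by rw [Subgroup.normalizer_eq_top]; exact le_top) hNb
  -- simplicity
  have hsimple : IsSimpleGroup N := by
    haveI : Nontrivial N := (Subgroup.nontrivial_iff_ne_bot N).2 hNb
    refine ⟨fun M hM => ?_⟩
    by_cases hMb : M = ⊥
    · exact Or.inl hMb
    right
    set M' : Subgroup H := M.map N.subtype with hM'
    have hM'N : M' ≤ N := Subgroup.map_subtype_le M
    have hM'b : M' ≠ ⊥ := by
      intro h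
      apply hMb
      rw [hM', Subgroup.map_eq_bot_iff_of_injective _ N.subtype_injective] at h
      exact h
    have hM'n : N ≤ Subgroup.normalizer (M' : Set H) := by
      intro n hn
      rw [Subgroup.mem_normalizer_iff]
      intro x
      constructor
      · rintro ⟨m, hm, rfl⟩
        exact ⟨⟨n, hn⟩ * m * ⟨n, hn⟩⁻¹, hM.conj_mem m hm _, by simp⟩
      · rintro ⟨m, hm, hme⟩
        have h3 := hM.conj_mem m hm (⟨n, hn⟩⁻¹)
        refine ⟨_, h3, ?_⟩
        have h4 : n * x * n⁻¹ = (m : H) := hme.symm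
        have h5 : x = n⁻¹ * (m : H) * n := by rw [← h4]; group
        simp [h5]
    obtain ⟨A, hAM, hA⟩ := (Set.toFinite {A : Subgroup H | A ≠ ⊥ ∧ A ≤ N ∧ N ≤ Subgroup.normalizer (A : Set H)}).exists_le_minimal
      (a := M') (by
        exact ⟨hM'b, hM'N, hM'n⟩)
    obtain ⟨⟨hAb, hAN, hNA⟩, hAmin⟩ := hA
    -- `A` is normal in `H`
    have hAconj : ∀ g : H, A ≤ A.map (MulAut.conj g).toMonoidHom := by
      intro g
      set A' := A.map (MulAut.conj g).toMonoidHom with hA'
      have hA'N : A' ≤ N := by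
        rintro _ ⟨a, ha, rfl⟩
        exact hNn.conj_mem _ (hAN ha) g
      have hNA' : N ≤ Subgroup.normalizer (A' : Set H) := by
        intro n hn
        rw [Subgroup.mem_normalizer_iff]
        have key : ∀ (n : H), n ∈ N → ∀ x ∈ A', n * x * n⁻¹ ∈ A' := by
          rintro n hn _ ⟨a, ha, rfl⟩
          have h1 : g⁻¹ * n * g ∈ N := by
            have := hNn.conj_mem n hn g⁻¹
            simpa using this
          have h2 := (Subgroup.mem_normalizer_iff.1 (hNA h1) a).1 ha
          refine ⟨_, h2, ?_⟩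
          simp
          group
        intro x
        refine ⟨key n hn x, fun hx => ?_⟩
        have := key n⁻¹ (N.inv_mem hn) _ hx
        have e : n⁻¹ * (n * x * n⁻¹) * n⁻¹⁻¹ = x := by group
        rwa [e] at this
      have hA'b : A' ≠ ⊥ := by
        intro h
        apply hAb
        rw [hA', Subgroup.map_eq_bot_iff_of_injective _ (MulAut.conj g).injective] at h
        exact h
      have hinf : A ⊓ A' ≠ ⊥ := by
        intro h
        exact no_commuting hOp P hTI N A A' hAN hA'N hNA hNA' h (hNorm A hAN hNA hAb) (hNorm A' hA'N hNA' hA'b)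
      have h3 : A ⊓ A' ∈ {A : Subgroup H | A ≠ ⊥ ∧ A ≤ N ∧ N ≤ Subgroup.normalizer (A : Set H)} := by
        refine ⟨hinf, inf_le_left.trans hAN, ?_⟩
        intro n hn
        rw [Subgroup.mem_normalizer_iff]
        intro x
        have h5 := Subgroup.mem_normalizer_iff.1 (hNA hn) x
        have h6 := Subgroup.mem_normalizer_iff.1 (hNA' hn) x
        constructor
        · rintro ⟨h7, h8⟩
          exact ⟨h5.1 h7, h6.1 h8⟩
        · rintro ⟨h7, h8⟩
          exact ⟨h5.2 h7, h6.2 h8⟩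
      exact (hAmin h3 inf_le_left).trans inf_le_right
    have hAnorm : A.Normal := by
      refine ⟨fun a ha g => ?_⟩
      obtain ⟨b, hb, hbe⟩ := hAconj g⁻¹ ha
      have : (MulAut.conj g⁻¹).toMonoidHom b = g⁻¹ * b * g := by simp
      rw [this] at hbe
      have e : g * a * g⁻¹ = b := by rw [← hbe]; group
      rw [e]; exact hb
    have hNA2 : N ≤ A := hleast A hAnorm hAb
    rw [eq_top_iff]
    intro m _
    have h9 : (m : H) ∈ M' := hAM (hNA2 m.2)
    obtain ⟨m', hm', hme⟩ := h9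
    have : m' = m := Subtype.ext hme
    rwa [← this]
  -- non-abelian
  have hNnc : ¬ IsMulCommutative N := by
    intro hc
    let Q₀ : Sylow p N := default
    have hQb : (Q₀ : Subgroup N) ≠ ⊥ := Q₀.ne_bot_of_dvd_card hpN
    have hQn : (Q₀ : Subgroup N).Normal := by
      refine ⟨fun a ha g => ?_⟩
      have : g * a * g⁻¹ = a := by
        rw [hc.is_comm.comm g a]; group
      rw [this]; exact ha
    have hQt : (Q₀ : Subgroup N) = ⊤ := (hsimple.eq_bot_or_eq_top_of_normal _ hQn).resolve_left hQb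
    have hNp : IsPGroup p N := by
      have h1 := Q₀.isPGroup'
      rw [hQt] at h1
      intro v
      obtain ⟨k, hk⟩ := h1 ⟨v, Subgroup.mem_top v⟩
      exact ⟨k, congrArg Subtype.val hk⟩
    have h3 := CfsgLib.PLocal.le_pCore_of_normal N hNn hNp
    rw [hOp, le_bot_iff] at h3
    exact hNb h3
  refine ⟨N, hNn, hNb, hleast, hsimple, hNnc, ?_, ?_⟩
  · -- the centralizer
    by_contra hcb
    have h1 := hleast _ (Subgroup.normal_centralizer (H := N)) hcb
    apply hNnc
    refine ⟨⟨fun a b => ?_⟩⟩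
    have h2 := Subgroup.mem_centralizer_iff.1 (h1 a.2) b b.2
    exact Subtype.ext h2.symm
  · -- Sylow subgroups of `N`
    intro Q
    refine ⟨Q.ne_bot_of_dvd_card hpN, ?_⟩
    intro n hn
    obtain ⟨R, hR⟩ := ((Q.isPGroup').map N.subtype).exists_le_sylow
    have hQR : ∀ q : N, q ∈ (Q : Subgroup N) ↔ (q : H) ∈ (R : Subgroup H) := by
      intro q
      constructor
      · intro hq
        exact hR ⟨q, hq, rfl⟩
      · intro hq
        have hle : (Q : Subgroup N) ≤ (R : Subgroup H).subgroupOf N := by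
          intro v hv
          exact hR ⟨v, hv, rfl⟩
        have hpg : IsPGroup p ((R : Subgroup H).subgroupOf N) := by
          rintro ⟨v, hv⟩
          obtain ⟨k, hk⟩ := R.isPGroup' ⟨(v : H), hv⟩
          refine ⟨k, ?_⟩
          apply Subtype.ext
          apply Subtype.ext
          have := congrArg Subtype.val hk
          simpa using this
        have h1 := Q.is_maximal' hpg hle
        rw [← h1]
        exact hq
    rw [eq_bot_iff]
    rintro z ⟨hz1, w, hw, hzw⟩
    by_contra hz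
    have hz' : (z : H) ≠ 1 := fun h => hz (Subgroup.mem_bot.2 (Subtype.ext h))
    have hzw' : (n : H) * w * (n : H)⁻¹ = z := by
      have := congrArg Subtype.val hzw
      simpa using this
    have h1 : (z : H) ∈ (R : Subgroup H) := (hQR z).1 hz1
    have h2 : (z : H) ∈ (((n : H) • R : Sylow p H) : Subgroup H) := by
      rw [Sylow.coe_subgroup_smul]
      exact ⟨w, (hQR w).1 hw, hzw'⟩
    have h3 : (n : H) • R = R := ti_all P hTI _ _ _ hz' h2 h1
    rw [Sylow.smul_eq_iff_mem_normalizer] at h3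
    apply hn
    rw [Subgroup.mem_normalizer_iff]
    intro q
    have h4 := Subgroup.mem_normalizer_iff.1 h3 (q : H)
    rw [hQR q, hQR (n * q * n⁻¹)]
    simpa using h4

end Cfsg.Agent.S4620
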