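import Cfsg.Statements.S4743
import Cfsg.Agent.Lib.Char.Count

set_option autoImplicit false
open Cfsg

namespace Cfsg.Agent.S4743

/-- Let p ≠ q be primes dividing the order of the finite group G, suppose the centralizer of every non-identity p-element has order prime to q, and suppose G is p-solvable or q-solvable. Then G has an irreducible character of p-defect zero or an irreducible character of q-defect zero. -/
theorem result {G : Type*} [Group G] [Finite G] (p q : ℕ) [Fact p.Prime] [Fact q.Prime] (hppq : p ≠ q) (hpG : p ∣ Nat.card G) (hqG : q ∣ Nat.card G) (hC : ∀ g : G, g ≠ 1 → (∃ k : ℕ, orderOf g = p ^ k) → ¬ q ∣ Nat.card ↥(Subgroup.centralizer ({g} : Set G))) (hsolv : Cfsg.IsPSolvable p G ∨ Cfsg.IsPSolvable q G) : (∃ χ : Cfsg.IrrCharacter G, (Cfsg.charDegree (χ : G → ℂ)).factorization p = (Nat.card G).factorization p) ∨ (∃ χ : Cfsg.IrrCharacter G, (Cfsg.charDegree (χ : G → ℂ)).factorization q = (Nat.card G).factorization q) := by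
  classical
  cases nonempty_fintype G
  by_contra hcon
  push Not at hcon
  obtain ⟨h1, h2⟩ := hcon
  have hC' : ∀ g : G, g ≠ 1 → (∃ k : ℕ, orderOf g = q ^ k) → ¬ p ∣ Nat.card ↥(Subgroup.centralizer ({g} : Set G)) := by
    rintro g hg ⟨k, hk⟩ hd
    obtain ⟨u, hu⟩ := exists_prime_orderOf_dvd_card' p hd
    have hu0 : (u : G) ≠ 1 := by
      intro h0
      have : u = 1 := Subtype.ext h0
      rw [this, orderOf_one] at hu
      exact (Fact.out (p := p.Prime)).one_lt.ne hu
    have huo : orderOf (u : G) = p := by rw [Subgroup.orderOf_coe]; exact hu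
    have hzC : g ∈ Subgroup.centralizer ({(u : G)} : Set G) := by
      rw [Subgroup.mem_centralizer_singleton_iff]
      exact (Subgroup.mem_centralizer_singleton_iff.mp u.2).symm
    apply hC u hu0 ⟨1, by rw [huo, pow_one]⟩
    have h4 : q ∣ orderOf (⟨g, hzC⟩ : Subgroup.centralizer ({(u : G)} : Set G)) := by
      rw [Subgroup.orderOf_mk, hk]
      refine dvd_pow_self q ?_
      intro hk0
      rw [hk0, pow_zero, orderOf_eq_one_iff] at hk
      exact hg hk
    exact h4.trans (orderOf_dvd_natCard _)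
  have A1 := (CfsgLib.Char.defect_zero_or_products (p := p) (q := q) hC).resolve_left (fun ⟨χ, hχ⟩ => h1 χ hχ)
  have A2 := (CfsgLib.Char.defect_zero_or_products (p := q) (q := p) hC').resolve_left (fun ⟨χ, hχ⟩ => h2 χ hχ)
  -- a normal subgroup separating the primes is impossible
  have hsep : ∀ {r s : ℕ} [Fact r.Prime] [Fact s.Prime], (∀ z : G, z ≠ 1 → (∃ k : ℕ, orderOf z = s ^ k) → ∃ g h : G, IsConj z g ∧ IsConj z h ∧ g * h⁻¹ ≠ 1 ∧ ∃ k : ℕ, orderOf (g * h⁻¹) = r ^ k) → ∀ N : Subgroup G, N.Normal → s ∣ Nat.card N → r ∣ Nat.card N := by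
    intro r s _ _ A N hN hd
    obtain ⟨z, hz⟩ := exists_prime_orderOf_dvd_card' s hd
    have hz0 : (z : G) ≠ 1 := by
      intro h0
      have : z = 1 := Subtype.ext h0
      rw [this, orderOf_one] at hz
      exact (Fact.out (p := s.Prime)).one_lt.ne hz
    have hzo : orderOf (z : G) = s := by rw [Subgroup.orderOf_coe]; exact hz
    obtain ⟨g, h, hg, hh, hne, k, hk⟩ := A z hz0 ⟨1, by rw [hzo, pow_one]⟩
    have hgN : g ∈ N := by
      obtain ⟨c, rfl⟩ := isConj_iff.mp hg
      exact hN.conj_mem _ z.2 c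
    have hhN : h ∈ N := by
      obtain ⟨c, rfl⟩ := isConj_iff.mp hh
      exact hN.conj_mem _ z.2 c
    have hm : g * h⁻¹ ∈ N := N.mul_mem hgN (N.inv_mem hhN)
    have h4 : r ∣ orderOf (⟨g * h⁻¹, hm⟩ : N) := by
      rw [Subgroup.orderOf_mk, hk]
      refine dvd_pow_self r ?_
      intro hk0
      rw [hk0, pow_zero, orderOf_eq_one_iff] at hk
      exact hne hk
    exact h4.trans (orderOf_dvd_natCard _)
  have hp' := Fact.out (p := p.Prime)
  have hq' := Fact.out (p := q.Prime)
  rcases hsolv with hs | hs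
  · obtain ⟨N, hN, h3 | h3⟩ := CfsgLib.Char.exists_normal_sep hp' hq' hppq hs hpG hqG
    · exact h3.2 (hsep A2 N hN h3.1)
    · exact h3.2 (hsep A1 N hN h3.1)
  · obtain ⟨N, hN, h3 | h3⟩ := CfsgLib.Char.exists_normal_sep hq' hp' hppq.symm hs hqG hpG
    · exact h3.2 (hsep A1 N hN h3.1)
    · exact h3.2 (hsep A2 N hN h3.1)

end Cfsg.Agent.S4743
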