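import Cfsg.Statements.S4746
import Cfsg.Agent.Lib.Char.Count

set_option autoImplicit false
open Cfsg

namespace Cfsg.Agent.S4746

/-- Let p be an odd prime and G a finite group of even order divisible by p in which the centralizer of every non-identity p-element has odd order. Then G has an irreducible character of p-defect zero or an irreducible character of even degree. -/
theorem result {G : Type*} [Group G] [Finite G] (p : ℕ) [Fact p.Prime] (hp2 : p ≠ 2) (hpG : p ∣ Nat.card G) (h2G : 2 ∣ Nat.card G) (hC : ∀ g : G, g ≠ 1 → (∃ k : ℕ, orderOf g = p ^ k) → Odd (Nat.card ↥(Subgroup.centralizer ({g} : Set G)))) : (∃ χ : Cfsg.IrrCharacter G, (Cfsg.charDegree (χ : G → ℂ)).factorization p = (Nat.card G).factorization p) ∨ ∃ χ : Cfsg.IrrCharacter G, Even (Cfsg.charDegree (χ : G → ℂ)) := by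
  classical
  cases nonempty_fintype G
  by_contra hcon
  push Not at hcon
  obtain ⟨h1, h2⟩ := hcon
  have hq2 : Fact (Nat.Prime 2) := ⟨Nat.prime_two⟩
  have hC' : ∀ g : G, g ≠ 1 → (∃ k : ℕ, orderOf g = p ^ k) → ¬ 2 ∣ Nat.card ↥(Subgroup.centralizer ({g} : Set G)) := by
    intro g hg hk hd
    exact (Nat.not_even_iff_odd.mpr (hC g hg hk)) (even_iff_two_dvd.mpr hd)
  rcases CfsgLib.Char.defect_zero_or_products (p := p) (q := 2) hC' with ⟨χ, hχ⟩ | h3
  · exact h1 χ hχ
  obtain ⟨z, hz⟩ := exists_prime_orderOf_dvd_card' (G := G) 2 h2G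
  have hz1 : z ≠ 1 := by
    intro h0; rw [h0, orderOf_one] at hz; norm_num at hz
  obtain ⟨g, h, hg, hh, hne, k, hk⟩ := h3 z hz1 ⟨1, by rw [hz, pow_one]⟩
  have hz2 : z * z = 1 := by rw [← pow_two, ← hz]; exact pow_orderOf_eq_one z
  have hg2 : g⁻¹ = g := by
    obtain ⟨c, rfl⟩ := isConj_iff.mp hg
    have hx2 : z⁻¹ = z := inv_eq_of_mul_eq_one_left hz2
    simp only [mul_inv_rev, inv_inv, hx2, mul_assoc]
  have hh2 : h⁻¹ = h := by
    obtain ⟨c, rfl⟩ := isConj_iff.mp hh
    have hx2 : z⁻¹ = z := inv_eq_of_mul_eq_one_left hz2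
    simp only [mul_inv_rev, inv_inv, hx2, mul_assoc]
  have hreal : IsConj (g * h⁻¹) (g * h⁻¹)⁻¹ := by
    rw [isConj_iff]
    refine ⟨g, ?_⟩
    have hg3 : g * g = 1 := by
      have := mul_inv_cancel g
      rwa [hg2] at this
    simp only [hh2, mul_inv_rev, hg2]
    calc g * (g * h) * g = (g * g) * h * g := by group
      _ = h * g := by rw [hg3, one_mul]
  have hodd : ∀ ψ : Cfsg.IrrCharacter G, Odd (Cfsg.charDegree (ψ : G → ℂ)) := fun ψ =>
    Nat.not_even_iff_odd.mp (h2 ψ)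
  have h5 := CfsgLib.Char.even_centralizer_of_odd_degrees hne hreal hodd
  have h6 := hC (g * h⁻¹) hne ⟨k, hk⟩
  exact (Nat.not_even_iff_odd.mpr h6) h5

end Cfsg.Agent.S4746
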