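import Cfsg.Statements.S4801
import Cfsg.Agent.Lib.Char.Codegree
import Cfsg.Agent.Lib.Char.UniqueSing

set_option autoImplicit false
open Cfsg

namespace Cfsg.Agent.S4801

/-- The codegree of an irreducible complex character χ of a finite group G is [G : ker χ] / χ(1), where ker χ is the set of elements at which χ takes the value χ(1). Let S be a finite simple group and G a finite group such that every codegree of an irreducible character of S is a codegree of an irreducible character of G. Then the order of S divides the order of G. -/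
theorem result {S : Type*} [Group S] [Finite S] (hS : IsSimpleGroup S) {G : Type*} [Group G] [Finite G] (hsub : ∀ χ : Cfsg.IrrCharacter S, ∃ ψ : Cfsg.IrrCharacter G, (Nat.card S / (Nat.card {g : S // (χ : S → ℂ) g = (χ : S → ℂ) 1} * Cfsg.charDegree (χ : S → ℂ))) = (Nat.card G / (Nat.card {g : G // (ψ : G → ℂ) g = (ψ : G → ℂ) 1} * Cfsg.charDegree (ψ : G → ℂ)))) : Nat.card S ∣ Nat.card G := by
  classical
  letI : Fintype S := Fintype.ofFinite _
  letI : Fintype G := Fintype.ofFinite _
  have hcodG : ∀ ψ : Cfsg.IrrCharacter G, Nat.card G / (Nat.card {g : G // (ψ : G → ℂ) g = (ψ : G → ℂ) 1} * Cfsg.charDegree (ψ : G → ℂ)) ∣ Nat.card G := by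
    intro ψ
    obtain ⟨K, hKn, χ', d, -, -, hd, -, hdvd, hcard⟩ := CfsgLib.Char.exists_quot_data ψ
    rw [hcard, CfsgLib.Char.charDegree_eq hd, mul_comm]
    exact Nat.div_dvd_of_dvd hdvd
  let one : Cfsg.IrrCharacter S := ⟨fun _ => 1, CfsgLib.Char.isIrrCharacter_one⟩
  have hS' : ∀ χ : Cfsg.IrrCharacter S, χ ≠ one → Nat.card S / Cfsg.charDegree (χ : S → ℂ) ∣ Nat.card G := by
    intro χ hχ
    obtain ⟨K, hKn, χ', d, hirr, -, hd, hmem, hdvd, hcard⟩ := CfsgLib.Char.exists_quot_data χ
    haveI := hS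
    rcases hKn.eq_bot_or_eq_top with h | h
    · obtain ⟨ψ, hψ⟩ := hsub χ
      have hcard1 : Nat.card {g : S // (χ : S → ℂ) g = (χ : S → ℂ) 1} = 1 := by
        rw [hcard, h]
        simp
      rw [hcard1, one_mul] at hψ
      rw [hψ]
      exact hcodG ψ
    · exfalso
      apply hχ
      have hd1 : d = 1 := by
        rw [h, Subgroup.card_top] at hdvd
        have h1 := Nat.le_of_dvd Nat.card_pos hdvd
        have h2 : 0 < Nat.card S := Nat.card_pos
        have h3 : d ≠ 0 := by
          rintro rfl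
          exact χ.2.map_one_ne_zero (by simpa using hd)
        have h4 : d ≤ 1 := by
          by_contra hc
          have : 2 * Nat.card S ≤ d * Nat.card S := Nat.mul_le_mul_right _ (by omega)
          omega
        omega
      apply Subtype.ext
      funext g
      have h1 := (hmem g).2 (by rw [h]; exact Subgroup.mem_top g)
      rw [h1, hd, hd1]
      simp [one]
  refine (Nat.factorization_prime_le_iff_dvd Nat.card_pos.ne' Nat.card_pos.ne').1 ?_
  intro r hr
  by_cases hrS : r ∣ Nat.card S
  · have hex : ∃ χ : Cfsg.IrrCharacter S, χ ≠ one ∧ ¬ r ∣ Cfsg.charDegree (χ : S → ℂ) := by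
      by_contra hcon
      push Not at hcon
      have hsum := CfsgLib.Char.sum_deg_sq (G := S)
      have h1 : r ∣ ∑ ψ ∈ Finset.univ.erase one, (Cfsg.charDegree (ψ : S → ℂ)) ^ 2 :=
        Finset.dvd_sum fun ψ hψ => dvd_pow (hcon ψ (Finset.ne_of_mem_erase hψ)) two_ne_zero
      rw [← Finset.add_sum_erase _ _ (Finset.mem_univ one)] at hsum
      have h2 : Cfsg.charDegree (one : S → ℂ) = 1 := CfsgLib.Char.charDegree_eq (by simp [one])
      rw [h2] at hsum
      rw [← hsum] at hrS
      have h3 : r ∣ 1 ^ 2 := (Nat.dvd_add_left h1).1 hrS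
      have h4 : r ∣ 1 := by simpa using h3
      exact hr.one_lt.ne' (Nat.dvd_one.1 h4)
    obtain ⟨χ, hχ, hr'⟩ := hex
    have h1 := hS' χ hχ
    have hd := CfsgLib.Char.charDegree_dvd χ
    have h2 : Nat.card S = Cfsg.charDegree (χ : S → ℂ) * (Nat.card S / Cfsg.charDegree (χ : S → ℂ)) := (Nat.mul_div_cancel' hd).symm
    have hne1 : Cfsg.charDegree (χ : S → ℂ) ≠ 0 := fun h0 => Nat.card_pos.ne' (Nat.eq_zero_of_zero_dvd (h0 ▸ hd))
    have hne2 : Nat.card S / Cfsg.charDegree (χ : S → ℂ) ≠ 0 := by
      intro h0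
      rw [h0, mul_zero] at h2
      exact Nat.card_pos.ne' h2
    have hv : (Nat.card S).factorization r = (Nat.card S / Cfsg.charDegree (χ : S → ℂ)).factorization r := by
      conv_lhs => rw [h2]
      rw [Nat.factorization_mul hne1 hne2, Finsupp.add_apply, Nat.factorization_eq_zero_of_not_dvd hr', zero_add]
    rw [hv]
    exact (Nat.factorization_le_iff_dvd hne2 Nat.card_pos.ne').2 h1 r
  · rw [Nat.factorization_eq_zero_of_not_dvd hrS]
    exact Nat.zero_le _

end Cfsg.Agent.S4801
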