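import Cfsg.Statements.S4814
import Cfsg.Agent.Lib.Char.Sums2

set_option autoImplicit false
open Cfsg

namespace Cfsg.Agent.S4814

/-- Let G be a finite group such that the sum, over the irreducible complex characters χ of G, of 1/χ(1)² is less than 2. Then every element of G is a product of two commutators. -/
theorem result {G : Type*} [Group G] [Finite G]
    (h : ∑ᶠ χ : Cfsg.IrrCharacter G, 1 / ‖(χ : G → ℂ) 1‖ ^ 2 < (2 : ℝ)) (g : G) :
    ∃ a b c d : G, (a * b * a⁻¹ * b⁻¹) * (c * d * c⁻¹ * d⁻¹) = g := by
  cases nonempty_fintype G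
  rw [finsum_eq_sum_of_fintype] at h
  exact CfsgLib.Char.product_two_commutators h g

end Cfsg.Agent.S4814
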