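import Cfsg.Statements.S4870
import Cfsg.Agent.Lib.Char.MinNormal

set_option autoImplicit false
open Cfsg

namespace Cfsg.Agent.S4870

/-- Let G be a finite group with a non-abelian minimal normal subgroup N, and let φ be an irreducible complex character of N with stabilizer I in G (the elements g with φ(g n g⁻¹) = φ(n) for all n ∈ N) such that φ extends to an irreducible character of I. Put d = φ(1)·[G : I]. Then the number of linear characters of G is at most [G : I] times the number of irreducible characters of G of degree d. -/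
theorem result {G : Type*} [Group G] [Finite G] (N : Subgroup G) (hN : N.Normal) (hN1 : N ≠ ⊥) (hmin : ∀ M : Subgroup G, M.Normal → M ≤ N → M = ⊥ ∨ M = N) (hna : ¬ IsMulCommutative ↥N) (φ : Cfsg.IrrCharacter ↥N) (I : Subgroup G) (hI : ∀ g : G, g ∈ I ↔ ∀ n n' : ↥N, (n' : G) = g * (n : G) * g⁻¹ → (φ : ↥N → ℂ) n' = (φ : ↥N → ℂ) n) (hNI : N ≤ I) (hext : ∃ ψ : Cfsg.IrrCharacter ↥I, ∀ n : ↥N, (ψ : ↥I → ℂ) (Subgroup.inclusion hNI n) = (φ : ↥N → ℂ) n) : Nat.card {χ : Cfsg.IrrCharacter G // Cfsg.charDegree (χ : G → ℂ) = 1} ≤ I.index * Nat.card {χ : Cfsg.IrrCharacter G // Cfsg.charDegree (χ : G → ℂ) = Cfsg.charDegree (φ : ↥N → ℂ) * I.index} := by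
  classical
  cases nonempty_fintype G
  haveI := hN
  letI : Fintype N := Fintype.ofFinite _
  letI : Fintype I := Fintype.ofFinite _
  obtain ⟨ψ, hψ⟩ := hext
  have hI' : ∀ g : G, g ∈ I ↔ CfsgLib.Char.conjOn N g φ = φ := by
    intro g
    rw [hI]
    constructor
    · intro h
      funext n
      exact h n ⟨g * n * g⁻¹, hN.conj_mem n n.2 g⟩ rfl
    · intro h n n' hn'
      have h1 := congrFun h n
      rw [CfsgLib.Char.conjOn_apply] at h1
      rw [← h1]
      exact congrArg _ (Subtype.ext hn')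
  have h := CfsgLib.Char.linear_count_gen N φ I hI' hNI ψ hψ
    (CfsgLib.Char.hom_trivial_of_minimal hN hmin hna) (fun _ => True) (fun _ => True) (fun _ _ _ => trivial)
  have h1 : ∀ P : Cfsg.IrrCharacter G → Prop, Nat.card {χ : Cfsg.IrrCharacter G // P χ ∧ True} = Nat.card {χ : Cfsg.IrrCharacter G // P χ} := by
    intro P
    exact Nat.card_congr (Equiv.subtypeEquivRight fun χ => by simp)
  rw [h1, h1] at h
  exact h

end Cfsg.Agent.S4870
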