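import Cfsg.Statements.S4873
import Cfsg.Agent.Lib.Char.RealOver

set_option autoImplicit false
open Cfsg

namespace Cfsg.Agent.S4873

/-- Let N be a normal subgroup of odd index in the finite group G. Then every irreducible complex character of N with Frobenius–Schur indicator +1 lies under exactly one irreducible character of G with Frobenius–Schur indicator +1. -/
theorem result {G : Type*} [Group G] [Finite G] (N : Subgroup G) [N.Normal] (hodd : Odd N.index) (φ : Cfsg.IrrCharacter ↥N) (hφ : (Nat.card ↥N : ℂ)⁻¹ * ∑ᶠ g : ↥N, (φ : ↥N → ℂ) (g * g) = 1) : ∃! χ : Cfsg.IrrCharacter G, (Nat.card G : ℂ)⁻¹ * ∑ᶠ g : G, (χ : G → ℂ) (g * g) = 1 ∧ (∑ᶠ n : ↥N, (χ : G → ℂ) n * (starRingEnd ℂ) ((φ : ↥N → ℂ) n)) ≠ 0 := by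
  classical
  cases nonempty_fintype G
  letI : Fintype N := Fintype.ofFinite _
  rw [finsum_eq_sum_of_fintype] at hφ
  obtain ⟨χ₀, ⟨h1, h2⟩, h3⟩ := CfsgLib.Char.exists_unique_indicator_one N hodd φ.2 hφ
  have hconv : ∀ χ : Cfsg.IrrCharacter G, (∑ᶠ n : ↥N, (χ : G → ℂ) n * (starRingEnd ℂ) ((φ : ↥N → ℂ) n)) ≠ 0 ↔
      Cfsg.classInner (fun n : N => (χ : G → ℂ) n) φ ≠ 0 := by
    intro χ
    rw [finsum_eq_sum_of_fintype, Cfsg.classInner]
    have hN0 : (Nat.card N : ℂ)⁻¹ ≠ 0 := inv_ne_zero (CfsgLib.Char.card_ne_zero_C N)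
    constructor
    · intro h
      exact mul_ne_zero hN0 h
    · intro h h0
      rw [h0, mul_zero] at h
      exact h rfl
  refine ⟨χ₀, ⟨?_, (hconv χ₀).mpr h2⟩, ?_⟩
  · rw [finsum_eq_sum_of_fintype]
    exact h1
  · rintro χ ⟨h4, h5⟩
    rw [finsum_eq_sum_of_fintype] at h4
    exact h3 χ ⟨h4, (hconv χ).mp h5⟩

end Cfsg.Agent.S4873
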