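import Cfsg.Statements.S4911
import Cfsg.Agent.Lib.Char.GlaubReal

set_option autoImplicit false
open Cfsg

namespace Cfsg.Agent.S4911

/-- Let P and K be subgroups of a finite group with P a p-group normalizing K and K of order prime to p. Then the number of P-invariant real-valued irreducible complex characters of K equals the number of conjugacy classes of K that are real (closed under inversion) and P-invariant. Moreover, if every real-valued irreducible character of K is P-invariant, then every real element of K (one conjugate in K to its inverse) is conjugate in K to an element centralized by P. -/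
theorem result {G : Type*} [Group G] [Finite G] (p : ℕ) [Fact p.Prime] (P K : Subgroup G) (hP : IsPGroup p ↥P) (hK : ¬ p ∣ Nat.card ↥K) (hPK : P ≤ Subgroup.normalizer (K : Set G)) : Nat.card {θ : Cfsg.IrrCharacter ↥K // (∀ k : ↥K, ((θ : ↥K → ℂ) k).im = 0) ∧ (∀ x ∈ P, ∀ k k' : ↥K, (k' : G) = x * (k : G) * x⁻¹ → (θ : ↥K → ℂ) k' = (θ : ↥K → ℂ) k)} = Nat.card {c : ConjClasses ↥K // (∀ k : ↥K, ConjClasses.mk k = c → IsConj k k⁻¹) ∧ ∀ k : ↥K, ConjClasses.mk k = c → ∀ x ∈ P, ∀ k' : ↥K, (k' : G) = x * (k : G) * x⁻¹ → ConjClasses.mk k' = c} ∧ ((∀ θ : Cfsg.IrrCharacter ↥K, (∀ k : ↥K, ((θ : ↥K → ℂ) k).im = 0) → (∀ x ∈ P, ∀ k k' : ↥K, (k' : G) = x * (k : G) * x⁻¹ → (θ : ↥K → ℂ) k' = (θ : ↥K → ℂ) k)) → ∀ k : ↥K, IsConj k k⁻¹ → ∃ k' : ↥K, IsConj k k' ∧ ∀ x ∈ P, x * (k' : G) * x⁻¹ = (k' : G)) := by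
  classical
  have hcop : (Nat.card K).Coprime (Nat.card P) := by
    obtain ⟨a, ha⟩ := IsPGroup.iff_card.mp hP
    rw [ha]
    exact Nat.Coprime.pow_right _ ((Nat.Prime.coprime_iff_not_dvd (Fact.out)).mpr hK).symm
  haveI : Group.IsNilpotent P := hP.isNilpotent
  have hsolv : Group.IsSolvable P := inferInstance
  have hA : CfsgLib.Char.GP.Act P K := ⟨fun s hs => hPK hs, hcop⟩
  have hPH : CfsgLib.Char.GP.PHyp P K p := CfsgLib.Char.GP.phyp_of_pgroup hP hcop hPK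
  have hp : p.Prime := Fact.out
  have main : Nat.card {θ : Cfsg.IrrCharacter ↥K // (∀ k : ↥K, ((θ : ↥K → ℂ) k).im = 0) ∧ (∀ x ∈ P, ∀ k k' : ↥K, (k' : G) = x * (k : G) * x⁻¹ → (θ : ↥K → ℂ) k' = (θ : ↥K → ℂ) k)} = Nat.card {c : ConjClasses ↥K // (∀ k : ↥K, ConjClasses.mk k = c → IsConj k k⁻¹) ∧ ∀ k : ↥K, ConjClasses.mk k = c → ∀ x ∈ P, ∀ k' : ↥K, (k' : G) = x * (k : G) * x⁻¹ → ConjClasses.mk k' = c} := by
    have h1 := CfsgLib.Char.GP.card_real_inv_eq hp hPH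
    have h2 := CfsgLib.Char.GP.card_real_inv_classes_eq hA hsolv
    letI : Fintype (↥(K ⊓ Subgroup.centralizer (P : Set G))) := Fintype.ofFinite _
    have h3 := CfsgLib.Char.card_real_irr_eq_card_real_classes (G := ↥(K ⊓ Subgroup.centralizer (P : Set G)))
    exact h1.trans (h3.trans h2.symm)
  refine ⟨main, ?_⟩
  intro H k hk
  letI : Fintype K := Fintype.ofFinite _
  have h4 := CfsgLib.Char.card_real_irr_eq_card_real_classes (G := ↥K)
  have h5 : Nat.card {θ : Cfsg.IrrCharacter ↥K // ∀ k : ↥K, ((θ : ↥K → ℂ) k).im = 0} = Nat.card {θ : Cfsg.IrrCharacter ↥K // (∀ k : ↥K, ((θ : ↥K → ℂ) k).im = 0) ∧ (∀ x ∈ P, ∀ k k' : ↥K, (k' : G) = x * (k : G) * x⁻¹ → (θ : ↥K → ℂ) k' = (θ : ↥K → ℂ) k)} :=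
    Nat.card_congr (Equiv.subtypeEquivRight fun θ => ⟨fun h => ⟨h, H θ h⟩, fun h => h.1⟩)
  have h6 := h4.symm.trans (h5.trans main)
  -- the inclusion of invariant real classes into real classes is a bijection
  let ι : {c : ConjClasses ↥K // (∀ k : ↥K, ConjClasses.mk k = c → IsConj k k⁻¹) ∧ ∀ k : ↥K, ConjClasses.mk k = c → ∀ x ∈ P, ∀ k' : ↥K, (k' : G) = x * (k : G) * x⁻¹ → ConjClasses.mk k' = c} →
      {c : ConjClasses ↥K // ∀ k : ↥K, ConjClasses.mk k = c → IsConj k k⁻¹} := fun c => ⟨c.1, c.2.1⟩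
  have hinj : Function.Injective ι := by
    intro a b hab
    apply Subtype.ext
    exact congrArg (fun z : {c : ConjClasses ↥K // ∀ k : ↥K, ConjClasses.mk k = c → IsConj k k⁻¹} => z.1) hab
  have hbij : Function.Bijective ι := by
    apply (Function.Injective.bijective_of_nat_card_le hinj)
    exact h6.le
  have hmem : ∀ g : ↥K, ConjClasses.mk g = ConjClasses.mk k → IsConj g g⁻¹ := by
    intro g hg
    have h1 : IsConj g k := ConjClasses.mk_eq_mk_iff_isConj.mp hg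
    exact h1.trans (hk.trans (CfsgLib.Char.GP.isConj_inv' h1).symm)
  obtain ⟨⟨c, hc1, hc2⟩, hc⟩ := hbij.2 ⟨ConjClasses.mk k, hmem⟩
  have hcc : c = ConjClasses.mk k := congrArg Subtype.val hc
  subst hcc
  have hconjG : ∀ s ∈ P, ∀ g ∈ K, s * g * s⁻¹ ∈ K := fun s hs g hg =>
    (Subgroup.mem_normalizer_iff.mp (hPK hs) g).mp hg
  obtain ⟨y, hy, hyfix⟩ := CfsgLib.Char.GP.exists_fixed_in_class hA hsolv k (by
    intro s hs
    have h1 := hc2 k rfl s hs ⟨s * k * s⁻¹, hconjG s hs k k.2⟩ rfl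
    have h2 : IsConj k (⟨s * k * s⁻¹, hconjG s hs k k.2⟩ : K) := (ConjClasses.mk_eq_mk_iff_isConj.mp h1).symm
    obtain ⟨x, hx⟩ := isConj_iff.mp h2
    exact ⟨x, x.2, congrArg Subtype.val hx⟩)
  refine ⟨⟨y * k * y⁻¹, K.mul_mem (K.mul_mem hy k.2) (K.inv_mem hy)⟩, ?_, fun x hx => hyfix x hx⟩
  exact isConj_iff.mpr ⟨⟨y, hy⟩, Subtype.ext rfl⟩

end Cfsg.Agent.S4911
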