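import Cfsg.Statements.S4912
import Cfsg.Agent.Lib.Char.IndFS

set_option autoImplicit false
open Cfsg

namespace Cfsg.Agent.S4912

/-- Let G be a finite group with a non-abelian minimal normal subgroup N, and let φ be an irreducible complex character of N with stabilizer I in G such that φ extends to an irreducible character of I with Frobenius–Schur indicator +1. Put d = φ(1)·[G : I]. Then the number of linear characters of G with Frobenius–Schur indicator +1 is at most [G : I] times the number of irreducible characters of G of degree d with Frobenius–Schur indicator +1. -/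
theorem result {G : Type*} [Group G] [Finite G] (N : Subgroup G) (hN : N.Normal) (hN1 : N ≠ ⊥) (hmin : ∀ M : Subgroup G, M.Normal → M ≤ N → M = ⊥ ∨ M = N) (hna : ¬ IsMulCommutative ↥N) (φ : Cfsg.IrrCharacter ↥N) (I : Subgroup G) (hI : ∀ g : G, g ∈ I ↔ ∀ n n' : ↥N, (n' : G) = g * (n : G) * g⁻¹ → (φ : ↥N → ℂ) n' = (φ : ↥N → ℂ) n) (hNI : N ≤ I) (hext : ∃ ψ : Cfsg.IrrCharacter ↥I, (Nat.card ↥I : ℂ)⁻¹ * ∑ᶠ g : ↥I, (ψ : ↥I → ℂ) (g * g) = 1 ∧ ∀ n : ↥N, (ψ : ↥I → ℂ) (Subgroup.inclusion hNI n) = (φ : ↥N → ℂ) n) : Nat.card {χ : Cfsg.IrrCharacter G // Cfsg.charDegree (χ : G → ℂ) = 1 ∧ (Nat.card G : ℂ)⁻¹ * ∑ᶠ g : G, (χ : G → ℂ) (g * g) = 1} ≤ I.index * Nat.card {χ : Cfsg.IrrCharacter G // Cfsg.charDegree (χ : G → ℂ) = Cfsg.charDegree (φ : ↥N → ℂ) * I.index ∧ (Nat.card G : ℂ)⁻¹ * ∑ᶠ g : G, (χ : G → ℂ) (g * g) = 1} := by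
  classical
  cases nonempty_fintype G
  haveI := hN
  letI : Fintype N := Fintype.ofFinite _
  letI : Fintype I := Fintype.ofFinite _
  obtain ⟨ψ, hψν, hψ⟩ := hext
  have hψν' : (Nat.card I : ℂ)⁻¹ * ∑ g : I, (ψ : I → ℂ) (g * g) = 1 := by
    rw [← finsum_eq_sum_of_fintype]
    exact hψν
  have hI' : ∀ g : G, g ∈ I ↔ CfsgLib.Char.conjOn N g φ = φ := by
    intro g
    rw [hI]
    constructor
    · intro h
      funext n
      exact h n ⟨g * n * g⁻¹, hN.conj_mem n n.2 g⟩ rfl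
    · intro h n n' hn'
      have h1 := congrFun h n
      rw [CfsgLib.Char.conjOn_apply] at h1
      rw [← h1]
      exact congrArg _ (Subtype.ext hn')
  have hψreal : ∀ s, ((ψ : I → ℂ) s).im = 0 := by
    intro s
    by_contra hs
    have h2 := (CfsgLib.Char.fs_trichotomy ψ.2).2.mpr ⟨s, hs⟩
    rw [hψν'] at h2
    exact one_ne_zero h2
  have hreal : ∀ n : N, ((φ : N → ℂ) n).im = 0 := by
    intro n
    rw [← hψ n]
    exact hψreal _
  refine CfsgLib.Char.linear_count_gen N φ I hI' hNI ψ hψ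
    (CfsgLib.Char.hom_trivial_of_minimal hN hmin hna)
    (fun χ => (Nat.card G : ℂ)⁻¹ * ∑ᶠ g : G, (χ : G → ℂ) (g * g) = 1)
    (fun χ => (Nat.card G : ℂ)⁻¹ * ∑ᶠ g : G, (χ : G → ℂ) (g * g) = 1) ?_
  intro l hl h
  have hl' : (Nat.card G : ℂ)⁻¹ * ∑ g : G, ((l (g * g) : ℂˣ) : ℂ) = 1 := by
    rw [← finsum_eq_sum_of_fintype]
    exact hl
  have hlreal : ∀ s, (((l s : ℂˣ) : ℂ)).im = 0 := by
    intro s
    by_contra hs
    have h2 := (CfsgLib.Char.fs_trichotomy (CfsgLib.Char.isIrr_of_hom l)).2.mpr ⟨s, hs⟩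
    rw [hl'] at h2
    exact one_ne_zero h2
  have hlsq : ∀ g, l (g * g) = 1 := by
    intro g
    have h3 := (CfsgLib.Char.isIrr_of_hom l).map_inv g
    have h4 : (starRingEnd ℂ) ((l g : ℂˣ) : ℂ) = ((l g : ℂˣ) : ℂ) := Complex.conj_eq_iff_im.mpr (hlreal g)
    rw [h4] at h3
    have h5 : l g⁻¹ = l g := Units.ext h3
    rw [map_mul]
    nth_rewrite 1 [← h5]
    rw [← map_mul, inv_mul_cancel, map_one]
  show (Nat.card G : ℂ)⁻¹ * ∑ᶠ g : G, _ = 1
  rw [finsum_eq_sum_of_fintype]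
  have hθ : Cfsg.IsCharacter I ((fun i : I => ((l i : ℂˣ) : ℂ)) * (ψ : I → ℂ)) :=
    (CfsgLib.Char.isIrr_hom_mul (l.comp I.subtype) ψ.2).isCharacter
  have hlN := CfsgLib.Char.hom_trivial_of_minimal hN hmin hna l
  have h6 := CfsgLib.Char.indicator_indFun N I hNI φ.2 hreal
    (fun g hg hc => hg ((hI' g).mpr hc)) hθ (fun n => by
      show ((l n : ℂˣ) : ℂ) * (ψ : I → ℂ) ⟨n, hNI n.2⟩ = (φ : N → ℂ) n
      rw [hlN n n.2]
      have := hψ n
      simp only [Units.val_one, one_mul]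
      exact this)
  refine Eq.trans h6 (Eq.trans ?_ hψν')
  congr 1
  refine Finset.sum_congr rfl fun i _ => ?_
  show ((l ((i * i : I) : G) : ℂˣ) : ℂ) * (ψ : I → ℂ) (i * i) = (ψ : I → ℂ) (i * i)
  have h7 := hlsq (i : G)
  rw [Subgroup.coe_mul, h7]
  simp

end Cfsg.Agent.S4912
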