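import Cfsg.Statements.S5011
import Mathlib

set_option autoImplicit false

namespace Cfsg.Agent.S5011

/-- Let G be a finite non-abelian simple group and ρ an irreducible complex representation of G on a space of dimension greater than one (irreducible in the sense that the only subspaces invariant under every ρ(x) are 0 and the whole space). Then for every non-identity element g of G, the centralizer of g does not act irreducibly: there is a non-zero proper subspace invariant under ρ(c) for every c commuting with g. -/
theorem result {G : Type*} [Group G] [Finite G] [IsSimpleGroup G]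
    (hG : ¬ IsMulCommutative G) {V : Type*} [AddCommGroup V] [Module ℂ V] [FiniteDimensional ℂ V]
    (ρ : Representation ℂ G V)
    (hirr : ∀ W : Submodule ℂ V, (∀ x : G, ∀ v ∈ W, ρ x v ∈ W) → W = ⊥ ∨ W = ⊤)
    (hdim : 1 < Module.finrank ℂ V) (g : G) (hg : g ≠ 1) :
    ∃ W : Submodule ℂ V, W ≠ ⊥ ∧ W ≠ ⊤ ∧ ∀ c ∈ Subgroup.centralizer ({g} : Set G), ∀ v ∈ W, ρ c v ∈ W := by
  classical
  haveI : Nontrivial V := Module.nontrivial_of_finrank_pos (R := ℂ) (by omega)
  obtain ⟨μ, hμ⟩ := Module.End.exists_eigenvalue (ρ g)
  let W := Module.End.eigenspace (ρ g) μ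
  have hW0 : W ≠ ⊥ := hμ
  have hinv : ∀ c ∈ Subgroup.centralizer ({g} : Set G), ∀ v ∈ W, ρ c v ∈ W := by
    intro c hc v hv
    have hv' : ρ g v = μ • v := Module.End.mem_eigenspace_iff.1 hv
    rw [Module.End.mem_eigenspace_iff]
    have hcg : g * c = c * g := (Subgroup.mem_centralizer_iff.1 hc g rfl)
    have : ρ g (ρ c v) = ρ c (ρ g v) := by
      rw [← Module.End.mul_apply, ← map_mul, hcg, map_mul, Module.End.mul_apply]
    rw [this, hv', map_smul]
  by_cases hWtop : W = ⊤
  · exfalso
    have hscalar : ∀ v, ρ g v = μ • v := by
      intro v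
      have : v ∈ W := by rw [hWtop]; trivial
      exact Module.End.mem_eigenspace_iff.1 this
    -- the kernel
    let K : Subgroup G :=
      { carrier := {x | ρ x = 1}
        mul_mem' := by
          intro a b ha hb
          simp only [Set.mem_setOf_eq] at ha hb ⊢
          rw [map_mul, ha, hb, one_mul]
        one_mem' := by simp
        inv_mem' := by
          intro a ha
          simp only [Set.mem_setOf_eq] at ha ⊢
          have : ρ (a⁻¹ * a) = ρ a⁻¹ := by rw [map_mul, ha, mul_one]
          rw [← this]; simp }
    have hKn : K.Normal := by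
      constructor
      intro n hn x
      show ρ (x * n * x⁻¹) = 1
      have hn' : ρ n = 1 := hn
      rw [map_mul, map_mul, hn', mul_one, ← map_mul, mul_inv_cancel, map_one]
    rcases IsSimpleGroup.eq_bot_or_eq_top_of_normal K hKn with hK | hK
    · -- ρ injective
      have hinj : ∀ x y : G, ρ x = ρ y → x = y := by
        intro x y h
        have : x⁻¹ * y ∈ K := by
          show ρ (x⁻¹ * y) = 1
          rw [map_mul, ← h, ← map_mul, inv_mul_cancel, map_one]
        rw [hK] at this
        exact (inv_mul_eq_one.1 (Subgroup.mem_bot.1 this))
      have hcentral : g ∈ Subgroup.center G := by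
        rw [Subgroup.mem_center_iff]
        intro h
        apply hinj
        ext v
        rw [map_mul, map_mul, Module.End.mul_apply, Module.End.mul_apply, hscalar, hscalar, map_smul]
      rcases IsSimpleGroup.eq_bot_or_eq_top_of_normal (Subgroup.center G) inferInstance with hc | hc
      · rw [hc] at hcentral
        exact hg (Subgroup.mem_bot.1 hcentral)
      · apply hG
        refine ⟨⟨fun a b => ?_⟩⟩
        have : a ∈ Subgroup.center G := by rw [hc]; trivial
        exact (Subgroup.mem_center_iff.1 this b).symm
    · -- ρ trivial
      have htriv : ∀ x v, ρ x v = v := by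
        intro x v
        have : x ∈ K := by rw [hK]; trivial
        have h1 : ρ x = 1 := this
        rw [h1]; rfl
      obtain ⟨v, hv⟩ := exists_ne (0 : V)
      have := hirr (Submodule.span ℂ {v}) (fun x u hu => by rw [htriv]; exact hu)
      rcases this with h | h
      · exact hv (Submodule.span_singleton_eq_bot.1 h)
      · have h2 : Module.finrank ℂ (Submodule.span ℂ {v}) = 1 := finrank_span_singleton hv
        rw [h, finrank_top] at h2
        omega
  · exact ⟨W, hW0, hWtop, hinv⟩

end Cfsg.Agent.S5011
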