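import Cfsg.Statements.S5196
import Cfsg.Agent.Lib.MX.Cen3

set_option autoImplicit false
universe u
open Cfsg

namespace Cfsg.Agent.S5196

/-- Let p be an odd prime and W a positive characteristic p-functor: W assigns to every finite p-group Q (in a fixed universe) a subgroup W(Q), nontrivial when Q is, carried to W(R) by every isomorphism Q ≅ R; assume also Z(Q) ≤ W(Q) for every finite p-group Q. Suppose W satisfies the local condition: for every finite group G with Sylow p-subgroup P, O_p(G) ∩ Z(G) = O_p(G) ∩ Z(N_G(W(P))). Then W controls weak closure of elements in every saturated fusion system F over a finite p-group S: the centre of the normalizer fusion system of W(S) in F equals the centre of F. (For p = 2 no functor satisfies the local condition, so p is taken odd.) -/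
theorem result {p : ℕ} [Fact p.Prime] (hp : p ≠ 2) (W : ∀ (Q : Type u) [Group Q], Subgroup Q) (hW1 : ∀ (Q : Type u) [Group Q] [Finite Q], IsPGroup p Q → Nontrivial Q → W Q ≠ ⊥) (hW2 : ∀ (Q R : Type u) [Group Q] [Group R] [Finite Q], IsPGroup p Q → ∀ φ : Q ≃* R, (W Q).map φ.toMonoidHom = W R) (hWZ : ∀ (Q : Type u) [Group Q] [Finite Q], IsPGroup p Q → Subgroup.center Q ≤ W Q) (hC : ∀ (G : Type u) [Group G] [Finite G] (P : Sylow p G), Cfsg.pCore p G ⊓ Subgroup.center G = Cfsg.pCore p G ⊓ (Subgroup.center ↥(Subgroup.normalizer (((W ↥(P : Subgroup G)).map (P : Subgroup G).subtype : Subgroup G) : Set G))).map (Subgroup.normalizer (((W ↥(P : Subgroup G)).map (P : Subgroup G).subtype : Subgroup G) : Set G)).subtype) {Ω : Type u} [Group Ω] {S : Subgroup Ω} [Finite S] (hS : IsPGroup p S) (F : Cfsg.FusionSystem S) (hF : F.IsSaturated p) (N : Cfsg.FusionSystem (Cfsg.FusionSystem.normalizerIn S ((W ↥S).map S.subtype))) (hN : F.IsNormalizerSystem ((W ↥S).map S.subtype) N) : N.center = F.center := by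
  have hG : CfsgLib.MX.GFun p W := ⟨hW1, hW2⟩
  refine CfsgLib.MX.center_eq_of_loc hG hWZ ?_ hS F hF N hN
  intro L _ _ T v hvT hvc hCL hfx
  have hvcore : v ∈ pCore p L := by
    refine hCL (Subgroup.mem_centralizer_iff.mpr fun y hy => ?_)
    have hyT : y ∈ (T : Subgroup L) := CfsgLib.PLocal.pCore_le_sylow T hy
    have h := hvc y hyT
    calc y * v = y * v * y⁻¹ * y := by group
      _ = v * y := by rw [h]
  have hvN := CfsgLib.MX.le_normalizer_WS hG (T := (T : Subgroup L)) T.isPGroup' hvT
  have hvcN : (⟨v, hvN⟩ : ↥(Subgroup.normalizer (((W ↥(T : Subgroup L)).map (T : Subgroup L).subtype : Subgroup L) : Set L))) ∈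
      Subgroup.center ↥(Subgroup.normalizer (((W ↥(T : Subgroup L)).map (T : Subgroup L).subtype : Subgroup L) : Set L)) := by
    rw [Subgroup.mem_center_iff]
    rintro ⟨g, hg⟩
    apply Subtype.ext
    have h := hfx g hg
    rw [pow_one] at h
    calc g * v = g * v * g⁻¹ * g := by group
      _ = v * g := by rw [h]
  have h2 := hC L T
  have h3 : v ∈ pCore p L ⊓ (Subgroup.center ↥(Subgroup.normalizer (((W ↥(T : Subgroup L)).map (T : Subgroup L).subtype : Subgroup L) : Set L))).map (Subgroup.normalizer (((W ↥(T : Subgroup L)).map (T : Subgroup L).subtype : Subgroup L) : Set L)).subtype :=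
    ⟨hvcore, ⟨v, hvN⟩, hvcN, rfl⟩
  rw [← h2] at h3
  rw [pow_one]
  exact h3.2

end Cfsg.Agent.S5196
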