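import Cfsg.Statements.S5276
import Cfsg.Agent.Lib.MX.Bis9

set_option autoImplicit false
open Cfsg

namespace Cfsg.Agent.S5276

/-- Let p be a prime and F a saturated fusion system over a finite p-group S. Then F is the inner fusion system of S if and only if the normalizer fusion system of S itself in F is the inner fusion system (equivalently, Aut_F(S) is induced by S) and the Frattini subgroup Φ(S) is strongly closed in F. -/
theorem result {Ω : Type*} [Group Ω] {S : Subgroup Ω} [Finite S] (p : ℕ) [Fact p.Prime] (hS : IsPGroup p ↥S) (F : Cfsg.FusionSystem S) (hF : F.IsSaturated p) : (∀ P : Subgroup Ω, F.Hom P = (Cfsg.innerFusionSystem S).Hom P) ↔ (∀ N : Cfsg.FusionSystem (Cfsg.FusionSystem.normalizerIn S S), F.IsNormalizerSystem S N → ∀ P : Subgroup Ω, N.Hom P = (Cfsg.innerFusionSystem (Cfsg.FusionSystem.normalizerIn S S)).Hom P) ∧ F.StronglyClosed ((frattini ↥S).map S.subtype) := by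
  constructor
  · intro hall
    refine ⟨?_, ?_⟩
    · intro N hNN P
      rw [hNN P]
      ext φ
      constructor
      · rintro ⟨hφ, hPN, hv, _⟩
        have hφ' : φ ∈ (Cfsg.innerFusionSystem S).Hom P := by rw [← hall P]; exact hφ
        obtain ⟨hP, g, hg, h⟩ := hφ'
        exact ⟨hPN, g, ⟨hg, Subgroup.le_normalizer hg⟩, h⟩
      · rintro ⟨hPN, g, hg, h⟩
        have hPS : P ≤ S := hPN.trans inf_le_left
        have hgS : g ∈ S := hg.1
        have hφ : φ ∈ F.Hom P := by
          rw [hall P]
          exact ⟨hPS, g, hgS, h⟩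
        refine ⟨hφ, hPN, ?_, ?_⟩
        · intro x
          rw [h x]
          have hS' : g * (x : Ω) * g⁻¹ ∈ S := S.mul_mem (S.mul_mem hgS (hPS x.2)) (S.inv_mem hgS)
          exact ⟨hS', Subgroup.le_normalizer hS'⟩
        · have hsup : P ⊔ S ≤ S := sup_le hPS le_rfl
          refine ⟨Cfsg.conjHom (P ⊔ S) g, F.conj_mem hsup hgS, ?_, ?_⟩
          · intro x
            rw [h x]
            rfl
          · ext y
            constructor
            · rintro ⟨x, hx, rfl⟩
              exact S.mul_mem (S.mul_mem hgS hx) (S.inv_mem hgS)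
            · intro hy
              have hx : g⁻¹ * y * g ∈ S := S.mul_mem (S.mul_mem (S.inv_mem hgS) hy) hgS
              refine ⟨⟨g⁻¹ * y * g, (le_sup_right : S ≤ P ⊔ S) hx⟩, hx, ?_⟩
              change g * (g⁻¹ * y * g) * g⁻¹ = y
              group
    · refine ⟨Subgroup.map_subtype_le _, ?_⟩
      intro R hR φ hφ x
      have hφ' : φ ∈ (Cfsg.innerFusionSystem S).Hom R := by rw [← hall R]; exact hφ
      obtain ⟨hP, g, hg, h⟩ := hφ'
      rw [h x]
      obtain ⟨t, ht, hte⟩ := hR x.2
      have hn : (frattini ↥S).Normal := inferInstance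
      have := hn.conj_mem t ht ⟨g, hg⟩
      refine ⟨_, this, ?_⟩
      simp only [Subgroup.coe_subtype, Subgroup.coe_mul, InvMemClass.coe_inv]
      rw [← hte]
      rfl
  · rintro ⟨hN, hΦ⟩
    have hinner : ∀ (Q : Subgroup Ω) (ρ : Q →* Ω), ρ ∈ F.Hom Q → Q = S → ∃ u : ↥S, ∀ x : Q, ρ x = u * (x : Ω) * (u : Ω)⁻¹ := by
      intro Q ρ hρ hQ
      have hQS : Q ≤ S := CfsgLib.Fusion.source_le F hρ
      have hSQ : S ≤ Q := hQ.ge
      have hnor : Q ≤ Cfsg.FusionSystem.normalizerIn S S := fun x hx => ⟨hQS hx, Subgroup.le_normalizer (hQS hx)⟩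
      have hsup : Q ⊔ S ≤ Q := sup_le le_rfl hSQ
      have hmem : ρ ∈ F.normalizerHom S Q := by
        refine ⟨hρ, hnor, ?_, ?_⟩
        · intro x
          have h₁ := (F.le_of_mem hρ).2 x
          exact ⟨h₁, Subgroup.le_normalizer h₁⟩
        · refine ⟨ρ.comp (Subgroup.inclusion hsup), CfsgLib.Fusion.restrict_mem F hρ hsup, ?_, ?_⟩
          · intro x
            rfl
          · have hr : ρ.range = Q := CfsgLib.Fusion.range_eq_of_self F hρ (fun x => hSQ ((F.le_of_mem hρ).2 x))
            ext y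
            constructor
            · rintro ⟨x, hx, rfl⟩
              exact (F.le_of_mem hρ).2 _
            · intro hy
              have hy' : y ∈ ρ.range := by rw [hr]; exact hSQ hy
              obtain ⟨x, hx⟩ := hy'
              exact ⟨⟨x, (le_sup_left : Q ≤ Q ⊔ S) x.2⟩, hQS x.2, hx⟩
      let N := CfsgLib.Fusion.normalizerSystem F S le_rfl
      have hNN : F.IsNormalizerSystem S N := fun P => rfl
      have h₁ : ρ ∈ N.Hom Q := by rw [hNN Q]; exact hmem
      rw [hN N hNN Q] at h₁
      obtain ⟨_, g, hg, h⟩ := h₁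
      exact ⟨⟨g, hg.1⟩, h⟩
    have hfin := CfsgLib.Bis.inner_of_frattini hS hF hinner hΦ
    intro P
    ext φ
    constructor
    · intro hφ
      obtain ⟨u, hu, hv⟩ := hfin P φ hφ
      exact ⟨CfsgLib.Fusion.source_le F hφ, u, hu, hv⟩
    · rintro ⟨hP, g, hg, h⟩
      have : φ = Cfsg.conjHom P g := by
        ext x
        exact h x
      rw [this]
      exact F.conj_mem hP hg

end Cfsg.Agent.S5276
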