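import Cfsg.Statements.S5521
import Cfsg.Agent.Lib.Golay.ClassUse

set_option autoImplicit false
open Cfsg

namespace Cfsg.Agent.S5521

/-- The Mathieu group M₂₄ in its natural action on the 24 coordinate positions of the binary Golay code has minimal base size exactly 7: every set of at most 6 positions is fixed pointwise by some non-identity element of M₂₄, while some set of 7 positions is fixed pointwise only by the identity. -/
theorem result :
    (∀ B : Finset Cfsg.GolayPt, B.card ≤ 6 → ∃ g ∈ Cfsg.M24, g ≠ 1 ∧ ∀ b ∈ B, g b = b) ∧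
    (∃ B : Finset Cfsg.GolayPt, B.card = 7 ∧ ∀ g ∈ Cfsg.M24, (∀ b ∈ B, g b = b) → g = 1) := by
  open CfsgLib.Golay in
  constructor
  · intro B hB
    classical
    -- enlarge to six points, move five of them to the base
    obtain ⟨C, hBC, hC⟩ : ∃ C : Finset GolayPt, B ⊆ C ∧ C.card = 6 :=
      Finset.exists_superset_card_eq hB (by simp [GolayPt, Fintype.card_option])
    have hl : C.toList.length = 6 := by rw [Finset.length_toList, hC]
    have hnd := C.nodup_toList
    have hmem : ∀ x, x ∈ C.toList ↔ x ∈ C := fun x => Finset.mem_toList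
    match hh : C.toList, hl with
    | [a, b, c, d, e, f], _ =>
      rw [hh] at hnd hmem
      have hnd5 : [a, b, c, d, e].Nodup := by
        simp only [List.nodup_cons, List.mem_cons, List.not_mem_nil, or_false, not_or, List.nodup_nil, and_true,
          not_false_eq_true] at hnd ⊢
        tauto
      obtain ⟨k, hk, h0, h1, h2, h3, h4⟩ := exists_conj_five hnd5
      -- a non-identity element of the list fixing the image of the sixth point
      have hkey : ∀ y < 24, 5 ≤ y → ∃ x ∈ E48, samePerm x idP = false ∧ pa x y = y := by decide +kernel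
      have hf : 5 ≤ idx (k f) := by
        have hne : ∀ w : GolayPt, w ≠ f → ∀ i, k w = pt i → idx (k f) ≠ i := by
          intro w hw i hi he
          apply hw
          apply k.injective
          rw [hi, ← he, pt_idx]
        simp only [List.nodup_cons, List.mem_cons, List.not_mem_nil, or_false, not_or, List.nodup_nil, and_true,
          not_false_eq_true] at hnd
        have h10 := hne a (by tauto) 0 h0
        have h11 := hne b (by tauto) 1 h1
        have h12 := hne c (by tauto) 2 h2
        have h13 := hne d (by tauto) 3 h3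
        have h14 := hne e (by tauto) 4 h4
        omega
      obtain ⟨x, hx, hx1, hx2⟩ := hkey _ (idx_lt _) hf
      have hv := isAut_valid (E48_aut x hx)
      have hxm := mk_mem_M24 (E48_aut x hx)
      have hfix : ∀ p : GolayPt, (p = pt 0 ∨ p = pt 1 ∨ p = pt 2 ∨ p = pt 3 ∨ p = pt 4 ∨ p = k f) → CfsgLib.Golay.mk x p = p := by
        intro p hp
        apply idx_inj
        rw [idx_mk hv]
        rcases hp with rfl | rfl | rfl | rfl | rfl | rfl
        · rw [idx_pt (by norm_num)]; exact E48_fix x hx 0 (by simp)
        · rw [idx_pt (by norm_num)]; exact E48_fix x hx 1 (by simp)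
        · rw [idx_pt (by norm_num)]; exact E48_fix x hx 2 (by simp)
        · rw [idx_pt (by norm_num)]; exact E48_fix x hx 3 (by simp)
        · rw [idx_pt (by norm_num)]; exact E48_fix x hx 4 (by simp)
        · exact hx2
      refine ⟨k⁻¹ * CfsgLib.Golay.mk x * k, M24.mul_mem (M24.mul_mem (M24.inv_mem hk) hxm) hk, ?_, ?_⟩
      · intro he
        have h5 : CfsgLib.Golay.mk x = 1 := by
          have : k * (k⁻¹ * CfsgLib.Golay.mk x * k) * k⁻¹ = k * 1 * k⁻¹ := by rw [he]
          simpa [mul_assoc] using this
        have h6 := samePerm_of_mk_eq hv valid_idP (h5.trans mk_idP.symm)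
        rw [h6] at hx1
        exact absurd hx1 (by simp)
      · intro p hp
        have hpC : p ∈ [a, b, c, d, e, f] := (hmem p).mpr (hBC hp)
        simp only [List.mem_cons, List.not_mem_nil, or_false] at hpC
        simp only [Equiv.Perm.mul_apply]
        rw [Equiv.Perm.inv_eq_iff_eq]
        apply hfix
        rcases hpC with rfl | rfl | rfl | rfl | rfl | rfl
        · exact Or.inl h0
        · exact Or.inr (Or.inl h1)
        · exact Or.inr (Or.inr (Or.inl h2))
        · exact Or.inr (Or.inr (Or.inr (Or.inl h3)))
        · exact Or.inr (Or.inr (Or.inr (Or.inr (Or.inl h4))))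
        · exact Or.inr (Or.inr (Or.inr (Or.inr (Or.inr rfl))))
  · -- the base
    refine ⟨{pt 5, pt 7, pt 4, pt 3, pt 2, pt 1, pt 0}, by decide, ?_⟩
    intro g hg h
    have h1 : g ∈ fixIn M24 [5, 7, 4, 3, 2, 1, 0] := by
      refine mem_fixIn.mpr ⟨hg, fun q hq => h q ?_⟩
      have h2 : q = pt (idx q) := (pt_idx q).symm
      simp only [List.mem_cons, List.not_mem_nil, or_false] at hq
      simp only [Finset.mem_insert, Finset.mem_singleton]
      rcases hq with hq | hq | hq | hq | hq | hq | hq <;> rw [hq] at h2 <;> simp [h2]
    rw [fixIn_bot] at h1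
    exact Subgroup.mem_bot.mp h1


end Cfsg.Agent.S5521
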