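import Cfsg.Statements.S5562
import Mathlib
import Cfsg.Agent.Lib.T3.Basic

set_option autoImplicit false
open Cfsg

namespace Cfsg.Agent.S5562

/-- Let G be a finite group, d an involution of G whose conjugates pairwise have products of odd order, and x any involution of G. Then the conjugacy class of d is the disjoint union, over the conjugates a of d commuting with x, of the sets of conjugates of d commuting with ax: every conjugate of d commutes with ax for exactly one conjugate a of d that commutes with x. -/
theorem result {G : Type*} [Group G] [Finite G] (d : G) (hd : orderOf d = 2)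
    (hodd : ∀ a ∈ conjugatesOf d, ∀ b ∈ conjugatesOf d, Odd (orderOf (a * b)))
    (x : G) (hx : orderOf x = 2) :
    ∀ e ∈ conjugatesOf d,
      ∃! a : G, a ∈ conjugatesOf d ∧ Commute a x ∧ Commute e (a * x) := by
  classical
  intro e he
  have hmemC : ∀ (g y : G), y ∈ conjugatesOf d → g * y * g⁻¹ ∈ conjugatesOf d := by
    intro g y hy
    exact IsConj.trans hy (isConj_iff.2 ⟨g, rfl⟩)
  have hordC : ∀ y ∈ conjugatesOf d, orderOf y = 2 := by
    intro y hy
    obtain ⟨c, rfl⟩ := isConj_iff.1 hy
    have : c * d * c⁻¹ = MulAut.conj c d := rfl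
    rw [this, MulEquiv.orderOf_eq, hd]
  have hsqC : ∀ y ∈ conjugatesOf d, y * y = 1 := fun y hy => CfsgLib.T3.sq_of_order_two (hordC y hy)
  have hinvC : ∀ y ∈ conjugatesOf d, y⁻¹ = y := fun y hy => CfsgLib.T3.inv_of_order_two (hordC y hy)
  have hx2 : x * x = 1 := CfsgLib.T3.sq_of_order_two hx
  have hxinv : x⁻¹ = x := CfsgLib.T3.inv_of_order_two hx
  have he2 := hsqC e he
  have heinv := hinvC e he
  set r := e * x with hr
  have hrinv : r⁻¹ = x * e := by rw [hr, mul_inv_rev, hxinv, heinv]
  -- `e` and `x` invert the powers of `r`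
  have hinvE : ∀ k : ℕ, e * r ^ k * e = (r ^ k)⁻¹ := by
    intro k
    have hz : e * r * e⁻¹ = r⁻¹ := by
      rw [heinv, hrinv, hr]
      simp only [← mul_assoc, he2, one_mul]
    have := conj_pow (a := e) (b := r) (i := k)
    rw [hz, heinv, inv_pow] at this
    exact this.symm
  have hinvX : ∀ k : ℕ, x * r ^ k * x = (r ^ k)⁻¹ := by
    intro k
    have hz : x * r * x⁻¹ = r⁻¹ := by
      rw [hxinv, hrinv, hr]
      simp only [mul_assoc, hx2, mul_one]
    have := conj_pow (a := x) (b := r) (i := k)
    rw [hz, hxinv, inv_pow] at this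
    exact this.symm
  -- `r^k e r^-k = r^{2k} e`
  have hconjE : ∀ k : ℕ, r ^ k * e * (r ^ k)⁻¹ = r ^ (2 * k) * e := by
    intro k
    have h1 := hinvE k
    have h2 : e * (r ^ k)⁻¹ = r ^ k * e := by
      have h3 : e * r ^ k = (r ^ k)⁻¹ * e := by
        calc e * r ^ k = (e * r ^ k * e) * e := by rw [mul_assoc, mul_assoc, he2, mul_one]
          _ = (r ^ k)⁻¹ * e := by rw [h1]
      calc e * (r ^ k)⁻¹ = (r ^ k * (r ^ k)⁻¹) * e * (r ^ k)⁻¹ := by simp
        _ = r ^ k * ((r ^ k)⁻¹ * e) * (r ^ k)⁻¹ := by simp only [mul_assoc]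
        _ = r ^ k * (e * r ^ k) * (r ^ k)⁻¹ := by rw [h3]
        _ = r ^ k * e := by group
    rw [mul_assoc, h2, ← mul_assoc, two_mul, pow_add]
  have hpos : 0 < orderOf r := orderOf_pos r
  have hr1 : r ^ orderOf r = 1 := pow_orderOf_eq_one r
  refine existsUnique_of_exists_of_unique ?_ ?_
  · rcases Nat.even_or_odd' (orderOf r) with ⟨m, hm | hm⟩
    · -- even order
      rcases Nat.even_or_odd' m with ⟨k, hk | hk⟩
      · exfalso
        -- `m = 2 k`: two commuting conjugates
        subst hk
        have hk0 : 0 < k := by omega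
        have hf := hmemC (r ^ k) e he
        rw [hconjE] at hf
        have h5 := hodd e he _ hf
        have hw : e * (r ^ (2 * k) * e) = r ^ (2 * k) := by
          have h6 := hinvE (2 * k)
          have h7 : (r ^ (2 * k))⁻¹ = r ^ (2 * k) := by
            apply inv_eq_of_mul_eq_one_left
            rw [← pow_add, ← hr1, hm]; congr 1; ring
          rw [h7] at h6
          rw [← mul_assoc]; exact h6
        rw [hw] at h5
        have h8 : orderOf (r ^ (2 * k)) = 2 := by
          rw [orderOf_pow' r (by omega), hm]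
          have : Nat.gcd (2 * (2 * k)) (2 * k) = 2 * k := by
            apply Nat.gcd_eq_right
            exact ⟨2, by ring⟩
          rw [this]
          exact Nat.div_eq_of_eq_mul_left (by omega) (by ring)
        rw [h8] at h5
        exact absurd h5 (by decide)
      · subst hk
        -- `m = 2 k + 1`
        refine ⟨r ^ (2 * k) * e, ?_, ?_, ?_⟩
        · have hf := hmemC (r ^ k) e he
          rwa [hconjE] at hf
        · have hw : r ^ (2 * k) * e * x = r ^ (2 * k + 1) := by
            rw [pow_succ, hr, mul_assoc]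
          have h7 : (r ^ (2 * k + 1))⁻¹ = r ^ (2 * k + 1) := by
            apply inv_eq_of_mul_eq_one_left
            rw [← pow_add, ← hr1, hm]; congr 1; ring
          have h9 := hinvX (2 * k + 1)
          rw [h7] at h9
          show r ^ (2 * k) * e * x = x * (r ^ (2 * k) * e)
          rw [hw]
          calc r ^ (2 * k + 1) = x * r ^ (2 * k + 1) * x := h9.symm
            _ = x * (r ^ (2 * k) * e * x) * x := by rw [hw]
            _ = x * (r ^ (2 * k) * e) * (x * x) := by simp only [mul_assoc]
            _ = x * (r ^ (2 * k) * e) := by rw [hx2, mul_one]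
        · have hw : r ^ (2 * k) * e * x = r ^ (2 * k + 1) := by
            rw [pow_succ, hr, mul_assoc]
          rw [hw]
          have h7 : (r ^ (2 * k + 1))⁻¹ = r ^ (2 * k + 1) := by
            apply inv_eq_of_mul_eq_one_left
            rw [← pow_add, ← hr1, hm]; congr 1; ring
          have h9 := hinvE (2 * k + 1)
          rw [h7] at h9
          show e * r ^ (2 * k + 1) = r ^ (2 * k + 1) * e
          calc e * r ^ (2 * k + 1) = (e * r ^ (2 * k + 1) * e) * e := by
                rw [mul_assoc, mul_assoc, he2, mul_one]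
            _ = r ^ (2 * k + 1) * e := by rw [h9]
    · -- odd order `2 m + 1`: `x` itself is a conjugate
      refine ⟨x, ?_, Commute.refl x, ?_⟩
      · have hf := hmemC (r ^ m) e he
        rw [hconjE] at hf
        have : r ^ (2 * m) * e = x := by
          have h1 : r ^ (2 * m) * r = 1 := by rw [← pow_succ, ← hm]; exact hr1
          have h2 : r ^ (2 * m) = r⁻¹ := eq_inv_of_mul_eq_one_left h1
          rw [h2, hrinv, mul_assoc, he2, mul_one]
        rwa [this] at hf
      · rw [hx2]; exact Commute.one_right e
  · rintro a a' ⟨ha, hax, hea⟩ ⟨ha', hax', hea'⟩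
    have ha2 := hsqC a ha
    have ha'2 := hsqC a' ha'
    have hainv := hinvC a ha
    have ha'inv := hinvC a' ha'
    set u := a * a' with hu
    have huprod : (a * x) * (a' * x) = u := by
      calc a * x * (a' * x) = a * (x * a') * x := by simp only [mul_assoc]
        _ = a * (a' * x) * x := by rw [hax'.symm.eq]
        _ = a * a' * (x * x) := by simp only [mul_assoc]
        _ = u := by rw [hx2, mul_one]
    have heu : Commute e u := by
      rw [← huprod]; exact hea.mul_right hea'
    have huinv : u⁻¹ = a' * a := by rw [hu, mul_inv_rev, hainv, ha'inv]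
    have hoddu : Odd (orderOf u) := hodd a ha a' ha'
    -- `v = e a` inverts `u`
    have hodd2 : Odd (orderOf (e * a)) := hodd e he a ha
    set v := e * a with hv
    have hvu : v * u * v⁻¹ = u⁻¹ := by
      have h1 : a * u * a⁻¹ = u⁻¹ := by
        rw [hainv, huinv, hu]
        simp only [← mul_assoc, ha2, one_mul]
      have h2 : v * u * v⁻¹ = e * (a * u * a⁻¹) * e⁻¹ := by
        rw [hv, mul_inv_rev]; group
      rw [h2, h1]
      have h3 : e * u⁻¹ * e⁻¹ = (e * u * e⁻¹)⁻¹ := by group
      rw [h3]
      congr 1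
      rw [heu.eq]; group
    have hpow : ∀ k : ℕ, v ^ (2 * k + 1) * u * (v ^ (2 * k + 1))⁻¹ = u⁻¹ := by
      intro k
      induction k with
      | zero => simpa using hvu
      | succ k ih =>
        have h1 : v ^ (2 * (k + 1) + 1) = v * v * v ^ (2 * k + 1) := by
          rw [show 2 * (k + 1) + 1 = 2 + (2 * k + 1) by ring, pow_add, pow_two]
        rw [h1]
        have h2 : v * v * v ^ (2 * k + 1) * u * (v * v * v ^ (2 * k + 1))⁻¹ =
            v * (v * (v ^ (2 * k + 1) * u * (v ^ (2 * k + 1))⁻¹) * v⁻¹) * v⁻¹ := by group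
        rw [h2, ih]
        have h3 : v * u⁻¹ * v⁻¹ = u := by
          have : v * u⁻¹ * v⁻¹ = (v * u * v⁻¹)⁻¹ := by group
          rw [this, hvu, inv_inv]
        rw [h3, hvu]
    obtain ⟨k, hk⟩ := hodd2
    have h4 := hpow k
    rw [← hk, pow_orderOf_eq_one] at h4
    simp only [one_mul, inv_one, mul_one] at h4
    -- `u = u⁻¹` and `u` has odd order
    have h5 : u ^ 2 = 1 := by
      rw [pow_two]
      nth_rewrite 1 [h4]
      simp
    have h6 : orderOf u ∣ 2 := orderOf_dvd_of_pow_eq_one h5
    have h7 : orderOf u = 1 := by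
      rcases (Nat.dvd_prime Nat.prime_two).1 h6 with h | h
      · exact h
      · rw [h] at hoddu; exact absurd hoddu (by decide)
    have h8 : u = 1 := orderOf_eq_one_iff.1 h7
    have h9 : a = a'⁻¹ := eq_inv_of_mul_eq_one_left h8
    rw [h9, ha'inv]

end Cfsg.Agent.S5562
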