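import Mathlib
import Cfsg.Statements.S5729
-- import your own Cfsg.Agent.* helpers here

set_option autoImplicit false
open Cfsg

namespace Cfsg.Agent.S5729

theorem burn {G Ω : Type*} [Group G] [Finite G] [MulAction G Ω] [Finite Ω] :
    ∑ᶠ g : G, Nat.card (MulAction.fixedBy Ω g) = Nat.card (MulAction.orbitRel.Quotient G Ω) * Nat.card G := by
  classical
  letI := Fintype.ofFinite G
  letI := Fintype.ofFinite Ω
  letI : Fintype (MulAction.orbitRel.Quotient G Ω) := Fintype.ofFinite _
  letI : ∀ g : G, Fintype (MulAction.fixedBy Ω g) := fun g => Fintype.ofFinite _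
  have := MulAction.sum_card_fixedBy_eq_card_orbits_mul_card_group G Ω
  rw [finsum_eq_sum_of_fintype]
  simp only [Nat.card_eq_fintype_card]
  exact this

/-- Let a finite group G act faithfully and transitively on a set with n ≥ 3 points. Then either G is a Frobenius permutation group (Frobenius as a permutation group: transitive, some non-identity element fixes a point, and no non-identity element fixes two points) of order n(n − 1) and exactly |G|/n of its elements are derangements (fix no point), or the number of derangements is greater than |G|/n. -/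
theorem result {G Ω : Type*} [Group G] [Finite G] [MulAction G Ω] [FaithfulSMul G Ω] [Fintype Ω] (htr : MulAction.IsPretransitive G Ω) (hn : 3 ≤ Fintype.card Ω) :
    ((MulAction.IsPretransitive G Ω ∧ (∃ g : G, g ≠ 1 ∧ ∃ ω : Ω, g • ω = ω) ∧ ∀ g : G, g ≠ 1 → Nat.card (MulAction.fixedBy Ω g) ≤ 1) ∧ Nat.card G = Fintype.card Ω * (Fintype.card Ω - 1) ∧ Fintype.card Ω * Nat.card {g : G // ∀ ω : Ω, g • ω ≠ ω} = Nat.card G) ∨
    Nat.card G < Fintype.card Ω * Nat.card {g : G // ∀ ω : Ω, g • ω ≠ ω} := by
  classical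
  letI := Fintype.ofFinite G
  set n := Fintype.card Ω with hn_def
  have hnpos : 0 < n := by omega
  let f : G → ℕ := fun g => Nat.card (MulAction.fixedBy Ω g)
  -- Burnside once
  have h1 : ∑ g : G, f g = Nat.card G := by
    have := burn (G := G) (Ω := Ω)
    rw [finsum_eq_sum_of_fintype] at this
    rw [this]
    haveI : Subsingleton (MulAction.orbitRel.Quotient G Ω) := by
      constructor
      intro a b
      induction a using Quotient.inductionOn with
      | h a =>
        induction b using Quotient.inductionOn with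
        | h b =>
          apply Quotient.sound
          exact MulAction.IsPretransitive.exists_smul_eq b a
    haveI : Nonempty (MulAction.orbitRel.Quotient G Ω) := by
      haveI : Nonempty Ω := by
        rw [← Fintype.card_pos_iff]
        exact hnpos
      obtain ⟨x⟩ := ‹Nonempty Ω›
      exact ⟨Quotient.mk'' x⟩
    have : Nat.card (MulAction.orbitRel.Quotient G Ω) = 1 := Nat.card_unique
    rw [this, one_mul]
  -- Burnside on pairs
  have hfp : ∀ g : G, Nat.card (MulAction.fixedBy (Ω × Ω) g) = f g * f g := by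
    intro g
    rw [← Nat.card_prod]
    apply Nat.card_congr
    exact
      { toFun := fun x => ⟨⟨x.1.1, congrArg Prod.fst x.2⟩, ⟨x.1.2, congrArg Prod.snd x.2⟩⟩
        invFun := fun x => ⟨(x.1.1, x.2.1), Prod.ext x.1.2 x.2.2⟩
        left_inv := fun _ => rfl
        right_inv := fun _ => rfl }
  let r := Nat.card (MulAction.orbitRel.Quotient G (Ω × Ω))
  have h2 : ∑ g : G, f g * f g = r * Nat.card G := by
    have := burn (G := G) (Ω := Ω × Ω)
    rw [finsum_eq_sum_of_fintype] at this
    rw [← this]
    exact Finset.sum_congr rfl (fun g _ => (hfp g).symm)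
  -- two orbits at least
  obtain ⟨a, b, c, hab, hac, hbc⟩ := Fintype.two_lt_card_iff.mp (show 2 < Fintype.card Ω by omega)
  have hdiag : ∀ (g : G) (x y : Ω), x ≠ y → g • (a, a) ≠ (x, y) := by
    intro g x y hxy h
    apply hxy
    have h1 : g • a = x := congrArg Prod.fst h
    have h2 : g • a = y := congrArg Prod.snd h
    rw [← h1, h2]
  have hmkne : ∀ x y : Ω, x ≠ y → (Quotient.mk'' (x, y) : MulAction.orbitRel.Quotient G (Ω × Ω)) ≠ Quotient.mk'' (a, a) := by
    intro x y hxy h
    have h3 : (MulAction.orbitRel G (Ω × Ω)) (x, y) (a, a) := Quotient.exact h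
    obtain ⟨g, hg⟩ := h3
    exact hdiag g x y hxy hg
  have hr2 : 2 ≤ r := by
    have : Nontrivial (MulAction.orbitRel.Quotient G (Ω × Ω)) := ⟨_, _, hmkne a b hab⟩
    exact Finite.one_lt_card_iff_nontrivial.mpr this
  -- the integer identity
  have hzG : ∑ g : G, ((f g : ℤ) - 1) * ((f g : ℤ) - n) = ((r : ℤ) - 1) * Nat.card G := by
    have e : ∀ g, ((f g : ℤ) - 1) * ((f g : ℤ) - n) = (f g : ℤ) * (f g : ℤ) - (n + 1) * (f g : ℤ) + n := fun g => by ring
    simp only [e]
    rw [Finset.sum_add_distrib, Finset.sum_sub_distrib, ← Finset.mul_sum]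
    have h1' : ∑ g, (f g : ℤ) = Nat.card G := by exact_mod_cast h1
    have h2' : ∑ g, (f g : ℤ) * (f g : ℤ) = r * Nat.card G := by exact_mod_cast h2
    rw [h1', h2', Finset.sum_const, Finset.card_univ, nsmul_eq_mul, ← Nat.card_eq_fintype_card]
    ring
  have hle : ∀ g, f g ≤ n := by
    intro g
    rw [hn_def, ← Nat.card_eq_fintype_card]
    exact Nat.card_le_card_of_injective _ Subtype.val_injective
  have hne : ∀ g : G, g ≠ 1 → f g ≠ n := by
    intro g hg h
    apply hg
    apply FaithfulSMul.eq_of_smul_eq_smul (α := Ω)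
    intro x
    rw [one_smul]
    have h3 : MulAction.fixedBy Ω g = Set.univ := by
      apply Set.eq_of_subset_of_ncard_le (Set.subset_univ _)
      rw [Set.ncard_univ, Nat.card_eq_fintype_card, ← hn_def, ← h]
      exact le_of_eq (Nat.card_coe_set_eq _).symm
    have h4 : x ∈ MulAction.fixedBy Ω g := by rw [h3]; trivial
    exact h4
  let der : G → Prop := fun g => ∀ ω : Ω, g • ω ≠ ω
  have hf0 : ∀ g, der g ↔ f g = 0 := by
    intro g
    show _ ↔ Nat.card (MulAction.fixedBy Ω g) = 0
    rw [Nat.card_eq_zero]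
    constructor
    · intro h
      left
      exact ⟨fun x => h x.1 x.2⟩
    · rintro (h | h) ω hω
      · exact h.false ⟨ω, hω⟩
      · exact not_finite (α := MulAction.fixedBy Ω g)
  have hfpos : ∀ g, ¬ der g → 1 ≤ f g := by
    intro g hg
    rw [hf0] at hg
    omega
  have hterm : ∀ g ∈ (Finset.univ : Finset G), ((f g : ℤ) - 1) * ((f g : ℤ) - n) ≤ if der g then (n : ℤ) else 0 := by
    intro g _
    split_ifs with hd
    · rw [(hf0 g).mp hd]
      simp
    · have h3 := hfpos g hd
      have h4 := hle g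
      have h5 : (0 : ℤ) ≤ (f g : ℤ) - 1 := by omega
      have h6 : (f g : ℤ) - n ≤ 0 := by omega
      exact mul_nonpos_of_nonneg_of_nonpos h5 h6
  have hD : ∑ g : G, (if der g then (n : ℤ) else 0) = n * Nat.card {g : G // ∀ ω : Ω, g • ω ≠ ω} := by
    rw [Finset.sum_ite, Finset.sum_const_zero, add_zero, Finset.sum_const, nsmul_eq_mul, mul_comm]
    congr 2
    rw [Nat.card_eq_fintype_card, Fintype.card_subtype]
  have hsum := Finset.sum_le_sum hterm
  rw [hzG, hD] at hsum
  have hGpos : 0 < Nat.card G := Nat.card_pos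
  by_cases hlt : Nat.card G < n * Nat.card {g : G // ∀ ω : Ω, g • ω ≠ ω}
  · right
    exact hlt
  left
  push Not at hlt
  have hsum' : ((r : ℤ) - 1) * Nat.card G ≤ Nat.card G := by
    have : ((n * Nat.card {g : G // ∀ ω : Ω, g • ω ≠ ω} : ℕ) : ℤ) ≤ Nat.card G := by exact_mod_cast hlt
    push_cast at this
    linarith
  have hr : r = 2 := by
    have h3 : ((r : ℤ) - 1) ≤ 1 := by
      have : (0 : ℤ) < Nat.card G := by exact_mod_cast hGpos
      nlinarith
    omega
  have heq1 : n * Nat.card {g : G // ∀ ω : Ω, g • ω ≠ ω} = Nat.card G := by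
    have h3 : ((Nat.card G : ℕ) : ℤ) ≤ ((n * Nat.card {g : G // ∀ ω : Ω, g • ω ≠ ω} : ℕ) : ℤ) := by
      rw [hr] at hsum
      push_cast at hsum ⊢
      linarith
    have h4 : Nat.card G ≤ n * Nat.card {g : G // ∀ ω : Ω, g • ω ≠ ω} := by exact_mod_cast h3
    omega
  have heqsum : ∑ g : G, ((f g : ℤ) - 1) * ((f g : ℤ) - n) = ∑ g : G, (if der g then (n : ℤ) else 0) := by
    rw [hzG, hD, hr]
    have : ((n * Nat.card {g : G // ∀ ω : Ω, g • ω ≠ ω} : ℕ) : ℤ) = Nat.card G := by exact_mod_cast heq1
    push_cast at this ⊢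
    linarith
  have hterm_eq := (Finset.sum_eq_sum_iff_of_le hterm).mp heqsum
  have hfix1 : ∀ g : G, g ≠ 1 → f g ≤ 1 := by
    intro g hg
    by_cases hd : der g
    · rw [(hf0 g).mp hd]
      omega
    · have h3 := hterm_eq g (Finset.mem_univ g)
      rw [if_neg hd] at h3
      rcases mul_eq_zero.mp h3 with h4 | h4
      · have : (f g : ℤ) = 1 := by linarith
        have : f g = 1 := by exact_mod_cast this
        omega
      · exfalso
        apply hne g hg
        have : (f g : ℤ) = n := by linarith
        exact_mod_cast this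
  -- two-transitivity
  have hrc : Nat.card (MulAction.orbitRel.Quotient G (Ω × Ω)) = 2 := hr
  obtain ⟨u, v, huv, hs⟩ := Nat.card_eq_two_iff.mp hrc
  have hmem : ∀ z : MulAction.orbitRel.Quotient G (Ω × Ω), z = u ∨ z = v := by
    intro z
    have : z ∈ ({u, v} : Set _) := by rw [hs]; trivial
    simpa using this
  have h2tr : ∀ x y x' y' : Ω, x ≠ y → x' ≠ y' → ∃ g : G, g • x' = x ∧ g • y' = y := by
    intro x y x' y' hxy hxy'
    have h3 : (Quotient.mk'' (x, y) : MulAction.orbitRel.Quotient G (Ω × Ω)) = Quotient.mk'' (x', y') := by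
      have hA := hmkne x y hxy
      have hB := hmkne x' y' hxy'
      rcases hmem (Quotient.mk'' (a, a)) with h5 | h5 <;> rcases hmem (Quotient.mk'' (x, y)) with h6 | h6 <;>
        rcases hmem (Quotient.mk'' (x', y')) with h7 | h7
      · exact absurd (h6.trans h5.symm) hA
      · exact absurd (h6.trans h5.symm) hA
      · exact absurd (h7.trans h5.symm) hB
      · rw [h6, h7]
      · rw [h6, h7]
      · exact absurd (h7.trans h5.symm) hB
      · exact absurd (h6.trans h5.symm) hA
      · exact absurd (h6.trans h5.symm) hA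
    have h4 : (MulAction.orbitRel G (Ω × Ω)) (x, y) (x', y') := Quotient.exact h3
    obtain ⟨g, hg⟩ := h4
    exact ⟨g, congrArg Prod.fst hg, congrArg Prod.snd hg⟩
  have hfix2 : ∀ g : G, g • a = a → g • b = b → g = 1 := by
    intro g h3 h4
    by_contra hg
    have h5 := hfix1 g hg
    have h6 : 1 < Nat.card (MulAction.fixedBy Ω g) := by
      haveI : Finite (MulAction.fixedBy Ω g) := inferInstance
      rw [Finite.one_lt_card_iff_nontrivial]
      refine ⟨⟨a, h3⟩, ⟨b, h4⟩, ?_⟩
      intro h7
      exact hab (congrArg Subtype.val h7)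
    exact absurd h5 (by simpa [f] using h6)
  have hcardG : Nat.card G = n * (n - 1) := by
    let Φ : G → {p : Ω × Ω // p.1 ≠ p.2} := fun g => ⟨(g • a, g • b), fun h => hab (MulAction.injective g h)⟩
    have hΦ : Function.Bijective Φ := by
      constructor
      · intro g g' e
        have h3 : g • a = g' • a := congrArg (fun p : {p : Ω × Ω // p.1 ≠ p.2} => p.1.1) e
        have h4 : g • b = g' • b := congrArg (fun p : {p : Ω × Ω // p.1 ≠ p.2} => p.1.2) e
        have h5 : g'⁻¹ * g = 1 := by
          apply hfix2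
          · rw [mul_smul, h3, inv_smul_smul]
          · rw [mul_smul, h4, inv_smul_smul]
        exact (inv_mul_eq_one.mp h5).symm
      · rintro ⟨⟨x, y⟩, hxy⟩
        obtain ⟨g, hg1, hg2⟩ := h2tr x y a b hxy hab
        exact ⟨g, Subtype.ext (Prod.ext hg1 hg2)⟩
    rw [Nat.card_eq_of_bijective Φ hΦ, Nat.card_eq_fintype_card]
    have h3 : Fintype.card {p : Ω × Ω // p.1 ≠ p.2} = Fintype.card (Ω × Ω) - Fintype.card {p : Ω × Ω // p.1 = p.2} :=
      Fintype.card_subtype_compl _
    have h4 : Fintype.card {p : Ω × Ω // p.1 = p.2} = n := by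
      rw [hn_def]
      apply Fintype.card_congr
      exact
        { toFun := fun p => p.1.1
          invFun := fun x => ⟨(x, x), rfl⟩
          left_inv := fun p => by
            apply Subtype.ext
            exact Prod.ext rfl p.2
          right_inv := fun _ => rfl }
    rw [h3, h4, Fintype.card_prod, ← hn_def, Nat.mul_sub, mul_one]
  refine ⟨⟨htr, ?_, ?_⟩, hcardG, heq1⟩
  · obtain ⟨g, hg1, hg2⟩ := h2tr a c a b hac hab
    refine ⟨g, ?_, a, hg1⟩
    rintro rfl
    rw [one_smul] at hg2
    exact hbc hg2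
  · exact hfix1

end Cfsg.Agent.S5729
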