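import Mathlib
import Cfsg.Statements.S5747
-- import your own Cfsg.Agent.* helpers here

set_option autoImplicit false
open Cfsg

namespace Cfsg.Agent.S5747

variable {G Ω : Type*} [Group G] [Finite G] [MulAction G Ω]

/-- the closure of a set of points -/
def Cl (G : Type*) {Ω : Type*} [Group G] [MulAction G Ω] (S : Set Ω) (x : Ω) : Prop :=
  ∀ g : G, (∀ s ∈ S, g • s = s) → g • x = x

/-- a partial irredundant sequence -/
def Pre (G : Type*) {Ω : Type*} [Group G] [MulAction G Ω] (s : ℕ) (f : ℕ → Ω) : Prop :=
  ∀ i, i < s → ∃ g : G, (∀ j, j < i → g • f j = f j) ∧ g • f i ≠ f i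

theorem pre_update {s : ℕ} {f : ℕ → Ω} (h : Pre G s f) {x : Ω} {g₀ : G}
    (h1 : ∀ j, j < s → g₀ • f j = f j) (h2 : g₀ • x ≠ x) : Pre G (s + 1) (Function.update f s x) := by
  intro i hi
  by_cases his : i = s
  · subst his
    refine ⟨g₀, ?_, ?_⟩
    · intro j hj
      rw [Function.update_of_ne (by omega)]
      exact h1 j hj
    · rw [Function.update_self]
      exact h2
  · obtain ⟨g, hg1, hg2⟩ := h i (by omega)
    refine ⟨g, ?_, ?_⟩
    · intro j hj
      rw [Function.update_of_ne (by omega)]
      exact hg1 j hj
    · rw [Function.update_of_ne his]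
      exact hg2

theorem extend (hfaith : ∀ g : G, (∀ x : Ω, g • x = x) → g = 1) (N : ℕ) :
    ∀ (s : ℕ) (f : ℕ → Ω), Pre G s f → Nat.card {g : G // ∀ i, i < s → g • f i = f i} ≤ N →
      ∃ (t : ℕ) (f' : ℕ → Ω), s ≤ t ∧ Pre G t f' ∧ (∀ g : G, (∀ i, i < t → g • f' i = f' i) → g = 1) ∧ ∀ i, i < s → f' i = f i := by
  classical
  induction N with
  | zero =>
    intro s f _ h
    exfalso
    have : Nonempty {g : G // ∀ i, i < s → g • f i = f i} := ⟨⟨1, fun i _ => one_smul _ _⟩⟩
    have h2 : 0 < Nat.card {g : G // ∀ i, i < s → g • f i = f i} := Nat.card_pos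
    omega
  | succ N ih =>
    intro s f hf hcard
    by_cases hb : ∀ g : G, (∀ i, i < s → g • f i = f i) → g = 1
    · exact ⟨s, f, le_rfl, hf, hb, fun _ _ => rfl⟩
    · push Not at hb
      obtain ⟨g₀, hg₀, hne⟩ := hb
      obtain ⟨x, hx⟩ : ∃ x : Ω, g₀ • x ≠ x := by
        by_contra hc
        push Not at hc
        exact hne (hfaith g₀ hc)
      have hP := pre_update hf hg₀ hx
      have hc : Nat.card {g : G // ∀ i, i < s + 1 → g • (Function.update f s x) i = (Function.update f s x) i} ≤ N := by
        have hinj : Function.Injective (fun g : {g : G // ∀ i, i < s + 1 → g • (Function.update f s x) i = (Function.update f s x) i} =>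
            (⟨g.1, fun i hi => by
              have := g.2 i (by omega)
              rwa [Function.update_of_ne (by omega)] at this⟩ : {g : G // ∀ i, i < s → g • f i = f i})) := by
          intro a b e
          exact Subtype.ext (congrArg (fun z : {g : G // ∀ i, i < s → g • f i = f i} => z.1) e)
        have hnot : (⟨g₀, hg₀⟩ : {g : G // ∀ i, i < s → g • f i = f i}) ∉ Set.range (fun g : {g : G // ∀ i, i < s + 1 → g • (Function.update f s x) i = (Function.update f s x) i} =>
            (⟨g.1, fun i hi => by
              have := g.2 i (by omega)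
              rwa [Function.update_of_ne (by omega)] at this⟩ : {g : G // ∀ i, i < s → g • f i = f i})) := by
          rintro ⟨a, ha⟩
          have h3 : a.1 = g₀ := congrArg Subtype.val ha
          apply hx
          have h4 := a.2 s (by omega)
          rw [Function.update_self, h3] at h4
          exact h4
        letI : Fintype {g : G // ∀ i, i < s + 1 → g • (Function.update f s x) i = (Function.update f s x) i} := Fintype.ofFinite _
        letI : Fintype {g : G // ∀ i, i < s → g • f i = f i} := Fintype.ofFinite _
        have hlt := Fintype.card_lt_of_injective_of_notMem _ hinj hnot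
        rw [Nat.card_eq_fintype_card] at hcard ⊢
        omega
      obtain ⟨t, f', hst, h1, h2, h3⟩ := ih (s + 1) _ hP hc
      refine ⟨t, f', by omega, h1, h2, ?_⟩
      intro i hi
      rw [h3 i (by omega), Function.update_of_ne (by omega)]

variable [Fintype Ω]

/-- the irredundant sequence -/
def Irr (G : Type*) {Ω : Type*} [Group G] [MulAction G Ω] {t : ℕ} (f : Fin t → Ω) : Prop :=
  (∀ g : G, (∀ i : Fin t, g • f i = f i) → g = 1) ∧ ∀ i : Fin t, ∃ g : G, (∀ j : Fin t, j < i → g • f j = f j) ∧ g • f i ≠ f i

/-- From a sequence of naturals to `Fin`. -/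
theorem irr_of_pre {t : ℕ} {f : ℕ → Ω} (h1 : Pre G t f) (h2 : ∀ g : G, (∀ i, i < t → g • f i = f i) → g = 1) :
    Irr G (fun i : Fin t => f i) := by
  constructor
  · intro g hg
    exact h2 g (fun i hi => hg ⟨i, hi⟩)
  · intro i
    obtain ⟨g, hg1, hg2⟩ := h1 i i.2
    exact ⟨g, fun j hj => hg1 j hj, hg2⟩

/-- A base has an irredundant subsequence, shorter if it was not already irredundant. -/
theorem exists_irr_le : ∀ (t : ℕ) (f : Fin t → Ω), (∀ g : G, (∀ i : Fin t, g • f i = f i) → g = 1) →
    (∃ (t' : ℕ) (f' : Fin t' → Ω), t' ≤ t ∧ Irr G f') ∧ (¬ Irr G f → ∃ (t' : ℕ) (f' : Fin t' → Ω), t' < t ∧ Irr G f') := by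
  intro t
  induction t with
  | zero =>
    intro f hf
    have h : Irr G f := ⟨hf, fun i => i.elim0⟩
    exact ⟨⟨0, f, le_rfl, h⟩, fun hc => absurd h hc⟩
  | succ t ih =>
    intro f hf
    have key : ¬ Irr G f → ∃ (t' : ℕ) (f' : Fin t' → Ω), t' < t + 1 ∧ Irr G f' := by
      intro hc
      have h1 : ∃ i : Fin (t + 1), ∀ g : G, (∀ j : Fin (t + 1), j < i → g • f j = f j) → g • f i = f i := by
        by_contra h2
        push Not at h2
        exact hc ⟨hf, h2⟩
      obtain ⟨i, hi⟩ := h1
      have h3 : ∀ g : G, (∀ j : Fin t, g • f (i.succAbove j) = f (i.succAbove j)) → g = 1 := by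
        intro g hg
        apply hf
        intro k
        rcases Fin.eq_self_or_eq_succAbove i k with h4 | ⟨j, h4⟩
        · rw [h4]
          apply hi
          intro j hj
          obtain ⟨j', hj'⟩ := Fin.exists_succAbove_eq (ne_of_lt hj)
          rw [← hj']
          exact hg j'
        · rw [h4]
          exact hg j
      obtain ⟨⟨t', f', h5, h6⟩, _⟩ := ih _ h3
      exact ⟨t', f', by omega, h6⟩
    refine ⟨?_, key⟩
    by_cases h : Irr G f
    · exact ⟨t + 1, f, le_rfl, h⟩
    · obtain ⟨t', f', h5, h6⟩ := key h
      exact ⟨t', f', by omega, h6⟩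

theorem exists_seq [DecidableEq Ω] (a : Ω) (S : Finset Ω) :
    ∃ (s : ℕ) (f : ℕ → Ω), Pre G s f ∧ ∀ g : G, (∀ x ∈ S, g • x = x) ↔ (∀ i, i < s → g • f i = f i) := by
  induction S using Finset.induction_on with
  | empty =>
    refine ⟨0, fun _ => a, fun i hi => absurd hi (by omega), fun g => ?_⟩
    simp
  | insert x S hx ih =>
    obtain ⟨s, f, hP, hS⟩ := ih
    by_cases hc : ∀ g : G, (∀ y ∈ S, g • y = y) → g • x = x
    · refine ⟨s, f, hP, fun g => ?_⟩
      rw [← hS]
      constructor
      · intro h y hy
        exact h y (Finset.mem_insert_of_mem hy)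
      · intro h y hy
        rcases Finset.mem_insert.mp hy with rfl | hy
        · exact hc g h
        · exact h y hy
    · push Not at hc
      obtain ⟨g₀, h1, h2⟩ := hc
      refine ⟨s + 1, _, pre_update hP ((hS g₀).mp h1) h2, fun g => ?_⟩
      constructor
      · intro h i hi
        by_cases his : i = s
        · subst his
          rw [Function.update_self]
          exact h x (Finset.mem_insert_self _ _)
        · rw [Function.update_of_ne his]
          exact (hS g).mp (fun y hy => h y (Finset.mem_insert_of_mem hy)) i (by omega)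
      · intro h y hy
        rcases Finset.mem_insert.mp hy with rfl | hy
        · have := h s (by omega)
          rwa [Function.update_self] at this
        · refine (hS g).mpr (fun i hi => ?_) y hy
          have := h i (by omega)
          rwa [Function.update_of_ne (by omega)] at this

theorem exchange [DecidableEq Ω] (hyp : ∀ (t : ℕ) (f : Fin t → Ω) (σ : Equiv.Perm (Fin t)), Irr G f → Irr G (f ∘ σ))
    (hfaith : ∀ g : G, (∀ x : Ω, g • x = x) → g = 1) (S : Finset Ω) (a b : Ω)
    (ha : ¬ Cl G (S : Set Ω) a) (hb : ¬ Cl G ((insert a S : Finset Ω) : Set Ω) b) : ¬ Cl G ((insert b S : Finset Ω) : Set Ω) a := by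
  classical
  obtain ⟨s, f, hP, hS⟩ := exists_seq (G := G) a S
  have ha' : ∃ g₁ : G, (∀ x ∈ S, g₁ • x = x) ∧ g₁ • a ≠ a := by
    by_contra hc
    push Not at hc
    exact ha (fun g hg => hc g (fun x hx => hg x (by simpa using hx)))
  have hb' : ∃ g₂ : G, (∀ x ∈ insert a S, g₂ • x = x) ∧ g₂ • b ≠ b := by
    by_contra hc
    push Not at hc
    exact hb (fun g hg => hc g (fun x hx => hg x (by simpa using hx)))
  obtain ⟨g₁, h1, h2⟩ := ha'
  obtain ⟨g₂, h3, h4⟩ := hb'
  have hP1 := pre_update hP ((hS g₁).mp h1) h2
  have hP2 : Pre G (s + 1 + 1) (Function.update (Function.update f s a) (s + 1) b) := by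
    refine pre_update hP1 ?_ h4
    intro j hj
    by_cases hjs : j = s
    · subst hjs
      rw [Function.update_self]
      exact h3 a (Finset.mem_insert_self _ _)
    · rw [Function.update_of_ne hjs]
      exact (hS g₂).mp (fun y hy => h3 y (Finset.mem_insert_of_mem hy)) j (by omega)
  obtain ⟨t, f', hst, h5, h6, h7⟩ := extend hfaith _ _ _ hP2 le_rfl
  have hI := irr_of_pre h5 h6
  have hsa : f' s = a := by
    rw [h7 s (by omega), Function.update_of_ne (by omega), Function.update_self]
  have hsb : f' (s + 1) = b := by
    rw [h7 (s + 1) (by omega), Function.update_self]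
  have hsf : ∀ j, j < s → f' j = f j := by
    intro j hj
    rw [h7 j (by omega), Function.update_of_ne (by omega), Function.update_of_ne (by omega)]
  let p : Fin t := ⟨s, by omega⟩
  let q : Fin t := ⟨s + 1, by omega⟩
  have hI2 := hyp t _ (Equiv.swap p q) hI
  obtain ⟨g, hg1, hg2⟩ := hI2.2 q
  intro hcl
  apply hg2
  have e1 : ((fun i : Fin t => f' i) ∘ (Equiv.swap p q)) q = a := by
    simp only [Function.comp, Equiv.swap_apply_right]
    exact hsa
  rw [e1]
  apply hcl
  intro y hy
  have hy' : y = b ∨ y ∈ S := by simpa using hy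
  rcases hy' with rfl | hy'
  · have h8 := hg1 p (by
      show s < s + 1
      omega)
    simp only [Function.comp, Equiv.swap_apply_left] at h8
    have h9 : f' (q : ℕ) = y := hsb
    rw [h9] at h8
    exact h8
  · refine (hS g).mpr ?_ y hy'
    intro i hi
    have h8 := hg1 ⟨i, by omega⟩ (by
      show i < s + 1
      omega)
    have hne1 : (⟨i, by omega⟩ : Fin t) ≠ p := by
      intro e
      have := congrArg Fin.val e
      simp only [p] at this
      omega
    have hne2 : (⟨i, by omega⟩ : Fin t) ≠ q := by
      intro e
      have := congrArg Fin.val e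
      simp only [q] at this
      omega
    simp only [Function.comp, Equiv.swap_apply_of_ne_of_ne hne1 hne2] at h8
    rw [hsf i hi] at h8
    exact h8

theorem steinitz [DecidableEq Ω]
    (hex : ∀ (S : Finset Ω) (a b : Ω), ¬ Cl G (S : Set Ω) a → ¬ Cl G ((insert a S : Finset Ω) : Set Ω) b → ¬ Cl G ((insert b S : Finset Ω) : Set Ω) a)
    (B : Finset Ω) : ∀ (n : ℕ) (A : Finset Ω), (A \ B).card = n → (∀ x ∈ A, ¬ Cl G ((A.erase x : Finset Ω) : Set Ω) x) →
      (∀ a ∈ A, Cl G (B : Set Ω) a) → A.card ≤ B.card := by
  intro n
  induction n with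
  | zero =>
    intro A h0 _ _
    apply Finset.card_le_card
    rw [Finset.card_eq_zero, Finset.sdiff_eq_empty_iff_subset] at h0
    exact h0
  | succ n ih =>
    intro A h0 hind hsp
    obtain ⟨a, ha⟩ : (A \ B).Nonempty := by
      rw [← Finset.card_pos]
      omega
    obtain ⟨haA, haB⟩ := Finset.mem_sdiff.mp ha
    have h1 := hind a haA
    obtain ⟨b, hbB, hb⟩ : ∃ b ∈ B, ¬ Cl G ((A.erase a : Finset Ω) : Set Ω) b := by
      by_contra hc
      push Not at hc
      apply h1
      intro g hg
      apply hsp a haA
      intro s hs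
      exact hc s (by simpa using hs) g hg
    have hbA' : b ∉ A.erase a := by
      intro hb'
      apply hb
      intro g hg
      exact hg b (Finset.mem_coe.mpr hb')
    have hcard : (insert b (A.erase a)).card = A.card := by
      rw [Finset.card_insert_of_notMem hbA', Finset.card_erase_of_mem haA]
      have : 0 < A.card := Finset.card_pos.mpr ⟨a, haA⟩
      omega
    have hsd : insert b (A.erase a) \ B = (A \ B).erase a := by
      ext y
      simp only [Finset.mem_sdiff, Finset.mem_insert, Finset.mem_erase]
      constructor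
      · rintro ⟨h | h, h2⟩
        · subst h
          exact absurd hbB h2
        · exact ⟨h.1, h.2, h2⟩
      · rintro ⟨h1, h2, h3⟩
        exact ⟨Or.inr ⟨h1, h2⟩, h3⟩
    have := ih (insert b (A.erase a)) (by
      rw [hsd, Finset.card_erase_of_mem ha, h0]
      rfl) ?_ ?_
    · rwa [hcard] at this
    · intro x hx
      rcases Finset.mem_insert.mp hx with rfl | hx'
      · rw [Finset.erase_insert hbA']
        exact hb
      · have hxb : x ≠ b := fun e => hbA' (e ▸ hx')
        have e1 : (insert b (A.erase a)).erase x = insert b ((A.erase a).erase x) :=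
          Finset.erase_insert_of_ne (Ne.symm hxb)
        rw [e1]
        apply hex
        · intro hcl
          have hxA : x ∈ A := Finset.mem_of_mem_erase hx'
          apply hind x hxA
          intro g hg
          apply hcl
          intro s hs
          apply hg
          have hs' : s ∈ (A.erase a).erase x := Finset.mem_coe.mp hs
          have h3 := Finset.mem_erase.mp hs'
          have h4 := Finset.mem_erase.mp h3.2
          exact Finset.mem_coe.mpr (Finset.mem_erase.mpr ⟨h3.1, h4.2⟩)
        · rw [Finset.insert_erase hx']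
          exact hb
    · intro y hy
      rcases Finset.mem_insert.mp hy with rfl | hy'
      · intro g hg
        exact hg _ hbB
      · exact hsp y (Finset.mem_of_mem_erase hy')

/-- Let a finite group G act on a finite set Ω. An irredundant base is a sequence of points ω₁, …, ω_t whose pointwise stabiliser is trivial and in which each ω_i is moved by some element fixing ω₁, …, ω_{i−1}. Then all irredundant bases have the same length if and only if every reordering of an irredundant base is again an irredundant base. -/
theorem result {G Ω : Type*} [Group G] [Finite G] [MulAction G Ω] [Fintype Ω] :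
    (∀ (t t' : ℕ) (f : Fin t → Ω) (f' : Fin t' → Ω), ((∀ g : G, (∀ i : Fin t, g • f i = f i) → g = 1) ∧ ∀ i : Fin t, ∃ g : G, (∀ j : Fin t, j < i → g • f j = f j) ∧ g • f i ≠ f i) → ((∀ g : G, (∀ i : Fin t', g • f' i = f' i) → g = 1) ∧ ∀ i : Fin t', ∃ g : G, (∀ j : Fin t', j < i → g • f' j = f' j) ∧ g • f' i ≠ f' i) → t = t') ↔
    (∀ (t : ℕ) (f : Fin t → Ω) (σ : Equiv.Perm (Fin t)), ((∀ g : G, (∀ i : Fin t, g • f i = f i) → g = 1) ∧ ∀ i : Fin t, ∃ g : G, (∀ j : Fin t, j < i → g • f j = f j) ∧ g • f i ≠ f i) → ((∀ g : G, (∀ i : Fin t, g • (f ∘ σ) i = (f ∘ σ) i) → g = 1) ∧ ∀ i : Fin t, ∃ g : G, (∀ j : Fin t, j < i → g • (f ∘ σ) j = (f ∘ σ) j) ∧ g • (f ∘ σ) i ≠ (f ∘ σ) i)) := by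
  classical
  constructor
  · -- equal length implies reordering
    intro h t f σ hf
    have hb : ∀ g : G, (∀ i : Fin t, g • (f ∘ σ) i = (f ∘ σ) i) → g = 1 := by
      intro g hg
      apply hf.1
      intro i
      have := hg (σ.symm i)
      simpa using this
    by_contra hc
    obtain ⟨_, h2⟩ := exists_irr_le t (f ∘ σ) hb
    obtain ⟨t', f', h3, h4⟩ := h2 hc
    have := h t t' f f' hf h4
    omega
  · -- reordering implies equal length
    intro hyp
    have main : ∀ (t t' : ℕ) (f : Fin t → Ω) (f' : Fin t' → Ω), Irr G f → Irr G f' → t ≤ t' := by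
      intro t t' f f' hf hf'
      have hfaith : ∀ g : G, (∀ x : Ω, g • x = x) → g = 1 := fun g hg => hf.1 g (fun i => hg _)
      have hinj : Function.Injective f := by
        have key : ∀ i j : Fin t, j < i → f i ≠ f j := by
          intro i j hji e
          obtain ⟨g, hg1, hg2⟩ := hf.2 i
          apply hg2
          rw [e]
          exact hg1 j hji
        intro i j e
        by_contra hne
        rcases lt_or_gt_of_ne hne with h | h
        · exact key j i h e.symm
        · exact key i j h e
      have h1 := steinitz (G := G) (fun S a b h1 h2 => exchange hyp hfaith S a b h1 h2) (Finset.univ.image f')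
        _ (Finset.univ.image f) rfl ?_ ?_
      · rw [Finset.card_image_of_injective _ hinj, Finset.card_univ, Fintype.card_fin] at h1
        have h2 : (Finset.univ.image f').card ≤ t' := by
          have := Finset.card_image_le (s := (Finset.univ : Finset (Fin t'))) (f := f')
          simpa using this
        omega
      · intro x hx
        obtain ⟨i, _, rfl⟩ := Finset.mem_image.mp hx
        have htpos : 0 < t := i.pos
        let l : Fin t := ⟨t - 1, by omega⟩
        have hI := hyp t f (Equiv.swap i l) hf
        obtain ⟨g, hg1, hg2⟩ := hI.2 l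
        simp only [Function.comp, Equiv.swap_apply_right] at hg2
        intro hcl
        apply hg2
        apply hcl
        intro y hy
        have hy' : y ∈ (Finset.univ.image f).erase (f i) := Finset.mem_coe.mp hy
        obtain ⟨hy1, hy2⟩ := Finset.mem_erase.mp hy'
        obtain ⟨k, _, rfl⟩ := Finset.mem_image.mp hy2
        have hki : k ≠ i := fun e => hy1 (by rw [e])
        have hlt : (Equiv.swap i l) k < l := by
          have hne : (Equiv.swap i l) k ≠ l := by
            intro e
            apply hki
            have := congrArg (Equiv.swap i l) e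
            simpa using this
          have h3 : ((Equiv.swap i l) k : ℕ) ≠ t - 1 := fun e => hne (Fin.ext e)
          have h4 := ((Equiv.swap i l) k).2
          show ((Equiv.swap i l) k : ℕ) < t - 1
          omega
        have := hg1 _ hlt
        simpa using this
      · intro a _ g hg
        have : g = 1 := hf'.1 g (fun i => hg _ (by simp))
        rw [this, one_smul]
    intro t t' f f' hf hf'
    exact le_antisymm (main t t' f f' hf hf') (main t' t f' f hf' hf)

end Cfsg.Agent.S5747
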