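import Mathlib
import Cfsg.Agent.Lib.ClassGeo.Witt
import Cfsg.Statements.S5754
-- import your own Cfsg.Agent.* helpers here

set_option autoImplicit false
open Cfsg

namespace Cfsg.Agent.S5754

variable {F V : Type*} [Field F] [AddCommGroup V] [Module F V] (Q : QuadraticForm F V)

theorem q_sub (a b : V) : Q (a - b) = Q a + Q b - QuadraticMap.polar (⇑Q) a b := by
  have h1 : QuadraticMap.polar (⇑Q) a (-b) = Q (a + -b) - Q a - Q (-b) := rfl
  rw [QuadraticMap.polar_neg_right, QuadraticMap.map_neg] at h1
  rw [sub_eq_add_neg a b]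
  linear_combination -h1

theorem q_lin {n : ℕ} (v v' : Fin n → V) (hq : ∀ i, Q (v i) = Q (v' i))
    (hp : ∀ i j, QuadraticMap.polar (⇑Q) (v i) (v j) = QuadraticMap.polar (⇑Q) (v' i) (v' j)) (c : Fin n → F) (s : Finset (Fin n)) :
    Q (∑ i ∈ s, c i • v i) = Q (∑ i ∈ s, c i • v' i) := by
  classical
  have hpol : ∀ (w : Fin n → V) (j : V) (s : Finset (Fin n)), QuadraticMap.polar (⇑Q) (∑ i ∈ s, c i • w i) j = ∑ i ∈ s, c i * QuadraticMap.polar (⇑Q) (w i) j := by
    intro w j s
    have h : QuadraticMap.polar (⇑Q) (∑ i ∈ s, c i • w i) j = (QuadraticMap.polarBilin Q (∑ i ∈ s, c i • w i)) j := rfl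
    rw [h, map_sum, LinearMap.sum_apply]
    apply Finset.sum_congr rfl
    intro i _
    rw [map_smul, LinearMap.smul_apply, QuadraticMap.polarBilin_apply_apply, smul_eq_mul]
  induction s using Finset.induction_on with
  | empty => simp
  | insert a s ha ih =>
    rw [Finset.sum_insert ha, Finset.sum_insert ha]
    have e : ∀ (x y : V), Q (x + y) = QuadraticMap.polar (⇑Q) x y + Q x + Q y := by
      intro x y
      simp only [QuadraticMap.polar]
      ring
    rw [e, e, ih, QuadraticMap.map_smul, QuadraticMap.map_smul, hq]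
    congr 2
    rw [QuadraticMap.polar_smul_left, QuadraticMap.polar_smul_left]
    rw [QuadraticMap.polar_comm, QuadraticMap.polar_comm (⇑Q) (v' a)]
    rw [hpol, hpol]
    congr 1
    apply Finset.sum_congr rfl
    intro i _
    rw [hp]

/-- Let V be a finite-dimensional vector space over a finite field F carrying an anisotropic quadratic form Q (Q(v) = 0 only for v = 0). Then the group of all maps v ↦ φ(v) + c, with φ an isometry of Q and c ∈ V, acts on V as a binary permutation group: given n ≥ 2 and two n-tuples u, u' of vectors such that every pair of corresponding entries of u is carried to that of u' by such a map, one such map carries u to u'. -/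
theorem result {F V : Type*} [Field F] [Finite F] [AddCommGroup V] [Module F V] [Module.Finite F V]
    (Q : QuadraticForm F V) (hQ : Q.Anisotropic) (n : ℕ) (hn : 2 ≤ n) (u u' : Fin n → V)
    (h2 : ∀ i j : Fin n, i ≠ j → ∃ (φ : Q.IsometryEquiv Q) (c : V), φ (u i) + c = u' i ∧ φ (u j) + c = u' j) :
    ∃ (φ : Q.IsometryEquiv Q) (c : V), ∀ i, φ (u i) + c = u' i := by
  classical
  have hpair : ∀ i j, Q (u' i - u' j) = Q (u i - u j) := by
    intro i j
    by_cases hij : i = j
    · subst hij
      simp
    · obtain ⟨φ, c, h1, h3⟩ := h2 i j hij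
      have : u' i - u' j = φ (u i - u j) := by
        rw [map_sub, ← h1, ← h3]
        abel
      rw [this]
      exact φ.map_app _
  let i₀ : Fin n := ⟨0, by omega⟩
  by_cases hr : ∀ r : V, (∀ y, QuadraticMap.polar (⇑Q) r y = 0) → r = 0
  · -- nondegenerate
    have hnd : (QuadraticMap.polarBilin Q).Nondegenerate := by
      refine ⟨fun r h => hr r h, fun r h => hr r (fun y => ?_)⟩
      rw [QuadraticMap.polar_comm]
      exact h y
    let v : Fin n → V := fun i => u i - u i₀
    let v' : Fin n → V := fun i => u' i - u' i₀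
    have hq : ∀ i, Q (v i) = Q (v' i) := fun i => (hpair i i₀).symm
    have hsub : ∀ i j, Q (v i - v j) = Q (v' i - v' j) := by
      intro i j
      have e1 : v i - v j = u i - u j := by simp only [v]; abel
      have e2 : v' i - v' j = u' i - u' j := by simp only [v']; abel
      rw [e1, e2, hpair]
    have hp : ∀ i j, QuadraticMap.polar (⇑Q) (v i) (v j) = QuadraticMap.polar (⇑Q) (v' i) (v' j) := by
      intro i j
      have h3 := q_sub Q (v i) (v j)
      have h4 := q_sub Q (v' i) (v' j)
      rw [hsub, h4, hq, hq] at h3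
      linear_combination h3
    let L : (Fin n → F) →ₗ[F] V := Fintype.linearCombination F v
    let L' : (Fin n → F) →ₗ[F] V := Fintype.linearCombination F v'
    have hLapp : ∀ c, L c = ∑ i, c i • v i := fun c => by simp [L, Fintype.linearCombination_apply]
    have hL'app : ∀ c, L' c = ∑ i, c i • v' i := fun c => by simp [L', Fintype.linearCombination_apply]
    have hQL : ∀ c, Q (L c) = Q (L' c) := by
      intro c
      rw [hLapp, hL'app]
      exact q_lin Q v v' hq hp c _
    have hker : ∀ c, L c = 0 → L' c = 0 := by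
      intro c hc
      apply hQ
      rw [← hQL, hc, QuadraticMap.map_zero]
    -- a section
    obtain ⟨s, hs⟩ := LinearMap.exists_rightInverse_of_surjective L.rangeRestrict (LinearMap.range_rangeRestrict L)
    let φ : (LinearMap.range L) →ₗ[F] V := L' ∘ₗ s
    have hφ : ∀ c, φ (L.rangeRestrict c) = L' c := by
      intro c
      have h3 : L.rangeRestrict (s (L.rangeRestrict c)) = L.rangeRestrict c := by
        exact LinearMap.congr_fun hs (L.rangeRestrict c)
      have h4 : L (s (L.rangeRestrict c) - c) = 0 := by
        have h5 : L (s (L.rangeRestrict c)) = L c := congrArg Subtype.val h3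
        rw [map_sub, h5, sub_self]
      have h6 := hker _ h4
      rw [map_sub, sub_eq_zero] at h6
      exact h6
    have hiso : ∀ x : LinearMap.range L, Q (φ x) = Q x := by
      rintro ⟨x, c, rfl⟩
      have : (⟨L c, c, rfl⟩ : LinearMap.range L) = L.rangeRestrict c := rfl
      rw [this, hφ, ← hQL]
      rfl
    have hinj : Function.Injective φ := by
      rw [← LinearMap.ker_eq_bot, LinearMap.ker_eq_bot']
      intro x hx
      have h3 := hiso x
      rw [hx, QuadraticMap.map_zero] at h3
      exact Subtype.ext (hQ _ h3.symm)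
    obtain ⟨g, hg, hgφ⟩ := CfsgLib.ClassGeo.quad_witt Q hnd (LinearMap.range L) φ hinj hiso
    refine ⟨{ g with map_app' := hg }, u' i₀ - g (u i₀), ?_⟩
    intro i
    have h3 : v i = L (Pi.single i 1) := by
      rw [hLapp]
      simp [Pi.single_apply, ite_smul]
    have h4 : L' (Pi.single i 1) = v' i := by
      rw [hL'app]
      simp [Pi.single_apply, ite_smul]
    have h5 := hgφ (L.rangeRestrict (Pi.single i 1))
    rw [hφ, h4] at h5
    have h6 : g (v i) = v' i := by
      rw [← h5, h3]
      rfl
    show g (u i) + (u' i₀ - g (u i₀)) = u' i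
    simp only [v, v', map_sub] at h6
    rw [add_sub_assoc']
    rw [sub_eq_iff_eq_add] at h6 ⊢
    rw [h6]
    abel
  · -- a radical vector
    push Not at hr
    obtain ⟨r, hr1, hr0⟩ := hr
    have hQr : Q r ≠ 0 := fun h => hr0 (hQ r h)
    have h2F : (2 : F) = 0 := by
      have h3 := hr1 r
      rw [QuadraticMap.polar_self] at h3
      by_contra hc
      have h4 : (2 : F) * Q r = 0 := by
        rw [two_mul, ← two_smul ℕ]
        exact h3
      exact (mul_ne_zero hc hQr) h4
    have hsq : ∀ a : F, ∃ d : F, d * d = a := by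
      intro a
      letI := Fintype.ofFinite F
      have hc : ringChar F = 2 := CharP.ringChar_of_prime_eq_zero Nat.prime_two (by simpa using h2F)
      obtain ⟨d, hd⟩ := FiniteField.isSquare_of_char_two hc a
      exact ⟨d, hd.symm⟩
    have hV : ∀ v : V, ∃ d : F, v = d • r := by
      intro v
      obtain ⟨d, hd⟩ := hsq (Q v / Q r)
      refine ⟨d, ?_⟩
      have h3 : Q (v + d • r) = 0 := by
        have e : Q (v + d • r) = QuadraticMap.polar (⇑Q) v (d • r) + Q v + Q (d • r) := by
          simp only [QuadraticMap.polar]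
          ring
        rw [e, QuadraticMap.polar_smul_right, QuadraticMap.polar_comm, hr1, QuadraticMap.map_smul]
        simp only [smul_eq_mul, mul_zero, zero_add]
        rw [hd]
        field_simp
        linear_combination (Q v) * h2F
      have h4 := hQ _ h3
      have h5 : ∀ x : V, x + x = 0 := by
        intro x
        rw [← two_smul F x, h2F, zero_smul]
      have h6 := h5 (d • r)
      exact add_eq_zero_iff_eq_neg.mp h4 |>.trans (neg_eq_of_add_eq_zero_left h6)
    have hB0 : ∀ a b : V, QuadraticMap.polar (⇑Q) a b = 0 := by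
      intro a b
      obtain ⟨d, rfl⟩ := hV a
      rw [QuadraticMap.polar_smul_left, hr1, smul_zero]
    refine ⟨QuadraticMap.IsometryEquiv.refl Q, u' i₀ - u i₀, ?_⟩
    intro i
    show u i + (u' i₀ - u i₀) = u' i
    have h3 := q_sub Q (u' i - u' i₀) (u i - u i₀)
    rw [hB0, sub_zero, hpair] at h3
    have h4 : Q (u' i - u' i₀ - (u i - u i₀)) = 0 := by
      rw [h3]
      linear_combination (Q (u i - u i₀)) * h2F
    have h5 := hQ _ h4
    have h6 : u' i = u i + (u' i₀ - u i₀) := by
      rw [sub_eq_zero] at h5
      rw [sub_eq_iff_eq_add] at h5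
      rw [h5]
      abel
    exact h6.symm

end Cfsg.Agent.S5754
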