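import Mathlib
import Cfsg.Statements.S5763
-- import your own Cfsg.Agent.* helpers here

set_option autoImplicit false
open Cfsg

namespace Cfsg.Agent.S5763


/-- Level of a pair of points. -/
def lev (a b : ℕ) : ℕ := Nat.log2 (a ^^^ b)

/-- The isometries of the ultrametric on eight points. -/
def H0 : Subgroup (Equiv.Perm (Fin 8)) where
  carrier := {σ | ∀ i j : Fin 8, lev (σ i) (σ j) = lev i j}
  mul_mem' := by
    intro a b ha hb i j
    rw [Equiv.Perm.mul_apply, Equiv.Perm.mul_apply, ha, hb]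
  one_mem' := by
    intro i j
    rfl
  inv_mem' := by
    intro a ha i j
    have := ha (a⁻¹ i) (a⁻¹ j)
    have e1 : ∀ k, a (a⁻¹ k) = k := fun k => by simp
    rw [e1, e1] at this
    exact this.symm

theorem mem_H0 (σ : Equiv.Perm (Fin 8)) : σ ∈ H0 ↔ ∀ i j : Fin 8, lev (σ i) (σ j) = lev i j := Iff.rfl

/-- The entries of a word. -/
def gw (U i : ℕ) : ℕ := (U >>> (3 * i)) % 8

def cands : List ℕ := [14570689, 11789505, 9925825, 14599816, 16406152, 16434376, 16434817, 6852524, 5017068, 6823845, 4988389, 2206526, 2177406, 371511, 342391]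

def hw : List ℕ := [16434824, 14599816, 16406152, 14571144, 11789960, 9954952, 11761288, 9926280, 16434376, 14599368, 16405704, 14570696, 11789512, 9954504, 11760840, 9925832, 16434817, 14599809, 16406145, 14571137, 11789953, 9954945, 11761281, 9926273, 16434369, 14599361, 16405697, 14570689, 11789505, 9954497, 11760833, 9925825, 16433690, 14598682, 16405018, 14570010, 11788826, 9953818, 11760154, 9925146, 16433242, 14598234, 16404570, 14569562, 11788378, 9953370, 11759706, 9924698, 16433683, 14598675, 16405011, 14570003, 11788819, 9953811, 11760147, 9925139, 16433235, 14598227, 16404563, 14569555, 11788371, 9953363, 11759699, 9924691, 6852524, 5017516, 6823852, 4988844, 2207660, 372652, 2178988, 343980, 6852076, 5017068, 6823404, 4988396, 2207212, 372204, 2178540, 343532, 6852517, 5017509, 6823845, 4988837, 2207653, 372645, 2178981, 343973, 6852069, 5017061, 6823397, 4988389, 2207205, 372197, 2178533,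 343525, 6851390, 5016382, 6822718, 4987710, 2206526, 371518, 2177854, 342846, 6850942, 5015934, 6822270, 4987262, 2206078, 371070, 2177406, 342398, 6851383, 5016375, 6822711, 4987703, 2206519, 371511, 2177847, 342839, 6850935, 5015927, 6822263, 4987255, 2206071, 371063, 2177399, 342391]

def r8 : List ℕ := List.range 8

/-- A word is a permutation in `H0`. -/
def validW (U : ℕ) : Bool :=
  r8.all fun s => r8.all fun t => ((gw U s == gw U t) == (s == t)) && lev (gw U s) (gw U t) == lev s t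

def okW (W U : ℕ) : Bool :=
  r8.all fun s => r8.all fun t => lev (gw W (gw U s)) (gw W (gw U t)) == lev (gw W s) (gw W t)

def chkW (W : ℕ) : Bool := cands.any (okW W)

def wordOf (a0 a1 a2 a3 a4 a5 a6 a7 : ℕ) : ℕ :=
  a0 + 8 * (a1 + 8 * (a2 + 8 * (a3 + 8 * (a4 + 8 * (a5 + 8 * (a6 + 8 * a7))))))

def outer : Bool :=
  r8.all fun a0 =>
  r8.all fun a1 => !(Nat.blt a0 a1) ||
  r8.all fun a2 => !(Nat.blt a0 a2) || a2 == a1 ||
  r8.all fun a3 => !(Nat.blt a2 a3) || a3 == a0 || a3 == a1 ||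
  r8.all fun a4 => !(Nat.blt a0 a4) || a4 == a1 || a4 == a2 || a4 == a3 ||
  r8.all fun a5 => !(Nat.blt a4 a5) || a5 == a0 || a5 == a1 || a5 == a2 || a5 == a3 ||
  r8.all fun a6 => !(Nat.blt a4 a6) || a6 == a0 || a6 == a1 || a6 == a2 || a6 == a3 || a6 == a5 ||
  r8.all fun a7 => !(Nat.blt a6 a7) || a7 == a0 || a7 == a1 || a7 == a2 || a7 == a3 || a7 == a4 || a7 == a5 ||
  chkW (wordOf a0 a1 a2 a3 a4 a5 a6 a7)

theorem outer_true : outer = true := by decide +kernel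

theorem mem_r8 (i : Fin 8) : (i : ℕ) ∈ r8 := List.mem_range.2 i.isLt

theorem exists_perm (U : ℕ) (h : validW U = true) :
    ∃ c : Equiv.Perm (Fin 8), c ∈ H0 ∧ ∀ i : Fin 8, (c i : ℕ) = gw U i := by
  have hv : ∀ s t : Fin 8, ((gw U s == gw U t) == ((s : ℕ) == t)) = true ∧ (lev (gw U s) (gw U t) == lev s t) = true := by
    intro s t
    have h1 := List.all_eq_true.1 h s (mem_r8 s)
    have h2 := List.all_eq_true.1 h1 t (mem_r8 t)
    simpa only [Bool.and_eq_true] using h2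
  let f : Fin 8 → Fin 8 := fun i => ⟨gw U i, Nat.mod_lt _ (by norm_num)⟩
  have hf : Function.Injective f := by
    intro i j hij
    have h1 : gw U i = gw U j := congrArg Fin.val hij
    have h2 := (hv i j).1
    rw [h1] at h2
    simp only [beq_self_eq_true, beq_iff_eq] at h2
    have h3 : (true : Bool) = ((i : ℕ) == j) := by simpa using h2
    exact Fin.ext (by simpa using h3.symm)
  let c : Equiv.Perm (Fin 8) := Equiv.ofBijective f (Finite.injective_iff_bijective.1 hf)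
  refine ⟨c, ?_, fun i => rfl⟩
  intro i j
  have h2 := (hv i j).2
  exact beq_iff_eq.1 h2

theorem wordOf_gw (a : Fin 8 → ℕ) (h : ∀ i, a i < 8) (i : Fin 8) :
    gw (wordOf (a 0) (a 1) (a 2) (a 3) (a 4) (a 5) (a 6) (a 7)) i = a i := by
  have h0 := h 0
  have h1 := h 1
  have h2 := h 2
  have h3 := h 3
  have h4 := h 4
  have h5 := h 5
  have h6 := h 6
  have h7 := h 7
  unfold gw wordOf
  rw [Nat.shiftRight_eq_div_pow]
  fin_cases i <;> simp only [Fin.mk_zero, Fin.mk_one, Fin.reduceFinMk] <;> norm_num <;> omega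

theorem word_eq (U : ℕ) (hU : U < 8 ^ 8) : U = wordOf (gw U 0) (gw U 1) (gw U 2) (gw U 3) (gw U 4) (gw U 5) (gw U 6) (gw U 7) := by
  unfold gw wordOf
  simp only [Nat.shiftRight_eq_div_pow]
  norm_num at hU ⊢
  omega

theorem hw_valid : ∀ U ∈ hw, validW U = true ∧ U < 8 ^ 8 := by decide +kernel

theorem hw_nodup : hw.Nodup := by decide +kernel

theorem hw_length : hw.length = 128 := by decide +kernel

theorem cands_valid : ∀ U ∈ cands, validW U = true ∧ r8.any (fun s => gw U s != s) = true := by decide +kernel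

theorem card_lower : 128 ≤ Nat.card H0 := by
  classical
  choose! c hc1 hc2 using fun U (h : U ∈ hw) => exists_perm U (hw_valid U h).1
  let f : {U // U ∈ hw.toFinset} → H0 := fun U =>
    ⟨c U.1, hc1 U.1 (List.mem_toFinset.1 U.2)⟩
  have hf : Function.Injective f := by
    rintro ⟨U, hU⟩ ⟨U', hU'⟩ h
    have hU1 := List.mem_toFinset.1 hU
    have hU2 := List.mem_toFinset.1 hU'
    have h1 : c U = c U' := congrArg Subtype.val h
    have h2 : ∀ i : Fin 8, gw U i = gw U' i := by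
      intro i
      rw [← hc2 U hU1 i, ← hc2 U' hU2 i, h1]
    apply Subtype.ext
    show U = U'
    rw [word_eq U (hw_valid U hU1).2, word_eq U' (hw_valid U' hU2).2]
    have e := fun i : Fin 8 => h2 i
    have e0 := e 0
    have e1 := e 1
    have e2 := e 2
    have e3 := e 3
    have e4 := e 4
    have e5 := e 5
    have e6 := e 6
    have e7 := e 7
    simp only [Fin.val_zero, Fin.val_one, Fin.isValue] at e0 e1
    have e2' : gw U 2 = gw U' 2 := e2
    have e3' : gw U 3 = gw U' 3 := e3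
    have e4' : gw U 4 = gw U' 4 := e4
    have e5' : gw U 5 = gw U' 5 := e5
    have e6' : gw U 6 = gw U' 6 := e6
    have e7' : gw U 7 = gw U' 7 := e7
    rw [e0, e1, e2', e3', e4', e5', e6', e7']
  have h1 := Nat.card_le_card_of_injective f hf
  have h2 : Nat.card {U // U ∈ hw.toFinset} = 128 := by
    rw [Nat.card_eq_fintype_card, Fintype.card_coe, List.toFinset_card_of_nodup hw_nodup, hw_length]
  omega

/-- The set of quadruples. -/
def Q4 : Finset (Fin 8 × Fin 8 × Fin 8 × Fin 8) :=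
  Finset.univ.filter fun x => lev x.1 x.2.1 = 1 ∧ lev x.1 x.2.2.1 = 2 ∧ lev x.2.2.1 x.2.2.2 = 1

theorem Q4_card : Q4.card = 128 := by decide +kernel

theorem pair_unique : ∀ a b b' : Fin 8, a ≠ b → a ≠ b' → lev a b = 0 → lev a b' = 0 → b = b' := by decide +kernel

theorem card_upper : Nat.card H0 ≤ 128 := by
  classical
  let f : H0 → {x // x ∈ Q4} := fun σ =>
    ⟨(σ.1 0, σ.1 2, σ.1 4, σ.1 6), by
      have h := σ.2
      rw [mem_H0] at h
      simp only [Q4, Finset.mem_filter, Finset.mem_univ, true_and]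
      refine ⟨(h 0 2).trans (by decide +kernel), (h 0 4).trans (by decide +kernel), (h 4 6).trans (by decide +kernel)⟩⟩
  have hf : Function.Injective f := by
    rintro ⟨σ, hσ⟩ ⟨τ, hτ⟩ h
    have h0 : σ 0 = τ 0 := congrArg (fun x => x.1.1) h
    have h2 : σ 2 = τ 2 := congrArg (fun x => x.1.2.1) h
    have h4 : σ 4 = τ 4 := congrArg (fun x => x.1.2.2.1) h
    have h6 : σ 6 = τ 6 := congrArg (fun x => x.1.2.2.2) h
    rw [mem_H0] at hσ hτ
    have key : ∀ a b : Fin 8, a ≠ b → lev a b = 0 → σ a = τ a → σ b = τ b := by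
      intro a b hab hl hs
      apply pair_unique (σ a)
      · exact fun e => hab (σ.injective e)
      · rw [hs]
        exact fun e => hab (τ.injective e)
      · rw [hσ, hl]
      · rw [hs, hτ, hl]
    have h1 := key 0 1 (by decide) (by decide +kernel) h0
    have h3 := key 2 3 (by decide) (by decide +kernel) h2
    have h5 := key 4 5 (by decide) (by decide +kernel) h4
    have h7 := key 6 7 (by decide) (by decide +kernel) h6
    apply Subtype.ext
    apply Equiv.ext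
    intro i
    fin_cases i <;> assumption
  have h1 := Nat.card_le_card_of_injective f hf
  have h2 : Nat.card {x // x ∈ Q4} = 128 := by
    rw [Nat.card_eq_fintype_card, Fintype.card_coe, Q4_card]
  omega

theorem card_H0 : Nat.card H0 = 128 := le_antisymm card_upper card_lower

theorem exists_sylow_H0 : ∃ S : Sylow 2 (Equiv.Perm (Fin 8)), (S : Subgroup (Equiv.Perm (Fin 8))) = H0 := by
  have hp : IsPGroup 2 H0 := IsPGroup.of_card (n := 7) (by rw [card_H0]; norm_num)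
  obtain ⟨S, hS⟩ := hp.exists_le_sylow
  refine ⟨S, ?_⟩
  symm
  apply Subgroup.eq_of_le_of_card_ge hS
  rw [card_H0]
  obtain ⟨k, hk⟩ := IsPGroup.iff_card.1 S.isPGroup'
  rw [hk]
  have hdvd : Nat.card (S : Subgroup (Equiv.Perm (Fin 8))) ∣ Nat.card (Equiv.Perm (Fin 8)) := Subgroup.card_subgroup_dvd_card _
  rw [hk, Nat.card_eq_fintype_card, Fintype.card_perm, Fintype.card_fin] at hdvd
  by_contra hlt
  push Not at hlt
  have h8 : 8 ≤ k := by
    by_contra h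
    have : 2 ^ k ≤ 2 ^ 7 := Nat.pow_le_pow_right (by norm_num) (by omega)
    omega
  have h9 : 2 ^ 8 ∣ 2 ^ k := pow_dvd_pow 2 h8
  have h10 := h9.trans hdvd
  revert h10
  decide

/-- Lexicographic code. -/
def phi (w : Equiv.Perm (Fin 8)) : ℕ :=
  (w 0 : ℕ) * 8 ^ 7 + (w 1 : ℕ) * 8 ^ 6 + (w 2 : ℕ) * 8 ^ 5 + (w 3 : ℕ) * 8 ^ 4 + (w 4 : ℕ) * 8 ^ 3 + (w 5 : ℕ) * 8 ^ 2 + (w 6 : ℕ) * 8 + (w 7 : ℕ)

set_option maxHeartbeats 4000000 in
open Equiv in
theorem exists_canon (z : Equiv.Perm (Fin 8)) : ∃ h ∈ H0,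
    ((z * h) 0 : ℕ) < (z * h) 1 ∧ ((z * h) 0 : ℕ) < (z * h) 2 ∧ ((z * h) 2 : ℕ) < (z * h) 3 ∧ ((z * h) 0 : ℕ) < (z * h) 4 ∧ ((z * h) 4 : ℕ) < (z * h) 5 ∧ ((z * h) 4 : ℕ) < (z * h) 6 ∧ ((z * h) 6 : ℕ) < (z * h) 7 := by
  obtain ⟨⟨h, hh⟩, hmin⟩ := Finite.exists_min (fun h : H0 => phi (z * h))
  refine ⟨h, hh, ?_⟩
  set w := z * h with hw
  have key : ∀ g ∈ H0, phi w ≤ phi (w * g) := by
    intro g hg
    have := hmin ⟨h * g, H0.mul_mem hh hg⟩
    simpa [hw, mul_assoc] using this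
  have hne : ∀ i j : Fin 8, i ≠ j → (w i : ℕ) ≠ w j := by
    intro i j hij e
    exact hij (w.injective (Fin.ext e))
  have hlt : ∀ i : Fin 8, (w i : ℕ) < 8 := fun i => (w i).isLt
  have b0 := hlt 0
  have b1 := hlt 1
  have b2 := hlt 2
  have b3 := hlt 3
  have b4 := hlt 4
  have b5 := hlt 5
  have b6 := hlt 6
  have b7 := hlt 7
  have kg1 := key (swap 0 1) ((mem_H0 _).2 (by decide +kernel))
  have eg1 : phi (w * (swap 0 1)) = (w 1 : ℕ) * 8 ^ 7 + (w 0 : ℕ) * 8 ^ 6 + (w 2 : ℕ) * 8 ^ 5 + (w 3 : ℕ) * 8 ^ 4 + (w 4 : ℕ) * 8 ^ 3 + (w 5 : ℕ) * 8 ^ 2 + (w 6 : ℕ) * 8 + (w 7 : ℕ) := rfl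
  rw [eg1] at kg1
  have kg2 := key (swap 2 3) ((mem_H0 _).2 (by decide +kernel))
  have eg2 : phi (w * (swap 2 3)) = (w 0 : ℕ) * 8 ^ 7 + (w 1 : ℕ) * 8 ^ 6 + (w 3 : ℕ) * 8 ^ 5 + (w 2 : ℕ) * 8 ^ 4 + (w 4 : ℕ) * 8 ^ 3 + (w 5 : ℕ) * 8 ^ 2 + (w 6 : ℕ) * 8 + (w 7 : ℕ) := rfl
  rw [eg2] at kg2
  have kg3 := key (swap 4 5) ((mem_H0 _).2 (by decide +kernel))
  have eg3 : phi (w * (swap 4 5)) = (w 0 : ℕ) * 8 ^ 7 + (w 1 : ℕ) * 8 ^ 6 + (w 2 : ℕ) * 8 ^ 5 + (w 3 : ℕ) * 8 ^ 4 + (w 5 : ℕ) * 8 ^ 3 + (w 4 : ℕ) * 8 ^ 2 + (w 6 : ℕ) * 8 + (w 7 : ℕ) := rfl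
  rw [eg3] at kg3
  have kg4 := key (swap 6 7) ((mem_H0 _).2 (by decide +kernel))
  have eg4 : phi (w * (swap 6 7)) = (w 0 : ℕ) * 8 ^ 7 + (w 1 : ℕ) * 8 ^ 6 + (w 2 : ℕ) * 8 ^ 5 + (w 3 : ℕ) * 8 ^ 4 + (w 4 : ℕ) * 8 ^ 3 + (w 5 : ℕ) * 8 ^ 2 + (w 7 : ℕ) * 8 + (w 6 : ℕ) := rfl
  rw [eg4] at kg4
  have kg5 := key (swap 0 2 * swap 1 3) ((mem_H0 _).2 (by decide +kernel))
  have eg5 : phi (w * (swap 0 2 * swap 1 3)) = (w 2 : ℕ) * 8 ^ 7 + (w 3 : ℕ) * 8 ^ 6 + (w 0 : ℕ) * 8 ^ 5 + (w 1 : ℕ) * 8 ^ 4 + (w 4 : ℕ) * 8 ^ 3 + (w 5 : ℕ) * 8 ^ 2 + (w 6 : ℕ) * 8 + (w 7 : ℕ) := rfl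
  rw [eg5] at kg5
  have kg6 := key (swap 4 6 * swap 5 7) ((mem_H0 _).2 (by decide +kernel))
  have eg6 : phi (w * (swap 4 6 * swap 5 7)) = (w 0 : ℕ) * 8 ^ 7 + (w 1 : ℕ) * 8 ^ 6 + (w 2 : ℕ) * 8 ^ 5 + (w 3 : ℕ) * 8 ^ 4 + (w 6 : ℕ) * 8 ^ 3 + (w 7 : ℕ) * 8 ^ 2 + (w 4 : ℕ) * 8 + (w 5 : ℕ) := rfl
  rw [eg6] at kg6
  have kg7 := key (swap 0 4 * swap 1 5 * swap 2 6 * swap 3 7) ((mem_H0 _).2 (by decide +kernel))
  have eg7 : phi (w * (swap 0 4 * swap 1 5 * swap 2 6 * swap 3 7)) = (w 4 : ℕ) * 8 ^ 7 + (w 5 : ℕ) * 8 ^ 6 + (w 6 : ℕ) * 8 ^ 5 + (w 7 : ℕ) * 8 ^ 4 + (w 0 : ℕ) * 8 ^ 3 + (w 1 : ℕ) * 8 ^ 2 + (w 2 : ℕ) * 8 + (w 3 : ℕ) := rfl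
  rw [eg7] at kg7
  have hphi : phi w = (w 0 : ℕ) * 8 ^ 7 + (w 1 : ℕ) * 8 ^ 6 + (w 2 : ℕ) * 8 ^ 5 + (w 3 : ℕ) * 8 ^ 4 + (w 4 : ℕ) * 8 ^ 3 + (w 5 : ℕ) * 8 ^ 2 + (w 6 : ℕ) * 8 + (w 7 : ℕ) := rfl
  rw [hphi] at kg1 kg2 kg3 kg4 kg5 kg6 kg7
  have n01 := hne 0 1 (by decide)
  have n02 := hne 0 2 (by decide)
  have n23 := hne 2 3 (by decide)
  have n04 := hne 0 4 (by decide)
  have n45 := hne 4 5 (by decide)
  have n46 := hne 4 6 (by decide)
  have n67 := hne 6 7 (by decide)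
  norm_num at kg1 kg2 kg3 kg4 kg5 kg6 kg7
  refine ⟨?_, ?_, ?_, ?_, ?_, ?_, ?_⟩ <;> omega

theorem canon_case (w : Equiv.Perm (Fin 8))
    (h01 : (w 0 : ℕ) < w 1) (h02 : (w 0 : ℕ) < w 2) (h23 : (w 2 : ℕ) < w 3) (h04 : (w 0 : ℕ) < w 4)
    (h45 : (w 4 : ℕ) < w 5) (h46 : (w 4 : ℕ) < w 6) (h67 : (w 6 : ℕ) < w 7) :
    ∃ c ∈ H0, c ≠ 1 ∧ w * c * w⁻¹ ∈ H0 := by
  have hne : ∀ i j : Fin 8, i ≠ j → ((w i : ℕ) == w j) = false := by
    intro i j hij
    rw [beq_eq_false_iff_ne]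
    intro e
    exact hij (w.injective (Fin.ext e))
  have hblt : ∀ i j : Fin 8, (w i : ℕ) < w j → (!(Nat.blt (w i) (w j))) = false := by
    intro i j hij
    have : Nat.blt (w i) (w j) = true := by
      simpa [Nat.blt_eq] using hij
    rw [this]
    rfl
  have h0 := List.all_eq_true.1 outer_true _ (mem_r8 (w 0))
  have h1 := List.all_eq_true.1 h0 _ (mem_r8 (w 1))
  rw [hblt 0 1 h01, Bool.false_or] at h1
  have h2 := List.all_eq_true.1 h1 _ (mem_r8 (w 2))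
  rw [hblt 0 2 h02, Bool.false_or, hne 2 1 (by decide), Bool.false_or] at h2
  have h3 := List.all_eq_true.1 h2 _ (mem_r8 (w 3))
  rw [hblt 2 3 h23, Bool.false_or, hne 3 0 (by decide), Bool.false_or, hne 3 1 (by decide), Bool.false_or] at h3
  have h4 := List.all_eq_true.1 h3 _ (mem_r8 (w 4))
  rw [hblt 0 4 h04, Bool.false_or, hne 4 1 (by decide), Bool.false_or, hne 4 2 (by decide), Bool.false_or, hne 4 3 (by decide), Bool.false_or] at h4
  have h5 := List.all_eq_true.1 h4 _ (mem_r8 (w 5))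
  rw [hblt 4 5 h45, Bool.false_or, hne 5 0 (by decide), Bool.false_or, hne 5 1 (by decide), Bool.false_or, hne 5 2 (by decide), Bool.false_or, hne 5 3 (by decide), Bool.false_or] at h5
  have h6 := List.all_eq_true.1 h5 _ (mem_r8 (w 6))
  rw [hblt 4 6 h46, Bool.false_or, hne 6 0 (by decide), Bool.false_or, hne 6 1 (by decide), Bool.false_or, hne 6 2 (by decide), Bool.false_or, hne 6 3 (by decide), Bool.false_or, hne 6 5 (by decide), Bool.false_or] at h6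
  have h7 := List.all_eq_true.1 h6 _ (mem_r8 (w 7))
  rw [hblt 6 7 h67, Bool.false_or, hne 7 0 (by decide), Bool.false_or, hne 7 1 (by decide), Bool.false_or, hne 7 2 (by decide), Bool.false_or, hne 7 3 (by decide), Bool.false_or, hne 7 4 (by decide), Bool.false_or, hne 7 5 (by decide), Bool.false_or] at h7
  obtain ⟨U, hU, hok⟩ := List.any_eq_true.1 h7
  obtain ⟨hv, hid⟩ := cands_valid U hU
  obtain ⟨c, hc, hc2⟩ := exists_perm U hv
  have hg : ∀ i : Fin 8, gw (wordOf (w 0) (w 1) (w 2) (w 3) (w 4) (w 5) (w 6) (w 7)) i = w i :=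
    wordOf_gw (fun i => (w i : ℕ)) (fun i => (w i).isLt)
  refine ⟨c, hc, ?_, ?_⟩
  · rintro rfl
    obtain ⟨s, hs, hs2⟩ := List.any_eq_true.1 hid
    have hs3 : s < 8 := List.mem_range.1 hs
    have h5 := hc2 ⟨s, hs3⟩
    have h6 : gw U s = s := by
      rw [← show (gw U ((⟨s, hs3⟩ : Fin 8) : ℕ)) = gw U s from rfl, ← h5]
      rfl
    rw [h6] at hs2
    simp at hs2
  · have hcond : ∀ s t : Fin 8, lev (w (c s)) (w (c t)) = lev (w s) (w t) := by
      intro s t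
      have h8 := List.all_eq_true.1 hok s (mem_r8 s)
      have h9 := List.all_eq_true.1 h8 t (mem_r8 t)
      have h10 := beq_iff_eq.1 h9
      rw [← hc2 s, ← hc2 t, hg, hg, hg, hg] at h10
      exact h10
    intro i j
    have e1 : ∀ k, w (w⁻¹ k) = k := fun k => by simp
    have := hcond (w⁻¹ i) (w⁻¹ j)
    rw [e1, e1] at this
    exact this

theorem main_conj (z : Equiv.Perm (Fin 8)) : ∃ c ∈ H0, c ≠ 1 ∧ z * c * z⁻¹ ∈ H0 := by
  obtain ⟨h, hh, h01, h02, h23, h04, h45, h46, h67⟩ := exists_canon z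
  obtain ⟨c, hc, hc1, hc2⟩ := canon_case (z * h) h01 h02 h23 h04 h45 h46 h67
  refine ⟨h * c * h⁻¹, H0.mul_mem (H0.mul_mem hh hc) (H0.inv_mem hh), ?_, ?_⟩
  · intro e
    apply hc1
    have : c = h⁻¹ * (h * c * h⁻¹) * h := by group
    rw [this, e]
    group
  · have : z * (h * c * h⁻¹) * z⁻¹ = z * h * c * (z * h)⁻¹ := by group
    rw [this]
    exact hc2

/-- In the symmetric group on 8 letters any two Sylow 2-subgroups have non-trivial intersection: for a Sylow 2-subgroup H and every element x, H ∩ xHx⁻¹ ≠ 1. -/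
theorem result (H : Sylow 2 (Equiv.Perm (Fin 8))) (x : Equiv.Perm (Fin 8)) :
    (H : Subgroup (Equiv.Perm (Fin 8))) ⊓ (H : Subgroup (Equiv.Perm (Fin 8))).map (MulAut.conj x).toMonoidHom ≠ ⊥ := by
  obtain ⟨S₀, hS₀⟩ := exists_sylow_H0
  obtain ⟨g, hg⟩ := MulAction.exists_smul_eq (Equiv.Perm (Fin 8)) S₀ H
  have hH : ∀ v, v ∈ (H : Subgroup (Equiv.Perm (Fin 8))) ↔ g⁻¹ * v * g ∈ H0 := by
    intro v
    rw [← hg, Sylow.coe_subgroup_smul, hS₀, Subgroup.mem_pointwise_smul_iff_inv_smul_mem]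
    have : (MulAut.conj g)⁻¹ • v = g⁻¹ * v * g := by
      simp [MulAut.smul_def]
    rw [this]
  set y := g⁻¹ * x * g with hy
  obtain ⟨c, hc, hc1, hc2⟩ := main_conj y⁻¹
  intro hbot
  have hmem : g * c * g⁻¹ ∈ (H : Subgroup (Equiv.Perm (Fin 8))) ⊓ (H : Subgroup (Equiv.Perm (Fin 8))).map (MulAut.conj x).toMonoidHom := by
    constructor
    · show _ ∈ (H : Subgroup (Equiv.Perm (Fin 8)))
      rw [hH]
      have : g⁻¹ * (g * c * g⁻¹) * g = c := by group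
      rw [this]
      exact hc
    · refine ⟨x⁻¹ * (g * c * g⁻¹) * x, ?_, ?_⟩
      · show _ ∈ (H : Subgroup (Equiv.Perm (Fin 8)))
        rw [hH]
        have : g⁻¹ * (x⁻¹ * (g * c * g⁻¹) * x) * g = y⁻¹ * c * y⁻¹⁻¹ := by
          rw [hy]
          group
        rw [this]
        exact hc2
      · show (MulAut.conj x) _ = _
        rw [MulAut.conj_apply]
        group
  rw [hbot, Subgroup.mem_bot] at hmem
  apply hc1
  have : c = g⁻¹ * (g * c * g⁻¹) * g := by group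
  rw [this, hmem]
  group

end Cfsg.Agent.S5763
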