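import Mathlib
import Cfsg.Agent.Lib.Dickson.CoCases
import Cfsg.Agent.Lib.Dickson.SubMax
import Cfsg.Statements.S5893
-- import your own Cfsg.Agent.* helpers here

set_option autoImplicit false
open Cfsg

namespace Cfsg.Agent.S5893

/-- Let F be a finite field of even order q ≥ 4 and let M be a maximal subgroup of PSL₂(F) (= SL₂(F) = PGL₂(F)). Then one of the following holds: |M| = q(q − 1) (the stabiliser of a point of the projective line, elementary abelian of order q extended by a cyclic group of order q − 1); M is dihedral of order 2(q − 1); M is dihedral of order 2(q + 1); or q = q₀^r for a prime r with q₀ ≠ 2 and M ≅ PSL₂(F₀) with |F₀| = q₀. -/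
theorem result {F : Type*} [Field F] [Fintype F]
    (heven : Even (Fintype.card F)) (h4 : 4 ≤ Fintype.card F) (M : Subgroup (Matrix.ProjectiveSpecialLinearGroup (Fin 2) F)) (hM : IsCoatom M) :
    Nat.card M = Fintype.card F * (Fintype.card F - 1) ∨
    Nonempty (M ≃* DihedralGroup (Fintype.card F - 1)) ∨
    Nonempty (M ≃* DihedralGroup (Fintype.card F + 1)) ∨
    (∃ (F₀ : Type) (_ : Field F₀) (_ : Fintype F₀) (r : ℕ), r.Prime ∧ Fintype.card F₀ ≠ 2 ∧
        Fintype.card F = Fintype.card F₀ ^ r ∧ Nonempty (M ≃* Matrix.ProjectiveSpecialLinearGroup (Fin 2) F₀)) := by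
  classical
  set q := Fintype.card F with hq
  have hF : Fintype.card F = q := rfl
  have hqe : q % 2 = 0 := Nat.even_iff.1 heven
  obtain ⟨p, hc⟩ := CharP.exists F
  obtain ⟨n, hpp, hn⟩ := FiniteField.card F p
  have hp2 : p = 2 := by
    have h3 : 2 ∣ p ^ (n : ℕ) := by
      rw [← hn]
      exact Nat.dvd_of_mod_eq_zero hqe
    have h4 := hpp.eq_one_or_self_of_dvd 2 ((Nat.prime_two).dvd_of_dvd_pow h3)
    omega
  subst hp2
  haveI : Fact (Nat.Prime 2) := ⟨hpp⟩
  have hd : Nat.gcd 2 (q - 1) = 1 := CfsgLib.Dickson.gcd_two_of_even q hqe (by omega)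
  have hnoinv : ∀ {Γ : Type} [Group Γ] (e : M ≃* Γ) (a : Γ), a ^ 2 = 1 → a ≠ 1 → (∀ g ∈ M, g ≠ 1 → g ^ 2 ≠ 1) → False := by
    intro Γ _ e a h1 h2 h0
    exact h0 _ (e.symm a).2 (CfsgLib.Dickson.ne_one_equiv M e h2) (CfsgLib.Dickson.pow_equiv M e h1)
  rcases CfsgLib.Dickson.coatom_cases hF 2 (by omega) M hM with ⟨x, hx, rfl⟩ | ⟨x, y, ⟨hxy, ρ, w, hρ, hw1, hw2, hk⟩, rfl⟩ | ⟨h0, ⟨e⟩⟩ | ⟨h0, ⟨e⟩⟩ | ⟨h0, ⟨e⟩⟩ | ⟨K, τ, hτ, t, hK3, hmem, hK⟩
  · left
    have := CfsgLib.Dickson.card_stab_rat hF hx
    rwa [hd, mul_one] at this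
  · obtain ⟨hDc, ⟨hDe⟩⟩ := CfsgLib.Dickson.pair_main hxy w hw1 hw2 ρ hρ
    rw [hd, mul_one] at hk
    rcases hk with ⟨h, -⟩ | ⟨h, -⟩
    · right; left
      rw [← h]
      exact ⟨hDe.symm⟩
    · right; right; left
      rw [← h]
      exact ⟨hDe.symm⟩
  · exact (hnoinv e CfsgLib.Present.xA4 (by decide +kernel) (by decide +kernel) h0).elim
  · exact (hnoinv e CfsgLib.Present.xS4 (by decide +kernel) (by decide +kernel) h0).elim
  · rcases h0 with h0 | h0
    · exact (hnoinv e CfsgLib.Present.xA5 (by decide +kernel) (by decide +kernel) h0).elim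
    · omega
  · right; right; right
    obtain ⟨m, hm⟩ := CfsgLib.Dickson.exists_degree K
    rw [← hq] at hm
    set a := Nat.card K with ha
    have hae : a % 2 = 0 := by
      by_contra hh
      have h7 : Odd a := Nat.odd_iff.2 (by omega)
      have h8 : Odd (a ^ m) := h7.pow
      rw [hm] at h8
      have := Nat.odd_iff.1 h8
      omega
    have hda : Nat.gcd 2 (a - 1) = 1 := CfsgLib.Dickson.gcd_two_of_even a hae (by omega)
    have hPK := CfsgLib.Dickson.card_PSL2_nat K
    rw [← ha, hda, mul_one] at hPK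
    have hcM : Nat.card M = (a + 1) * (a * (a - 1)) := by
      rcases CfsgLib.Dickson.card_subfield_cases M K hK with h | h
      · rwa [← ha, hda, mul_one] at h
      · exact h
    have hJM : (CfsgLib.Dickson.thetaC K τ hτ t).range = M := by
      apply Subgroup.eq_of_le_of_card_ge (CfsgLib.Dickson.thetaC_le K τ hτ t M hmem)
      rw [CfsgLib.Dickson.card_thetaC, hPK, hcM]
    have hG := CfsgLib.Dickson.card_PSL2 hF
    rw [hd, mul_one] at hG
    have hprime : m.Prime := by
      by_contra hnp
      rcases m with _ | _ | m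
      · simp at hm
        omega
      · apply hM.1
        exact CfsgLib.Dickson.subfield_full hF M K hK (by rw [← ha, ← hm, zero_add, pow_one])
      · obtain ⟨b, hb, hb1, hb2⟩ := Nat.exists_dvd_of_not_prime (by omega) hnp
        obtain ⟨c, hc'⟩ := hb
        have hb0 : b ≠ 0 := by
          rintro rfl
          simp at hc'
        have hc0 : c ≠ 0 := by
          rintro rfl
          simp at hc'
        have hc1 : c ≠ 1 := by
          rintro rfl
          omega
        obtain ⟨K₁, hle, hK₁⟩ := CfsgLib.Dickson.exists_intermediate 2 K b c hb0 (by rw [← hc', hm])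
        rw [← ha] at hK₁
        have hae1 : a ^ b % 2 = 0 := by
          rw [Nat.pow_mod, hae]
          simp [hb0]
        have hPK1 := CfsgLib.Dickson.card_PSL2_nat K₁
        rw [hK₁, CfsgLib.Dickson.gcd_two_of_even (a ^ b) hae1 (Nat.one_le_pow _ _ (by omega)), mul_one] at hPK1
        have h1a : a < a ^ b := by
          calc a = a ^ 1 := (pow_one a).symm
            _ < a ^ b := Nat.pow_lt_pow_right (by omega) (by omega)
        have h1b : a ^ b < q := by
          rw [← hm, hc', pow_mul]
          calc a ^ b = (a ^ b) ^ 1 := (pow_one _).symm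
            _ < (a ^ b) ^ c := Nat.pow_lt_pow_right (by
              have : 3 ≤ a ^ b := by omega
              omega) (by omega)
        have hJ1 : (CfsgLib.Dickson.thetaC K₁ τ hτ t).range ≠ ⊤ := by
          intro e
          have h2 := CfsgLib.Dickson.card_thetaC K₁ τ hτ t
          rw [e, Subgroup.card_top, hPK1, hG] at h2
          have := CfsgLib.Dickson.num_lt (a ^ b) q (by omega) h1b
          omega
        have hlt : M < (CfsgLib.Dickson.thetaC K₁ τ hτ t).range := by
          refine lt_of_le_of_ne ?_ ?_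
          · rw [← hJM]
            exact CfsgLib.Dickson.thetaC_extend K K₁ hle τ hτ t
          · intro e
            have h2 := CfsgLib.Dickson.card_thetaC K₁ τ hτ t
            rw [← e, hcM, hPK1] at h2
            have := CfsgLib.Dickson.num_lt a (a ^ b) (by omega) h1a
            omega
        exact hJ1 (hM.2 _ hlt)
    obtain ⟨K₀, i1, i2, hcard, ⟨eK⟩⟩ := CfsgLib.Dickson.exists_type0 K
    obtain ⟨e2⟩ := CfsgLib.Dickson.psl_equiv eK
    refine ⟨K₀, i1, i2, m, hprime, ?_, ?_, ?_⟩
    · rw [hcard]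
      omega
    · rw [hcard, hm]
    · exact ⟨(MulEquiv.subgroupCongr hJM.symm).trans ((MonoidHom.ofInjective (CfsgLib.Dickson.thetaC_inj K τ hτ t)).symm.trans e2)⟩

end Cfsg.Agent.S5893
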