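import Mathlib
import Cfsg.Agent.Lib.ClassGeo.SubStabGL
import Cfsg.Statements.S5895
-- import your own Cfsg.Agent.* helpers here

set_option autoImplicit false
open Cfsg

namespace Cfsg.Agent.S5895

theorem coatom_comap {A B : Type*} [Group A] [Group B] (f : A →* B) (hf : Function.Surjective f) {C : Subgroup B}
    (hC : IsCoatom C) : IsCoatom (C.comap f) := by
  constructor
  · intro h
    apply hC.1
    rw [eq_top_iff]
    intro y _
    obtain ⟨x, rfl⟩ := hf y
    have : x ∈ C.comap f := by rw [h]; trivial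
    exact this
  · intro X hX
    have hkerX : f.ker ≤ X := by
      intro a ha
      apply hX.le
      show f a ∈ C
      rw [MonoidHom.mem_ker.mp ha]
      exact C.one_mem
    have h1 : C ≤ X.map f := by
      intro y hy
      obtain ⟨x, rfl⟩ := hf y
      exact ⟨x, hX.le hy, rfl⟩
    have h2 : C ≠ X.map f := by
      intro e
      apply hX.ne
      apply le_antisymm hX.le
      intro a ha
      show f a ∈ C
      rw [e]
      exact ⟨a, ha, rfl⟩
    have h3 : X.map f = ⊤ := hC.2 _ (lt_of_le_of_ne h1 h2)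
    have h4 := Subgroup.comap_map_eq_self hkerX
    rw [← h4, h3, Subgroup.comap_top]

theorem exists_map_ne {F V : Type*} [Field F] [AddCommGroup V] [Module F V] [FiniteDimensional F V] {v w : V} (hv : v ≠ 0) (hw : w ≠ 0) :
    ∃ g : V ≃ₗ[F] V, g v = w := by
  let f : Submodule.span F {v} ≃ₗ[F] Submodule.span F {w} :=
    (LinearEquiv.toSpanNonzeroSingleton F V v hv).symm.trans (LinearEquiv.toSpanNonzeroSingleton F V w hw)
  obtain ⟨g, hg⟩ := Submodule.exists_linearEquiv_restrict_eq f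
  refine ⟨g, ?_⟩
  have h1 := hg ⟨v, Submodule.mem_span_singleton_self v⟩
  have h2 : (LinearEquiv.toSpanNonzeroSingleton F V v hv).symm ⟨v, Submodule.mem_span_singleton_self v⟩ = (1 : F) :=
    (LinearEquiv.symm_apply_eq _).mpr (LinearEquiv.toSpanNonzeroSingleton_one F V v hv).symm
  have h3 : f ⟨v, Submodule.mem_span_singleton_self v⟩ = (LinearEquiv.toSpanNonzeroSingleton F V w hw) 1 := by
    show (LinearEquiv.toSpanNonzeroSingleton F V w hw) ((LinearEquiv.toSpanNonzeroSingleton F V v hv).symm _) = _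
    rw [h2]
  rw [h3] at h1
  rw [show g v = ((LinearEquiv.toSpanNonzeroSingleton F V w hw) 1 : V) from h1.symm]
  simp [LinearEquiv.toSpanNonzeroSingleton_one]

section core

variable {F : Type} [Field F] [Fintype F] (d : ℕ)

local notation "𝕍" => (Fin d → F)
local notation "𝔾" => ((Fin d → F) ≃ᵃ[F] (Fin d → F))

theorem core (hd : 2 ≤ d) : ∃ (M H K : Subgroup 𝔾), IsCoatom M ∧ M.index = Fintype.card F ^ d ∧ H ≤ M ∧
      IsCoatom (H.subgroupOf M) ∧ IsCoatom K ∧ H ≤ K ∧ ¬ IsCoatom (H.subgroupOf K) := by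
  classical
  let i0 : Fin d := ⟨0, by omega⟩
  let i1 : Fin d := ⟨1, by omega⟩
  have hi01 : i1 ≠ i0 := by
    intro e
    have := congrArg Fin.val e
    simp [i0, i1] at this
  let e0 : 𝕍 := Pi.single i0 1
  let e1 : 𝕍 := Pi.single i1 1
  have he0 : e0 ≠ 0 := by
    intro e
    have := congrFun e i0
    simp [e0] at this
  let W : Submodule F 𝕍 := Submodule.span F {e0}
  have he1W : e1 ∉ W := by
    intro h
    obtain ⟨c, hc⟩ := Submodule.mem_span_singleton.mp h
    have := congrFun hc i1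
    simp [e0, e1, Pi.single_apply, hi01] at this
  have he0W : e0 ∈ W := Submodule.mem_span_singleton_self e0
  have hW0 : W ≠ ⊥ := by
    intro e
    rw [e, Submodule.mem_bot] at he0W
    exact he0 he0W
  have hW1 : W ≠ ⊤ := by
    intro e
    apply he1W
    rw [e]
    trivial
  have hcoat : IsCoatom (CfsgLib.ClassGeo.stabGL W) := CfsgLib.ClassGeo.stabGL_isCoatom W hW0 hW1
  let H₀ : Subgroup (𝕍 ≃ₗ[F] 𝕍) := (CfsgLib.ClassGeo.stabGL W).comap (CfsgLib.ClassGeo.glLin (ι := Fin d) (F := F)).symm.toMonoidHom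
  have hH₀ : IsCoatom H₀ := coatom_comap _ (CfsgLib.ClassGeo.glLin (ι := Fin d) (F := F)).symm.surjective hcoat
  have memH₀ : ∀ g : 𝕍 ≃ₗ[F] 𝕍, g ∈ H₀ ↔ ∀ x ∈ W, g x ∈ W := by
    intro g
    show (CfsgLib.ClassGeo.glLin (ι := Fin d) (F := F)).symm g ∈ CfsgLib.ClassGeo.stabGL W ↔ _
    rw [CfsgLib.ClassGeo.mem_stabGL_iff]
    simp only [CfsgLib.ClassGeo.glLin_symm_mulVec]
  have hid : (1 : 𝕍 ≃ₗ[F] 𝕍) ∈ H₀ := H₀.one_mem
  -- basic facts about affine maps
  have hcone : ∀ x : 𝕍, (1 : 𝔾) x = x := fun x => rfl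
  have hcmul : ∀ (f g : 𝔾) (x : 𝕍), (f * g) x = f (g x) := fun f g x => rfl
  have happ : ∀ (f : 𝔾) (x : 𝕍), f x = f.linear x + f 0 := by
    intro f x
    have := f.map_vadd (0 : 𝕍) x
    simpa using this
  have hlmul : ∀ f g : 𝔾, (f * g).linear = f.linear * g.linear := fun f g => map_mul AffineEquiv.linearHom f g
  have hlinv : ∀ f : 𝔾, (f⁻¹).linear = (f.linear)⁻¹ := fun f => map_inv AffineEquiv.linearHom f
  let tr : 𝕍 → 𝔾 := fun v => AffineEquiv.constVAdd F 𝕍 v
  have htr : ∀ v x : 𝕍, tr v x = v + x := fun v x => rfl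
  have htr0 : ∀ v : 𝕍, tr v 0 = v := fun v => by rw [htr, add_zero]
  have hltr : ∀ v : 𝕍, (tr v).linear = 1 := by
    intro v
    ext1 x
    have := happ (tr v) x
    rw [htr, htr0] at this
    have h2 : (tr v).linear x = x := by
      have h3 : v + x = (tr v).linear x + v := this
      rw [add_comm] at h3
      exact (add_right_cancel h3).symm
    exact h2
  -- the action
  letI act : MulAction 𝔾 𝕍 :=
    { smul := fun f x => f x
      one_smul := fun _ => rfl
      mul_smul := fun _ _ _ => rfl }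
  have hsmul : ∀ (f : 𝔾) (x : 𝕍), f • x = f x := fun _ _ => rfl
  let M : Subgroup 𝔾 := MulAction.stabilizer 𝔾 (0 : 𝕍)
  have memM : ∀ f : 𝔾, f ∈ M ↔ f 0 = 0 := fun f => Iff.rfl
  let K : Subgroup 𝔾 := H₀.comap AffineEquiv.linearHom
  have memK : ∀ f : 𝔾, f ∈ K ↔ f.linear ∈ H₀ := fun f => Iff.rfl
  let H : Subgroup 𝔾 := M ⊓ K
  let J : Subgroup 𝔾 :=
    { carrier := {f | f.linear ∈ H₀ ∧ f 0 ∈ W}
      one_mem' := ⟨H₀.one_mem, by
        show (1 : 𝔾) 0 ∈ W
        rw [hcone]
        exact W.zero_mem⟩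
      mul_mem' := by
        rintro f g ⟨h1, h2⟩ ⟨h3, h4⟩
        refine ⟨?_, ?_⟩
        · rw [hlmul]
          exact H₀.mul_mem h1 h3
        · rw [hcmul, happ f (g 0)]
          exact W.add_mem ((memH₀ _).mp h1 _ h4) h2
      inv_mem' := by
        rintro f ⟨h1, h2⟩
        refine ⟨?_, ?_⟩
        · rw [hlinv]
          exact H₀.inv_mem h1
        · have h3 : f (f⁻¹ 0) = 0 := by
            rw [← hcmul, mul_inv_cancel, hcone]
          rw [happ] at h3
          have h4 : f.linear (f⁻¹ 0) = - f 0 := eq_neg_of_add_eq_zero_left h3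
          have h5 : f⁻¹ 0 = (f.linear)⁻¹ (- f 0) := by
            rw [← h4]
            show _ = (f.linear.symm) (f.linear _)
            rw [LinearEquiv.symm_apply_apply]
          rw [h5]
          exact (memH₀ _).mp (H₀.inv_mem h1) _ (W.neg_mem h2) }
  have memJ : ∀ f : 𝔾, f ∈ J ↔ f.linear ∈ H₀ ∧ f 0 ∈ W := fun f => Iff.rfl
  have hLsurj : Function.Surjective (AffineEquiv.linearHom : 𝔾 →* (𝕍 ≃ₗ[F] 𝕍)) := by
    intro g
    exact ⟨g.toAffineEquiv, by
      ext1 x
      rfl⟩
  have hlam0 : ∀ g : 𝕍 ≃ₗ[F] 𝕍, g.toAffineEquiv ∈ M := by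
    intro g
    rw [memM]
    show g 0 = 0
    exact map_zero g
  refine ⟨M, H, K, ?_, ?_, inf_le_left, ?_, ?_, inf_le_right, ?_⟩
  · -- `M` is maximal
    constructor
    · intro h
      have h1 : tr e0 ∈ M := by rw [h]; trivial
      rw [memM, htr0] at h1
      exact he0 h1
    · intro X hX
      obtain ⟨f, hfX, hfM⟩ := SetLike.exists_of_lt hX
      have hw : f 0 ≠ 0 := fun e => hfM ((memM f).mpr e)
      have key : ∀ y : 𝕍, ∃ f' ∈ X, f' 0 = y := by
        intro y
        by_cases hy : y = 0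
        · exact ⟨1, X.one_mem, by rw [hy]; rfl⟩
        · obtain ⟨g, hg⟩ := exists_map_ne (F := F) hw hy
          refine ⟨g.toAffineEquiv * f, X.mul_mem (hX.le (hlam0 g)) hfX, ?_⟩
          rw [hcmul]
          exact hg
      rw [eq_top_iff]
      intro h _
      obtain ⟨f', hf'X, hf'⟩ := key (h 0)
      have h1 : f'⁻¹ * h ∈ M := by
        rw [memM, hcmul, ← hf', ← hcmul, inv_mul_cancel, hcone]
      have h2 := X.mul_mem hf'X (hX.le h1)
      rwa [mul_inv_cancel_left] at h2
  · -- the index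
    show (MulAction.stabilizer 𝔾 (0 : 𝕍)).index = Fintype.card F ^ d
    rw [MulAction.index_stabilizer]
    have h1 : MulAction.orbit 𝔾 (0 : 𝕍) = Set.univ := by
      ext y
      simp only [Set.mem_univ, iff_true]
      exact ⟨tr y, htr0 y⟩
    rw [h1, Set.ncard_univ, Nat.card_eq_fintype_card]
    simp
  · -- `H` is maximal in `M`
    let ψ : M →* (𝕍 ≃ₗ[F] 𝕍) := (AffineEquiv.linearHom : 𝔾 →* (𝕍 ≃ₗ[F] 𝕍)).comp M.subtype
    have hψ : Function.Surjective ψ := by
      intro g
      exact ⟨⟨g.toAffineEquiv, hlam0 g⟩, by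
        ext1 x
        rfl⟩
    have e : H.subgroupOf M = H₀.comap ψ := by
      ext x
      constructor
      · intro hx
        exact hx.2
      · intro hx
        exact ⟨x.2, hx⟩
    rw [e]
    exact coatom_comap ψ hψ hH₀
  · exact coatom_comap _ hLsurj hH₀
  · -- `H` is not maximal in `K`
    intro hc
    have h1 : H.subgroupOf K ≤ J.subgroupOf K := by
      intro x hx
      have h2 : x.1 ∈ M := hx.1
      have h3 : x.1.linear ∈ H₀ := x.2
      refine ⟨h3, ?_⟩
      show x.1 0 ∈ W
      rw [(memM _).mp h2]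
      exact W.zero_mem
    have hlt : H.subgroupOf K < J.subgroupOf K := by
      refine lt_of_le_of_ne h1 ?_
      intro e
      have h2 : tr e0 ∈ K := by
        rw [memK, hltr]
        exact hid
      have h3 : (⟨tr e0, h2⟩ : K) ∈ J.subgroupOf K := by
        show tr e0 ∈ J
        refine ⟨?_, ?_⟩
        · rw [hltr]
          exact hid
        · rw [htr0]
          exact he0W
      rw [← e] at h3
      have h4 : tr e0 ∈ M := h3.1
      rw [memM, htr0] at h4
      exact he0 h4
    have htop := hc.2 _ hlt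
    have h2 : tr e1 ∈ K := by
      rw [memK, hltr]
      exact hid
    have h3 : (⟨tr e1, h2⟩ : K) ∈ J.subgroupOf K := by rw [htop]; trivial
    have h4 : tr e1 ∈ J := h3
    have h5 := ((memJ _).mp h4).2
    rw [htr0] at h5
    exact he1W h5

end core

/-- For every prime p and every d ≥ 2 there is a finite group G with a maximal subgroup M of index p^d and a maximal subgroup H of M that is not second maximal in G: some maximal subgroup K of G contains H without H being maximal in K. (One may take G the affine group V ⋊ GL(V) of V = 𝔽_p^d, M = GL(V), H the stabiliser in M of a line W of V, and K = V ⋊ H, with H < W ⋊ H < K.) So the prime-index hypothesis in the second-maximality criterion cannot be relaxed to prime-power index. -/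
theorem result (p d : ℕ) (hp : p.Prime)
    (hd : 2 ≤ d) :
    ∃ (G : Type) (_ : Group G) (_ : Finite G) (M H K : Subgroup G), IsCoatom M ∧ M.index = p ^ d ∧ H ≤ M ∧
      IsCoatom (H.subgroupOf M) ∧ IsCoatom K ∧ H ≤ K ∧ ¬ IsCoatom (H.subgroupOf K) := by
  classical
  haveI : Fact p.Prime := ⟨hp⟩
  obtain ⟨M, H, K, h1, h2, h3, h4, h5, h6, h7⟩ := core (F := ZMod p) d hd
  haveI : Finite ((Fin d → ZMod p) ≃ᵃ[ZMod p] (Fin d → ZMod p)) :=
    Finite.of_injective (fun f => f.toEquiv) AffineEquiv.toEquiv_injective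
  refine ⟨_, inferInstance, inferInstance, M, H, K, h1, ?_, h3, h4, h5, h6, h7⟩
  rw [h2, ZMod.card]

end Cfsg.Agent.S5895
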