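import Mathlib
import Cfsg.Agent.Lib.ClassGeo.CoLat
import Cfsg.Statements.S5902
-- import your own Cfsg.Agent.* helpers here

set_option autoImplicit false
open Cfsg

namespace Cfsg.Agent.S5902

/-- Let G be a finite group, X a subgroup whose own subgroup lattice is complemented, and suppose X lies in exactly one maximal subgroup M of G. Then every subgroup H of G not contained in the normal core of M has a complement in the subgroup lattice of G (some C with H ⊔ C = G and H ⊓ C = 1); in particular the subgroup lattice of G modulo the normal core of M is complemented. -/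
theorem result {G : Type*} [Group G] [Finite G] (X M : Subgroup G)
    (hK : ComplementedLattice (Subgroup X))
    (hM : IsCoatom M) (hXM : X ≤ M) (huniq : ∀ M' : Subgroup G, IsCoatom M' → X ≤ M' → M' = M) :
    (∀ H : Subgroup G, ¬ H ≤ M.normalCore → ∃ C : Subgroup G, H ⊔ C = ⊤ ∧ H ⊓ C = ⊥) ∧
    ComplementedLattice (Subgroup (G ⧸ M.normalCore)) := by
  open CfsgLib.ClassGeo.CoLat in
  have hA : ∀ H : Subgroup G, ¬ H ≤ M.normalCore → ∃ C : Subgroup G, H ⊔ C = ⊤ ∧ H ⊓ C = ⊥ := by
    intro H hH
    obtain ⟨h, hh, hhc⟩ := SetLike.not_le_iff_exists.mp hH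
    -- some conjugate of h is outside M
    have : ∃ g : G, g * h * g⁻¹ ∉ M := by
      by_contra hcon
      push Not at hcon
      exact hhc (fun g => hcon g)
    obtain ⟨g, hg⟩ := this
    have hH' : ¬ H.map (MulAut.conj g).toMonoidHom ≤ M := by
      intro hle
      exact hg (hle ⟨h, hh, by simp [MulAut.conj_apply]⟩)
    have hbot : H.map (MulAut.conj g).toMonoidHom ⊓ ⊥ = ⊥ := by simp
    obtain ⟨C, h1, h2⟩ := complement_of_interval ⊥ X M (interval_bot X hK) bot_le huniq _ hH' hbot
    exact complement_conj g H C h1 h2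
  refine ⟨hA, ⟨fun a => ?_⟩⟩
  -- pull back to G
  let N := M.normalCore
  let π : G →* G ⧸ N := QuotientGroup.mk' N
  have hπ : Function.Surjective π := QuotientGroup.mk'_surjective _
  have hker : π.ker = N := QuotientGroup.ker_mk' _
  by_cases hab : a = ⊥
  · subst hab
    exact ⟨⊤, isCompl_bot_top⟩ 
  have hnot : ¬ a.comap π ≤ N := by
    intro hle
    apply hab
    rw [eq_bot_iff]
    intro y hy
    obtain ⟨x, rfl⟩ := hπ y
    have : x ∈ N := hle hy
    have hx : x ∈ π.ker := by rw [hker]; exact this
    exact Subgroup.mem_bot.mpr (MonoidHom.mem_ker.mp hx)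
  obtain ⟨C, h1, h2⟩ := hA _ hnot
  refine ⟨C.map π, ?_⟩
  constructor
  · rw [disjoint_iff, eq_bot_iff]
    rintro y ⟨hya, ⟨x, hxC, rfl⟩⟩
    have hxa : x ∈ a.comap π := hya
    have : x ∈ a.comap π ⊓ C := ⟨hxa, hxC⟩
    rw [h2, Subgroup.mem_bot] at this
    rw [this]; simp
  · rw [codisjoint_iff, eq_top_iff]
    have := congrArg (Subgroup.map π) h1
    rw [Subgroup.map_sup, Subgroup.map_comap_eq_self_of_surjective hπ, Subgroup.map_top_of_surjective _ hπ] at this
    rw [this]

end Cfsg.Agent.S5902
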