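import Mathlib
import Cfsg.Agent.Lib.ClassGeo.CoLat
import Cfsg.Statements.S5903
-- import your own Cfsg.Agent.* helpers here

set_option autoImplicit false
open Cfsg

namespace Cfsg.Agent.S5903

/-- Let G be a finite simple group, X a subgroup lying in exactly one maximal subgroup M of G, and N a subgroup of prime order with N ≤ X that is central in M. If the subgroup lattice of X/N is complemented, then the subgroup lattice of G is complemented. -/
theorem result {G : Type*} [Group G] [Finite G] [IsSimpleGroup G] (X M N : Subgroup G)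
    (hM : IsCoatom M) (hXM : X ≤ M) (huniq : ∀ M' : Subgroup G, IsCoatom M' → X ≤ M' → M' = M)
    (hNX : N ≤ X) (hN : (Nat.card N).Prime) (hcen : ∀ n ∈ N, ∀ m ∈ M, m * n = n * m)
    [(N.subgroupOf X).Normal] (hK : ComplementedLattice (Subgroup (X ⧸ N.subgroupOf X))) :
    ComplementedLattice (Subgroup G) := by
  open CfsgLib.ClassGeo.CoLat in
  classical
  have hNne : N ≠ ⊥ := by
    intro h
    rw [h] at hN
    simp at hN
    exact Nat.not_prime_one hN
  have hprime : ∀ A : Subgroup G, ¬ N ≤ A → A ⊓ N = ⊥ := by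
    intro A hA
    have hdvd : Nat.card ((A ⊓ N : Subgroup G)) ∣ Nat.card N :=
      Subgroup.card_dvd_of_le inf_le_right
    rcases (Nat.dvd_prime hN).mp hdvd with h | h
    · exact (Subgroup.card_eq_one).mp h
    · exfalso
      apply hA
      have : A ⊓ N = N := Subgroup.eq_of_le_of_card_ge inf_le_right (le_of_eq h.symm)
      rw [← this]; exact inf_le_left
  -- subgroups containing all conjugates of N are everything
  have hclos : ∀ A : Subgroup G, (∀ g : G, ∀ n ∈ N, g * n * g⁻¹ ∈ A) → A = ⊤ := by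
    intro A hA
    have hZ : Subgroup.normalClosure (N : Set G) = ⊤ := by
      rcases IsSimpleGroup.eq_bot_or_eq_top_of_normal (Subgroup.normalClosure (N : Set G)) inferInstance with h | h
      · exfalso
        apply hNne
        rw [eq_bot_iff]
        intro n hn
        have : n ∈ Subgroup.normalClosure (N : Set G) := Subgroup.subset_normalClosure hn
        rwa [h] at this
      · exact h
    rw [eq_top_iff, ← hZ]
    refine (Subgroup.closure_le A).mpr ?_
    intro x hx
    obtain ⟨b, hb, hconj⟩ := Group.mem_conjugatesOfSet_iff.mp hx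
    obtain ⟨c, hc⟩ := isConj_iff.mp hconj
    rw [← hc]
    exact hA c b hb
  refine ⟨fun H => ?_⟩
  by_cases hbot : H = ⊥
  · subst hbot; exact ⟨⊤, isCompl_bot_top⟩
  by_cases htop : H = ⊤
  · subst htop; exact ⟨⊥, isCompl_top_bot⟩
  have key : ∃ g : G, ¬ (∀ n ∈ N, g * n * g⁻¹ ∈ H) ∧ ∃ h ∈ H, ∃ n ∈ N, (g * n * g⁻¹) * h ≠ h * (g * n * g⁻¹) := by
    by_contra hcon
    push Not at hcon
    let S : Set G := {x | ∃ g : G, (∀ n ∈ N, g * n * g⁻¹ ∈ H) ∧ ∃ n ∈ N, x = g * n * g⁻¹}
    let K : Subgroup G := Subgroup.closure S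
    have hKH : K ≤ H := by
      refine (Subgroup.closure_le H).mpr ?_
      rintro x ⟨g, hg, n, hn, rfl⟩
      exact hg n hn
    have hconj : ∀ g' : G, ∀ n' ∈ N, ∀ k ∈ K, (g' * n' * g'⁻¹) * k * (g' * n' * g'⁻¹)⁻¹ ∈ K := by
      intro g' n' hn' k hk
      induction hk using Subgroup.closure_induction with
      | mem y hy =>
        obtain ⟨g, hg, n, hn, rfl⟩ := hy
        by_cases hDg' : ∀ n ∈ N, g' * n * g'⁻¹ ∈ H
        · refine Subgroup.subset_closure ⟨(g' * n' * g'⁻¹) * g, ?_, n, hn, by group⟩
          intro m hm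
          have h1 := hg m hm
          have h2 := hDg' n' hn'
          have : (g' * n' * g'⁻¹) * g * m * ((g' * n' * g'⁻¹) * g)⁻¹ = (g' * n' * g'⁻¹) * (g * m * g⁻¹) * (g' * n' * g'⁻¹)⁻¹ := by group
          rw [this]
          exact H.mul_mem (H.mul_mem h2 h1) (H.inv_mem h2)
        · have hc := (hcon g' (by push Not at hDg'; exact hDg')) (g * n * g⁻¹) (hg n hn) n' hn'
          rw [hc]
          have : g * n * g⁻¹ * (g' * n' * g'⁻¹) * (g' * n' * g'⁻¹)⁻¹ = g * n * g⁻¹ := by group
          rw [this]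
          exact Subgroup.subset_closure ⟨g, hg, n, hn, rfl⟩
      | one => simp [K.one_mem]
      | mul a b _ _ ha hb =>
        have : (g' * n' * g'⁻¹) * (a * b) * (g' * n' * g'⁻¹)⁻¹ = ((g' * n' * g'⁻¹) * a * (g' * n' * g'⁻¹)⁻¹) * ((g' * n' * g'⁻¹) * b * (g' * n' * g'⁻¹)⁻¹) := by group
        rw [this]
        exact K.mul_mem ha hb
      | inv a _ ha =>
        have : (g' * n' * g'⁻¹) * a⁻¹ * (g' * n' * g'⁻¹)⁻¹ = ((g' * n' * g'⁻¹) * a * (g' * n' * g'⁻¹)⁻¹)⁻¹ := by group
        rw [this]
        exact K.inv_mem ha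
    have hnorm : Subgroup.normalizer (K : Set G) = ⊤ := by
      apply hclos
      intro g n hn
      rw [Subgroup.mem_normalizer_iff]
      intro k
      constructor
      · exact hconj g n hn k
      · intro hk
        have := hconj g n⁻¹ (N.inv_mem hn) _ hk
        have h3 : (g * n⁻¹ * g⁻¹) * ((g * n * g⁻¹) * k * (g * n * g⁻¹)⁻¹) * (g * n⁻¹ * g⁻¹)⁻¹ = k := by group
        rwa [h3] at this
    have hKn : K.Normal := Subgroup.normalizer_eq_top_iff.mp hnorm
    have hKbot : K = ⊥ := by
      rcases IsSimpleGroup.eq_bot_or_eq_top_of_normal K hKn with h | h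
      · exact h
      · exfalso; apply htop; rw [eq_top_iff, ← h]; exact hKH
    have hnoD : ∀ g : G, ¬ (∀ n ∈ N, g * n * g⁻¹ ∈ H) := by
      intro g hg
      apply hNne
      rw [eq_bot_iff]
      intro n hn
      have : g * n * g⁻¹ ∈ K := Subgroup.subset_closure ⟨g, hg, n, hn, rfl⟩
      rw [hKbot, Subgroup.mem_bot] at this
      have h4 : g * n = g := by
        have := mul_inv_eq_one.mp this
        exact this
      exact Subgroup.mem_bot.mpr (mul_left_cancel (a := g) (by rw [h4, mul_one]))
    -- H is central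
    have hcen2 : ∀ h ∈ H, h ∈ Subgroup.center G := by
      intro h hh
      have hA : Subgroup.centralizer ({h} : Set G) = ⊤ := by
        apply hclos
        intro g n hn
        rw [Subgroup.mem_centralizer_iff]
        intro y hy
        rw [Set.mem_singleton_iff] at hy
        subst hy
        exact (hcon g (by have := hnoD g; push Not at this; exact this) y hh n hn).symm
      rw [Subgroup.mem_center_iff]
      intro g
      have : g ∈ Subgroup.centralizer ({h} : Set G) := by rw [hA]; trivial
      exact (Subgroup.mem_centralizer_iff.mp this h rfl).symm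
    have hcentop : Subgroup.center G = ⊤ := by
      rcases IsSimpleGroup.eq_bot_or_eq_top_of_normal (Subgroup.center G) inferInstance with h | h
      · exfalso
        apply hbot
        rw [eq_bot_iff]
        intro y hy
        have := hcen2 y hy
        rwa [h] at this
      · exact h
    have hMn : M.Normal := by
      refine ⟨fun n hn g => ?_⟩
      have hg : g ∈ Subgroup.center G := by rw [hcentop]; trivial
      rw [(Subgroup.mem_center_iff.mp hg n).symm]
      simpa using hn
    have hMbot : M = ⊥ := (IsSimpleGroup.eq_bot_or_eq_top_of_normal M hMn).resolve_right hM.1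
    apply hNne
    rw [eq_bot_iff, ← hMbot]
    exact le_trans hNX hXM
  obtain ⟨g, hg1, h, hh, n, hn, hne⟩ := key
  -- conjugate by g⁻¹
  have hH' : ¬ H.map (MulAut.conj g⁻¹).toMonoidHom ≤ M := by
    intro hle
    have hm : g⁻¹ * h * g ∈ M := hle ⟨h, hh, by simp [MulAut.conj_apply]⟩
    have := hcen n hn _ hm
    apply hne
    have h5 : g * (g⁻¹ * h * g * n) * g⁻¹ = g * (n * (g⁻¹ * h * g)) * g⁻¹ := by rw [this]
    have e1 : g * (g⁻¹ * h * g * n) * g⁻¹ = h * (g * n * g⁻¹) := by group
    have e2 : g * (n * (g⁻¹ * h * g)) * g⁻¹ = (g * n * g⁻¹) * h := by group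
    rw [e1, e2] at h5
    exact h5.symm
  have hNnot : ¬ N ≤ H.map (MulAut.conj g⁻¹).toMonoidHom := by
    intro hle
    apply hg1
    intro m hm
    obtain ⟨y, hy, hyy⟩ := hle hm
    have hyy' : g⁻¹ * y * g = m := by simpa [MulAut.conj_apply] using hyy
    rw [← hyy']
    have : g * (g⁻¹ * y * g) * g⁻¹ = y := by group
    rw [this]; exact hy
  obtain ⟨C, h1, h2⟩ := complement_of_interval N X M (interval_quot X N hNX hK) hNX huniq _ hH' (hprime _ hNnot)
  obtain ⟨C', h3, h4⟩ := complement_conj g⁻¹ H C h1 h2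
  exact ⟨C', disjoint_iff.mpr h4, codisjoint_iff.mpr h3⟩

end Cfsg.Agent.S5903
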