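import Mathlib
import Cfsg.Statements.S5904
-- import your own Cfsg.Agent.* helpers here

set_option autoImplicit false
open scoped Pointwise
open Cfsg

namespace Cfsg.Agent.S5904

/-- Let Ω be a finite set with more than two elements and O ⊆ Ω a subset with exactly as many elements as its complement. Then the setwise stabilizer of O in the symmetric group on Ω is not a maximal subgroup (it is properly contained in the stabilizer of the partition {O, Ω ∖ O}, which is proper). -/
theorem result {Ω : Type*} [Fintype Ω] [DecidableEq Ω] (hΩ : 2 < Fintype.card Ω)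
    (O : Set Ω) (hO : Nat.card O = Nat.card ↥Oᶜ) :
    ¬ IsCoatom (MulAction.stabilizer (Equiv.Perm Ω) O) := by
  classical
  intro hco
  have hcard : Fintype.card O = Fintype.card ↥Oᶜ := by
    rw [← Nat.card_eq_fintype_card, ← Nat.card_eq_fintype_card]; exact hO
  -- the partition stabiliser
  let K : Subgroup (Equiv.Perm Ω) :=
    { carrier := {g | g • O = O ∨ g • O = Oᶜ}
      mul_mem' := by
        rintro a b (ha | ha) (hb | hb)
        · left; rw [mul_smul, hb, ha]
        · right; rw [mul_smul, hb, Set.smul_set_compl, ha]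
        · right; rw [mul_smul, hb, ha]
        · left; rw [mul_smul, hb, Set.smul_set_compl, ha, compl_compl]
      one_mem' := by left; simp
      inv_mem' := by
        rintro a (ha | ha)
        · left; rw [inv_smul_eq_iff, ha]
        · right; rw [inv_smul_eq_iff, Set.smul_set_compl, ha, compl_compl] }
  have hle : MulAction.stabilizer (Equiv.Perm Ω) O ≤ K := fun g hg => Or.inl hg
  -- a swap of the two sides
  obtain ⟨e⟩ : Nonempty (O ≃ ↥Oᶜ) := Fintype.card_eq.mp hcard
  let sw : O ⊕ ↥Oᶜ ≃ O ⊕ ↥Oᶜ := 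
    { toFun := Sum.elim (fun a => Sum.inr (e a)) (fun b => Sum.inl (e.symm b))
      invFun := Sum.elim (fun a => Sum.inr (e a)) (fun b => Sum.inl (e.symm b))
      left_inv := by rintro (a | b) <;> simp
      right_inv := by rintro (a | b) <;> simp }
  let g : Equiv.Perm Ω := (Equiv.Set.sumCompl O).symm.trans (sw.trans (Equiv.Set.sumCompl O))
  have hg1 : ∀ a : O, g a = (e a : Ω) := by
    intro a
    show (Equiv.Set.sumCompl O) (sw ((Equiv.Set.sumCompl O).symm a)) = _
    rw [Equiv.Set.sumCompl_symm_apply_of_mem a.2]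
    simp [sw]
  have hg2 : ∀ b : ↥Oᶜ, g b = (e.symm b : Ω) := by
    intro b
    show (Equiv.Set.sumCompl O) (sw ((Equiv.Set.sumCompl O).symm b)) = _
    rw [Equiv.Set.sumCompl_symm_apply_of_notMem b.2]
    simp [sw]
  have hgO : g • O = Oᶜ := by
    ext y
    rw [Set.mem_smul_set]
    constructor
    · rintro ⟨a, ha, rfl⟩
      show g a ∈ Oᶜ
      rw [hg1 ⟨a, ha⟩]; exact (e ⟨a, ha⟩).2
    · intro hy
      refine ⟨e.symm ⟨y, hy⟩, (e.symm ⟨y, hy⟩).2, ?_⟩
      show g (e.symm ⟨y, hy⟩) = y
      rw [hg1]; simp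
  have hlt : MulAction.stabilizer (Equiv.Perm Ω) O < K := by
    refine lt_of_le_of_ne hle (fun h => ?_)
    have hgK : g ∈ K := Or.inr hgO
    rw [← h, MulAction.mem_stabilizer_iff, hgO] at hgK
    -- O = Oᶜ impossible as Ω is nonempty
    have hne : Nonempty Ω := Fintype.card_pos_iff.mp (by omega)
    obtain ⟨x⟩ := hne
    by_cases hx : x ∈ O
    · have : x ∈ Oᶜ := by rw [hgK]; exact hx
      exact this hx
    · have : x ∈ O := by rw [← hgK]; exact hx
      exact hx this
  have htop : K = ⊤ := hco.2 K hlt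
  -- elements a ≠ a' in O, b outside
  have hcardO : 2 ≤ Fintype.card O := by
    have h1 : Fintype.card O + Fintype.card ↥Oᶜ = Fintype.card Ω := by
      rw [Fintype.card_compl_set]
      have := set_fintype_card_le_univ O
      omega
    omega
  obtain ⟨a, a', haa'⟩ := Fintype.exists_pair_of_one_lt_card (α := O) (by omega)
  have hcardOc : 0 < Fintype.card ↥Oᶜ := by omega
  obtain ⟨b⟩ := Fintype.card_pos_iff.mp hcardOc
  have hmem : Equiv.swap (a : Ω) (b : Ω) ∈ K := by rw [htop]; trivial
  have hab : (a : Ω) ≠ b := fun h => b.2 (h ▸ a.2)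
  have ha'a : (a' : Ω) ≠ a := fun h => haa' (Subtype.ext h.symm)
  have ha'b : (a' : Ω) ≠ b := fun h => b.2 (h ▸ a'.2)
  rcases hmem with h | h
  · have : Equiv.swap (a : Ω) (b : Ω) a ∈ Equiv.swap (a : Ω) (b : Ω) • O := Set.smul_mem_smul_set a.2
    rw [h, Equiv.swap_apply_left] at this
    exact b.2 this
  · have : Equiv.swap (a : Ω) (b : Ω) a' ∈ Equiv.swap (a : Ω) (b : Ω) • O := Set.smul_mem_smul_set a'.2
    rw [h, Equiv.swap_apply_of_ne_of_ne ha'a ha'b] at this
    exact this a'.2

end Cfsg.Agent.S5904
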