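import Mathlib
import Cfsg.Agent.Lib.ClassGeo.U32
import Cfsg.Statements.S5908
-- import your own Cfsg.Agent.* helpers here

set_option autoImplicit false
open Cfsg

namespace Cfsg.Agent.S5908

/-- The subgroup lattice of PSU₃(2) (the solvable group of order 72, realised over the field with 4 elements) is not complemented: some subgroup H has no subgroup X with H ⊔ X = ⊤ and H ⊓ X = ⊥. -/
theorem result {F : Type*} [Field F] [Fintype F] (hF : Fintype.card F = 4) :
    ¬ ComplementedLattice (Subgroup (Cfsg.PSU 3 F 2)) := by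
  intro hc
  obtain ⟨N, hN, -, -, ⟨e⟩⟩ := CfsgLib.ClassGeo.U32.psu_structure hF
  let φ : Cfsg.PSU 3 F 2 →* QuaternionGroup 2 := e.toMonoidHom.comp (QuotientGroup.mk' N)
  have hφ : Function.Surjective φ := e.surjective.comp (QuotientGroup.mk'_surjective N)
  have hker : ∀ x, φ x = 1 → x ∈ N := by
    intro x hx
    have h1 : (QuotientGroup.mk' N) x = 1 := by
      apply e.injective
      rw [map_one]
      exact hx
    exact (QuotientGroup.eq_one_iff x).1 h1
  let z : QuaternionGroup 2 := QuaternionGroup.a 2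
  let Z : Subgroup (QuaternionGroup 2) := Subgroup.zpowers z
  have hz2 : ∀ u : QuaternionGroup 2, u ≠ 1 → u = z ∨ u ^ 2 = z := by decide
  have hz1 : z ≠ 1 := by decide
  have hzz : z ^ 2 = 1 := by decide
  have hZ : QuaternionGroup.a 1 ∉ Z := by
    intro h
    have h1 := mem_powers_iff_mem_zpowers.2 h
    obtain ⟨m, hm⟩ := h1
    have hm' : z ^ m = QuaternionGroup.a 1 := hm
    have h2 : z ^ m = z ^ (m % 2) := by
      conv_lhs => rw [← Nat.mod_add_div m 2, pow_add, pow_mul, hzz, one_pow, mul_one]
    rw [h2] at hm'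
    have h3 : m % 2 < 2 := Nat.mod_lt _ (by norm_num)
    interval_cases (m % 2)
    · revert hm'
      decide
    · revert hm'
      decide
  let H : Subgroup (Cfsg.PSU 3 F 2) := Z.comap φ
  have hNH : N ≤ H := by
    intro x hx
    show φ x ∈ Z
    have h1 : (QuotientGroup.mk' N) x = 1 := (QuotientGroup.eq_one_iff x).2 hx
    have h2 : φ x = 1 := by
      show e ((QuotientGroup.mk' N) x) = 1
      rw [h1, map_one]
    rw [h2]
    exact Z.one_mem
  obtain ⟨X, hX⟩ := exists_isCompl H
  have hbot : ∀ x ∈ X, x = 1 := by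
    intro x hx
    have hinf : ∀ y ∈ X, y ∈ H → y = 1 := by
      intro y hy hyH
      have : y ∈ H ⊓ X := ⟨hyH, hy⟩
      rw [hX.inf_eq_bot, Subgroup.mem_bot] at this
      exact this
    by_cases h1 : φ x = 1
    · exact hinf x hx (hNH (hker x h1))
    · rcases hz2 _ h1 with h2 | h2
      · exact hinf x hx (by
          show φ x ∈ Z
          rw [h2]
          exact Subgroup.mem_zpowers z)
      · exfalso
        have h3 : x ^ 2 ∈ H := by
          show φ (x ^ 2) ∈ Z
          rw [map_pow, h2]
          exact Subgroup.mem_zpowers z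
        have h4 := hinf _ (X.pow_mem hx 2) h3
        have h5 : φ x ^ 2 = 1 := by rw [← map_pow, h4, map_one]
        rw [h2] at h5
        exact hz1 h5
  have hXbot : X = ⊥ := by
    rw [eq_bot_iff]
    intro x hx
    rw [Subgroup.mem_bot]
    exact hbot x hx
  have htop : H = ⊤ := by
    have := hX.sup_eq_top
    rwa [hXbot, sup_bot_eq] at this
  obtain ⟨x, hx⟩ := hφ (QuaternionGroup.a 1)
  have h1 : x ∈ H := by rw [htop]; trivial
  have h2 : φ x ∈ Z := h1
  rw [hx] at h2
  exact hZ h2

end Cfsg.Agent.S5908
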