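import Mathlib
import Cfsg.Agent.Lib.ClassMax.S6
import Cfsg.Statements.S5912
-- import your own Cfsg.Agent.* helpers here

set_option autoImplicit false
open Cfsg

namespace Cfsg.Agent.S5912

theorem mem_conj' {G : Type*} [Group G] (g x : G) (H : Subgroup G) :
    x ∈ Subgroup.map (MulAut.conj g).toMonoidHom H ↔ g⁻¹ * x * g ∈ H := by
  constructor
  · rintro ⟨y, hy, rfl⟩
    simpa [mul_assoc] using hy
  · intro h
    refine ⟨_, h, ?_⟩
    simp [mul_assoc]

/-- The symmetric group on a 6-element set Ω has exactly two conjugacy classes of subgroups of index 6: there are two non-conjugate subgroups of index 6 (a point stabilizer and a transitive subgroup isomorphic to S₅), and every subgroup of index 6 is conjugate to one of them. -/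
theorem result {Ω : Type*} [Fintype Ω] [DecidableEq Ω] (h6 : Fintype.card Ω = 6) :
    ∃ H₁ H₂ : Subgroup (Equiv.Perm Ω), H₁.index = 6 ∧ H₂.index = 6 ∧
      (¬ ∃ g : Equiv.Perm Ω, Subgroup.map (MulAut.conj g).toMonoidHom H₁ = H₂) ∧
      ∀ H : Subgroup (Equiv.Perm Ω), H.index = 6 →
        ∃ g : Equiv.Perm Ω, Subgroup.map (MulAut.conj g).toMonoidHom H₁ = H ∨ Subgroup.map (MulAut.conj g).toMonoidHom H₂ = H := by
  classical
  let e : Ω ≃ Fin 6 := Fintype.equivFinOfCardEq h6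
  let ψ : Equiv.Perm Ω ≃* Equiv.Perm (Fin 6) := Equiv.permCongrHom e
  let H₁ : Subgroup (Equiv.Perm Ω) := Subgroup.comap ψ.toMonoidHom (MulAction.stabilizer (Equiv.Perm (Fin 6)) (5 : Fin 6))
  let H₂ : Subgroup (Equiv.Perm Ω) := Subgroup.comap ψ.toMonoidHom CfsgLib.ClassMax.S6.E
  have hi1 : H₁.index = 6 := by
    rw [Subgroup.index_comap_of_surjective _ ψ.surjective]
    have := CfsgLib.ClassMax.IndexN.index_stab (5 : Fin 6)
    simpa using this
  have hi2 : H₂.index = 6 := by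
    rw [Subgroup.index_comap_of_surjective _ ψ.surjective]
    exact CfsgLib.ClassMax.S6.index_E
  refine ⟨H₁, H₂, hi1, hi2, ?_, ?_⟩
  · rintro ⟨g, hg⟩
    apply CfsgLib.ClassMax.S6.E_not_conj (ψ g)
    ext x
    rw [mem_conj']
    have key : ∀ y : Equiv.Perm Ω, y ∈ H₂ ↔ ψ y ∈ CfsgLib.ClassMax.S6.E := fun y => Iff.rfl
    have key1 : ∀ y : Equiv.Perm Ω, y ∈ H₁ ↔ ψ y ∈ MulAction.stabilizer (Equiv.Perm (Fin 6)) (5 : Fin 6) := fun y => Iff.rfl
    have h1 : ψ.symm x ∈ H₂ ↔ x ∈ CfsgLib.ClassMax.S6.E := by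
      rw [key]; simp
    rw [← h1, ← hg, mem_conj', key1]
    simp
  · intro H hH
    have hK : (Subgroup.map ψ.toMonoidHom H).index = 6 := by
      exact (Subgroup.index_map_equiv H ψ).trans hH
    obtain ⟨g, hg | hg⟩ := CfsgLib.ClassMax.S6.classify _ hK
    · refine ⟨ψ.symm g, Or.inl ?_⟩
      ext y
      rw [mem_conj']
      have h1 : y ∈ H ↔ ψ y ∈ Subgroup.map ψ.toMonoidHom H := by
        constructor
        · intro h
          exact ⟨y, h, rfl⟩
        · rintro ⟨z, hz, hzy⟩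
          have : z = y := ψ.injective hzy
          rwa [← this]
      rw [h1, ← hg, mem_conj']
      have hc : ψ ((ψ.symm g)⁻¹ * y * ψ.symm g) = g⁻¹ * ψ y * g := by simp
      show ψ ((ψ.symm g)⁻¹ * y * ψ.symm g) ∈ MulAction.stabilizer (Equiv.Perm (Fin 6)) (5 : Fin 6) ↔ _
      rw [hc]
    · refine ⟨ψ.symm g, Or.inr ?_⟩
      ext y
      rw [mem_conj']
      have h1 : y ∈ H ↔ ψ y ∈ Subgroup.map ψ.toMonoidHom H := by
        constructor
        · intro h
          exact ⟨y, h, rfl⟩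
        · rintro ⟨z, hz, hzy⟩
          have : z = y := ψ.injective hzy
          rwa [← this]
      rw [h1, ← hg, mem_conj']
      have hc : ψ ((ψ.symm g)⁻¹ * y * ψ.symm g) = g⁻¹ * ψ y * g := by simp
      show ψ ((ψ.symm g)⁻¹ * y * ψ.symm g) ∈ CfsgLib.ClassMax.S6.E ↔ _
      rw [hc]

end Cfsg.Agent.S5912
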