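import Mathlib
import Cfsg.Statements.S5913
-- import your own Cfsg.Agent.* helpers here

set_option autoImplicit false
open Cfsg

namespace Cfsg.Agent.S5913

/-- Let S be a non-abelian simple group and n a natural number. Every normal subgroup N of the direct power S^n (functions Fin n → S) is a subproduct: there is a set T of coordinates such that N consists exactly of the elements whose coordinates outside T are trivial. In particular the minimal normal subgroups of S^n are its n factors. -/
theorem result {S : Type*} [Group S] [IsSimpleGroup S] (hS : ¬ IsMulCommutative S) (n : ℕ)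
    (N : Subgroup (Fin n → S)) [N.Normal] :
    ∃ T : Finset (Fin n), ∀ x : Fin n → S, x ∈ N ↔ ∀ i, i ∉ T → x i = 1 := by
  classical
  have hcomm : ∀ a : S, a ≠ 1 → ∃ b : S, a * b ≠ b * a := by
    intro a ha
    by_contra hh
    push Not at hh
    have hcen : a ∈ Subgroup.center S := by
      rw [Subgroup.mem_center_iff]
      intro g; exact (hh g).symm
    have htop : Subgroup.center S = ⊤ := by
      rcases IsSimpleGroup.eq_bot_or_eq_top_of_normal (Subgroup.center S) inferInstance with h | h
      · rw [h] at hcen; exact absurd (Subgroup.mem_bot.mp hcen) ha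
      · exact h
    apply hS
    refine ⟨⟨fun x y => ?_⟩⟩
    have : y ∈ Subgroup.center S := by rw [htop]; trivial
    exact (Subgroup.mem_center_iff.mp this) x
  let T : Finset (Fin n) := Finset.univ.filter (fun i => ∃ x ∈ N, x i ≠ 1)
  have hsingle : ∀ i ∈ T, ∀ s : S, (Pi.mulSingle i s : Fin n → S) ∈ N := by
    intro i hi s
    obtain ⟨x, hxN, hxi⟩ := (Finset.mem_filter.mp hi).2
    obtain ⟨b, hb⟩ := hcomm (x i) hxi
    let A : Subgroup S :=
      { carrier := {s | (Pi.mulSingle i s : Fin n → S) ∈ N}
        mul_mem' := by
          intro u v hu hv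
          show (Pi.mulSingle i (u * v) : Fin n → S) ∈ N
          rw [Pi.mulSingle_mul]; exact N.mul_mem hu hv
        one_mem' := by
          show (Pi.mulSingle i (1 : S) : Fin n → S) ∈ N
          simp
        inv_mem' := by
          intro u hu
          show (Pi.mulSingle i u⁻¹ : Fin n → S) ∈ N
          rw [Pi.mulSingle_inv]; exact N.inv_mem hu }
    have hAn : A.Normal := by
      refine ⟨fun u hu g => ?_⟩
      show (Pi.mulSingle i (g * u * g⁻¹) : Fin n → S) ∈ N
      have : (Pi.mulSingle i (g * u * g⁻¹) : Fin n → S) = (Pi.mulSingle i g) * (Pi.mulSingle i u) * (Pi.mulSingle i g)⁻¹ := by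
        rw [Pi.mulSingle_mul, Pi.mulSingle_mul, Pi.mulSingle_inv]
      rw [this]
      exact ‹N.Normal›.conj_mem _ hu _
    have hne : A ≠ ⊥ := by
      intro hbot
      have hmem : (x i * b * (x i)⁻¹ * b⁻¹) ∈ A := by
        show (Pi.mulSingle i (x i * b * (x i)⁻¹ * b⁻¹) : Fin n → S) ∈ N
        have : (Pi.mulSingle i (x i * b * (x i)⁻¹ * b⁻¹) : Fin n → S) = x * ((Pi.mulSingle i b) * x⁻¹ * (Pi.mulSingle i b)⁻¹) := by
          funext j
          by_cases hj : j = i
          · subst hj; simp [mul_assoc]
          · simp [Pi.mulSingle_eq_of_ne hj]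
        rw [this]
        exact N.mul_mem hxN (‹N.Normal›.conj_mem _ (N.inv_mem hxN) _)
      rw [hbot, Subgroup.mem_bot] at hmem
      apply hb
      have := mul_inv_eq_one.mp hmem
      exact (mul_inv_eq_iff_eq_mul.mp this)
    have htop : A = ⊤ := (IsSimpleGroup.eq_bot_or_eq_top_of_normal A hAn).resolve_left hne
    have hs : s ∈ A := by rw [htop]; trivial
    exact hs
  refine ⟨T, fun x => ⟨fun hx i hi => ?_, fun hx => ?_⟩⟩
  · by_contra h
    exact hi (Finset.mem_filter.mpr ⟨Finset.mem_univ _, x, hx, h⟩)
  · have key : ∀ s : Finset (Fin n), (fun i => if i ∈ s then x i else 1) ∈ N := by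
      intro s
      induction s using Finset.induction_on with
      | empty =>
        have h0 : (fun i => if i ∈ (∅ : Finset (Fin n)) then x i else (1 : S)) = 1 := by
          funext j; simp
        rw [h0]; exact N.one_mem
      | insert a s ha ih =>
        have heq : (fun i => if i ∈ insert a s then x i else 1) = (fun i => if i ∈ s then x i else 1) * (Pi.mulSingle a (x a) : Fin n → S) := by
          funext j
          by_cases hj : j = a
          · subst hj; simp [ha]
          · simp [Finset.mem_insert, hj, Pi.mulSingle_eq_of_ne hj]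
        rw [heq]
        refine N.mul_mem ih ?_
        by_cases haT : a ∈ T
        · exact hsingle a haT _
        · rw [hx a haT]; simp
    simpa using key Finset.univ

end Cfsg.Agent.S5913
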