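import Mathlib
import Cfsg.Agent.Lib.H9.MinNormal
import Cfsg.Statements.S5914
-- import your own Cfsg.Agent.* helpers here

set_option autoImplicit false
open Cfsg

namespace Cfsg.Agent.S5914

section back

variable {S : Type*} [Group S] [IsSimpleGroup S] {n : ℕ}

/-- coordinate permutations -/
def permAut (σ : Equiv.Perm (Fin n)) : (Fin n → S) ≃* (Fin n → S) where
  toFun a i := a (σ i)
  invFun a i := a (σ.symm i)
  left_inv a := by
    funext i
    simp
  right_inv a := by
    funext i
    simp
  map_mul' _ _ := rfl

theorem all_of_single (H : Subgroup (Fin n → S)) (h : ∀ (i : Fin n) (x : S), Pi.mulSingle i x ∈ H) : H = ⊤ := by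
  classical
  have key : ∀ (s : Finset (Fin n)) (a : Fin n → S), (∀ i, i ∉ s → a i = 1) → a ∈ H := by
    intro s
    induction s using Finset.induction_on with
    | empty =>
      intro a ha
      have : a = 1 := by
        funext i
        exact ha i (by simp)
      rw [this]
      exact H.one_mem
    | insert i s his ih =>
      intro a ha
      have e : a = Pi.mulSingle i (a i) * Function.update a i 1 := by
        funext j
        by_cases hj : j = i
        · subst hj
          simp
        · simp [Pi.mulSingle_apply, hj, Function.update_of_ne hj]
      rw [e]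
      apply H.mul_mem (h i _)
      apply ih
      intro k hk
      by_cases hki : k = i
      · subst hki
        simp
      · rw [Function.update_of_ne hki]
        apply ha
        simp [hki, hk]
  rw [eq_top_iff]
  intro a _
  exact key Finset.univ a (fun i hi => absurd (Finset.mem_univ i) hi)

/-- A subgroup invariant under all automorphisms of a power of a simple group is trivial or everything. -/
theorem char_power (H : Subgroup (Fin n → S)) (hH : ∀ (φ : (Fin n → S) ≃* (Fin n → S)) (a : Fin n → S), a ∈ H → φ a ∈ H) :
    H = ⊥ ∨ H = ⊤ := by
  classical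
  by_cases hb : H = ⊥
  · exact Or.inl hb
  right
  obtain ⟨h, hh, hne⟩ := (H.bot_or_exists_ne_one).resolve_left hb
  obtain ⟨i, hi⟩ : ∃ i, h i ≠ 1 := by
    by_contra hc
    push Not at hc
    exact hne (funext hc)
  have hnorm : ∀ (c a : Fin n → S), a ∈ H → c * a * c⁻¹ ∈ H := fun c a ha => hH (MulAut.conj c) a ha
  -- a non-trivial element in one coordinate
  have step1 : ∃ (k : Fin n) (y : S), y ≠ 1 ∧ Pi.mulSingle k y ∈ H := by
    by_cases hc : ∀ x, h i * x = x * h i
    · -- central: the group is commutative
      have hcen : Subgroup.center S = ⊤ := by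
        have := (Subgroup.center S).normal_of_characteristic
        rcases IsSimpleGroup.eq_bot_or_eq_top_of_normal (Subgroup.center S) this with h0 | h0
        · exfalso
          apply hi
          have h1 : h i ∈ Subgroup.center S := Subgroup.mem_center_iff.mpr (fun x => (hc x).symm)
          rw [h0] at h1
          exact Subgroup.mem_bot.mp h1
        · exact h0
      have hcomm : ∀ x y : S, x * y = y * x := by
        intro x y
        have h1 : x ∈ Subgroup.center S := by rw [hcen]; trivial
        exact (Subgroup.mem_center_iff.mp h1 y).symm
      by_cases hj : ∃ j, j ≠ i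
      · obtain ⟨j, hj⟩ := hj
        let τ : (Fin n → S) ≃* (Fin n → S) :=
          { toFun := fun a => a * Pi.mulSingle j (a i)
            invFun := fun a => a * Pi.mulSingle j (a i)⁻¹
            left_inv := fun a => by
              funext k
              by_cases hk : k = j
              · subst hk
                simp [Pi.mulSingle_apply, Ne.symm hj, hj]
              · simp [Pi.mulSingle_apply, hk]
            right_inv := fun a => by
              funext k
              by_cases hk : k = j
              · subst hk
                simp [Pi.mulSingle_apply, Ne.symm hj, hj]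
              · simp [Pi.mulSingle_apply, hk]
            map_mul' := fun a b => by
              funext k
              by_cases hk : k = j
              · subst hk
                simp only [Pi.mul_apply, Pi.mulSingle_eq_same]
                rw [mul_assoc, mul_assoc (a k), ← mul_assoc (b k), hcomm (b k) (a i), mul_assoc (a i)]
              · simp [Pi.mulSingle_apply, hk] }
        refine ⟨j, h i, hi, ?_⟩
        have h1 : τ h ∈ H := hH τ h hh
        have h2 : h⁻¹ * τ h ∈ H := H.mul_mem (H.inv_mem hh) h1
        have h3 : h⁻¹ * τ h = Pi.mulSingle j (h i) := by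
          show h⁻¹ * (h * Pi.mulSingle j (h i)) = _
          rw [inv_mul_cancel_left]
        rwa [h3] at h2
      · push Not at hj
        refine ⟨i, h i, hi, ?_⟩
        have : h = Pi.mulSingle i (h i) := by
          funext k
          rw [hj k]
          simp
        rwa [← this]
    · push Not at hc
      obtain ⟨x, hx⟩ := hc
      refine ⟨i, h i * x * (h i)⁻¹ * x⁻¹, ?_, ?_⟩
      · intro e
        apply hx
        have : h i * x * (h i)⁻¹ = x := by
          rwa [mul_inv_eq_one] at e
        rw [mul_inv_eq_iff_eq_mul] at this
        exact this
      · have h1 : Pi.mulSingle i x * h⁻¹ * (Pi.mulSingle i x)⁻¹ ∈ H := hnorm _ _ (H.inv_mem hh)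
        have h2 := H.mul_mem hh h1
        have h3 : h * (Pi.mulSingle i x * h⁻¹ * (Pi.mulSingle i x)⁻¹) = Pi.mulSingle i (h i * x * (h i)⁻¹ * x⁻¹) := by
          funext k
          by_cases hk : k = i
          · subst hk
            simp [mul_assoc]
          · simp [Pi.mulSingle_apply, hk]
        rwa [h3] at h2
  obtain ⟨k, y, hy, hky⟩ := step1
  -- the whole coordinate
  have step2 : ∀ x : S, Pi.mulSingle k x ∈ H := by
    let K : Subgroup S := H.comap (MonoidHom.mulSingle (fun _ => S) k)
    have hKn : K.Normal := by
      constructor
      intro a ha s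
      show Pi.mulSingle k (s * a * s⁻¹) ∈ H
      have := hnorm (Pi.mulSingle k s) _ ha
      have e : Pi.mulSingle k (s * a * s⁻¹) = Pi.mulSingle k s * (MonoidHom.mulSingle (fun _ => S) k a) * (Pi.mulSingle k s)⁻¹ := by
        funext j
        by_cases hj : j = k
        · subst hj
          simp
        · simp [Pi.mulSingle_apply, hj]
      rwa [e]
    have hKtop : K = ⊤ := by
      rcases IsSimpleGroup.eq_bot_or_eq_top_of_normal K hKn with h0 | h0
      · exfalso
        apply hy
        have : y ∈ K := hky
        rw [h0] at this
        exact Subgroup.mem_bot.mp this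
      · exact h0
    intro x
    have : x ∈ K := by rw [hKtop]; trivial
    exact this
  apply all_of_single
  intro j x
  have h1 := hH (permAut (Equiv.swap k j)) _ (step2 x)
  have h2 : permAut (Equiv.swap k j) (Pi.mulSingle k x) = (Pi.mulSingle j x : Fin n → S) := by
    funext l
    show (Pi.mulSingle k x : Fin n → S) (Equiv.swap k j l) = _
    by_cases hl : l = j
    · subst hl
      simp
    · have : Equiv.swap k j l ≠ k := by
        intro e
        apply hl
        have := congrArg (Equiv.swap k j) e
        simpa using this
      simp [Pi.mulSingle_apply, this, hl]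
  rwa [h2] at h1

end back

/-- A non-trivial finite group G is characteristically simple (its only characteristic subgroups are 1 and G) if and only if G is isomorphic to a direct power S^n (n ≥ 1) of some simple group S (possibly cyclic of prime order). -/
theorem result {G : Type*} [Group G] [Finite G] [Nontrivial G] :
    (∀ H : Subgroup G, H.Characteristic → H = ⊥ ∨ H = ⊤) ↔
    ∃ (S : Type) (_ : Group S) (_ : IsSimpleGroup S) (n : ℕ), 1 ≤ n ∧ Nonempty (G ≃* (Fin n → S)) := by
  classical
  constructor
  · intro hchar
    let Hol := G ⋊[MonoidHom.id (MulAut G)] MulAut G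
    haveI : Finite Hol := Finite.of_equiv _ (SemidirectProduct.equivProd (φ := MonoidHom.id (MulAut G))).symm
    let N : Subgroup Hol := (SemidirectProduct.inl : G →* Hol).range
    haveI : N.Normal := by
      show (SemidirectProduct.inl : G →* Hol).range.Normal
      rw [SemidirectProduct.range_inl_eq_ker_rightHom]
      infer_instance
    obtain ⟨g₀, hg₀⟩ := exists_ne (1 : G)
    have hN : N ≠ ⊥ := by
      intro e
      have h1 : (SemidirectProduct.inl g₀ : Hol) ∈ N := ⟨g₀, rfl⟩
      rw [e, Subgroup.mem_bot] at h1
      apply hg₀
      apply SemidirectProduct.inl_injective (φ := MonoidHom.id (MulAut G))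
      rw [h1, map_one]
    have hmin : ∀ M : Subgroup Hol, M.Normal → M ≤ N → M = ⊥ ∨ M = N := by
      intro M hM hMN
      let K : Subgroup G := M.comap (SemidirectProduct.inl : G →* Hol)
      have hK : K.Characteristic := by
        rw [Subgroup.characteristic_iff_le_comap]
        intro φ a ha
        show (SemidirectProduct.inl (φ a) : Hol) ∈ M
        have h1 := hM.conj_mem _ ha (SemidirectProduct.inr φ : Hol)
        have h2 := SemidirectProduct.inl_aut (φ := MonoidHom.id (MulAut G)) φ a
        have h3 : (SemidirectProduct.inr φ⁻¹ : Hol) = (SemidirectProduct.inr φ : Hol)⁻¹ := map_inv _ _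
        rw [h3] at h2
        have h4 : (MonoidHom.id (MulAut G)) φ a = φ a := rfl
        rw [h4] at h2
        rw [h2]
        exact h1
      rcases hchar K hK with h0 | h0
      · left
        rw [eq_bot_iff]
        intro x hx
        obtain ⟨a, rfl⟩ := hMN hx
        have : a ∈ K := hx
        rw [h0, Subgroup.mem_bot] at this
        rw [this, map_one]
        exact Subgroup.one_mem _
      · right
        apply le_antisymm hMN
        rintro _ ⟨a, rfl⟩
        have : a ∈ K := by rw [h0]; trivial
        exact this
    obtain ⟨T, gT, m, hT, hm, ⟨e⟩⟩ := CfsgLib.H9.MinNormal.main N hN hmin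
    exact ⟨T, gT, hT, m, hm, ⟨(MonoidHom.ofInjective (SemidirectProduct.inl_injective (φ := MonoidHom.id (MulAut G)))).trans e⟩⟩
  · rintro ⟨S, gS, hS, n, hn, ⟨e⟩⟩ H hH
    let H' : Subgroup (Fin n → S) := H.comap e.symm.toMonoidHom
    have hH' : ∀ (φ : (Fin n → S) ≃* (Fin n → S)) (a : Fin n → S), a ∈ H' → φ a ∈ H' := by
      intro φ a ha
      let ψ : G ≃* G := (e.trans φ).trans e.symm
      have h1 : H.comap ψ.toMonoidHom = H := hH.fixed ψ
      have h2 : e.symm a ∈ H.comap ψ.toMonoidHom := by rw [h1]; exact ha
      have h3 : ψ (e.symm a) = e.symm (φ a) := by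
        show e.symm (φ (e (e.symm a))) = _
        rw [MulEquiv.apply_symm_apply]
      show e.symm (φ a) ∈ H
      rw [← h3]
      exact h2
    rcases char_power H' hH' with h0 | h0
    · left
      rw [eq_bot_iff]
      intro x hx
      have h1 : e x ∈ H' := by
        show e.symm (e x) ∈ H
        rwa [MulEquiv.symm_apply_apply]
      rw [h0, Subgroup.mem_bot] at h1
      rw [Subgroup.mem_bot]
      exact e.injective (h1.trans (map_one e).symm)
    · right
      rw [eq_top_iff]
      intro x _
      have h1 : e x ∈ H' := by rw [h0]; trivial
      have h2 : e.symm (e x) ∈ H := h1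
      rwa [MulEquiv.symm_apply_apply] at h2

end Cfsg.Agent.S5914
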