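import Mathlib
import Cfsg.Agent.Lib.Dickson.Special
import Cfsg.Statements.S5939
-- import your own Cfsg.Agent.* helpers here

set_option autoImplicit false
open Cfsg

namespace Cfsg.Agent.S5939

/-- Let p be a prime and F a finite field of characteristic p such that either F has p elements and p ≡ ±1 (mod 10), or F has p² elements and p ≡ ±3 (mod 10). Then PSL_2(F) has a maximal subgroup isomorphic to the alternating group A_5. -/
theorem result {F : Type*} [Field F] [Fintype F] (p : ℕ) [Fact p.Prime] [CharP F p] (h : (Fintype.card F = p ∧ (p % 10 = 1 ∨ p % 10 = 9)) ∨ (Fintype.card F = p ^ 2 ∧ (p % 10 = 3 ∨ p % 10 = 7))) : ∃ H : Subgroup (Matrix.ProjectiveSpecialLinearGroup (Fin 2) F), IsCoatom H ∧ Nonempty (H ≃* alternatingGroup (Fin 5)) := by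
  classical
  have hpp : p.Prime := Fact.out
  set q := Fintype.card F with hq
  have hF : Fintype.card F = q := rfl
  have hodd : p % 2 = 1 := by omega
  have hoddp : Odd p := Nat.odd_iff.2 hodd
  have hqodd : q % 2 = 1 := by
    rcases h with ⟨h, -⟩ | ⟨h, -⟩
    · rw [h]; exact hodd
    · rw [h]; exact Nat.odd_iff.1 hoddp.pow
  have h2 : (2 : F) ≠ 0 := by
    intro e
    have h3 : p ∣ 2 := (CharP.cast_eq_zero_iff F p 2).1 (by exact_mod_cast e)
    have := (Nat.prime_dvd_prime_iff_eq hpp (by norm_num)).1 h3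
    omega
  have hq2 : 5 ∣ q * (q ^ 2 - 1) := by
    apply Dvd.dvd.mul_left
    rcases h with ⟨h, h1⟩ | ⟨h, h1⟩
    · rw [h]
      have h3 : 1 ≤ p ^ 2 := Nat.one_le_pow _ _ hpp.pos
      have h4 : p ^ 2 % 5 = 1 := by
        rw [Nat.pow_mod]
        rcases h1 with h1 | h1
        · rw [show p % 5 = 1 by omega]
        · rw [show p % 5 = 4 by omega]
      omega
    · rw [h]
      have h3 : 1 ≤ (p ^ 2) ^ 2 := Nat.one_le_pow _ _ (Nat.one_le_pow _ _ hpp.pos)
      have h4 : (p ^ 2) ^ 2 % 5 = 1 := by
        rw [Nat.pow_mod, Nat.pow_mod p 2 5]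
        rcases h1 with h1 | h1
        · rw [show p % 5 = 3 by omega]
        · rw [show p % 5 = 2 by omega]
      omega
  obtain ⟨τ, hτ⟩ := CfsgLib.Dickson.exists_golden_odd (F := F) hqodd h2 hq2
  obtain ⟨φ, hφ⟩ := CfsgLib.Dickson.exists_A5_odd (F := F) hqodd h2 τ hτ
  have hc0 : Nat.card φ.range = 60 := by
    rw [← Nat.card_congr (MonoidHom.ofInjective hφ).toEquiv]
    exact CfsgLib.Dickson.card_A5'
  have hgcd : Nat.gcd 2 (q - 1) = 2 := Nat.gcd_eq_left (by omega)
  have hG := CfsgLib.Dickson.card_PSL2 hF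
  rw [hgcd] at hG
  have hq9 : 9 ≤ q := by
    rcases h with ⟨h, h1⟩ | ⟨h, h1⟩
    · have := hpp.two_le
      omega
    · rw [h]
      have h3 : 3 ≤ p := by
        have := hpp.two_le
        omega
      nlinarith
  refine ⟨φ.range, CfsgLib.Dickson.coatom_of _ ?_ ?_, ⟨(MonoidHom.ofInjective hφ).symm⟩⟩
  · intro e
    rw [e, Subgroup.card_top] at hc0
    rw [hc0] at hG
    have : 10 * (9 * 8) ≤ (q + 1) * (q * (q - 1)) := Nat.mul_le_mul (by omega) (Nat.mul_le_mul hq9 (by omega))
    omega
  · intro H hle hH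
    have hdvd : 60 ∣ Nat.card H := by
      rw [← hc0]
      exact Subgroup.card_dvd_of_le hle
    rcases CfsgLib.Dickson.A5_over p hoddp φ hφ H hle with e | e | e | ⟨K, hK3, hK⟩
    · rw [Nat.card_congr e.some.toEquiv, CfsgLib.Dickson.card_A4'] at hdvd
      omega
    · rw [Nat.card_congr e.some.toEquiv, CfsgLib.Dickson.card_S4'] at hdvd
      omega
    · apply CfsgLib.Dickson.le_of_card _ _ hle
      rw [hc0, Nat.card_congr e.some.toEquiv, CfsgLib.Dickson.card_A5']
    · exfalso
      apply hH
      obtain ⟨m, hm⟩ := CfsgLib.Dickson.exists_degree K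
      rw [← hq] at hm
      rcases h with ⟨h, h1⟩ | ⟨h, h1⟩
      · rw [h] at hm
        have hK1 : Nat.card K = p := ((Nat.Prime.pow_eq_iff hpp).1 hm).1
        exact CfsgLib.Dickson.subfield_full hF H K hK (by rw [hK1, h])
      · rw [h] at hm
        have hm0 : m ≠ 0 := by
          rintro rfl
          simp at hm
          have := hpp.two_le
          nlinarith
        have hdv : Nat.card K ∣ p ^ 2 := by
          rw [← hm]
          exact dvd_pow_self _ hm0
        obtain ⟨j, hj, hj2⟩ := (Nat.dvd_prime_pow hpp).1 hdv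
        interval_cases j
        · rw [pow_zero] at hj2
          omega
        · exfalso
          rw [pow_one] at hj2
          have h6 : Nat.card H ∣ (p + 1) * (p * (p - 1)) := by
            rcases CfsgLib.Dickson.card_subfield_cases H K hK with h7 | h7
            · rw [hj2] at h7
              rw [← h7]
              exact Dvd.intro _ rfl
            · rw [hj2] at h7
              rw [h7]
          have h7 : 5 ∣ (p + 1) * (p * (p - 1)) := Dvd.dvd.trans (Dvd.dvd.trans (by norm_num) hdvd) h6
          have hp5 : Nat.Prime 5 := by norm_num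
          rcases (Nat.Prime.dvd_mul hp5).1 h7 with h8 | h8
          · omega
          · rcases (Nat.Prime.dvd_mul hp5).1 h8 with h8 | h8 <;> omega
        · exact CfsgLib.Dickson.subfield_full hF H K hK (by rw [hj2, h])

end Cfsg.Agent.S5939
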