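import Mathlib
import Cfsg.Agent.Lib.Dickson.Special
import Cfsg.Statements.S5940
-- import your own Cfsg.Agent.* helpers here

set_option autoImplicit false
open Cfsg

namespace Cfsg.Agent.S5940

/-- Let p ≥ 5 be a prime with p ≡ ±3 (mod 8) and p ≢ ±1 (mod 10), and F a field with p elements. Then PSL_2(F) has a maximal subgroup isomorphic to the alternating group A_4. -/
theorem result {F : Type*} [Field F] [Fintype F] (p : ℕ) [Fact p.Prime] (hF : Fintype.card F = p) (h5 : 5 ≤ p) (h8 : p % 8 = 3 ∨ p % 8 = 5) (h10 : p % 10 ≠ 1 ∧ p % 10 ≠ 9) : ∃ H : Subgroup (Matrix.ProjectiveSpecialLinearGroup (Fin 2) F), IsCoatom H ∧ Nonempty (H ≃* alternatingGroup (Fin 4)) := by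
  classical
  have hpp : p.Prime := Fact.out
  haveI : CharP F p := CfsgLib.Dickson.charP_of_card hpp (k := 1) one_ne_zero (by rw [hF, pow_one])
  have hodd : p % 2 = 1 := by omega
  have hoddp : Odd p := Nat.odd_iff.2 hodd
  have h2 : (2 : F) ≠ 0 := by
    intro e
    have h3 : p ∣ 2 := (CharP.cast_eq_zero_iff F p 2).1 (by exact_mod_cast e)
    have := (Nat.prime_dvd_prime_iff_eq hpp (by norm_num)).1 h3
    omega
  obtain ⟨φ, hφ⟩ := CfsgLib.Dickson.exists_A4_odd (F := F) (by rw [hF]; exact hodd) h2
  have hc0 : Nat.card φ.range = 12 := by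
    rw [← Nat.card_congr (MonoidHom.ofInjective hφ).toEquiv]
    exact CfsgLib.Dickson.card_A4'
  have hgcd : Nat.gcd 2 (p - 1) = 2 := Nat.gcd_eq_left (by omega)
  have hG := CfsgLib.Dickson.card_PSL2 hF
  rw [hgcd] at hG
  refine ⟨φ.range, CfsgLib.Dickson.coatom_of _ ?_ ?_, ⟨(MonoidHom.ofInjective hφ).symm⟩⟩
  · intro e
    rw [e, Subgroup.card_top] at hc0
    rw [hc0] at hG
    have : 6 * (5 * 4) ≤ (p + 1) * (p * (p - 1)) := Nat.mul_le_mul (by omega) (Nat.mul_le_mul h5 (by omega))
    omega
  · intro H hle hH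
    have hdvd : 12 ∣ Nat.card H := by
      rw [← hc0]
      exact Subgroup.card_dvd_of_le hle
    have hnum := CfsgLib.Dickson.card_dvd_num hF H
    rw [hgcd] at hnum
    rcases CfsgLib.Dickson.A4_over p hoddp φ hφ H hle with e | e | e | ⟨K, hK3, hK⟩
    · apply CfsgLib.Dickson.le_of_card _ _ hle
      rw [hc0, Nat.card_congr e.some.toEquiv, CfsgLib.Dickson.card_A4']
    · exfalso
      rw [Nat.card_congr e.some.toEquiv, CfsgLib.Dickson.card_S4'] at hnum
      have h16 : 16 ∣ p * ((p + 1) * (p - 1)) := by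
        have e1 : (p + 1) * (p * (p - 1)) = p * ((p + 1) * (p - 1)) := by ring
        rw [← e1]
        exact Dvd.dvd.trans (by norm_num) hnum
      have hco : Nat.Coprime 16 p := by
        have : Nat.Coprime (2 ^ 4) p := Nat.Coprime.pow_left 4 (by rw [Nat.coprime_two_left]; exact hoddp)
        simpa using this
      have h17 := hco.dvd_of_dvd_mul_left h16
      have h18 : (p + 1) * (p - 1) % 16 = 8 := by
        rw [Nat.mul_mod]
        have h19 : p % 16 = 3 ∨ p % 16 = 5 ∨ p % 16 = 11 ∨ p % 16 = 13 := by omega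
        rcases h19 with h | h | h | h
        · rw [show (p + 1) % 16 = 4 by omega, show (p - 1) % 16 = 2 by omega]
        · rw [show (p + 1) % 16 = 6 by omega, show (p - 1) % 16 = 4 by omega]
        · rw [show (p + 1) % 16 = 12 by omega, show (p - 1) % 16 = 10 by omega]
        · rw [show (p + 1) % 16 = 14 by omega, show (p - 1) % 16 = 12 by omega]
      omega
    · exfalso
      have hcH : Nat.card H = 60 := by
        rw [Nat.card_congr e.some.toEquiv, CfsgLib.Dickson.card_A5']
      rw [hcH] at hnum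
      have h5' : 5 ∣ (p + 1) * (p * (p - 1)) := Dvd.dvd.trans (by norm_num) hnum
      have hp5 : Nat.Prime 5 := by norm_num
      rcases (Nat.Prime.dvd_mul hp5).1 h5' with h | h
      · omega
      · rcases (Nat.Prime.dvd_mul hp5).1 h with h | h
        · have : p = 5 := ((Nat.prime_dvd_prime_iff_eq hp5 hpp).1 h).symm
          subst this
          apply hH
          apply Subgroup.eq_top_of_le_card
          rw [hcH]
          rw [show (5 + 1) * (5 * (5 - 1)) = 120 from rfl] at hG
          omega
        · omega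
    · exfalso
      apply hH
      obtain ⟨m, hm⟩ := CfsgLib.Dickson.exists_degree K
      rw [hF] at hm
      have hK1 : Nat.card K = p := ((Nat.Prime.pow_eq_iff hpp).1 hm).1
      exact CfsgLib.Dickson.subfield_full hF H K hK hK1

end Cfsg.Agent.S5940
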