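import Mathlib
import Cfsg.Agent.Lib.ClassMax.SingerConj
import Cfsg.Statements.S5947
-- import your own Cfsg.Agent.* helpers here

set_option autoImplicit false
open Cfsg

namespace Cfsg.Agent.S5947

/-- Let F ⊆ K be finite fields with |F| = q and [K : F] = n ≥ 2, regard K as an n-dimensional F-vector space, and let M ≤ GL_F(K) be the Singer group of multiplications by non-zero elements of K (cyclic of order q^n − 1). Assume (n, q) ≠ (6, 2), and that it is not the case that n = 2 with q a prime such that q + 1 is a power of 2. Then every abelian subgroup of GL_F(K) of order q^n − 1 is conjugate to M. -/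
theorem result {F K : Type*} [Field F] [Fintype F] [Field K] [Fintype K] [Algebra F K] (n : ℕ) (hn : 2 ≤ n) (hdim : Module.finrank F K = n)
    (hex1 : ¬ (n = 6 ∧ Fintype.card F = 2))
    (hex2 : ¬ (n = 2 ∧ (Fintype.card F).Prime ∧ ∃ a : ℕ, Fintype.card F + 1 = 2 ^ a))
    (U : Subgroup (Module.End F K)ˣ) (hU : IsMulCommutative U) (hcard : Nat.card U = Fintype.card K - 1) :
    ∃ g : (Module.End F K)ˣ, U.map (MulAut.conj g).toMonoidHom = (Units.map ((Algebra.lmul F K : K →ₐ[F] Module.End F K) : K →* Module.End F K)).range := by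
  classical
  have hq2 : 1 < Fintype.card F := Fintype.one_lt_card
  have hcK : Fintype.card K = Fintype.card F ^ n := by
    rw [Module.card_eq_pow_finrank (K := F) (V := K), hdim]
  obtain ⟨p, hpc⟩ := CharP.exists F
  obtain ⟨f, hpp, hf⟩ := FiniteField.card F p
  have h2 : ¬ (n = 2 ∧ ∃ m : ℕ, Fintype.card F + 1 = 2 ^ m) := by
    rintro ⟨hn2, a, ha⟩
    apply hex2
    refine ⟨hn2, ?_, a, ha⟩
    have h3 : (f : ℕ) = 1 := by
      apply CfsgLib.ClassMax.SingerConj.pow_add_one_two_pow hpp f.pos
      rw [← hf]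
      exact ha
    rw [hf, h3, pow_one]
    exact hpp
  obtain ⟨r, hr, hrd, hrk⟩ := CfsgLib.ClassMax.Zsig.zsigmondy (Fintype.card F) n hq2 (by omega) (fun h => hex1 ⟨h.2, h.1⟩) h2
  have hrU : r ∣ Nat.card U := by
    rw [hcard, hcK]
    exact hrd
  haveI : Fact r.Prime := ⟨hr⟩
  haveI : Finite (Module.End F K) := Module.finite_of_finite F
  haveI : Finite U := inferInstance
  obtain ⟨y, hy⟩ := exists_prime_orderOf_dvd_card' r hrU
  have hx : orderOf (y : (Module.End F K)ˣ) = r := by
    rw [Subgroup.orderOf_coe, hy]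
  have hr0 : (r : F) ≠ 0 := by
    intro h0
    have h3 : p ∣ r := (CharP.cast_eq_zero_iff F p r).mp h0
    have h4 : p = r := (Nat.prime_dvd_prime_iff_eq hpp hr).mp h3
    have h5 : r ∣ Fintype.card F ^ n := by
      rw [hf, ← h4]
      exact Dvd.dvd.trans (dvd_pow_self p f.ne_zero) (dvd_pow_self _ (by omega))
    have h6 : 1 ≤ Fintype.card F ^ n := Nat.one_le_pow _ _ (by omega)
    have h7 := Nat.dvd_sub h5 hrd
    have e : Fintype.card F ^ n - (Fintype.card F ^ n - 1) = 1 := by omega
    rw [e] at h7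
    exact hr.one_lt.ne' (Nat.dvd_one.mp h7)
  obtain ⟨hirr, hdeg⟩ := CfsgLib.ClassMax.SingerConj.irr_of_order hdim (y : (Module.End F K)ˣ) hr hx hr0 hrk
  obtain ⟨g, hg⟩ := CfsgLib.ClassMax.SingerConj.exists_conj hdim (y : (Module.End F K)ˣ) hirr hdeg
  have hinj : Function.Injective (Units.map ((Algebra.lmul F K : K →ₐ[F] Module.End F K) : K →* Module.End F K)) := by
    apply Units.map_injective
    intro a b e
    have := congrArg (fun f : Module.End F K => f 1) e
    simpa using this
  refine ⟨g, Subgroup.eq_of_le_of_card_ge ?_ ?_⟩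
  · rintro _ ⟨u, hu, rfl⟩
    apply hg u
    have h3 : (⟨u, hu⟩ : U) * y = y * ⟨u, hu⟩ := hU.is_comm.comm _ _
    have h4 := congrArg (fun z : U => ((z : (Module.End F K)ˣ) : Module.End F K)) h3
    exact h4
  · rw [Subgroup.card_map_of_injective (MulEquiv.injective _), hcard]
    rw [← Nat.card_congr (MonoidHom.ofInjective hinj).toEquiv, Nat.card_units, Nat.card_eq_fintype_card]

end Cfsg.Agent.S5947
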